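import Cfsg.Statements.S2431
import Cfsg.Agent.H4.Dick9

set_option autoImplicit false
open Cfsg

namespace Cfsg.Agent.S2431

/-- Let F be a finite field with q elements, q odd, and S a Sylow 2-subgroup of SL₂ over F. The centraliser of S is the centre of SL₂ (of order 2); S is its own normaliser when q ≡ ±1 mod 8, and has index 3 in its normaliser when q ≡ ±3 mod 8. -/
theorem result {F : Type*} [Field F] [Fintype F] (hodd : Odd (Fintype.card F)) (S : Sylow 2 (Matrix.SpecialLinearGroup (Fin 2) F)) :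
    Subgroup.centralizer ((S : Subgroup (Matrix.SpecialLinearGroup (Fin 2) F)) : Set (Matrix.SpecialLinearGroup (Fin 2) F)) = Subgroup.center (Matrix.SpecialLinearGroup (Fin 2) F) ∧
    ((Fintype.card F % 8 = 1 ∨ Fintype.card F % 8 = 7) →
      Subgroup.normalizer ((S : Subgroup (Matrix.SpecialLinearGroup (Fin 2) F)) : Set (Matrix.SpecialLinearGroup (Fin 2) F)) = (S : Subgroup (Matrix.SpecialLinearGroup (Fin 2) F))) ∧
    ((Fintype.card F % 8 = 3 ∨ Fintype.card F % 8 = 5) →
      Nat.card (Subgroup.normalizer ((S : Subgroup (Matrix.SpecialLinearGroup (Fin 2) F)) : Set (Matrix.SpecialLinearGroup (Fin 2) F))) = 3 * Nat.card S) := by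
  open Cfsg.Agent.H4 in
  obtain ⟨p, _, _⟩ := exists_char F
  have h2 : (2 : F) ≠ 0 := odd_card_iff.1 hodd
  have ho := Nat.odd_iff.1 hodd
  have hneg : -1 ∈ (S : Subgroup (Matrix.SpecialLinearGroup (Fin 2) F)) :=
    mem_sylow_of_pow S (k := 1) (Subgroup.center_le_normalizer _ (mem_center_SL2.2 (Or.inr rfl))) (by simp)
  have hc := card_map_toPGL h2 hneg
  have h8 : 8 ∣ Fintype.card F ^ 2 - 1 := by
    by_cases h : Fintype.card F % 8 = 3 ∨ Fintype.card F % 8 = 5
    · obtain ⟨m, hm, -⟩ := sq_sub_one_mod h; exact ⟨m, hm⟩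
    · exact Dvd.dvd.trans (by norm_num) (sixteen_dvd (by omega))
  have hS : ∀ k, 2 ^ k ∣ Fintype.card F ^ 2 - 1 → 2 ^ k ∣ Nat.card S := fun k hk =>
    S.pow_dvd_card_of_pow_dvd_card (by rw [card_SL_two]; exact hk.mul_left _)
  have hS8 := Nat.le_of_dvd Nat.card_pos (hS 3 h8)
  obtain ⟨x, y, hxy, hle, hne⟩ := (dact F p).exists_PS_of_isPGroup (char_ne_two_of h2).symm
    (S.isPGroup'.map Matrix.SpecialLinearGroup.toPGL) (fun e => by rw [e, Subgroup.card_bot] at hc; omega)
  obtain ⟨_, ⟨a, ha, rfl⟩, a1, ax⟩ := exists_of_St_ne_bot hne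
  have ay := fix_of_mem_PS hxy (hle (Subgroup.mem_map_of_mem _ ha)) ax
  have ht := tp_of_fix (p := p) a1 hxy ax ay
  have haT := mem_TS.2 ⟨ax, ay⟩
  have hN : (S : Subgroup _) ≤ NS x y := fun g hg => hle (Subgroup.mem_map_of_mem _ hg)
  obtain ⟨s, hs, hs'⟩ : ∃ s ∈ (S : Subgroup _), s ∉ TS x y := by
    by_contra h
    push Not at h
    refine S.not_dvd_index (Dvd.dvd.trans ?_ (Subgroup.index_dvd_of_le h))
    rw [← Subgroup.relIndex_mul_index TS_le_NS]
    exact Dvd.dvd.mul_right ht.index_TS.symm.dvd _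
  refine ⟨le_antisymm (fun c hc => ?_) (Subgroup.center_le_centralizer _), fun h => le_antisymm (fun g hg => ?_)
    Subgroup.le_normalizer, fun h => ?_⟩
  · have h3 : c ∈ TS x y := ht.centralizer_TS haT a1 ▸
      Subgroup.centralizer_le (Set.singleton_subset_iff.2 ha) hc
    have h4 := ht.NS_conj (hN hs) hs' h3
    rw [hc s hs, mul_inv_cancel_right, eq_inv_iff_mul_eq_one, ← sq, sq_eq_one_iff_SL h2] at h4
    exact mem_center_SL2.2 h4
  · have h3 := Nat.le_of_dvd Nat.card_pos (hS 4 (sixteen_dvd h))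
    haveI := ht.isCyclic_TS
    obtain ⟨c, hc⟩ := (Subgroup.isCyclic_iff_exists_zpowers_eq_top _).1
      (Subgroup.isCyclic_of_le (inf_le_left : TS x y ⊓ S ≤ TS x y))
    have h4 : (TS x y).relIndex S ≤ 2 := by
      haveI := Subgroup.normal_of_index_eq_two ht.index_TS
      exact (Subgroup.relIndex_le_of_le_right hN (by rw [Subgroup.relIndex, ht.index_TS]; norm_num)).trans
        ht.index_TS.le
    have h5 := ((TS x y).subgroupOf S).card_mul_index
    rw [← Subgroup.inf_subgroupOf_right, Nat.card_congr (Subgroup.subgroupOfEquivOfLe inf_le_right).toEquiv,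
      Subgroup.inf_subgroupOf_right, ← Subgroup.relIndex, ← hc, Nat.card_zpowers] at h5
    have hc1 := hc.le (Subgroup.mem_zpowers c)
    have h6 : Matrix.SpecialLinearGroup.toPGL (c ^ 2) ≠ 1 := fun e => by
      have : c ^ 4 = 1 := by
        rw [show 4 = 2 * 2 from rfl, pow_mul]
        rcases toPGL_eq_one_iff.1 e with e | e <;> rw [e] <;> simp
      have := orderOf_le_of_pow_eq_one (by norm_num) this
      nlinarith
    have h7 := sq_fix_of_PS (hN ((Subgroup.mem_normalizer_iff''.1 hg c).1 hc1.2))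
    rw [← map_pow, conj_pow', map_mul, map_mul, map_inv] at h7
    have h9 : g ∈ NS x y := (dact F p).mem_PS_of_conj h6 hxy (mem_TS.1 (pow_mem hc1.1 2)).1
      (mem_TS.1 (pow_mem hc1.1 2)).2 h7.1 h7.2
    by_cases hT : g ∈ TS x y
    · have h10 : g ^ 2 ∈ (S : Subgroup _) := by
        have := mul_mem ((Subgroup.mem_normalizer_iff.1 hg s).1 hs) (inv_mem hs)
        rwa [mul_assoc, mul_assoc, ← mul_assoc s, ht.NS_conj (hN hs) hs' (inv_mem hT), inv_inv, ← sq] at this
      obtain ⟨k, hk⟩ := S.isPGroup' ⟨_, h10⟩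
      exact mem_sylow_of_pow S hg (k := k + 1) (by rw [pow_succ', pow_mul]; exact congrArg Subtype.val hk)
    · exact mem_sylow_of_pow S hg (k := 2) (by rw [sq, pow_mul, sq g, ht.NS_sq h2 h9 hT]; simp)
  · obtain ⟨m, hm, hm2⟩ := sq_sub_one_mod h
    have h3 : Nat.card S = 2 ^ 3 := card_sylow_eq S (m := Fintype.card F * m) (by rw [card_SL_two, hm]; ring)
      fun h => ((Nat.Prime.dvd_mul Nat.prime_two).1 h).elim (by omega) hm2
    obtain ⟨u, v, hk, e⟩ := exists_KP (isKleinFour_of_le_LL h (Subgroup.map_le_range _ (S : Subgroup _)) (by omega))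
    have h4 := hk.card_normalizer_LL h2 (Subgroup.map_le_range _ _ (e.ge (left_mem_V4 u v)))
      (Subgroup.map_le_range _ _ (e.ge (right_mem_V4 u v)))
    rw [if_neg (by omega)] at h4
    rw [normalizer_eq_comap hneg, e, card_comap_eq, card_ker_toPGL, gcd_two_odd hodd, h3]
    exact congrArg (2 * ·) h4

end Cfsg.Agent.S2431
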