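import Cfsg.Statements.S3276
import Mathlib
import Cfsg.Agent.H2.Inv3
import Cfsg.Agent.H1.PGrp

set_option autoImplicit false
open Cfsg

namespace Cfsg.Agent.S3276

open Cfsg.Agent.H2 Cfsg.Agent.H8 Subgroup
open scoped commutatorElement

/-- Let x and y be commuting, non-conjugate involutions of a finite group G, and suppose that for every involution u commuting with x, each conjugate of y that commutes with u also commutes with y. Then the normal closure of y is a proper, normal, elementary abelian 2-subgroup of G; and if y is the only involution of that normal closure commuting with x, it has order at most 4. -/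
theorem result {G : Type*} [Group G] [Finite G] (x y : G) (hx : orderOf x = 2) (hy : orderOf y = 2)
    (hxy : Commute x y) (hnc : ¬ IsConj x y)
    (hstar : ∀ u : G, orderOf u = 2 → Commute u x → ∀ g : G, Commute (g * y * g⁻¹) u → Commute (g * y * g⁻¹) y) :
    Subgroup.normalClosure ({y} : Set G) ≠ ⊤ ∧ Cfsg.IsElementaryAbelian 2 (Subgroup.normalClosure ({y} : Set G)) ∧
      ((∀ u ∈ Subgroup.normalClosure ({y} : Set G), orderOf u = 2 → Commute u x → u = y) →
        Nat.card ↥(Subgroup.normalClosure ({y} : Set G)) ≤ 4) := by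
  have h1 : ∀ g : G, Commute (g * y * g⁻¹) y := fun g => by
    have ho : orderOf (g * y * g⁻¹) = 2 := by rw [H2.orderOf_conj', hy]
    rcases Nat.even_or_odd (orderOf (x * (g * y * g⁻¹))) with h | h
    · obtain ⟨h2, h3, h4⟩ := half_spec (ord2_mul_self hx) (ord2_mul_self ho) h
      exact hstar _ h2 h3 g h4.symm
    · exact absurd ((isConj_of_odd (ord2_mul_self hx) (ord2_mul_self ho) h).trans
        (isConj_iff.2 ⟨g, rfl⟩).symm) hnc
  have h2 : normalClosure ({y} : Set G) ≤ centralizer ({y} : Set G) := by
    refine (closure_le _).2 fun a ha => ?_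
    obtain ⟨b, rfl, hb⟩ := Group.mem_conjugatesOfSet_iff.1 ha
    obtain ⟨g, rfl⟩ := isConj_iff.1 hb
    exact mem_centralizer_singleton_iff.2 (h1 g)
  have h3 : normalClosure ({y} : Set G) ≤ centralizer (normalClosure ({y} : Set G) : Set G) :=
    normalClosure_le_normal (Set.singleton_subset_iff.2 fun a ha => mem_centralizer_singleton_iff.1 (h2 ha))
  have h4 : ∀ a ∈ normalClosure ({y} : Set G), a * a = 1 := fun a ha => by
    induction ha using closure_induction with
    | mem a ha =>
      obtain ⟨b, rfl, hb⟩ := Group.mem_conjugatesOfSet_iff.1 ha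
      exact ord2_mul_self (orderOf_of_isConj hb ▸ hy)
    | one => simp
    | mul a b ha hb iha ihb =>
      rw [mul_assoc, ← mul_assoc b, h3 ha b hb, mul_assoc, ihb, mul_one, iha]
    | inv a ha iha => rw [← mul_inv_rev, iha, inv_one]
  refine ⟨fun e => hnc ?_, ⟨⟨⟨fun a b => Subtype.ext (h3 b.2 a a.2)⟩⟩, fun a ha => (pow_two a).trans (h4 a ha)⟩,
    fun h => ?_⟩
  · haveI : (zpowers y).Normal := normal_of_top_le (le_normalizer_of_le_centralizer (by
      rw [centralizer_zpowers]; exact e.ge.trans h2))
    have h5 : normalClosure ({y} : Set G) ≤ zpowers y := normalClosure_le_normal (by simp)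
    rcases (mem_zpowers_invol (ord2_mul_self hy)).1 (h5 (e.ge (mem_top x))) with e | e
    · exact absurd e (ord2_ne_one hx)
    · rw [e]
  · have h5 : centralizer ({x} : Set G) ⊓ normalClosure ({y} : Set G) ≤ zpowers y := fun u hu => by
      by_cases h1 : u = 1
      · exact h1 ▸ one_mem _
      · exact h u hu.2 (ord2_of (h4 u hu.2) h1) (mem_centralizer_singleton_iff.1 hu.1) ▸ mem_zpowers y
    have h6 := H1.relIndex_centralizer_le_card (x := x) (B := normalClosure ({y} : Set G)) (D := zpowers y)
      fun g hg => h5 ⟨?_, ?_⟩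
    · have h7 := H1.card_mul_relIndex (inf_le_right : centralizer ({x} : Set G) ⊓ normalClosure ({y} : Set G) ≤ _)
      have h8 := card_le_of_le h5
      rw [inf_relIndex_right] at h7
      rw [Nat.card_zpowers, hy] at h6 h8
      rw [← h7]
      exact Nat.mul_le_mul h8 h6
    · have hg' : x * g * x⁻¹ ∈ normalClosure ({y} : Set G) := Normal.conj_mem inferInstance g hg x
      have h7 := h3 hg _ hg'
      have h8 : g⁻¹ = g := inv_eq_of_mul_eq_one_right (h4 g hg)
      refine mem_centralizer_singleton_iff.2 ?_
      rw [commutatorElement_def, h8, ord2_inv hx] at *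
      calc g * x * g * x * x = g * x * g := by rw [mul_assoc _ x, ord2_mul_self hx, mul_one]
        _ = x * (x * g * x * g) := by rw [← mul_assoc, ← mul_assoc, ← mul_assoc, ord2_mul_self hx, one_mul]
        _ = x * (g * x * g * x) := by rw [h7]; simp only [mul_assoc]
    · have : ⁅g, x⁆ = g * (x * g⁻¹ * x⁻¹) := by simp [commutatorElement_def, mul_assoc]
      rw [this]
      exact mul_mem hg (Normal.conj_mem inferInstance _ (inv_mem hg) x)

end Cfsg.Agent.S3276
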