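import Cfsg.Statements.S0566
import Cfsg.Agent.H1.Misc

set_option autoImplicit false
open Pointwise
open Cfsg

namespace Cfsg.Agent.S0566

open Cfsg.Agent.H1

open Pointwise in
theorem aux {G : Type*} [Group G] [Finite G] (A B : Subgroup G)
    (h : ∀ x : G, A ⊔ MulAut.conj x • B ≠ ⊤ ∧ ∀ g ∈ A ⊔ MulAut.conj x • B, ∃ a ∈ A, ∃ b ∈ MulAut.conj x • B, g = a * b) :
    ∃ N : Subgroup G, N.Normal ∧ N ≠ ⊤ ∧ (A ≤ N ∨ B ≤ N) := by
  induction A using WellFoundedGT.induction with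
  | ind A ih =>
  by_cases hA : A.Normal
  · exact ⟨A, hA, fun e => (h 1).1 (by simp [e]), Or.inl le_rfl⟩
  by_cases hB : ∀ x : G, MulAut.conj x • B ≤ Subgroup.normalizer (A : Set G)
  · refine ⟨(Subgroup.normalizer (A : Set G)).normalCore, inferInstance, fun e => hA
      (normal_of_top_le_normalizer (e ▸ Subgroup.normalCore_le _)), Or.inr fun b hb x => hB x (conj_mem_conj_smul.2 hb)⟩
  push Not at hB
  obtain ⟨x, hx⟩ := hB
  obtain ⟨b, hb, hbA⟩ := SetLike.not_le_iff_exists.1 hx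
  have hp : ∀ y : G, ∀ g ∈ A ⊔ MulAut.conj b • A ⊔ MulAut.conj y • B, ∃ a ∈ A ⊔ MulAut.conj b • A, ∃ c ∈ MulAut.conj y • B, g = a * c := fun y => by
    refine perm_sup (h y).2 ?_
    have := forall_mul_conj_smul (h (b⁻¹ * y)).2 b
    rwa [Subgroup.smul_sup, conj_smul_conj_smul, mul_inv_cancel_left] at this
  obtain ⟨N, h1, h2, h3⟩ := ih (A ⊔ MulAut.conj b • A) (lt_of_le_of_ne le_sup_left fun e => hbA
    (mem_normalizer_of_conj_mem (conj_smul_le_iff.1 (le_sup_right.trans e.ge)))) fun y => ⟨fun e => (h x).1 (by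
      have h4 := sup_eq_top_of_forall_mul (forall_mul_conj_conj (fun g => hp y g (e ▸ Subgroup.mem_top g)) 1 (x * y⁻¹))
      rw [conj_one_smul, conj_smul_conj_smul, inv_mul_cancel_right] at h4
      rw [eq_top_iff, ← h4]
      refine sup_le (sup_le le_sup_left ?_) le_sup_right
      exact (conj_smul_mono b le_sup_left).trans (conj_smul_eq_self_iff.2 (Subgroup.le_normalizer (Subgroup.mem_sup_right hb))).le), hp y⟩
  exact ⟨N, h1, h2, h3.imp_left le_sup_left.trans⟩

/-- Let A and B be nontrivial subgroups of a finite group G such that for every x the product set of A and xBx⁻¹ is a proper subgroup of G. Then there is a proper normal subgroup of G containing A or containing B. -/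
theorem result {G : Type*} [Group G] [Finite G] (A B : Subgroup G) (hA : A ≠ ⊥) (hB : B ≠ ⊥) (h : ∀ x : G, ∃ S : Subgroup G, S ≠ ⊤ ∧ (S : Set G) = (A : Set G) * ((MulAut.conj x • B : Subgroup G) : Set G)) : ∃ N : Subgroup G, N.Normal ∧ N ≠ ⊤ ∧ (A ≤ N ∨ B ≤ N) := by
  refine aux A B fun x => ?_
  obtain ⟨S, hS, e⟩ := h x
  obtain ⟨h1, h2, h3⟩ := coe_eq_mul_iff.1 e
  exact ⟨fun e => hS (eq_top_iff.2 (e ▸ sup_le h1 h2)), fun g hg => h3 g (sup_le h1 h2 hg)⟩

end Cfsg.Agent.S0566
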