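import Cfsg.Statements.S4888
import Cfsg.Agent.B.Fong
import Cfsg.Agent.C3.Canon

set_option autoImplicit false
open Cfsg

namespace Cfsg.Agent.S4888

open Cfsg.Agent Cfsg.Agent.B Cfsg.Agent.H2 Cfsg.Agent.H3 Cfsg.Agent.L Cfsg.Agent.C3 Subgroup MonoidAlgebra
open scoped Pointwise commutatorElement
theorem lin_iff {G : Type*} [Group G] [Finite G] {p : ℕ} [Fact p.Prime] {M : Ideal AlgInt} [PMod p M]
    (l : G →* ℂˣ) : (⟨_, isIrrCharacter_linear l⟩ : IrrCharacter G) ∈ principalBlock M G ↔
      ∀ g, ((centralizer ({g} : Set G)).index : F M) = (centralizer ({g} : Set G)).index * red M (l g) := by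
  have h1 := isIrrCharacter_linear l
  refine (sameBlock_iff isIrrCharacter_one h1).trans (forall_congr' fun g => ?_)
  rw [← om_cls isIrrCharacter_one.isClassFunction, ← om_cls h1.isClassFunction, om_apply, om_apply,
    ev_cls isIrrCharacter_one.isClassFunction, ev_cls h1.isClassFunction, mul_one, div_one, map_one,
    Units.val_one, div_one, red_mul (natCast_mem _ _) (char_mem_O h1.isCharacter g), red_natCast]


/-- Let G be a finite group, p a prime and M a maximal ideal of the algebraic integers containing p. Then all height-zero irreducible characters of the principal p-block of G (equivalently, all its characters of degree prime to p) have the same degree if and only if G has a normal p-complement. -/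
theorem result {G : Type*} [Group G] [Finite G] (p : ℕ) [Fact p.Prime] (M : Ideal Cfsg.AlgInt) (hM : Cfsg.IsPModular p M) : (∃ d : ℕ, ∀ χ : Cfsg.IrrCharacter G, χ ∈ (Cfsg.principalBlock M G) → Cfsg.blockHeight p (Cfsg.principalBlock M G) (χ : G → ℂ) = 0 → Cfsg.charDegree (χ : G → ℂ) = d) ↔ Cfsg.HasNormalPComplement p G := by
  have : PMod p M := ⟨hM⟩
  classical
  set K := pResidual p G with hK
  obtain ⟨j, hj⟩ := index_pResidual p G
  have hnu : ∀ χ ∈ principalBlock M G, blockHeight p (principalBlock M G) (χ : G → ℂ) = 0 ↔
      ¬ p ∣ charDegree (χ : G → ℂ) := fun χ hχ => by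
    have h1 := nu_add_blockDefect (p := p) hχ
    rw [defect_principal] at h1
    refine ⟨fun h h2 => ?_, blockHeight_eq_zero_of_not_dvd⟩
    have := (Fact.out : p.Prime).factorization_pos_of_dvd χ.2.charDegree_pos.ne' h2
    unfold nu at h1
    omega
  rw [hasNPC_iff_top]
  constructor
  · rintro ⟨d, hd⟩
    have hd1 : d = 1 := by
      rw [← hd _ oneIrr_mem (blockHeight_one _)]
      exact charDegree_eq (by simp [oneIrr])
    subst hd1
    have hK' : ¬ p ∣ Nat.card K := by
      intro hdvd
      obtain ⟨P⟩ : Nonempty (Sylow p G) := inferInstance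
      letI : MulAction (P : Subgroup G) (IrrCharacter K) :=
        { smul := fun u θ => cjI (u : G)⁻¹ θ
          one_smul := fun θ => Subtype.ext (by
            change cjf ((1 : (P : Subgroup G)) : G)⁻¹ θ.1 = θ.1
            rw [OneMemClass.coe_one, inv_one, cjf_one])
          mul_smul := fun u v θ => Subtype.ext (by
            change cjf ((u * v : (P : Subgroup G)) : G)⁻¹ θ.1 = cjf (u : G)⁻¹ (cjf (v : G)⁻¹ θ.1)
            rw [← cjf_mul, Subgroup.coe_mul, mul_inv_rev]) }
      have hs : ∀ (u : (P : Subgroup G)) (θ : IrrCharacter K), u • θ = cjI (u : G)⁻¹ θ := fun _ _ => rfl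
      let φ : IrrCharacter K → F M := fun θ =>
        if θ ∈ principalBlock M K then (charDegree (θ : K → ℂ) : F M) ^ 2 else 0
      have h1 : ∑ θ, φ θ = 0 := by
        have h2 := (IsPBlock.closed (isPBlock_principal (M := M) (G := K))).blockCoeff_mem 1
        have h3 : (Nat.card K : ℂ) * blockCoeff (principalBlock M K) 1 =
            ((∑ θ : IrrCharacter K, if θ ∈ principalBlock M K then charDegree (θ : K → ℂ) ^ 2 else 0 : ℕ) : ℂ) := by
          rw [blockCoeff_eq, mul_inv_cancel_left₀ card_ne_zero]
          push_cast
          refine Finset.sum_congr rfl fun θ _ => ?_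
          rw [inv_one, θ.2.cast_charDegree, sq]
        have h4 := congrArg (red M) h3
        rw [red_mul (natCast_mem _ _) h2, red_natCast, (natCast_F_eq_zero_iff _).2 hdvd, zero_mul, red_natCast] at h4
        rw [h4]
        push_cast
        rfl
      rw [sum_eq_sum_fixed P.isPGroup' φ fun u θ => by
        have h2 : cjI (u : G)⁻¹ θ ∈ principalBlock M K ↔ θ ∈ principalBlock M K :=
          ⟨fun h => by
            have := cjI_mem_principal h u
            rwa [show cjI (u : G) (cjI (u : G)⁻¹ θ) = θ from Subtype.ext (cjf_cjf_inv _ _)] at this,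
            fun h => cjI_mem_principal h _⟩
        have h3 : charDegree (cjI (u : G)⁻¹ θ : K → ℂ) = charDegree (θ : K → ℂ) :=
          charDegree_eq (by rw [coe_cjI, cjf_apply_one, θ.2.cast_charDegree])
        simp only [φ, hs, h2, h3]] at h1
      have hfix : ∀ θ : IrrCharacter K, (∀ u : (P : Subgroup G), u • θ = θ) ↔ ∀ g : G, cjf g (θ : K → ℂ) = θ := by
        refine fun θ => ⟨fun h => ?_, fun h u => Subtype.ext (h _)⟩
        rw [← inertia_eq_top_iff, eq_top_iff, ← pResidual_sup_sylow P]
        refine sup_le θ.2.isClassFunction.le_inertia fun u hu => ?_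
        have := congrArg Subtype.val (h ⟨u, hu⟩⁻¹)
        rw [hs, coe_cjI] at this
        simpa [mem_inertia] using this
      let A : Subgroup (K →* ℂˣ) :=
        { carrier := {l | (∀ g, ((centralizer ({g} : Set K)).index : F M) =
              (centralizer ({g} : Set K)).index * red M (l g)) ∧ ∀ (g : G) n, l (MulAut.conjNormal g n) = l n}
          one_mem' := ⟨fun g => by simp, fun _ _ => rfl⟩
          mul_mem' := fun {a b} ha hb => ⟨fun g => by
            rw [MonoidHom.mul_apply, Units.val_mul, red_mul (char_mem_O (isCharacter_linear a) g)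
              (char_mem_O (isCharacter_linear b) g), ← mul_assoc, ← ha.1, ← hb.1], fun g n => by
            rw [MonoidHom.mul_apply, MonoidHom.mul_apply, ha.2, hb.2]⟩
          inv_mem' := fun {a} ha => ⟨fun g => by
            have h := red_ne_zero_of_pow_eq_one (M := M) Nat.card_pos.ne' (linear_pow_card a g)
            rw [MonoidHom.inv_apply, Units.val_inv_eq_inv_val, red_inv h, eq_mul_inv_iff_mul_eq₀ h, ← ha.1],
            fun g n => by rw [MonoidHom.inv_apply, MonoidHom.inv_apply, ha.2]⟩ }
      let ι : A → IrrCharacter K := fun l => ⟨_, isIrrCharacter_linear l.1⟩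
      have hι : Function.Injective ι := fun a b h => Subtype.ext (linear_injective (congrArg Subtype.val h))
      haveI : Finite A := Finite.of_injective ι hι
      haveI : Fintype A := Fintype.ofFinite A
      have h2 : ∑ θ ∈ Finset.univ.filter (fun θ : IrrCharacter K => ∀ u : (P : Subgroup G), u • θ = θ), φ θ =
          ∑ l : A, (1 : F M) := by
        symm
        refine Finset.sum_of_injOn ι hι.injOn (fun l _ => ?_) (fun θ h3 h4 => ?_) fun l _ => ?_
        · refine Finset.mem_filter.2 ⟨Finset.mem_univ _, (hfix _).2 fun g => funext fun n => ?_⟩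
          exact congrArg Units.val (l.2.2 g n)
        · have h5 := (hfix _).1 (Finset.mem_filter.1 h3).2
          simp only [φ]
          split_ifs with h6
          · by_contra h7
            have h8 : ¬ p ∣ charDegree (θ : K → ℂ) := fun h =>
              h7 (by rw [(natCast_F_eq_zero_iff _).2 h, zero_pow two_ne_zero])
            obtain ⟨χ, a, b, -⟩ := exists_canon hj θ.2 h5 h8 (not_dvd_detOrder pResidual_pResidual θ.2.isCharacter)
            haveI : Fintype K := Fintype.ofFinite K
            have c : (⟨χ, a⟩ : IrrCharacter G) ∈ principalBlock M G := over_mem_principal hj h6 (by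
              rw [show (fun n : K => χ n) = θ from funext b, θ.2.inner_self]
              exact one_ne_zero)
            have e : charDegree χ = charDegree (θ : K → ℂ) :=
              charDegree_eq (by rw [θ.2.cast_charDegree, ← b]; rfl)
            have f := hd _ c ((hnu _ c).2 (e ▸ h8))
            obtain ⟨l, hl⟩ := θ.2.isCharacter.exists_linear (by rw [← θ.2.cast_charDegree, ← e, f, Nat.cast_one])
            obtain rfl : θ = ⟨_, isIrrCharacter_linear l⟩ := Subtype.ext hl
            exact h4 ⟨⟨l, (lin_iff l).1 h6, fun g n => Units.ext (congrFun (h5 g) n)⟩, Finset.mem_univ _, rfl⟩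
          · rfl
        · simp only [φ]
          rw [if_pos ((lin_iff l.1).2 l.2.1), charDegree_eq (n := 1) (by simp [ι])]
          simp
      rw [h2, Finset.sum_const, Finset.card_univ, nsmul_one, natCast_F_eq_zero_iff] at h1
      obtain ⟨l, hl⟩ := exists_prime_orderOf_dvd_card p h1
      exact not_dvd_orderOf_linear (pResidual_pResidual (p := p) (G := G)) l.1 (by rw [Subgroup.orderOf_coe, hl])
    rwa [pNil_iff_card, resOf_top, Nat.coprime_comm, Nat.Prime.coprime_iff_not_dvd Fact.out]
  · intro h
    have hK' : ¬ p ∣ Nat.card K := by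
      rwa [pNil_iff_card, resOf_top, Nat.coprime_comm, Nat.Prime.coprime_iff_not_dvd Fact.out] at h
    refine ⟨1, fun χ hχ h0 => ?_⟩
    have h1 := (hnu χ hχ).1 h0
    rw [principalBlock_eq_of_complement hK' hj] at hχ
    obtain ⟨χ', h2, h3⟩ := χ.2.exists_quotient K hχ
    have h4 : charDegree (χ : G → ℂ) = charDegree χ' := by
      refine charDegree_eq ?_
      rw [h2.cast_charDegree, ← h3]
      rfl
    have h5 := h2.degree_dvd_card
    rw [← index_eq_card, hj, ← h4, Nat.dvd_prime_pow Fact.out] at h5
    obtain ⟨i, -, h6⟩ := h5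
    rcases i with _ | i
    · simpa using h6
    · exact absurd (h6 ▸ dvd_pow_self p i.succ_ne_zero) h1

end Cfsg.Agent.S4888
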