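import Cfsg.Statements.S4456
import Cfsg.Agent.B.Fong
import Cfsg.Agent.S4888

set_option autoImplicit false
open Cfsg

namespace Cfsg.Agent.S4456

open Cfsg.Agent Cfsg.Agent.B Cfsg.Agent.H2 Cfsg.Agent.H3 Cfsg.Agent.L Cfsg.Agent.C3 Subgroup MonoidAlgebra
open scoped Pointwise commutatorElement

/-- Let p be a prime and G a finite group such that p divides the degree of every irreducible character of G of degree greater than one. Then G has a normal p-complement: a normal subgroup of order prime to p whose index is a power of p. -/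
theorem result {G : Type*} [Group G] [Finite G] (p : ℕ) (hp : p.Prime) (hdeg : ∀ χ : Cfsg.IrrCharacter G, Cfsg.charDegree (χ : G → ℂ) ≠ 1 → p ∣ Cfsg.charDegree (χ : G → ℂ)) : ∃ N : Subgroup G, N.Normal ∧ (Nat.card N).Coprime p ∧ ∃ k : ℕ, N.index = p ^ k := by
  haveI := Fact.mk hp
  obtain ⟨M, hM⟩ := exists_pMod p
  have h := (S4888.result (G := G) p M hM.1).1 ⟨1, fun χ hχ h0 => by
    by_contra h
    have h1 := nu_add_blockDefect (p := p) hχ
    have := hp.factorization_pos_of_dvd χ.2.charDegree_pos.ne' (hdeg χ h)
    rw [defect_principal] at h1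
    unfold nu at h1
    omega⟩
  rw [hasNPC_iff_top, pNil_iff_card, resOf_top] at h
  exact ⟨_, inferInstance, h, index_pResidual p G⟩

end Cfsg.Agent.S4456
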