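import Cfsg.Statements.S0282
import Cfsg.Agent.GS.Misc1
import Cfsg.Agent.S0280
import Cfsg.Agent.H1.Burnside

set_option autoImplicit false
open Cfsg

namespace Cfsg.Agent.S0282

open Cfsg.Agent.H1

/-- PSU_3(2) is a solvable group of order 72. -/
theorem result {F : Type*} [Field F] [Fintype F] (hF : Fintype.card F = 4) : Nat.card (Cfsg.PSU 3 F 2) = 72 ∧ Group.IsSolvable (Cfsg.PSU 3 F 2) := by
  open Subgroup Pointwise commutatorElement Cfsg.Agent.BG Cfsg.Agent.GS in
  open Cfsg.Agent.H2 hiding card_lt_of_lt card_lt_of_ne_top isMulCommutative_of_le isPGroup_zpowers_iff mem_of_pow_mem_of_coprime inf_eq_bot_of_cop exists_maxElem_ge Sec in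
  open Cfsg.Agent.H8 (Op Opp Fit SN) in
  open Cfsg.Agent.L (FPF) in focus
    have := S0280.result (q := 2) hF 3 (by decide)
    have c : ♯(Cfsg.PSU 3 F 2) = 72 := by
      simp [Finset.prod_range_succ] at this; omega
    haveI := Nat.finite_of_card_ne_zero (c ▸ by decide : ♯(Cfsg.PSU 3 F 2) ≠ 0)
    refine ⟨c, isSolvable_of_two_primes Nat.prime_two Nat.prime_three fun r hr h => ?_⟩
    rw [c, show 72 = 2 ^ 3 * 3 ^ 2 from rfl, hr.dvd_mul] at h
    exact h.imp (fun h => (Nat.prime_dvd_prime_iff_eq hr Nat.prime_two).1 (hr.dvd_of_dvd_pow h))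
      fun h => (Nat.prime_dvd_prime_iff_eq hr Nat.prime_three).1 (hr.dvd_of_dvd_pow h)

end Cfsg.Agent.S0282
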