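import Cfsg.Statements.S0037
import Cfsg.Agent.L.Frob2
import Cfsg.Agent.S0035

set_option autoImplicit false
open Pointwise
open Cfsg

namespace Cfsg.Agent.S0037

open Cfsg.Agent
open scoped Pointwise commutatorElement

/-- Of two Frobenius complements in one finite group, the one of smaller (or equal) order is conjugate to a subgroup of the other. -/
theorem result {G : Type*} [Group G] [Finite G] (H H₀ : Subgroup G)
    (hH : Cfsg.IsFrobeniusComplement H) (hH₀ : Cfsg.IsFrobeniusComplement H₀) (hle : Nat.card H₀ ≤ Nat.card H) :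
    ∃ g : G, MulAut.conj g • H₀ ≤ H := by
    obtain ⟨N, -, hn, hc⟩ := S0035.result H hH
    obtain ⟨N₀, -, hn₀, hc₀⟩ := S0035.result H₀ hH₀
    have f := L.fpf_of_frobenius hH (disjoint_iff.1 hc.disjoint)
    have f₀ := L.fpf_of_frobenius hH₀ (disjoint_iff.1 hc₀.disjoint)
    have hNN : N ≤ N₀ := by
      rcases f.le_or_ge (M := N₀) Subgroup.le_normalizer_of_normal (hc.sup_eq_top ▸ le_top)
        Subgroup.le_normalizer_of_normal with h | h
      · refine (Subgroup.eq_of_le_of_card_ge h ?_).ge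
        have h1 := hc.card_mul
        have h2 := hc₀.card_mul
        have h3 : 0 < Nat.card H₀ := Nat.card_pos
        by_contra hlt
        push Not at hlt
        nlinarith
      · exact h
    have hN₀ : N₀ ≠ ⊥ := by
      rintro rfl
      exact hH₀.2.1 (by simpa using hc₀.sup_eq_top)
    obtain ⟨⟨z, hz⟩, hz1⟩ := Subgroup.ne_bot_iff_exists_ne_one.1
      (f₀.inf_centralizer_self_ne_bot Subgroup.le_normalizer_of_normal hN₀ hH₀.1)
    have hz1' : z ≠ 1 := fun e => hz1 (Subtype.ext e)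
    have hzN : z ∉ N := fun h => by
      have : z ∈ N₀ ⊓ H₀ := ⟨hNN h, hz.1⟩
      rw [f₀.inf_eq_bot, Subgroup.mem_bot] at this
      exact hz1' this
    obtain ⟨k, -, hk⟩ := f.exists_conj_mem Subgroup.le_normalizer_of_normal
      (hc.sup_eq_top ▸ Subgroup.mem_top z) hzN
    refine ⟨k⁻¹, fun x hx => ?_⟩
    rw [H1.mem_conj_smul, inv_inv] at hx
    refine L.mem_of_conj_mem_of_frobenius hH hk (fun e => hz1' (conj_eq_one_iff.1
      (show k⁻¹ * z * k⁻¹⁻¹ = 1 by simpa using e))) ?_
    have := (Subgroup.mem_inf.1 hz).2 _ hx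
    have e : x * (k⁻¹ * z * k) * x⁻¹ = k⁻¹ * z * k := by
      calc x * (k⁻¹ * z * k) * x⁻¹ = k⁻¹ * (k * x * k⁻¹ * z) * k * x⁻¹ := by group
        _ = k⁻¹ * (z * (k * x * k⁻¹)) * k * x⁻¹ := by rw [this]
        _ = _ := by group
    rwa [e]

end Cfsg.Agent.S0037
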