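import Cfsg.Statements.S0038
import Cfsg.Agent.L.Frob2
import Cfsg.Agent.S0037

set_option autoImplicit false
open Pointwise
open Cfsg

namespace Cfsg.Agent.S0038

open Cfsg.Agent
open scoped Pointwise commutatorElement

/-- All Frobenius complements of a finite group are conjugate to one another. -/
theorem result {G : Type*} [Group G] [Finite G] (H H₀ : Subgroup G)
    (hH : Cfsg.IsFrobeniusComplement H) (hH₀ : Cfsg.IsFrobeniusComplement H₀) :
    ∃ g : G, MulAut.conj g • H₀ = H := by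
    have key : ∀ H H₀ : Subgroup G, IsFrobeniusComplement H → IsFrobeniusComplement H₀ →
        Nat.card H₀ ≤ Nat.card H → ∃ g : G, MulAut.conj g • H₀ = H := by
      intro H H₀ hH hH₀ hle
      obtain ⟨g, hg⟩ := S0037.result H H₀ hH hH₀ hle
      refine ⟨g, le_antisymm hg ?_⟩
      obtain ⟨N, -, hn, hc⟩ := S0035.result H hH
      have f := L.fpf_of_frobenius hH (disjoint_iff.1 hc.disjoint)
      have hN : N ≠ ⊥ := by
        rintro rfl
        exact hH.2.1 (by simpa using hc.sup_eq_top)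
      obtain ⟨⟨z, hz⟩, hz1⟩ := Subgroup.ne_bot_iff_exists_ne_one.1
        (f.inf_centralizer_self_ne_bot Subgroup.le_normalizer_of_normal hN hH.1)
      have hz1' : z ≠ 1 := fun e => hz1 (Subtype.ext e)
      obtain ⟨⟨x, hx⟩, hx1⟩ := Subgroup.ne_bot_iff_exists_ne_one.1 hH₀.1
      have hx1' : x ≠ 1 := fun e => hx1 (Subtype.ext e)
      have hzc := (Subgroup.mem_inf.1 hz).2
      have h1 : g⁻¹ * z * g ∈ H₀ := by
        refine L.mem_of_conj_mem_of_frobenius hH₀ hx hx1' ?_
        have := hzc _ (hg (H1.conj_mem_conj_smul.2 hx))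
        have e : g⁻¹ * z * g * x * (g⁻¹ * z * g)⁻¹ = x := by
          calc g⁻¹ * z * g * x * (g⁻¹ * z * g)⁻¹ = g⁻¹ * (z * (g * x * g⁻¹)) * z⁻¹ * g := by group
            _ = g⁻¹ * (g * x * g⁻¹ * z) * z⁻¹ * g := by rw [this]
            _ = _ := by group
        rwa [e]
      intro h hh
      rw [H1.mem_conj_smul]
      refine L.mem_of_conj_mem_of_frobenius hH₀ h1 (fun e => hz1' (conj_eq_one_iff.1
        (show g⁻¹ * z * g⁻¹⁻¹ = 1 by simpa using e))) ?_
      have := hzc _ hh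
      have e : g⁻¹ * h * g * (g⁻¹ * z * g) * (g⁻¹ * h * g)⁻¹ = g⁻¹ * z * g := by
        calc g⁻¹ * h * g * (g⁻¹ * z * g) * (g⁻¹ * h * g)⁻¹ = g⁻¹ * (h * z) * h⁻¹ * g := by group
          _ = g⁻¹ * (z * h) * h⁻¹ * g := by rw [this]
          _ = _ := by group
      rwa [e]
    rcases le_total (Nat.card H₀) (Nat.card H) with h | h
    · exact key H H₀ hH hH₀ h
    · obtain ⟨g, rfl⟩ := key H₀ H hH₀ hH h
      exact ⟨g⁻¹, H1.conj_inv_smul_conj_smul g H⟩

end Cfsg.Agent.S0038
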