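import Cfsg.Statements.S0228
import Cfsg.Agent.GS.Misc1

set_option autoImplicit false
open Cfsg

namespace Cfsg.Agent.S0228

open Cfsg.Agent.H1

/-- A group of order 12 in which no involution is central is isomorphic to the alternating group on four letters. -/
theorem result {G : Type*} [Group G] [Finite G] (hG : Nat.card G = 12) (hz : ∀ z : G, orderOf z = 2 → z ∉ Subgroup.center G) : Nonempty (G ≃* alternatingGroup (Fin 4)) := by
  open Subgroup Pointwise commutatorElement Cfsg.Agent.BG Cfsg.Agent.GS in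
  open Cfsg.Agent.H2 hiding card_lt_of_lt card_lt_of_ne_top isMulCommutative_of_le isPGroup_zpowers_iff mem_of_pow_mem_of_coprime inf_eq_bot_of_cop exists_maxElem_ge Sec in
  open Cfsg.Agent.H8 (Op Opp Fit SN) in
  open Cfsg.Agent.L (FPF) in focus
    refine H4.equiv_A4_of hG fun N hN c => ?_
    obtain ⟨P, hP⟩ := Sylow.exists_subgroup_card_pow_prime (G := G) 2 (n := 2) (hG ▸ by decide)
    obtain ⟨z, a, b, d⟩ := exists_inv_cent N c P hP
    haveI := IsPGroup.isMulCommutative_of_card_eq_prime_sq hP
    have e : 3 * 2 ^ 2 ∣ ♯(centralizer ({z} : Set G)) := (by decide : Nat.Coprime 3 (2 ^ 2)).mul_dvd_of_dvd_of_dvd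
      (c ▸ card_dvd_of_le fun n hn => mem_centralizer_singleton_iff.2 (d n hn))
      (hP ▸ card_dvd_of_le fun n hn => mem_centralizer_singleton_iff.2 (congrArg Subtype.val (mul_comm' (⟨n, hn⟩ : P) ⟨z, a⟩)))
    have f := eq_top_of_le_card _ (hG.le.trans (Nat.le_of_dvd Nat.card_pos e))
    exact hz z b (mem_center_iff.2 fun g => mem_centralizer_singleton_iff.1 (f.ge (mem_top g)))

end Cfsg.Agent.S0228
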