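import Cfsg.Statements.S0246
import Cfsg.Agent.H4.Symp

set_option autoImplicit false
open Cfsg

namespace Cfsg.Agent.S0246

/-- The centre of Sp_{2m}(q), m at least 1, is {1, -1}: it has order gcd(2, q-1). -/
theorem result {F : Type*} [Field F] [Fintype F] {q : ℕ} (hF : Fintype.card F = q) (m : ℕ) (hm : 1 ≤ m) : Nat.card (Subgroup.center (Matrix.symplecticGroup (Fin m) F)) = Nat.gcd 2 (q - 1) := by
  open Cfsg.Agent.H4 in
  have : Nonempty (Fin m) := ⟨⟨0, hm⟩⟩
  rw [card_center_equiv (spEquiv F m), CForm.card_center_of_scalar (spF_nondeg m)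
    (fun g => (spF_nondeg m).symp_mem_center_iff) (rootsOfUnity 2 F), card_rootsOfUnity_field, hF]
  intro a
  rw [mem_rootsOfUnity, Units.ext_iff]
  constructor
  · intro h
    exact CForm.scal_mem_iso (by simpa [pow_two] using h)
  · intro h
    obtain ⟨u, hu⟩ := exists_ne (0 : Fin m ⊕ Fin m → F)
    simpa [pow_two] using CForm.iso_scalar_norm (spF_nondeg m) h (CForm.scal_apply a) hu

end Cfsg.Agent.S0246
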