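import Cfsg.Statements.S0255
import Cfsg.Agent.GS.Misc1
import Cfsg.Agent.S0495

set_option autoImplicit false
open Cfsg

namespace Cfsg.Agent.S0255

open Cfsg.Agent.H1

/-- PSL_2(7) is isomorphic to PSL_3(2). -/
theorem result {F K : Type*} [Field F] [Fintype F] [Field K] [Fintype K] (hF : Fintype.card F = 7) (hK : Fintype.card K = 2) : Nonempty (Matrix.ProjectiveSpecialLinearGroup (Fin 2) F ≃* Matrix.ProjectiveSpecialLinearGroup (Fin 3) K) := by
  open Subgroup Pointwise commutatorElement Cfsg.Agent.BG Cfsg.Agent.GS in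
  open Cfsg.Agent.H2 hiding card_lt_of_lt card_lt_of_ne_top isMulCommutative_of_le isPGroup_zpowers_iff mem_of_pow_mem_of_coprime inf_eq_bot_of_cop exists_maxElem_ge Sec in
  open Cfsg.Agent.H8 (Op Opp Fit SN) in
  open Cfsg.Agent.L (FPF) in focus
    haveI := H4.PSL_simple (F := K) 3 (by decide) (by omega)
    have := H4.card_PSL (F := K) 3 (by decide)
    simp [hK, Fin.prod_univ_succ] at this
    obtain ⟨e⟩ := S0495.result (G := Matrix.ProjectiveSpecialLinearGroup (Fin 3) K) (by simpa using this) hF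
    exact ⟨e.symm⟩

end Cfsg.Agent.S0255
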