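import Cfsg.Statements.S0256
import Cfsg.Agent.GS.Misc1
import Cfsg.Agent.GS.Spec2

set_option autoImplicit false
open Cfsg

namespace Cfsg.Agent.S0256

open Cfsg.Agent.H1

section
open Subgroup Pointwise commutatorElement Cfsg.Agent.BG Cfsg.Agent.GS
open Cfsg.Agent.H2 hiding card_lt_of_lt card_lt_of_ne_top isMulCommutative_of_le isPGroup_zpowers_iff mem_of_pow_mem_of_coprime inf_eq_bot_of_cop exists_maxElem_ge Sec
open Cfsg.Agent.H8 (Op Opp Fit SN)
open Cfsg.Agent.L (FPF)
universe u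

def M : Fin 6 → Matrix (Fin 4) (Fin 4) (ZMod 2) := ![!![0,0,0,1;0,0,1,0;0,1,1,0;1,0,0,1], !![0,0,1,0;0,0,1,1;1,0,0,0;1,1,0,0],
  !![0,0,0,1;0,0,1,0;0,1,0,0;1,0,0,0], !![1,0,0,0;0,1,1,0;0,0,1,0;1,0,0,1], !![0,0,0,1;0,0,1,1;1,1,0,0;1,0,0,0], !![0,0,1,0;0,0,0,1;1,0,0,0;0,1,0,0]]

def X (i : Fin 6) : Matrix.SpecialLinearGroup (Fin 4) (ZMod 2) := ⟨M i, by revert i; decide +kernel⟩

end

/-- PSL_4(2) is isomorphic to A_8. -/
theorem result {F : Type*} [Field F] [Fintype F] (hF : Fintype.card F = 2) : Nonempty (Matrix.ProjectiveSpecialLinearGroup (Fin 4) F ≃* alternatingGroup (Fin 8)) := by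
  open Subgroup Pointwise commutatorElement Cfsg.Agent.BG Cfsg.Agent.GS in
  open Cfsg.Agent.H2 hiding card_lt_of_lt card_lt_of_ne_top isMulCommutative_of_le isPGroup_zpowers_iff mem_of_pow_mem_of_coprime inf_eq_bot_of_cop exists_maxElem_ge Sec in
  open Cfsg.Agent.H8 (Op Opp Fit SN) in
  open Cfsg.Agent.L (FPF) in focus
    obtain ⟨φ, hφ⟩ := exists_zmod_hom hF
    obtain ⟨θ, hθ⟩ := exists_alt_hom X (by decide +kernel) (by decide +kernel) (by decide +kernel) (by decide +kernel)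
    haveI := alternatingGroup.isSimpleGroup (α := Fin 8) (by simp)
    refine equiv_quot_center ((Matrix.SpecialLinearGroup.map φ).comp θ) (a := altGen 0) (b := altGen 1) (fun h => ?_) ?_
    · simp only [MonoidHom.comp_apply, hθ, ← map_mul] at h
      exact absurd (Matrix.map_injective hφ.1 (congrArg Subtype.val h)) (by decide +kernel)
    have := H4.card_PSL (F := F) 4 (by decide)
    have e := two_mul_nat_card_alternatingGroup (α := Fin 8)
    rw [Nat.card_perm, Nat.card_fin] at e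
    simp only [hF, Fin.prod_univ_succ, Nat.factorial] at this e
    norm_num at this
    exact this.trans (by omega)

end Cfsg.Agent.S0256
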