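import Cfsg.Statements.S0437
import Cfsg.Agent.H6.TT2

set_option autoImplicit false
open Cfsg

namespace Cfsg.Agent.S0437

open Cfsg.Agent
open scoped Pointwise commutatorElement

/-- For three distinct, pairwise commuting members a, b, c of a set of 3-transpositions E, a member e of E centralises a * b * c if and only if it centralises each of a, b and c. -/
theorem result {G : Type*} [Group G] {E : Set G} (hE : Cfsg.IsThreeTranspositionSet E) {a b c e : G} (ha : a ∈ E) (hb : b ∈ E) (hc : c ∈ E) (he : e ∈ E) (hab : a ≠ b) (hac : a ≠ c) (hbc : b ≠ c) (h₁ : Commute a b) (h₂ : Commute a c) (h₃ : Commute b c) : Commute e (a * b * c) ↔ (Commute e a ∧ Commute e b ∧ Commute e c) := by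
  refine ⟨fun h => ?_, fun h => (h.1.mul_right h.2.1).mul_right h.2.2⟩
  have k : ∀ {x y : G}, x ∈ E → y ∈ E → x ≠ y → Commute e (x * y) → Commute e x ∧ Commute e y := fun hx hy n c =>
    H6.comm_mul2 (H6.ts_sq hE hx) (H6.ts_sq hE hy) (H6.ts_sq hE he) n (H6.ts_br hE he hx) (H6.ts_br hE he hy) c
  by_cases c1 : Commute e c
  · have := k ha hb hab (by simpa using h.mul_right c1.inv_right)
    exact ⟨this.1, this.2, c1⟩
  by_cases c2 : Commute e a
  · exact absurd (k hb hc hbc (by simpa [mul_assoc] using c2.inv_right.mul_right h)).2 c1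
  by_cases c3 : Commute e b
  · rw [h₁.eq] at h
    exact absurd (k ha hc hac (by simpa [mul_assoc] using c3.inv_right.mul_right h)).2 c1
  have h1 := H6.s4a (H6.ts_sq hE ha) (H6.ts_sq hE hb) h₁ (H6.ts_br hE he ha c2) (H6.ts_br hE he hb c3)
  have h2 : a * b * e * (a * b)⁻¹ = c * e * c⁻¹ := by
    have := H6.cj_comm h.symm
    conv_rhs => rw [← this]
    rw [show c * (a * b * c * e * (a * b * c)⁻¹) * c⁻¹ = (c * (a * b) * c) * e * (c * (a * b) * c)⁻¹ by group,
      ← (h₂.mul_left h₃).eq, mul_assoc _ c c, H6.ts_sq hE hc, mul_one]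
  rw [h2] at h1
  exact absurd (H6.comm_of_conj (H6.ts_sq hE hc) (H6.ts_br hE he hc c1) (H6.ts_sq hE he) h1) c1

end Cfsg.Agent.S0437
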