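import Cfsg.Statements.S0447
import Cfsg.Agent.GS.Mk1
import Cfsg.Agent.GS.Spn
import Cfsg.Agent.S0051
import Cfsg.Agent.S0206

set_option autoImplicit false
open Cfsg

namespace Cfsg.Agent.S0447

section
open Finset Pointwise Cfsg.Agent.St Cfsg.Agent.H6

open Equiv
theorem ct {n : ℕ} (hn : n ≤ 7) {t : Perm (Fin n)} (h2 : orderOf t = 2) (hs : Perm.sign t = 1) : t.cycleType = {2, 2} := by
  obtain ⟨k, hk⟩ := Perm.cycleType_prime_order (σ := t) (h2 ▸ Nat.prime_two)
  have h1 := t.sum_cycleType_le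
  rw [Perm.sign_of_cycleType] at hs
  rw [h2] at hk
  rw [hk] at hs h1 ⊢
  simp only [Multiset.sum_replicate, smul_eq_mul, Fintype.card_fin, Multiset.card_replicate] at hs h1
  have : k = 0 ∨ k = 1 ∨ k = 2 := by omega
  rcases this with rfl | rfl | rfl
  · exact absurd hs (by decide)
  · rfl
  · exact absurd hs (by decide)

theorem uniq {H X : Type} [Group H] [Finite H] [Group X] [Finite X] (h : IsNonsplitDoubleCover H X)
    (hX : ∀ t : X, orderOf t = 2 → ∃ (a b : X) (j o : ℕ), orderOf a = 2 ∧ orderOf b = 2 ∧ a ≠ b ∧ ¬ (a * b) ^ 2 ^ j = 1 ∧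
      (a * b) ^ 2 ^ (j + 1) = 1 ∧ Odd o ∧ Nat.card X = o * (2 * 2 ^ (j + 1)) ∧ ∀ t, orderOf t = 2 → IsConj a t)
    (x y : H) (hx : orderOf x = 2) (hy : orderOf y = 2) : x = y := by
  obtain ⟨h2, ⟨e⟩, hn⟩ := h
  let ρ : H →* X := e.toMonoidHom.comp (QuotientGroup.mk' _)
  have hs : Function.Surjective ρ := e.surjective.comp (QuotientGroup.mk'_surjective _)
  have hk : ρ.ker = Subgroup.center H := by
    ext g; simp [ρ, MonoidHom.mem_ker]
  have ne : ∀ {G : Type} [Group G] {g : G}, orderOf g = 2 → g ≠ 1 ∧ g ^ 2 = 1 := fun h =>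
    ⟨fun e => by rw [e, orderOf_one] at h; omega, h ▸ pow_orderOf_eq_one _⟩
  have key : ∀ x : H, orderOf x = 2 → x ∈ Subgroup.center H := fun x hx => by
    by_contra hc
    have o1 : orderOf (ρ x) = 2 := orderOf_eq_prime (by rw [← map_pow, (ne hx).2, map_one]) fun e => hc (hk ▸ e)
    obtain ⟨a, b, j, o, ha, hb, hab, h1, h3, ho, cX, cj⟩ := hX _ o1
    have lift : ∀ g, orderOf (ρ g) = 2 → g ^ 2 = 1 := fun g hg => by
      obtain ⟨c, hc⟩ := isConj_iff.1 ((cj _ o1).symm.trans (cj _ hg))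
      obtain ⟨c, rfl⟩ := hs c
      have hw : g * (c * x * c⁻¹)⁻¹ ∈ Subgroup.center H := hk ▸ (by
        rw [MonoidHom.mem_ker, map_mul, map_inv, map_mul, map_mul, map_inv, hc, mul_inv_cancel])
      have w2 : (g * (c * x * c⁻¹)⁻¹) ^ 2 = 1 := congrArg Subtype.val (h2 ▸ pow_card_eq_one' (x := (⟨_, hw⟩ : Subgroup.center H)))
      have : g = g * (c * x * c⁻¹)⁻¹ * (c * x * c⁻¹) := by group
      rw [this, Commute.mul_pow (Subgroup.mem_center_iff.1 hw _).symm, w2, conj_pow, (ne hx).2]; group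
    obtain ⟨a, rfl⟩ := hs a
    obtain ⟨b, rfl⟩ := hs b
    have oa : orderOf a = 2 := orderOf_eq_prime (lift a ha) fun e => (ne ha).1 (by rw [e, map_one])
    have ob : orderOf b = 2 := orderOf_eq_prime (lift b hb) fun e => (ne hb).1 (by rw [e, map_one])
    have oab : orderOf (a * b) = 2 ^ (j + 1) := orderOf_eq_prime_pow (fun e => h1 (by rw [← map_mul, ← map_pow, e, map_one])) (by
      rw [pow_succ, pow_mul]
      exact lift _ (orderOf_eq_prime (by rw [map_pow, map_mul, ← pow_mul, ← pow_succ, h3]) (by rwa [map_pow, map_mul])))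
    obtain ⟨e1⟩ := S0206.result a b oa ob fun e => hab (by rw [e])
    obtain ⟨e2⟩ := S0206.result _ _ ha hb hab
    have c1 := (Nat.card_congr e1.toEquiv).trans DihedralGroup.nat_card
    have c2 := (Nat.card_congr e2.toEquiv).trans DihedralGroup.nat_card
    rw [oab] at c1
    rw [orderOf_eq_prime_pow h1 h3] at c2
    have hm : (Subgroup.closure {a, b}).map ρ = Subgroup.closure {ρ a, ρ b} := by rw [MonoidHom.map_closure, Set.image_pair]
    have inj := ((Nat.bijective_iff_surjective_and_card _).2 ⟨ρ.subgroupMap_surjective (Subgroup.closure {a, b}), by rw [hm, c1, c2]⟩).1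
    have hi : (Subgroup.center H ⊔ Subgroup.closure {a, b}).index = o := by
      rw [← hk, sup_comm, ← Subgroup.comap_map_eq, Subgroup.index_comap_of_surjective _ hs, hm]
      exact Nat.eq_of_mul_eq_mul_right (by positivity) ((c2 ▸ Subgroup.index_mul_card _).trans cX)
    obtain ⟨L, hL⟩ := S0051.result (Subgroup.center H) _ le_sup_left (by rw [h2, hi]; exact ho.coprime_two_left) _ le_sup_right
      (eq_bot_iff.2 fun g hg => congrArg Subtype.val (inj (a₁ := ⟨g, hg.1⟩) (a₂ := 1) (by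
        rw [map_one]; exact Subtype.ext (show g ∈ ρ.ker from hk ▸ hg.2)))) rfl
    exact hn L hL
  obtain ⟨w, -, hw⟩ := (Nat.card_eq_two_iff' (1 : Subgroup.center H)).1 h2
  exact congrArg Subtype.val ((hw ⟨x, key x hx⟩ fun e => (ne hx).1 (congrArg Subtype.val e)).trans
    (hw ⟨y, key y hy⟩ fun e => (ne hy).1 (congrArg Subtype.val e)).symm)

theorem dat {n : ℕ} (hn : n ≤ 7) [Nontrivial (Fin n)] (a b s : Perm (Fin n)) (j o : ℕ) (h : Perm.sign a = 1 ∧ Perm.sign b = 1 ∧ Perm.sign s = -1 ∧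
    s * a = a * s ∧ a ^ 2 = 1 ∧ a ≠ 1 ∧ b ^ 2 = 1 ∧ b ≠ 1 ∧ a ≠ b ∧ ¬ (a * b) ^ 2 ^ j = 1 ∧ (a * b) ^ 2 ^ (j + 1) = 1 ∧ o % 2 = 1 ∧
    n.factorial / 2 = o * (2 * 2 ^ (j + 1))) :
    ∃ (a b : alternatingGroup (Fin n)) (j o : ℕ), orderOf a = 2 ∧ orderOf b = 2 ∧ a ≠ b ∧ ¬ (a * b) ^ 2 ^ j = 1 ∧
      (a * b) ^ 2 ^ (j + 1) = 1 ∧ Odd o ∧ Nat.card (alternatingGroup (Fin n)) = o * (2 * 2 ^ (j + 1)) ∧ ∀ t, orderOf t = 2 → IsConj a t := by
  obtain ⟨h1, h2, h3, h4, h5, h6, h7, h8, h9, h10, h11, h12, h13⟩ := h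
  refine ⟨⟨a, h1⟩, ⟨b, h2⟩, j, o, orderOf_eq_prime (Subtype.ext h5) fun e => h6 (congrArg Subtype.val e),
    orderOf_eq_prime (Subtype.ext h7) fun e => h8 (congrArg Subtype.val e), fun e => h9 (congrArg Subtype.val e),
    fun e => h10 (congrArg Subtype.val e), Subtype.ext h11, Nat.odd_iff.2 h12, by
      rw [nat_card_alternatingGroup, Nat.card_eq_fintype_card, Fintype.card_fin, h13], fun t ht => ?_⟩
  obtain ⟨c, hc⟩ := isConj_iff.1 (Perm.isConj_iff_cycleType_eq.2 ((ct hn (orderOf_eq_prime h5 h6) h1).trans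
    (ct hn ((Subgroup.orderOf_coe t).trans ht) t.2).symm))
  rcases Int.units_eq_one_or (Perm.sign c) with e | e
  · exact isConj_iff.2 ⟨⟨c, e⟩, Subtype.ext hc⟩
  · refine isConj_iff.2 ⟨⟨c * s, by rw [Perm.mem_alternatingGroup, map_mul, e, h3]; rfl⟩, Subtype.ext ?_⟩
    show c * s * a * (c * s)⁻¹ = t
    rw [mul_assoc c, h4, ← hc]; group

end

/-- Involutions in double covers of alternating groups: for n ≤ 7, a finite non-split double cover of the alternating group of degree n has exactly one element of order 2 (the central one); for degree 8 there is a non-split double cover with two distinct involutions. -/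
theorem result : (∀ (n : ℕ) (H : Type) (_ : Group H) (_ : Finite H), n ≤ 7 → Cfsg.IsNonsplitDoubleCover H (alternatingGroup (Fin n)) → ∀ x y : H, orderOf x = 2 → orderOf y = 2 → x = y) ∧ ∃ (H : Type) (_ : Group H) (_ : Finite H), Cfsg.IsNonsplitDoubleCover H (alternatingGroup (Fin 8)) ∧ ∃ x y : H, x ≠ y ∧ orderOf x = 2 ∧ orderOf y = 2 := by
  open Finset Pointwise Cfsg.Agent.St Cfsg.Agent.H6 in focus
    refine ⟨fun n H _ _ hn h => uniq h fun t ht => ?_, ?_⟩
    · have h4 := t.1.sum_cycleType_le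
      rw [ct hn ((Subgroup.orderOf_coe t).trans ht) t.2, Fintype.card_fin] at h4
      have : n = 4 ∨ n = 5 ∨ n = 6 ∨ n = 7 := by simp at h4; omega
      rcases this with rfl | rfl | rfl | rfl
      · exact dat hn (Equiv.swap 0 1 * Equiv.swap 2 3) (Equiv.swap 0 2 * Equiv.swap 1 3) (Equiv.swap 0 1) 0 3 (by decide +kernel)
      · exact dat hn (Equiv.swap 0 1 * Equiv.swap 2 3) (Equiv.swap 0 2 * Equiv.swap 1 3) (Equiv.swap 0 1) 0 15 (by decide +kernel)
      · exact dat hn (Equiv.swap 0 1 * Equiv.swap 2 3) (Equiv.swap 1 3 * Equiv.swap 4 5) (Equiv.swap 0 1) 1 45 (by decide +kernel)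
      · exact dat hn (Equiv.swap 0 1 * Equiv.swap 2 3) (Equiv.swap 1 3 * Equiv.swap 4 5) (Equiv.swap 0 1) 1 315 (by decide +kernel)
    obtain ⟨Γ, _, _, z, ρ, hs, hk, oz, hz, hc, hy⟩ := (Spn.cov (α := Fin 8)).alt Spn.z_ne
    have hZ : Subgroup.center Γ = ρ.ker := le_antisymm (fun g hg => by
      have : ρ g ∈ Subgroup.center (alternatingGroup (Fin 8)) := Subgroup.mem_center_iff.2 fun x => by
        obtain ⟨x, rfl⟩ := hs x
        rw [← map_mul, Subgroup.mem_center_iff.1 hg, map_mul]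
      rwa [alternatingGroup.center_eq_bot (by simp)] at this) (hk ▸ Subgroup.zpowers_le.2 hz)
    have c2 : Nat.card (Subgroup.center Γ) = 2 := by rw [hZ, hk, Nat.card_zpowers, oz]
    obtain ⟨y, y1, y2⟩ := hy 0 1 2 3 4 5 6 7 (by decide)
    refine ⟨Γ, inferInstance, inferInstance, ⟨c2, ⟨(QuotientGroup.quotientMulEquivOfEq hZ).trans (QuotientGroup.quotientKerEquivOfSurjective ρ hs)⟩,
      fun L hL => ?_⟩, y, z, fun e => y2 (e ▸ (hk.ge (Subgroup.mem_zpowers z))), orderOf_eq_prime (by rw [pow_two, y1]) fun e => y2 (by rw [e, map_one]), oz⟩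
    have i2 : L.index = 2 := hL.index_eq_card.trans c2
    have hl : commutator Γ ≤ L := Subgroup.commutator_le.2 fun a _ b _ => by
      simp only [commutatorElement_def, Subgroup.mul_mem_iff_of_index_two i2, inv_mem_iff]
      tauto
    have : z = 1 := hL.disjoint.le_bot ⟨hz, hl (hc 0 1 2 3 (by decide))⟩
    rw [this, orderOf_one] at oz; omega

end Cfsg.Agent.S0447
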