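import Cfsg.Statements.S0493
import Mathlib
import Cfsg.Agent.H7.Sieve

set_option autoImplicit false
open Cfsg

namespace Cfsg.Agent.S0493

/-- A finite simple group of order at most 100 that is not cyclic has order 60. -/
theorem result {G : Type*} [Group G] [Finite G] [IsSimpleGroup G]
    (hG : ¬ IsCyclic G) (h : Nat.card G ≤ 100) : Nat.card G = 60 := by
  have h1 : ¬ IsMulCommutative G := fun hc => hG (by
    letI : CommGroup G := { (inferInstance : Group G) with mul_comm := fun a b => hc.is_comm.comm a b }
    exact IsSimpleGroup.isCyclic)
  have h2 : 1 < Nat.card G := Finite.one_lt_card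
  have := H7.Sv.card_range h1 80 2 99 [60] (by decide +kernel) h2 (by omega)
  simpa using this

end Cfsg.Agent.S0493
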