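import Cfsg.Statements.S0581
import Cfsg.Agent.H1.Burnside

set_option autoImplicit false
open Pointwise
open Cfsg

namespace Cfsg.Agent.S0581

open Cfsg.Agent.H1

section
open Subgroup Pointwise commutatorElement
universe u

theorem aux {G : Type*} [Group G] [Finite G] (K : Subgroup G) (π : Set ℕ) (X H : Subgroup G) (hH : Group.IsNilpotent H)
    (hHall : IsPiHallOf π H X) (hKX : K ≤ X) (hK : ∀ p : ℕ, p.Prime → p ∣ Nat.card K → p ∈ π) :
    ∃ x ∈ X, MulAut.conj x • K ≤ H := by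
  induction K using WellFoundedLT.induction generalizing π X H with
  | ind K ih =>
  have hsyl : ∀ q : ℕ, q.Prime → q ∈ π → ∀ Q : Subgroup G, Q ≤ X → IsPGroup q Q → ∃ x ∈ X, MulAut.conj x • Q ≤ H := fun q hq hπ Q hQX hQ => by
    haveI := Fact.mk hq
    obtain ⟨S, hS⟩ := exists_isSylowIn q H
    have hS' : IsSylowIn q S X := ⟨hS.1.trans hHall.1, hS.2.1, fun hd => by
      rw [← relIndex_mul_relIndex S H X hS.1 hHall.1] at hd
      exact ((Nat.Prime.dvd_mul hq).1 hd).elim hS.2.2 (hHall.2.2 q hq hπ)⟩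
    obtain ⟨x, hx, h⟩ := hS'.exists_conj_le hQX hQ
    exact ⟨x, hx, h.trans hS.1⟩
  by_cases hb : K = ⊥
  · exact ⟨1, one_mem _, by simp [hb]⟩
  haveI : Nontrivial K := (nontrivial_iff_ne_bot K).2 hb
  have hlt : ∀ M : Subgroup K, M ≠ ⊤ → M.map K.subtype < K := fun M hM =>
    lt_of_le_of_ne (map_subtype_le M) fun e => hM (by rw [← subgroupOf_map_subtype' M, e, subgroupOf_self])
  have hnil : ∀ M : Subgroup K, M ≠ ⊤ → Group.IsNilpotent (M.map K.subtype) := fun M hM => by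
    obtain ⟨x, -, hx⟩ := ih _ (hlt M hM) π X H hH hHall ((map_subtype_le M).trans hKX)
      fun p hp hd => hK p hp (hd.trans (card_dvd_of_le (map_subtype_le M)))
    exact isNilpotent_of_le (conj_smul_le_iff_le.1 hx) (isNilpotent_conj_smul _ hH)
  obtain ⟨M, hMn, hM, hr⟩ := exists_normal_isCoatom_of_isSolvable (isSolvable_of_forall_isCoatom_isNilpotent
    fun M hM => (isNilpotent_map_subtype_iff M).1 (hnil M hM.1))
  haveI := Fact.mk hr
  by_cases hp : IsPGroup M.index K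
  · exact hsyl _ hr (hK _ hr M.index_dvd_card) K hKX hp
  obtain ⟨q, hq, hqd, hne⟩ : ∃ q : ℕ, q.Prime ∧ q ∣ Nat.card K ∧ q ≠ M.index := by
    by_contra! hc
    exact hp (isPGroup_iff_forall_prime.2 hc)
  haveI := Fact.mk hq
  obtain ⟨Q, hQ⟩ := exists_isSylowIn q K
  have hn := le_normalizer_map_subtype_of_normal K M
  have hQM : Q ≤ M.map K.subtype := le_of_coprime_relIndex hQ.1 hn (by
    rw [relIndex_map_subtype]; exact coprime_card_of_isPGroup hQ.2.1 ((Nat.coprime_primes hr hq).2 hne.symm))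
  have hKQ : K ≤ normalizer (Q : Set G) := hn.trans ((hQ.of_le hQM (map_subtype_le M)).normalizer_le_of_isNilpotent (hnil M hM.1))
  obtain ⟨L, hLK, hLQ, hs, hc⟩ := exists_complement_of_coprime hQ.1 hKQ hQ.coprime_relIndex
  have hLlt : L < K := lt_of_le_of_ne hLK fun e => hQ.ne_bot hqd (by rwa [e, inf_eq_right.2 hQ.1] at hLQ)
  obtain ⟨y, hy, hyQ⟩ := hsyl q hq (hK q hq hqd) Q (hQ.1.trans hKX) hQ.2.1
  rw [conj_smul_le_iff_le] at hyQ
  have hH' := isNilpotent_conj_smul y⁻¹ hH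
  have hHall' := isPiHallOf_conj_smul_of_mem hHall (le_normalizer (inv_mem hy))
  obtain ⟨H₀, h₀⟩ := exists_hallOf {q}ᶜ (K := MulAut.conj y⁻¹ • H) inferInstance
  have h1 : H₀ ≤ X ⊓ normalizer (Q : Set G) := le_inf (h₀.1.trans hHall'.1) (le_normalizer_of_le_centralizer
    (le_centralizer_of_isNilpotent_of_coprime hH' h₀.1 hyQ (coprime_card_of_isPGroup hQ.2.1
      ((Nat.Prime.coprime_iff_not_dvd hq).2 fun h => h₀.2.1 q hq h rfl).symm).symm))
  obtain ⟨x, hx, hxL⟩ := ih L hLlt (π \ {q}) (X ⊓ normalizer (Q : Set G)) H₀ (isNilpotent_of_le h₀.1 hH')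
    (isPiHallOf_of_le ⟨h₀.1.trans hHall'.1, fun r hr hd => ⟨hHall'.2.1 r hr (hd.trans (card_dvd_of_le h₀.1)), h₀.2.1 r hr hd⟩,
      fun r hr hπ hd => by
        rw [← relIndex_mul_relIndex H₀ _ X h₀.1 hHall'.1] at hd
        exact ((Nat.Prime.dvd_mul hr).1 hd).elim (h₀.2.2 r hr hπ.2) (hHall'.2.2 r hr hπ.1)⟩ h1 inf_le_left)
    (hLK.trans (le_inf hKX hKQ)) fun r hr hd => ⟨hK r hr (hd.trans (card_dvd_of_le hLK)), fun e => hQ.2.2 (hc ▸ e ▸ hd)⟩
  refine ⟨y * x, mul_mem hy hx.1, ?_⟩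
  rw [← conj_smul_conj_smul, conj_smul_le_iff_le, ← hs, smul_sup, conj_smul_eq_self_iff.2 hx.2]
  exact sup_le (hxL.trans h₀.1) hyQ

end

/-- Let H be a nilpotent subgroup of a finite group G whose order is coprime to its index, and K a subgroup every prime divisor of whose order divides the order of H. Then K lies in some conjugate of H. -/
theorem result {G : Type*} [Group G] [Finite G] (H K : Subgroup G) (hH : Group.IsNilpotent H) (hHall : (Nat.card H).Coprime H.index) (hK : ∀ p : ℕ, p.Prime → p ∣ Nat.card K → p ∣ Nat.card H) : ∃ x : G, K ≤ MulAut.conj x • H := by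
  open Subgroup Pointwise commutatorElement in focus
    obtain ⟨x, -, hx⟩ := aux K _ ⊤ H hH (isPiHallOf_top.2 (isPiHall_of_coprime hHall)) le_top fun p hp hd => hK p hp hd
    exact ⟨x⁻¹, conj_smul_le_iff_le.1 hx⟩

end Cfsg.Agent.S0581
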