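import Cfsg.Statements.S0779
import Cfsg.Agent.H4.Symp

set_option autoImplicit false
open Cfsg

namespace Cfsg.Agent.S0779

/-- Unitary transvections: let |F| = q², h the standard Hermitian form Σ x_i y_i^q and v ≠ 0 with h(v, v) = 0. The linear map x ↦ x + c h(x, v) v is an isometry of h if and only if c = 0 or c^(q−1) = −1. -/
theorem result {F : Type*} [Field F] [Fintype F] {q : ℕ} (hF : Fintype.card F = q ^ 2) (n : ℕ) (v : Fin n → F) (hv : v ≠ 0) (hv0 : Cfsg.hermForm n F q v v = 0) (c : F) : (∀ x y : Fin n → F, Cfsg.hermForm n F q ((Cfsg.unitaryTransvection n q v c).mulVec x) ((Cfsg.unitaryTransvection n q v c).mulVec y) = Cfsg.hermForm n F q x y) ↔ (c = 0 ∨ c ^ (q - 1) = -1) := by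
  open Cfsg.Agent.H4 in
  have h2 := two_le_of_card_sq hF
  have hQ : (unF hF n).Q v = 0 := hv0
  have key : c + c ^ q = 0 ↔ (c = 0 ∨ c ^ (q - 1) = -1) := by
    have : c + c ^ q = c * (c ^ (q - 1) + 1) := by
      conv_lhs => rw [show q = q - 1 + 1 by omega]
      ring
    rw [this, mul_eq_zero, add_eq_zero_iff_eq_neg]
  rw [← key]
  simp only [unitaryTransvection_mulVec, ← unF_B hF]
  have hvv : (unF hF n).B v v = 0 := hv0
  constructor
  · intro h
    obtain ⟨z, hz⟩ := (unF_nondeg hF n).exists_B_eq hv 1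
    have := h z z
    have hz' : (unF hF n).B z v = 1 := by rw [CForm.unit_symm, hz, map_one]
    simp only [CForm.B_add_left, CForm.B_add_right, CForm.B_smul_left, CForm.B_smul_right, hz, hz',
      hvv, FType.unit_σ, frobq_apply, mul_one, mul_zero, add_zero] at this
    linear_combination this
  · intro h x y
    have hok : (unF hF n).TvOk v c := by simp [CForm.TvOk, hv0, h]
    rw [← hok.apply, ← hok.apply]
    exact CForm.iso_B hok.mem_iso x y

end Cfsg.Agent.S0779
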