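import Cfsg.Statements.S0781
import Cfsg.Agent.H4.Bridge2
import Cfsg.Agent.S0779

set_option autoImplicit false
open Cfsg

namespace Cfsg.Agent.S0781

/-- In SU_n(q) with n ≥ 4, or n = 3 and q > 2, every element whose matrix is a unitary transvection x ↦ x + c h(x, v) v (v isotropic) is a commutator ⁅B, C⁆ of two elements of SU_n(q). -/
theorem result {F : Type*} [Field F] [Fintype F] {q : ℕ} (hF : Fintype.card F = q ^ 2) (n : ℕ) (hn : 4 ≤ n ∨ (n = 3 ∧ 3 ≤ q)) (A : ↥(Cfsg.SU n F q)) (v : Fin n → F) (c : F) (hv0 : Cfsg.hermForm n F q v v = 0) (hA : ((A : Matrix.SpecialLinearGroup (Fin n) F) : Matrix (Fin n) (Fin n) F) = Cfsg.unitaryTransvection n q v c) : A ∈ commutatorSet ↥(Cfsg.SU n F q) := by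
  open Cfsg.Agent.H4 in
  open scoped commutatorElement in
  have h2 : 2 ≤ n := by omega
  have hA' : (suEquivE hF h2 A : (Fin n → F) ≃ₗ[F] _) = (unF hF n).tv v c :=
    LinearEquiv.ext fun x => by rw [suEquivE_apply, hA, unitaryTransvection_eq_tv hF hv0]
  obtain ⟨g, hg, h, hh, e⟩ : ∃ g ∈ (unF hF n).E, ∃ h ∈ (unF hF n).E, (unF hF n).tv v c = ⁅g, h⁆ := by
    rcases eq_or_ne v 0 with rfl | hv
    · exact ⟨1, one_mem _, 1, one_mem _, by simp⟩
    refine (unF_nondeg hF n).unit_tv_commutator (frobq_ne hF) (by simp; omega) hv0 ?_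
    have hq := two_le_of_card_sq hF
    rcases (Cfsg.Agent.S0779.result hF n v hv hv0 c).1 (by rw [← hA]; exact A.2) with h | h
    · simp [h]; omega
    · rw [frobq_apply, show q = q - 1 + 1 by omega, pow_succ, h]; ring
  refine ⟨(suEquivE hF h2).symm ⟨g, hg⟩, (suEquivE hF h2).symm ⟨h, hh⟩, (suEquivE hF h2).injective ?_⟩
  rw [map_commutatorElement, MulEquiv.apply_symm_apply, MulEquiv.apply_symm_apply]
  exact Subtype.ext (e.symm.trans hA'.symm)

end Cfsg.Agent.S0781
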