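import Cfsg.Statements.S0969
import Cfsg.Agent.B.PC

set_option autoImplicit false
open Cfsg

namespace Cfsg.Agent.S0969

open Cfsg.Agent Cfsg.Agent.B Cfsg.Agent.H2 Cfsg.Agent.H3 Cfsg.Agent.L Subgroup MonoidAlgebra
open scoped Pointwise commutatorElement
open scoped ComplexOrder ComplexConjugate in
theorem aux {G : Type*} [Group G] [Fintype G] {p : ℕ} [Fact p.Prime] {D : Subgroup G} (hD : IsPGroup p D)
    (hDZ : D ≤ center G) (χ : IrrCharacter G) {n : ℤ}
    (h : (Nat.card D : ℂ) * classInner (reg p (χ : G → ℂ)) χ = n) : n ≤ 1 := by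
  classical
  have h1 := sum_eq_sum_pc hD (fun x _ y hy => (mem_center_iff.1 (hDZ hy) x).symm)
    (fun g => if ∀ u, IsPPart p g u → u ∈ D then (χ : G → ℂ) g * conj ((χ : G → ℂ) g) else 0)
    fun g u h1 h2 => if_neg fun h3 => h2 (h3 u h1)
  have h2 : ∑ g, (if ∀ u, IsPPart p g u → u ∈ D then (χ : G → ℂ) g * conj ((χ : G → ℂ) g) else 0) ≤
      Nat.card G := by
    rw [← mul_one (Nat.card G : ℂ), ← χ.2.inner_self, card_mul_classInner]
    refine Finset.sum_le_sum fun g _ => ?_
    split_ifs
    · rfl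
    · exact mul_star_self_nonneg _
  have h3 : (Nat.card G : ℂ) * classInner (reg p (χ : G → ℂ)) χ =
      ∑ x : {x : G // ¬ p ∣ orderOf x}, (χ : G → ℂ) x * conj ((χ : G → ℂ) x) := by
    rw [card_mul_classInner, ← Finset.sum_subtype (Finset.univ.filter fun x : G => ¬ p ∣ orderOf x)
      (by simp) fun x => (χ : G → ℂ) x * conj ((χ : G → ℂ) x), Finset.sum_filter]
    refine Finset.sum_congr rfl fun g _ => ?_
    by_cases hg : p ∣ orderOf g <;> simp [reg, hg]
  rw [h1, Finset.sum_congr rfl (g := fun _ => Nat.card G * classInner (reg p (χ : G → ℂ)) χ),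
    Finset.sum_const, Finset.card_univ, nsmul_eq_mul, ← Nat.card_eq_fintype_card, mul_left_comm, h] at h2
  · have : (Nat.card G : ℤ) * n ≤ Nat.card G * 1 := by rw [mul_one]; exact_mod_cast h2
    exact le_of_mul_le_mul_left this (by exact_mod_cast Nat.card_pos)
  · intro y _
    rw [h3]
    refine Finset.sum_congr rfl fun x _ => ?_
    obtain ⟨ω, h4, h5⟩ := exists_root_central (hDZ y.2) χ
    have h6 : ω * conj ω = 1 := by
      rw [Complex.mul_conj, Complex.normSq_eq_norm_sq, Complex.norm_eq_one_of_pow_eq_one h4 (orderOf_pos _).ne']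
      simp
    rw [if_pos fun u hu => hu.unique (isPPart_mul (pElt_of_mem hD y.2) x.2
      (mem_center_iff.1 (hDZ y.2) _).symm) ▸ y.2, h5, map_mul]
    linear_combination (χ : G → ℂ) x * conj ((χ : G → ℂ) x) * h6

/-- Let D be a central p-subgroup of the finite group G and χ an irreducible character with the exponent of p in χ(1) equal to the exponent of p in the index of D; fix a maximal ideal M of the algebraic integers containing p. Then D is a defect group of the block of χ, and χ g = 0 whenever the p-part of g does not lie in D. -/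
theorem result {G : Type*} [Group G] [Finite G] (p : ℕ) [Fact p.Prime] (M : Ideal Cfsg.AlgInt) (hM : Cfsg.IsPModular p M) (D : Subgroup G) (hD : IsPGroup p D) (hDZ : D ≤ Subgroup.center G) (χ : Cfsg.IrrCharacter G) (hdeg : (Cfsg.charDegree (χ : G → ℂ)).factorization p = D.index.factorization p) : Cfsg.IsDefectGroup p M (Cfsg.blockOf M (χ : G → ℂ)) D ∧ ∀ g x : G, Cfsg.IsPPart p g x → x ∉ D → (χ : G → ℂ) g = 0 := by
  have : PMod p M := ⟨hM⟩
  have := Fintype.ofFinite G
  have : D.Normal := ⟨fun a ha g => by rwa [mem_center_iff.1 (hDZ ha) g, mul_inv_cancel_right]⟩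
  have hB := isPBlock_blockOf (M := M) χ
  have hχ := self_mem_blockOf (M := M) χ
  set B := blockOf M (χ : G → ℂ)
  obtain ⟨δ, hδ⟩ := IsPGroup.iff_card.1 hD
  have h1 := factorization_index_add (p := p) D
  rw [hδ, Nat.Prime.factorization_pow Fact.out, Finsupp.single_eq_same, ← hdeg] at h1
  have h2 := nu_add_blockDefect (p := p) hχ
  obtain ⟨n, hn⟩ := exists_int_reg' (M := M) χ.2.isGen χ (k := δ) h1.ge
  have h3 := aux hD hDZ χ (n := n) (by rw [hδ]; exact_mod_cast hn)
  obtain ⟨a, a1, a2, -, a4, -, a6⟩ := hB.exists_contr (p := p)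
  have h4 : blockDefect p B = blockHeight p B χ + δ := by unfold nu at h2; omega
  have h5 : a χ χ = p ^ blockHeight p B χ * n := by
    have := a1 χ hχ χ
    rw [h4, pow_add, mul_assoc, hn] at this
    exact_mod_cast this.symm
  have hp0 : (0 : ℤ) < p := by exact_mod_cast (Fact.out : p.Prime).pos
  have h6 : 0 < a χ χ := by
    obtain ⟨ψ, hψ, h0⟩ := exists_height_zero (p := p) hB.nonempty
    refine (mul_pos_iff_of_pos_left (pow_pos hp0 (blockDefect p B))).1 ?_
    rw [← a4 χ hχ]
    refine Finset.sum_pos' (fun _ _ => sq_nonneg _) ⟨ψ, Finset.mem_univ _, sq_pos_iff.2 fun h => ?_⟩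
    exact (a6 ψ hψ χ hχ).1 (by rw [a2 ψ hψ χ hχ, h]; simp) h0
  have h7 : n = 1 := by
    have := (mul_pos_iff_of_pos_left (pow_pos hp0 _)).1 (h5 ▸ h6)
    omega
  have h8 : blockHeight p B χ = 0 := by_contra fun h => by
    have := (a6 χ hχ χ hχ).2 h
    rw [h5, h7, pow_succ, mul_dvd_mul_iff_left (by positivity)] at this
    exact (Fact.out : p.Prime).not_dvd_one (by exact_mod_cast this)
  obtain ⟨E, hE⟩ := hB.exists_defectGroup (p := p)
  obtain rfl : D = E := eq_of_le_of_card_ge
    ((hB.isDefectGroup_iff_top.1 hE).normal_le hB.isBI_top hD le_top (by simp [normalizer_eq_top]))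
    (by rw [hE.card_eq_pow hB.closed, h4, h8, zero_add, hδ])
  exact ⟨hE, fun g x h hx => hE.apply_eq_zero hB hχ h hx⟩

end Cfsg.Agent.S0969
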