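import Cfsg.Statements.S0981
import Mathlib
import Cfsg.Agent.H7.BR5

set_option autoImplicit false
open Cfsg

namespace Cfsg.Agent.S0981

/-- A simple group of order 4080 is isomorphic to the projective special linear group of dimension 2 over the field with 16 elements. -/
theorem result {G : Type*} [Group G] [Finite G] [IsSimpleGroup G] (h : Nat.card G = 4080) {F : Type*} [Field F] [Fintype F] (hF : Fintype.card F = 16) : Nonempty (G ≃* Matrix.ProjectiveSpecialLinearGroup (Fin 2) F) := by
  haveI : Fact (Nat.Prime 17) := ⟨by norm_num⟩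
  have h1 := H7.Sv.not_comm_of_card (G := G) (by rw [h]; norm_num)
  have hd : 17 ∣ Nat.card G := by rw [h]; norm_num
  obtain ⟨P⟩ : Nonempty (Sylow 17 G) := inferInstance
  have h2 := (H7.brc_of_lt_cube (H7.commutator_eq_top_of_simple h1) hd (by rw [h]; norm_num) P fun e =>
    H7.Sv.normalizer_sylow_ne_top h1 hd P (Subgroup.normalizer_eq_top_iff.2 e)).of_equiv
    ((QuotientGroup.quotientMulEquivOfEq
    ((pPrimeCore_normal 17 G).eq_bot_or_eq_top.resolve_right fun e => L.not_dvd_card_pPrimeCore Fact.out
      (by rwa [e, Subgroup.card_top]))).trans QuotientGroup.quotientBot)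
  rcases h2.out with ⟨K, _, _, h3, -, ⟨e⟩⟩ | ⟨m, K, _, _, h5, h6, -, ⟨e⟩, -⟩
  · have := H4.card_PSL_two (F := K)
    rw [← Nat.card_congr e.toEquiv, h, h3] at this
    norm_num at this
  · exact ⟨e.trans (H4.psl_congr_card (by omega)).some⟩

end Cfsg.Agent.S0981
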