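import Cfsg.Statements.S0983
import Mathlib
import Cfsg.Agent.H7.SylInt
import Cfsg.Agent.H7.Sieve2

set_option autoImplicit false
open Cfsg

namespace Cfsg.Agent.S0983

open Cfsg.Agent.H7 Cfsg.Agent.H7.Sv MulAction

variable {G : Type*} [Group G] [Finite G] [IsSimpleGroup G]

theorem fact_dvd {n m b : ℕ} (h : n ∣ m.factorial) (hb : ¬ n ∣ b.factorial) : b < m := by
  by_contra h1
  exact hb (h.trans (Nat.factorial_dvd_factorial (by omega)))

theorem index_eq {G : Type*} [Group G] [Finite G] {H : Subgroup G} {a m : ℕ} (h : Nat.card G = a * m)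
    (hH : Nat.card H = a) : H.index = m := by
  have := H.card_mul_index
  rw [hH, h] at this
  exact Nat.eq_of_mul_eq_mul_left (hH ▸ Nat.card_pos) this

theorem ne4500 (hG : ¬ IsMulCommutative G) : Nat.card G ≠ 4500 := by
  intro h
  haveI : Fact (Nat.Prime 5) := ⟨by norm_num⟩
  obtain ⟨P⟩ : Nonempty (Sylow 5 G) := inferInstance
  have hP := card_sylow_of_dvd (k := 3) (m := 36) P h (by norm_num)
  have hi := index_eq (m := 36) h hP
  obtain ⟨h1, h2, h3⟩ := sylow_facts hG (p := 5) (by rw [h]; norm_num)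
  have h4 := P.card_dvd_index
  obtain ⟨m, k, h5, h6, h7, h8⟩ := exists_index_of_simple hG P (by rw [hP]; norm_num) (by
    rw [hi] at h4
    have := Nat.le_of_dvd (by norm_num) h4
    generalize Nat.card (Sylow 5 G) = n at *
    interval_cases n <;> simp_all)
  rw [hi] at h8
  rw [h] at h5
  have h9 := fact_dvd (b := 6) h5 (by decide)
  have := Nat.le_of_dvd (by norm_num) h8
  have : 6 ≤ k := by omega
  nlinarith

theorem ne5292 (hG : ¬ IsMulCommutative G) : Nat.card G ≠ 5292 := by
  intro h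
  haveI : Fact (Nat.Prime 7) := ⟨by norm_num⟩
  obtain ⟨P⟩ : Nonempty (Sylow 7 G) := inferInstance
  have hP := card_sylow_of_dvd (k := 2) (m := 108) P h (by norm_num)
  have hi := index_eq (m := 108) h hP
  obtain ⟨h1, h2, h3⟩ := sylow_facts hG (p := 7) (by rw [h]; norm_num)
  have h4 := P.card_dvd_index
  obtain ⟨m, k, h5, h6, h7, h8⟩ := exists_index_of_simple hG P (by rw [hP]) (by
    rw [hi] at h4
    have := Nat.le_of_dvd (by norm_num) h4
    generalize Nat.card (Sylow 7 G) = n at *
    interval_cases n <;> simp_all)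
  rw [hi] at h8
  rw [h] at h5
  have h9 := fact_dvd (b := 13) h5 (by decide)
  have := Nat.le_of_dvd (by norm_num) h8
  have : 8 ≤ k := by omega
  nlinarith

theorem card_sylow_dvd_of_two {H : Type*} [Group H] [Finite H] {m : ℕ} (h : Nat.card H = 2 * (25 * m))
    (hm : ¬ 2 ∣ m) (hm5 : ¬ 5 ∣ m) : Nat.card (Sylow 5 H) ∣ m := by
  haveI : Fact (Nat.Prime 5) := ⟨by norm_num⟩
  obtain ⟨T⟩ : Nonempty (Sylow 2 H) := inferInstance
  have hT := card_sylow_of_dvd (k := 1) (m := 25 * m) T h (by omega)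
  obtain ⟨K, hK, hc⟩ : ∃ K : Subgroup H, K.Normal ∧ K.IsComplement' T := ⟨_, inferInstance,
    IsCyclic.isComplement' (P := T) (by rw [h]; simp) (isCyclic_of_prime_card (p := 2) hT)⟩
  have h1 := hc.symm.index_eq_card
  rw [card_sylow_of_normal (K := K) (by rw [h1, hT]; norm_num)]
  have h2 := hc.card_mul
  rw [hT, h] at h2
  obtain ⟨R⟩ : Nonempty (Sylow 5 K) := inferInstance
  have h3 := card_sylow_of_dvd (k := 2) (m := m) R (by omega) hm5
  rw [← index_eq (m := m) (by omega) h3]
  exact R.card_dvd_index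

theorem ne5400 (hG : ¬ IsMulCommutative G) : Nat.card G ≠ 5400 := by
  classical
  intro h
  haveI : Fact (Nat.Prime 5) := ⟨by norm_num⟩
  haveI : Fact (Nat.Prime 3) := ⟨by norm_num⟩
  have hP : ∀ P : Sylow 5 G, Nat.card (P : Subgroup G) = 5 ^ 2 := fun P =>
    card_sylow_of_dvd (k := 2) (m := 216) P h (by norm_num)
  have hab : ∀ P : Sylow 5 G, ∀ x ∈ (P : Subgroup G), (P : Subgroup G) ≤ Subgroup.centralizer {x} := by
    intro P x hx y hy
    haveI := IsPGroup.isMulCommutative_of_card_eq_prime_sq (hP P)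
    rw [Subgroup.mem_centralizer_singleton_iff]
    exact congrArg Subtype.val (mul_comm' (⟨y, hy⟩ : (P : Subgroup G)) ⟨x, hx⟩)
  obtain ⟨P⟩ : Nonempty (Sylow 5 G) := inferInstance
  have hi := index_eq (m := 216) h (hP P)
  have hn : Nat.card (Sylow 5 G) = 36 := by

    have h1 := P.card_dvd_index
    obtain ⟨h2, h3, h4⟩ := sylow_facts hG (p := 5) (by rw [h]; norm_num)
    have h5 : Nat.card (Sylow 5 G) ≠ 216 := by
      intro hk
      have hN : Subgroup.normalizer ((P : Subgroup G) : Set G) = P := by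
        refine (Subgroup.eq_of_le_of_card_ge Subgroup.le_normalizer ?_).symm
        have := card_sylow_mul_card_normalizer P
        rw [hk, h] at this
        rw [hP]; omega
      haveI := IsPGroup.isMulCommutative_of_card_eq_prime_sq (hP P)
      have hc := MonoidHom.ker_transferSylow_isComplement' P (hN ▸ Subgroup.le_centralizer (P : Subgroup G))
      have h6 := hc.symm.index_eq_card
      rcases (MonoidHom.normal_ker (MonoidHom.transferSylow P
        (hN ▸ Subgroup.le_centralizer (P : Subgroup G)))).eq_bot_or_eq_top with h7 | h7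
      · rw [h7, hP, Subgroup.index_bot, h] at h6; omega
      · rw [h7, hP, Subgroup.index_top] at h6; omega
    rw [h] at h4
    rw [hi] at h1
    exact (by decide +kernel : ∀ n ≤ 216, n ∣ 216 → n % 5 = 1 → 9 < n → n ≠ 216 → n = 36) _
      (Nat.le_of_dvd (by norm_num) h1) h1 h2 (fact_dvd (b := 9) h4 (by decide)) h5
  let f : G → ℕ := fun x => Nat.card {Q : Sylow 5 G // x ∈ (Q : Subgroup G)}
  have hf : ∀ x ∈ (P : Subgroup G), f x = Nat.card (Sylow 5 (Subgroup.centralizer {x})) := by
    intro x hx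
    rw [← card_sylow_le P (hab P x hx)]
    refine Nat.card_congr (Equiv.subtypeEquivRight fun Q => ⟨hab Q x, fun hQ => ?_⟩)
    have h1 : Subgroup.zpowers x ≤ Subgroup.normalizer ((Q : Subgroup G) : Set G) := by
      rw [Subgroup.zpowers_le]
      refine Subgroup.centralizer_le_normalizer _ fun y hy => ?_
      exact Subgroup.mem_centralizer_singleton_iff.1 (hQ hy)
    have h2 := (P.isPGroup'.to_le (Subgroup.zpowers_le.2 hx)).inf_normalizer_sylow Q
    exact (h2.le ⟨Subgroup.mem_zpowers x, h1 (Subgroup.mem_zpowers x)⟩).2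
  have hN : Nat.card (Subgroup.normalizer ((P : Subgroup G) : Set G)) = 150 := by
    have := card_sylow_mul_card_normalizer P
    rw [hn, h] at this
    omega
  obtain ⟨⟨y, hyN⟩, hy⟩ := exists_prime_orderOf_dvd_card' (G := Subgroup.normalizer ((P : Subgroup G) : Set G))
    3 (by rw [hN]; norm_num)
  rw [Subgroup.orderOf_mk] at hy
  have hf2 : ∀ x ∈ (P : Subgroup G), x ≠ 1 → f x = 1 ∨ (f x = 6 ∧ y * x * y⁻¹ ≠ x) := by
    intro x hx hx1
    obtain ⟨h1, h2⟩ := card_sylow_facts P (hab P x hx)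
    have h3 := two_mul_card_dvd hG (H := Subgroup.centralizer {x}) fun e => hx1 (by
      rw [← Subgroup.mem_bot, ← center_eq_bot_of_simple hG, Subgroup.mem_center_iff]
      exact fun g => Subgroup.mem_centralizer_singleton_iff.1 (e ▸ Subgroup.mem_top g))
    rw [h] at h3
    have h4 := fact_dvd (b := 9) h3 (by decide)
    rw [hf x hx, or_iff_not_imp_left]
    intro h5
    rw [hi] at h2
    have h6 := Nat.le_of_dvd (by norm_num) h2
    have h7 : Nat.card (Sylow 5 (Subgroup.centralizer ({x} : Set G))) = 6 := by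
      have h8 := Dvd.dvd.trans (Dvd.intro_left _ rfl) h2
      have h9 : Nat.card (Sylow 5 (Subgroup.centralizer ({x} : Set G))) ≤ 21 := by nlinarith
      exact (by decide +kernel : ∀ n ≤ 21, n ∣ 216 → n % 5 = 1 → n ≠ 1 → n = 6) _ h9 h8 h1 h5
    refine ⟨h7, fun e => ?_⟩
    have hyC : y ∈ Subgroup.centralizer {x} := by
      rw [Subgroup.mem_centralizer_singleton_iff]; rw [mul_inv_eq_iff_eq_mul] at e; exact e
    have h8 := card_sylow_mul_card_normalizer (P.subtype (hab P x hx))
    have h9 : 3 ∣ Nat.card (Subgroup.normalizer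
        ((P.subtype (hab P x hx) : Subgroup (Subgroup.centralizer ({x} : Set G))) :
          Set (Subgroup.centralizer ({x} : Set G)))) := by
      have : (⟨y, hyC⟩ : Subgroup.centralizer ({x} : Set G)) ∈ Subgroup.normalizer
        ((P.subtype (hab P x hx) : Subgroup (Subgroup.centralizer ({x} : Set G))) :
          Set (Subgroup.centralizer ({x} : Set G))) := by
        rw [Sylow.coe_subtype, ← Subgroup.subgroupOf_normalizer_eq (hab P x hx)]
        exact hyN
      have := Subgroup.orderOf_dvd_natCard _ this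
      rwa [Subgroup.orderOf_mk, hy] at this
    have h10 := (Subgroup.centralizer ({x} : Set G)).card_mul_index
    rw [h7] at h2 h8 h6
    rw [h] at h10
    have h11 : Nat.card (Subgroup.centralizer ({x} : Set G)) = 2 * (25 * 9) := by
      have h12 : (Subgroup.centralizer ({x} : Set G)).index ≤ 36 := by omega
      rcases (by decide +kernel : ∀ n ≤ 36, n * 6 ∣ 216 → 9 < n → n = 12 ∨ n = 18 ∨ n = 36) _ h12 h2 h4
        with e | e | e <;> rw [e] at h10 <;> omega
    have := card_sylow_dvd_of_two h11 (by norm_num) (by norm_num)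
    rw [h7] at this
    norm_num at this
  let S : Set G := {x | x ∈ (P : Subgroup G) ∧ x ≠ 1 ∧ f x = 6}
  have h25 : ∀ x ∈ (P : Subgroup G), x ^ 25 = 1 := fun x hx => by
    have := Subgroup.orderOf_dvd_natCard _ hx
    rw [hP] at this
    exact orderOf_dvd_iff_pow_eq_one.1 this
  have h3 : 3 ^ (0 + 1) ∣ S.ncard := by
    refine prime_pow_dvd_ncard (MulAut.conj y).toEquiv S ?_ ?_ ?_
    · rintro x ⟨h1, h2, h3⟩
      refine ⟨(Subgroup.mem_normalizer_iff.1 hyN x).1 h1, by simpa using h2, ?_⟩
      rw [← h3]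
      refine Nat.card_congr (Equiv.subtypeEquiv (MulAction.toPerm y⁻¹) fun Q => ?_)
      simp [Sylow.coe_subgroup_smul, Subgroup.mem_pointwise_smul_iff_inv_smul_mem]
    · rintro x ⟨h1, h2, h3⟩
      exact ((hf2 x h1 h2).resolve_left (by omega)).2
    · rintro x -
      have : y ^ 3 = 1 := hy ▸ pow_orderOf_eq_one y
      change y * (y * (y * x * y⁻¹) * y⁻¹) * y⁻¹ = x
      calc _ = y ^ 3 * x * (y ^ 3)⁻¹ := by simp only [pow_succ, pow_zero, one_mul, mul_inv_rev, mul_assoc]
        _ = x := by rw [this]; group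
  have h4 : 2 ^ (1 + 1) ∣ S.ncard := by
    refine prime_pow_dvd_ncard (powCoprime (G := G) (n := 7) (by rw [h]; norm_num)) S ?_ ?_ ?_
    · rintro x ⟨h1, h2, h3⟩
      have h5 : (x ^ 7) ^ 18 = x := by
        rw [← pow_mul, show 7 * 18 = 25 * 5 + 1 by rfl, pow_succ, pow_mul, h25 x h1]; simp
      refine ⟨pow_mem h1 7, fun e => h2 ?_, ?_⟩
      · rw [← h5, show x ^ 7 = 1 from e, one_pow]
      · rw [← h3]
        exact Nat.card_congr (Equiv.subtypeEquivRight fun Q =>
          ⟨fun h => h5 ▸ pow_mem h 18, fun h => pow_mem h 7⟩)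
    · rintro x ⟨h1, h2, h3⟩ e
      change (x ^ 7) ^ 7 = x at e
      apply h2
      have h5 : x ^ 48 = 1 := by
        rw [← pow_mul, show 7 * 7 = 48 + 1 by rfl, pow_succ] at e
        simpa using e
      have := pow_gcd_eq_one.2 ⟨h5, h25 x h1⟩
      simpa using this
    · rintro x ⟨h1, -⟩
      change (((x ^ 7) ^ 7) ^ 7) ^ 7 = x
      rw [← pow_mul, ← pow_mul, ← pow_mul, show 7 * (7 * (7 * 7)) = 25 * 96 + 1 by rfl, pow_succ,
        pow_mul, h25 x h1]; simp
  letI := Fintype.ofFinite (P : Subgroup G)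
  have h5 := sum_card_fixedBy (G := (P : Subgroup G)) (Ω := Sylow 5 G)
  have h6 : ∀ x : (P : Subgroup G), Nat.card (fixedBy (Sylow 5 G) x) =
      1 + (if x = 1 then 35 else 0) + if (x : G) ∈ S then 5 else 0 := by
    intro x
    have e : Nat.card (fixedBy (Sylow 5 G) x) = f x := by
      refine Nat.card_congr (Equiv.subtypeEquivRight fun Q => ?_)
      have h2 := (P.isPGroup'.to_le (Subgroup.zpowers_le.2 x.2)).inf_normalizer_sylow Q
      rw [mem_fixedBy, Subgroup.smul_def, Sylow.smul_eq_iff_mem_normalizer]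
      exact ⟨fun h => (h2.le ⟨Subgroup.mem_zpowers _, h⟩).2, fun h => Subgroup.le_normalizer h⟩
    rw [e]
    by_cases hx : x = 1
    · subst hx
      simp [f, S, hn]
    · have hx' : (x : G) ≠ 1 := fun e => hx (Subtype.ext e)
      rcases hf2 x x.2 hx' with h | h
      · simp [S, hx, h]
      · simp [S, hx, hx', h.1]
  have h7 : S.ncard = (Finset.univ.filter fun x : (P : Subgroup G) => (x : G) ∈ S).card := by
    rw [← Set.ncard_coe_finset, ← Set.ncard_image_of_injective _ (P : Subgroup G).subtype_injective]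
    congr 1
    ext x
    simp only [Set.mem_image, Finset.coe_filter, Finset.mem_univ, true_and, Set.mem_setOf_eq]
    exact ⟨fun h => ⟨⟨x, h.1⟩, h, rfl⟩, fun ⟨y, h1, h2⟩ => h2 ▸ h1⟩
  have h8 := Finset.card_le_univ (Finset.univ.filter fun x : (P : Subgroup G) => (x : G) ∈ S)
  simp only [h6, Finset.sum_add_distrib, Finset.sum_ite_eq', Finset.mem_univ, if_true,
    Finset.sum_const, Finset.card_univ, smul_eq_mul] at h5
  rw [← Finset.sum_filter, Finset.sum_const, ← h7, smul_eq_mul] at h5
  rw [← Nat.card_eq_fintype_card, hP] at h5 h8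
  rw [← h7] at h8
  obtain ⟨a, ha⟩ := Nat.Coprime.mul_dvd_of_dvd_of_dvd (by norm_num) h3 h4
  have h9 : a = 0 ∨ a = 1 ∨ a = 2 := by omega
  rcases h9 with rfl | rfl | rfl <;> omega

/-- A non-abelian finite simple group of order greater than 3640 and at most 6232 has order 4080, 5616, 6048 or 6072. -/
theorem result {G : Type*} [Group G] [Finite G] [IsSimpleGroup G] (hG : ¬ IsMulCommutative G) (h1 : 3640 < Nat.card G) (h2 : Nat.card G ≤ 6232) : Nat.card G = 4080 ∨ Nat.card G = 5616 ∨ Nat.card G = 6048 ∨ Nat.card G = 6072 := by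
  have h3 : Nat.card G ∈ [4080, 4500, 5292, 5400, 5616, 6048, 6072] := by
    by_cases h4 : Nat.card G < 4341
    · exact rng_sound hG r1 h1 h4
    by_cases h5 : Nat.card G < 5041
    · exact rng_sound hG r2 (by omega) h5
    by_cases h6 : Nat.card G < 5641
    · exact rng_sound hG r3 (by omega) h6
    · exact rng_sound hG r4 (by omega) (by omega)
  have := ne4500 hG
  have := ne5292 hG
  have := ne5400 hG
  simp only [List.mem_cons, List.not_mem_nil, or_false] at h3
  omega

end Cfsg.Agent.S0983
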