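import Cfsg.Statements.S1057
import Cfsg.Agent.S3662
import Cfsg.Agent.S1624
import Cfsg.Agent.S1059

set_option autoImplicit false
open Cfsg

namespace Cfsg.Agent.S1057

open Function Matrix Cfsg.Agent.H6 Cfsg.Agent.H5 Cfsg.Lie Cfsg.Agent.S3662
open scoped commutatorElement

theorem rep24 {K : Type} [Field K] [Fintype K] [CharP K 2] (hK : Fintype.card K = 4) {ω : K}
    (hω : ω ^ 2 + ω + 1 = 0) : ∃ (τ : chevG2.group K →* symplecticGroup (Fin 3) K) (g : ℕ → symplecticGroup (Fin 3) K),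
      (∀ r : Φ chevG2, τ ((rsG2.adj K).x r 1) = g (4 * r + 1)) ∧ MRep (ixSum 3) c4 (val2 2 ω) (symplecticGroup (Fin 3) K).subtype g ms ∧ Injective τ := by
  have hs : c4.Sem (val2 2 ω) := sem4 hω
  have hi : ∀ a < 4, ∀ b < 4, val2 2 ω a = val2 2 ω b → a = b := inj4 hω
  obtain ⟨g, hg⟩ := mrep_Sp hs (ixSum 3) (hJ_of (e := 1) (U := [64,256,1024,1,4,16]) hs (by rw [hs.v1, CharTwo.neg_eq])
    (by decide +kernel)) (ml := ml) (by decide +kernel)
  have hsur : ∀ t : K, ∃ a < 4, val2 2 ω a = t := fun t => by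
    obtain ⟨a, ha⟩ := ((Fintype.bijective_iff_injective_and_card fun a : Fin 4 => val2 2 ω a).2
      ⟨fun a b h => Fin.ext (hi _ a.2 _ b.2 h), by simp [hK]⟩).2 t
    exact ⟨a, a.2, ha⟩
  choose ix h1 h2 using hsur
  have h3 : ∀ a < 4, ∀ t, val2 2 ω a = t → ix t = a := fun a ha t h => hi _ (h1 _) _ ha ((h2 t).trans h.symm)
  have h4 : ∀ a, a % 4 < 4 := fun a => Nat.mod_lt _ (by decide)
  have hop : ∀ a < 4, ∀ b < 4, ∀ d < 4, val2 2 ω (c4.op a b d % 4) = val2 2 ω a * val2 2 ω b + val2 2 ω d := hs.op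
  have hpw : ∀ a < 4, ∀ r, c4.pw a r < 4 ∧ val2 2 ω (c4.pw a r) = val2 2 ω a ^ r := fun a ha r => hs.pw ha r
  let x : Φ chevG2 → K → symplecticGroup (Fin 3) K := fun r t => g (4 * r + ix t)
  have r12 : rsG2.Rel12 x := ⟨fun r t u => by
    have := hg.eqv _ _ (c1 r _ (h1 t) _ (h1 u))
    simp only [wp_cons, wp_nil, mul_one] at this
    rw [this, ← h3 _ (h4 _) (t + u) (by rw [hop _ (by decide) _ (h1 _) _ (h1 _), hs.v1, h2, h2, one_mul])],
    fun r s a b t u => by
    have := hg.eqv _ _ (c2 r s a b _ (h1 t) _ (h1 u))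
    simp only [wp_cons, wp_nil, mul_one] at this
    rw [this, mul_assoc, RS.cw, wp, List.map_map]
    congr 3
    refine List.map_congr_left fun c _ => congrArg (fun a => g (4 * c.1 + a)) (h3 _ (h4 _) _ ?_).symm
    have e : val2 2 ω (c.2.1.natAbs % 2) = c.2.1 := by
      rw [val2, Nat.mod_mod, Nat.div_eq_of_lt (Nat.mod_lt _ two_pos), cast_mod_char]
      rcases Int.natAbs_eq c.2.1 with h | h <;> rw [h] <;> simp [CharTwo.neg_eq]
    rw [hop _ (h4 _) _ (hpw _ (h1 _) _).1 _ (by decide), hop _ (by omega) _ (hpw _ (h1 _) _).1 _ (by decide), hs.v0,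
      (hpw _ (h1 _) _).2, (hpw _ (h1 _) _).2, h2, h2, e, CharTwo.neg_eq, add_zero, add_zero]⟩
  have hh : ∀ r (a : Kˣ), rsG2.hx x r a = wp g (hw r (ix a)) := fun r a => by
    have e1 : ix 1 = 1 := h3 _ (by decide) _ hs.v1
    have e2 : ix (a : K)⁻¹ = c4.pw (ix a) 2 := h3 _ (hpw _ (h1 _) _).1 _ (by
      rw [(hpw _ (h1 _) _).2, h2]
      have := FiniteField.pow_card_sub_one_eq_one (a : K) a.ne_zero
      rw [hK] at this
      exact eq_inv_of_mul_eq_one_left (by rw [← pow_succ]; exact this))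
    simp only [RS.hx, RS.nx, hw, CharTwo.neg_eq, inv_one, x, e1, e2, wp_cons, wp_nil, mul_one, mul_assoc]
  have r3 : rsG2.Rel3 x := fun r a b => by
    have k : ∀ a : Kˣ, ix a ≠ 0 := fun a e => a.ne_zero (by rw [← h2 a, e, hs.v0])
    rw [hh, hh, hh, ← wp_append, hg.eqv _ _ (c3 r _ (h1 _) _ (h1 _) (k a) (k b)),
      h3 (c4.op (ix a) (ix b) 0 % 4) (h4 _) (a * b : Kˣ) (by rw [hop _ (h1 _) _ (h1 _) _ (by decide), hs.v0, h2, h2, add_zero, Units.val_mul])]
  obtain ⟨θ, t1, t2, t3⟩ := S1077.result (K := K) chevG2 (by simp)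
  rw [S1078.result _ (by simp), MonoidHom.ker_eq_bot_iff] at t2
  let e := MulEquiv.ofBijective θ ⟨t2, t1⟩
  obtain ⟨hsim, -⟩ := S1055.result (F := K) ⟨ω, fun e => by simp [e] at hω, fun e => by
    rw [e, one_pow, CharTwo.add_self_eq_zero, zero_add] at hω; exact one_ne_zero hω⟩
  refine ⟨(RS.stLift r12 r3).comp e.symm.toMonoidHom, g, fun l => ?_, hg, (MonoidHom.ker_eq_bot_iff _).1
    ((hsim.eq_bot_or_eq_top_of_normal _ inferInstance).resolve_right fun h => ?_)⟩
  · rw [← show e ((rsG2.st K goodG2).x l 1) = _ from rsG2.eq_adj_x_iff.1 (t3 l 1 l.2)]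
    simp only [MonoidHom.comp_apply, MulEquiv.coe_toMonoidHom, MulEquiv.symm_apply_apply, RS.stLift_x, x,
      h3 _ (by decide) _ hs.v1]
  have : e ((rsG2.st K goodG2).x ⟨0, by decide⟩ 1) ∈ ((RS.stLift r12 r3).comp e.symm.toMonoidHom).ker :=
    h ▸ Subgroup.mem_top _
  simp only [MonoidHom.mem_ker, MonoidHom.comp_apply, MulEquiv.coe_toMonoidHom, MulEquiv.symm_apply_apply,
    RS.stLift_x] at this
  refine hg.nev hi (u := [1]) (w := []) (i := 4) (j := 2) (by decide +kernel) ?_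
  simpa [x, h3 _ (by decide) _ hs.v1] using this


open Cl.S62 S1624

theorem isoU {F : Type*} [Field F] [Fintype F] (hF : Fintype.card F = 9) : Nonempty (S1624.GU ≃* PSU 3 F 3) := by
  haveI : CharP F 3 := charP_of_card_eq_prime_pow (f := 2) hF
  obtain ⟨ω, hω⟩ := exists_w9 hF
  obtain ⟨g, hg⟩ := mrep_SU (n := 3) (sem9 hω) (frobenius F 3) (fun _ => rfl)
    (ml := [[81,40,68],[711,387,1],[243,18,6],[243,18,6],[2,9,162],[2,9,162],[1,9,81],[1,9,81]])
    (fs := [[[64,9,81],[1,13,81],[1,9,86],[1,657,81],[10,9,81],[1,9,126],[244,9,81],[1,576,81]],[[163,9,81],[1,9,82],[1,576,81],[64,9,81],[1,9,126],[163,9,81],[1,414,81]],[[487,9,81],[1,9,87],[1,9,99],[1,171,81],[1,9,99],[244,9,81],[1,171,81]],[[487,9,81],[1,9,87],[1,9,99],[1,171,81],[1,9,99],[244,9,81],[1,171,81]],[[1,11,81],[19,9,81],[1,11,81],[1,9,99],[1,171,81],[10,9,81],[1,9,99],[82,9,81],[1,171,81]],[[1,11,81],[19,9,81],[1,11,81],[1,9,99],[1,171,81],[10,9,81],[1,9,99],[82,9,81],[1,171,81]],[],[]])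
    (by decide +kernel)
  have hc : Nat.card (PSU 3 F 3) = 6048 := by
    have := S0280.result (q := 3) hF 3 (by norm_num)
    simp only [Finset.prod_range_succ] at this
    norm_num at this; omega
  exact bd198.equivU satU (hg.psat (il := il) (Rl := C127) (by decide +kernel)) topU cardU simpleU hc (u := [0]) (w := [])
    (by decide +kernel) (ne_one_quot_center (v := [2]) (hg.nev (inj9 hω) (i := 0) (j := 0) (by decide +kernel)))


def vs : List (List ℕ) := [[1, 17, 37], [37, 1, 17], [1], [1], [5], [5]]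

/-- G₂(2)′ ≅ PSU₃(3). -/
theorem result {F K : Type*} [Field F] [Fintype F] [Field K] [Fintype K] (hF : Fintype.card F = 2) (hK : Fintype.card K = 9) :
    Nonempty (↥(commutator ↥(Cfsg.Lie.chevG2.group F)) ≃* Cfsg.PSU 3 K 3) := by
  obtain ⟨L, _, _, hL⟩ := exists_F4
  haveI : CharP L 2 := charP_of_card_eq_prime_pow (f := 2) hL
  obtain ⟨ω, hω⟩ := exists_w4 hL
  obtain ⟨τ, g, h1, hg, h3⟩ := rep24 hL hω
  let ψ := τ.comp (bc chevG2 ((ZMod.castHom (dvd_refl 2) L).comp
    (FiniteField.ringEquivOfCardEq (hF.trans (ZMod.card 2).symm)).toRingHom))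
  have hψ : Injective ψ := h3.comp (bc_inj _)
  have e : ∀ w, wp (fun l => wp g (lk [] vs l)) w = wp g (w.flatMap (lk [] vs)) := fun w => by
    induction w with
    | nil => rfl
    | cons k w ih => rw [wp_cons, ih, List.flatMap_cons, wp_append]
  have s : Sat io C127 fun l => wp g (lk [] vs l) :=
    sat_of_test (t := fun w => c4.one 6 ms (w.flatMap (lk [] vs))) (m := 8) (fun w h => (e w).trans (hg.one h))
      (fun l hl => by rw [lk_eq, List.getD_eq_default _ _ (by simp [vs]; omega)]; rfl) (by decide +kernel)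
  obtain ⟨φ, a, b⟩ := bd198.homTop satU s topU cardU.ge
  have n : φ (wp gU [0, 2]) ≠ φ (wp gU [2, 0]) := by
    rw [b _ (by decide +kernel), b _ (by decide +kernel), e, e]
    exact hg.nev (inj4 hω) (i := 0) (j := 2) (by decide +kernel)
  have r : φ.range ≤ ψ.range := a.trans_le (cl_lw_le.2 fun l hl => wp_mem fun k hk => by
    obtain ⟨r, rfl⟩ := (by decide +kernel : ∀ l ∈ [0, 1, 2, 3, 4, 5], ∀ k ∈ lk [] vs l, ∃ r : Φ chevG2, k = 4 * r + 1) l hl k hk
    exact ⟨(rsG2.adj F).x r 1, by rw [MonoidHom.comp_apply, RS.bc_x, map_one, h1]⟩)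
  let ι : S1624.GU →* chevG2.group F := (MonoidHom.ofInjective hψ).symm.toMonoidHom.comp (φ.codRestrict _ fun x => r ⟨x, rfl⟩)
  have c : ∀ x, ψ (ι x) = φ x := fun x => MonoidHom.apply_ofInjective_symm hψ _
  have i : Injective ι := (MonoidHom.ker_eq_bot_iff _).1 ((simpleU.eq_bot_or_eq_top_of_normal _ inferInstance).resolve_right
    fun h => n (by rw [← c, ← c, (MonoidHom.mem_ker (f := ι)).1 (h.ge (Subgroup.mem_top (wp gU [0, 2]))),
      (MonoidHom.mem_ker (f := ι)).1 (h.ge (Subgroup.mem_top (wp gU [2, 0])))]))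
  have i2 : ι.range.index = 2 := by
    have := ι.range.card_mul_index
    rw [← Nat.card_congr (MonoidHom.ofInjective i).toEquiv, cardU, S1059.result hF] at this
    omega
  have t : (commutator (chevG2.group F)).comap ι = ⊤ := (simpleU.eq_bot_or_eq_top_of_normal _ inferInstance).resolve_left
    fun h => n (congrArg φ (by
      have : ⁅gU 0, gU 2⁆ ∈ (commutator (chevG2.group F)).comap ι := by
        rw [Subgroup.mem_comap, map_commutatorElement]
        exact Subgroup.commutator_mem_commutator (Subgroup.mem_top _) (Subgroup.mem_top _)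
      rw [h, Subgroup.mem_bot, commutatorElement_eq_one_iff_mul_comm] at this
      simpa using this))
  have q : commutator (chevG2.group F) = ι.range := le_antisymm (Subgroup.commutator_le.2 fun x _ y _ => by
    rw [commutatorElement_def, mul_assoc, Subgroup.mul_mem_iff_of_index_two i2, Subgroup.mul_mem_iff_of_index_two i2,
      Subgroup.mul_mem_iff_of_index_two i2, inv_mem_iff, inv_mem_iff]) (by
    rintro _ ⟨x, rfl⟩
    exact (t ▸ Subgroup.mem_top x : x ∈ (commutator (chevG2.group F)).comap ι))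
  obtain ⟨e4⟩ := isoU hK
  exact ⟨(MulEquiv.subgroupCongr q).trans ((MonoidHom.ofInjective i).symm.trans e4)⟩

end Cfsg.Agent.S1057
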