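import Cfsg.Statements.S1153
import Cfsg.Agent.H5.Re3

set_option autoImplicit false
open Cfsg

namespace Cfsg.Agent.S1153

/-- In the small Ree group ²G₂(q), q = 3^(2m+1), realised as G¹ inside the Chevalley group G₂ over the field with q elements, with `B¹ = G¹ ∩ B`: in the action of `G¹` on the cosets of `B¹`, the joint stabiliser of any three distinct cosets has order at most 2, and for some three distinct cosets it has order exactly 2. -/
theorem result {K : Type*} [Field K] [Fintype K] {m : ℕ} (hK : Fintype.card K = 3 ^ (2 * m + 1)) :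
    (∀ x y z : ↥(Cfsg.Lie.twistedG2 K (3 ^ m)) ⧸ ((Cfsg.Lie.chevG2.borelSubgroup K ⊓ Cfsg.Lie.twistedG2 K (3 ^ m))).subgroupOf (Cfsg.Lie.twistedG2 K (3 ^ m)), x ≠ y → x ≠ z → y ≠ z →
        Nat.card ↥(MulAction.stabilizer ↥(Cfsg.Lie.twistedG2 K (3 ^ m)) x ⊓ MulAction.stabilizer ↥(Cfsg.Lie.twistedG2 K (3 ^ m)) y ⊓ MulAction.stabilizer ↥(Cfsg.Lie.twistedG2 K (3 ^ m)) z) ≤ 2) ∧
      ∃ x y z : ↥(Cfsg.Lie.twistedG2 K (3 ^ m)) ⧸ ((Cfsg.Lie.chevG2.borelSubgroup K ⊓ Cfsg.Lie.twistedG2 K (3 ^ m))).subgroupOf (Cfsg.Lie.twistedG2 K (3 ^ m)), x ≠ y ∧ x ≠ z ∧ y ≠ z ∧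
        Nat.card ↥(MulAction.stabilizer ↥(Cfsg.Lie.twistedG2 K (3 ^ m)) x ⊓ MulAction.stabilizer ↥(Cfsg.Lie.twistedG2 K (3 ^ m)) y ⊓ MulAction.stabilizer ↥(Cfsg.Lie.twistedG2 K (3 ^ m)) z) = 2 := by
  obtain ⟨a, -, -, _, X, -, -, h⟩ := H5.exists_ree hK
  rw [← h]
  have h1 := fun x y z h1 h2 h3 => (X.stab3 (x := x) (y := y) (z := z) h1 h2 h3).elim fun k hk =>
    (Subgroup.card_le_of_le hk).trans_eq ((Nat.card_zpowers _).trans (show _ = 2 by
      rw [← X.e2.trans rfl, ← orderOf_injective (MulAut.conj k⁻¹).toMonoidHom (MulAut.conj _).injective X.e]; simp))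
  refine ⟨h1, ?_⟩
  obtain ⟨⟨u, h2, h3⟩, h4⟩ := (Subgroup.ne_bot_iff_exists_ne_one (H := Subgroup.centralizer {X.e} ⊓ X.U)).1 fun e => by
    have := X.cardCU
    rw [e, Subgroup.card_bot, H5.Ree.qq] at this; omega
  replace h4 : u ≠ 1 := fun e => h4 (Subtype.ext e)
  have h5 : X.n ∉ Subgroup.normalizer (X.U : Set _) := fun e => h4 (X.opp u h3 (mul_mem (mul_mem (inv_mem e) (Subgroup.le_normalizer h3)) e))
  have h6 : QuotientGroup.mk (s := Subgroup.normalizer (X.U : Set _)) 1 ≠ QuotientGroup.mk X.n := by simpa [QuotientGroup.eq] using h5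
  have h7 : QuotientGroup.mk (s := Subgroup.normalizer (X.U : Set _)) 1 ≠ QuotientGroup.mk (u * X.n) := fun e => h5 ((mul_mem_cancel_left
    (Subgroup.le_normalizer h3)).1 (by simpa using QuotientGroup.eq.1 e))
  have h8 : QuotientGroup.mk (s := Subgroup.normalizer (X.U : Set _)) X.n ≠ QuotientGroup.mk (u * X.n) := fun e => h4 (X.opp u h3 (by
    simpa [mul_assoc] using QuotientGroup.eq.1 e))
  refine ⟨_, _, _, h6, h7, h8, (h1 _ _ _ h6 h7 h8).antisymm ?_⟩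
  rw [← X.e2, ← Nat.card_zpowers]
  have h9 := (X.two X.e⁻¹).2 (inv_mem ⟨_, X.he.symm⟩)
  refine Subgroup.card_le_of_le (Subgroup.zpowers_le.2 ⟨⟨QuotientGroup.eq.2 ?_, QuotientGroup.eq.2 ?_⟩, QuotientGroup.eq.2 ?_⟩)
  · simpa using h9.1
  · simpa using h9.2
  · change (X.e * (u * X.n))⁻¹ * _ ∈ _
    rw [← mul_assoc X.e, ← Subgroup.mem_centralizer_singleton_iff.1 h2]
    simpa [mul_assoc] using h9.2

end Cfsg.Agent.S1153
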