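import Cfsg.Statements.S1313
import Cfsg.Agent.H8.FStar

set_option autoImplicit false
open Cfsg

namespace Cfsg.Agent.S1313

open Cfsg.Agent.H8

open Subgroup

theorem hol (F : Type*) [Group F] [Finite F] :
    Nat.card F * Nat.card (MulAut F) ≤ (Nat.card F).factorial := by
  rw [← Nat.card_perm, ← Nat.card_prod]
  refine Nat.card_le_card_of_injective
    (fun x : F × MulAut F => (Equiv.mulLeft x.1) * x.2.toEquiv) ?_
  rintro ⟨a, φ⟩ ⟨b, ψ⟩ h
  have h1 : ∀ y, a * φ y = b * ψ y := fun y => congrArg (fun e : Equiv.Perm F => e y) h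
  have h2 : a = b := by simpa using h1 1
  subst h2
  refine Prod.ext rfl (MulEquiv.ext fun y => mul_left_cancel (h1 y))

/-- For a finite group H, |H| ≤ |F*(H)|!. -/
theorem result {H : Type*} [Group H] [Finite H] : Nat.card H ≤ Nat.factorial (Nat.card ↥(Cfsg.generalizedFittingSubgroup H)) := by
  have := fstar_normal (G := H)
  set F := Cfsg.generalizedFittingSubgroup H
  let f : H →* MulAut F := MulAut.conjNormal
  have h1 : f.ker ≤ F := by
    refine le_trans ?_ centralizer_fstar_le
    intro x hx
    rw [mem_centralizer_iff]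
    intro y hy
    have := congrArg (fun φ : MulAut F => ((φ ⟨y, hy⟩ : F) : H)) (MonoidHom.mem_ker.1 hx)
    simp only [f, MulAut.conjNormal_apply, MulAut.one_apply] at this
    exact (mul_inv_eq_iff_eq_mul.1 this).symm
  have h2 : Nat.card H = Nat.card f.ker * Nat.card f.range := by
    rw [← card_mul_index f.ker, index_ker]
  rw [h2]
  refine le_trans ?_ (hol F)
  exact Nat.mul_le_mul (card_le_of_le h1) (card_le_card_group _)

end Cfsg.Agent.S1313
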