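import Cfsg.Statements.S5601
import Cfsg.Agent.GS.Mk2

set_option autoImplicit false
open scoped Pointwise
open Cfsg

namespace Cfsg.Agent.S5601

/-- The group of the length-24 code has exactly two conjugacy classes of subgroups of order 3: a subgroup of order 3 fixes either exactly 6 of the 24 points or none of them, both cases occur, and two subgroups of order 3 with the same number of fixed points are conjugate. -/
theorem result : (∀ X : Subgroup ↥Cfsg.M24, Nat.card X = 3 → {p : Cfsg.GolayPt | ∀ x ∈ X, ((x : ↥Cfsg.M24) : Equiv.Perm Cfsg.GolayPt) p = p}.ncard = 6 ∨ {p : Cfsg.GolayPt | ∀ x ∈ X, ((x : ↥Cfsg.M24) : Equiv.Perm Cfsg.GolayPt) p = p}.ncard = 0) ∧ (∃ X : Subgroup ↥Cfsg.M24, Nat.card X = 3 ∧ {p : Cfsg.GolayPt | ∀ x ∈ X, ((x : ↥Cfsg.M24) : Equiv.Perm Cfsg.GolayPt) p = p}.ncard = 6) ∧ (∃ X : Subgroup ↥Cfsg.M24, Nat.card X = 3 ∧ {p : Cfsg.GolayPt | ∀ x ∈ X, ((x : ↥Cfsg.M24) : Equiv.Perm Cfsg.GolayPt) p = p}.ncard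 = 0) ∧ ∀ X Y : Subgroup ↥Cfsg.M24, Nat.card X = 3 → Nat.card Y = 3 → {p : Cfsg.GolayPt | ∀ x ∈ X, ((x : ↥Cfsg.M24) : Equiv.Perm Cfsg.GolayPt) p = p}.ncard = {p : Cfsg.GolayPt | ∀ x ∈ Y, ((x : ↥Cfsg.M24) : Equiv.Perm Cfsg.GolayPt) p = p}.ncard → ∃ k : ↥Cfsg.M24, MulAut.conj k • X = Y := by
  open Finset Pointwise Cfsg.Agent.St Cfsg.Agent.H6 in focus
    haveI := Fact.mk Nat.prime_three
    have gen : ∀ X : Subgroup M24, Nat.card X = 3 → ∃ x, orderOf x = 3 ∧ X = Subgroup.zpowers x := by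
      intro X hX
      obtain ⟨x, hx⟩ := exists_prime_orderOf_dvd_card' (G := X) 3 (by rw [hX])
      have h1 : orderOf (x : M24) = 3 := by rw [Subgroup.orderOf_coe, hx]
      exact ⟨x, h1, (Subgroup.eq_of_le_of_card_ge (by simp) (by rw [hX, Nat.card_zpowers, h1])).symm⟩
    have fx : ∀ x : M24, {p : GolayPt | ∀ y ∈ Subgroup.zpowers x, ((y : M24) : PG) p = p}.ncard = (univ.filter fun p => (x : PG) p = p).card := by
      intro x
      rw [← Set.ncard_coe_finset]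
      congr 1
      ext p
      simp only [coe_filter, mem_univ, true_and, Set.mem_ofPred_eq]
      exact ⟨fun h => h x (Subgroup.mem_zpowers x), fun h y hy =>
        (show Subgroup.zpowers x ≤ MulAction.stabilizer M24 p from Subgroup.zpowers_le_of_mem h) hy⟩
    have cj : ∀ c r : M24, Subgroup.zpowers (c * r * c⁻¹) = MulAut.conj c • Subgroup.zpowers r := fun c r =>
      (MonoidHom.map_zpowers (MulDistribMulAction.toMonoidEnd _ _ (MulAut.conj c)) r).symm
    refine ⟨fun X hX => ?_, ⟨_, by rw [Nat.card_zpowers, ord_a3], (fx a3).trans cnt_a3.1⟩,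
      ⟨_, by rw [Nat.card_zpowers, ord_b3], (fx b3).trans cnt_b3.1⟩, fun X Y hX hY h => ?_⟩
    · obtain ⟨x, h, rfl⟩ := gen X hX
      rw [fx]; exact (three_cnt h).imp And.left And.left
    · obtain ⟨x, h1, rfl⟩ := gen X hX
      obtain ⟨y, h2, rfl⟩ := gen Y hY
      rw [fx, fx] at h
      have k : ∀ c d r : M24, ∃ k : M24, MulAut.conj k • Subgroup.zpowers (c * r * c⁻¹) = Subgroup.zpowers (d * r * d⁻¹) :=
        fun c d r => ⟨d * c⁻¹, by rw [← cj]; congr 1; group⟩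
      rcases three_cls h1 with ⟨c, rfl⟩ | ⟨c, rfl⟩ <;> rcases three_cls h2 with ⟨d, rfl⟩ | ⟨d, rfl⟩
      · exact k _ _ _
      · rw [(cnt_a3.conj c).1, (cnt_b3.conj d).1] at h; omega
      · rw [(cnt_b3.conj c).1, (cnt_a3.conj d).1] at h; omega
      · exact k _ _ _

end Cfsg.Agent.S5601
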