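import Cfsg.Statements.S1606
import Cfsg.Agent.S5600
import Cfsg.Agent.S5601
import Cfsg.Agent.S0378
import Cfsg.Agent.GS.Mk2

set_option autoImplicit false
open scoped Pointwise
open Cfsg

namespace Cfsg.Agent.S1606

open MulAction

section gen
variable {G Ω : Type*} [Group G] [Finite G] [MulAction G Ω] [Finite Ω]

def Fx (Ω : Type*) [MulAction G Ω] (Q : Subgroup G) : Set Ω := {a | ∀ g ∈ Q, g • a = a}

theorem fixmod {l : ℕ} (hl : l.Prime) (Q : Subgroup G) {n : ℕ} (hQ : Nat.card Q = l ^ n) (O : Set Ω)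
    (hO : ∀ g ∈ Q, ∀ a ∈ O, g • a ∈ O) : O.ncard % l = (O ∩ Fx Ω Q).ncard % l := by
  haveI := Fact.mk hl
  let S : SubMulAction Q Ω := ⟨O, fun g a ha => hO g g.2 a ha⟩
  have h := (IsPGroup.of_card hQ).card_modEq_card_fixedPoints S
  have e1 : Nat.card S = O.ncard := Nat.card_coe_set_eq O
  have e2 : Nat.card (fixedPoints Q S) = (O ∩ Fx Ω Q).ncard := by
    rw [Nat.card_coe_set_eq, ← Set.ncard_image_of_injective _ Subtype.val_injective]
    congr 1; ext a; constructor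
    · rintro ⟨⟨b, hb⟩, h, rfl⟩; exact ⟨hb, fun g hg => congrArg Subtype.val (h ⟨g, hg⟩)⟩
    · rintro ⟨h1, h2⟩; exact ⟨⟨a, h1⟩, fun g => Subtype.ext (h2 g g.2), rfl⟩
  rw [← e1, ← e2]; exact h

theorem orb (A : Subgroup G) (r : Ω) :
    (orbit A r).ncard * Nat.card ↥(A ⊓ stabilizer G r) = Nat.card A := by
  rw [← index_stabilizer, ← (stabilizer A r).index_mul_card]
  congr 1
  have : stabilizer A r = (A ⊓ stabilizer G r).subgroupOf A := by
    ext g; simp only [Subgroup.mem_subgroupOf, Subgroup.mem_inf, mem_stabilizer_iff]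
    exact ⟨fun h => ⟨g.2, h⟩, fun h => h.2⟩
  rw [this]; exact (Nat.card_congr (Subgroup.subgroupOfEquivOfLe inf_le_left).toEquiv).symm

theorem sub {l n : ℕ} (hl : l.Prime) (A : Subgroup G) (h : l ^ n ∣ Nat.card A) :
    ∃ Q ≤ A, Nat.card Q = l ^ n := by
  haveI := Fact.mk hl
  obtain ⟨Q, hQ⟩ := Sylow.exists_subgroup_card_pow_prime l h
  exact ⟨Q.map A.subtype, Subgroup.map_subtype_le _, by
    rw [Subgroup.card_map_of_injective A.subtype_injective, hQ]⟩

theorem add2 {S T : Set Ω} (h : S ⊆ T) {p q : Ω} (hp : p ∈ T) (hq : q ∈ T) (h1 : p ∉ S) (h2 : q ∉ S)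
    (hpq : p ≠ q) : S.ncard + 2 ≤ T.ncard := by
  have e : (insert p (insert q S)).ncard = S.ncard + 2 := by
    rw [Set.ncard_insert_of_notMem (by simp [hpq, h1]), Set.ncard_insert_of_notMem h2]
  rw [← e]
  exact Set.ncard_le_ncard (Set.insert_subset hp (Set.insert_subset hq h))

omit [Finite G] [Finite Ω] in
theorem mem_orb {A : Subgroup G} {r a : Ω} : a ∈ orbit A r ↔ ∃ g ∈ A, g • r = a :=
  ⟨fun ⟨g, h⟩ => ⟨g, g.2, h⟩, fun ⟨g, hg, h⟩ => ⟨⟨g, hg⟩, h⟩⟩

omit [Finite G] [Finite Ω] in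
theorem orb_inv {A Q : Subgroup G} (h : Q ≤ A) (r : Ω) : ∀ g ∈ Q, ∀ a ∈ orbit A r, g • a ∈ orbit A r := by
  intro g hg a ha
  obtain ⟨k, hk, rfl⟩ := mem_orb.1 ha
  exact mem_orb.2 ⟨g * k, A.mul_mem (h hg) hk, mul_smul _ _ _⟩

omit [Finite G] [Finite Ω] in
theorem orb_ne {A : Subgroup G} {p r a : Ω} (hp : ∀ g ∈ A, g • p = p) (hr : r ≠ p) (ha : a ∈ orbit A r) : a ≠ p := by
  obtain ⟨k, hk, rfl⟩ := mem_orb.1 ha
  intro e
  exact hr (by rw [← hp k⁻¹ (A.inv_mem hk), ← e, inv_smul_smul])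

theorem few (hΩ : Nat.card Ω = 24) (h6 : ∀ Q : Subgroup G, 6 ≤ (Fx Ω Q).ncard → Nat.card Q ∣ 48)
    {l n : ℕ} (hl : l.Prime) (Q : Subgroup G) (hQ : Nat.card Q = l ^ n) (h : ¬ l ^ n ∣ 48) :
    (Fx Ω Q).ncard < 6 ∧ (Fx Ω Q).ncard % l = 24 % l := by
  refine ⟨by by_contra h'; exact h (hQ ▸ h6 Q (by omega)), ?_⟩
  have := fixmod hl Q hQ (Set.univ : Set Ω) (fun _ _ _ _ => trivial)
  rw [Set.ncard_univ, hΩ, Set.univ_inter] at this
  exact this.symm

theorem no2112 (hΩ : Nat.card Ω = 24) (h6 : ∀ Q : Subgroup G, 6 ≤ (Fx Ω Q).ncard → Nat.card Q ∣ 48)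
    (h2 : ∀ t : G, orderOf t = 2 → {a : Ω | t • a = a}.ncard = 8 ∨ {a : Ω | t • a = a}.ncard = 0)
    {p q : Ω} (hpq : p ≠ q) (K : Subgroup G) (hp : ∀ g ∈ K, g • p = p) (hq : ∀ g ∈ K, g • q = q)
    (hK : Nat.card K = 2112) : False := by
  haveI : Fact (Nat.Prime 11) := ⟨by norm_num⟩
  haveI : Fact (Nat.Prime 2) := ⟨by norm_num⟩
  obtain ⟨P0⟩ : Nonempty (Sylow 11 K) := inferInstance
  have cP : Nat.card (P0 : Subgroup K) = 11 := by
    rw [P0.card_eq_multiplicity, hK]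
    have : Nat.factorization 2112 11 = 1 := by
      rw [show 2112 = 11 * 192 by norm_num, Nat.factorization_mul (by norm_num) (by norm_num)]
      simp [Nat.factorization_eq_zero_of_not_dvd (show ¬ 11 ∣ 192 by norm_num), Nat.Prime.factorization (show Nat.Prime 11 by norm_num)]
    rw [this, pow_one]
  have hm := card_sylow_modEq_one 11 K
  have hN : Nat.card (Sylow 11 K) = (Subgroup.normalizer ((P0 : Subgroup K) : Set K)).index := P0.card_eq_index_normalizer
  have hNc := (Subgroup.normalizer ((P0 : Subgroup K) : Set K)).index_mul_card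
  have hd : 11 ∣ Nat.card (Subgroup.normalizer ((P0 : Subgroup K) : Set K)) := by
    have := Subgroup.card_dvd_of_le (Subgroup.le_normalizer (H := (P0 : Subgroup K)))
    rwa [cP] at this
  have ev : 2 ∣ Nat.card (Subgroup.normalizer ((P0 : Subgroup K) : Set K)) := by
    rw [hK, ← hN] at hNc
    obtain ⟨c, hc⟩ := hd
    rw [hc] at hNc ⊢
    unfold Nat.ModEq at hm
    by_contra hne
    have h1 : Nat.card (Sylow 11 K) * c = 192 := by nlinarith
    have h64 : 64 ∣ Nat.card (Sylow 11 K) := by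
      refine Nat.Coprime.dvd_of_dvd_mul_right (n := c) ?_ (by rw [h1]; norm_num)
      have : Nat.Coprime 2 c := (Nat.Prime.coprime_iff_not_dvd Nat.prime_two).2 fun h => hne (h.mul_left _)
      exact Nat.Coprime.pow_left 6 this
    have hle : Nat.card (Sylow 11 K) ≤ 192 := Nat.le_of_dvd (by norm_num) ⟨c, h1.symm⟩
    omega
  obtain ⟨t0, ht0⟩ := exists_prime_orderOf_dvd_card' 2 ev
  set t : G := ((t0 : K) : G) with htd
  have ht : orderOf t = 2 := by rw [htd, Subgroup.orderOf_coe, Subgroup.orderOf_coe, ht0]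
  have htK : t ∈ K := (t0 : K).2
  set P : Subgroup G := (P0 : Subgroup K).map K.subtype with hP
  have cP' : Nat.card P = 11 := by rw [hP, Subgroup.card_map_of_injective K.subtype_injective, cP]
  have PK : P ≤ K := Subgroup.map_subtype_le _
  have hn : ∀ w ∈ P, t * w * t⁻¹ ∈ P := by
    rintro _ ⟨w, hw, rfl⟩
    exact ⟨_, (Subgroup.mem_normalizer_iff.1 t0.2 w).1 hw, rfl⟩
  have gen : ∀ w ∈ P, w ≠ 1 → Subgroup.zpowers w = P := fun w hw h1 => by
    apply Subgroup.eq_of_le_of_card_ge ((Subgroup.zpowers_le).2 hw)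
    have hd := Subgroup.card_dvd_of_le ((Subgroup.zpowers_le).2 hw)
    rw [cP'] at hd ⊢
    rcases (Nat.dvd_prime (by norm_num)).1 hd with h | h
    · exact absurd (by simpa using h) h1
    · omega
  have free : ∀ w ∈ P, ∀ r : Ω, r ≠ p → r ≠ q → w • r = r → w = 1 := fun w hw r h1 h2 h => by
    by_contra hw1
    have f := few hΩ h6 (l := 11) (n := 1) (by norm_num) P (by simpa using cP') (by norm_num)
    have hr : r ∈ Fx Ω P := by
      intro g hg
      rw [← gen w hw hw1] at hg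
      exact (Subgroup.zpowers_le (H := stabilizer G r)).2 h hg
    have := add2 (S := {r}) (T := Fx Ω P) (by simpa using hr) (fun g hg => hp g (PK hg)) (fun g hg => hq g (PK hg))
      (by simpa using h1.symm) (by simpa using h2.symm) hpq
    rw [Set.ncard_singleton] at this
    omega
  have h8 : {a : Ω | t • a = a}.ncard = 8 := (h2 t ht).resolve_right fun h => by
    rw [Set.ncard_eq_zero] at h
    exact (h ▸ (show p ∈ {a : Ω | t • a = a} from hp t htK) : p ∈ (∅ : Set Ω))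
  set T : Set Ω := {a : Ω | t • a = a} \ {p, q} with hT
  have c6 : T.ncard = 6 := by
    rw [hT, Set.ncard_diff (by rintro a (rfl | rfl); exacts [hp t htK, hq t htK]), h8, Set.ncard_pair hpq]
  have inj : Function.Injective fun x : T × P => (x.2 : G) • (x.1 : Ω) := by
    rintro ⟨⟨r, hr⟩, ⟨u, hu⟩⟩ ⟨⟨s, hs⟩, ⟨v, hv⟩⟩ e
    have e' : (v⁻¹ * u) • r = s := by rw [mul_smul, show u • r = v • s from e, inv_smul_smul]
    have hw : v⁻¹ * u ∈ P := P.mul_mem (P.inv_mem hv) hu
    have r1 : r ≠ p := fun h => hr.2 (by simp [h])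
    have r2 : r ≠ q := fun h => hr.2 (by simp [h])
    have tr : t • r = r := hr.1
    have ts : t • s = s := hs.1
    by_cases h1 : v⁻¹ * u = 1
    · have : u = v := by rw [inv_mul_eq_one] at h1; exact h1.symm
      subst this
      rw [h1, one_smul] at e'
      subst e'; rfl
    exfalso
    generalize v⁻¹ * u = w at *
    have hc : w⁻¹ * (t * w * t⁻¹) = 1 := free _ (P.mul_mem (P.inv_mem hw) (hn w hw)) r r1 r2 (by
      rw [mul_smul, mul_smul, mul_smul, inv_smul_eq_iff.2 tr.symm, e', ts, ← e', inv_smul_smul])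
    have hc' : Commute t w := by
      rw [inv_mul_eq_one] at hc
      exact (mul_inv_eq_iff_eq_mul.1 hc.symm)
    have : Function.Injective fun x : P => (⟨(x : G) • r, by
        obtain ⟨k, hk⟩ : (x : G) ∈ Subgroup.zpowers w := by rw [gen w hw h1]; exact x.2
        show t • (x : G) • r = (x : G) • r
        rw [← hk, ← mul_smul, (hc'.zpow_right k).eq, mul_smul, tr]⟩ : {a : Ω | t • a = a}) := by
      intro x y e
      have e2 : (x : G) • r = (y : G) • r := congrArg Subtype.val e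
      have := free _ (P.mul_mem (P.inv_mem y.2) x.2) r r1 r2 (by rw [mul_smul, e2, inv_smul_smul])
      rw [inv_mul_eq_one] at this
      exact Subtype.ext this.symm
    have := Nat.card_le_card_of_injective _ this
    rw [cP', Nat.card_coe_set_eq, h8] at this
    omega
  have := Nat.card_le_card_of_injective _ inj
  rw [Nat.card_prod, cP', Nat.card_coe_set_eq, c6, hΩ] at this
  omega

theorem no7920 (hΩ : Nat.card Ω = 24) (h6 : ∀ Q : Subgroup G, 6 ≤ (Fx Ω Q).ncard → Nat.card Q ∣ 48)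
    (h3 : ∀ Q : Subgroup G, Nat.card Q = 3 → (Fx Ω Q).ncard = 6 ∨ (Fx Ω Q).ncard = 0)
    {p q : Ω} (hpq : p ≠ q) (K : Subgroup G) (hp : ∀ g ∈ K, g • p = p) (hq : ∀ g ∈ K, g • q = q)
    (hK : Nat.card K = 7920) : False := by
  have a2 : ∀ (Q : Subgroup G), Q ≤ K → ∀ S ⊆ Fx Ω Q, p ∉ S → q ∉ S → S.ncard + 2 ≤ (Fx Ω Q).ncard :=
    fun Q hQ S hS h1 h2 => add2 hS (fun g hg => hp g (hQ hg)) (fun g hg => hq g (hQ hg)) h1 h2 hpq
  have np : ∀ (A : Subgroup G), A ≤ K → ∀ r, r ≠ p → p ∉ orbit A r :=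
    fun A hA r hr h => orb_ne (fun g hg => hp g (hA hg)) hr h rfl
  have nq : ∀ (A : Subgroup G), A ≤ K → ∀ r, r ≠ q → q ∉ orbit A r :=
    fun A hA r hr h => orb_ne (fun g hg => hq g (hA hg)) hr h rfl
  have o22 : ∀ (A : Subgroup G), A ≤ K → ∀ r, r ≠ p → r ≠ q → (orbit A r).ncard ≤ 22 := fun A hA r h1 h2 => by
    have := add2 (Set.subset_univ (orbit A r)) (Set.mem_univ p) (Set.mem_univ q) (np A hA r h1) (nq A hA r h2) hpq
    rw [Set.ncard_univ, hΩ] at this; omega
  have c360 : ∀ r, r ≠ p → r ≠ q → Nat.card ↥(K ⊓ stabilizer G r) = 360 := fun r h1 h2 => by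
    have ho := orb K r
    have h22 := o22 K le_rfl r h1 h2
    have n11 : ¬ 11 ∣ Nat.card ↥(K ⊓ stabilizer G r) := fun h => by
      obtain ⟨Q, hQ, cQ⟩ := sub (l := 11) (n := 1) (by norm_num) (K ⊓ stabilizer G r) (by rwa [pow_one])
      have f := few hΩ h6 (by norm_num) Q cQ (by norm_num)
      have := a2 Q (hQ.trans inf_le_left) {r} (by
        rintro _ rfl g hg; exact (hQ hg).2) (by simpa using h1.symm) (by simpa using h2.symm)
      rw [Set.ncard_singleton] at this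
      omega
    have d11 : 11 ∣ (orbit K r).ncard :=
      ((Nat.Prime.dvd_mul (by norm_num)).1 (by rw [ho, hK]; norm_num)).resolve_right n11
    have n0 : (orbit K r).ncard ≠ 0 := fun h => by rw [h, hK] at ho; omega
    have n11' : (orbit K r).ncard ≠ 11 := fun h => by
      obtain ⟨Q, hQ, cQ⟩ := sub (l := 3) (n := 2) (by norm_num) K (by rw [hK]; norm_num)
      have f := few hΩ h6 (by norm_num) Q cQ (by norm_num)
      have m := fixmod (by norm_num) Q cQ (orbit K r) (orb_inv hQ r)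
      have := a2 Q hQ (orbit K r ∩ Fx Ω Q) Set.inter_subset_right (fun h => np K le_rfl r h1 h.1)
        (fun h => nq K le_rfl r h2 h.1)
      omega
    have : (orbit K r).ncard = 22 := by omega
    rw [this, hK] at ho; omega
  obtain ⟨r, -, hr⟩ : ∃ r ∈ (Set.univ : Set Ω), r ∉ ({p, q} : Set Ω) :=
    Set.exists_mem_notMem_of_ncard_lt_ncard (by rw [Set.ncard_univ, hΩ, Set.ncard_pair hpq]; norm_num)
  have r1 : r ≠ p := fun h => hr (by simp [h])
  have r2 : r ≠ q := fun h => hr (by simp [h])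
  set A := K ⊓ stabilizer G r with hA
  have cA : Nat.card A = 360 := c360 r r1 r2
  obtain ⟨Y, hY, cY⟩ := sub (l := 5) (n := 1) (by norm_num) A (by rw [cA]; norm_num)
  have fY := few hΩ h6 (by norm_num) Y cY (by norm_num)
  have c3 : ({p, q, r} : Set Ω).ncard = 3 := Set.ncard_eq_three.2 ⟨p, q, r, hpq, r1.symm, r2.symm, rfl⟩
  obtain ⟨s, hs, hs'⟩ : ∃ s ∈ Fx Ω Y, s ∉ ({p, q, r} : Set Ω) :=
    Set.exists_mem_notMem_of_ncard_lt_ncard (by omega)
  have s1 : s ≠ p := fun h => hs' (by simp [h])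
  have s2 : s ≠ q := fun h => hs' (by simp [h])
  have s3 : s ≠ r := fun h => hs' (by simp [h])
  have FY : ∀ a ∈ Fx Ω Y, a ≠ p → a ≠ q → a = r ∨ a = s := fun a ha h1 h2 => by
    by_contra h
    push Not at h
    have := a2 Y (hY.trans inf_le_left) {a, r, s} (by
      rintro _ (rfl | rfl | rfl)
      exacts [ha, fun g hg => (hY hg).2, hs]) (by simp [h1.symm, r1.symm, s1.symm]) (by simp [h2.symm, r2.symm, s2.symm])
    rw [Set.ncard_eq_three.2 ⟨a, r, s, h.1, h.2, s3.symm, rfl⟩] at this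
    omega
  set B := K ⊓ stabilizer G s with hB
  have cB : Nat.card B = 360 := c360 s s1 s2
  have AK : A ≤ K := inf_le_left
  have BK : B ≤ K := inf_le_left
  set C := A ⊓ stabilizer G s with hC
  have eC : B ⊓ stabilizer G r = C := by rw [hC, hA, hB, inf_right_comm]
  have CA : C ≤ A := inf_le_left
  have CB : C ≤ B := eC ▸ inf_le_left
  have YC : Y ≤ C := le_inf hY fun g hg => hs g hg
  set D := orbit A s with hD
  set E := orbit B r with hE
  have rD : r ∉ D := fun h => orb_ne (fun g hg => (show g ∈ A from hg).2) s3 h rfl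
  have sE : s ∉ E := fun h => orb_ne (fun g hg => (show g ∈ B from hg).2) s3.symm h rfl
  have sD : s ∈ D := mem_orbit_self _
  have rE : r ∈ E := mem_orbit_self _
  have pD := np A AK s s1
  have qD := nq A AK s s2
  have pE := np B BK r r1
  have qE := nq B BK r r2
  have oD : D.ncard * Nat.card C = 360 := (orb A s).trans cA
  have oE : E.ncard * Nat.card C = 360 := by rw [← eC]; exact (orb B r).trans cB
  have n9 : ¬ 9 ∣ Nat.card C := fun h => by
    obtain ⟨Q, hQ, cQ⟩ := sub (l := 3) (n := 2) (by norm_num) C h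
    have f := few hΩ h6 (by norm_num) Q cQ (by norm_num)
    have := a2 Q (hQ.trans (CA.trans AK)) {r, s} (by
      rintro _ (rfl | rfl)
      exacts [fun g hg => (hQ hg).1.2, fun g hg => (hQ hg).2]) (by simp [r1.symm, s1.symm]) (by simp [r2.symm, s2.symm])
    rw [Set.ncard_pair s3.symm] at this
    omega
  have d5 : 5 ∣ Nat.card C := by have := Subgroup.card_dvd_of_le YC; rwa [cY, pow_one] at this
  have m5 : D.ncard % 5 = 1 := by
    rw [fixmod (by norm_num) Y cY D (orb_inv hY s)]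
    have : D ∩ Fx Ω Y = {s} := by
      ext a; constructor
      · rintro ⟨h1, h2⟩
        exact (FY a h2 (fun e => pD (e ▸ h1)) (fun e => qD (e ▸ h1))).resolve_left fun e => rD (e ▸ h1)
      · rintro rfl; exact ⟨sD, hs⟩
    rw [this, Set.ncard_singleton]
  have d22 : D.ncard ≤ 22 := o22 A AK s s1 s2
  have cD : D.ncard = 6 ∧ Nat.card C = 60 := by
    generalize D.ncard = n at *
    generalize Nat.card C = c at *
    have : n = 1 ∨ n = 6 ∨ n = 11 ∨ n = 16 ∨ n = 21 := by omega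
    rcases this with rfl | rfl | rfl | rfl | rfl <;> omega
  have cE : E.ncard = 6 := by rw [cD.2] at oE; omega
  obtain ⟨Z, hZ, cZ⟩ := sub (l := 3) (n := 1) (by norm_num) C (by rw [cD.2]; norm_num)
  have fZ : (Fx Ω Z).ncard ≤ 6 := by rcases h3 Z (by rw [cZ, pow_one]) with h | h <;> omega
  have mD := fixmod (by norm_num) Z cZ D (orb_inv (hZ.trans CA) s)
  have mE := fixmod (by norm_num) Z cZ E (orb_inv (hZ.trans CB) r)
  have pD' : 0 < (D ∩ Fx Ω Z).ncard := (Set.ncard_pos (Set.toFinite _)).2 ⟨s, sD, fun g hg => (hZ hg).2⟩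
  have pE' : 0 < (E ∩ Fx Ω Z).ncard := (Set.ncard_pos (Set.toFinite _)).2 ⟨r, rE, fun g hg => (hZ hg).1.2⟩
  have u1 := Set.ncard_union_add_ncard_inter (D ∩ Fx Ω Z) (E ∩ Fx Ω Z)
  have u2 := a2 Z (hZ.trans (CA.trans AK)) ((D ∩ Fx Ω Z) ∪ (E ∩ Fx Ω Z))
    (Set.union_subset Set.inter_subset_right Set.inter_subset_right)
    (fun h => h.elim (fun h => pD h.1) fun h => pE h.1) (fun h => h.elim (fun h => qD h.1) fun h => qE h.1)
  obtain ⟨a, ⟨aD, -⟩, aE, -⟩ : ((D ∩ Fx Ω Z) ∩ (E ∩ Fx Ω Z)).Nonempty :=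
    (Set.ncard_pos (Set.toFinite _)).1 (by omega)
  have m5' := fixmod (by norm_num) Y cY (D ∩ E)
    (fun g hg b hb => ⟨orb_inv hY s g hg b hb.1, orb_inv (YC.trans CB) r g hg b hb.2⟩)
  have e0 : D ∩ E ∩ Fx Ω Y = ∅ := by
    ext b; constructor
    · rintro ⟨⟨h1, h1'⟩, h2⟩
      rcases FY b h2 (fun e => pD (e ▸ h1)) (fun e => qD (e ▸ h1)) with e | e
      exacts [rD (e ▸ h1), sE (e ▸ h1')]
    · exact fun h => h.elim
  rw [e0, Set.ncard_empty] at m5'
  have pDE : 0 < (D ∩ E).ncard := (Set.ncard_pos (Set.toFinite _)).2 ⟨a, aD, aE⟩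
  have u3 := Set.ncard_union_add_ncard_inter D E
  have i1 : (insert r D).ncard = 7 := by rw [Set.ncard_insert_of_notMem rD, cD.1]
  have i2 : (insert s E).ncard = 7 := by rw [Set.ncard_insert_of_notMem sE, cE]
  have e1 : insert r D = D ∪ E := Set.eq_of_subset_of_ncard_le
    (Set.insert_subset (Or.inr rE) Set.subset_union_left) (by omega)
  have e2 : insert s E = D ∪ E := Set.eq_of_subset_of_ncard_le
    (Set.insert_subset (Or.inl sD) Set.subset_union_right) (by omega)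
  set L := K ⊓ stabilizer G (D ∪ E) with hL
  have AL : A ≤ L := fun g hg => ⟨hg.1, (mem_stabilizer_set_iff_smul_set_subset (Set.toFinite _)).2 (by
    rw [← e1]
    rintro _ ⟨b, rfl | hb, rfl⟩
    exacts [Or.inl hg.2, Or.inr (orb_inv le_rfl s g hg b hb)])⟩
  have BL : B ≤ L := fun g hg => ⟨hg.1, (mem_stabilizer_set_iff_smul_set_subset (Set.toFinite _)).2 (by
    rw [← e2]
    rintro _ ⟨b, rfl | hb, rfl⟩
    exacts [Or.inl hg.2, Or.inr (orb_inv le_rfl r g hg b hb)])⟩
  have eo : orbit L r = D ∪ E := by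
    ext b; constructor
    · intro hb
      obtain ⟨g, hg, rfl⟩ := mem_orb.1 hb
      rw [← show g • (D ∪ E) = D ∪ E from hg.2]
      exact Set.smul_mem_smul_set (Or.inr rE)
    · obtain ⟨g, hg, ga⟩ := mem_orb.1 aD
      obtain ⟨k, hk, ka⟩ := mem_orb.1 aE
      rintro (hb | hb)
      · obtain ⟨h, hh, rfl⟩ := mem_orb.1 hb
        exact mem_orb.2 ⟨h * g⁻¹ * k, L.mul_mem (L.mul_mem (AL hh) (L.inv_mem (AL hg))) (BL hk), by
          rw [mul_smul, mul_smul, ka, ← ga, inv_smul_smul]⟩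
      · obtain ⟨h, hh, rfl⟩ := mem_orb.1 hb
        exact mem_orb.2 ⟨h, BL hh, rfl⟩
  have oL := orb L r
  rw [eo, ← e1, i1] at oL
  have := (Dvd.intro _ oL).trans (Subgroup.card_dvd_of_le (show L ≤ K from inf_le_left))
  rw [hK] at this
  omega
end gen

/-- The stabiliser of two points in the group of the length-24 code has no subgroups of index 56 or 210. -/
theorem result (p q : Cfsg.GolayPt) (hpq : p ≠ q) (H : Subgroup ↥(MulAction.stabilizer Cfsg.M24 p ⊓ MulAction.stabilizer Cfsg.M24 q)) : H.index ≠ 56 ∧ H.index ≠ 210 := by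
  have hΩ : Nat.card Cfsg.GolayPt = 24 := by
    rw [Nat.card_eq_fintype_card]; rfl
  have h6 : ∀ Q : Subgroup ↥Cfsg.M24, 6 ≤ (Fx Cfsg.GolayPt Q).ncard → Nat.card Q ∣ 48 := fun Q hQ => by
    obtain ⟨T, hT, cT⟩ := Set.exists_subset_card_eq hQ
    obtain ⟨E, rfl⟩ := (Set.toFinite T).exists_finset_coe
    rw [Set.ncard_coe_finset] at cT
    have r := Cfsg.Agent.S5600.result E cT
    let W : Subgroup (Equiv.Perm Cfsg.GolayPt) := Cfsg.M24 ⊓ fixingSubgroup (Equiv.Perm Cfsg.GolayPt) (E : Set Cfsg.GolayPt)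
    have e : Nat.card W = Nat.card {g : Equiv.Perm Cfsg.GolayPt // g ∈ Cfsg.M24 ∧ ∀ p ∈ E, g p = p} :=
      Nat.card_congr (Equiv.subtypeEquivRight fun g => by
        simp only [W, Subgroup.mem_inf, mem_fixingSubgroup_iff]; rfl)
    have d : Nat.card Q ∣ Nat.card W := by
      rw [← Subgroup.card_map_of_injective (K := Q) Cfsg.M24.subtype_injective]
      apply Subgroup.card_dvd_of_le
      rintro _ ⟨g, hg, rfl⟩
      exact ⟨g.2, (mem_fixingSubgroup_iff _).2 fun a ha => hT ha g hg⟩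
    by_cases h : ∃ o ∈ Cfsg.octads, E ⊆ o
    · rw [e, r.2.1 h] at d; exact d.trans (by norm_num)
    · rw [e, (r.2.2 h).1] at d; exact d.trans (by norm_num)
  have h3 : ∀ Q : Subgroup ↥Cfsg.M24, Nat.card Q = 3 → (Fx Cfsg.GolayPt Q).ncard = 6 ∨ (Fx Cfsg.GolayPt Q).ncard = 0 :=
    fun Q hQ => Cfsg.Agent.S5601.result.1 Q hQ
  have h2 : ∀ t : ↥Cfsg.M24, orderOf t = 2 → {a : Cfsg.GolayPt | t • a = a}.ncard = 8 ∨ {a : Cfsg.GolayPt | t • a = a}.ncard = 0 :=
    fun t ht => by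
      have e : {a : Cfsg.GolayPt | t • a = a}.ncard = (Finset.univ.filter fun p => (t : Equiv.Perm Cfsg.GolayPt) p = p).card := by
        rw [← Set.ncard_coe_finset]; congr 1; ext a; simp [Subgroup.smul_def]
      rw [e]
      exact (Cfsg.Agent.St.inv_cnt ht).imp (fun h => h.1) fun h => h.1
  have cM := Cfsg.Agent.S0378.result p q hpq
  have hi := H.index_mul_card
  have cK := Subgroup.card_map_of_injective (K := H) (Subgroup.subtype_injective _)
  have hp : ∀ g ∈ H.map (Subgroup.subtype _), g • p = p := by rintro _ ⟨g, -, rfl⟩; exact g.2.1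
  have hq : ∀ g ∈ H.map (Subgroup.subtype _), g • q = q := by rintro _ ⟨g, -, rfl⟩; exact g.2.2
  rw [cM] at hi
  constructor
  · intro h
    rw [h] at hi
    exact no7920 hΩ h6 h3 hpq _ hp hq (by rw [cK]; omega)
  · intro h
    rw [h] at hi
    exact no2112 hΩ h6 h2 hpq _ hp hq (by rw [cK]; omega)

end Cfsg.Agent.S1606
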