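import Cfsg.Statements.S1892
import Cfsg.Agent.H8.TI

set_option autoImplicit false
open Cfsg

namespace Cfsg.Agent.S1892

open Cfsg.Agent.H8

open Subgroup

/-- Let S be a finite p-solvable group with no nontrivial normal subgroup of order prime to p, A a p-subgroup of S, and Q a nontrivial A-invariant subgroup of order prime to p with [A, Q] = Q. Then the commutator [O_p(S), A, Q] is nontrivial. -/
theorem result {S : Type*} [Group S] [Finite S] {p : ℕ} [Fact p.Prime]
    (hS : Cfsg.IsPSolvable p S) (hred : Cfsg.pPrimeCore p S = ⊥)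
    (A Q : Subgroup S) (hA : IsPGroup p A) (hQ : ¬ p ∣ Nat.card Q) (hQ1 : Q ≠ ⊥)
    (hinv : ∀ a ∈ A, ∀ x ∈ Q, a * x * a⁻¹ ∈ Q) (hAQ : ⁅A, Q⁆ = Q) :
    ⁅⁅Cfsg.pCore p S, A⁆, Q⁆ ≠ ⊥ := by
  intro h
  have hF : Fs (⊤ : Subgroup S) = Op p ⊤ :=
    Fs_eq_Op_of_PLay_Opp (PLay_top_eq_bot_of_isPSolvable hS) (by rw [Opp_top, hred])
  have hC := Fs_eq_Op_iff.1 hF
  rw [Op_top, top_inf_eq] at hC
  have hP : IsPGroup p (pCore p S) := by rw [← Op_top]; exact Op_isPGroup p ⊤
  have hn : ∀ X : Subgroup S, X ≤ normalizer (pCore p S : Set S) :=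
    fun X => le_top.trans (normal_iff_top_le.1 inferInstance)
  have h1 : ⁅⁅A, Q⁆, pCore p S⁆ ≤ ⁅pCore p S, A⁆ := three_subgroups
    (normalizer_commutator_ge_right _ _) (le_normalizer_of_commutator_eq_bot (commutator_eq_bot_symm h))
    (normalizer_commutator_ge_left _ _) (commutator_mono (commutator_le_right _ _) le_rfl)
    (h.le.trans bot_le)
  rw [hAQ, commutator_comm] at h1
  have hc : (Nat.card Q).Coprime p := coprime_iff_not_dvd.2 hQ
  have h2 := commutator_eq_bot_of_coprime (hn Q) (coprime_of_isPGroup hP hc)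
    (commutator_eq_bot_mono h h1 le_rfl)
  have h3 : Q ≤ pCore p S :=
    (commutator_eq_bot_iff_le_centralizer.1 (commutator_eq_bot_symm h2)).trans hC
  exact hQ1 (eq_bot_of_pgroup_coprime (hP.to_le h3) hc)

end Cfsg.Agent.S1892
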