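import Cfsg.Statements.S1894
import Cfsg.Agent.H8.TI

set_option autoImplicit false
open Cfsg

namespace Cfsg.Agent.S1894

open Cfsg.Agent.H8

open Subgroup

/-- Let P be a finite p-group, A a normal subgroup of P and B an abelian subgroup of A that is normal in P. Then some subgroup C of A containing B is normal in P and is self-centralizing and normal in A (C ∈ SCN(A)). -/
theorem result {P : Type*} [Group P] [Finite P] {p : ℕ} [Fact p.Prime] (hP : IsPGroup p P)
    (A : Subgroup P) [A.Normal] (B : Subgroup P) [B.Normal] (hBA : B ≤ A) (hB : IsMulCommutative B) :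
    ∃ C : Subgroup P, C.Normal ∧ B ≤ C ∧ Cfsg.IsSCN A C := by
  obtain ⟨C, h1, h2⟩ := Finite.exists_le_maximal
    (p := fun C : Subgroup P => C.Normal ∧ IsMulCommutative C ∧ C ≤ A) (a := B) ⟨inferInstance, hB, hBA⟩
  obtain ⟨⟨hn, hc, hA⟩, hmax⟩ := h2
  refine ⟨C, hn, h1, hA, le_top.trans (normal_iff_top_le.1 hn),
    le_antisymm ?_ (le_inf hA (le_centralizer_iff_isMulCommutative.2 hc))⟩
  by_contra hne
  have := hP.isNilpotent
  obtain ⟨x, hx, hx', h3⟩ := L.exists_central_mod hne
  exact hx' (hmax ⟨L.zpowers_sup_normal_of_central_mod h3, L.isMulCommutative_zpowers_sup (mem_inf.1 hx).2,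
    sup_le (zpowers_le_of_mem (mem_inf.1 hx).1) hA⟩ le_sup_right (mem_sup_left (mem_zpowers x)))

end Cfsg.Agent.S1894
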