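import Cfsg.Statements.S1898
import Cfsg.Agent.H9.TJ

set_option autoImplicit false
open Cfsg

namespace Cfsg.Agent.S1898

open Cfsg.Agent Cfsg.Agent.H9
open scoped commutatorElement in
theorem mul_pow4 {X : Type*} [Group X] (hel : Cfsg.IsElementaryAbelian 2 (commutator X))
    (hcen : commutator X ≤ Subgroup.center X) (x y : X) : (x * y) ^ 4 = x ^ 4 * y ^ 4 := by
  -- c = y x y⁻¹ x⁻¹ central of order ≤ 2
  set c := ⁅y, x⁆ with hc
  have hcm : c ∈ commutator X := Subgroup.commutator_mem_commutator (Subgroup.mem_top _) (Subgroup.mem_top _)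
  have hz : ∀ g, g * c = c * g := fun g => Subgroup.mem_center_iff.1 (hcen hcm) g
  have h2 : c * c = 1 := by rw [← pow_two]; exact hel.2 c hcm
  have hyx : y * x = c * (x * y) := by rw [hc, commutatorElement_def]; group
  have hsq : (x * y) ^ 2 = c * (x ^ 2 * y ^ 2) := by
    calc (x * y) ^ 2 = x * (y * x) * y := by rw [pow_two]; group
      _ = x * c * (x * y) * y := by rw [hyx]; group
      _ = c * (x ^ 2 * y ^ 2) := by rw [hz x, pow_two, pow_two]; group
  have hx2 : y * x ^ 2 = x ^ 2 * y := by
    calc y * x ^ 2 = (y * x) * x := by rw [pow_two]; group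
      _ = c * (x * y) * x := by rw [hyx]
      _ = c * x * (y * x) := by group
      _ = c * (x * c) * (x * y) := by rw [hyx]; group
      _ = (c * c) * (x * (x * y)) := by rw [hz x]; group
      _ = x ^ 2 * y := by rw [h2, pow_two]; group
  have hcm2 : Commute (y ^ 2) (x ^ 2) := (show Commute y (x ^ 2) from hx2).pow_left 2
  calc (x * y) ^ 4 = ((x * y) ^ 2) * ((x * y) ^ 2) := by rw [← pow_add]
    _ = c * ((x ^ 2 * y ^ 2) * c) * (x ^ 2 * y ^ 2) := by rw [hsq]; simp only [mul_assoc]
    _ = (c * c) * (x ^ 2 * (y ^ 2 * x ^ 2) * y ^ 2) := by rw [hz]; simp only [mul_assoc]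
    _ = x ^ 4 * y ^ 4 := by
      rw [h2, one_mul, hcm2.eq, show (4 : ℕ) = 2 + 2 from rfl, pow_add, pow_add]; simp only [mul_assoc]

/-- Let X be a finite 2-group whose derived subgroup is elementary abelian and central. Then the subgroup generated by the elements of order dividing 4 has exponent dividing 4, and every automorphism of X fixing each element of order dividing 4 has 2-power order. -/
theorem result {X : Type*} [Group X] [Finite X] (hX : IsPGroup 2 X)
    (hel : Cfsg.IsElementaryAbelian 2 (commutator X)) (hcen : commutator X ≤ Subgroup.center X) :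
    (∀ x ∈ Subgroup.closure {g : X | g ^ 4 = 1}, x ^ 4 = 1) ∧
      ∀ φ : MulAut X, (∀ g : X, g ^ 4 = 1 → φ g = g) → ∃ k : ℕ, φ ^ (2 ^ k) = 1 := by
  have h4 := mul_pow4 hel hcen
  refine ⟨?_, ?_⟩
  · intro x hx
    induction hx using Subgroup.closure_induction with
    | mem x hx => exact hx
    | one => simp
    | mul x y _ _ hx hy => rw [h4, hx, hy, one_mul]
    | inv x _ hx => rw [inv_pow, hx, inv_one]
  · intro φ hφ
    haveI : Fact (Nat.Prime 2) := ⟨Nat.prime_two⟩
    have hpos : orderOf φ ≠ 0 := (orderOf_pos φ).ne'
    obtain ⟨k, m, hm, hkm⟩ := Nat.exists_eq_two_pow_mul_odd hpos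
    refine ⟨k, ?_⟩
    set ψ := φ ^ 2 ^ k with hψ
    have hψm : ψ ^ m = 1 := by rw [hψ, ← pow_mul, ← hkm, pow_orderOf_eq_one]
    have hfix : ∀ g : X, g ^ 4 = 1 → ψ g = g := by
      intro g hg
      rw [hψ]
      generalize 2 ^ k = n
      induction n with
      | zero => simp
      | succ n ih => rw [pow_succ, MulAut.mul_apply, hφ g hg, ih]
    have main : ∀ n : ℕ, ∀ g : X, g ^ 2 ^ n = 1 → ψ g = g := by
      intro n
      induction n using Nat.strong_induction_on with
      | _ n ih =>
        intro g hg
        rcases n with _ | _ | n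
        · have : g = 1 := by simpa using hg
          simp [this]
        · apply hfix
          rw [show (4 : ℕ) = 2 ^ (0 + 1) * 2 by norm_num, pow_mul, hg, one_pow]
        · have h1 : ψ (g ^ 4) = g ^ 4 := by
            apply ih n (by omega)
            rw [← pow_mul, ← hg]; congr 1; ring
          set u := g⁻¹ * ψ g with hu
          have hu4 : u ^ 4 = 1 := by rw [hu, h4, ← map_pow, h1, inv_pow, inv_mul_cancel]
          have hψu := hfix u hu4
          have hg' : ψ g = g * u := by rw [hu]; group
          have hpow : ∀ j : ℕ, (ψ ^ j) g = g * u ^ j := by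
            intro j
            induction j with
            | zero => simp
            | succ j ihj =>
              rw [pow_succ', MulAut.mul_apply, ihj, map_mul, map_pow, hψu, hg', pow_succ', mul_assoc]
          have hum : u ^ m = 1 := by
            have := hpow m
            rw [hψm] at this
            simpa using this
          have : u = 1 := by
            have hd1 := orderOf_dvd_of_pow_eq_one hum
            have hd2 := orderOf_dvd_of_pow_eq_one hu4
            have hco : Nat.Coprime 4 m := by
              have : Nat.Coprime 2 m := (Nat.coprime_two_left).2 hm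
              simpa using Nat.Coprime.pow_left 2 this
            exact orderOf_eq_one_iff.1 (Nat.eq_one_of_dvd_coprimes hco hd2 hd1)
          rw [hg', this, mul_one]
    ext g
    obtain ⟨n, hn⟩ := hX g
    simpa using main n g hn

end Cfsg.Agent.S1898
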