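import Cfsg.Statements.S1899
import Cfsg.Agent.H8.Stb

set_option autoImplicit false
open Cfsg

namespace Cfsg.Agent.S1899

open Subgroup Cfsg.Agent.H1 Cfsg.Agent.BG Cfsg.Agent.SF
open Cfsg.Agent.H2 hiding card_lt_of_lt card_lt_of_ne_top isMulCommutative_of_le isPGroup_zpowers_iff mem_of_pow_mem_of_coprime
open Cfsg.Agent.H8 (Op Opp Fit Fs Lay PLay SN Comp PComp Op_le Opp_le Opp_coprime Op_isPGroup le_normalizer_Op le_normalizer_Opp
  le_normalizer_Opp_of le_normalizer_Op_of le_Op le_Opp inf_Opp_le le_of_centralizers)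

theorem aux {A : Type*} [CommGroup A] [Finite A] {n : ℕ} (hn : Odd n) (d t : MulAut A) (hd : d ^ n = 1)
    (hdt : t * d * t⁻¹ = d⁻¹) (hfix : ∀ a : A, d a = a → a = 1) (e : A →* A) (he : ∀ a, e (d a) = d (e a))
    (he2 : ∀ a, e (e a) = a) :
    (MulEquiv.toMonoidHom t).eqLocus e ⊓ ((MulEquiv.toMonoidHom t).eqLocus e).map d.toMonoidHom = ⊥ := by
  rw [eq_bot_iff]
  rintro a ⟨h1, c, h2, rfl⟩
  have h3 : t (d c) = e (d c) := h1
  have h4 : t c = e c := h2
  have h5 : t (d c) = d⁻¹ (t c) := by
    have : t * d = d⁻¹ * t := by rw [← hdt]; group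
    exact congrArg (fun f : MulAut A => f c) this
  have h6 : (d ^ 2) (e c) = e c := by
    rw [h5, h4, he] at h3
    have := congrArg d h3
    rw [pow_two, MulAut.mul_apply, ← this]; simp
  obtain ⟨k, rfl⟩ := hn
  have h7 : ∀ j : ℕ, (d ^ (2 * j)) (e c) = e c := fun j => by
    induction j with
    | zero => simp
    | succ j ih => rw [Nat.mul_succ, pow_add, MulAut.mul_apply, h6, ih]
  have h8 : d (e c) = e c := by
    have := congrArg (fun f : MulAut A => f (e c)) hd
    simp only [pow_succ', MulAut.mul_apply, h7] at this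
    simpa using this
  have h9 : c = 1 := by rw [← he2 c, hfix _ h8, map_one]
  simp [h9]

theorem sq_le {A : Type*} [CommGroup A] [Finite A] (C : Subgroup A) (d : MulAut A)
    (h : C ⊓ C.map d.toMonoidHom = ⊥) : Nat.card ↥(C ⊔ C.map d.toMonoidHom) = Nat.card C * Nat.card C := by
  rw [card_sup_of_disjoint (by rw [normalizer_eq_top]; exact le_top) h,
    Subgroup.card_map_of_injective d.injective]

/-- Let a dihedral group of order 2n, n odd and n > 1, act on a finite abelian 2-group A through automorphisms d and t with d^n = 1, t² = 1 and t d t⁻¹ = d⁻¹, and suppose that d fixes only the identity. Then A is the internal direct product of C_A(t) and its image under d. -/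
theorem result {A : Type*} [CommGroup A] [Finite A] (hA : IsPGroup 2 A)
    {n : ℕ} (hn : Odd n) (hn1 : 1 < n) (d t : MulAut A) (hd : d ^ n = 1) (ht : t ^ 2 = 1) (hdt : t * d * t⁻¹ = d⁻¹)
    (hfix : ∀ a : A, d a = a → a = 1) :
    (MulEquiv.toMonoidHom t).eqLocus (MonoidHom.id A) ⊓ ((MulEquiv.toMonoidHom t).eqLocus (MonoidHom.id A)).map d.toMonoidHom = ⊥ ∧
      (MulEquiv.toMonoidHom t).eqLocus (MonoidHom.id A) ⊔ ((MulEquiv.toMonoidHom t).eqLocus (MonoidHom.id A)).map d.toMonoidHom = ⊤ := by
  have h1 := aux hn d t hd hdt hfix (MonoidHom.id A) (fun _ => rfl) (fun _ => rfl)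
  have h2 := aux hn d t hd hdt hfix invMonoidHom (fun a => by simp) (fun a => by simp)
  refine ⟨h1, ?_⟩
  set C := (MulEquiv.toMonoidHom t).eqLocus (MonoidHom.id A) with hC
  set N := (MulEquiv.toMonoidHom t).eqLocus invMonoidHom with hN
  have h3 := sq_le C d h1
  have h4 := sq_le N d h2
  have h5 : Nat.card N * Nat.card N ≤ Nat.card A := h4 ▸ Subgroup.card_le_card_group _
  have htt : ∀ a, t (t a) = a := fun a => by
    have := congrArg (fun f : MulAut A => f a) ht
    simpa [pow_two] using this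
  let f : A →* A := MonoidHom.id A * t.toMonoidHom
  have h6 : Nat.card A ≤ Nat.card N * Nat.card C := by
    rw [← Subgroup.card_mul_index f.ker, Subgroup.index_ker]
    refine Nat.mul_le_mul (Subgroup.card_le_of_le fun a ha => ?_) (Subgroup.card_le_of_le ?_)
    · have : a * t a = 1 := ha
      exact (eq_inv_of_mul_eq_one_right this : t a = a⁻¹)
    · rintro _ ⟨a, rfl⟩
      show t (a * t a) = a * t a
      rw [map_mul, htt, mul_comm]
  have hp : 0 < Nat.card N := Nat.card_pos
  have h7 : Nat.card N ≤ Nat.card C := Nat.le_of_mul_le_mul_left (h5.trans h6) hp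
  refine Subgroup.eq_top_of_le_card _ ?_
  rw [h3]
  exact h6.trans (Nat.mul_le_mul_right _ h7)

end Cfsg.Agent.S1899
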