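import Cfsg.Statements.S1900
import Cfsg.Agent.H8.Stb

set_option autoImplicit false
open Cfsg

namespace Cfsg.Agent.S1900

open Subgroup Cfsg.Agent.H1 Cfsg.Agent.BG Cfsg.Agent.SF
open Cfsg.Agent.H2 hiding card_lt_of_lt card_lt_of_ne_top isMulCommutative_of_le isPGroup_zpowers_iff mem_of_pow_mem_of_coprime
open Cfsg.Agent.H8 (Op Opp Fit Fs Lay PLay SN Comp PComp Op_le Opp_le Opp_coprime Op_isPGroup le_normalizer_Op le_normalizer_Opp
  le_normalizer_Opp_of le_normalizer_Op_of le_Op le_Opp inf_Opp_le le_of_centralizers)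

variable {G : Type*} [Group G] [Finite G]

/-- one half of the three subgroup computation -/
theorem half {P C D X M : Subgroup G} (hC : C ≤ P) (hD : D ≤ P) (hX : X ≤ 𝒩 P) (hXC : C ≤ 𝒞 X)
    (hDX : ⁅D, X⁆ = D) (hXW : X ≤ 𝒩 ⁅C, D⁆) (hM : M = ⁅⁅C, D⁆, P⁆) (hPW : P ≤ 𝒩 ⁅C, D⁆) :
    ⁅C, D⁆ ≤ ⁅⁅C, D⁆, X⁆ ⊔ M := by
  have hW : ⁅C, D⁆ ≤ P := BL.comm_le_of_le hC hD
  have hPN : P ≤ 𝒩 ((⁅⁅C, D⁆, X⁆ ⊔ M : Subgroup G)) :=
    H8.le_normalizer_of_commutator_le (K := ⁅C, D⁆) (by rw [commutator_comm, ← hM]; exact le_sup_right)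
      (sup_le (BL.comm_left hXW) (hM ▸ BL.comm_left hPW))
  have hXN : X ≤ 𝒩 ((⁅⁅C, D⁆, X⁆ ⊔ M : Subgroup G)) :=
    H8.le_normalizer_sup (BL.norm_comm_right _ _) (hM ▸ H8.le_normalizer_commutator hXW hX)
  have h := H8.three_subgroups (A := D) (B := X) (C := C) (hD.trans hPN) hXN (hC.trans hPN)
    (by rw [commutator_comm X C, le_cent_iff_comm.1 hXC, commutator_bot_left]; exact bot_le) le_sup_left
  rwa [hDX, commutator_comm D C] at h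

/-- Let S = PQ be a finite group with P a normal Sylow p-subgroup and Q elementary abelian of order q², q a prime different from p. If exactly two subgroups X₁, X₂ of order q in Q have a nontrivial centralizer in P, then P is the internal direct product of C_P(X₁) and C_P(X₂): they commute elementwise, meet trivially and generate P. -/
theorem result {S : Type*} [Group S] [Finite S] {p q : ℕ} [Fact p.Prime] [Fact q.Prime] (hpq : p ≠ q)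
    (P : Sylow p S) [(P : Subgroup S).Normal] (Q : Subgroup S) (hQ : Cfsg.IsElementaryAbelian q Q) (hQc : Nat.card Q = q ^ 2)
    (hS : (P : Subgroup S) ⊔ Q = ⊤)
    (X₁ X₂ : Subgroup S) (h₁ : X₁ ≤ Q) (h₂ : X₂ ≤ Q) (h₁₂ : X₁ ≠ X₂) (hc₁ : Nat.card X₁ = q) (hc₂ : Nat.card X₂ = q)
    (hf₁ : (P : Subgroup S) ⊓ Subgroup.centralizer (X₁ : Set S) ≠ ⊥)
    (hf₂ : (P : Subgroup S) ⊓ Subgroup.centralizer (X₂ : Set S) ≠ ⊥)
    (honly : ∀ X : Subgroup S, X ≤ Q → Nat.card X = q →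
      (P : Subgroup S) ⊓ Subgroup.centralizer (X : Set S) ≠ ⊥ → X = X₁ ∨ X = X₂) :
    ⁅(P : Subgroup S) ⊓ Subgroup.centralizer (X₁ : Set S), (P : Subgroup S) ⊓ Subgroup.centralizer (X₂ : Set S)⁆ = ⊥ ∧
      ((P : Subgroup S) ⊓ Subgroup.centralizer (X₁ : Set S)) ⊓ ((P : Subgroup S) ⊓ Subgroup.centralizer (X₂ : Set S)) = ⊥ ∧
      ((P : Subgroup S) ⊓ Subgroup.centralizer (X₁ : Set S)) ⊔ ((P : Subgroup S) ⊓ Subgroup.centralizer (X₂ : Set S)) = P := by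
  have hq : q.Prime := Fact.out
  have hPp : IsPGroup p (P : Subgroup S) := P.isPGroup'
  have hPq : (Nat.card (P : Subgroup S)).Coprime q := coprime_primes_pgroup hPp hpq
  have hn : ∀ X : Subgroup S, X ≤ 𝒩 (P : Subgroup S) := fun X => le_normalizer_of_normal
  have hsup := BL.sup_eq_of_El2 hQc h₁ h₂ hc₁ hc₂ h₁₂
  have hQc' : IsMulCommutative Q := hQ.1
  have hQq : IsPGroup q Q := IsPGroup.of_card hQc
  obtain ⟨x, hx, hx1⟩ := exists_ne_one (ne_bot_of_card_eq hc₁)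
  obtain ⟨y, hy, hy1⟩ := exists_ne_one (ne_bot_of_card_eq hc₂)
  have hd : X₁ ⊓ X₂ = ⊥ := inf_eq_bot_of_not_le (hc₁ ▸ hq) fun h =>
    h₁₂ (BL.eq_of_le_of_card h (hc₁ ▸ hc₂ ▸ le_rfl))
  have hQ0 : (P : Subgroup S) ⊓ 𝒞 Q = ⊥ := by
    by_contra h0
    have hxy : x * y ∈ Q := mul_mem (h₁ hx) (h₂ hy)
    have hne : x * y ≠ 1 := fun e => hx1 (by
      have : x ∈ X₁ ⊓ X₂ := ⟨hx, by rw [eq_inv_of_mul_eq_one_left e]; exact X₂.inv_mem hy⟩
      rwa [hd] at this)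
    rcases honly _ ((zpowers_le).2 hxy) (BL.card_zpowers_of_elem hQ hxy hne)
      (ne_bot_mono h0 (BL.inf_cent_mono _ ((zpowers_le).2 hxy))) with e | e
    · have : y ∈ X₁ ⊓ X₂ := ⟨(mul_mem_cancel_left hx).1 (e ▸ mem_zpowers _), hy⟩
      exact hy1 (by rwa [hd] at this)
    · have : x ∈ X₁ ⊓ X₂ := ⟨hx, (mul_mem_cancel_right hy).1 (e ▸ mem_zpowers _)⟩
      exact hx1 (by rwa [hd] at this)
  have gen : ∀ W ≤ (P : Subgroup S), Q ≤ 𝒩 W → W ≤ (W ⊓ 𝒞 X₁) ⊔ (W ⊓ 𝒞 X₂) := fun W hW hQW =>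
    le_of_centralizers hQ hQc.ge hQW (coprime_of_le_left hPq hW) fun a ha h1 => by
      by_cases h0 : (P : Subgroup S) ⊓ 𝒞 (zpowers a) = ⊥
      · rw [BL.cent_zpowers] at h0
        exact (eq_bot_mono h0 (inf_le_inf_right _ hW)).le.trans bot_le
      rw [← BL.cent_zpowers]
      rcases honly _ ((zpowers_le).2 ha) (BL.card_zpowers_of_elem hQ ha h1) h0 with e | e <;> rw [e]
      exacts [le_sup_left, le_sup_right]
  have hQX : ∀ X ≤ Q, Q ≤ 𝒩 ((P : Subgroup S) ⊓ 𝒞 X) := fun X hX =>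
    le_norm_inf_cent (hn Q) ((le_cent_of_comm hQc' le_rfl hX).trans (cent_le_norm X))
  have hQC := hQX _ h₁
  have hQD := hQX _ h₂
  have gP := gen _ le_rfl (hn Q)
  obtain ⟨C, hC⟩ : ∃ C, C = (P : Subgroup S) ⊓ 𝒞 X₁ := ⟨_, rfl⟩
  obtain ⟨D, hD⟩ : ∃ D, D = (P : Subgroup S) ⊓ 𝒞 X₂ := ⟨_, rfl⟩
  rw [← hC, ← hD] at gP ⊢
  rw [← hC] at hQC
  rw [← hD] at hQD
  have c1 : C ≤ P := hC ▸ inf_le_left
  have c2 : C ≤ 𝒞 X₁ := hC ▸ inf_le_right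
  have c3 : (P : Subgroup S) ⊓ 𝒞 X₁ ≤ C := hC.ge
  have d1 : D ≤ P := hD ▸ inf_le_left
  have d2 : D ≤ 𝒞 X₂ := hD ▸ inf_le_right
  have d3 : (P : Subgroup S) ⊓ 𝒞 X₂ ≤ D := hD.ge
  clear hC hD hf₁ hf₂ honly
  have hCD : C ⊓ D = ⊥ := eq_bot_mono hQ0 (le_inf (inf_le_left.trans c1) (by
    rw [← hsup]; exact BL.le_cent_sup (inf_le_left.trans c2) (inf_le_right.trans d2)))
  have hP : C ⊔ D = P := le_antisymm (sup_le c1 d1) gP
  refine ⟨?_, hCD, hP⟩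
  have hcm : ∀ {E X : Subgroup S}, E ≤ P → X ≤ Q → Q ≤ 𝒩 E → E ⊓ 𝒞 X = ⊥ → ⁅E, X⁆ = E := by
    intro E X hE hX hQE h0
    have := commutator_sup_centralizer (hX.trans hQE) (coprime_pgroups (isPGroup_of_le hQq hX)
      (isPGroup_of_le hPp hE) hpq.symm) (Or.inl (isSolvable_of_nil (isNilpotent_of_pgroup
        (isPGroup_of_le hQq hX))))
    rwa [h0, sup_bot_eq] at this
  have hDX : ⁅D, X₁⁆ = D := hcm d1 h₁ hQD (eq_bot_mono hCD (le_inf ((inf_le_inf_right _ d1).trans c3)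
    inf_le_left))
  have hCX : ⁅C, X₂⁆ = C := hcm c1 h₂ hQC (eq_bot_mono hCD (le_inf inf_le_left
    ((inf_le_inf_right _ c1).trans d3)))
  have hPW : (P : Subgroup S) ≤ 𝒩 ⁅C, D⁆ := hP.ge.trans (sup_le (BL.norm_comm_left _ _) (BL.norm_comm_right _ _))
  have hQW : Q ≤ 𝒩 ⁅C, D⁆ := H8.le_normalizer_commutator hQC hQD
  have e1 := half c1 d1 (hn X₁) c2 hDX (h₁.trans hQW) rfl hPW
  have e2 := half d1 c1 (hn X₂) d2 hCX
    (commutator_comm C D ▸ h₂.trans hQW) rfl (commutator_comm C D ▸ hPW)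
  rw [commutator_comm D C] at e2
  have hWP : ⁅C, D⁆ ≤ P := BL.comm_le_of_le c1 d1
  generalize ⁅C, D⁆ = W at e1 e2 hWP hPW hQW ⊢
  by_contra h0
  have hlt := commutator_lt_of_isPGroup (isPGroup_of_le hPp hWP) hPp hPW h0
  have hMW : ⁅W, (P : Subgroup S)⁆ ≤ W := hlt.le
  have hWN : ∀ Y ≤ W, W ≤ 𝒩 ((Y ⊔ ⁅W, (P : Subgroup S)⁆ : Subgroup S)) := fun Y hY =>
    le_norm_of_der_le (le_sup_of_le_right (commutator_mono le_rfl hWP)) (sup_le hY hMW)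
  have hQM : Q ≤ 𝒩 ⁅W, (P : Subgroup S)⁆ := H8.le_normalizer_commutator hQW (hn Q)
  have hQB : Q ≤ 𝒩 (W ⊓ 𝒞 X₂) :=
    le_norm_inf_cent hQW ((le_cent_of_comm hQc' le_rfl h₂).trans (cent_le_norm _))
  have e3 : W ≤ (W ⊓ 𝒞 X₂) ⊔ ⁅W, (P : Subgroup S)⁆ := e1.trans (sup_le ((commutator_mono
    (gen W hWP hQW) le_rfl).trans (H8.commutator_sup_le_of_norm
      ((le_cent_iff_comm.1 inf_le_right).le.trans bot_le)
      (le_sup_of_le_left (BL.comm_left (h₁.trans hQB)))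
      ((sup_le inf_le_left inf_le_left).trans (hWN _ inf_le_left)))) le_sup_right)
  refine hlt.not_ge (e2.trans (sup_le ((commutator_mono e3 le_rfl).trans (H8.commutator_sup_le_of_norm
    ((le_cent_iff_comm.1 inf_le_right).le.trans bot_le) (BL.comm_left (h₂.trans hQM))
    ((sup_le inf_le_left hMW).trans (BL.norm_comm_left _ _)))) le_rfl))

end Cfsg.Agent.S1900
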