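import Cfsg.Statements.S1901
import Cfsg.Agent.H8.PxQ
import Cfsg.Agent.H9.PSolv

set_option autoImplicit false
open Cfsg

namespace Cfsg.Agent.S1901

open Subgroup Cfsg.Agent.H1 Cfsg.Agent.BG Cfsg.Agent.SF
open Cfsg.Agent.H2 hiding card_lt_of_lt card_lt_of_ne_top isMulCommutative_of_le isPGroup_zpowers_iff mem_of_pow_mem_of_coprime
open Cfsg.Agent.H8 (Op Opp Fit Fs Lay PLay SN Comp PComp Op_le Opp_le Opp_coprime Op_isPGroup le_normalizer_Op le_normalizer_Opp
  le_normalizer_Opp_of le_normalizer_Op_of le_Op le_Opp inf_Opp_le le_of_centralizers)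

universe u
theorem aux {p : ℕ} [Fact p.Prime] (n : ℕ) : ∀ (G : Type u) [Group G] [Finite G], ♯G < n → IsPSolvable p G →
    ∀ Q P X : Subgroup G, (♯Q).Coprime p → SylIn p P ⊤ → Q ≤ 𝒩 P → IsPGroup p X → X ≤ 𝒩 Q → X ≤ 𝒞 Q := by
  induction n with
  | zero => intro G _ _ h; omega
  | succ n ih =>
  intro G _ _ hn hG Q P X hQ hP hQP hX hXQ
  by_cases h0 : (⊥ : Subgroup G) = ⊤
  · exact le_top.trans (h0.ge.trans bot_le)
  obtain ⟨N, hN, h1, h2⟩ := IsPSolvable.exists_step Fact.out hG ⊥ h0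
  rw [relIndex_bot_left] at h2
  have h3 := ih (G ⧸ N) (lt_of_lt_of_le (card_quot_lt h1.ne') (by omega))
    (H9.pSolv_map (QuotientGroup.mk' N) (QuotientGroup.mk'_surjective N) hG) (Q.map (QuotientGroup.mk' N))
    (P.map (QuotientGroup.mk' N)) (X.map (QuotientGroup.mk' N)) (H8.coprime_map _ hQ)
    (by have := hP.map (QuotientGroup.mk' N)
        rwa [map_top_of_surjective _ (QuotientGroup.mk'_surjective N)] at this)
    ((map_mono hQP).trans (le_normalizer_map _)) (hX.map _) ((map_mono hXQ).trans (le_normalizer_map _))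
  rw [le_cent_iff_comm, ← map_commutator, Subgroup.map_eq_bot_iff, QuotientGroup.ker_mk', commutator_comm] at h3
  have h4 : ⁅Q, X⁆ ≤ Q ⊓ N := le_inf (BL.comm_left hXQ) h3
  have hNn : ∀ Y : Subgroup G, Y ≤ 𝒩 N := fun Y => le_top.trans (H8.normal_iff_top_le.1 hN)
  rcases h2 with ⟨k, h2⟩ | h2
  · rw [inf_comm, H8.inf_eq_bot_of_pgroup_coprime (IsPGroup.of_card h2) hQ] at h4
    exact le_cent_comm.1 (le_cent_iff_comm.2 (le_bot_iff.1 h4))
  refine le_centralizer_of_chain (coprime_of_pgroup hX (coprime_of_le_left hQ inf_le_left)) h4 ?_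
  have h5 : P ≤ 𝒞 (Q ⊓ N) := by
    rw [le_cent_iff_comm, ← le_bot_iff, ← H8.inf_eq_bot_of_pgroup_coprime hP.pgrp h2]
    exact le_inf (BL.comm_left (inf_le_left.trans hQP))
      ((commutator_mono le_rfl inf_le_right).trans (BL.comm_right (hNn P)))
  obtain ⟨g, hg, h6⟩ := (hP.mono (h5.trans (cent_le_norm _)) le_top).exists_le_cj hX
    (H8.le_normalizer_inf hXQ (hNn X))
  exact h6.trans (cj_le_of_norm h5 (H8.normalizer_le_normalizer_centralizer _ hg))

/-- Let G be a finite p-solvable group and Q a subgroup of order prime to p such that p divides the index of C_G(Q) in N_G(Q). Then Q normalizes no Sylow p-subgroup of G. -/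
theorem result {G : Type*} [Group G] [Finite G] {p : ℕ} [Fact p.Prime]
    (hG : Cfsg.IsPSolvable p G) (Q : Subgroup G) (hQ : ¬ p ∣ Nat.card Q)
    (hA : p ∣ (Subgroup.centralizer (Q : Set G)).relIndex (Subgroup.normalizer (Q : Set G)))
    (P : Sylow p G) : ¬ Q ≤ Subgroup.normalizer ((P : Subgroup G) : Set G) := by
  intro h
  have hp : p.Prime := Fact.out
  obtain ⟨X, h1, h2, h3⟩ := exists_pgroup_not_le hp hA
  exact h3 (aux _ G (Nat.lt_succ_self _) hG Q P X (H8.coprime_iff_not_dvd.2 hQ) (sylIn_top P) h h2 h1)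

end Cfsg.Agent.S1901
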