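import Cfsg.Statements.S1902
import Cfsg.Agent.H8.PxQ

set_option autoImplicit false
open Cfsg

namespace Cfsg.Agent.S1902

open Subgroup Cfsg.Agent.H1 Cfsg.Agent.BG Cfsg.Agent.SF
open Cfsg.Agent.H2 hiding card_lt_of_lt card_lt_of_ne_top isMulCommutative_of_le isPGroup_zpowers_iff mem_of_pow_mem_of_coprime
open Cfsg.Agent.H8 (Op Opp Fit Fs Lay PLay SN Comp PComp Op_le Opp_le Opp_coprime Op_isPGroup le_normalizer_Op le_normalizer_Opp
  le_normalizer_Opp_of le_normalizer_Op_of le_Op le_Opp inf_Opp_le le_of_centralizers)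


/-- Let p be an odd prime, G a finite p-solvable group, and B an elementary abelian subgroup of order p² such that B is the subgroup generated by the elements of order p of some Sylow p-subgroup of C_G(b₀), for some nontrivial b₀ ∈ B. Then every B-invariant subgroup of G of order prime to p lies in O_{p'}(G). -/
theorem result {G : Type*} [Group G] [Finite G] {p : ℕ} [Fact p.Prime] (hp : p ≠ 2)
    (hG : Cfsg.IsPSolvable p G) (B : Subgroup G) (hB : Cfsg.IsElementaryAbelian p B) (hBc : Nat.card B = p ^ 2)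
    (b₀ : G) (hb₀ : b₀ ∈ B) (hb₁ : b₀ ≠ 1) (P : Sylow p ↥(Subgroup.centralizer ({b₀} : Set G)))
    (hBP : B = Subgroup.closure {x : G | x ∈ ((P : Subgroup ↥(Subgroup.centralizer ({b₀} : Set G))).map
      (Subgroup.centralizer ({b₀} : Set G)).subtype : Subgroup G) ∧ orderOf x = p})
    (Q : Subgroup G) (hQ : ¬ p ∣ Nat.card Q) (hinv : ∀ b ∈ B, ∀ x ∈ Q, b * x * b⁻¹ ∈ Q) :
    Q ≤ Cfsg.pPrimeCore p G := by
  have hP := sylIn_map_subtype P
  refine bender_thompson hp (H8.PLay_top_eq_bot_of_isPSolvable hG) (H8.elem_isPGroup hB) (fun x hx h1 => ?_)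
    (H8.coprime_iff_not_dvd.2 hQ) (H8.le_normalizer_of_conj hinv)
  have h2 : ∀ y ∈ (P : Subgroup (𝒞₁ b₀)).map (𝒞₁ b₀).subtype, y ^ p = 1 → y ∈ B := fun y hy h => by
    by_cases e : y = 1
    · exact e ▸ one_mem _
    · exact hBP ▸ subset_closure ⟨hy, orderOf_eq_prime h e⟩
  obtain ⟨c, -, h3⟩ := hP.exists_cj_le (isPGroup_sup (H8.isPGroup_zpowers_of_eq h1) (H8.elem_isPGroup hB)
    ((zpowers_le.2 hx).trans (cent_le_norm B)))
    (sup_le (zpowers_le.2 (cent1_le_cent hb₀ hx)) (le_cent1_of_comm hB.1 hb₀))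
  have h4 : c ∈ 𝒩 B := mem_normalizer_of_cj_le fun y hy =>
    h2 y (h3 (cj_mono c le_sup_right hy)) ((elem_cj hB c).2 y hy)
  have h5 := h2 _ (h3 (conj_mem_cj c (mem_sup_left (mem_zpowers x))))
    (by rw [conj_pow, ← h1, pow_orderOf_eq_one]; simp)
  simpa [mul_assoc] using H8.conj_mem_of_mem_normalizer' h4 h5

end Cfsg.Agent.S1902
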