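import Cfsg.Statements.S1905
import Cfsg.Agent.H8.Stb
import Cfsg.Agent.H8.Spe
import Cfsg.Agent.H7.SE
import Cfsg.Agent.H2.Invol2

set_option autoImplicit false
open Cfsg

namespace Cfsg.Agent.S1905

open Subgroup Cfsg.Agent.H1 Cfsg.Agent.BG Cfsg.Agent.SF
open Cfsg.Agent.H2 hiding card_lt_of_lt card_lt_of_ne_top isMulCommutative_of_le isPGroup_zpowers_iff mem_of_pow_mem_of_coprime
open Cfsg.Agent.H8 (Op Opp Fit Fs Lay PLay SN Comp PComp Op_le Opp_le Opp_coprime Op_isPGroup le_normalizer_Op le_normalizer_Opp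
  le_normalizer_Opp_of le_normalizer_Op_of le_Op le_Opp inf_Opp_le le_of_centralizers)


/-- Let M be a subgroup of even order of a finite group S such that M contains the centralizer in S of each of its involutions and the normal core of M in S has odd order. Then all involutions of S are conjugate. If moreover N_S(X) ≤ M for a Sylow 2-subgroup X of M and I is an involution in the centre of X, then all involutions of M are conjugate in M and M = M₀ C_M(I) for some subgroup M₀ of M of odd order. -/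
theorem result {S : Type*} [Group S] [Finite S] (M : Subgroup S) (hM : Even (Nat.card M))
    (hC : ∀ i ∈ M, orderOf i = 2 → Subgroup.centralizer ({i} : Set S) ≤ M) (hcore : Odd (Nat.card M.normalCore)) :
    (∀ x y : S, orderOf x = 2 → orderOf y = 2 → IsConj x y) ∧
      ∀ (X : Sylow 2 M) (I : M), I ∈ (Subgroup.center ↥(X : Subgroup ↥M)).map (X : Subgroup ↥M).subtype → orderOf I = 2 →
        Subgroup.normalizer (((X : Subgroup M).map M.subtype : Subgroup S) : Set S) ≤ M →
        (∀ x y : M, orderOf x = 2 → orderOf y = 2 → IsConj x y) ∧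
          ∃ M₀ : Subgroup M, Odd (Nat.card M₀) ∧
            ∀ m : M, ∃ a ∈ M₀, ∃ c ∈ Subgroup.centralizer ({I} : Set M), m = a * c := by
  obtain ⟨s, hs, hs2⟩ := exists_ord2_mem_of_even hM
  obtain ⟨u, hu, hu2⟩ : ∃ u ∉ M, orderOf u = 2 := by
    by_contra! h
    refine odd_card_iff.1 hcore s (fun g => ?_) hs2
    by_contra h1
    exact h _ h1 (ord2_conj hs2 g)
  have key : ∀ x ∈ M, orderOf x = 2 → ∀ y ∉ M, orderOf y = 2 → IsConj x y := fun x hx hx2 y hy hy2 => by
    refine isConj_of_odd (ord2_mul_self hx2) (ord2_mul_self hy2) ?_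
    by_contra h
    obtain ⟨h1, h2, h3⟩ := half_spec (ord2_mul_self hx2) (ord2_mul_self hy2) (Nat.not_odd_iff_even.1 h)
    exact hy (hC _ (hC x hx hx2 (mem_cent1.2 h2.eq.symm)) h1 (mem_cent1.2 h3.eq))
  refine ⟨fun x y hx hy => ?_, fun X I _ hI hN => ?_⟩
  · by_cases h1 : x ∈ M <;> by_cases h2 : y ∈ M
    · exact (key x h1 hx u hu hu2).trans (key y h2 hy u hu hu2).symm
    · exact key x h1 hx y h2 hy
    · exact (key y h2 hy x h1 hx).symm
    · exact (key s hs hs2 x h1 hx).symm.trans (key s hs hs2 y h2 hy)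
  have hX := sylIn_map_subtype X
  have hse : IsStronglyEmbedded M := H8.spe_two_iff.1 (spe_of_cents (fun e => hu (e ▸ mem_top u)) hX
    (fun x hx h => hC x (hX.le hx) h) hN)
  have cj' : ∀ x y : M, orderOf x = 2 → orderOf y = 2 → ∃ k : M, u * k * u⁻¹ = (k : S)⁻¹ ∧ k * x * k⁻¹ = y :=
    fun x y hx hy => by
      obtain ⟨k, hk, h1, h2⟩ := H7.se_exists_inverted hse (ord2_mul_self hu2) hu x.2
        (by rwa [Subgroup.orderOf_coe]) y.2 (by rwa [Subgroup.orderOf_coe])
      exact ⟨⟨k, hk⟩, h1, Subtype.ext h2⟩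
  refine ⟨fun x y hx hy => ?_, (M ⊓ u ⋆ M).subgroupOf M, ?_, fun m => ?_⟩
  · obtain ⟨k, -, h⟩ := cj' x y hx hy
    exact isConj_iff.2 ⟨k, h⟩
  · rw [H8.card_subgroupOf_of_le inf_le_left]; exact hse.2.2 u hu
  obtain ⟨k, h1, h2⟩ := cj' I (m * I * m⁻¹) hI (ord2_conj hI m)
  refine ⟨k, ⟨k.2, ?_⟩, k⁻¹ * m, mem_cent1.2 ?_, by group⟩
  · have := conj_mem_cj u (M.inv_mem k.2)
    rwa [H7.inverts_inv h1] at this
  · calc I * (k⁻¹ * m) = k⁻¹ * (k * I * k⁻¹) * m := by group
      _ = k⁻¹ * m * I := by rw [h2]; group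

end Cfsg.Agent.S1905
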