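import Cfsg.Statements.S1907
import Cfsg.Agent.H8.Stb

set_option autoImplicit false
open Cfsg

namespace Cfsg.Agent.S1907

open Subgroup Cfsg.Agent.H1 Cfsg.Agent.BG Cfsg.Agent.SF
open Cfsg.Agent.H2 hiding card_lt_of_lt card_lt_of_ne_top isMulCommutative_of_le isPGroup_zpowers_iff mem_of_pow_mem_of_coprime
open Cfsg.Agent.H8 (Op Opp Fit Fs Lay PLay SN Comp PComp Op_le Opp_le Opp_coprime Op_isPGroup le_normalizer_Op le_normalizer_Opp
  le_normalizer_Opp_of le_normalizer_Op_of le_Op le_Opp inf_Opp_le le_of_centralizers)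

theorem partA {G : Type*} [Group G] [Finite G] {p : ℕ} [Fact p.Prime] {H D : Subgroup G} [D.Normal]
    (hH : IsPGroup p H) (hD : (♯D).Coprime p) {y d : G} (hy : y ∈ 𝒩 H) {k : ℕ} (hk : orderOf y = p ^ k)
    (hd : d ∈ D) (h : d⁻¹ * y * d ∈ 𝒩 H) :
    ∃ d₁ ∈ D ⊓ 𝒞₁ y, ∃ d₂ ∈ D ⊓ 𝒞 H, d = d₁ * d₂ := by
  have hE : D ⊓ 𝒩 H ≤ 𝒞 H := le_cent_of_norm_of_coprime inf_le_right
    (H8.le_normalizer_inf le_normalizer_of_normal (le_normalizer.trans le_normalizer))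
    (coprime_of_pgroup hH (coprime_of_le_left hD inf_le_left)).symm
  have hEc : (♯(D ⊓ 𝒩 H : Subgroup G)).Coprime p := coprime_of_le_left hD inf_le_left
  have hn : ∀ {z : G}, z ∈ 𝒩 H → zpowers z ≤ 𝒩 (D ⊓ 𝒩 H : Subgroup G) := fun hz =>
    H8.le_normalizer_inf le_normalizer_of_normal ((zpowers_le.2 hz).trans le_normalizer)
  have hk' : orderOf (d⁻¹ * y * d) = p ^ k := by
    rw [← hk, ← H8.orderOf_conj' d⁻¹ y, inv_inv]
  have hm : y * (d⁻¹ * y * d)⁻¹ ∈ D ⊓ 𝒩 H := ⟨by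
    have e : y * (d⁻¹ * y * d)⁻¹ = (y * d⁻¹ * y⁻¹) * d := by group
    rw [e]; exact D.mul_mem (Normal.conj_mem inferInstance _ (D.inv_mem hd) y) hd,
    Subgroup.mul_mem _ hy (Subgroup.inv_mem _ h)⟩
  have s1 := BL.sylIn_of_sup (sylIn_self (isPGroup_zpowers_of_orderOf hk)) hEc (hn hy)
  have s2 := BL.sylIn_of_sup (sylIn_self (isPGroup_zpowers_of_orderOf hk')) hEc (hn h)
  have e : D ⊓ 𝒩 H ⊔ zpowers (d⁻¹ * y * d) = D ⊓ 𝒩 H ⊔ zpowers y := by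
    refine le_antisymm (sup_le le_sup_left (zpowers_le.2 ?_)) (sup_le le_sup_left (zpowers_le.2 ?_))
    · have e : d⁻¹ * y * d = (y * (d⁻¹ * y * d)⁻¹)⁻¹ * y := by group
      rw [e]; exact mul_mem (mem_sup_left (inv_mem hm)) (mem_sup_right (mem_zpowers y))
    · have e : y = (y * (d⁻¹ * y * d)⁻¹) * (d⁻¹ * y * d) := by group
      rw [e]; exact mul_mem (mem_sup_left hm) (mem_sup_right (by rw [← e]; exact mem_zpowers _))
  rw [e] at s2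
  obtain ⟨g, hg, e2⟩ := s1.exists_cj_eq s2
  obtain ⟨c, hc, u, hu, rfl⟩ := H8.mem_sup_of_norm_left (hn hy) hg
  rw [cj_mul, cj_eq_of_mem hu] at e2
  have h1 : c * y * c⁻¹ ∈ zpowers (d⁻¹ * y * d) := e2 ▸ conj_mem_cj c (mem_zpowers y)
  have h2 : c * y * c⁻¹ * (d⁻¹ * y * d)⁻¹ ∈ zpowers (d⁻¹ * y * d) ⊓ (D ⊓ 𝒩 H) := by
    refine ⟨Subgroup.mul_mem _ h1 (Subgroup.inv_mem _ (mem_zpowers _)), ?_⟩
    have e : c * y * c⁻¹ * (d⁻¹ * y * d)⁻¹ = c * (y * c⁻¹ * y⁻¹) * (y * (d⁻¹ * y * d)⁻¹) := by group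
    rw [e]
    exact mul_mem (mul_mem hc (H8.conj_mem_of_le_normalizer (hn hy) (mem_zpowers y) (inv_mem hc))) hm
  rw [H8.inf_eq_bot_of_pgroup_coprime (isPGroup_zpowers_of_orderOf hk') hEc, mem_bot, mul_inv_eq_one] at h2
  refine ⟨d * c, ⟨D.mul_mem hd hc.1, mem_cent1.2 ?_⟩, c⁻¹, ⟨D.inv_mem hc.1, Subgroup.inv_mem _ (hE hc)⟩, by group⟩
  calc y * (d * c) = d * (d⁻¹ * y * d) * c := by group
    _ = d * c * y := by rw [← h2]; group

/-- Let P be a Sylow p-subgroup of a finite group G, H = P ∩ O_{p',p}(G), N = N_G(H) and D = O_{p'}(G). (a) If y is an element of p-power order of N and d ∈ D with d⁻¹ y d ∈ N, then d = d₁ d₂ with d₁ ∈ C_D(y) and d₂ ∈ C_D(H). (b) Two elements of P that are conjugate in G are conjugate in N. -/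
theorem result {G : Type*} [Group G] [Finite G] {p : ℕ} [Fact p.Prime] (P : Sylow p G) :
    (∀ y ∈ Subgroup.normalizer (((P : Subgroup G) ⊓ Cfsg.pPrimePCore p G : Subgroup G) : Set G), (∃ k : ℕ, orderOf y = p ^ k) →
      ∀ d ∈ Cfsg.pPrimeCore p G, d⁻¹ * y * d ∈ Subgroup.normalizer (((P : Subgroup G) ⊓ Cfsg.pPrimePCore p G : Subgroup G) : Set G) →
        ∃ d₁ ∈ Cfsg.pPrimeCore p G ⊓ Subgroup.centralizer ({y} : Set G),
          ∃ d₂ ∈ Cfsg.pPrimeCore p G ⊓ Subgroup.centralizer (((P : Subgroup G) ⊓ Cfsg.pPrimePCore p G : Subgroup G) : Set G), d = d₁ * d₂) ∧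
    ∀ x y : G, x ∈ (P : Subgroup G) → y ∈ (P : Subgroup G) → IsConj x y →
      ∃ n ∈ Subgroup.normalizer (((P : Subgroup G) ⊓ Cfsg.pPrimePCore p G : Subgroup G) : Set G), n * x * n⁻¹ = y := by
  have hH : IsPGroup p ((P : Subgroup G) ⊓ pPrimePCore p G : Subgroup G) := isPGroup_of_le P.isPGroup' inf_le_left
  have hD : (♯(pPrimeCore p G)).Coprime p := card_pPrimeCore_coprime p G
  have : (pPrimeCore p G).Normal := pPrimeCore_normal' p G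
  refine ⟨fun y hy ⟨k, hk⟩ d hd h => partA hH hD hy hk hd h, fun x y hx hy hxy => ?_⟩
  have hP : (P : Subgroup G) ≤ 𝒩 ((P : Subgroup G) ⊓ pPrimePCore p G : Subgroup G) :=
    H8.le_normalizer_inf le_normalizer le_normalizer_of_normal
  obtain ⟨g, rfl⟩ := isConj_iff.1 hxy
  have s := sylow_inf_normal P (pPrimePCore p G)
  obtain ⟨m, hm, hn⟩ := s.frattini' (g := g) (by rw [normalizer_eq_top]; trivial)
  have e := OppP_eq_sup (p := p) (X := ⊤) (T := (P : Subgroup G) ⊓ pPrimePCore p G) (by rwa [OppP_top])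
  rw [OppP_top, H8.Opp_top] at e
  rw [e, sup_comm] at hm
  obtain ⟨u, hu, d, hd, rfl⟩ := H8.mem_sup_of_norm_right le_normalizer_of_normal hm
  have hn' : g * d⁻¹ ∈ 𝒩 ((P : Subgroup G) ⊓ pPrimePCore p G : Subgroup G) := by
    have := mul_mem hn (le_normalizer hu)
    simpa [mul_assoc] using this
  obtain ⟨k, hk⟩ := orderOf_eq_pow_of_mem P.isPGroup' hx
  obtain ⟨d₁, h1, d₂, h2, e2⟩ := partA hH hD (hP hx) hk (inv_mem hd) (by
    have e3 : d⁻¹⁻¹ * x * d⁻¹ = (g * d⁻¹)⁻¹ * (g * x * g⁻¹) * (g * d⁻¹) := by group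
    rw [e3]; exact mul_mem (mul_mem (inv_mem hn') (hP hy)) hn')
  refine ⟨g * d⁻¹ * d₂⁻¹, mul_mem hn' (inv_mem (cent_le_norm _ h2.2)), ?_⟩
  have e4 := mem_cent1.1 h1.2
  have e5 : d₂⁻¹ = d * d₁ := by rw [← inv_inv d, e2]; group
  rw [e5]
  calc g * d⁻¹ * (d * d₁) * x * (g * d⁻¹ * (d * d₁))⁻¹ = g * (d₁ * x) * d₁⁻¹ * g⁻¹ := by group
    _ = g * x * g⁻¹ := by rw [← e4]; group

end Cfsg.Agent.S1907
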