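import Cfsg.Statements.S1924
import Cfsg.Agent.H2.Two2

set_option autoImplicit false
open Cfsg

namespace Cfsg.Agent.S1924

open Cfsg.Agent Cfsg.Agent.H2 Subgroup
open scoped Pointwise commutatorElement
theorem exists_index_two {G : Type*} [Group G] [Finite G] {T : Subgroup G} {d : G} {m k : ℕ}
    (hd : d ^ 2 ^ (m + 1) = 1) (h : ∀ g : G, g * d ^ 2 ^ m * g⁻¹ ∉ T)
    (hi : T.index = 2 ^ (m + 1) * k) (hk : Odd k) : ∃ N : Subgroup G, N.index = 2 := by
  classical
  letI := Fintype.ofFinite (G ⧸ T)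
  let f := Equiv.Perm.sign.comp (MulAction.toPermHom G (G ⧸ T))
  have nofix : ∀ x : G ⧸ T, d ^ 2 ^ m • x ≠ x := by
    rintro ⟨g⟩ e
    refine h g⁻¹ ?_
    have := QuotientGroup.eq.1 (e : ((d ^ 2 ^ m * g : G) : G ⧸ T) = (g : G ⧸ T))
    simpa [mul_assoc] using T.inv_mem this
  set σ := MulAction.toPermHom G (G ⧸ T) d with hσ
  have hpow : ∀ (n : ℕ) (x : G ⧸ T), (σ ^ n) x = d ^ n • x := fun n x => by rw [hσ, ← map_pow]; rfl
  have hct : ∀ n ∈ σ.cycleType, n = 2 ^ (m + 1) := by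
    intro n hn
    have h1 : n ∣ 2 ^ (m + 1) := (Equiv.Perm.dvd_of_mem_cycleType hn).trans
      (orderOf_dvd_of_pow_eq_one (by rw [hσ, ← map_pow, hd, map_one]))
    obtain ⟨j, hj, rfl⟩ := (Nat.dvd_prime_pow Nat.prime_two).1 h1
    by_contra hne
    have hjm : j ≤ m := by
      by_contra h'; exact hne (by rw [show j = m + 1 by omega])
    rw [Equiv.Perm.cycleType_def, Multiset.mem_map] at hn
    obtain ⟨c, hc, e⟩ := hn
    have hc' : c ∈ σ.cycleFactorsFinset := hc
    have hcyc := (Equiv.Perm.mem_cycleFactorsFinset_iff.1 hc').1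
    obtain ⟨x, hx⟩ := hcyc.nonempty_support
    have e1 := Equiv.Perm.cycle_is_cycleOf hx hc'
    refine nofix x ?_
    rw [← hpow, ← Equiv.Perm.cycleOf_pow_apply_self, ← e1]
    have : c ^ 2 ^ m = 1 := orderOf_dvd_iff_pow_eq_one.1 (by
      rw [hcyc.orderOf]; exact (show c.support.card = 2 ^ j from e) ▸ pow_dvd_pow 2 hjm)
    rw [this]; rfl
  have hsup : σ.support = Finset.univ := by
    refine Finset.eq_univ_of_forall fun x => Equiv.Perm.mem_support.2 fun e => nofix x ?_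
    rw [← hpow]; exact Equiv.Perm.pow_apply_eq_self_of_apply_eq_self e _
  have hsum := Equiv.Perm.sum_cycleType σ
  rw [hsup, Finset.card_univ, ← Nat.card_eq_fintype_card, ← index_eq_card, hi,
    Multiset.eq_replicate_card.2 hct, Multiset.sum_replicate, smul_eq_mul, mul_comm] at hsum
  have hc : σ.cycleType.card = k := Nat.eq_of_mul_eq_mul_left (by positivity) hsum
  have hs : f d = -1 := by
    change Equiv.Perm.sign σ = -1
    rw [Equiv.Perm.sign_of_cycleType, Multiset.eq_replicate_card.2 hct, Multiset.sum_replicate,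
      Multiset.card_replicate, hc]
    exact Odd.neg_one_pow (Even.add_odd (by
      rw [smul_eq_mul, pow_succ, ← mul_assoc]; exact even_two.mul_left _) hk)
  refine ⟨f.ker, ?_⟩
  have : f.range = ⊤ := by
    rw [eq_top_iff]
    rintro u -
    rcases Int.units_eq_one_or u with rfl | rfl
    · exact one_mem _
    · exact ⟨d, hs⟩
  rw [index_ker, this, card_top, Nat.card_eq_fintype_card, Fintype.card_units_int]

theorem sq_of_dih {n : ℕ} (hn : 2 ≤ n) (C : Subgroup (DihedralGroup n)) (hC : IsCyclic C)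
    (hi : C.index = 2) (x : DihedralGroup n) (hx : x ∉ C) : x * x = 1 := by
  haveI : NeZero n := ⟨by omega⟩
  rcases x with i | i
  swap
  · simp
  obtain ⟨⟨c, hc⟩, hg⟩ := hC.exists_generator
  have hcard : Nat.card C = n := by
    have := C.card_mul_index
    rw [hi, Nat.card_eq_fintype_card (α := DihedralGroup n), DihedralGroup.card] at this
    omega
  have ho : orderOf c = n := by
    have := orderOf_eq_card_of_forall_mem_zpowers hg
    rw [orderOf_mk] at this
    exact this.trans hcard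
  rcases c with j | j
  · exfalso
    apply hx
    have h1 : zpowers (DihedralGroup.r j) ≤ zpowers (DihedralGroup.r (1 : ZMod n)) := by
      rw [zpowers_le]
      exact ⟨j.val, by simp [DihedralGroup.r_one_pow]⟩
    have h2 := eq_of_le_of_card_ge h1 (by
      rw [Nat.card_zpowers, Nat.card_zpowers, ho, DihedralGroup.orderOf_r_one])
    refine (zpowers_le.2 hc) (h2.ge ⟨i.val, by simp [DihedralGroup.r_one_pow]⟩)
  · rw [DihedralGroup.orderOf_sr] at ho
    subst ho
    clear hx; revert i; decide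


/-- A consequence of Thompson's transfer lemma. Let G be a finite group, L a subgroup with O²(L) = L, T a Sylow 2-subgroup of L and S a Sylow 2-subgroup of G containing T. Suppose D ≤ S is a dihedral subgroup of order at least 4 (the four-group counts) with D ∩ T = 1 and S = TD as a set of products (so |S| = |T|·|D|), and C ≤ D is cyclic of index 2 in D. If no involution of D outside C is G-conjugate to an involution of the subgroup generated by T and C, and the involution of C is not G-conjugate to any involution of T, then G has a normal subgroup K, containing every Sylow 2-subgroup of L as a Sylow 2-subgroup, with G = KD. -/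
theorem result {G : Type*} [Group G] [Finite G] (L T S D C : Subgroup G) (hL : Cfsg.pResidual 2 ↥L = ⊤)
    (hTL : T ≤ L) (hT2 : IsPGroup 2 T) (hTsyl : ¬ 2 ∣ T.relIndex L)
    (hS2 : IsPGroup 2 S) (hSsyl : ¬ 2 ∣ S.index) (hTS : T ≤ S)
    (hDS : D ≤ S) (hDih : ∃ n : ℕ, 2 ≤ n ∧ Nonempty (↥D ≃* DihedralGroup n)) (hDT : D ⊓ T = ⊥) (hTD : T ⊔ D = S) (hTDc : Nat.card T * Nat.card D = Nat.card S)
    (hCD : C ≤ D) (hC : IsCyclic ↥C) (hCi : C.relIndex D = 2)
    (h1 : ∀ x ∈ D, x ∉ C → orderOf x = 2 → ∀ g : G, g * x * g⁻¹ ∈ T ⊔ C → False)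
    (h2 : ∀ c ∈ C, orderOf c = 2 → ∀ g : G, g * c * g⁻¹ ∈ T → False) :
    ∃ K : Subgroup G, K.Normal ∧ K ⊔ D = ⊤ ∧
      ∀ T' : Subgroup G, T' ≤ L → IsPGroup 2 T' → ¬ 2 ∣ T'.relIndex L → T' ≤ K ∧ ¬ 2 ∣ T'.relIndex K := by
  have hS : SylIn 2 S ⊤ := sylIn_of_not_dvd le_top hS2 (by rwa [relIndex_top_right])
  have hTs : SylIn 2 T L := sylIn_of_not_dvd hTL hT2 hTsyl
  have hLK : L ≤ pResidual 2 G := by
    rw [← pResidual_eq_top_iff.1 hL, ← resOf_top]; exact resOf_mono le_top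
  have hK := hS.inf_pResidual
  have hno := no_index_two_pResidual (G := G)
  have hKS : pResidual 2 G ⊔ S = ⊤ := by rw [← resOf_top]; exact hS.resOf_sup
  have hKn : (pResidual 2 G).Normal := inferInstance
  generalize pResidual 2 G = K at *
  have hTK := hTL.trans hLK
  have dec : ∀ s ∈ S, ∃ t ∈ T, ∃ d ∈ D, s = t * d := by
    intro s hs
    let f : T × D → S := fun x => ⟨x.1 * x.2, S.mul_mem (hTS x.1.2) (hDS x.2.2)⟩
    have hf : Function.Injective f := by
      rintro ⟨a, b⟩ ⟨c, d⟩ e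
      have e' : (a : G) * b = c * d := congrArg Subtype.val e
      have h3 : (c : G)⁻¹ * a = d * (b : G)⁻¹ := by
        rw [inv_mul_eq_iff_eq_mul, ← mul_assoc, ← e', mul_inv_cancel_right]
      have h4 : (c : G)⁻¹ * a = 1 := mem_bot.1 (hDT.le ⟨h3 ▸ D.mul_mem d.2 (D.inv_mem b.2), T.mul_mem (T.inv_mem c.2) a.2⟩)
      rw [h4] at h3
      exact Prod.ext (Subtype.ext (inv_mul_eq_one.1 h4).symm) (Subtype.ext (mul_inv_eq_one.1 h3.symm).symm)
    obtain ⟨⟨a, b⟩, e⟩ := (hf.bijective_of_nat_card_le (by rw [Nat.card_prod, hTDc])).2 ⟨s, hs⟩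
    exact ⟨a, a.2, b, b.2, (congrArg Subtype.val e).symm⟩
  obtain ⟨n, hn, ⟨e⟩⟩ := hDih
  have hsq : ∀ x ∈ D, x ∉ C → orderOf x = 2 := by
    intro x hx hxC
    have h3 := sq_of_dih hn ((C.subgroupOf D).map e.toMonoidHom)
      (by
        haveI : IsCyclic (C.subgroupOf D) := isCyclic_of_surjective _ (subgroupOfEquivOfLe hCD).symm.surjective
        exact isCyclic_of_surjective _ (e.subgroupMap (C.subgroupOf D)).surjective)
      ((index_map_equiv _ e).trans hCi) (e ⟨x, hx⟩) (by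
        rintro ⟨y, hy, h⟩
        have := e.injective h
        subst this
        exact hxC hy)
    rw [← map_mul, map_eq_one_iff _ e.injective] at h3
    exact orderOf_eq_prime (by rw [pow_two]; exact congrArg Subtype.val h3) (by rintro rfl; exact hxC C.one_mem)
  have hiK : Odd ((S ⊓ K).subgroupOf K).index := by
    have := hK.not_dvd_relIndex
    exact Nat.not_even_iff_odd.1 fun h => this (even_iff_two_dvd.1 h)
  have hDC : D ⊓ K ≤ C := by
    intro x hx
    by_contra hxC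
    have hxo := hsq x hx.1 hxC
    have hxT : x ∉ T ⊔ C := fun h => h1 x hx.1 hxC hxo 1 (by simpa using h)
    have hI : Ix2 (T ⊔ C) S := by
      have hc := card_eq_relIndex_mul hCD
      have h3 := H1.card_mul_card_le (le_sup_left : T ≤ T ⊔ C) le_sup_right
      have h4 : T ⊓ C = ⊥ := le_bot_iff.1 (hDT ▸ le_inf (inf_le_right.trans hCD) inf_le_left)
      rw [h4, card_bot, mul_one] at h3
      have h5 := card_eq_relIndex_mul (sup_le hTS (hCD.trans hDS))
      have h6 : (T ⊔ C).relIndex S ≠ 1 := fun h => hxT (relIndex_eq_one.1 h (hDS hx.1))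
      have h7 : (T ⊔ C).relIndex S ≠ 0 := FiniteIndex.index_ne_zero
      refine ix2_of_relIndex ?_
      rw [← hTDc, hc, hCi] at h5
      have h8 : 0 < Nat.card ↥(T ⊔ C) := Nat.card_pos
      have : (T ⊔ C).relIndex S ≤ 2 := by
        by_contra h
        have : 3 ≤ (T ⊔ C).relIndex S := by omega
        nlinarith
      omega
    have h3 : (T ⊔ C).relIndex (S ⊓ K) = 2 :=
      (hI.mono inf_le_left).relIndex fun h => hxT (h ⟨hDS hx.1, hx.2⟩)
    obtain ⟨g, hg⟩ := exists_conj_mem_of_no_index_two hno (P := (S ⊓ K).subgroupOf K)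
      (Q := (T ⊔ C).subgroupOf K) hiK (by rw [relIndex_subgroupOf inf_le_right, h3])
      (u := ⟨x, hx.2⟩) (by rw [orderOf_mk, hxo]) ⟨hDS hx.1, hx.2⟩
    exact h1 x hx.1 hxC hxo g hg
  have hcard : Nat.card ↥(S ⊓ K) = Nat.card T * Nat.card ↥(D ⊓ K) := by
    rw [← Nat.card_prod]
    symm
    refine Nat.card_eq_of_bijective (fun x : T × ↥(D ⊓ K) =>
      (⟨x.1 * x.2, S.mul_mem (hTS x.1.2) (hDS x.2.2.1), K.mul_mem (hTK x.1.2) x.2.2.2⟩ : ↥(S ⊓ K))) ⟨?_, ?_⟩
    · rintro ⟨a, b⟩ ⟨c, d⟩ e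
      have e' : (a : G) * b = c * d := congrArg Subtype.val e
      have h3 : (c : G)⁻¹ * a = d * (b : G)⁻¹ := by
        rw [inv_mul_eq_iff_eq_mul, ← mul_assoc, ← e', mul_inv_cancel_right]
      have h4 : (c : G)⁻¹ * a = 1 := mem_bot.1 (hDT.le ⟨h3 ▸ D.mul_mem d.2.1 (D.inv_mem b.2.1), T.mul_mem (T.inv_mem c.2) a.2⟩)
      rw [h4] at h3
      exact Prod.ext (Subtype.ext (inv_mul_eq_one.1 h4).symm) (Subtype.ext (mul_inv_eq_one.1 h3.symm).symm)
    · rintro ⟨s, hs⟩
      obtain ⟨t, ht, d, hd, rfl⟩ := dec s hs.1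
      exact ⟨(⟨t, ht⟩, ⟨d, hd, by simpa using K.mul_mem (K.inv_mem (hTK ht)) hs.2⟩), rfl⟩
  have hD0 : D ⊓ K = ⊥ := by
    by_contra hne
    haveI : IsCyclic ↥(D ⊓ K) := isCyclic_of_le hDC
    obtain ⟨⟨d, hd⟩, hg⟩ := IsCyclic.exists_ofOrder_eq_natCard (α := ↥(D ⊓ K))
    rw [orderOf_mk] at hg
    obtain ⟨j, hj⟩ := orderOf_eq_pow_of_mem hS2 (hDS hd.1)
    have hj0 : j ≠ 0 := by
      rintro rfl
      exact hne (card_eq_one.1 (by rw [← hg, hj, pow_zero]))
    obtain ⟨m, rfl⟩ := Nat.exists_eq_succ_of_ne_zero hj0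
    obtain ⟨N, hN⟩ := exists_index_two (G := K) (T := T.subgroupOf K) (d := ⟨d, hd.2⟩) (m := m)
      (k := ((S ⊓ K).subgroupOf K).index) (Subtype.ext (by
        change d ^ 2 ^ (m + 1) = 1
        rw [← Nat.succ_eq_add_one, ← hj, pow_orderOf_eq_one]))
      (fun g hg' => h2 (d ^ 2 ^ m) (pow_mem (hDC hd) _) (by
        rw [orderOf_pow_of_dvd (by positivity) (hj ▸ pow_dvd_pow 2 (Nat.le_succ m)), hj, pow_succ,
          Nat.mul_div_cancel_left _ (by positivity)]) g hg')
      (by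
        have h3 := relIndex_mul_relIndex T (S ⊓ K) K (le_inf hTS hTK) inf_le_right
        have h4 := card_eq_relIndex_mul (le_inf hTS hTK)
        rw [hcard, mul_comm, ← hg, hj] at h4
        rw [← Nat.eq_of_mul_eq_mul_right Nat.card_pos h4] at h3
        exact h3.symm) hiK
    exact hno N hN
  rw [hD0, card_bot, mul_one] at hcard
  refine ⟨K, hKn, ?_, fun T' h3 h4 h5 => ⟨h3.trans hLK, ?_⟩⟩
  · rw [← hKS, ← hTD, ← sup_assoc, sup_eq_left.2 hTK]
  · refine (hK.of_card_le h4 (h3.trans hLK) ?_).not_dvd_relIndex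
    rw [hcard, hTs.card_eq (sylIn_of_not_dvd h3 h4 h5)]

end Cfsg.Agent.S1924
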