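import Cfsg.Statements.S1939
import Mathlib
import Cfsg.Agent.H2.Transfer

set_option autoImplicit false
open Cfsg

namespace Cfsg.Agent.S1939

open Cfsg.Agent.H2 Subgroup

/-- Let S be a Sylow p-subgroup of the finite group G and a an element of S that is the only G-conjugate of a lying in S. Then every power of a has the same property: for every n, the only G-conjugate of a^n lying in S is a^n. -/
theorem result {G : Type*} [Group G] [Finite G] {p : ℕ} [Fact p.Prime] (S : Sylow p G) (a : G)
    (haS : a ∈ (S : Subgroup G)) (hwc : ∀ g : G, g * a * g⁻¹ ∈ (S : Subgroup G) → g * a * g⁻¹ = a) (n : ℕ) :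
    ∀ g : G, g * a ^ n * g⁻¹ ∈ (S : Subgroup G) → g * a ^ n * g⁻¹ = a ^ n := by
  intro g hg
  have hZ : ∀ y ∈ (S : Subgroup G), y ∈ centralizer (zpowers a : Set G) := by
    intro y hy
    have := hwc y (mul_mem (mul_mem hy haS) (inv_mem hy))
    rintro _ ⟨k, rfl⟩
    have h2 : Commute a y := by
      show a * y = y * a
      conv_lhs => rw [← this]
      group
    exact (h2.zpow_left k).eq
  obtain ⟨m, -, hm, e⟩ := (sylIn_top S).conj_of_weaklyClosed (zpowers_le.2 haS) (fun g _ h => by
      rw [cj_zpowers] at h ⊢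
      rw [hwc g (zpowers_le.1 h)]) (mem_top g) (hZ _ (pow_mem haS n)) (hZ _ hg)
  have := hwc m (zpowers_le.2 haS (H8.conj_mem_of_mem_normalizer hm (mem_zpowers a)))
  rw [← e, ← conj_pow, this]

end Cfsg.Agent.S1939
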