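import Cfsg.Statements.S1940
import Mathlib
import Cfsg.Agent.H9.More

set_option autoImplicit false
open Cfsg

namespace Cfsg.Agent.S1940

open Subgroup

/-- Let the finite group L act by automorphisms on the finite abelian group M, and let N be an L-invariant subgroup of M such that M/N is a p-group on which L acts trivially (every l • m lies in the coset mN). If every element of M is a product of an element of N and an element fixed by a Sylow p-subgroup T of L, then every element of M is a product of an element of N and an element fixed by all of L. -/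
theorem result {L : Type*} [Group L] [Finite L] {M : Type*} [CommGroup M] [Finite M] [MulDistribMulAction L M]
    {p : ℕ} [Fact p.Prime] (N : Subgroup M) (hN : ∀ (l : L) (m : M), m ∈ N → l • m ∈ N)
    (hquot : IsPGroup p (M ⧸ N)) (htriv : ∀ (l : L) (m : M), (l • m) * m⁻¹ ∈ N) (T : Sylow p L)
    (hT : ∀ m : M, ∃ n ∈ N, ∃ c : M, (∀ t ∈ (T : Subgroup L), t • c = c) ∧ m = n * c) :
    ∀ m : M, ∃ n ∈ N, ∃ c : M, (∀ l : L, l • c = c) ∧ m = n * c := by
  intro m
  obtain ⟨n, hn, c, hc, rfl⟩ := hT m
  obtain ⟨f, h1, -, -, h2, -⟩ := H9.exists_norm (MulDistribMulAction.toMulAut L M) T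
  have h3 := h2 N c fun l => by rw [mul_comm]; exact htriv l c
  obtain ⟨k, hk⟩ := IsPGroup.iff_orderOf.1 hquot (QuotientGroup.mk c)
  obtain ⟨j, hj⟩ := exists_pow_eq_self_of_coprime (x := (QuotientGroup.mk c : M ⧸ N))
    (n := (T : Subgroup L).index) (by
      rw [hk]
      exact (((Fact.out : p.Prime).coprime_iff_not_dvd.2 T.not_dvd_index).symm).pow_right k)
  rw [← QuotientGroup.mk_pow, QuotientGroup.eq.2 h3, ← QuotientGroup.mk_pow,
    QuotientGroup.eq] at hj
  refine ⟨n * ((f c ^ j)⁻¹ * c), mul_mem hn hj, f c ^ j, fun l => ?_, by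
    rw [mul_assoc, mul_right_comm, inv_mul_cancel, one_mul]⟩
  rw [smul_pow']
  exact congrArg (· ^ j) (h1 c hc l)

end Cfsg.Agent.S1940
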