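import Cfsg.Statements.S1941
import Cfsg.Agent.H9.TJ
import Cfsg.Agent.H8.FStar
import Cfsg.Agent.L.Fitting

set_option autoImplicit false
open Cfsg

namespace Cfsg.Agent.S1941

open Cfsg.Agent Cfsg.Agent.H9
open scoped IsMulCommutative

/-- Let G be a finite group with no nontrivial normal subgroup of order prime to p, T a Sylow p-subgroup of G and E(G) the layer of G (the subgroup generated by its components). An automorphism of G of p-power order that fixes T and E(G) elementwise is inner. -/
theorem result {G : Type*} [Group G] [Finite G] {p : ℕ} [Fact p.Prime] (hcore : Cfsg.pPrimeCore p G = ⊥)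
    (T : Sylow p G) (α : MulAut G) (hα : ∃ j : ℕ, orderOf α = p ^ j) (hfixT : ∀ x ∈ (T : Subgroup G), α x = x)
    (hfixE : ∀ x ∈ Cfsg.layer G, α x = x) : ∃ g : G, ∀ x : G, α x = g * x * g⁻¹ := by
  classical
  have hF : fittingSubgroup G = pCore p G := L.fitting_eq_pCore_of_pPrimeCore_eq_bot Fact.out hcore
  have hfix : ∀ x ∈ generalizedFittingSubgroup G, α x = x := by
    have : generalizedFittingSubgroup G ≤ α.toMonoidHom.eqLocus (MonoidHom.id G) :=
      sup_le hfixE (hF ▸ (L.pCore_le_sylow T).trans hfixT)
    exact this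
  haveI hn : (generalizedFittingSubgroup G).Normal := by
    haveI := H8.layer_normal (G := G)
    exact Subgroup.sup_normal _ _
  let V := Subgroup.centralizer (generalizedFittingSubgroup G : Set G)
  haveI hVn : V.Normal := inferInstance
  have hVF : V ≤ generalizedFittingSubgroup G := H8.centralizer_fstar_le
  haveI : IsMulCommutative V := L.isMulCommutative_of_forall fun a ha b hb => hb a (hVF ha)
  have hVp : IsPGroup p V := (L.pCore_isPGroup p G).to_le (hF ▸ L.le_fitting (L.isNilpotent_of_isMulCommutative V))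
  have hc : ∀ g : G, α g * g⁻¹ ∈ V := fun g f hf => by
    have h1 := hfix _ (hn.conj_mem' f hf g)
    rw [map_mul, map_mul, map_inv, hfix f hf] at h1
    calc f * (α g * g⁻¹) = α g * ((α g)⁻¹ * f * α g) * g⁻¹ := by group
      _ = _ := by rw [h1]; group
  let c : G → V := fun g => ⟨_, hc g⟩
  let act : G → V →* V := fun g => (MulAut.conjNormal g).toMonoidHom
  have hcm : ∀ g h, c (g * h) = c g * act g (c h) := fun g h => Subtype.ext (by simp [c, act, mul_assoc])
  let d : G ⧸ (T : Subgroup G) → V := fun x => c x.out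
  have hd : ∀ g : G, d g = c g := fun g => by
    obtain ⟨t, ht⟩ := QuotientGroup.mk_out_eq_mul (T : Subgroup G) g
    refine Subtype.ext ?_
    simp only [d, c, ht, map_mul, hfixT t.1 t.2]
    group
  haveI := Fintype.ofFinite (G ⧸ (T : Subgroup G))
  have hb : ∀ h : G, ∏ x, d x = c h ^ (T : Subgroup G).index * act h (∏ x, d x) := fun h => by
    conv_lhs => rw [← Equiv.prod_comp (MulAction.toPerm h)]
    rw [map_prod, Subgroup.index, Nat.card_eq_fintype_card, ← Finset.card_univ, ← Finset.prod_const,
      ← Finset.prod_mul_distrib]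
    refine Finset.prod_congr rfl fun x _ => ?_
    obtain ⟨g, rfl⟩ := QuotientGroup.mk_surjective x
    rw [MulAction.toPerm_apply, MulAction.Quotient.smul_coe, smul_eq_mul, hd, hd, hcm]
  obtain ⟨k, hk⟩ := IsPGroup.iff_card.mp hVp
  have hco : (Nat.card V).Coprime (T : Subgroup G).index := by
    rw [hk]; exact ((Nat.Prime.coprime_iff_not_dvd Fact.out).mpr T.not_dvd_index).pow_left k
  obtain ⟨a, ha⟩ := (powCoprime hco).surjective (∏ x, d x)
  refine ⟨a, fun h => ?_⟩
  have h1 : c h * act h a = a := by
    apply (powCoprime hco).injective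
    have := hb h
    rw [← ha] at this
    simp only [powCoprime_apply] at this ⊢
    rw [mul_pow, ← map_pow]; exact this.symm
  have h2 : α h * h⁻¹ * (h * a * h⁻¹) = a := congrArg Subtype.val h1
  calc α h = (α h * h⁻¹ * (h * a * h⁻¹)) * h * (a : G)⁻¹ := by group
    _ = _ := by rw [h2]

end Cfsg.Agent.S1941
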