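import Cfsg.Statements.S1946
import Mathlib
import Cfsg.Agent.H2.SL23

set_option autoImplicit false
open Cfsg

namespace Cfsg.Agent.S1946

open Cfsg.Agent.H2 Subgroup

/-- Let P be a Sylow p-subgroup of the finite group G. Then G has a normal p-complement if and only if P controls the fusion of its elements of order dividing p (dividing 4 when p = 2): whenever such an element a of P has a G-conjugate g a g⁻¹ in P, that conjugate is already x a x⁻¹ for some x in P. -/
theorem result {G : Type*} [Group G] [Finite G] {p : ℕ} [Fact p.Prime] (P : Sylow p G) :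
    Cfsg.HasNormalPComplement p G ↔
      ∀ a ∈ (P : Subgroup G), (a ^ p = 1 ∨ (p = 2 ∧ a ^ 4 = 1)) → ∀ g : G, g * a * g⁻¹ ∈ (P : Subgroup G) →
        ∃ x ∈ (P : Subgroup G), g * a * g⁻¹ = x * a * x⁻¹ := by
  rw [hasNPC_iff_top]
  have hP := sylIn_top P
  constructor
  · intro h a ha _ g hg
    obtain ⟨v, hv, e⟩ := h.control hP (mem_top g)
    exact ⟨v, hv, (e a ha hg).symm⟩
  · intro h
    refine hP.frobenius fun U hU _ _ _ g hg ho => ?_
    obtain ⟨D, h1, h2, -, h3, h4⟩ := H9.exists_thD_amb (P.2.to_le hU)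
    refine h4 g hg.2 ho (cent_of_fused P.2 (h1.trans hU)
      (mem_normalizer_of_cj_le (cj_le_iff_forall.2 (h2 g hg.2))) ho fun x hx => ?_)
    exact h x (hU (h1 hx)) (sm_iff.1 (h3 x hx)) g (hU (h1 (h2 g hg.2 x hx)))

end Cfsg.Agent.S1946
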