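import Cfsg.Statements.S1947
import Mathlib
import Cfsg.Agent.H2.SL23
import Cfsg.Agent.H2.Loc2

set_option autoImplicit false
open Cfsg

namespace Cfsg.Agent.S1947

open Cfsg.Agent.H2 Subgroup
open scoped commutatorElement

/-- Let G be a finite group and p a prime. If every element of G of order dividing p (dividing 4 when p = 2) lies in some fixed term Z_n(G) of the upper central series, then G has a normal p-complement. -/
theorem result {G : Type*} [Group G] [Finite G] {p : ℕ} [Fact p.Prime] (n : ℕ)
    (h : ∀ a : G, (a ^ p = 1 ∨ (p = 2 ∧ a ^ 4 = 1)) → a ∈ Subgroup.upperCentralSeries G n) : Cfsg.HasNormalPComplement p G := by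
  rw [hasNPC_iff_top]
  refine pNil_of_small_central fun x _ h1 h2 g _ ho hp => ?_
  set A := H8.ncl (zpowers x) (zpowers g) ⊓ Subgroup.upperCentralSeries G n
  have hn : zpowers g ≤ normalizer (A : Set G) := H8.le_normalizer_inf (H8.le_normalizer_ncl _ _)
    (le_top.trans (H8.normal_iff_top_le.1 inferInstance))
  have h3 := H8.commutator_commutator_eq_of_coprime hn
    (H8.coprime_of_isPGroup (hp.to_le inf_le_left) (by rwa [Nat.card_zpowers]))
  have h4 : ∀ k, ⁅A, zpowers g⁆ ≤ Subgroup.upperCentralSeries G k → ⁅A, zpowers g⁆ = ⊥ := by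
    intro k
    induction k with
    | zero => exact le_bot_iff.1
    | succ k ih =>
      intro e
      refine ih (h3 ▸ commutator_le.2 fun a ha b _ => ?_)
      exact Subgroup.mem_upperCentralSeries_succ_iff.1 (e ha) b
  exact (H8.commute_of_commutator_eq_bot (h4 n ((H8.commutator_le_left_of_norm hn).trans
    inf_le_right)) ⟨H8.le_ncl _ _ (mem_zpowers x), h x (sm_iff.1 ⟨h1, h2⟩)⟩ (mem_zpowers g)).symm

end Cfsg.Agent.S1947
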