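import Cfsg.Statements.S1948
import Mathlib
import Cfsg.Agent.H2.SL23

set_option autoImplicit false
open Cfsg

namespace Cfsg.Agent.S1948

open Cfsg.Agent.H2 Subgroup

/-- Let S be a Sylow p-subgroup of the finite group G. Then G = N_G(S)·O_{p'}(G) if and only if G is p-constrained and N_G(S) controls fusion in S, in the sense that whenever a subgroup Q of S has a conjugate g Q g⁻¹ inside S, the element g is a product n c with n normalizing S and c centralizing Q. -/
theorem result {G : Type*} [Group G] [Finite G] {p : ℕ} [Fact p.Prime] (S : Sylow p G) :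
    Subgroup.normalizer ((S : Subgroup G) : Set G) ⊔ Cfsg.pPrimeCore p G = ⊤ ↔
      (Cfsg.IsPConstrained p G ∧
        ∀ Q : Subgroup G, Q ≤ (S : Subgroup G) → ∀ g : G, Q.map (MulAut.conj g).toMonoidHom ≤ (S : Subgroup G) →
          ∃ n ∈ Subgroup.normalizer ((S : Subgroup G) : Set G), ∃ c ∈ Subgroup.centralizer (Q : Set G), g = n * c) := by
  have hS := sylIn_top S
  rw [← H8.Opp_top]
  have hO : ∀ X : Subgroup G, X ≤ normalizer ((H8.Opp p ⊤ : Subgroup G) : Set G) := fun X =>
    le_top.trans (H8.le_normalizer_Opp _ _)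
  haveI : (OppP p (⊤ : Subgroup G)).Normal := H8.normal_of_top_le (le_normalizer_OppP _ _)
  constructor
  · intro h
    have h1 : ∀ X : Subgroup G, normalizer ((S : Subgroup G) : Set G) ≤ normalizer (X : Set G) →
        ⊤ ≤ normalizer ((X ⊔ H8.Opp p ⊤ : Subgroup G) : Set G) := fun X hX => by
      refine h.ge.trans (sup_le (H8.le_normalizer_sup hX (hO _)) ?_)
      exact (le_sup_right (a := X)).trans le_normalizer
    have h2 : (S : Subgroup G) ≤ OppP p ⊤ := le_sup_left.trans (le_OppP le_top (h1 _ le_rfl)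
      (pNil_of_normal (hO _) (H8.Opp_coprime _ _) S.2 le_sup_left (sup_comm _ _).le))
    have h3 : centralizer ((S : Subgroup G) : Set G) ≤ OppP p ⊤ := hS.ctr.cent_le.trans (sup_le
      (le_sup_left.trans ((H8.le_Opp le_top (h1 _ (H8.le_normalizer_Opp _ _))
        (H8.coprime_sup (hO _) (H8.Opp_coprime _ _) (H8.Opp_coprime _ _))).trans
        (Opp_le_OppP _ _))) h2)
    refine ⟨fun T => ?_, fun Q hQ g hg => ?_⟩
    · have hT := sylIn_map_subtype T
      generalize map (pPrimePCore p G).subtype (T : Subgroup (pPrimePCore p G)) = T' at hT ⊢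
      rw [← OppP_top] at hT ⊢
      obtain ⟨g, -, e⟩ := (hS.mono h2 le_top).exists_cj_eq hT
      rw [← e, ← cj_centralizer, ← cj_eq_of_normal g (OppP p ⊤)]
      exact cj_mono g h3
    · obtain ⟨n, hn, c, hc, rfl⟩ := H8.mem_sup_of_norm_right (hO _) (h.ge (mem_top g))
      refine ⟨n, hn, c, fun x hx => ?_, rfl⟩
      have h4 : c * x * c⁻¹ ∈ (S : Subgroup G) := by
        simpa [mul_assoc] using H8.conj_mem_of_mem_normalizer' hn (hg (conj_mem_cj _ hx))
      have h5 : c * x * c⁻¹ * x⁻¹ ∈ (S : Subgroup G) ⊓ H8.Opp p ⊤ :=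
        mem_inf.2 ⟨mul_mem h4 (inv_mem (hQ hx)), by
          simpa only [mul_assoc] using
            mul_mem hc (H8.conj_mem_of_le_normalizer (hO ⊤) (mem_top x) (inv_mem hc))⟩
      rw [H8.inf_eq_bot_of_pgroup_coprime S.2 (H8.Opp_coprime _ _), mem_bot, mul_inv_eq_one,
        mul_inv_eq_iff_eq_mul] at h5
      exact h5.symm
  · rintro ⟨h1, h2⟩
    have hT := hS.inf_normal' (le_normalizer_OppP p ⊤) le_top
    have h3 : OppP p ⊤ ≤ normalizer ((S : Subgroup G) : Set G) ⊔ H8.Opp p ⊤ := by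
      rw [OppP_eq_sup hT, sup_comm]
      exact sup_le_sup_right (inf_le_left.trans le_normalizer) _
    refine eq_top_iff.2 ((hT.frattini_sup le_top (le_normalizer_OppP p ⊤)).ge.trans ?_)
    refine sup_le h3 fun g hg => ?_
    obtain ⟨n, hn, c, hc, rfl⟩ := h2 _ inf_le_left g
      ((cj_eq_of_mem_normalizer hg.2).le.trans inf_le_left)
    refine mul_mem (mem_sup_left hn) (h3 ?_)
    rw [OppP_top] at hT hc ⊢
    obtain ⟨T, e⟩ := hT.exists_sylow'
    exact h1 T (e ▸ hc)

end Cfsg.Agent.S1948
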