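import Cfsg.Statements.S1949
import Mathlib
import Cfsg.Agent.H2.SL23

set_option autoImplicit false
open Cfsg

namespace Cfsg.Agent.S1949

open Cfsg.Agent.H2 Subgroup SemidirectProduct
open scoped commutatorElement

/-- Let P be a finite p-group and G a group of automorphisms of P containing the inner automorphisms. Then there is a G-invariant subgroup D of P, contained in the subgroup generated by the elements x⁻¹α(x) with x in P and α in O^p(G), of exponent dividing p when p is odd and dividing 4 when p = 2, with [D, P] ≤ Z(D), such that every automorphism in G of order prime to p that fixes D elementwise is the identity; moreover every maximal abelian subgroup A of D is normal in P and every automorphism in G fixing A elementwise has p-power order. -/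
theorem result {P : Type*} [Group P] [Finite P] {p : ℕ} [Fact p.Prime] (hP : IsPGroup p P)
    (G : Subgroup (MulAut P)) (hG : Cfsg.Inn P ≤ G) :
    ∃ D : Subgroup P,
      (∀ α ∈ G, D.map α.toMonoidHom = D) ∧
      D ≤ Subgroup.closure {y : P | ∃ α ∈ Cfsg.pResidual p ↥G, ∃ x : P, y = x⁻¹ * (α : MulAut P) x} ∧
      (∀ d ∈ D, d ^ p = 1 ∨ (p = 2 ∧ d ^ 4 = 1)) ∧
      ⁅D, (⊤ : Subgroup P)⁆ ≤ D ⊓ Subgroup.centralizer (D : Set P) ∧
      (∀ α ∈ G, (orderOf α).Coprime p → (∀ d ∈ D, α d = d) → α = 1) ∧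
      ∀ A : Subgroup P, A ≤ D → IsMulCommutative ↥A →
        (∀ B : Subgroup P, A ≤ B → B ≤ D → IsMulCommutative ↥B → B = A) →
        A.Normal ∧ ∀ α ∈ G, (∀ a ∈ A, α a = a) → ∃ k : ℕ, orderOf α = p ^ k := by
  set φ := G.subtype
  have hP' := isPGroup_sl_top (φ := φ) hP
  obtain ⟨D, a, b, c, d, e⟩ := H9.exists_thD_amb hP'
  obtain ⟨D, rfl⟩ := exists_sl a
  have hn := fun x => le_normalizer_sl_top (φ := φ) ⊤ (mem_top x)
  set K := Subgroup.closure {y : P | ∃ α ∈ pResidual p ↥G, ∃ x : P, y = x⁻¹ * (α : MulAut P) x}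
  have hK : ∀ α ∈ G, ∀ y ∈ K, α y ∈ K := fun α hα => by
    change K ≤ K.comap α.toMonoidHom
    refine (closure_le _).2 ?_
    rintro _ ⟨β, hβ, x, rfl⟩
    exact subset_closure ⟨⟨α, hα⟩ * β * ⟨α, hα⟩⁻¹, Normal.conj_mem inferInstance _ hβ _, α x,
      by simp⟩
  have hD : ∀ α ∈ G, ∀ y ∈ D ⊓ K, α y ∈ D ⊓ K := fun α hα y hy => by
    have := b (inr ⟨α, hα⟩) (hn _) _ (inl_mem_sl.2 hy.1)
    rw [inr_conj_inl, inl_mem_sl] at this
    exact ⟨this, hK α hα y hy.2⟩
  have hDn : (D ⊓ K).Normal := ⟨fun y hy g => hD (MulAut.conj g) (hG ⟨g, rfl⟩) y hy⟩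
  have hc : ⁅D ⊓ K, (⊤ : Subgroup P)⁆ ≤ D ⊓ K ⊓ centralizer ((D ⊓ K : Subgroup P) : Set P) := by
    refine le_inf (commutator_le_left _ _) (commutator_le.2 fun x hx g _ y hy => ?_)
    have := c _ (inl_mem_sl.2 hx.1) (inl g) (inl_mem_sl.2 trivial) _ (inl_mem_sl.2 hy.1)
    rw [← map_commutatorElement, ← map_mul, ← map_mul] at this
    exact inl_injective this
  have key : ∀ α : G, (orderOf α).Coprime p → ∀ X Y : Subgroup P, (∀ x ∈ X, (α : MulAut P) x ∈ X) →
      (∀ x ∈ X, x⁻¹ * (α : MulAut P) x ∈ Y) → (∀ x ∈ X ⊓ Y, (α : MulAut P) x = x) →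
      ∀ x ∈ X, (α : MulAut P) x = x := by
    intro α ho X Y h1 h2 h3 x hx
    have h4 : ∀ k : ℕ, ((α ^ k : G) : MulAut P) x = x * (x⁻¹ * (α : MulAut P) x) ^ k := by
      intro k
      induction k with
      | zero => simp
      | succ k ih =>
        rw [pow_succ', coe_mul, MulAut.mul_apply, ih, map_mul, map_pow,
          h3 _ (mem_inf.2 ⟨mul_mem (inv_mem hx) (h1 x hx), h2 x hx⟩), pow_succ', ← mul_assoc,
          mul_inv_cancel_left]
    have h5 := h4 (orderOf α)
    rw [pow_orderOf_eq_one, coe_one, MulAut.one_apply, left_eq_mul] at h5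
    exact (inv_mul_eq_one.1 (eq_one_of_mem_pgroup_of_coprime (hP.to_subgroup ⊤) (mem_top _)
      (ho.coprime_dvd_left (orderOf_dvd_of_pow_eq_one h5)))).symm
  have hfix : ∀ α : G, (orderOf α).Coprime p → (∀ x ∈ D ⊓ K, (α : MulAut P) x = x) → α = 1 := by
    intro α ho h
    have h1 := key α ho D K (fun x hx => by
      have := b (inr α) (hn _) _ (inl_mem_sl.2 hx)
      rwa [inr_conj_inl, inl_mem_sl] at this)
      (fun x _ => subset_closure ⟨α, mem_pResidual ho, x, rfl⟩) h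
    have h2 := e (inr α) (hn _) (by rwa [orderOf_inr]) (inr_mem_centralizer_sl.2 h1)
    exact Subtype.ext (MulEquiv.ext fun x => inr_mem_centralizer_sl.1 h2 x trivial)
  refine ⟨D ⊓ K, fun α hα => ?_, inf_le_right, fun x hx => ?_, hc, fun α hα ho h => ?_,
    fun A h1 h2 h3 => ?_⟩
  · exact eq_of_le_of_card_ge (by rintro _ ⟨y, hy, rfl⟩; exact hD α hα y hy)
      (card_map_of_injective α.injective).ge
  · simpa only [sm_iff, ← map_pow, map_eq_one_iff _ inl_injective] using d _ (inl_mem_sl.2 hx.1)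
  · exact congrArg Subtype.val (hfix ⟨α, hα⟩ (by rwa [← Subgroup.orderOf_coe]) h)
  have h4 : D ⊓ K ⊓ centralizer (A : Set P) ≤ A := fun x hx => by
    rw [← h3 (A ⊔ zpowers x) le_sup_left (sup_le h1 (zpowers_le.2 hx.1))
      (isMulCommutative_iff_forall.2 (H9.comm_sup_zpowers (isMulCommutative_iff_forall.1 h2) hx.2))]
    exact mem_sup_right (mem_zpowers x)
  have h5 : ⁅D ⊓ K, (⊤ : Subgroup P)⁆ ≤ A :=
    hc.trans ((inf_le_inf_left _ (centralizer_le h1)).trans h4)
  refine ⟨H8.normal_of_top_le (H8.le_normalizer_of_commutator_le (K := D ⊓ K)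
    ((Subgroup.commutator_comm _ _).le.trans h5) h1), fun α hα h => ?_⟩
  obtain ⟨i, j, h6, ⟨k, h7⟩, h8⟩ := exists_pparts (p := p) (⟨α, hα⟩ : G)
  have h9 : ∀ x ∈ A, (((⟨α, hα⟩ : G) ^ j : G) : MulAut P) x = x := fun x hx => by
    rw [coe_pow]
    clear h6 h8
    induction j with
    | zero => rfl
    | succ j ih => rw [pow_succ, MulAut.mul_apply, h x hx, ih]
  have h10 := hfix _ h8 (key _ h8 _ A (hD _ (Subtype.prop _)) (fun x hx => h4 (mem_inf.2 ⟨mul_mem (inv_mem hx)
    (hD _ (Subtype.prop _) x hx), fun y hy => ?_⟩)) fun x hx => h9 x hx.2)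
  · rw [h10, mul_one] at h6
    rw [h6] at h7
    obtain ⟨l, -, hl⟩ := (Nat.dvd_prime_pow Fact.out).1 (orderOf_dvd_of_pow_eq_one h7)
    exact ⟨l, by rw [← hl, ← Subgroup.orderOf_coe]⟩
  · have h11 : x * y * x⁻¹ ∈ A := by
      simpa [commutatorElement_def] using
        mul_mem (h5 (commutator_mem_commutator hx (mem_top y))) hy
    have h12 := h9 _ h11
    rw [map_mul, map_mul, map_inv, h9 y hy] at h12
    generalize (((⟨α, hα⟩ : G) ^ j : G) : MulAut P) x = w at *
    calc y * (x⁻¹ * w) = x⁻¹ * (x * y * x⁻¹) * w := by group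
      _ = _ := by rw [← h12]; group

end Cfsg.Agent.S1949
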