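import Cfsg.Statements.S1952
import Mathlib
import Cfsg.Agent.H2.PTransfer

set_option autoImplicit false
open Cfsg

namespace Cfsg.Agent.S1952

open Cfsg.Agent.H2 Subgroup

/-- Let P be a finite p-group with a normal elementary abelian subgroup A of index p, and let x ∈ A and y ∈ P with y outside A. If the product of the p conjugates y^(-i) x y^i (i = 0, …, p−1) is not the identity, then the wreath product Z_p ≀ Z_p, realised as a Sylow p-subgroup of the symmetric group of degree p², is a homomorphic image of P. -/
theorem result {P : Type*} [Group P] [Finite P] {p : ℕ} [Fact p.Prime] (hP : IsPGroup p P) (A : Subgroup P) [A.Normal]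
    (hA : Cfsg.IsElementaryAbelian p A) (hidx : A.index = p) (x y : P) (hx : x ∈ A) (hy : y ∉ A)
    (hprod : ((List.range p).map (fun i => (y ^ i)⁻¹ * x * y ^ i)).prod ≠ 1) :
    ∃ (Q : Sylow p (Equiv.Perm (Fin (p ^ 2)))) (f : P →* ↥(Q : Subgroup (Equiv.Perm (Fin (p ^ 2))))), Function.Surjective f := by
  classical
  haveI := hA.1
  have hn : y ∈ normalizer (A : Set P) := by rw [normalizer_eq_top]; trivial
  refine exists_surj_wreath' hP (K := ⊥) hidx
    (Cfsg.Agent.L.isMulCommutative_iff_commutator_eq_bot.1 hA.1).le (fun a ha => hA.2 a ha)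
    (itc_mem hn hx (p - 1)) (fun h => hprod ?_) (itc_mem_lowerCentralSeries (mem_top _) (mem_top _) _)
  letI : CommGroup A := { (inferInstance : Group A) with mul_comm := mul_comm' }
  have hm : ∀ i : ℕ, (y ^ i)⁻¹ * x * y ^ i ∈ A := fun i => ‹A.Normal›.conj_mem' _ hx _
  have key := prod_conj_eq_itc (p := p) (fun a : P => if h : a ∈ A then (⟨a, h⟩ : A) else 1)
    (fun a ha b hb => by simp only [dif_pos ha, dif_pos hb, dif_pos (mul_mem ha hb)]; rfl) hn hx
    fun i => by simp only [dif_pos (hm i)]; exact Subtype.ext (hA.2 _ (hm i))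
  simp only [dif_pos (hm _), dif_pos (itc_mem hn hx _)] at key
  have h2 : ∀ n : ℕ, ((∏ i ∈ Finset.range n, (⟨_, hm i⟩ : A) : A) : P) =
      ((List.range n).map (fun i => (y ^ i)⁻¹ * x * y ^ i)).prod := by
    intro n
    induction n with
    | zero => simp
    | succ n ih =>
      rw [Finset.prod_range_succ, List.range_succ, List.map_append, List.prod_append, ← ih]
      simp
  rw [← h2, key]
  exact h

end Cfsg.Agent.S1952
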