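import Cfsg.Statements.S1954
import Mathlib
import Cfsg.Agent.H9.Hyp
import Cfsg.Agent.H2.Tame

set_option autoImplicit false
open Cfsg

namespace Cfsg.Agent.S1954

open Cfsg.Agent.H9

/-- Let N be a normal subgroup of the finite group G, P a Sylow p-subgroup of G, and V a subgroup of P ∩ N normal in P ∩ N such that N_N(V) controls strong fusion in P ∩ N with respect to N (whenever a subgroup A of P ∩ N has n A n⁻¹ ≤ P ∩ N for some n in N, then n = h c with h in N_N(V) and c in C_N(A)). Let W be the subgroup generated by the conjugates of V under N_G(P ∩ N). Then N_G(W) controls strong fusion in P with respect to G. -/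
theorem result {G : Type*} [Group G] [Finite G] {p : ℕ} [Fact p.Prime] (N : Subgroup G) [N.Normal] (P : Sylow p G) (V : Subgroup G)
    (hV : V ≤ (P : Subgroup G) ⊓ N) (hVn : ∀ x ∈ (P : Subgroup G) ⊓ N, V.map (MulAut.conj x).toMonoidHom = V)
    (hctrl : ∀ A : Subgroup G, A ≤ (P : Subgroup G) ⊓ N → ∀ n ∈ N, A.map (MulAut.conj n).toMonoidHom ≤ (P : Subgroup G) ⊓ N →
      ∃ h ∈ N ⊓ Subgroup.normalizer (V : Set G), ∃ c ∈ N ⊓ Subgroup.centralizer (A : Set G), n = h * c)
    (W : Subgroup G) (hW : W = Subgroup.closure (⋃ x ∈ Subgroup.normalizer (((P : Subgroup G) ⊓ N : Subgroup G) : Set G),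
      ((V.map (MulAut.conj x).toMonoidHom : Subgroup G) : Set G))) :
    ∀ A : Subgroup G, A ≤ (P : Subgroup G) → ∀ g : G, A.map (MulAut.conj g).toMonoidHom ≤ (P : Subgroup G) →
        ∃ h ∈ Subgroup.normalizer (W : Set G), ∃ c ∈ Subgroup.centralizer (A : Set G), g = h * c := by
  intro A hA g hg
  set T := (P : Subgroup G) ⊓ N
  have hF := grpFS_group (P : Subgroup G)
  have hE := grpFS_subgroup (show T ≤ N from inf_le_right)
  have hN := hF.nml (syl_of_sylIn (H2.sylIn_top P)) hE le_top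
    (fun g _ x hx => Subgroup.Normal.conj_mem inferInstance x hx g) rfl
  set E := fusionSystemOfSubgroup N T inf_le_right
  have h1 : E.IsNormal V := isNormal_iff.2 ⟨hV, fun Q σ hσ => by
    obtain ⟨a, b, n, hn, c⟩ := mor_subgroup_iff.1 hσ
    obtain ⟨h, hh, d, hd, rfl⟩ := hctrl Q a n hn (H2.cj_le_iff_forall.2 fun x hx => c x hx ▸ b x hx)
    have e : ∀ x ∈ Q, h * x * h⁻¹ = σ x := fun x hx => by
      rw [c x hx, mul_assoc h d, ← hd.2 x hx]; group
    have e' := fun x hx => conj_mem_of_mem_normalizer hh.2 (x := x) hx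
    exact ⟨cj h, hE.mor_cj (sup_le a hV) hh.1 ((homOn_cj _ h).sup_maps
      (fun x hx => by rw [cj_apply, e x hx]; exact b x hx) fun x hx => hV (e' x hx)), e, e'⟩⟩
  have h2 : ∀ x ∈ Subgroup.normalizer (T : Set G), E.IsNormal (H2.cj x V) := fun x hx => by
    rw [H2.cj, ← img_cj]
    exact hN.inv.normal_img (hF.iso_cj inf_le_left ⟨trivial, hx⟩) h1
  have h3 : ∀ U : Subgroup G, (∀ x ∈ Subgroup.normalizer (T : Set G), H2.cj x V ≤ U) → W ≤ U :=
    fun U h => by
      rw [hW, Subgroup.closure_le]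
      exact Set.iUnion₂_subset h
  have h4 : ∀ x ∈ Subgroup.normalizer (T : Set G), H2.cj x V ≤ W := fun x hx y hy => by
    rw [hW]; exact Subgroup.subset_closure (Set.mem_iUnion₂.2 ⟨x, hx, hy⟩)
  have h5 : E.IsNormal W := by
    have h6 : W ≤ E.core := h3 _ fun x hx => le_core (h2 x hx)
    refine normal_of_wc_le (core_normal E) h6 (weaklyClosed_iff.2 ⟨h6.trans (core_le E),
      fun σ hσ => ?_⟩)
    have h7 := hσ.homOn
    rw [hW] at h7
    conv => enter [x]; lhs; rw [hW]
    refine h7.closure_maps fun y hy => ?_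
    obtain ⟨x, hx, hy⟩ := Set.mem_iUnion₂.1 hy
    exact h4 x hx (sc_mem (normal_sc (h2 x hx)) hσ (h4 x hx hy) hy)
  have h6 := hN.inv.normal_of_invariant hN.satF h5 fun α hα => by
    obtain ⟨y, -, -, a, b⟩ := hF.exists_cj_iso hα
    rw [img_cj] at a
    have hy := H2.mem_normalizer_iff_cj.2 a.symm
    have : H2.cj y W ≤ W := H2.cj_le_iff.2 (h3 _ fun x hx => by
      rw [← H2.cj_le_iff, ← H2.cj_mul]; exact h4 _ (mul_mem hy hx))
    intro x hx
    rw [b x (h5.1 hx)]
    exact this (H2.conj_mem_cj y hx)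
  obtain ⟨τ, a, b, c⟩ := normal_ext h6 (hF.mor_cj hA trivial (H2.cj_le_iff_forall.1 hg))
  obtain ⟨h, -, e⟩ := hF.exists_cj a
  refine ⟨h, mem_normalizer_of_finite fun x hx => e x (Subgroup.mem_sup_right hx) ▸ c x hx,
    h⁻¹ * g, fun x hx => ?_, by group⟩
  have := (e x (Subgroup.mem_sup_left hx)).symm.trans (b x hx)
  rw [cj_apply] at this
  calc x * (h⁻¹ * g) = h⁻¹ * (h * x * h⁻¹) * g := by group
    _ = _ := by rw [this]; group

end Cfsg.Agent.S1954
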