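import Cfsg.Statements.S2132
import Cfsg.Agent.H6.McB2

set_option autoImplicit false
open Cfsg

namespace Cfsg.Agent.S2132

open Cfsg.Agent
open scoped Pointwise commutatorElement

/-- The McLaughlin group (as a two-vector stabiliser in the automorphism group of the rank-24 lattice) has a single conjugacy class of involutions, and the centraliser of an involution is a non-split double cover of the alternating group of degree 8. -/
theorem result : (∀ x y : ↥Cfsg.Spor.McL, orderOf x = 2 → orderOf y = 2 → IsConj x y) ∧ ∃ t : ↥Cfsg.Spor.McL, orderOf t = 2 ∧ Cfsg.IsNonsplitDoubleCover ↥(Subgroup.centralizer ({t} : Set ↥Cfsg.Spor.McL)) ↥(alternatingGroup (Fin 8)) := by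
  let e := H6.Le.eMcL
  refine ⟨fun x y hx hy => ?_, e _, (e.orderOf_eq _).trans H6.McC.ordX,
    H6.nonsplit_congr2 (H6.cent_congr' e _).some H6.McC.nsK⟩
  have h := (H6.McC.allC (e.symm x) ((e.symm.orderOf_eq x).trans hx)).trans
    (H6.McC.allC (e.symm y) ((e.symm.orderOf_eq y).trans hy)).symm
  simpa using e.toMonoidHom.map_isConj h

end Cfsg.Agent.S2132
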