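import Cfsg.Statements.S2134
import Cfsg.Agent.H6.CeH3

set_option autoImplicit false
open Cfsg

namespace Cfsg.Agent.S2134

open Cfsg.Agent
open scoped Pointwise commutatorElement

/-- The Held group (presented on seven involutions, as in the definitions) has an involution whose centraliser is isomorphic to the centraliser of a transvection in SL(5, 2) (a group of shape 2^{1+6}:GL(3, 2)). -/
theorem result (s : Matrix.SpecialLinearGroup (Fin 5) (ZMod 2)) (hs : (s : Matrix (Fin 5) (Fin 5) (ZMod 2)) = Matrix.transvection 0 1 1) : ∃ z : Cfsg.Spor.He, orderOf z = 2 ∧ Nonempty (↥(Subgroup.centralizer ({z} : Set Cfsg.Spor.He)) ≃* ↥(Subgroup.centralizer ({s} : Set (Matrix.SpecialLinearGroup (Fin 5) (ZMod 2))))) := by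
  exact ⟨_, H6.CeHe.ordX, H6.CeHe.main s hs⟩

end Cfsg.Agent.S2134
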