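import Cfsg.Statements.S2163
import Cfsg.Agent.H4.Inv4

set_option autoImplicit false
open Cfsg

namespace Cfsg.Agent.S2163

/-- Over a finite field of characteristic two and for n ≥ 3: for every ℓ with 1 ≤ ℓ and 2ℓ ≤ n, the matrix j_ℓ that is the identity plus the entries 1 in positions (n − ℓ + i, i) for i < ℓ (an identity block of size ℓ in the lower left corner) lies in SL_n(F), has order 2, and j_ℓ − 1 has rank ℓ. Together with the conjugacy criterion by rank, these matrices represent the conjugacy classes of involutions of SL_n(F). -/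
theorem result {F : Type*} [Field F] [Fintype F] [CharP F 2] {n : ℕ} (hn : 3 ≤ n) (ℓ : ℕ) (h1 : 1 ≤ ℓ) (h2 : 2 * ℓ ≤ n) :
    ∃ a : Matrix.SpecialLinearGroup (Fin n) F, (a : Matrix (Fin n) (Fin n) F) = 1 + Matrix.of (fun i j : Fin n => if j.val < ℓ ∧ i.val = j.val + (n - ℓ) then (1 : F) else 0) ∧ orderOf a = 2 ∧ ((a : Matrix (Fin n) (Fin n) F) - 1).rank = ℓ := by
  obtain ⟨a, h3, -, h4⟩ := H4.exists_SL_inv (F := F) CharTwo.two_eq_zero (A := H4.shf F n ℓ (n - ℓ))
    (B := H4.shf F n ℓ 0) (by ext i j; rw [H4.shf_mul' (by omega), if_neg (by omega)]; rfl) h1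
    (c := Fin.castLE (by omega)) (d := fun k => ⟨k + (n - ℓ), by omega⟩) (by
      ext i j; simp [H4.shf_mul, Matrix.one_apply, Fin.ext_iff])
  exact ⟨a, h3.trans (by congr 1; ext i j; simp [H4.shf_mul]), h4⟩

end Cfsg.Agent.S2163
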