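import Cfsg.Statements.S2165
import Cfsg.Agent.H4.Inv4

set_option autoImplicit false
open Cfsg

namespace Cfsg.Agent.S2165

/-- In SU_n(q), q even, n ≥ 3 (matrices of determinant 1 over the field with q² elements preserving Σ u_i v_i^q): for every ℓ with 1 ≤ ℓ and 2ℓ ≤ n, the permutation matrix of the involution of {0, …, n−1} exchanging i and n − ℓ + i for each i < ℓ lies in SU_n(q), has order 2, and differs from the identity by a matrix of rank ℓ. So every rank between 1 and n/2 occurs for involutions of SU_n(q). -/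
theorem result {F : Type*} [Field F] [Fintype F] [CharP F 2] {n q : ℕ} (hF : Fintype.card F = q ^ 2) (hn : 3 ≤ n) (ℓ : ℕ) (h1 : 1 ≤ ℓ) (h2 : 2 * ℓ ≤ n) :
    ∃ a : ↥(Cfsg.SU n F q), (((a : Matrix.SpecialLinearGroup (Fin n) F) : Matrix (Fin n) (Fin n) F) = Matrix.of (fun i j : Fin n => if (j.val < ℓ ∧ i.val = j.val + (n - ℓ)) ∨ (i.val < ℓ ∧ j.val = i.val + (n - ℓ)) ∨ (i = j ∧ ℓ ≤ i.val ∧ i.val < n - ℓ) then (1 : F) else 0)) ∧ orderOf a = 2 ∧ ((((a : Matrix.SpecialLinearGroup (Fin n) F) : Matrix (Fin n) (Fin n) F)) - 1).rank = ℓ := by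
  have h0 : (2 : F) = 0 := CharTwo.two_eq_zero
  obtain ⟨a, h3, h5, h4⟩ := H4.exists_SL_inv h0 (A := H4.shf F n ℓ (n - ℓ) + H4.shf F n ℓ 0)
    (B := H4.shf F n ℓ (n - ℓ) + H4.shf F n ℓ 0) (by
      ext i j
      simp only [Matrix.transpose_add, Matrix.add_mul, Matrix.mul_add, Matrix.add_apply, Matrix.zero_apply]
      rw [H4.shf_mul' (by omega), H4.shf_mul' (by omega), H4.shf_mul' (by omega), H4.shf_mul' (by omega)]
      split_ifs <;> first | omega | simp [one_add_one_eq_two, h0]) h1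
    (c := Fin.castLE (by omega)) (d := fun k => ⟨k + (n - ℓ), by omega⟩) (by
      ext i j
      simp only [Matrix.transpose_add, Matrix.add_mul, Matrix.mul_add, Matrix.add_apply, Matrix.submatrix_apply,
        H4.shf_mul, Matrix.one_apply, Fin.ext_iff, Fin.val_castLE]
      split_ifs <;> first | omega | simp)
  have h6 : a.1 = Matrix.of (fun i j : Fin n => if (j.val < ℓ ∧ i.val = j.val + (n - ℓ)) ∨
      (i.val < ℓ ∧ j.val = i.val + (n - ℓ)) ∨ (i = j ∧ ℓ ≤ i.val ∧ i.val < n - ℓ) then (1 : F) else 0) := by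
    ext i j
    simp only [h3, Matrix.transpose_add, Matrix.add_mul, Matrix.mul_add, Matrix.add_apply, Matrix.of_apply,
        H4.shf_mul, Matrix.one_apply, Fin.ext_iff]
    split_ifs <;> first | omega | simp [one_add_one_eq_two, h0]
  have h7 : a.1.map (H4.frobq hF) = a.1 := by
    ext i j; rw [h6, Matrix.map_apply, Matrix.of_apply]; split_ifs <;> simp [-H4.frobq_apply]
  have h8 : a.1.transpose = a.1 := by simp [h3, Matrix.transpose_mul]
  refine ⟨⟨a, fun u v => ?_⟩, h6, (Subgroup.orderOf_mk _ _).trans h4.1, h4.2⟩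
  change a.1.mulVec u ⬝ᵥ (H4.frobq hF ∘ a.1.mulVec v) = u ⬝ᵥ (H4.frobq hF ∘ v)
  rw [show H4.frobq hF ∘ a.1.mulVec v = _ from funext (RingHom.map_mulVec _ _ _), h7, Matrix.dotProduct_mulVec,
    Matrix.vecMul_mulVec, h8, h5, Matrix.vecMul_one]

end Cfsg.Agent.S2165
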