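import Cfsg.Statements.S2166
import Cfsg.Agent.H4.Inv3

set_option autoImplicit false
open Cfsg

namespace Cfsg.Agent.S2166

/-- Conjugacy of involutions in the symplectic group Sp_{2m}(F), F a finite field of characteristic two, m ≥ 2 (Sp taken as the matrices A with A J Aᵀ = J, acting on column vectors, with the alternating form f(u, v) = u ⬝ (J v)). For an involution t write V(t) for the set of vectors v with f(v, t v) = 0 (a subspace). Two involutions a, b are conjugate in Sp_{2m}(F) exactly when a − 1 and b − 1 have the same rank and, in case that rank is even, V(a) and V(b) have the same number of elements. -/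
theorem result {F : Type*} [Field F] [Fintype F] [CharP F 2] {m : ℕ} (hm : 2 ≤ m) (a b : ↥(Matrix.symplecticGroup (Fin m) F)) (ha : orderOf a = 2) (hb : orderOf b = 2) :
    IsConj a b ↔ ((((a : ↥(Matrix.symplecticGroup (Fin m) F)) : Matrix (Fin m ⊕ Fin m) (Fin m ⊕ Fin m) F) - 1).rank = (((b : ↥(Matrix.symplecticGroup (Fin m) F)) : Matrix (Fin m ⊕ Fin m) (Fin m ⊕ Fin m) F) - 1).rank ∧
      (Even (((a : ↥(Matrix.symplecticGroup (Fin m) F)) : Matrix (Fin m ⊕ Fin m) (Fin m ⊕ Fin m) F) - 1).rank → Nat.card {v : Fin m ⊕ Fin m → F // Cfsg.sympForm m F v (Matrix.mulVec ((a : ↥(Matrix.symplecticGroup (Fin m) F)) : Matrix (Fin m ⊕ Fin m) (Fin m ⊕ Fin m) F) v) = 0} = Nat.card {v : Fin m ⊕ Fin m → F // Cfsg.sympForm m F v (Matrix.mulVec ((b : ↥(Matrix.symplecticGroup (Fin m) F)) : Matrix (Fin m ⊕ Fin m) (Fin m ⊕ Fin m) F) v) = 0})) := by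
  have hf := H4.spF_nondeg (F := F) m
  have h1 := H4.mul_self_of_ord' (H4.spEquiv F m) ha
  have h2 := H4.mul_self_of_ord' (H4.spEquiv F m) hb
  rw [H4.isConj_equiv (H4.spEquiv F m), H4.rank_eq_rg (H4.spEquiv_apply m a), H4.rank_eq_rg (H4.spEquiv_apply m b)]
  refine ⟨fun ⟨g, hg, h⟩ => ⟨by rw [← h, H4.finrank_rg_conj], fun _ => Nat.card_congr (g.toEquiv.subtypeEquiv fun v => ?_)⟩,
    fun ⟨h3, h4⟩ => hf.symp_conj CharTwo.two_eq_zero (H4.spEquiv F m a).2 h1 (H4.spEquiv F m b).2 h2 h3 ?_⟩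
  · rw [← H4.spEquiv_apply, ← H4.spEquiv_apply, ← h, ← H4.spF_B, ← H4.spF_B, ← H4.CForm.iso_B hg]
    simp
  have h5 := H4.CForm.card_iso_vec CharTwo.two_eq_zero (H4.spEquiv F m a).2 h1
  have h6 := H4.CForm.card_iso_vec CharTwo.two_eq_zero (H4.spEquiv F m b).2 h2
  have h7 : ∀ k n, n = Fintype.card F ^ k → n * Fintype.card F ≠ Fintype.card F ^ k := by
    rintro k _ rfl h
    exact Fintype.one_lt_card.ne' ((mul_eq_left₀ (pow_ne_zero _ Fintype.card_ne_zero)).1 h)
  constructor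
  · intro h
    have := h4 (hf.even_rg (H4.spEquiv F m a).2 h1 h)
    exact (h6.resolve_right fun k => h7 _ _ (this.symm.trans (h5.resolve_right fun k => k.1 h).2) k.2).1
  · intro h
    have := h4 (h3 ▸ hf.even_rg (H4.spEquiv F m b).2 h2 h)
    exact (h5.resolve_right fun k => h7 _ _ (this.trans (h6.resolve_right fun k => k.1 h).2) k.2).1

end Cfsg.Agent.S2166
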