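import Cfsg.Statements.S2181
import Cfsg.Agent.H5.InvD

set_option autoImplicit false
open Cfsg

namespace Cfsg.Agent.S2181

/-- The Chevalley group of type E₇ over a finite field of characteristic two (the matrix group generated by the root elements) has exactly five conjugacy classes of elements of order 2. -/
theorem result {F : Type*} [Field F] [Fintype F] [CharP F 2] :
    (ConjClasses.mk '' {g : ↥(Cfsg.Lie.chevE7.group F) | orderOf g = 2}).ncard = 5 := by
  exact H5.ncard_inv (ι := MonoidHom.id _) Function.injective_id (f := (H5.rsE7.adj F).xl)
    (reps := [[125], [118, 121], [114, 116, 119], [92, 107, 111], [92, 107, 111, 119]]) (by decide)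
    (fun l hl => ⟨H5.StN.orderOf_xl (by revert l; decide +kernel), _, rfl⟩) H5.invClsE7
    (H5.StN.eq_of_conj (H5.rsE7.adj_gen F) (by decide +kernel))

end Cfsg.Agent.S2181
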