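import Cfsg.Statements.S2182
import Cfsg.Agent.H5.InvD

set_option autoImplicit false
open Cfsg

namespace Cfsg.Agent.S2182

/-- The twisted group ²E₆(q), q even, realised inside the Chevalley group of type E₆ over the field K with q² elements, has exactly three conjugacy classes of elements of order 2. -/
theorem result {K : Type*} [Field K] [Fintype K] [CharP K 2] (q : ℕ) (hK : Fintype.card K = q ^ 2) :
    (ConjClasses.mk '' {g : ↥(Cfsg.Lie.twistedE6 K q) | orderOf g = 2}).ncard = 3 := by
  have hq := H5.isPrimePow_of_card hK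
  obtain ⟨θ, hθ⟩ := H5.exists_frob hq hK
  have h2 := H5.frob_iter hK (θ := θ) hθ
  have Z := (H5.nt2E6 (H5.act2E6' (θ : K →+* K)) h2).re (H5.eq2E6 hK (θ := θ) hθ)
  refine H5.inv2E6 h2 ?_ Z
  by_contra! h
  have := (H5.card_fix' hq.one_lt.le hK (θ := θ) hθ).1
  rw [Nat.card_congr (Equiv.subtypeUnivEquiv h), Nat.card_eq_fintype_card, hK] at this
  have := hq.one_lt
  nlinarith

end Cfsg.Agent.S2182
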