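import Cfsg.Statements.S2185
import Cfsg.Agent.H5.InvD

set_option autoImplicit false
open Cfsg

namespace Cfsg.Agent.S2185

/-- In the group ²F₄(2) (realised inside the Chevalley group of type F₄ over the field with two elements, θ the identity) every element of order 2 lies in the commutator subgroup (the Tits group, of index 2): there are no involutions outside it. -/
theorem result (g : ↥(Cfsg.Lie.twistedF4 (ZMod 2) 1)) (hg : orderOf g = 2) :
    g ∈ commutator ↥(Cfsg.Lie.twistedF4 (ZMod 2) 1) := by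
  have h3 : ∀ t : ZMod 2, RingHom.id _ (RingHom.id _ t) ^ 2 = t := by decide
  have Z := (H5.nt2F4 (H5.act2F4 _) h3).re (H5.eq2F4 h3 (e := 1) (by simp))
  obtain ⟨l, hl, a, ha, h⟩ := H5.cls2F4 Z g hg
  obtain ⟨b, h1, h2⟩ := H5.rep2F4 Z l hl
  obtain ⟨c, rfl⟩ := isConj_iff.1 h.symm
  exact Subgroup.Normal.conj_mem inferInstance _ (Z.inj (h2.trans ha.symm) ▸ h1) c

end Cfsg.Agent.S2185
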