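import Cfsg.Statements.S2186
import Cfsg.Agent.H5.Cent

set_option autoImplicit false
open Cfsg

namespace Cfsg.Agent.S2186

/-- Let G be the Chevalley group of type G₂ (over a field with at least four elements), D₄, E₆, E₇ or E₈ over a finite field F of characteristic two, and let X be the root subgroup of the highest root (the last root index) — a long root subgroup, of order |F|. For every g in G, the subgroup generated by X and its conjugate g X g⁻¹ is either a 2-group or is conjugate by an element of G to the subgroup generated by X and the root subgroup of the lowest root (index 0, the negative of the highest root), which is a copy of SL₂(F). -/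
theorem result {F : Type*} [Field F] [Fintype F] [CharP F 2] (D : Cfsg.Lie.ChevalleyDatum) (hD : D ∈ [Cfsg.Lie.chevG2, Cfsg.Lie.chevD4, Cfsg.Lie.chevE6, Cfsg.Lie.chevE7, Cfsg.Lie.chevE8]) (hF : D = Cfsg.Lie.chevG2 → 4 ≤ Fintype.card F) (g : GL D.Idx F) (hg : g ∈ D.group F) :
    IsPGroup 2 ↥(D.rootSubgroup F (D.nroots - 1) ⊔ (D.rootSubgroup F (D.nroots - 1)).map (MulAut.conj g).toMonoidHom) ∨
    ∃ h ∈ D.group F, (D.rootSubgroup F (D.nroots - 1) ⊔ (D.rootSubgroup F (D.nroots - 1)).map (MulAut.conj g).toMonoidHom).map (MulAut.conj h).toMonoidHom = D.rootSubgroup F (D.nroots - 1) ⊔ D.rootSubgroup F 0 := by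
  obtain ⟨R⟩ := H5.exists_rs (D := D) (by simp only [List.mem_cons] at hD ⊢; tauto)
  have hn : 0 < D.nroots ∧ ∀ r : H5.Φ D, R.Pos r ↔ D.nroots ≤ 2 * r := ⟨by
    simp only [List.mem_cons, List.not_mem_nil, or_false] at hD
    rcases hD with rfl | rfl | rfl | rfl | rfl <;> decide, R.pos_iff_le⟩
  let r : H5.Φ D := ⟨D.nroots - 1, by omega⟩
  have hmax : ∀ s, R.ht s ≤ R.ht r := fun s => R.ht_strictMono.monotone (Nat.le_sub_one_of_lt s.2)
  have h0 : R.neg r = ⟨0, hn.1⟩ := R.ht_inj (le_antisymm (by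
    have := hmax (R.neg ⟨0, hn.1⟩); rw [R.ht_neg] at this ⊢; omega) (R.ht_strictMono.monotone (Nat.zero_le _)))
  have hr : R.Pos r := by
    have := hmax (R.neg r); have := R.ht_ne_zero r
    simp only [R.ht_neg, H5.RS.Pos] at *; omega
  have hI : R.Ideal {r} := ⟨by simpa, fun s hs u hu v hv => by
    obtain rfl : u = r := hu
    have := hv.le R.lamf hs.le hr.le
    exact absurd (hmax v) (by simp only [H5.RS.Pos, H5.RS.ht] at *; omega)⟩
  have hB : ∀ b ∈ (R.gl F).B, ((R.gl F).U {r}).map (MulAut.conj b).toMonoidHom = (R.gl F).U {r} := fun b hb =>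
    le_antisymm (by rintro _ ⟨v, hv, rfl⟩; exact H5.StN.conj_mem_ideal hI hb hv) fun v hv =>
      ⟨_, H5.StN.conj_mem_ideal hI (inv_mem hb) hv, by simp [mul_assoc]⟩
  have hN : ∀ m ∈ (R.gl F).N, ∀ w, (R.gl F).Lift m w → ∀ s,
      ((R.gl F).U {s}).map (MulAut.conj m).toMonoidHom = (R.gl F).U {w • s} := fun m hm w hw s =>
    le_antisymm (by rintro _ ⟨v, hv, rfl⟩; exact hw.conj_mem (by simp) hv) fun v hv =>
      ⟨_, (hw.inv hm).conj_mem (T' := {s}) (by simp) hv, by simp [mul_assoc]⟩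
  have hc : ∀ (a b : GL D.Idx F) (X : Subgroup (GL D.Idx F)), X.map (MulAut.conj (a * b)).toMonoidHom =
      (X.map (MulAut.conj b).toMonoidHom).map (MulAut.conj a).toMonoidHom := fun a b X => by
    rw [Subgroup.map_map]; congr 1; ext1; simp [mul_assoc]
  rw [R.group_eq] at hg ⊢
  obtain ⟨b, hb, m, hm, c, hc', rfl⟩ := H5.StN.bruhat hg
  obtain ⟨w, hw⟩ := H5.StN.exists_lift hm
  rw [R.root_eq F r, hc, hc, hB c hc', hN m hm w hw, ← hB b hb, ← Subgroup.map_sup, hB b hb]
  by_cases e : w • r = R.neg r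
  · refine .inr ⟨b⁻¹, inv_mem ((R.gl F).B_le hb), ?_⟩
    rw [← hc, inv_mul_cancel, e, ← R.root_eq F (R.neg r), h0]
    ext; simp
  · refine .inl (IsPGroup.map ?_ _)
    obtain ⟨v, h1, h2⟩ := H5.RS.exists_pos_pos e
    obtain ⟨n, hn, hv⟩ := H5.StN.exists_N_lift (S := R.gl F) v
    have := (H5.StN.isPGroup_U (S := R.gl F) (p := 2) (L := R.lamf) H5.StN.closed_pos' fun _ h => h).map
      (MulAut.conj n⁻¹).toMonoidHom
    refine this.to_le (sup_le ?_ ?_) <;> exact fun x hx => ⟨_, hv.conj_mem (by simpa) hx, by simp [mul_assoc]⟩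

end Cfsg.Agent.S2186
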