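import Cfsg.Statements.S2202
import Cfsg.Agent.C3.AC2

set_option autoImplicit false
open Cfsg

namespace Cfsg.Agent.S2202

open H2 C3 Subgroup

/-- Finite groups in which the centralizer of every involution is abelian. Let G be a finite group of even order in which the centralizer of every element of order 2 is abelian. Then the Sylow 2-subgroups of G are cyclic, or a Sylow 2-subgroup of G is normal, or G is isomorphic to the direct product of SL₂(F) for a finite field F of characteristic two and an abelian group of odd order. -/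
theorem result {G : Type*} [Group G] [Finite G] (heven : Even (Nat.card G)) (h : ∀ t : G, orderOf t = 2 → IsMulCommutative ↥(Subgroup.centralizer ({t} : Set G))) :
    (∀ P : Sylow 2 G, IsCyclic ↥P) ∨ (∀ P : Sylow 2 G, (P : Subgroup G).Normal) ∨
    (∃ (F : Type) (_ : Field F) (_ : Fintype F) (A : Type) (_ : CommGroup A) (_ : Finite A), CharP F 2 ∧ Odd (Nat.card A) ∧ Nonempty (G ≃* Matrix.SpecialLinearGroup (Fin 2) F × A)) := by
  have hac : AC G := fun t x y ht hx hy => congrArg Subtype.val ((h t ht).is_comm.comm
    ⟨x, mem_centralizer_singleton_iff.2 hx⟩ ⟨y, mem_centralizer_singleton_iff.2 hy⟩)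
  by_cases h1 : ∀ P : Sylow 2 G, IsCyclic P
  · exact Or.inl h1
  by_cases h2 : ∀ P : Sylow 2 G, (P : Subgroup G).Normal
  · exact Or.inr (Or.inl h2)
  push Not at h1 h2
  obtain ⟨P, hP⟩ := h1
  obtain ⟨Q, hQ⟩ := h2
  have h0 := hac.ac0 hP hQ
  obtain ⟨F, _, _, h3, ⟨e⟩⟩ := h0.prod
  have : Small.{0} (center G) := small_of_injective (Finite.equivFin _).injective
  let _ : CommGroup (center G) := { (inferInstance : Group (center G)) with
    mul_comm := fun a b => Subtype.ext (mem_center_iff.1 b.2 a) }
  let e' : Shrink.{0} (center G) ≃* center G := Shrink.mulEquiv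
  refine Or.inr (Or.inr ⟨F, inferInstance, inferInstance, Shrink.{0} (center G), inferInstance,
    Finite.of_equiv _ e'.symm.toEquiv, h3, ?_, ⟨e.trans ((MulEquiv.refl _).prodCongr e'.symm)⟩⟩)
  rw [Nat.card_congr e'.toEquiv, ← Nat.not_even_iff_odd, even_iff_two_dvd]
  intro h4
  obtain ⟨z, hz⟩ := exists_prime_orderOf_dvd_card' 2 h4
  exact ord2_ne_one hz (Subtype.ext (h0.center_odd z z.2 (congrArg Subtype.val (ord2_mul_self hz))))

end Cfsg.Agent.S2202
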