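import Cfsg.Statements.S2214
import Cfsg.Agent.H5.Ag8

set_option autoImplicit false
open Cfsg

namespace Cfsg.Agent.S2214

/-- Let k be an algebraically closed field of prime characteristic p, G the adjoint Chevalley group of type G₂, B₂, D₄, F₄, E₆, E₇ or E₈ over k (the matrix group generated by the root elements x_s(t), t ∈ k, acting on the Lie algebra), q = p^a with a ≥ 1, and K a subgroup of G containing every root element x_s(t) with t^q = t and consisting of matrices all of whose entries c satisfy c^q = c. Then the centralizer of K in G is trivial, and the normalizer of K in G is exactly the set of elements of G all of whose entries c satisfy c^q = c. -/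
theorem result {k : Type*} [Field k] [IsAlgClosed k] (p : ℕ) [Fact p.Prime] [CharP k p] (D : Cfsg.Lie.ChevalleyDatum) (hD : D ∈ [Cfsg.Lie.chevG2, Cfsg.Lie.chevB2, Cfsg.Lie.chevD4, Cfsg.Lie.chevF4, Cfsg.Lie.chevE6, Cfsg.Lie.chevE7, Cfsg.Lie.chevE8]) (a : ℕ) (ha : 1 ≤ a) (K : Subgroup (GL D.Idx k)) (hKG : K ≤ D.group k)
    (hLK : Subgroup.closure {g : GL D.Idx k | ∃ (s : ℕ) (t : k), t ^ (p ^ a) = t ∧ (g : Matrix D.Idx D.Idx k) = D.x k s t} ≤ K)
    (hKfix : ∀ g ∈ K, ∀ i j : D.Idx, ((g : Matrix D.Idx D.Idx k) i j) ^ (p ^ a) = (g : Matrix D.Idx D.Idx k) i j) :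
    D.group k ⊓ Subgroup.centralizer (K : Set (GL D.Idx k)) = ⊥ ∧
    ∀ g : GL D.Idx k, g ∈ D.group k → (g ∈ Subgroup.normalizer (K : Set (GL D.Idx k)) ↔ ∀ i j : D.Idx, ((g : Matrix D.Idx D.Idx k) i j) ^ (p ^ a) = (g : Matrix D.Idx D.Idx k) i j) := by
  obtain ⟨R, -⟩ := H5.exists_rs' hD
  have H : (R.frTw (K := k) p a).NT id := H5.StN.Tw.nt_id fun _ => rfl
  have h1 : (R.frTw (K := k) p a).G1 id ≤ K.subgroupOf (D.group k) := iSup_le fun b => sup_le
    (fun g ⟨h1, h2⟩ => by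
      obtain ⟨t, rfl⟩ := H5.StG.mem_U_singleton.1 (H5.RS.subP_single b ▸ h1)
      exact hLK (Subgroup.subset_closure ⟨R.sim b, t, (H5.StN.Tw.x_mem_Fix_iff rfl rfl).1 h2, (R.eq_adj_x_iff.2 rfl)⟩))
    fun g ⟨h1, h2⟩ => by
      obtain ⟨t, rfl⟩ := H5.StG.mem_U_singleton.1 (H5.RS.subN_single b ▸ h1)
      exact hLK (Subgroup.subset_closure ⟨R.neg (R.sim b), t, (H5.StN.Tw.x_mem_Fix_iff rfl rfl).1 h2, (R.eq_adj_x_iff.2 rfl)⟩)
  have h2 : K.subgroupOf (D.group k) ≤ (R.frTw (K := k) p a).Fix := fun g hg => (H5.fr_eq_iff p).2 (hKfix _ hg)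
  refine ⟨eq_bot_iff.2 fun g hg => H.cent_ker (g := ⟨g, hg.1⟩) (by simp [R.adj_gen]) fun x hx => Subtype.ext ?_, fun g hg => ?_⟩
  · exact mul_inv_eq_iff_eq_mul.2 (hg.2 _ (h1 hx)).symm
  · refine Iff.trans ?_ ((Subgroup.ext_iff.1 (H.normalizer (H5.StN.rel3_of_inj (R.adj_inj k)) (R.adj_gen k) (R.adj_inj k) h1 h2)
      ⟨g, hg⟩).trans (H5.fr_eq_iff p))
    rw [← Subgroup.subgroupOf_normalizer_eq hKG]; rfl

end Cfsg.Agent.S2214
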