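import Cfsg.Statements.S2231
import Cfsg.Agent.H9.Qd

set_option autoImplicit false
open Cfsg

namespace Cfsg.Agent.S2231

open Cfsg.Agent.H1

theorem comm_fix {K : Type*} [Field K] {A B : Matrix.SpecialLinearGroup (Fin 2) K} {v : Fin 2 → K} (h0 : v ≠ 0)
    (ha : A • v = v) (hb : B • v = v) : A * B = B * A := by
  have key : ∀ A : Matrix.SpecialLinearGroup (Fin 2) K, A • v = v → A.1 0 0 * v 0 + A.1 0 1 * v 1 = v 0 ∧
      A.1 1 0 * v 0 + A.1 1 1 * v 1 = v 1 ∧ A.1 0 0 * A.1 1 1 - A.1 0 1 * A.1 1 0 = 1 := fun A h =>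
    ⟨(Fin.sum_univ_two fun j => A.1 0 j * v j).symm.trans (congrFun h 0),
      (Fin.sum_univ_two fun j => A.1 1 j * v j).symm.trans (congrFun h 1), by rw [← Matrix.det_fin_two]; exact A.2⟩
  by_cases hx : v 0 = 0
  · have hy : v 1 ≠ 0 := fun hy => h0 (by ext i; fin_cases i <;> simp [hx, hy])
    have k2 : ∀ A : Matrix.SpecialLinearGroup (Fin 2) K, A • v = v → A.1 0 1 = 0 ∧ A.1 1 1 = 1 ∧ A.1 0 0 = 1 := fun A h => by
      obtain ⟨a, b, c⟩ := key A h
      rw [hx] at a b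
      have a' : A.1 0 1 = 0 := by simpa [hy] using a
      have b' : A.1 1 1 = 1 := mul_right_cancel₀ hy (by simpa using b)
      exact ⟨a', b', by simpa [a', b'] using c⟩
    ext i j
    fin_cases i <;> fin_cases j <;> simp [Matrix.mul_apply, Fin.sum_univ_two, k2 A ha, k2 B hb, add_comm]
  · have k2 : ∀ A : Matrix.SpecialLinearGroup (Fin 2) K, A • v = v → A.1 0 0 = 1 - A.1 0 1 * (v 1 / v 0) ∧
        A.1 1 1 = 1 + A.1 0 1 * (v 1 / v 0) ∧ A.1 1 0 = -A.1 0 1 * (v 1 / v 0) ^ 2 := fun A h => by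
      obtain ⟨a, b, c⟩ := key A h
      have a' : A.1 0 0 = 1 - A.1 0 1 * (v 1 / v 0) := by field_simp; linear_combination a
      have b' : A.1 1 0 = (1 - A.1 1 1) * (v 1 / v 0) := by field_simp; linear_combination b
      have c' : A.1 1 1 = 1 + A.1 0 1 * (v 1 / v 0) := by rw [a', b'] at c; linear_combination c
      exact ⟨a', c', by rw [b', c']; ring⟩
    ext i j
    fin_cases i <;> fin_cases j <;> simp [Matrix.mul_apply, Fin.sum_univ_two, k2 A ha, k2 B hb] <;> ring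

theorem comm_map {p : ℕ} [Fact p.Prime] {G H : Type*} [Group G] [Group H] [Finite G] {f : G →* H} (hf : Function.Surjective f)
    (h : ∀ P : Subgroup G, IsPGroup p P → ∀ a ∈ P, ∀ b ∈ P, a * b = b * a) :
    ∀ P : Subgroup H, IsPGroup p P → ∀ a ∈ P, ∀ b ∈ P, a * b = b * a := fun P hP a ha b hb => by
  obtain ⟨S, hS⟩ := hP.exists_le_sylow
  obtain ⟨T, rfl⟩ := Sylow.mapSurjective_surjective hf p S
  obtain ⟨a, ha', rfl⟩ := hS ha
  obtain ⟨b, hb', rfl⟩ := hS hb
  rw [← map_mul, ← map_mul, h _ T.isPGroup' a ha' b hb']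

/-- Let p be an odd prime and K a finite field of characteristic p. Then Qd(p) (the natural semidirect product of an elementary abelian group of order p² by SL₂(p)) is not involved in the projective special linear group PSL₂(K). -/
theorem result {p : ℕ} [Fact p.Prime] (hp : p ≠ 2) {K : Type*} [Field K] [Fintype K] [CharP K p] : ¬ Cfsg.Involves ↥(Cfsg.qd p) (Matrix.ProjectiveSpecialLinearGroup (Fin 2) K) := by
  rintro ⟨L, R, _, ⟨e⟩⟩
  have h1 : ∀ P : Subgroup (Matrix.SpecialLinearGroup (Fin 2) K), IsPGroup p P → ∀ a ∈ P, ∀ b ∈ P, a * b = b * a := fun P hP a ha b hb => by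
    obtain ⟨v, hv, h0⟩ := hP.exists_fixed_point_of_prime_dvd_card_of_fixed_point (Fin 2 → K) (a := 0) (by
      rw [Nat.card_fun, Nat.card_eq_fintype_card (α := K)]
      exact Dvd.dvd.pow ((CharP.cast_eq_zero_iff K p _).1 (FiniteField.cast_card_eq_zero K)) (by simp)) (fun g => smul_zero g)
    exact comm_fix h0.symm (hv ⟨a, ha⟩) (hv ⟨b, hb⟩)
  have h2 := comm_map (QuotientGroup.mk'_surjective (Subgroup.center _)) h1
  have h3 := comm_map (p := p) (f := e.toMonoidHom.comp (QuotientGroup.mk' _)) (e.surjective.comp (QuotientGroup.mk'_surjective _)) fun P hP a ha b hb => Subtype.ext (h2 _ (hP.map L.subtype) _ ⟨a, ha, rfl⟩ _ ⟨b, hb, rfl⟩)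
  let u : H9.SL2 p := ⟨!![1, 1; 0, 1], by simp⟩
  have hu : ∀ n : ℕ, (H9.qdMk u 0 0 ^ n).1.1 = !![1, (n : ZMod p), 0; 0, 1, 0; 0, 0, 1] := fun n => by
    induction n with
    | zero => ext i j; fin_cases i <;> fin_cases j <;> simp
    | succ n ih =>
      rw [pow_succ, Subgroup.coe_mul, Matrix.SpecialLinearGroup.coe_mul, ih, H9.qdMk_val]
      ext i j; fin_cases i <;> fin_cases j <;> simp [u, Matrix.mul_apply, Fin.sum_univ_three, add_comm]
  have p1 : IsPGroup p (H9.qdBlk p).ker := fun g => ⟨1, Subtype.ext (by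
    obtain ⟨a, b, e⟩ := H9.mem_qd_ker.1 g.2
    simp [e, H9.qdMk_pow, H9.qdMk_one])⟩
  have p2 : IsPGroup p (Subgroup.zpowers (H9.qdMk u 0 0)) := IsPGroup.iff_card.2 (by
    rw [Nat.card_zpowers]
    obtain ⟨k, -, h⟩ := (Nat.dvd_prime_pow (Fact.out : p.Prime)).1 (orderOf_dvd_of_pow_eq_one (x := H9.qdMk u 0 0) (n := p ^ 1) (Subtype.ext (Subtype.ext (by
      rw [hu]; ext i j; fin_cases i <;> fin_cases j <;> simp))))
    exact ⟨k, h⟩)
  have := h3 _ (p1.to_sup_of_normal_left p2) _ (Subgroup.mem_sup_left (H9.mem_qd_ker.2 ⟨0, 1, rfl⟩)) _ (Subgroup.mem_sup_right (Subgroup.mem_zpowers _))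
  rw [H9.qdMk_mul, H9.qdMk_mul] at this
  simpa [u] using (H9.qdMk_inj this).1

end Cfsg.Agent.S2231
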