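import Cfsg.Statements.S2239
import Cfsg.Agent.H5.Sz7

set_option autoImplicit false
open Cfsg

namespace Cfsg.Agent.S2239

/-- Subfield subgroups of the Suzuki group: let q = 2^(2m+1) and s = 2^(2k+1) with m, k ≥ 1 and 2k+1 dividing 2m+1 (so q is a power of s), both groups realised as stabilisers in SL₄ of the Suzuki–Tits ovoid. Then Sz(q) has a subgroup isomorphic to Sz(s), and any two subgroups of Sz(q) isomorphic to Sz(s) are conjugate. -/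
theorem result {F : Type*} [Field F] [Fintype F] {m : ℕ} (hm : 1 ≤ m) (hF : Fintype.card F = 2 ^ (2 * m + 1)) {K : Type*} [Field K] [Fintype K] {k : ℕ} (hk : 1 ≤ k) (hK : Fintype.card K = 2 ^ (2 * k + 1)) (hdiv : 2 * k + 1 ∣ 2 * m + 1) :
    (∃ S : Subgroup ↥(Cfsg.Sz F m), Nonempty (↥S ≃* ↥(Cfsg.Sz K k))) ∧
    ∀ S₁ S₂ : Subgroup ↥(Cfsg.Sz F m), Nonempty (↥S₁ ≃* ↥(Cfsg.Sz K k)) → Nonempty (↥S₂ ≃* ↥(Cfsg.Sz K k)) →
      ∃ g : ↥(Cfsg.Sz F m), S₂ = S₁.map (MulAut.conj g).toMonoidHom := by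
  have := H5.Suz.charP hF
  have Z := H5.Suz.szO hm hF
  have hq := H5.Suz.natCard_eq hF
  obtain ⟨E, hE, h⟩ := H5.Suz.sub_equiv hF Z hk hK hdiv
  have := H5.Suz.charP hK
  have key : ∀ S : Subgroup (Cfsg.Sz F m), Nonempty (S ≃* Cfsg.Sz K k) → ∃ x, S = (Z.sub E).map (MulAut.conj x).toMonoidHom := by
    rintro S ⟨e⟩
    obtain ⟨E', c, x, hc, c0, c1, rfl⟩ := Z.classify' fun h => (H5.Suz.szO hk hK).not_solvable (H1.isSolvable_of_equiv e h)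
    obtain ⟨K', i1, i2, k', h1, h2, -, h4, ⟨e'⟩⟩ := H5.Suz.sub_model hF Z hc c0 c1
    have := H5.Suz.charP h2
    have h5 := (Nat.card_congr e.toEquiv).symm.trans ((H5.Suz.card_conj _ x).trans (Nat.card_congr e'.toEquiv))
    rw [(H5.Suz.szO hk hK).cardG, (H5.Suz.szO h1 h2).cardG, H5.Suz.natCard_eq hK, H5.Suz.natCard_eq h2, ← hE, ← h4] at h5
    have mono : ∀ a b : ℕ, 0 < a → a < b → a ^ 2 * (a ^ 2 + 1) * (a - 1) < b ^ 2 * (b ^ 2 + 1) * (b - 1) := fun a b h0 h =>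
      Nat.mul_lt_mul_of_le_of_lt (by gcongr) (by omega) (by have := h0.trans h; positivity)
    rcases lt_trichotomy (Nat.card E) (Nat.card E') with h | h | h
    exacts [absurd h5 (mono _ _ Nat.card_pos h).ne, ⟨x, by rw [H5.Suz.subfield_eq h]⟩, absurd h5 (mono _ _ Nat.card_pos h).ne']
  refine ⟨⟨_, h⟩, fun S₁ S₂ h1 h2 => ?_⟩
  obtain ⟨x, rfl⟩ := key S₁ h1
  obtain ⟨y, rfl⟩ := key S₂ h2
  refine ⟨y * x⁻¹, ?_⟩
  rw [Subgroup.map_map]
  congr 1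
  ext g : 1
  simp [mul_assoc]

end Cfsg.Agent.S2239
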