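import Cfsg.Statements.S2240
import Cfsg.Agent.H5.Sz7

set_option autoImplicit false
open Cfsg

namespace Cfsg.Agent.S2240

/-- Elementary abelian TI-subgroups of the Suzuki group: let q = 2^(2m+1) with m ≥ 1, the group realised as the stabiliser in SL₄ of the Suzuki–Tits ovoid, and n ≥ 2. There is an elementary abelian 2-subgroup E of order 2^n that is a TI-subgroup (every conjugate of E meeting E nontrivially is E itself) if and only if n divides 2m + 1. -/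
theorem result {F : Type*} [Field F] [Fintype F] {m : ℕ} (hm : 1 ≤ m) (hF : Fintype.card F = 2 ^ (2 * m + 1)) (n : ℕ) (hn : 2 ≤ n) :
    (∃ E : Subgroup ↥(Cfsg.Sz F m), Cfsg.IsElementaryAbelian 2 E ∧ Nat.card ↥E = 2 ^ n ∧
      ∀ x : ↥(Cfsg.Sz F m), E ⊓ E.map (MulAut.conj x).toMonoidHom ≠ ⊥ → x ∈ Subgroup.normalizer (E : Set ↥(Cfsg.Sz F m))) ↔ n ∣ 2 * m + 1 := by
  have := H5.Suz.charP hF
  have Z := H5.Suz.szO hm hF
  have hq := H5.Suz.natCard_eq hF
  constructor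
  · rintro ⟨A, ⟨h1, h2⟩, h3, h4⟩
    obtain ⟨a, ha⟩ := Z.exists_le_K (P := A) fun g => ⟨1, Subtype.ext (h2 g g.2)⟩
    obtain ⟨Z, rfl⟩ := Z.exists_inf a
    have h5 : ∀ g ∈ A, ∃ b, g = Z.u 0 b := fun g hg => by
      obtain ⟨a, b, rfl⟩ := Z.mem_K_inf.1 (ha hg)
      obtain rfl := Z.u_invol.1 ((pow_two (Z.u a b)).symm.trans (h2 _ hg))
      exact ⟨b, rfl⟩
    obtain ⟨⟨g, hg⟩, g1⟩ := Subgroup.ne_bot_iff_exists_ne_one.1 (show A ≠ ⊥ from fun e => by
      simp [e, eq_comm (a := 1)] at h3; omega)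
    obtain ⟨b, rfl⟩ := h5 g hg
    have b0 : b ≠ 0 := fun e => g1 (by simp [e])
    have ex : ∀ {x}, Z.u 0 (x * b) ∈ A → x ≠ 0 → ∃ k : Fˣ, x = k ^ 2 * H5.Suz.th F m k ∧ Z.h k ∈ Subgroup.normalizer (A : Set (Cfsg.Sz F m)) :=
      fun {x} hx x0 => by
        obtain ⟨k, rfl⟩ := Z.exists_nrm x0
        refine ⟨k, rfl, h4 _ fun e => ?_⟩
        have : Z.u 0 (k ^ 2 * H5.Suz.th F m k * b) ∈ A ⊓ A.map (MulAut.conj (Z.h k)).toMonoidHom :=
          ⟨hx, _, hg, (Z.h_u k 0 b).trans (by simp)⟩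
        rw [e, Subgroup.mem_bot, Z.u_eq_one] at this
        exact mul_ne_zero x0 b0 this.2
    have cj : ∀ {k y}, Z.h k ∈ Subgroup.normalizer (A : Set (Cfsg.Sz F m)) → Z.u 0 y ∈ A →
        Z.u 0 (k ^ 2 * H5.Suz.th F m k * y) ∈ A := fun {k y} hk hy => by
      simpa [Z.h_u] using (Subgroup.mem_normalizer_iff.1 hk _).1 hy
    let E : Subfield F :=
      { carrier := {x | Z.u 0 (x * b) ∈ A}
        one_mem' := by simpa using hg
        zero_mem' := by simp
        add_mem' := fun {x y} (hx : Z.u 0 _ ∈ A) (hy : Z.u 0 _ ∈ A) => by simpa [Z.u_mul, add_mul] using mul_mem hx hy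
        neg_mem' := fun hx => by rwa [CharTwo.neg_eq]
        mul_mem' := fun {x y} hx hy => by
          by_cases x0 : x = 0
          · simp [x0]
          obtain ⟨k, rfl, hk⟩ := ex hx x0
          simpa only [mul_assoc, Set.mem_setOf_eq] using cj hk hy
        inv_mem' := fun x hx => by
          by_cases x0 : x = 0
          · simp [x0]
          obtain ⟨k, rfl, hk⟩ := ex hx x0
          simpa [mul_comm] using cj (k := k⁻¹) (by simpa using hk) hg }
    obtain ⟨k, h6, h7⟩ := H5.Suz.card_subfield hq E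
    rw [Nat.card_congr (Equiv.ofBijective (fun x : E => (⟨_, x.2⟩ : A)) ⟨fun x y e => Subtype.ext
      (mul_right_cancel₀ b0 (Z.u_inj.1 (Subtype.mk.inj e)).2), fun g => by
        obtain ⟨c, e⟩ := h5 g g.2
        have e' : Z.u 0 (c / b * b) = g := by rw [div_mul_cancel₀ _ b0, e]
        exact ⟨⟨c / b, show _ ∈ A from e' ▸ g.2⟩, Subtype.ext e'⟩⟩), h3, Nat.pow_right_inj one_lt_two] at h6
    exact h6 ▸ h7
  · intro h
    obtain ⟨φ⟩ := H5.Suz.exists_ringHom hq (GaloisField.card 2 n (by omega)) h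
    let f : Multiplicative (GaloisField 2 n) →* Cfsg.Sz F m := MonoidHom.mk' (fun x => Z.u 0 (φ x.toAdd)) (by simp [Z.u_mul])
    have hf : Function.Injective f := fun x y e => φ.injective (Z.u_inj.1 e).2
    refine ⟨f.range, ⟨inferInstance, ?_⟩, by
      rw [← Nat.card_congr (MonoidHom.ofInjective hf).toEquiv, Nat.card_congr Multiplicative.toAdd, GaloisField.card 2 n (by omega)], fun x hx => ?_⟩
    · rintro _ ⟨x, rfl⟩
      exact (pow_two _).trans (Z.u_invol.2 rfl)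
    obtain ⟨⟨_, ⟨y, rfl⟩, _, ⟨z, rfl⟩, e⟩, g1⟩ := Subgroup.ne_bot_iff_exists_ne_one.1 hx
    have y1 : f y ≠ 1 := fun e => g1 (Subtype.ext e)
    have z1 : f z ≠ 1 := fun h => y1 (by simpa [h] using e.symm)
    obtain ⟨c, d, k, rfl⟩ := Z.fix_inf.1 (Z.smul_eq_of_conj (g := f z) (x := x) (Z.u_mem _ _) z1 ((show x * f z * x⁻¹ = f y from e) ▸ Z.u_mem _ _))
    have e' := (Z.u_inj.1 ((Z.conj_u0 c d k _).symm.trans e)).2
    have z0 : z.toAdd ≠ 0 := fun h => z1 (by simp [f, h])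
    refine Subgroup.mem_normalizer_fintype ?_
    rintro _ ⟨w, rfl⟩
    refine ⟨.ofAdd (y.toAdd / z.toAdd * w.toAdd), Eq.trans ?_ (Z.conj_u0 c d k _).symm⟩
    simp [f, ← e', (map_ne_zero φ).2 z0]

end Cfsg.Agent.S2240
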