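import Cfsg.Statements.S2251
import Cfsg.Agent.H5.Sz7

set_option autoImplicit false
open Cfsg

namespace Cfsg.Agent.S2251

/-- The subgroups of the Suzuki group: with q = 2^(2m+1), m ≥ 1, r = 2^m and the group realised as the stabiliser in SL₄ of the Suzuki–Tits ovoid, every proper subgroup is contained in the normalizer of a Sylow 2-subgroup, or in the normalizer of a cyclic subgroup of order q − 1, q + 2r + 1 or q − 2r + 1, or in a subgroup isomorphic to a smaller Suzuki group Sz(s) with s = 2^(2k+1) ≥ 8 and 2k+1 a proper divisor of 2m+1. -/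
theorem result {F : Type*} [Field F] [Fintype F] {m : ℕ} (hm : 1 ≤ m) (hF : Fintype.card F = 2 ^ (2 * m + 1)) (M : Subgroup ↥(Cfsg.Sz F m)) (hM : M ≠ ⊤) :
    (∃ P : Sylow 2 ↥(Cfsg.Sz F m), M ≤ Subgroup.normalizer ((P : Subgroup ↥(Cfsg.Sz F m)) : Set ↥(Cfsg.Sz F m))) ∨
    (∃ U : Subgroup ↥(Cfsg.Sz F m), IsCyclic ↥U ∧ Nat.card ↥U ∈ ({2 ^ (2 * m + 1) - 1, 2 ^ (2 * m + 1) + 2 ^ (m + 1) + 1, 2 ^ (2 * m + 1) - 2 ^ (m + 1) + 1} : Set ℕ) ∧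
      M ≤ Subgroup.normalizer (U : Set ↥(Cfsg.Sz F m))) ∨
    (∃ (K : Type) (_ : Field K) (_ : Fintype K) (k : ℕ), 1 ≤ k ∧ k < m ∧ Fintype.card K = 2 ^ (2 * k + 1) ∧ 2 * k + 1 ∣ 2 * m + 1 ∧
      ∃ S : Subgroup ↥(Cfsg.Sz F m), Nonempty (↥S ≃* ↥(Cfsg.Sz K k)) ∧ M ≤ S) := by
  have := H5.Suz.charP hF
  have Z := H5.Suz.szO hm hF
  have hq := H5.Suz.natCard_eq hF
  rw [← hq]
  rcases Z.classify M with ⟨a, h⟩ | ⟨a, b, hab, h⟩ | ⟨T, hT, h⟩ | ⟨E, c, x, hc, c0, c1, rfl⟩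
  · exact .inl ⟨Z.syl a, (Z.norm_K a).symm ▸ h⟩
  · exact .inr (.inl ⟨_, Z.St_cyclic hab, .inl (Z.card_St hab), (Z.norm_St hab).symm ▸ h⟩)
  · exact .inr (.inl ⟨T, (H5.Suz.SzG.Tor.cyc Z hT).1, .inr (H5.Suz.SzG.Tor.card Z (H5.Suz.r_sq hF) hT), h⟩)
  obtain ⟨K, i1, i2, k, h1, h2, h3, h4, ⟨e⟩⟩ := H5.Suz.sub_model hF Z hc c0 c1
  refine .inr (.inr ⟨K, i1, i2, k, h1, ?_, h2, h3, _,
    ⟨((Z.sub E).equivMapOfInjective _ (MulAut.conj x).injective).symm.trans e⟩, le_rfl⟩)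
  have := Nat.le_of_dvd (by omega) h3
  refine lt_of_le_of_ne (by omega) ?_
  rintro rfl
  rw [H5.Suz.subfield_eq (E' := ⊤) (h4.trans (hq.symm.trans (Nat.card_congr Subfield.topEquiv.toEquiv).symm)), Z.sub_top] at hM
  exact hM (Subgroup.map_top_of_surjective _ (MulAut.conj x).surjective)

end Cfsg.Agent.S2251
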