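import Cfsg.Statements.S2253
import Cfsg.Agent.L.Fitting

set_option autoImplicit false
open Cfsg

namespace Cfsg.Agent.S2253

open MulAction

noncomputable def u (k : ℕ) : ℕ := padicValNat 2 (4 * k).factorial
noncomputable def F (n : ℕ) : ℕ := (if n % 4 ≤ 1 then 1 else n % 4) * 2 ^ u (n / 4)

theorem w_add (a b : ℕ) : padicValNat 2 a.factorial + padicValNat 2 b.factorial ≤ padicValNat 2 (a + b).factorial := by
  rw [← padicValNat.mul a.factorial_ne_zero b.factorial_ne_zero, ← padicValNat_dvd_iff_le (a + b).factorial_ne_zero]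
  exact pow_padicValNat_dvd.trans (Nat.factorial_mul_factorial_dvd_factorial_add a b)
theorem u_add (a b : ℕ) : u a + u b ≤ u (a + b) := by unfold u; rw [mul_add]; exact w_add _ _
theorem u1 : 3 ≤ u 1 := (padicValNat_dvd_iff_le (Nat.factorial_ne_zero _)).1 (by norm_num [Nat.factorial])
theorem u2 : 7 ≤ u 2 := (padicValNat_dvd_iff_le (Nat.factorial_ne_zero _)).1 (by norm_num [Nat.factorial])

theorem w_odd (k : ℕ) : padicValNat 2 (2 * k + 1).factorial = padicValNat 2 (2 * k).factorial := by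
  rw [Nat.factorial_succ, padicValNat.mul (by omega) (Nat.factorial_ne_zero _),
    padicValNat.eq_zero_of_not_dvd (by omega), zero_add]
theorem w_two (k : ℕ) : padicValNat 2 (4 * k + 2).factorial = u k + 1 := by
  rw [show 4 * k + 2 = (2 * (2 * k) + 1) + 1 by ring, Nat.factorial_succ, padicValNat.mul (by omega) (Nat.factorial_ne_zero _),
    w_odd, show 2 * (2 * k) + 1 + 1 = 2 * (2 * k + 1) by ring, padicValNat.mul (by omega) (by omega),
    padicValNat.eq_zero_of_not_dvd (n := 2 * k + 1) (by omega), padicValNat_self, show 2 * (2 * k) = 4 * k by ring, u]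
  omega

theorem F_w (n : ℕ) : 2 ^ padicValNat 2 n.factorial ≤ F n ∧ (n % 4 ≠ 3 → F n = 2 ^ padicValNat 2 n.factorial) := by
  obtain ⟨k, r, hr, rfl⟩ : ∃ k r, r < 4 ∧ n = 4 * k + r := ⟨n / 4, n % 4, by omega, by omega⟩
  have e1 : (4 * k + r) % 4 = r := by omega
  have e2 : (4 * k + r) / 4 = k := by omega
  have h1 : padicValNat 2 (4 * k + 1).factorial = u k := by
    rw [show 4 * k + 1 = 2 * (2 * k) + 1 by ring, w_odd, show 2 * (2 * k) = 4 * k by ring, u]
  have h3 : padicValNat 2 (4 * k + 3).factorial = u k + 1 := by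
    rw [show 4 * k + 3 = 2 * (2 * k + 1) + 1 by ring, w_odd, show 2 * (2 * k + 1) = 4 * k + 2 by ring, w_two]
  unfold F
  rw [e1, e2]
  interval_cases r
  · simp [u]
  · simp [h1]
  · simp only [w_two, pow_succ]; norm_num; omega
  · simp only [h3, pow_succ]; norm_num; omega

theorem F_mul (a b : ℕ) : F a * F b ≤ F (a + b) := by
  obtain ⟨i, r, hr, rfl⟩ : ∃ k r, r < 4 ∧ a = 4 * k + r := ⟨a / 4, a % 4, by omega, by omega⟩
  obtain ⟨j, s, hs, rfl⟩ : ∃ k r, r < 4 ∧ b = 4 * k + r := ⟨b / 4, b % 4, by omega, by omega⟩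
  have p1 : 2 ^ u i * 2 ^ u j ≤ 2 ^ u (i + j) := by rw [← pow_add]; exact Nat.pow_le_pow_right (by norm_num) (u_add i j)
  have p2 : 8 * (2 ^ u i * 2 ^ u j) ≤ 2 ^ u (i + j + 1) := by
    rw [← pow_add, show 8 = 2 ^ 3 by norm_num, ← pow_add]
    exact Nat.pow_le_pow_right (by norm_num) (by have := u_add i j; have := u_add (i + j) 1; have := u1; omega)
  unfold F
  rw [show (4 * i + r) % 4 = r by omega, show (4 * i + r) / 4 = i by omega, show (4 * j + s) % 4 = s by omega,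
    show (4 * j + s) / 4 = j by omega, show (4 * i + r + (4 * j + s)) % 4 = (r + s) % 4 by omega,
    show (4 * i + r + (4 * j + s)) / 4 = i + j + (r + s) / 4 by omega, mul_mul_mul_comm]
  generalize 2 ^ u i * 2 ^ u j = x at *
  interval_cases r <;> interval_cases s <;> norm_num <;> omega

theorem F_pos (a : ℕ) : 0 < F a := by
  have := (F_w a).1
  exact lt_of_lt_of_le (by positivity) this
theorem F_mono {a b : ℕ} (h : a ≤ b) : F a ≤ F b := by
  obtain ⟨c, rfl⟩ := Nat.exists_eq_add_of_le h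
  exact le_trans (Nat.le_mul_of_pos_right _ (F_pos c)) (F_mul a c)

theorem F_sq (n : ℕ) (h5 : n ≠ 5) (h7 : n ≠ 7) : 3 ^ (n - 1) ≤ F n ^ 2 := by
  have a1 : 8 ≤ 2 ^ u 1 := Nat.pow_le_pow_right (n := 2) (by norm_num) u1
  have a2 : 128 ≤ 2 ^ u 2 := Nat.pow_le_pow_right (n := 2) (by norm_num) u2
  have a3 : 1024 ≤ 2 ^ u 3 := Nat.pow_le_pow_right (n := 2) (i := 10) (by norm_num) (by have := u_add 1 2; have := u1; have := u2; simp at *; omega)
  have a0 : 1 ≤ 2 ^ u 0 := Nat.one_le_two_pow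
  induction n using Nat.strong_induction_on with
  | _ n ih =>
  by_cases h : n < 16
  · unfold F
    interval_cases n <;> norm_num at * <;> nlinarith
  · obtain ⟨m, rfl⟩ : ∃ m, n = m + 8 := ⟨n - 8, by omega⟩
    have i := ih m (by omega) (by omega) (by omega)
    have f8 : 128 ≤ F 8 := by unfold F; norm_num; exact a2
    have := (Nat.mul_le_mul_left (F m) f8).trans (F_mul m 8)
    rw [show m + 8 - 1 = m - 1 + 8 by omega, pow_add]
    calc 3 ^ (m - 1) * 3 ^ 8 ≤ F m ^ 2 * 128 ^ 2 := Nat.mul_le_mul i (by norm_num)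
      _ = (F m * 128) ^ 2 := by ring
      _ ≤ _ := Nat.pow_le_pow_left this 2

theorem sq3 (m : ℕ) : (3 + m) ^ 2 ≤ 3 ^ (m + 2) := by
  induction m with
  | zero => norm_num
  | succ m ih => rw [show m + 1 + 2 = m + 2 + 1 by ring, pow_succ 3]; nlinarith [Nat.zero_le m, Nat.zero_le (m * m)]

theorem F_p {p k n : ℕ} (hp : p.Prime) (h : p ^ k ∣ n.factorial) : p ^ k ≤ F n := by
  haveI := Fact.mk hp
  have hk := (padicValNat_dvd_iff_le n.factorial_ne_zero).1 h
  by_cases h2 : p = 2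
  · subst h2; exact (Nat.pow_le_pow_right (by norm_num) hk).trans (F_w n).1
  have p3 : 3 ≤ p := by have := hp.two_le; omega
  rcases Nat.eq_zero_or_pos k with rfl | k0
  · exact F_pos n
  have n0 : n ≠ 0 := by
    rintro rfl
    simp at hk; omega
  have l : (p - 1) * k < n := lt_of_le_of_lt (Nat.mul_le_mul_left _ hk) (sub_one_mul_padicValNat_factorial_lt_of_ne_zero p n0)
  by_cases h57 : n = 5 ∨ n = 7
  · have a1 : 8 ≤ 2 ^ u 1 := Nat.pow_le_pow_right (n := 2) (by norm_num) u1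
    have : p ≤ 7 := by have := Nat.le_mul_of_pos_right (p - 1) k0; omega
    have : k ≤ 3 := by have := Nat.mul_le_mul_right k (show 2 ≤ p - 1 by omega); omega
    unfold F
    rcases h57 with rfl | rfl <;> interval_cases p <;> interval_cases k <;> norm_num [Nat.factorial] at * <;> omega
  · have q : p ^ 2 ≤ 3 ^ (p - 1) := by
      obtain ⟨m, rfl⟩ := Nat.exists_eq_add_of_le p3
      rw [show 3 + m - 1 = m + 2 by omega]
      exact sq3 m
    have := F_sq n (by omega) (by omega)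
    refine (Nat.pow_le_pow_iff_left (n := 2) (by norm_num)).1 (le_trans ?_ this)
    calc (p ^ k) ^ 2 = (p ^ 2) ^ k := by ring
      _ ≤ (3 ^ (p - 1)) ^ k := Nat.pow_le_pow_left q k
      _ = 3 ^ ((p - 1) * k) := by rw [pow_mul]
      _ ≤ _ := Nat.pow_le_pow_right (by norm_num) (by omega)

theorem act {n : ℕ} (ih : ∀ m < n, ∀ (Ω : Type) [Finite Ω], Nat.card Ω = m → ∀ N : Subgroup (Equiv.Perm Ω),
      Group.IsNilpotent N → Nat.card N ≤ F m)
    {H Ω : Type} [Group H] [Finite Ω] [MulAction H Ω] [Group.IsNilpotent H] (O : Set Ω) (hO : ∀ g : H, ∀ a ∈ O, g • a ∈ O)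
    (hn : O.ncard < n) : ∃ (K : Type) (_ : Finite K) (φ : H → K), Nat.card K ≤ F O.ncard ∧
      ∀ g h, φ g = φ h → ∀ a ∈ O, g • a = h • a := by
  let S : SubMulAction H Ω := ⟨O, fun g a ha => hO g a ha⟩
  let φ := toPermHom H S
  refine ⟨φ.range, inferInstance, φ.rangeRestrict, ih _ hn S (Nat.card_coe_set_eq O) _
    (Group.nilpotent_of_surjective φ.rangeRestrict φ.rangeRestrict_surjective), fun g h e a ha => ?_⟩
  have : φ g = φ h := congrArg Subtype.val e
  exact congrArg Subtype.val (DFunLike.congr_fun this (⟨a, ha⟩ : S))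

theorem bound (n : ℕ) : ∀ (Ω : Type) [Finite Ω], Nat.card Ω = n → ∀ N : Subgroup (Equiv.Perm Ω),
    Group.IsNilpotent N → Nat.card N ≤ F n := by
  induction n using Nat.strong_induction_on with
  | _ n ih =>
  intro Ω _ hΩ N hN
  have pg : ∀ p k : ℕ, p.Prime → Nat.card N = p ^ k → Nat.card N ≤ F n := fun p k hp e => by
    rw [e]; refine F_p hp ?_
    rw [← e, ← hΩ, ← Nat.card_perm]; exact Subgroup.card_subgroup_dvd_card N
  by_cases h1 : Nat.card N = 1
  · exact pg 2 0 Nat.prime_two h1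
  have ext' : ∀ g h : N, (∀ a : Ω, g • a = h • a) → g = h := fun g h e => Subtype.ext (Equiv.ext e)
  have cc : ∀ T : Set Ω, T.ncard + Tᶜ.ncard = n := fun T => by rw [Set.ncard_add_ncard_compl, hΩ]
  by_cases ht : ∀ x y : Ω, ∃ g : N, g • x = y
  swap
  · push Not at ht
    obtain ⟨x, y, hxy⟩ := ht
    have i1 : ∀ g : N, ∀ a ∈ orbit N x, g • a ∈ orbit N x := by
      rintro g _ ⟨k, rfl⟩; exact ⟨g * k, mul_smul _ _ _⟩
    have p1 : 0 < (orbit N x).ncard := (Set.ncard_pos (Set.toFinite _)).2 ⟨x, mem_orbit_self _⟩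
    have p2 : 0 < (orbit N x)ᶜ.ncard := (Set.ncard_pos (Set.toFinite _)).2 ⟨y, fun ⟨g, e⟩ => hxy g e⟩
    have c := cc (orbit N x)
    obtain ⟨K1, _, f1, c1, e1⟩ := act ih (orbit N x) i1 (by omega)
    obtain ⟨K2, _, f2, c2, e2⟩ := act ih (H := N) (orbit N x)ᶜ (fun g a ha h => ha (by simpa using i1 g⁻¹ _ h)) (by omega)
    have := Nat.card_le_card_of_injective (fun g : N => (f1 g, f2 g)) fun g h e => ext' g h fun a => by
      by_cases ha : a ∈ orbit N x
      exacts [e1 g h (congrArg Prod.fst e) a ha, e2 g h (congrArg Prod.snd e) a ha]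
    rw [Nat.card_prod] at this
    exact this.trans ((Nat.mul_le_mul c1 c2).trans (c ▸ F_mul _ _))
  obtain ⟨p, hp, hd⟩ := Nat.exists_prime_and_dvd h1
  haveI := Fact.mk hp
  obtain ⟨P⟩ : Nonempty (Sylow p N) := inferInstance
  obtain ⟨Q, hQ⟩ := Subgroup.exists_right_complement'_of_coprime (N := (P : Subgroup N)) P.card_coprime_index
  have cop : (Nat.card (P : Subgroup N)).Coprime (Nat.card Q) := by rw [← hQ.symm.index_eq_card]; exact P.card_coprime_index
  have co : ∀ a ∈ (P : Subgroup N), ∀ b ∈ Q, (orderOf a).Coprime (orderOf b) := fun a ha b hb =>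
    (cop.coprime_dvd_left (Subgroup.orderOf_dvd_natCard _ ha)).coprime_dvd_right (Subgroup.orderOf_dvd_natCard _ hb)
  have cm : ∀ a ∈ (P : Subgroup N), ∀ b ∈ Q, Commute a b := fun a ha b hb => Cfsg.Agent.L.commute_of_isNilpotent_of_coprime (H := ⊤) trivial trivial (co a ha b hb)
  have cN := hQ.card_mul
  obtain ⟨k, hk⟩ := IsPGroup.iff_card.1 P.isPGroup'
  by_cases hQ1 : Q = ⊥
  · exact pg p k hp (by rw [← cN, hQ1, Subgroup.card_bot, mul_one, hk])
  have hP1 : (P : Subgroup N) ≠ ⊥ := P.ne_bot_of_dvd_card hd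
  have dec : ∀ g : N, ∃ a ∈ (P : Subgroup N), ∃ b ∈ Q, g = a * b := fun g => by
    obtain ⟨⟨a, b⟩, e⟩ := hQ.2 g; exact ⟨a, a.2, b, b.2, e.symm⟩
  obtain ⟨x⟩ : Nonempty Ω := by
    by_contra h
    rw [not_nonempty_iff] at h
    exact h1 (Nat.card_eq_one_iff_unique.2 ⟨⟨fun g h => ext' g h fun a => isEmptyElim a⟩, ⟨1⟩⟩)
  have side : ∀ A B : Subgroup N, (∀ a ∈ A, ∀ b ∈ B, Commute a b) → (∀ g : N, ∃ a ∈ A, ∃ b ∈ B, g = b * a) →
      ∀ g ∈ A, ∀ h ∈ A, (∀ y ∈ orbit A x, g • y = h • y) → g = h := fun A B c d g hg h hh e => ext' g h fun y => by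
    obtain ⟨k, rfl⟩ := ht x y
    obtain ⟨a, ha, b, hb, rfl⟩ := d k
    rw [← mul_smul, ← mul_smul, ← mul_assoc, ← mul_assoc, (c g hg b hb).eq, (c h hh b hb).eq]
    simp only [mul_smul]
    exact congrArg _ (e _ ⟨⟨a, ha⟩, rfl⟩)
  have sP := side P Q cm fun g => by obtain ⟨a, ha, b, hb, e⟩ := dec g; exact ⟨a, ha, b, hb, e.trans (cm a ha b hb).eq⟩
  have sQ := side Q P (fun a ha b hb => (cm b hb a ha).symm) fun g => by obtain ⟨a, ha, b, hb, e⟩ := dec g; exact ⟨b, hb, a, ha, e⟩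
  have mv : ∀ A : Subgroup N, A ≠ ⊥ → (∀ g ∈ A, ∀ h ∈ A, (∀ y ∈ orbit A x, g • y = h • y) → g = h) → ∃ a ∈ A, a • x ≠ x :=
    fun A hA s => by
      by_contra h
      push Not at h
      refine hA ((Subgroup.eq_bot_iff_forall _).2 fun g hg => s g hg 1 A.one_mem ?_)
      rintro _ ⟨k, rfl⟩
      show g • (k : N) • x = (1 : N) • (k : N) • x
      rw [h k k.2, h g hg, one_smul]
  have key : ∀ a ∈ (P : Subgroup N), ∀ b ∈ Q, a • x = b • x → a • x = x := fun a ha b hb e => by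
    have pw : ∀ i : ℕ, a ^ i • x = b ^ i • x := fun i => by
      induction i with
      | zero => simp
      | succ i ih => rw [pow_succ', mul_smul, ih, ← mul_smul, ((cm a ha b hb).pow_right i).eq, mul_smul, e, ← mul_smul, ← pow_succ]
    obtain ⟨m, hm⟩ := exists_pow_eq_self_of_coprime (co a ha b hb).symm
    have : a ^ orderOf b ∈ stabilizer N x := by rw [mem_stabilizer_iff, pw, pow_orderOf_eq_one, one_smul]
    have := (stabilizer N x).pow_mem this m
    rwa [hm] at this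
  obtain ⟨a, ha, ax⟩ := mv _ hP1 sP
  obtain ⟨b, hb, bx⟩ := mv _ hQ1 sQ
  have I : orbit (P : Subgroup N) x ∩ orbit Q x = {x} := by
    ext y; constructor
    · rintro ⟨⟨c, rfl⟩, ⟨d, e⟩⟩; exact key c c.2 d d.2 e.symm
    · rintro rfl; exact ⟨mem_orbit_self _, mem_orbit_self _⟩
  have U := Set.ncard_union_add_ncard_inter (orbit (P : Subgroup N) x) (orbit Q x)
  rw [I, Set.ncard_singleton] at U
  have c := cc (orbit (P : Subgroup N) x ∪ orbit Q x)
  have p0 : 0 < (orbit (P : Subgroup N) x ∪ orbit Q x)ᶜ.ncard := (Set.ncard_pos (Set.toFinite _)).2 ⟨a • b • x, by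
    rintro (⟨c, e⟩ | ⟨d, e⟩)
    · have e' : (a⁻¹ * c) • x = b • x := by rw [mul_smul, inv_smul_eq_iff]; exact e
      exact bx (e'.symm.trans (key _ (Subgroup.mul_mem _ (Subgroup.inv_mem _ ha) c.2) b hb e'))
    · have e' : a • x = (b⁻¹ * d) • x := by
        rw [mul_smul, eq_inv_smul_iff, ← mul_smul, ← (cm a ha b hb).eq, mul_smul]; exact e.symm
      exact ax (key a ha _ (Subgroup.mul_mem _ (Subgroup.inv_mem _ hb) d.2) e')⟩
  have q1 : 1 < (orbit (P : Subgroup N) x).ncard := (Set.one_lt_ncard (Set.toFinite _)).2 ⟨_, ⟨⟨a, ha⟩, rfl⟩, x, mem_orbit_self _, ax⟩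
  have q2 : 1 < (orbit Q x).ncard := (Set.one_lt_ncard (Set.toFinite _)).2 ⟨_, ⟨⟨b, hb⟩, rfl⟩, x, mem_orbit_self _, bx⟩
  obtain ⟨K1, _, f1, c1, e1⟩ := act ih (H := (P : Subgroup N)) (orbit (P : Subgroup N) x)
    (by rintro g _ ⟨k, rfl⟩; exact ⟨g * k, mul_smul _ _ _⟩) (by omega)
  obtain ⟨K2, _, f2, c2, e2⟩ := act ih (H := Q) (orbit Q x) (by rintro g _ ⟨k, rfl⟩; exact ⟨g * k, mul_smul _ _ _⟩) (by omega)
  have l1 := Nat.card_le_card_of_injective f1 fun g h e => Subtype.ext (sP g g.2 h h.2 (e1 g h e))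
  have l2 := Nat.card_le_card_of_injective f2 fun g h e => Subtype.ext (sQ g g.2 h h.2 (e2 g h e))
  rw [← cN]
  exact (Nat.mul_le_mul (l1.trans c1) (l2.trans c2)).trans ((F_mul _ _).trans (F_mono (by omega)))


/-- Let n be a natural number not congruent to 3 modulo 4. Then every nilpotent subgroup of the symmetric group on n letters has order at most the order of a Sylow 2-subgroup (so the nilpotent subgroups of largest order are exactly the Sylow 2-subgroups). -/
theorem result  (n : ℕ) (hn : n % 4 ≠ 3)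
    (N : Subgroup (Equiv.Perm (Fin n))) (hN : Group.IsNilpotent N)
    (P : Sylow 2 (Equiv.Perm (Fin n))) :
    Nat.card N ≤ Nat.card P := by
  have := bound n (Fin n) (by simp) N hN
  rw [(F_w n).2 hn] at this
  rwa [P.card_eq_multiplicity, Nat.card_perm, Nat.card_eq_fintype_card (α := Fin n), Fintype.card_fin, Nat.factorization_def _ Nat.prime_two]

end Cfsg.Agent.S2253
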