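import Cfsg.Statements.S2254
import Cfsg.Agent.S2253
import Cfsg.Agent.S1606

set_option autoImplicit false
open Cfsg

namespace Cfsg.Agent.S2254

open MulAction Cfsg.Agent.S2253


open Equiv.Perm in
theorem cyc {n k : ℕ} (hn : n = 4 * k + 3) {z : Equiv.Perm (Fin n)} (hz : orderOf z = 3) (T : Subgroup (Equiv.Perm (Fin n)))
    (cT : Nat.card T = 2 ^ u k) (hc : ∀ t ∈ T, Commute t z) : z.IsCycle := by
  have z1 : z ≠ 1 := by rintro rfl; simp at hz
  obtain ⟨x, hx⟩ : ∃ x, z x ≠ x := by by_contra h; push Not at h; exact z1 (Equiv.ext h)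
  refine ⟨x, hx, fun y hy => ?_⟩
  by_contra hxy
  have z3 : ∀ a, z (z (z a)) = a := fun a => by
    have := pow_orderOf_eq_one z
    rw [hz] at this
    exact DFunLike.congr_fun this a
  have sc : ∀ t ∈ T, ∀ a b, SameCycle z a b → SameCycle z (t a) (t b) := fun t ht a b h => by
    have := h.conj (g := t)
    rwa [(hc t ht).eq, mul_inv_cancel_right] at this
  let f : T →* Equiv.Perm (Quotient (SameCycle.setoid z)) := MonoidHom.mk' (fun t => Quotient.congr (t : Equiv.Perm (Fin n))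
    fun a b => ⟨sc t t.2 a b, fun h => show SameCycle z a b by simpa using sc _ (T.inv_mem t.2) _ _ h⟩)
    fun s t => Equiv.ext fun q => Quotient.inductionOn q fun a => rfl
  have fi : Function.Injective f := (injective_iff_map_eq_one f).2 fun t ht => Subtype.ext (Equiv.ext fun a => by
    have h : SameCycle z ((t : Equiv.Perm (Fin n)) a) a := Quotient.exact (DFunLike.congr_fun ht (Quotient.mk _ a))
    obtain ⟨i, hi⟩ := h.symm.exists_nat_pow_eq
    have pw : ∀ j : ℕ, ((t : Equiv.Perm (Fin n)) ^ j) a = ((z ^ i) ^ j) a := fun j => by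
      induction j with
      | zero => simp
      | succ j ih =>
        rw [pow_succ', mul_apply, ih, ← mul_apply, (((hc t t.2).pow_right i).pow_right j).eq, mul_apply, ← hi, ← mul_apply, ← pow_succ]
    have co : (3 : ℕ).Coprime (orderOf (t : Equiv.Perm (Fin n))) :=
      (Nat.Coprime.pow_right (u k) (by norm_num : (3 : ℕ).Coprime 2)).coprime_dvd_right (cT ▸ Subgroup.orderOf_dvd_natCard _ t.2)
    obtain ⟨m, hm⟩ := exists_pow_eq_self_of_coprime co
    have : (t : Equiv.Perm (Fin n)) ^ 3 ∈ stabilizer (Equiv.Perm (Fin n)) a := by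
      show ((t : Equiv.Perm (Fin n)) ^ 3) a = a
      rw [pw, ← pow_mul, mul_comm, pow_mul, ← hz, pow_orderOf_eq_one, one_pow]; rfl
    have := Subgroup.pow_mem _ this m
    rwa [hm] at this)
  have d := Subgroup.card_dvd_of_injective f fi
  have s1 : ∀ a, SameCycle z a (z a) := fun a => ⟨1, by simp⟩
  have s2 : ∀ a, SameCycle z a (z (z a)) := fun a => (s1 a).trans (s1 _)
  have cr : ∀ a b, SameCycle z x a → SameCycle z y b → a ≠ b := fun a b h1 h2 e => hxy (h1.trans (e ▸ h2.symm))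
  have n2 : ∀ a, z a ≠ a → z (z a) ≠ a := fun a h e => h (by have := z3 a; rwa [e] at this)
  have n3 : ∀ a, z a ≠ a → z a ≠ z (z a) := fun a h e => h (z.injective e).symm
  let D : Finset (Fin n) := {z x, z (z x), z y, z (z y)}
  have cD : D.card = 4 := by
    rw [Finset.card_insert_of_notMem (by simp only [Finset.mem_insert, Finset.mem_singleton, not_or]; exact ⟨n3 x hx, cr _ _ (s1 x) (s1 y), cr _ _ (s1 x) (s2 y)⟩),
      Finset.card_insert_of_notMem (by simp only [Finset.mem_insert, Finset.mem_singleton, not_or]; exact ⟨cr _ _ (s2 x) (s1 y), cr _ _ (s2 x) (s2 y)⟩),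
      Finset.card_pair (n3 y hy)]
  have xD : x ∈ Dᶜ := by
    simp only [D, Finset.mem_compl, Finset.mem_insert, Finset.mem_singleton, not_or]
    exact ⟨hx.symm, (n2 x hx).symm, cr _ _ (SameCycle.refl _ _) (s1 y), cr _ _ (SameCycle.refl _ _) (s2 y)⟩
  have yD : y ∈ Dᶜ := by
    simp only [D, Finset.mem_compl, Finset.mem_insert, Finset.mem_singleton, not_or]
    exact ⟨(cr _ _ (s1 x) (SameCycle.refl _ _)).symm, (cr _ _ (s2 x) (SameCycle.refl _ _)).symm, hy.symm, (n2 y hy).symm⟩
  have le := Nat.card_le_card_of_surjective (fun a : ↥(Dᶜ) => Quotient.mk (SameCycle.setoid z) a) fun q =>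
    Quotient.inductionOn q fun a => by
      by_cases ha : a ∈ D
      · simp only [D, Finset.mem_insert, Finset.mem_singleton] at ha
        rcases ha with rfl | rfl | rfl | rfl
        exacts [⟨⟨x, xD⟩, Quotient.sound (s1 x)⟩, ⟨⟨x, xD⟩, Quotient.sound (s2 x)⟩, ⟨⟨y, yD⟩, Quotient.sound (s1 y)⟩, ⟨⟨y, yD⟩, Quotient.sound (s2 y)⟩]
      · exact ⟨⟨a, Finset.mem_compl.2 ha⟩, rfl⟩
  have l4 := Finset.card_le_univ D
  rw [Nat.card_eq_fintype_card (α := ↥(Dᶜ)), Fintype.card_coe, Finset.card_compl, cD, Fintype.card_fin] at le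
  rw [cD, Fintype.card_fin] at l4
  rw [Nat.card_perm, cT] at d
  obtain ⟨j, rfl⟩ : ∃ j, k = j + 1 := ⟨k - 1, by omega⟩
  have d2 := (padicValNat_dvd_iff_le (Nat.factorial_ne_zero _)).1 (d.trans (Nat.factorial_dvd_factorial (show _ ≤ 2 * (2 * j + 1) + 1 from le.trans (by omega))))
  rw [w_odd, show 2 * (2 * j + 1) = 4 * j + 2 by ring, w_two] at d2
  have := u_add j 1
  have := u1
  omega

theorem struct {n k : ℕ} (hn : n = 4 * k + 3) (N : Subgroup (Equiv.Perm (Fin n))) (hN : Group.IsNilpotent N)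
    (cN : Nat.card N = 3 * 2 ^ u k) : ∃ (z : Equiv.Perm (Fin n)) (T : Subgroup (Equiv.Perm (Fin n))), orderOf z = 3 ∧ z.IsCycle ∧
      Nat.card T = 2 ^ u k ∧ T ≤ Subgroup.centralizer {z} ∧ N = T ⊔ Subgroup.zpowers z := by
  haveI : Fact (Nat.Prime 3) := ⟨by norm_num⟩
  obtain ⟨z, hz⟩ := exists_prime_orderOf_dvd_card' (G := N) 3 (by rw [cN]; exact Dvd.intro _ rfl)
  obtain ⟨T, hT, cT⟩ := Cfsg.Agent.S1606.sub Nat.prime_two N (n := u k) (by rw [cN]; exact Dvd.intro_left _ rfl)
  have oz : orderOf (z : Equiv.Perm (Fin n)) = 3 := by rw [Subgroup.orderOf_coe, hz]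
  have co : (2 ^ u k).Coprime 3 := Nat.Coprime.pow_left _ (by norm_num)
  have hc : ∀ t ∈ T, Commute t (z : Equiv.Perm (Fin n)) := fun t ht =>
    Cfsg.Agent.L.commute_of_isNilpotent_of_coprime (H := N) (hT ht) z.2
      (by rw [oz]; exact co.coprime_dvd_left (cT ▸ Subgroup.orderOf_dvd_natCard _ ht))
  refine ⟨z, T, oz, cyc hn oz T cT hc, cT, fun t ht => Subgroup.mem_centralizer_singleton_iff.2 (hc t ht), ?_⟩
  symm
  refine Subgroup.eq_of_le_of_card_ge (sup_le hT ((Subgroup.zpowers_le).2 z.2)) (Nat.le_of_dvd Nat.card_pos ?_)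
  rw [cN]
  refine co.symm.mul_dvd_of_dvd_of_dvd ?_ (cT ▸ Subgroup.card_dvd_of_le le_sup_left)
  have := Subgroup.card_dvd_of_le (le_sup_right : Subgroup.zpowers (z : Equiv.Perm (Fin n)) ≤ T ⊔ _)
  rwa [Nat.card_zpowers, oz] at this


/-- Let n ≡ 3 (mod 4). Then every nilpotent subgroup of the symmetric group on n letters has order at most 3 times the order of a Sylow 2-subgroup of the symmetric group on n − 3 letters; the bound is attained by a nilpotent subgroup isomorphic to the direct product of such a Sylow 2-subgroup with a cyclic group of order 3; and any two nilpotent subgroups attaining the bound are conjugate. -/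
theorem result  (n : ℕ) (hn : n % 4 = 3)
    (P : Sylow 2 (Equiv.Perm (Fin (n - 3)))) :
    (∀ N : Subgroup (Equiv.Perm (Fin n)), Group.IsNilpotent N → Nat.card N ≤ 3 * Nat.card P) ∧
    (∃ M : Subgroup (Equiv.Perm (Fin n)), Group.IsNilpotent M ∧ Nat.card M = 3 * Nat.card P ∧
      Nonempty (M ≃* (↥(P : Subgroup (Equiv.Perm (Fin (n - 3)))) × Multiplicative (ZMod 3)))) ∧
    (∀ N₁ N₂ : Subgroup (Equiv.Perm (Fin n)), Group.IsNilpotent N₁ → Group.IsNilpotent N₂ →
      Nat.card N₁ = 3 * Nat.card P → Nat.card N₂ = 3 * Nat.card P →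
      ∃ g : Equiv.Perm (Fin n), N₂ = N₁.map (MulAut.conj g).toMonoidHom) := by
  obtain ⟨k, hk⟩ : ∃ k, n = 4 * k + 3 := ⟨n / 4, by omega⟩
  haveI : Fact (Nat.Prime 3) := ⟨by norm_num⟩
  have cP : Nat.card P = 2 ^ u k := by
    rw [P.card_eq_multiplicity, Nat.card_perm, Nat.card_eq_fintype_card (α := Fin (n - 3)), Fintype.card_fin,
      Nat.factorization_def _ Nat.prime_two, show n - 3 = 4 * k by omega, u]
  have hb : ∀ N : Subgroup (Equiv.Perm (Fin n)), Group.IsNilpotent N → Nat.card N ≤ 3 * 2 ^ u k := fun N hN => by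
    have := bound n (Fin n) (by simp) N hN
    rwa [F, hn, show n / 4 = k by omega, if_neg (by norm_num)] at this
  refine ⟨fun N hN => cP ▸ hb N hN, ?_, fun N₁ N₂ h1 h2 c1 c2 => ?_⟩
  · let e : (Fin (n - 3) ⊕ Multiplicative (ZMod 3)) ≃ Fin n := Fintype.equivFinOfCardEq (by simp; omega)
    let φ := (e.permCongrHom.toMonoidHom.comp (Equiv.Perm.sumCongrHom _ _)).comp
      ((P : Subgroup (Equiv.Perm (Fin (n - 3)))).subtype.prodMap (toPermHom (Multiplicative (ZMod 3)) (Multiplicative (ZMod 3))))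
    have hφ : Function.Injective φ := (e.permCongrHom.injective.comp Equiv.Perm.sumCongrHom_injective).comp
      (Function.Injective.prodMap Subtype.val_injective toPerm_injective)
    haveI := P.isPGroup'.isNilpotent
    refine ⟨φ.range, Group.nilpotent_of_surjective φ.rangeRestrict φ.rangeRestrict_surjective, ?_, ⟨(MonoidHom.ofInjective hφ).symm⟩⟩
    rw [← Nat.card_congr (MonoidHom.ofInjective hφ).toEquiv, Nat.card_prod, mul_comm]; simp
  · obtain ⟨z1, T1, o1, y1, t1, l1, rfl⟩ := struct hk N₁ h1 (cP ▸ c1)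
    obtain ⟨z2, T2, o2, y2, t2, l2, rfl⟩ := struct hk N₂ h2 (cP ▸ c2)
    obtain ⟨g, hg⟩ := isConj_iff.1 (y1.isConj y2 (by rw [← y1.orderOf, ← y2.orderOf, o1, o2]))
    set C := Subgroup.centralizer ({z2} : Set (Equiv.Perm (Fin n))) with hC
    have l1' : T1.map (MulAut.conj g).toMonoidHom ≤ C := by
      rintro _ ⟨t, ht, rfl⟩
      have := Subgroup.mem_centralizer_singleton_iff.1 (l1 ht)
      rw [hC, Subgroup.mem_centralizer_singleton_iff, ← hg]
      show g * t * g⁻¹ * (g * z1 * g⁻¹) = g * z1 * g⁻¹ * (g * t * g⁻¹)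
      simp only [mul_assoc, inv_mul_cancel_left]
      rw [← mul_assoc t, this, mul_assoc]
    obtain ⟨S, hS, cS⟩ := Cfsg.Agent.S1606.sub Nat.prime_two C (n := (Nat.card C).factorization 2) (Nat.ordProj_dvd _ _)
    have le : (Nat.card C).factorization 2 ≤ u k := by
      haveI := (IsPGroup.of_card cS).isNilpotent
      haveI := (IsPGroup.of_card (p := 3) (n := 1) (G := Subgroup.zpowers z2) (by rw [Nat.card_zpowers, o2, pow_one])).isNilpotent
      have cm : ∀ (a : S) (b : Subgroup.zpowers z2), Commute (S.subtype a) ((Subgroup.zpowers z2).subtype b) := by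
        rintro a ⟨_, i, rfl⟩
        exact (show Commute (a : Equiv.Perm (Fin n)) z2 from Subgroup.mem_centralizer_singleton_iff.1 (hS a.2)).zpow_right i
      let ψ := MonoidHom.noncommCoprod _ _ cm
      have := hb ψ.range (Group.nilpotent_of_surjective ψ.rangeRestrict ψ.rangeRestrict_surjective)
      rw [MonoidHom.noncommCoprod_range, Subgroup.range_subtype, Subgroup.range_subtype] at this
      have d1 := Subgroup.card_dvd_of_le (le_sup_left : S ≤ S ⊔ Subgroup.zpowers z2)
      have d2 := Subgroup.card_dvd_of_le (le_sup_right : Subgroup.zpowers z2 ≤ S ⊔ Subgroup.zpowers z2)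
      rw [cS] at d1
      rw [Nat.card_zpowers, o2] at d2
      have := (Nat.le_of_dvd Nat.card_pos ((Nat.Coprime.pow_right _ (by norm_num)).mul_dvd_of_dvd_of_dvd d2 d1)).trans this
      exact (Nat.pow_le_pow_iff_right (by norm_num)).1 (Nat.le_of_mul_le_mul_left this (by norm_num))
    obtain ⟨m, hm⟩ := t2 ▸ Subgroup.card_dvd_of_le l2
    have t1' : Nat.card (T1.map (MulAut.conj g).toMonoidHom) = 2 ^ u k := by
      rw [Subgroup.card_map_of_injective (MulAut.conj g).injective, t1]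
    obtain ⟨c, hc, hcj⟩ := Cfsg.Agent.St.conj_into Nat.prime_two l2 t2 hm (fun ⟨r, hr⟩ => by
      have : 2 ^ (u k + 1) ∣ Nat.card C := ⟨r, by rw [hm, hr]; ring⟩
      have := (Nat.prime_two.pow_dvd_iff_le_factorization Nat.card_pos.ne').1 this
      omega) l1' (IsPGroup.of_card t1')
    refine ⟨c * g, (Subgroup.eq_of_le_of_card_ge ?_ (by
      rw [Subgroup.card_map_of_injective (MulAut.conj _).injective, c1, c2])).symm⟩
    rw [Subgroup.map_le_iff_le_comap]
    refine sup_le (fun t ht => Subgroup.mem_sup_left ?_) ((Subgroup.zpowers_le).2 (Subgroup.mem_sup_right ?_))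
    · simpa [mul_assoc] using hcj _ ⟨t, ht, rfl⟩
    · show c * g * z1 * (c * g)⁻¹ ∈ _
      rw [show c * g * z1 * (c * g)⁻¹ = c * (g * z1 * g⁻¹) * c⁻¹ by group, hg,
        Subgroup.mem_centralizer_singleton_iff.1 hc, mul_inv_cancel_right]
      exact Subgroup.mem_zpowers _

end Cfsg.Agent.S2254
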