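import Cfsg.Statements.S2255
import Cfsg.Agent.S2253

set_option autoImplicit false
open Cfsg

namespace Cfsg.Agent.S2255

open MulAction Cfsg.Agent.S2253


noncomputable def E2 (n : ℕ) : ℕ := if n ≤ 1 then 2 else if n = 3 then 6 else if n = 5 then 10 else if n = 6 then 18 else if n = 9 then 162 else F n

theorem Flow : 2 ≤ F 2 ∧ 8 ≤ F 4 ∧ 16 ≤ F 6 ∧ 24 ≤ F 7 ∧ 128 ≤ F 8 ∧ 256 ≤ F 10 ∧ 384 ≤ F 11 ∧ 1024 ≤ F 12 ∧ 1024 ≤ F 13 ∧
    2048 ≤ F 14 ∧ 3072 ≤ F 15 ∧ 32768 ≤ F 16 ∧ 65536 ≤ F 18 := by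
  have a1 : 8 ≤ 2 ^ u 1 := Nat.pow_le_pow_right (n := 2) (by norm_num) u1
  have a2 : 128 ≤ 2 ^ u 2 := Nat.pow_le_pow_right (n := 2) (by norm_num) u2
  have a3 : 1024 ≤ 2 ^ u 3 := Nat.pow_le_pow_right (n := 2) (i := 10) (by norm_num) (by have := u_add 1 2; have := u1; have := u2; simp at *; omega)
  have a4 : 32768 ≤ 2 ^ u 4 := Nat.pow_le_pow_right (n := 2) (i := 15) (by norm_num)
    ((padicValNat_dvd_iff_le (Nat.factorial_ne_zero _)).1 (by norm_num [Nat.factorial]))
  have a0 : 1 ≤ 2 ^ u 0 := Nat.one_le_two_pow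
  unfold F; norm_num at *; omega

theorem Fup : F 0 = 1 ∧ F 1 = 1 ∧ F 2 = 2 ∧ F 3 = 3 ∧ F 5 = 8 ∧ F 6 = 16 ∧ F 9 = 128 := by
  have a0 : u 0 = 0 := by simp [u]
  have a1 : u 1 = 3 := le_antisymm (by
    by_contra h
    exact absurd ((padicValNat_dvd_iff_le (Nat.factorial_ne_zero (4 * 1))).2 (show 4 ≤ u 1 by omega)) (by norm_num [Nat.factorial])) u1
  have a2 : u 2 = 7 := le_antisymm (by
    by_contra h
    exact absurd ((padicValNat_dvd_iff_le (Nat.factorial_ne_zero (4 * 2))).2 (show 8 ≤ u 2 by omega)) (by norm_num [Nat.factorial])) u2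
  unfold F; norm_num [a0, a1, a2]

theorem F_E (n : ℕ) : F n ≤ E2 n ∧ E2 n ≤ 2 * F n := by
  have := Fup
  unfold E2
  split_ifs with h1 h2 h3 h4 h5
  · interval_cases n <;> omega
  all_goals first | (subst_vars; omega) | omega

theorem E_mul (a b : ℕ) (ha : 0 < a) (hb : 0 < b) : E2 a * E2 b ≤ 2 * E2 (a + b) := by
  have ex : ∀ c, 0 < c → E2 c = F c ∨ c = 1 ∨ c = 3 ∨ c = 5 ∨ c = 6 ∨ c = 9 := fun c hc => by
    unfold E2; split_ifs <;> omega
  have m := (F_mul a b).trans (F_E _).1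
  rcases ex a ha with h | h
  · rw [h]; have := Nat.mul_le_mul_left (F a) (F_E b).2; nlinarith
  rcases ex b hb with h' | h'
  · rw [h']; have := Nat.mul_le_mul_right (F b) (F_E a).2; nlinarith
  have := Flow
  rcases h with rfl | rfl | rfl | rfl | rfl <;> rcases h' with rfl | rfl | rfl | rfl | rfl <;> norm_num [E2] <;> omega

theorem F_sq2 (n : ℕ) (h : 16 ≤ n) : 4 * 3 ^ (n - 1) ≤ F n ^ 2 := by
  induction n using Nat.strong_induction_on with
  | _ n ih =>
  have fl := Flow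
  by_cases h' : n < 24
  · obtain ⟨m, rfl⟩ := Nat.exists_eq_add_of_le h
    have h1 := (Nat.mul_le_mul_right (F m) fl.2.2.2.2.2.2.2.2.2.2.2.1).trans (F_mul 16 m)
    have fu := Fup
    have := F_mono (show 4 ≤ 5 by norm_num)
    have hm : m < 8 := by omega
    have lb : [1, 1, 2, 3, 8, 8, 16, 24].getD m 0 ≤ F m := by interval_cases m <;> simp <;> omega
    refine le_trans ?_ (Nat.pow_le_pow_left ((Nat.mul_le_mul_left 32768 lb).trans h1) 2)
    clear * - hm
    interval_cases m <;> norm_num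
  · obtain ⟨m, rfl⟩ : ∃ m, n = m + 8 := ⟨n - 8, by omega⟩
    have i := ih m (by omega) (by omega)
    have := (Nat.mul_le_mul_left (F m) fl.2.2.2.2.1).trans (F_mul m 8)
    rw [show m + 8 - 1 = m - 1 + 8 by omega, pow_add, ← mul_assoc]
    calc 4 * 3 ^ (m - 1) * 3 ^ 8 ≤ F m ^ 2 * 128 ^ 2 := Nat.mul_le_mul i (by norm_num)
      _ = (F m * 128) ^ 2 := by ring
      _ ≤ _ := Nat.pow_le_pow_left this 2

def TT (n : ℕ) : ℕ := [2, 2, 2, 6, 8, 10, 18, 24, 128, 162, 256, 384, 1024, 1024, 2048, 3072].getD n 0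
set_option synthInstance.maxSize 2000 in
theorem TT_spec0 : ∀ n < 16, ∀ p ∈ [3, 5, 7, 11, 13], ∀ k < 8, n.factorial % p ^ k = 0 → 2 * p ^ k ≤ TT n := by decide +kernel
theorem TT_spec : ∀ n < 16, ∀ p < 17, ∀ k < 8, p.Prime → p ≠ 2 → p ^ k ∣ n.factorial → 2 * p ^ k ≤ TT n :=
  fun n hn p hp k hk h1 h2 h3 => TT_spec0 n hn p (by interval_cases p <;> first | decide | (exfalso; revert h1; decide) | exact absurd rfl h2) k hk
    (Nat.mod_eq_zero_of_dvd h3)

theorem E_p {p k n : ℕ} (hp : p.Prime) (h2 : p ≠ 2) (k0 : 0 < k) (h : p ^ k ∣ n.factorial) : 2 * p ^ k ≤ E2 n := by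
  haveI := Fact.mk hp
  have hk := (padicValNat_dvd_iff_le n.factorial_ne_zero).1 h
  have p3 : 3 ≤ p := by have := hp.two_le; omega
  have n0 : n ≠ 0 := by
    rintro rfl
    simp at hk; omega
  have l : (p - 1) * k < n := lt_of_le_of_lt (Nat.mul_le_mul_left _ hk) (sub_one_mul_padicValNat_factorial_lt_of_ne_zero p n0)
  by_cases h16 : n < 16
  · have : p < 17 := by have := Nat.le_mul_of_pos_right (p - 1) k0; omega
    have : k < 8 := by have := Nat.mul_le_mul_right k (show 2 ≤ p - 1 by omega); omega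
    refine (TT_spec n h16 p ‹_› k ‹_› hp h2 h).trans ?_
    have := Flow
    clear * - this h16
    interval_cases n <;> norm_num [TT, E2] <;> omega
  · have q : p ^ 2 ≤ 3 ^ (p - 1) := by
      obtain ⟨m, rfl⟩ := Nat.exists_eq_add_of_le p3
      rw [show 3 + m - 1 = m + 2 by omega]
      exact sq3 m
    have := F_sq2 n (by omega)
    refine le_trans ((Nat.pow_le_pow_iff_left (n := 2) (by norm_num)).1 (le_trans ?_ this)) (F_E n).1
    calc (2 * p ^ k) ^ 2 = 4 * (p ^ 2) ^ k := by ring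
      _ ≤ 4 * (3 ^ (p - 1)) ^ k := Nat.mul_le_mul_left _ (Nat.pow_le_pow_left q k)
      _ = 4 * 3 ^ ((p - 1) * k) := by rw [pow_mul]
      _ ≤ _ := Nat.mul_le_mul_left _ (Nat.pow_le_pow_right (by norm_num) (by omega))

theorem ar1 {r s n : ℕ} (q1 : 1 < r) (q2 : 1 < s) (ab : r * s ≤ n) : r < n ∧ s < n := ⟨by nlinarith, by nlinarith⟩
theorem ar2 {r s n : ℕ} (q1 : 1 < r) (q2 : 1 < s) (ab : r * s ≤ n) (hb : ¬ r + s + 2 ≤ n) :
    (r = 2 ∧ s = 2) ∨ (r = 2 ∧ s = 3) ∨ (r = 3 ∧ s = 2) := by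
  obtain ⟨r, rfl⟩ := Nat.exists_eq_add_of_lt q1
  obtain ⟨s, rfl⟩ := Nat.exists_eq_add_of_lt q2
  have : r + s ≤ 1 := by nlinarith [Nat.zero_le (r * s)]
  omega
theorem ar3 {a b c x y z : ℕ} (h : a ≤ b * c) (h1 : 2 * b ≤ x) (h2 : 2 * c ≤ y) (m : x * y ≤ 2 * z) : 2 * a ≤ z := by
  have := Nat.mul_le_mul h1 h2
  nlinarith

set_option maxHeartbeats 1600000 in
theorem boundE (n : ℕ) : ∀ (Ω : Type) [Fintype Ω] [DecidableEq Ω], Nat.card Ω = n → ∀ N : Subgroup (Equiv.Perm Ω),
    Group.IsNilpotent N → (∀ g ∈ N, Equiv.Perm.sign g = 1) → 2 * Nat.card N ≤ E2 n := by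
  induction n using Nat.strong_induction_on with
  | _ n ihE =>
  intro Ω _ _ hΩ N hN hs
  classical
  have ih : ∀ m < n, ∀ (Ω : Type) [Finite Ω], Nat.card Ω = m → ∀ N : Subgroup (Equiv.Perm Ω),
      Group.IsNilpotent N → Nat.card N ≤ F m := fun m _ => bound m
  by_cases h1 : Nat.card N = 1
  · rw [h1]; unfold E2
    have := Flow.1.trans (F_mono (a := 2) (b := n + 2) (by omega))
    split_ifs with h <;> first | omega | exact Flow.1.trans (F_mono (by omega))
  have n2 : 2 ≤ n := by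
    by_contra h
    have : Subsingleton Ω := by rw [← Finite.card_le_one_iff_subsingleton]; omega
    exact h1 (Nat.card_eq_one_iff_unique.2 ⟨inferInstance, ⟨1⟩⟩)
  have pg : ∀ p k : ℕ, p.Prime → Nat.card N = p ^ k → 2 * Nat.card N ≤ E2 n := fun p k hp e => by
    have d : Nat.card N ∣ n.factorial := by rw [← hΩ, ← Nat.card_perm]; exact Subgroup.card_subgroup_dvd_card N
    by_cases h2 : p = 2
    · subst h2
      haveI : Nontrivial Ω := by rw [← Finite.one_lt_card_iff_nontrivial]; omega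
      have d2 : Nat.card N ∣ Nat.card (alternatingGroup Ω) := Subgroup.card_dvd_of_le fun g hg => hs g hg
      have d3 := Nat.mul_dvd_mul_left 2 d2
      rw [two_mul_nat_card_alternatingGroup, Nat.card_perm, hΩ, e, ← pow_succ'] at d3
      rw [e, ← pow_succ']
      exact (F_p Nat.prime_two d3).trans (F_E n).1
    · rw [e] at d h1 ⊢
      exact E_p hp h2 (Nat.pos_of_ne_zero (by rintro rfl; simp at h1)) d
  have ext' : ∀ g h : N, (∀ a : Ω, g • a = h • a) → g = h := fun g h e => Subtype.ext (Equiv.ext e)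
  have cc : ∀ T : Set Ω, T.ncard + Tᶜ.ncard = n := fun T => by rw [Set.ncard_add_ncard_compl, hΩ]
  by_cases ht : ∀ x y : Ω, ∃ g : N, g • x = y
  swap
  · push Not at ht
    obtain ⟨x, y, hxy⟩ := ht
    have i1 : ∀ g : N, ∀ a ∈ orbit N x, g • a ∈ orbit N x := by
      rintro g _ ⟨k, rfl⟩; exact ⟨g * k, mul_smul _ _ _⟩
    have i2 : ∀ g : N, ∀ a, (g : Equiv.Perm Ω) a ∈ orbit N x ↔ a ∈ orbit N x := fun g a =>
      ⟨fun h => by have := i1 g⁻¹ (g • a) h; rwa [inv_smul_smul] at this, i1 g a⟩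
    have p1 : 0 < (orbit N x).ncard := (Set.ncard_pos (Set.toFinite _)).2 ⟨x, mem_orbit_self _⟩
    have p2 : 0 < (orbit N x)ᶜ.ncard := (Set.ncard_pos (Set.toFinite _)).2 ⟨y, fun ⟨g, e⟩ => hxy g e⟩
    have c := cc (orbit N x)
    generalize orbit N x = O at *
    let f1 : N →* Equiv.Perm {a // a ∈ O} := MonoidHom.mk' (fun g => (g : Equiv.Perm Ω).subtypePerm (i2 g)) fun _ _ => rfl
    let f2 : N →* Equiv.Perm {a // ¬ a ∈ O} := MonoidHom.mk' (fun g => (g : Equiv.Perm Ω).subtypePerm fun a => not_congr (i2 g a)) fun _ _ => rfl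
    have dec : ∀ g : N, (g : Equiv.Perm Ω) = Equiv.Perm.subtypeCongr (f1 g) (f2 g) := fun g => by
      ext a; by_cases ha : a ∈ O
      · rw [Equiv.Perm.subtypeCongr.left_apply _ _ ha]; rfl
      · rw [Equiv.Perm.subtypeCongr.right_apply _ _ ha]; rfl
    have sg : ∀ g : N, Equiv.Perm.sign (f1 g) = Equiv.Perm.sign (f2 g) := fun g => by
      have := hs g g.2
      rw [dec g, Equiv.Perm.sign_subtypeCongr] at this
      rcases Int.units_eq_one_or (Equiv.Perm.sign (f1 g)) with h | h <;> rcases Int.units_eq_one_or (Equiv.Perm.sign (f2 g)) with h' | h' <;>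
        simp_all
    have inj : ∀ g h : N, f1 g = f1 h → f2 g = f2 h → g = h := fun g h e e' => Subtype.ext (by rw [dec g, dec h, e, e'])
    have n1 := Group.nilpotent_of_surjective f1.rangeRestrict f1.rangeRestrict_surjective
    have n2 := Group.nilpotent_of_surjective f2.rangeRestrict f2.rangeRestrict_surjective
    have k1 : Nat.card {a // a ∈ O} = O.ncard := Nat.card_coe_set_eq O
    have k2 : Nat.card {a // ¬ a ∈ O} = Oᶜ.ncard := Nat.card_coe_set_eq Oᶜ
    by_cases ho : ∀ g : N, Equiv.Perm.sign (f1 g) = 1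
    · have c1 := ihE _ (by omega) _ k1 f1.range n1 (by rintro _ ⟨g, rfl⟩; exact ho g)
      have c2 := ihE _ (by omega) _ k2 f2.range n2 (by rintro _ ⟨g, rfl⟩; rw [← sg]; exact ho g)
      have := Nat.card_le_card_of_injective (fun g : N => (f1.rangeRestrict g, f2.rangeRestrict g)) fun g h e =>
        inj g h (congrArg (fun z => z.1.1) e) (congrArg (fun z => z.2.1) e)
      rw [Nat.card_prod] at this
      have m := E_mul _ _ p1 p2
      rw [c] at m
      exact ar3 this c1 c2 m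
    · push Not at ho
      obtain ⟨g0, hg0⟩ := ho
      have c1 := bound _ _ k1 f1.range n1
      have c2 := bound _ _ k2 f2.range n2
      have cross : ∀ g h : N, f1 (g * g0) = f1 h → f2 g = f2 h → False := fun g h e e' => hg0 (by
        have := congrArg Equiv.Perm.sign e
        rw [map_mul, map_mul, sg g, sg h, e'] at this
        exact mul_eq_left.1 this)
      have := Nat.card_le_card_of_injective
        (fun z : Bool × N => (f1.rangeRestrict (if z.1 then z.2 * g0 else z.2), f2.rangeRestrict z.2)) (by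
        rintro ⟨b, g⟩ ⟨b', h⟩ e
        have e1 : f1 (if b then g * g0 else g) = f1 (if b' then h * g0 else h) := congrArg (fun z => z.1.1) e
        have e2 : f2 g = f2 h := congrArg (fun z => z.2.1) e
        cases b <;> cases b' <;> simp only [if_true, if_false, Bool.false_eq_true] at e1
        · rw [inj g h e1 e2]
        · exact (cross h g e1.symm e2.symm).elim
        · exact (cross g h e1 e2).elim
        · rw [map_mul, map_mul, mul_left_inj] at e1; rw [inj g h e1 e2])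
      rw [Nat.card_prod, Nat.card_prod, Nat.card_eq_fintype_card (α := Bool), Fintype.card_bool] at this
      exact this.trans ((Nat.mul_le_mul c1 c2).trans ((c ▸ F_mul _ _).trans (F_E n).1))
  obtain ⟨p, hp, hd⟩ := Nat.exists_prime_and_dvd h1
  haveI := Fact.mk hp
  obtain ⟨P⟩ : Nonempty (Sylow p N) := inferInstance
  obtain ⟨Q, hQ⟩ := Subgroup.exists_right_complement'_of_coprime (N := (P : Subgroup N)) P.card_coprime_index
  have cop : (Nat.card (P : Subgroup N)).Coprime (Nat.card Q) := by rw [← hQ.symm.index_eq_card]; exact P.card_coprime_index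
  have co : ∀ a ∈ (P : Subgroup N), ∀ b ∈ Q, (orderOf a).Coprime (orderOf b) := fun a ha b hb =>
    (cop.coprime_dvd_left (Subgroup.orderOf_dvd_natCard _ ha)).coprime_dvd_right (Subgroup.orderOf_dvd_natCard _ hb)
  have cm : ∀ a ∈ (P : Subgroup N), ∀ b ∈ Q, Commute a b := fun a ha b hb => Cfsg.Agent.L.commute_of_isNilpotent_of_coprime (H := ⊤) trivial trivial (co a ha b hb)
  have cN := hQ.card_mul
  obtain ⟨k, hk⟩ := IsPGroup.iff_card.1 P.isPGroup'
  by_cases hQ1 : Q = ⊥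
  · exact pg p k hp (by rw [← cN, hQ1, Subgroup.card_bot, mul_one, hk])
  have hP1 : (P : Subgroup N) ≠ ⊥ := P.ne_bot_of_dvd_card hd
  have dec : ∀ g : N, ∃ a ∈ (P : Subgroup N), ∃ b ∈ Q, g = a * b := fun g => by
    obtain ⟨⟨a, b⟩, e⟩ := hQ.2 g; exact ⟨a, a.2, b, b.2, e.symm⟩
  obtain ⟨x⟩ : Nonempty Ω := by
    by_contra h
    rw [not_nonempty_iff] at h
    exact h1 (Nat.card_eq_one_iff_unique.2 ⟨⟨fun g h => ext' g h fun a => isEmptyElim a⟩, ⟨1⟩⟩)
  have side : ∀ A B : Subgroup N, (∀ a ∈ A, ∀ b ∈ B, Commute a b) → (∀ g : N, ∃ a ∈ A, ∃ b ∈ B, g = b * a) →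
      ∀ g ∈ A, ∀ h ∈ A, (∀ y ∈ orbit A x, g • y = h • y) → g = h := fun A B c d g hg h hh e => ext' g h fun y => by
    obtain ⟨k, rfl⟩ := ht x y
    obtain ⟨a, ha, b, hb, rfl⟩ := d k
    rw [← mul_smul, ← mul_smul, ← mul_assoc, ← mul_assoc, (c g hg b hb).eq, (c h hh b hb).eq]
    simp only [mul_smul]
    exact congrArg _ (e _ ⟨⟨a, ha⟩, rfl⟩)
  have sP := side P Q cm fun g => by obtain ⟨a, ha, b, hb, e⟩ := dec g; exact ⟨a, ha, b, hb, e.trans (cm a ha b hb).eq⟩
  have sQ := side Q P (fun a ha b hb => (cm b hb a ha).symm) fun g => by obtain ⟨a, ha, b, hb, e⟩ := dec g; exact ⟨b, hb, a, ha, e⟩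
  have mv : ∀ A : Subgroup N, A ≠ ⊥ → (∀ g ∈ A, ∀ h ∈ A, (∀ y ∈ orbit A x, g • y = h • y) → g = h) → ∃ a ∈ A, a • x ≠ x :=
    fun A hA s => by
      by_contra h
      push Not at h
      refine hA ((Subgroup.eq_bot_iff_forall _).2 fun g hg => s g hg 1 A.one_mem ?_)
      rintro _ ⟨k, rfl⟩
      show g • (k : N) • x = (1 : N) • (k : N) • x
      rw [h k k.2, h g hg, one_smul]
  have key : ∀ a ∈ (P : Subgroup N), ∀ b ∈ Q, a • x = b • x → a • x = x := fun a ha b hb e => by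
    have pw : ∀ i : ℕ, a ^ i • x = b ^ i • x := fun i => by
      induction i with
      | zero => simp
      | succ i ih => rw [pow_succ', mul_smul, ih, ← mul_smul, ((cm a ha b hb).pow_right i).eq, mul_smul, e, ← mul_smul, ← pow_succ]
    obtain ⟨m, hm⟩ := exists_pow_eq_self_of_coprime (co a ha b hb).symm
    have : a ^ orderOf b ∈ stabilizer N x := by rw [mem_stabilizer_iff, pw, pow_orderOf_eq_one, one_smul]
    have := (stabilizer N x).pow_mem this m
    rwa [hm] at this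
  obtain ⟨a, ha, ax⟩ := mv _ hP1 sP
  obtain ⟨b, hb, bx⟩ := mv _ hQ1 sQ
  have q1 : 1 < (orbit (P : Subgroup N) x).ncard := (Set.one_lt_ncard (Set.toFinite _)).2 ⟨_, ⟨⟨a, ha⟩, rfl⟩, x, mem_orbit_self _, ax⟩
  have q2 : 1 < (orbit Q x).ncard := (Set.one_lt_ncard (Set.toFinite _)).2 ⟨_, ⟨⟨b, hb⟩, rfl⟩, x, mem_orbit_self _, bx⟩
  have ab : (orbit (P : Subgroup N) x).ncard * (orbit Q x).ncard ≤ n := by
    rw [← Nat.card_coe_set_eq, ← Nat.card_coe_set_eq, ← Nat.card_prod, ← hΩ]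
    refine Nat.card_le_card_of_injective (fun z => ((z.1.2.choose : (P : Subgroup N)) : N) • ((z.2.2.choose : Q) : N) • x) ?_
    rintro ⟨y, z⟩ ⟨y', z'⟩ e
    have s1 := y.2.choose_spec
    have s2 := z.2.choose_spec
    have s3 := y'.2.choose_spec
    have s4 := z'.2.choose_spec
    dsimp only at e s1 s2 s3 s4
    generalize y.2.choose = c at *
    generalize z.2.choose = d at *
    generalize y'.2.choose = c' at *
    generalize z'.2.choose = d' at *
    have hc : (c' : N)⁻¹ * c ∈ (P : Subgroup N) := Subgroup.mul_mem _ (Subgroup.inv_mem _ c'.2) c.2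
    have e' : ((c' : N)⁻¹ * c) • x = ((d : N)⁻¹ * d') • x := by
      rw [mul_smul (d : N)⁻¹, eq_inv_smul_iff, ← mul_smul, ← (cm _ hc d d.2).eq, mul_smul, mul_smul, e, inv_smul_smul]
    have k1 := key _ hc _ (Subgroup.mul_mem _ (Subgroup.inv_mem _ d.2) d'.2) e'
    have k2 := e'.symm.trans k1
    rw [mul_smul, inv_smul_eq_iff] at k1 k2
    exact Prod.ext (Subtype.ext (s1.symm.trans (k1.trans s3))) (Subtype.ext (s2.symm.trans (k2.symm.trans s4)))
  obtain ⟨K1, _, f1, c1, e1⟩ := act ih (H := (P : Subgroup N)) (orbit (P : Subgroup N) x)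
    (by rintro g _ ⟨k, rfl⟩; exact ⟨g * k, mul_smul _ _ _⟩) (ar1 q1 q2 ab).1
  obtain ⟨K2, _, f2, c2, e2⟩ := act ih (H := Q) (orbit Q x) (by rintro g _ ⟨k, rfl⟩; exact ⟨g * k, mul_smul _ _ _⟩) (ar1 q1 q2 ab).2
  have l1 := Nat.card_le_card_of_injective f1 fun g h e => Subtype.ext (sP g g.2 h h.2 (e1 g h e))
  have l2 := Nat.card_le_card_of_injective f2 fun g h e => Subtype.ext (sQ g g.2 h h.2 (e2 g h e))
  rw [← cN]
  refine le_trans (Nat.mul_le_mul_left 2 (Nat.mul_le_mul (l1.trans c1) (l2.trans c2))) (le_trans ?_ (F_E n).1)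
  generalize (orbit (P : Subgroup N) x).ncard = r at *
  generalize (orbit Q x).ncard = s at *
  have fu := Fup
  have fl := Flow
  by_cases hb : r + s + 2 ≤ n
  · have := (F_mul (r + s) 2).trans (F_mono hb)
    have := F_mul r s
    rw [fu.2.2.1] at *; omega
  · have := ar2 q1 q2 ab hb
    rcases this with ⟨rfl, rfl⟩ | ⟨rfl, rfl⟩ | ⟨rfl, rfl⟩
    · have := F_mono (show 4 ≤ n by omega); rw [fu.2.2.1]; omega
    · have := F_mono (show 6 ≤ n by omega); rw [fu.2.2.1, fu.2.2.2.1]; omega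
    · have := F_mono (show 6 ≤ n by omega); rw [fu.2.2.1, fu.2.2.2.1]; omega


/-- Let n be a natural number not congruent to 3 modulo 4, with n ∉ {5, 6, 9}. Then every nilpotent subgroup of the alternating group on n letters has order at most the order of a Sylow 2-subgroup of the alternating group (so the nilpotent subgroups of largest order are exactly the Sylow 2-subgroups). -/
theorem result  (n : ℕ) (hn : n % 4 ≠ 3)
    (h5 : n ≠ 5) (h6 : n ≠ 6) (h9 : n ≠ 9)
    (N : Subgroup (alternatingGroup (Fin n))) (hN : Group.IsNilpotent N)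
    (P : Sylow 2 (alternatingGroup (Fin n))) :
    Nat.card N ≤ Nat.card P := by
  by_cases h1 : n ≤ 1
  · have : Subsingleton (Fin n) := by rw [← Finite.card_le_one_iff_subsingleton]; simpa using h1
    rw [Nat.card_eq_one_iff_unique.2 ⟨inferInstance, ⟨1⟩⟩]; exact Nat.card_pos
  haveI : Nontrivial (Fin n) := Fin.nontrivial_iff_two_le.2 (by omega)
  have e := (N.equivMapOfInjective (alternatingGroup (Fin n)).subtype Subtype.val_injective)
  have := boundE n (Fin n) (by simp) (N.map (alternatingGroup (Fin n)).subtype)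
    (Group.nilpotent_of_surjective e.toMonoidHom e.surjective) (by rintro _ ⟨g, -, rfl⟩; exact g.2)
  rw [← Nat.card_congr e.toEquiv, E2, if_neg h1, if_neg (by omega), if_neg h5, if_neg h6, if_neg h9, (F_w n).2 hn] at this
  have t := two_mul_nat_card_alternatingGroup (α := Fin n)
  rw [Nat.card_perm, Nat.card_eq_fintype_card (α := Fin n), Fintype.card_fin] at t
  rw [← t, padicValNat.mul (by norm_num) Nat.card_pos.ne', padicValNat_self, pow_add] at this
  rw [P.card_eq_multiplicity, Nat.factorization_def _ Nat.prime_two]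
  omega

end Cfsg.Agent.S2255
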