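import Cfsg.Statements.S2257
import Mathlib
import Cfsg.Agent.H7.Sol

set_option autoImplicit false
open Cfsg

namespace Cfsg.Agent.S2257

open Cfsg.Agent.H4 Cfsg.Agent.H7 Subgroup Matrix
open scoped MatrixGroups

/-- Let G = PSL_2(F) with F a field of order q = 2^p, p prime, and for x ∈ G call the solubilizer of x the set of y ∈ G such that x and y generate a solvable subgroup. Then the solubilizer of an involution has 3q(q − 1) elements; that of a non-identity element of order dividing q − 1 has 2q(q − 1) elements; and that of a non-identity element of order dividing q + 1 has 2(q + 1) elements. -/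
theorem result (p : ℕ) (hp : p.Prime) {F : Type*} [Field F] [Fintype F]
    (hF : Fintype.card F = 2 ^ p) (x : Matrix.ProjectiveSpecialLinearGroup (Fin 2) F) :
    (orderOf x = 2 → Nat.card {y : Matrix.ProjectiveSpecialLinearGroup (Fin 2) F // Group.IsSolvable ↥(Subgroup.closure ({x, y} : Set (Matrix.ProjectiveSpecialLinearGroup (Fin 2) F)))} = 3 * 2 ^ p * (2 ^ p - 1)) ∧
    (x ≠ 1 → orderOf x ∣ 2 ^ p - 1 → Nat.card {y : Matrix.ProjectiveSpecialLinearGroup (Fin 2) F // Group.IsSolvable ↥(Subgroup.closure ({x, y} : Set (Matrix.ProjectiveSpecialLinearGroup (Fin 2) F)))} = 2 * 2 ^ p * (2 ^ p - 1)) ∧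
    (x ≠ 1 → orderOf x ∣ 2 ^ p + 1 → Nat.card {y : Matrix.ProjectiveSpecialLinearGroup (Fin 2) F // Group.IsSolvable ↥(Subgroup.closure ({x, y} : Set (Matrix.ProjectiveSpecialLinearGroup (Fin 2) F)))} = 2 * (2 ^ p + 1)) := by
  have hq : (∃ r : ℕ, r.Prime ∧ Fintype.card F = 2 ^ r) ∨
    (∃ r : ℕ, r.Prime ∧ r ≠ 2 ∧ Fintype.card F = 3 ^ r) := Or.inl ⟨p, hp, hF⟩
  obtain ⟨l, _, _⟩ := exists_char F
  obtain rfl := char_eq_of_pow l Nat.prime_two hF
  have h2 : (2 : F) = 0 := by exact_mod_cast CharP.cast_eq_zero F 2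
  have hev : Even (Fintype.card F) := even_card_iff.2 h2
  have hL : LL F = ⊤ := LL_eq_top_of_even hev
  have hi : (LL F).index = 1 := by rw [hL, index_top]
  have h4 : 4 ≤ Fintype.card F := MinQ.four_le (Or.inl ⟨p, hp, hF⟩)
  rw [card_sol, ← hF, ← orderOf_psl, Ne, ← psl_eq_one]
  have hx := psl_mem_LL x
  generalize Matrix.ProjectiveSpecialLinearGroup.toPGL x = x at *
  set D := dact F 2
  have ss : x ≠ 1 → ∀ n, Odd n → orderOf x ∣ n → x ^ 2 ≠ 1 := fun x1 n hn hd h => by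
    rw [orderOf_eq_prime h x1] at hd
    exact (Nat.not_even_iff_odd.2 hn) (even_iff_two_dvd.2 hd)
  have o1 : Odd (Fintype.card F - 1) := Nat.Even.sub_odd (by omega) hev odd_one
  have o2 : Odd (Fintype.card F + 1) := hev.add_one
  have cop : x ≠ 1 → orderOf x ∣ Fintype.card F - 1 → orderOf x ∣ Fintype.card F + 1 → False := fun x1 h1 h3 => by
    have h5 : orderOf x ∣ 2 := by
      have := Nat.dvd_sub h3 h1
      rwa [show Fintype.card F + 1 - (Fintype.card F - 1) = 2 by omega] at this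
    exact ss x1 _ o1 h1 (orderOf_dvd_iff_pow_eq_one.1 h5)
  have tor : ∀ a b : Pt F, x • a = a → x • b = b → orderOf x ∣ Nat.card ↥(St (LL F) a ⊓ St (LL F) b) :=
    fun a b ha hb => Subgroup.orderOf_dvd_natCard _ (show x ∈ St (LL F) a ⊓ St (LL F) b from ⟨⟨hx, ha⟩, hx, hb⟩)
  refine ⟨fun ho => ?_, fun x1 ho => ?_, fun x1 ho => ?_⟩
  · have x2 : x ^ 2 = 1 := orderOf_dvd_iff_pow_eq_one.1 (dvd_of_eq ho)
    have x1 : x ≠ 1 := by rintro rfl; simp at ho
    obtain ⟨a, ha⟩ := D.fix x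
    have hU : x ∈ D.U a := ⟨ha, x2⟩
    have hr : Rat a := rat_of_U hU x1
    obtain ⟨n, hn, hn'⟩ := ncard_sq_one hx x2 x1
    rw [D.centralizer_U x1 hU, card_U_rat hr, mul_comm] at hn'
    replace hn' := Nat.eq_of_mul_eq_mul_left (by omega) hn'
    set I : Set PGL(2, F) := {y | y ∈ LL F ∧ y ^ 2 = 1} with hI
    have e : SolSet x = ((St (LL F) a : Set _) ∪ I) ∪ {y | x * y ∈ I} := by
      ext y
      constructor
      · rintro ⟨hy, hs⟩
        rcases sol_cases hq (V4_le hx hy) hs with ⟨z, hz, h1⟩ | ⟨z, w, hzw, h1⟩ | ⟨h3, -⟩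
        · obtain rfl := D.eq_of_mem_U hU x1 (h1 x (left_mem_V4 _ _))
          exact Or.inl (Or.inl ⟨hy, h1 y (right_mem_V4 _ _)⟩)
        · rcases h1 (left_mem_V4 _ _) with ⟨h3, h5⟩ | ⟨h3, h5⟩
          · exact (hzw.1 ((D.eq_of_mem_U hU x1 h3).trans (D.eq_of_mem_U hU x1 h5).symm)).elim
          · rcases h1 (right_mem_V4 _ _) with ⟨h6, h7⟩ | ⟨h6, h7⟩
            · exact Or.inr ⟨mul_mem hx hy, D.swap_sq hzw.1 (by rw [mul_smul, h6, h3]) (by rw [mul_smul, h7, h5])⟩
            · exact Or.inl (Or.inr ⟨hy, D.swap_sq hzw.1 h6 h7⟩)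
        · exact (h3 h2).elim
      · rintro ((hy | hy) | hy)
        · exact ⟨hy.1, solv_of_fix D ha hy.2⟩
        · exact ⟨hy.1, solv_of_sq D x2 hy.2⟩
        · exact ⟨hL ▸ mem_top _, V4_mul_left x y ▸ solv_of_sq D x2 hy.2⟩
    have e1 := Set.ncard_union_add_ncard_inter (St (LL F) a : Set PGL(2, F)) I
    have e2 := Set.ncard_union_add_ncard_inter ((St (LL F) a : Set PGL(2, F)) ∪ I) {y | x * y ∈ I}
    have e3 : (St (LL F) a : Set PGL(2, F)) ∩ I = D.U a :=
      Set.ext fun y => ⟨fun h => ⟨h.1.2, h.2.2⟩, fun h => ⟨⟨hL ▸ mem_top _, h.1⟩, hL ▸ mem_top _, h.2⟩⟩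
    have e4 : ((St (LL F) a : Set PGL(2, F)) ∪ I) ∩ {y | x * y ∈ I} = D.U a := by
      ext y
      constructor
      · rintro ⟨hy | hy, h1⟩
        · have : x * y ∈ D.U a := ⟨by rw [mul_smul, hy.2, ha], h1.2⟩
          simpa using mul_mem (inv_mem hU) this
        · refine D.mem_U_of_comm x1 hU ?_
          have h5 := inv_eq_of_mul_eq_one_right ((sq _).symm.trans h1.2)
          rw [_root_.mul_inv_rev, inv_eq_of_mul_eq_one_right ((sq _).symm.trans x2),
            inv_eq_of_mul_eq_one_right ((sq _).symm.trans hy.2)] at h5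
          exact h5
      · intro hy
        exact ⟨Or.inl ⟨hL ▸ mem_top _, hy.1⟩, hL ▸ mem_top _, (mul_mem hU hy).2⟩
    have e5 := card_St_rat (le_refl (LL F)) hr
    rw [hi, one_mul] at e5
    rw [e4, ← e, ncard_mul_pre, ncard_sub, card_U_rat hr, hn, hn'] at e2
    rw [e3, ncard_sub, ncard_sub, card_U_rat hr, e5, hn, hn'] at e1
    obtain ⟨u, hu⟩ : ∃ u, Fintype.card F = u + 1 := ⟨Fintype.card F - 1, by omega⟩
    rw [hu] at e1 e2 ⊢
    rw [show (u + 1) ^ 2 - 1 = u * u + 2 * u by apply Nat.sub_eq_of_eq_add; ring] at e1 e2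
    rw [Nat.add_sub_cancel] at e1 ⊢
    nlinarith
  · obtain ⟨a, b, h, ha, hb⟩ := exists_tp_of (p := 2) (ss x1 _ o1 ho)
    have hr : Rat a := by
      by_contra hr
      have := h.card_qd le_rfl hr
      rw [hi, one_mul] at this
      exact cop x1 ho (this ▸ tor a b ha hb)
    have := (sol_ss hq hx (ss x1 _ o1 ho) (fun h => (h h2).elim) h ha hb).1 hr
    rw [hi, one_mul] at this
    rw [this, mul_assoc]
  · obtain ⟨a, b, h, ha, hb⟩ := exists_tp_of (p := 2) (ss x1 _ o2 ho)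
    have hr : ¬ Rat a := by
      intro hr
      have := h.card_rat le_rfl hr
      rw [hi, one_mul] at this
      exact cop x1 (this ▸ tor a b ha hb) ho
    have := (sol_ss hq hx (ss x1 _ o2 ho) (fun h => (h h2).elim) h ha hb).2 hr
    rwa [hi, one_mul] at this

end Cfsg.Agent.S2257
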