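import Cfsg.Statements.S2258
import Mathlib
import Cfsg.Agent.H7.Sol

set_option autoImplicit false
open Cfsg

namespace Cfsg.Agent.S2258

open Cfsg.Agent.H4 Cfsg.Agent.H7 Subgroup Matrix
open scoped MatrixGroups

/-- Let G = PSL_2(F) with F a field of order q = 3^p, p an odd prime, and for x ∈ G call the solubilizer of x the set of y ∈ G such that x and y generate a solvable subgroup. Then the solubilizer of an involution has q(q + 1) elements; that of an element of order 3 has q(q + 5)/2 elements; that of an element of order neither 1 nor 2 dividing q − 1 has q(q − 1) elements; and that of an element of order neither 1 nor 2 dividing q + 1 has q + 1 elements. -/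
theorem result (p : ℕ) (hp : p.Prime) (hodd : Odd p) {F : Type*} [Field F] [Fintype F]
    (hF : Fintype.card F = 3 ^ p) (x : Matrix.ProjectiveSpecialLinearGroup (Fin 2) F) :
    (orderOf x = 2 → Nat.card {y : Matrix.ProjectiveSpecialLinearGroup (Fin 2) F // Group.IsSolvable ↥(Subgroup.closure ({x, y} : Set (Matrix.ProjectiveSpecialLinearGroup (Fin 2) F)))} = 3 ^ p * (3 ^ p + 1)) ∧
    (orderOf x = 3 → 2 * Nat.card {y : Matrix.ProjectiveSpecialLinearGroup (Fin 2) F // Group.IsSolvable ↥(Subgroup.closure ({x, y} : Set (Matrix.ProjectiveSpecialLinearGroup (Fin 2) F)))} = 3 ^ p * (3 ^ p + 5)) ∧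
    (x ≠ 1 → orderOf x ≠ 2 → orderOf x ∣ 3 ^ p - 1 → Nat.card {y : Matrix.ProjectiveSpecialLinearGroup (Fin 2) F // Group.IsSolvable ↥(Subgroup.closure ({x, y} : Set (Matrix.ProjectiveSpecialLinearGroup (Fin 2) F)))} = 3 ^ p * (3 ^ p - 1)) ∧
    (x ≠ 1 → orderOf x ≠ 2 → orderOf x ∣ 3 ^ p + 1 → Nat.card {y : Matrix.ProjectiveSpecialLinearGroup (Fin 2) F // Group.IsSolvable ↥(Subgroup.closure ({x, y} : Set (Matrix.ProjectiveSpecialLinearGroup (Fin 2) F)))} = 3 ^ p + 1) := by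
  have hp2 : p ≠ 2 := by rintro rfl; exact absurd hodd (by decide)
  have hq : (∃ r : ℕ, r.Prime ∧ Fintype.card F = 2 ^ r) ∨
    (∃ r : ℕ, r.Prime ∧ r ≠ 2 ∧ Fintype.card F = 3 ^ r) := Or.inr ⟨p, hp, hp2, hF⟩
  obtain ⟨l, _, _⟩ := exists_char F
  obtain rfl := char_eq_of_pow l Nat.prime_three hF
  have h2 : (2 : F) ≠ 0 := two_ne_zero_of_char (p := 3) (by norm_num)
  have hi : (LL F).index = 2 := index_LL_odd (odd_card_iff.2 h2)
  have h8 : Fintype.card F % 8 = 3 := hF ▸ three_pow_mod_eight hodd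
  have h3 : 3 ∣ Fintype.card F := char_dvd_card F 3
  rw [card_sol, ← hF, ← orderOf_psl, Ne, ← psl_eq_one]
  have hx := psl_mem_LL x
  generalize Matrix.ProjectiveSpecialLinearGroup.toPGL x = x at *
  set D := dact F 3
  have tor : ∀ a b : Pt F, x • a = a → x • b = b → orderOf x ∣ Nat.card ↥(St (LL F) a ⊓ St (LL F) b) :=
    fun a b ha hb => Subgroup.orderOf_dvd_natCard _ (show x ∈ St (LL F) a ⊓ St (LL F) b from ⟨⟨hx, ha⟩, hx, hb⟩)
  have ss2 : x ≠ 1 → orderOf x ≠ 2 → x ^ 2 ≠ 1 := fun x1 h h' => h (orderOf_eq_prime h' x1)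
  have ss3 : x ≠ 1 → ∀ n, ¬ 3 ∣ n → orderOf x ∣ n → x ^ 3 ≠ 1 := fun x1 n hn hd h => by
    rw [orderOf_eq_prime h x1] at hd
    exact hn hd
  have cop : x ≠ 1 → orderOf x ≠ 2 → orderOf x ∣ Fintype.card F - 1 → orderOf x ∣ Fintype.card F + 1 → False :=
    fun x1 x2 h1 h3 => by
      have h5 : orderOf x ∣ 2 := by
        have := Nat.dvd_sub h3 h1
        rwa [show Fintype.card F + 1 - (Fintype.card F - 1) = 2 by omega] at this
      exact ss2 x1 x2 (orderOf_dvd_iff_pow_eq_one.1 h5)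
  refine ⟨fun ho => ?_, fun ho => ?_, fun x1 x2 ho => ?_, fun x1 x2 ho => ?_⟩
  · have x2 : x ^ 2 = 1 := orderOf_dvd_iff_pow_eq_one.1 (dvd_of_eq ho)
    have x1 : x ≠ 1 := by rintro rfl; simp at ho
    have xi : x⁻¹ = x := inv_eq_of_mul_eq_one_right ((sq _).symm.trans x2)
    obtain ⟨a, b, h, ha, hb⟩ := exists_tp_of (p := 3) fun h => x1 (eq_one_of_two_three x2 h)
    have hr : ¬ Rat a := by
      intro hr
      have h4 := h.card_rat le_rfl hr
      have h5 := tor a b ha hb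
      rw [hi] at h4
      rw [ho] at h5
      omega
    have hr' : ¬ Rat b := by
      rcases h.2 with h | h
      exacts [(hr h.1).elim, h.2.1.1]
    have hT := h.card_qd le_rfl hr
    rw [hi] at hT
    have hC := h.card_normalizer (le_refl (LL F))
    have hc : centralizer ({x} : Set PGL(2, F)) = PS _ a b := D.centralizer_PS h.1 x1 x2 ha hb
    have hc' : Nat.card (centralizer ({x} : Set PGL(2, F))) = 2 * (Fintype.card F + 1) := by
      have h4 := h.card_normalizer (Γ := ⊤) le_top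
      have h5 := h.card_qd (Γ := ⊤) le_top hr
      rw [index_top, one_mul] at h5
      rw [top_inf_eq, h5] at h4
      rw [hc, h4]
    have comm : ∀ y, y ∈ PS PGL(2, F) a b ↔ y * x = x * y := fun y => by
      rw [← hc, mem_centralizer_singleton_iff]
    obtain ⟨n, hn, hn'⟩ := ncard_sq_one hx x2 x1
    have hJ := ncard_TR_left hx x2 x1
    rw [hc'] at hn' hJ
    set I : Set PGL(2, F) := {y | y ∈ LL F ∧ y ^ 2 = 1} with hI
    set J : Set PGL(2, F) := {y | TR y x} with hJ'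
    set C : Subgroup PGL(2, F) := LL F ⊓ PS _ a b with hCdef
    set T : Subgroup PGL(2, F) := St (LL F) a ⊓ St (LL F) b with hTdef
    have e : SolSet x = ((I ∪ {y | x * y ∈ I}) ∪ C) ∪ J := by
      ext y
      constructor
      · rintro ⟨hy, hs⟩
        rcases sol_cases hq (V4_le hx hy) hs with ⟨z, hz, h1⟩ | ⟨z, w, hzw, h1⟩ | ⟨-, ⟨e⟩⟩
        · rcases D.fix_or x1 h.1 ha hb (h1 x (left_mem_V4 _ _)) with rfl | rfl
          exacts [(hr hz).elim, (hr' hz).elim]
        · left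
          rcases h1 (left_mem_V4 _ _) with ⟨h3, h5⟩ | ⟨h3, h5⟩
          · right
            refine ⟨hy, (comm y).2 (mem_centralizer_singleton_iff.1 ?_)⟩
            rw [D.centralizer_PS hzw.1 x1 x2 h3 h5]
            exact h1 (right_mem_V4 _ _)
          · left
            rcases h1 (right_mem_V4 _ _) with ⟨h6, h7⟩ | ⟨h6, h7⟩
            · exact Or.inr ⟨mul_mem hx hy, D.swap_sq hzw.1 (by rw [mul_smul, h6, h3]) (by rw [mul_smul, h7, h5])⟩
            · exact Or.inl ⟨hy, D.swap_sq hzw.1 h6 h7⟩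
        · rcases A4_inv_cases e (left_mem_V4 _ _) (right_mem_V4 _ _) x2 x1 with h | h
          · exact Or.inl (Or.inl (Or.inl ⟨hy, h⟩))
          · exact Or.inr h
      · rintro (((hy | hy) | hy) | hy)
        · exact ⟨hy.1, solv_of_sq D x2 hy.2⟩
        · exact ⟨by simpa using mul_mem (inv_mem hx) hy.1, V4_mul_left x y ▸ solv_of_sq D x2 hy.2⟩
        · exact ⟨hy.1, solv_of_PS D h.1 (Or.inl ⟨ha, hb⟩) hy.2⟩
        · exact ⟨hy.mem_LL.1, solv_of_le (V4_le (right_mem_V4 _ _) (left_mem_V4 _ _)) (hy.solv h2)⟩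
    have sqc : ∀ y, y * x = x * y → (x * y) ^ 2 = y ^ 2 := fun y h => by
      rw [Commute.mul_pow (show Commute x y from h.symm), x2, one_mul]
    have e1 : I ∩ {y | x * y ∈ I} = ((C : Set _) \ T) ∪ {1, x} := by
      ext y
      constructor
      · rintro ⟨hy, h1⟩
        have h5 := inv_eq_of_mul_eq_one_right ((sq _).symm.trans h1.2)
        rw [_root_.mul_inv_rev, xi, inv_eq_of_mul_eq_one_right ((sq _).symm.trans hy.2)] at h5
        by_cases hT : y ∈ T
        · right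
          by_cases y1 : y = 1
          · exact Or.inl y1
          · exact Or.inr (D.eq_of_invol h.1 hT.1.2 hT.2.2 ha hb y1 x1 ((sq _).symm.trans hy.2) ((sq _).symm.trans x2))
        · exact Or.inl ⟨⟨hy.1, (comm y).2 h5⟩, hT⟩
      · rintro (⟨hy, hT⟩ | rfl | rfl)
        · have : y ^ 2 = 1 := by
            rcases hy.2 with ⟨h3, h5⟩ | ⟨h3, h5⟩
            · exact (hT ⟨⟨hy.1, h3⟩, hy.1, h5⟩).elim
            · exact D.swap_sq h.1 h3 h5
          exact ⟨⟨hy.1, this⟩, mul_mem hx hy.1, by rw [sqc y ((comm y).1 hy.2), this]⟩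
        · exact ⟨⟨one_mem _, one_pow _⟩, by rw [Set.mem_setOf_eq, mul_one]; exact ⟨hx, x2⟩⟩
        · exact ⟨⟨hx, x2⟩, mul_mem hx hx, by rw [← sq, x2, one_pow]⟩
    have e2 : (I ∪ {y | x * y ∈ I}) ∩ C = I ∩ {y | x * y ∈ I} := by
      ext y
      constructor
      · rintro ⟨hy | hy, h1⟩
        · exact ⟨hy, mul_mem hx hy.1, by rw [sqc y ((comm y).1 h1.2), hy.2]⟩
        · exact ⟨⟨h1.1, by rw [← sqc y ((comm y).1 h1.2), hy.2]⟩, hy⟩
      · intro hy
        refine ⟨Or.inl hy.1, ?_⟩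
        rw [e1] at hy
        rcases hy with hy | rfl | rfl
        exacts [hy.1, one_mem C, ⟨hx, Or.inl ⟨ha, hb⟩⟩]
    have e3 : Disjoint ((I ∪ {y | x * y ∈ I}) ∪ C) J := by
      rw [Set.disjoint_left]
      rintro y ((hy | hy) | hy) h1
      · exact h1.u1 (eq_one_of_two_three hy.2 h1.u3)
      · have h4 : (x * y) ^ 3 = 1 := by
          rw [show x * y = x * (y * x) * x⁻¹ by group, conj_pow, h1.ut]; simp
        have h5 := eq_one_of_two_three hy.2 h4
        exact h1.ut1 (mul_eq_one_comm.1 h5)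
      · have h4 := h1.ut
        rw [Commute.mul_pow ((comm y).1 hy.2), h1.u3, one_mul] at h4
        exact x1 (eq_one_of_two_three x2 h4)
    have hTC : (T : Set PGL(2, F)) ⊆ C := fun y hy => ⟨hy.1.1, Or.inl ⟨hy.1.2, hy.2.2⟩⟩
    have e4 : (I ∩ {y | x * y ∈ I}).ncard = Nat.card T + 2 := by
      rw [e1, Set.ncard_union_eq, Set.ncard_sdiff hTC, ncard_sub, ncard_sub, hC, Set.ncard_pair x1.symm]
      · omega
      · rw [Set.disjoint_left]
        rintro y hy (rfl | rfl)
        · exact hy.2 (one_mem T)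
        · exact hy.2 ⟨⟨hx, ha⟩, hx, hb⟩
    have e5 := Set.ncard_union_add_ncard_inter I {y | x * y ∈ I}
    have e6 := Set.ncard_union_add_ncard_inter (I ∪ {y | x * y ∈ I}) C
    rw [e2, e4, ncard_sub, hC] at e6
    rw [e4, ncard_mul_pre, hn] at e5
    rw [e, Set.ncard_union_eq e3, hJ]
    obtain ⟨u, hu⟩ : ∃ u, Fintype.card F = u + 1 := ⟨Fintype.card F - 1, by omega⟩
    rw [hu] at hn' ⊢
    rw [show (u + 1) ^ 2 - 1 = u * (u + 1 + 1) by apply Nat.sub_eq_of_eq_add; ring, ← mul_assoc, ← mul_assoc] at hn'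
    replace hn' := Nat.eq_of_mul_eq_mul_right (by omega) hn'
    nlinarith
  · have x3 : x ^ 3 = 1 := orderOf_dvd_iff_pow_eq_one.1 (dvd_of_eq ho)
    have x1 : x ≠ 1 := by rintro rfl; simp at ho
    obtain ⟨a, ha⟩ := D.fix x
    have hU : x ∈ D.U a := ⟨ha, x3⟩
    have hr : Rat a := rat_of_U hU x1
    have hJ := ncard_TR_right x3 x1
    rw [D.centralizer_U x1 hU, card_U_rat hr] at hJ
    set J : Set PGL(2, F) := {y | TR x y} with hJ'
    have hS := card_St_rat (le_refl (LL F)) hr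
    rw [hi] at hS
    have hxS : x ∈ St (LL F) a := ⟨hx, ha⟩
    have e : SolSet x = (((St (LL F) a : Set _) ∪ J) ∪ {y | x * y ∈ J}) ∪ {y | x⁻¹ * y ∈ J} := by
      ext y
      constructor
      · rintro ⟨hy, hs⟩
        rcases sol_cases hq (V4_le hx hy) hs with ⟨z, hz, h1⟩ | ⟨z, w, hzw, h1⟩ | ⟨-, ⟨e⟩⟩
        · obtain rfl := D.eq_of_mem_U hU x1 (h1 x (left_mem_V4 _ _))
          exact Or.inl (Or.inl (Or.inl ⟨hy, h1 y (right_mem_V4 _ _)⟩))
        · rcases h1 (left_mem_V4 _ _) with ⟨h3, h5⟩ | ⟨h3, h5⟩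
          · exact (hzw.1 ((D.eq_of_mem_U hU x1 h3).trans (D.eq_of_mem_U hU x1 h5).symm)).elim
          · exact (x1 (eq_one_of_two_three (D.swap_sq hzw.1 h3 h5) x3)).elim
        · rcases A4_three_cases e (left_mem_V4 _ _) (right_mem_V4 _ _) x3 x1 with h | h | h | h
          · exact Or.inl (Or.inl (Or.inl (zpowers_le.2 hxS h)))
          · exact Or.inl (Or.inl (Or.inr h))
          · exact Or.inl (Or.inr h)
          · exact Or.inr h
      · rintro (((hy | hy) | hy) | hy)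
        · exact ⟨hy.1, solv_of_fix D ha hy.2⟩
        · exact ⟨hy.mem_LL.2, hy.solv h2⟩
        · exact ⟨by simpa using mul_mem (inv_mem hx) hy.mem_LL.2, V4_mul_left x y ▸ hy.solv h2⟩
        · exact ⟨by simpa using mul_mem hx hy.mem_LL.2, V4_inv_mul_left x y ▸ hy.solv h2⟩
    have hJS : ∀ t ∈ J, t ∉ St (LL F) a := fun t ht hs => by
      have h4 := Subgroup.orderOf_dvd_natCard _ hs
      rw [orderOf_eq_prime ht.t2 ht.t1] at h4
      obtain ⟨m, hm⟩ := h4
      have h5 : 4 ∣ Fintype.card F * (Fintype.card F - 1) := ⟨m, by omega⟩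
      have h6 := (show Nat.Coprime 4 (Fintype.card F) from
        Nat.Coprime.pow_left 2 ((Nat.Prime.coprime_iff_not_dvd Nat.prime_two).2 (by omega))).dvd_of_dvd_mul_left h5
      omega
    have d1 : Disjoint (St (LL F) a : Set PGL(2, F)) J := Set.disjoint_left.2 fun y h1 h2 => hJS y h2 h1
    have d2 : Disjoint ((St (LL F) a : Set PGL(2, F)) ∪ J) {y | x * y ∈ J} := by
      rw [Set.disjoint_left]
      rintro y (hy | hy) h1
      · exact hJS _ h1 (mul_mem hxS hy)
      · exact h1.t1 (eq_one_of_two_three h1.t2 hy.ut)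
    have d3 : Disjoint (((St (LL F) a : Set PGL(2, F)) ∪ J) ∪ {y | x * y ∈ J}) {y | x⁻¹ * y ∈ J} := by
      rw [Set.disjoint_left]
      rintro y ((hy | hy) | hy) h1
      · exact hJS _ h1 (mul_mem (inv_mem hxS) hy)
      · exact h1.t1 (eq_one_of_two_three h1.t2 hy.inv.ut)
      · refine hy.t1 (eq_one_of_two_three hy.t2 ?_)
        have : x * y = x⁻¹ * (x⁻¹ * y) := by
          rw [← one_mul (x⁻¹ * (x⁻¹ * y)), ← x3]; group
        rw [this]; exact h1.inv.ut
    rw [e, Set.ncard_union_eq d3, Set.ncard_union_eq d2, Set.ncard_union_eq d1, ncard_mul_pre, ncard_mul_pre, hJ,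
      ncard_sub]
    obtain ⟨u, hu⟩ : ∃ u, Fintype.card F = u + 1 := ⟨Fintype.card F - 1, by omega⟩
    rw [hu] at hS ⊢
    rw [Nat.add_sub_cancel] at hS
    nlinarith
  · have x3 := ss3 x1 _ (by omega) ho
    obtain ⟨a, b, h, ha, hb⟩ := exists_tp_of (p := 3) x3
    have hr : Rat a := by
      by_contra hr
      have := h.card_qd le_rfl hr
      exact cop x1 x2 ho (this ▸ (tor a b ha hb).mul_left _)
    have := (sol_ss hq hx (ss2 x1 x2) (fun _ => x3) h ha hb).1 hr
    rw [hi] at this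
    omega
  · have x3 := ss3 x1 _ (by omega) ho
    obtain ⟨a, b, h, ha, hb⟩ := exists_tp_of (p := 3) x3
    have hr : ¬ Rat a := by
      intro hr
      have := h.card_rat le_rfl hr
      exact cop x1 x2 (this ▸ (tor a b ha hb).mul_left _) ho
    have := (sol_ss hq hx (ss2 x1 x2) (fun _ => x3) h ha hb).2 hr
    rw [hi] at this
    omega

end Cfsg.Agent.S2258
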