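import Cfsg.Statements.S2269
import Cfsg.Agent.H9.AbS

set_option autoImplicit false
open Cfsg

namespace Cfsg.Agent.S2269

open Cfsg.Agent Cfsg.Agent.H9

/-- Let n ≥ 5 and let P be an abelian Sylow p-subgroup of the alternating group A_n. Then N(P)/C(P) (taken in A_n) has even order, or P is cyclic, except when n = 5 and p = 2, where P is a four-group and N(P)/C(P) has order 3. -/
theorem result (n : ℕ) (hn : 5 ≤ n) {p : ℕ} [Fact p.Prime]
    (P : Sylow p (alternatingGroup (Fin n))) (hP : IsMulCommutative (P : Subgroup (alternatingGroup (Fin n)))) :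
    (¬ (n = 5 ∧ p = 2) → 2 ∣ ((Subgroup.centralizer ((P : Subgroup (alternatingGroup (Fin n))) : Set (alternatingGroup (Fin n)))).subgroupOf (Subgroup.normalizer ((P : Subgroup (alternatingGroup (Fin n))) : Set (alternatingGroup (Fin n))))).index ∨ IsCyclic (P : Subgroup (alternatingGroup (Fin n)))) ∧
    ((n = 5 ∧ p = 2) → ((Subgroup.centralizer ((P : Subgroup (alternatingGroup (Fin n))) : Set (alternatingGroup (Fin n)))).subgroupOf (Subgroup.normalizer ((P : Subgroup (alternatingGroup (Fin n))) : Set (alternatingGroup (Fin n))))).index = 3 ∧ IsKleinFour (P : Subgroup (alternatingGroup (Fin n)))) := by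
  have hpr : p.Prime := Fact.out
  refine ⟨fun h => ?_, ?_⟩
  · by_cases hp2 : p = 2
    · subst hp2
      exact absurd hP (alt_not_comm (by omega) (H2.sylIn_top P))
    by_cases hn2 : p + 2 ≤ n
    · exact Or.inl (alt_even hp2 hn2 (H2.sylIn_top P) hP)
    right
    have h3 := hpr.two_le
    obtain ⟨k, hk⟩ := IsPGroup.iff_card.mp P.isPGroup'
    have h1 : p ^ k ∣ n.factorial := by
      rw [← hk]
      refine (Subgroup.card_subgroup_dvd_card _).trans ((Subgroup.card_subgroup_dvd_card _).trans ?_)
      rw [Nat.card_perm, Nat.card_eq_fintype_card, Fintype.card_fin]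
    have h2 : k ≤ 1 := by
      by_contra hk2
      have h4 : p ^ 2 ∣ n.factorial := (pow_dvd_pow p (by omega)).trans h1
      have h5 : n.factorial ∣ (p + 1).factorial := Nat.factorial_dvd_factorial (by omega)
      have h6 := h4.trans h5
      obtain ⟨m, rfl⟩ : ∃ m, p = m + 1 := ⟨p - 1, by omega⟩
      rw [Nat.factorial_succ, Nat.factorial_succ, ← mul_assoc, mul_comm (m + 1 + 1), mul_assoc,
        pow_two] at h6
      rcases (Nat.Prime.dvd_mul hpr).mp (Nat.dvd_of_mul_dvd_mul_left hpr.pos h6) with h7 | h7
      · have := (Nat.dvd_add_right dvd_rfl).mp h7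
        exact hpr.one_lt.ne' (Nat.dvd_one.mp this)
      · have := (hpr.dvd_factorial).mp h7
        omega
    interval_cases k
    · haveI := (Subgroup.card_eq_one.mp (by simpa using hk) : (P : Subgroup _) = ⊥)
      exact isCyclic_of_card_dvd_prime (p := p) (by rw [hk]; simp)
    · exact isCyclic_of_prime_card (by simpa using hk)
  · rintro ⟨rfl, rfl⟩
    have hc : Nat.card P = 4 := by
      rw [P.card_eq_multiplicity, H4.card_A5]
      decide +kernel
    have hle : (P : Subgroup (alternatingGroup (Fin 5))) ≤ Subgroup.centralizer (P : Set _) :=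
      H2.isMulCommutative_iff_le.mp hP
    refine ⟨?_, ⟨hc, ?_⟩⟩
    · have h1 := Subgroup.card_dvd_of_injective _
        (QuotientGroup.kerLift_injective (P : Subgroup (alternatingGroup (Fin 5))).normalizerMonoidHom)
      rw [Subgroup.normalizerMonoidHom_ker, ← Subgroup.index] at h1
      have h2 : Nat.card (MulAut P) ∣ 24 := by
        have := Subgroup.card_dvd_of_injective (MulAut.toPerm P) (fun a b h => by
          ext x; exact congrArg Subtype.val (congrArg Subtype.val (DFunLike.congr_fun h x)) ▸ rfl)
        rwa [Nat.card_perm, hc] at this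
      have h3 : (P : Subgroup (alternatingGroup (Fin 5))).index = 15 := by
        have := (P : Subgroup (alternatingGroup (Fin 5))).card_mul_index
        rw [hc, H4.card_A5] at this
        omega
      have h4 := (Subgroup.relIndex_dvd_of_le_left (Subgroup.normalizer ((P : Subgroup (alternatingGroup (Fin 5))) : Set (alternatingGroup (Fin 5))))
        hle).trans (Subgroup.relIndex_dvd_index_of_le Subgroup.le_normalizer)
      rw [h3] at h4
      have h5 := Nat.dvd_gcd (h1.trans h2) h4
      rcases (Nat.dvd_prime Nat.prime_three).mp h5 with h6 | h6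
      · exfalso
        rw [Subgroup.index_eq_one, Subgroup.subgroupOf_eq_top] at h6
        have h7 := MonoidHom.ker_transferSylow_isComplement' P h6
        haveI : IsSimpleGroup (alternatingGroup (Fin 5)) := inferInstance
        have h8 := h7.card_mul
        rw [hc, H4.card_A5] at h8
        rcases (inferInstance : (MonoidHom.transferSylow P h6).ker.Normal).eq_bot_or_eq_top with h | h
        · rw [h, Subgroup.card_bot] at h8; omega
        · rw [h, Subgroup.card_top, H4.card_A5] at h8; omega
      · exact h6
    · haveI : Nontrivial P := Finite.one_lt_card_iff_nontrivial.mp (by rw [hc]; norm_num)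
      refine (Monoid.exponent_eq_prime_iff Nat.prime_two).mpr fun g hg => ?_
      have h1 : orderOf g ∣ 4 := hc ▸ orderOf_dvd_natCard g
      have h0 : orderOf g ≠ 1 := by simpa using hg
      rw [← Subgroup.orderOf_coe] at h1 h0 ⊢
      rcases H4.A5_pow (g : alternatingGroup (Fin 5)) with h | h | h
      · exact ((Nat.dvd_prime Nat.prime_two).mp (orderOf_dvd_of_pow_eq_one h)).resolve_left h0
      · exact absurd (Nat.eq_one_of_dvd_coprimes (by norm_num) h1 (orderOf_dvd_of_pow_eq_one h)) h0
      · exact absurd (Nat.eq_one_of_dvd_coprimes (by norm_num) h1 (orderOf_dvd_of_pow_eq_one h)) h0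

end Cfsg.Agent.S2269
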