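import Cfsg.Statements.S2270
import Cfsg.Agent.H9.AbS

set_option autoImplicit false
open Cfsg

namespace Cfsg.Agent.S2270

open Cfsg.Agent Cfsg.Agent.H9

/-- Let n ≥ 3, p an odd prime, and P an abelian Sylow p-subgroup of the symmetric group S_n (with p dividing n!, so that P ≠ 1). Then N(P)/C(P) has even order. -/
theorem result (n : ℕ) (hn : 3 ≤ n) {p : ℕ} [Fact p.Prime] (hp : p ≠ 2) (hpn : p ≤ n)
    (P : Sylow p (Equiv.Perm (Fin n))) (hP : IsMulCommutative (P : Subgroup (Equiv.Perm (Fin n)))) :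
    2 ∣ ((Subgroup.centralizer ((P : Subgroup (Equiv.Perm (Fin n))) : Set (Equiv.Perm (Fin n)))).subgroupOf (Subgroup.normalizer ((P : Subgroup (Equiv.Perm (Fin n))) : Set (Equiv.Perm (Fin n))))).index := by
  obtain ⟨c, h⟩ := exists_pcycle (p := p) hpn
  have ho : orderOf c = p := by rw [← Equiv.Perm.lcm_cycleType, h]; simp
  exact two_dvd_of_real (H2.sylIn_top P) hP (x := c) (k := 1) (by rw [pow_one, ho])
    (sq_ne_one_of_odd hp ho)
    (Equiv.Perm.isConj_iff_cycleType_eq.mpr (Equiv.Perm.cycleType_inv c).symm)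

end Cfsg.Agent.S2270
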