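import Cfsg.Statements.S2333
import Cfsg.Agent.C3.WT7

set_option autoImplicit false
open Cfsg

namespace Cfsg.Agent.S2333

/-- For a finite field F of even order q and n ≥ 2 with (n, q) ≠ (2, 2), every irreducible complex representation of the symplectic group Sp_{2n}(F) of degree at least 2 has degree at least (q^n − 1)(q^n − q)/(2(q + 1)). -/
theorem result {F : Type*} [Field F] [Fintype F] [DecidableEq F] (n : ℕ) (hn : 2 ≤ n) (heven : Even (Fintype.card F)) (hex : (n, Fintype.card F) ≠ (2, 2)) :
    (∀ (k : ℕ) (ρ : Representation ℂ (Matrix.symplecticGroup (Fin n) F) (Fin k → ℂ)), ρ.IsIrreducible → 2 ≤ k → (Fintype.card F ^ n - 1) * (Fintype.card F ^ n - Fintype.card F) / (2 * (Fintype.card F + 1)) ≤ k) := by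
  intro k ρ hρ hk
  have h2 : (2 : F) = 0 := by
    have := FiniteField.even_card_iff_char_two.2 (Nat.even_iff.1 heven)
    exact (ringChar.spec F 2).2 (by rw [this])
  let e := (H4.spEquiv F n).trans (MulEquiv.subgroupCongr (H4.spF_nondeg (F := F) n).symp_E_eq.symm)
  have hs := C3.WT.sp_even_simple h2 hn hex
  obtain ⟨g, hg⟩ := C3.WT.nontriv_of_irr ρ hρ (by simpa using hk)
  have h1 := C3.WT.even_bound (C3.WT.ringChar_complex_ne F) (H4.spF_nondeg n)
    (AddChar.FiniteField.primitiveChar_to_Complex_isPrimitive F) h2 (H4.spF_TS_inlSub n) hn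
    (H4.finrank_inlSub n) (by simp [two_mul]) (ρ.comp e.symm.toMonoidHom) (by
      rw [← MonoidHom.ker_eq_bot_iff]
      refine (hs.eq_bot_or_eq_top_of_normal _ inferInstance).resolve_right fun h => hg ?_
      have : e g ∈ (ρ.comp e.symm.toMonoidHom).ker := h ▸ Subgroup.mem_top _
      simpa using this)
  rw [Module.finrank_fin_fun] at h1
  exact Nat.div_le_of_le_mul h1

end Cfsg.Agent.S2333
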