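import Cfsg.Statements.S2334
import Cfsg.Agent.C3.WT4

set_option autoImplicit false
open Cfsg

namespace Cfsg.Agent.S2334

/-- For odd n ≥ 3 and a finite field F with q² elements, (n, q) ≠ (3, 2), every irreducible complex representation of the special unitary group SU_n(q) (the determinant-one isometries of the standard Hermitian form over F) of degree at least 2 has degree at least (q^n − q)/(q + 1). -/
theorem result {F : Type*} [Field F] [Fintype F] [DecidableEq F] (n q : ℕ) (hn : 3 ≤ n) (hodd : Odd n) (hF : Fintype.card F = q ^ 2) (hex : (n, q) ≠ (3, 2)) :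
    (∀ (k : ℕ) (ρ : Representation ℂ (Cfsg.SU n F q) (Fin k → ℂ)), ρ.IsIrreducible → 2 ≤ k → (q ^ n - q) / (q + 1) ≤ k) := by
  intro k ρ hρ hk
  have h1 := C3.WT.su_bound hF (C3.WT.ringChar_complex_ne F) hn hex ρ
    (C3.WT.nontriv_of_irr ρ hρ (by simpa using hk))
  obtain ⟨m, rfl⟩ := hodd
  have hq := H4.two_le_of_card_sq hF
  rw [show (2 * m + 1) / 2 = m by omega, Module.finrank_fin_fun] at h1
  refine Nat.div_le_of_le_mul (Nat.le_of_mul_le_mul_right ?_ (pow_pos (by omega : 0 < q) (2 * m)))
  refine le_trans (le_of_eq ?_) (h1.trans (le_of_eq (by ring)))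
  rw [pow_succ, show q ^ (2 * m) * q - q = (q ^ (2 * m) - 1) * q by rw [Nat.sub_one_mul]]
  ring

end Cfsg.Agent.S2334
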