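import Cfsg.Statements.S2336
import Mathlib
import Cfsg.Agent.H3.Misc
import Cfsg.Agent.H3.Mackey

set_option autoImplicit false
open Cfsg

namespace Cfsg.Agent.S2336

open Cfsg.Agent.H3 Subgroup MulAction Matrix

theorem orth {G ι : Type*} [Group G] [Fintype G] [Fintype ι] (φ : ι → G → ℂ) (h : ∀ i, IsCharacter G (φ i))
    (h0 : ∀ i, φ i ≠ 0) {m : ℕ} (hm : classInner (∑ i, φ i) (∑ i, φ i) = m) (hle : m ≤ Fintype.card ι) :
    (∀ i, IsIrrCharacter G (φ i)) ∧ Function.Injective φ := by
  classical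
  choose n hn using fun i j => (h i).exists_nat_inner (h j)
  have a : ∀ i, 1 ≤ n i i := fun i => Nat.one_le_iff_ne_zero.2 fun e =>
    h0 i (classInner_self_eq_zero.1 (by rw [hn, e, Nat.cast_zero]))
  have b : ∀ i, n i i ≤ ∑ j, n i j := fun i => Finset.single_le_sum (f := n i) (fun _ _ => Nat.zero_le _) (Finset.mem_univ i)
  have c : m = ∑ i, ∑ j, n i j := by
    simp only [classInner_sum_left, classInner_sum_right, hn] at hm
    rw [Finset.sum_comm] at hm
    exact_mod_cast hm.symm
  have d : ∀ i, 1 = ∑ j, n i j := fun i => (Finset.sum_eq_sum_iff_of_le fun i _ => (a i).trans (b i)).1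
    (le_antisymm (Finset.sum_le_sum fun i _ => (a i).trans (b i)) (by rwa [← c, ← Fintype.card_eq_sum_ones])) i
    (Finset.mem_univ i)
  refine ⟨fun i => (h i).irr_of_inner_self (by rw [hn, le_antisymm (d i ▸ b i) (a i), Nat.cast_one]), fun i j e => ?_⟩
  by_contra h1
  have f : n i j = n i i := Nat.cast_injective (R := ℂ) (by rw [← hn, ← hn, ← e])
  have g := Finset.add_le_sum (f := n i) (fun _ _ => Nat.zero_le _) (Finset.mem_univ i) (Finset.mem_univ j) h1
  have := a i
  have := d i
  omega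

theorem pair {F ι : Type*} [Field F] [Fintype ι] [DecidableEq ι] {i j k : ι} (hij : i ≠ j) (hik : i ≠ k) (hjk : j ≠ k)
    {v w : ι → F} (h : LinearIndependent F ![v, w]) :
    ∃ g : SpecialLinearGroup ι F, g • (Pi.single i 1 : ι → F) = v ∧ g • (Pi.single j 1 : ι → F) = w := by
  have hD : LinearIndependent F ![(Pi.single i 1 : ι → F), Pi.single j 1] :=
    (LinearIndependent.pair_iff' (by simp)).2 fun a e => by simpa [hij.symm] using congrFun e j
  obtain ⟨g, hg⟩ := Submodule.exists_linearEquiv_restrict_eq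
    (hD.linearCombinationEquiv.symm ≪≫ₗ h.linearCombinationEquiv)
  have g0 : g (Pi.single i 1) = v := by simpa using (hg (hD.linearCombinationEquiv (Finsupp.single 0 1))).symm
  have g1 : g (Pi.single j 1) = w := by simpa using (hg (hD.linearCombinationEquiv (Finsupp.single 1 1))).symm
  have hd : (LinearMap.toMatrix' g.toLinearMap).det ≠ 0 := by
    rw [LinearMap.det_toMatrix']
    exact g.isUnit_det'.ne_zero
  refine ⟨⟨LinearMap.toMatrix' g.toLinearMap * diagonal (Function.update 1 k (LinearMap.toMatrix' g.toLinearMap).det⁻¹),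
    by rw [det_mul, det_diagonal, Finset.prod_update_of_mem (Finset.mem_univ k), ← mul_assoc, mul_inv_cancel₀ hd]; simp⟩, ?_, ?_⟩ <;>
    change (_ * _ : Matrix ι ι F) *ᵥ _ = _ <;>
    rw [← mulVec_mulVec, diagonal_mulVec_single, LinearMap.toMatrix'_mulVec]
  · simpa [hik] using g0
  · simpa [hjk] using g1

/-- Let F be a finite field with q elements and n ≥ 3. The permutation character of SL_n(F) on the non-zero vectors of F^n (the function sending a matrix to the number of non-zero vectors it fixes) is the sum of the principal character and q − 1 pairwise distinct irreducible complex characters. -/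
theorem result {F : Type*} [Field F] [Fintype F] [DecidableEq F] (n : ℕ) (hn : 3 ≤ n) :
    ∃ χ : Fin (Fintype.card F - 1) → (Matrix.SpecialLinearGroup (Fin n) F → ℂ),
      (∀ i, Cfsg.IsIrrCharacter (Matrix.SpecialLinearGroup (Fin n) F) (χ i)) ∧ Function.Injective χ ∧
      ∀ g : Matrix.SpecialLinearGroup (Fin n) F,
        (Nat.card {v : Fin n → F // v ≠ 0 ∧ (g : Matrix (Fin n) (Fin n) F).mulVec v = v} : ℂ) = 1 + ∑ i, χ i g := by
  classical
  let G := SpecialLinearGroup (Fin n) F
  have hc : ∀ (g : G) (c : F) (v : Fin n → F), g • c • v = c • g • v := fun g c v => mulVec_smul _ _ _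
  let X : SubMulAction G (Fin n → F) := ⟨{v | v ≠ 0}, fun g v hv => (smul_ne_zero_iff_ne g).2 hv⟩
  have pr := fun v w : Fin n → F => pair (F := F) (i := (⟨0, by omega⟩ : Fin n)) (j := ⟨1, by omega⟩) (k := ⟨2, by omega⟩)
    (by simp) (by simp) (by simp) (v := v) (w := w)
  have hD : LinearIndependent F ![(Pi.single ⟨1, by omega⟩ 1 : Fin n → F), Pi.single ⟨0, by omega⟩ 1] :=
    (LinearIndependent.pair_iff' (by simp)).2 fun a e => by simpa [Pi.single_apply, Fin.ext_iff] using congrFun e ⟨0, by omega⟩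
  set e : Fin n → F := Pi.single ⟨0, by omega⟩ 1
  set e' : Fin n → F := Pi.single ⟨1, by omega⟩ 1
  have he : e ≠ 0 := hD.ne_zero 1
  have he' : e' ≠ 0 := hD.ne_zero 0
  have tr : ∀ v ≠ 0, ∃ g : G, g • e = v := fun v hv => by
    obtain ⟨w, hw⟩ := exists_linearIndependent_pair_of_one_lt_finrank (R := F) (by simp; omega) hv
    exact (pr v w hw).imp fun _ h => h.1
  haveI : IsPretransitive G X := ⟨fun u v => by
    obtain ⟨g, hg⟩ := tr u u.2
    obtain ⟨k, hk⟩ := tr v v.2
    exact ⟨k * g⁻¹, Subtype.ext (by rw [SubMulAction.val_smul, ← hg, ← hk, mul_smul, inv_smul_smul])⟩⟩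
  let P : Subgroup G :=
    { carrier := {g | ∃ c : Fˣ, g • e = (c : F) • e}
      mul_mem' := fun {a b} ⟨c, h⟩ ⟨d, h'⟩ => ⟨c * d, by rw [mul_smul, h', hc, h, smul_smul, mul_comm]; rfl⟩
      one_mem' := ⟨1, by simp⟩
      inv_mem' := fun {a} ⟨c, h⟩ => ⟨c⁻¹, by rw [inv_smul_eq_iff, hc, h, smul_smul]; simp⟩ }
  choose c hcc using fun g : P => g.2
  let μ : P →* Fˣ := MonoidHom.mk' c fun a b => Units.ext (smul_left_injective F he (by
    show (c (a * b) : F) • e = ((c a : F) * c b) • e
    rw [← hcc, coe_mul, mul_smul, hcc, hc, hcc, smul_smul, mul_comm]))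
  have hμ : Function.Surjective μ := fun d => by
    obtain ⟨g, hg⟩ := tr ((d : F) • e) (smul_ne_zero d.ne_zero he)
    exact ⟨⟨g, d, hg⟩, Units.ext (smul_left_injective F he ((hcc _).symm.trans hg))⟩
  let H := stabilizer G (⟨e, he⟩ : X)
  have hH : ∀ g : G, g ∈ H ↔ g • e = e := fun g => Subtype.ext_iff
  have hHP : H ≤ P := fun g hg => ⟨1, by simpa using (hH g).1 hg⟩
  have hk : H.subgroupOf P = μ.ker := Subgroup.ext fun g => (hH g).trans ⟨fun h => Units.ext (smul_left_injective F he
    (((hcc g).symm.trans h).trans (one_smul F e).symm)), fun h => (hcc g).trans (by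
      rw [show c g = 1 from h]; simp)⟩
  haveI : (H.subgroupOf P).Normal := hk ▸ inferInstance
  haveI := Fintype.ofFinite P
  have dg : ∀ χ : IrrCharacter Fˣ, (χ : Fˣ → ℂ) 1 = 1 := fun χ => χ.2.degree_eq_one_of_comm
  have hI : Fintype.card (IrrCharacter Fˣ) = Fintype.card F - 1 := by
    rw [← Fintype.card_units, ← Nat.card_eq_fintype_card (α := Fˣ), ← sum_irr_charDegree_sq, Fintype.card_eq_sum_ones]
    refine Finset.sum_congr rfl fun χ _ => ?_
    have := χ.2.cast_charDegree
    rw [dg, Nat.cast_eq_one] at this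
    rw [this, one_pow]
  let θ : IrrCharacter Fˣ → G → ℂ := fun χ => indFun P fun g => χ.1 (μ g)
  have hθ : ∀ χ, IsCharacter G (θ χ) := fun χ => (χ.2.isCharacter.comp μ).ind
  have hπ : (fun g : G => (Nat.card (fixedBy X g) : ℂ)) = ∑ χ, θ χ := by
    rw [funext (card_fixedBy_eq_indFun (⟨e, he⟩ : X)), ← indFun_sum, ← indFun_indLe hHP]
    congr 1
    funext g
    have := sum_irr_degree_mul (μ g)
    simp only [dg, one_mul] at this
    rw [Finset.sum_apply, this, indLe, toSubOf_eq hHP, indFun_one_apply, hk]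
    split_ifs with h
    · rw [show μ g = 1 from h, regChar_one, index_ker, MonoidHom.range_eq_top.2 hμ, card_top]
    · rw [regChar_of_ne h]
  let o : IrrCharacter Fˣ := ⟨_, isIrrCharacter_one⟩
  let φ : Option (IrrCharacter Fˣ) → G → ℂ := fun x => x.elim (fun _ => 1) fun χ => θ χ - if χ = o then (fun _ => 1) else (0 : G → ℂ)
  have hs : ∑ x, φ x = fun g : G => (Nat.card (fixedBy X g) : ℂ) := by
    rw [hπ]
    simp [φ, Fintype.sum_option]
  have hP : P.index ≠ 1 := fun h => by
    obtain ⟨g, hg⟩ := tr e' he'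
    obtain ⟨d, hd⟩ := (index_eq_one.1 h).ge (mem_top g)
    exact (LinearIndependent.pair_iff' he).1 (LinearIndependent.pair_symm_iff.1 hD) d (hd.symm.trans hg)
  obtain ⟨h1, h2⟩ := orth φ (by
    rintro (_ | χ)
    · exact isIrrCharacter_one.isCharacter
    by_cases h : χ = o
    · simp only [φ, Option.elim, if_pos h]
      refine (hθ χ).sub_of_inner_ne_zero isIrrCharacter_one ?_
      rw [h, classInner_indFun_left _ isIrrCharacter_one.isClassFunction]
      exact isIrrCharacter_one.inner_self.trans_ne one_ne_zero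
    · simpa only [φ, Option.elim, if_neg h, sub_zero] using hθ χ) (by
    rintro (_ | χ) h <;> have := congrFun h 1
    · simp [φ] at this
    have b : θ χ 1 = P.index := by simp only [θ, indFun_one, map_one, dg, mul_one]
    by_cases h : χ = o
    · simp only [φ, Option.elim, if_pos h, Pi.sub_apply, b, Pi.zero_apply, sub_eq_zero, Nat.cast_eq_one] at this
      exact hP this
    · simp only [φ, Option.elim, if_neg h, sub_zero, b, Pi.zero_apply, Nat.cast_eq_zero] at this
      exact index_ne_zero_of_finite this) (hs ▸ classInner_fixedBy_fixedBy X X) (by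
    rw [Fintype.card_option, hI, ← Fintype.card_units, ← Fintype.card_option, ← Nat.card_eq_fintype_card]
    refine Nat.card_le_card_of_surjective (fun x : Option Fˣ => Quotient.mk _ ((⟨e, he⟩ : X),
      x.elim (⟨e', he'⟩ : X) fun d => ⟨(d : F) • e, smul_ne_zero d.ne_zero he⟩)) (Quotient.forall.2 fun ⟨v, w⟩ => ?_)
    by_cases h : LinearIndependent F ![v.1, w.1]
    · obtain ⟨g, g1, g2⟩ := pr _ _ h
      exact ⟨none, Eq.symm (Quotient.sound (orbitRel_apply.2 ⟨g, Prod.ext (Subtype.ext g1) (Subtype.ext g2)⟩))⟩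
    · rw [LinearIndependent.pair_iff' v.2] at h
      push Not at h
      obtain ⟨d, hd⟩ := h
      obtain ⟨g, hg⟩ := tr v v.2
      exact ⟨some (Units.mk0 d fun h => w.2 (by rw [← hd, h, zero_smul])), Eq.symm (Quotient.sound (orbitRel_apply.2 ⟨g,
        Prod.ext (Subtype.ext hg) (Subtype.ext ((hc g d e).trans (hg ▸ hd)))⟩))⟩)
  let E := (Fintype.equivFinOfCardEq hI).symm
  refine ⟨fun i => φ (some (E i)), fun i => h1 _, fun i j h => E.injective (Option.some_injective _ (h2 h)), fun g => ?_⟩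
  rw [E.sum_comp fun χ => φ (some χ) g]
  have := congrFun hs g
  rw [Finset.sum_apply, Fintype.sum_option] at this
  refine Eq.trans ?_ this.symm
  exact congrArg Nat.cast (Nat.card_congr ⟨fun v => ⟨⟨v.1, v.2.1⟩, Subtype.ext v.2.2⟩,
    fun v => ⟨v.1.1, v.1.2, congrArg Subtype.val v.2⟩, fun _ => rfl, fun _ => rfl⟩)

end Cfsg.Agent.S2336
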