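import Cfsg.Statements.S2337
import Cfsg.Agent.H5.Sz8
import Cfsg.Agent.H3.Rep

set_option autoImplicit false
open Cfsg

namespace Cfsg.Agent.S2337

open H5.Suz in
theorem aux {F : Type*} [Field F] {θ : F →+* F} {G Ω : Type*} [Group G] [MulAction G Ω] (Z : SzG θ G Ω) [CharP F 2]
    [Fintype F] [Finite G] [Finite Ω] {V : Type*} [AddCommGroup V] [Module ℂ V] [FiniteDimensional ℂ V]
    (ρ : Representation ℂ G V) [hρ : ρ.IsIrreducible] (hk : 2 ≤ Module.finrank ℂ V) :
    ∃ d, Fintype.card F ≤ 2 * d ^ 2 ∧ d * (Fintype.card F - 1) ≤ Module.finrank ℂ V := by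
  classical
  have hq : (Fintype.card F : ℂ) ≠ 0 := by simp
  let P : (F → ℂ) → Module.End ℂ V := fun l => (Fintype.card F : ℂ)⁻¹ • ∑ b, l b • ρ (Z.u 0 b)
  let σ : Representation ℂ (Z.K Z.inf) V := ρ.comp (Z.K Z.inf).subtype
  obtain ⟨c, hc⟩ : ∃ c, ∀ b, b ≠ 0 → LinearMap.trace ℂ V (ρ (Z.u 0 b)) = c := ⟨ρ.character (Z.u 0 1), fun b hb => by
    obtain ⟨g, e⟩ := isConj_iff.1 (Z.isConj_invol (Z.u_invol.2 rfl) (by simpa [Z.u_eq_one] using hb))
    rw [← e, Representation.char_conj]; rfl⟩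
  have key : ∀ l : F → ℂ, l 0 = 1 → (∀ x y, l (x + y) = l x * l y) → (∀ w, ρ (Z.u 0 w) * P l = l w • P l) ∧
      ∃ U : Subrepresentation σ, (∀ g, U.toRepresentation.character g = LinearMap.trace ℂ V (σ g * P l)) ∧
        U.toSubmodule = LinearMap.range (P l) ∧
        Fintype.card F * (Module.finrank ℂ U.toSubmodule : ℂ) = Module.finrank ℂ V + (∑ b, l b - 1) * c := fun l l0 hl => by
    have h1 : ∀ w, ρ (Z.u 0 w) * P l = l w • P l := fun w => by
      simp only [P, mul_smul_comm, Finset.mul_sum, ← map_mul, Z.u_mul, smul_comm (l w), Finset.smul_sum, smul_smul]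
      refine Fintype.sum_equiv (Equiv.addLeft w) _ _ fun b => ?_
      have : l w * l w = 1 := by rw [← hl, CharTwo.add_self_eq_zero, l0]
      simp [hl, ← mul_assoc, mul_right_comm _ (l w), this, mul_assoc _ (l w) (l w)]
    obtain ⟨U, h2, h3⟩ := H3.exists_sub_char_of_idempotent σ (P l) (by
      have : ∀ w, l w * l w = 1 := fun w => by rw [← hl, CharTwo.add_self_eq_zero, l0]
      change ((Fintype.card F : ℂ)⁻¹ • ∑ b, l b • ρ (Z.u 0 b)) * P l = P l
      simp only [smul_mul_assoc, Finset.sum_mul, h1, smul_smul, this]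
      simp [← Nat.cast_smul_eq_nsmul ℂ, smul_smul]) (fun g => by
      obtain ⟨a, b, e⟩ := Z.mem_K_inf.1 g.2
      simp only [← Module.End.mul_eq_comp, P, σ, MonoidHom.comp_apply, Subgroup.subtype_apply, e, mul_smul_comm, smul_mul_assoc,
        Finset.mul_sum, Finset.sum_mul, ← map_mul, Z.u_central.2 rfl a b])
    refine ⟨h1, U, h3, h2, ?_⟩
    rw [← Representation.char_one U.toRepresentation, h3, map_one, Module.End.one_eq_id, LinearMap.id_comp]
    simp only [P, map_smul, map_sum, smul_eq_mul, mul_inv_cancel_left₀ hq]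
    rw [← Finset.add_sum_erase _ _ (Finset.mem_univ 0), ← Finset.add_sum_erase _ l (Finset.mem_univ 0), l0, add_sub_cancel_left,
      Finset.sum_mul, Finset.sum_congr rfl fun b hb => congrArg (l b * ·) (hc b (Finset.ne_of_mem_erase hb))]
    simp
  let I : AddSubgroup F := (θ.toAddMonoidHom + AddMonoidHom.id F).range
  have h1 : (1 : F) ∉ I := by
    rintro ⟨y, e⟩
    exact Z.not_real (a := 1) (b := 0) (c := y) (d := 0) (k := 1) one_ne_zero (by
      rw [map_one, mul_one, Z.u_conj, Z.u_inv, Z.u_inj]; simpa using e)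
  have hi : I.index = 2 := AddSubgroup.index_eq_two_iff.2 ⟨1, fun b => by
    obtain ⟨c, h | h⟩ := Z.exists_AS b
    · exact .inr ⟨⟨c, h⟩, fun h' => h1 (by simpa using sub_mem h' (show b ∈ I from ⟨c, h⟩))⟩
    · exact .inl ⟨⟨c, h⟩, fun h' => h1 (by simpa using sub_mem (show b + 1 ∈ I from ⟨c, h⟩) h')⟩⟩
  have ha := fun x y => AddSubgroup.add_mem_iff_of_index_two (a := x) (b := y) hi
  let l : F → ℂ := fun b => if b ∈ I then 1 else -1
  have hl : ∀ x y, l (x + y) = l x * l y := fun x y => by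
    simp only [l, ha]
    by_cases hx : x ∈ I <;> by_cases hy : y ∈ I <;> simp [hx, hy]
  obtain ⟨e0, U0, -, r0, d0⟩ := key 1 rfl (by simp)
  obtain ⟨e1, U, hU, -, d1⟩ := key l (by simp [l]) hl
  have hs : ∑ b, l b = 0 := by
    have := Fintype.sum_equiv (Equiv.addRight 1) (fun b => l b * l 1) l fun b => (hl b 1).symm
    rw [← Finset.sum_mul, show l 1 = -1 by simp [l, h1]] at this
    linear_combination -this / 2
  have h4 := Nat.card_eq_fintype_card (α := F) ▸ Z.q_ge
  have d2 : Module.finrank ℂ V = Module.finrank ℂ U0.toSubmodule + Module.finrank ℂ U.toSubmodule * (Fintype.card F - 1) := by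
    refine Nat.cast_injective (R := ℂ) (mul_left_cancel₀ hq ?_)
    simp only [Pi.one_apply, Finset.sum_const, Finset.card_univ, nsmul_eq_mul, mul_one, hs] at d0 d1
    push_cast [Nat.cast_sub (show 1 ≤ Fintype.card F by omega)]
    linear_combination -d0 - (Fintype.card F - 1) * d1
  refine ⟨Module.finrank ℂ U.toSubmodule, ?_, by omega⟩
  have hd : Module.finrank ℂ U.toSubmodule ≠ 0 := fun h => by
    have hP : Function.Surjective (P 1) := LinearMap.range_eq_top.1 (r0 ▸ Submodule.eq_top_of_finrank_eq (by simpa [h] using d2.symm))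
    have := Z.simple
    have h5 : ρ.ker = ⊤ := (MonoidHom.normal_ker ρ).eq_bot_or_eq_top.resolve_left fun e => by
      have : Z.u 0 1 ∈ ρ.ker := LinearMap.ext fun v => by
        obtain ⟨v, rfl⟩ := hP v
        simpa using LinearMap.congr_fun (e0 1) v
      simp [e, Z.u_eq_one] at this
    obtain ⟨_, h6⟩ := (H3.isIrreducible_iff ρ).1 hρ
    obtain ⟨v, hv⟩ := exists_ne (0 : V)
    rcases h6 (Submodule.span ℂ {v}) (fun g w hw => by rwa [show ρ g = 1 from h5.ge trivial]) with h | h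
    · exact hv (Submodule.span_singleton_eq_bot.1 h)
    · have := finrank_span_singleton (K := ℂ) hv
      rw [h, finrank_top] at this
      omega
  have tr : ∀ a b, a ≠ 0 → a ≠ 1 → U.toRepresentation.character ⟨_, Z.u_mem a b⟩ = 0 := fun a b a0 a1 => by
    obtain ⟨c, hc⟩ : ∃ c, θ c * a + θ a * c ∉ I := by_contra fun h => by
      push Not at h
      have h2 : ∀ x, x ≠ 0 → (∀ y ∈ I, x * y ∈ I) → x ∉ I := fun x x0 h hx => h1 (mem_of_inj (mul_right_injective₀ x0) (S := I) h
        (by simpa using hx))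
      have h3 : ∀ y ∈ I, a * θ a * y ∈ I := by
        rintro _ ⟨y, rfl⟩
        convert h (a * y) using 1
        simp; ring
      exact h2 (a * θ a + 1) (fun e => a1 (Z.nrm_inj (by grind))) (fun y hy => by simpa [add_mul] using add_mem (h3 y hy) hy)
        ((ha _ _).2 (iff_of_false (h2 _ (by simp [a0]) h3) h1))
    have := U.toRepresentation.char_conj ⟨_, Z.u_mem a b⟩ ⟨_, Z.u_mem c 0⟩
    rw [show (⟨_, Z.u_mem c 0⟩ * ⟨_, Z.u_mem a b⟩ * ⟨_, Z.u_mem c 0⟩⁻¹ : Z.K Z.inf) = ⟨_, Z.u_mem a b⟩ * ⟨_, Z.u_mem 0 (θ c * a + θ a * c)⟩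
      from Subtype.ext ((Z.u_conj ..).trans (by simp [Z.u_mul, add_assoc])), hU, map_mul σ, mul_assoc,
      show σ ⟨_, Z.u_mem 0 _⟩ * P l = _ from e1 _, mul_smul_comm, map_smul, ← hU, show l _ = -1 from if_neg hc, smul_eq_mul] at this
    linear_combination -this / 2
  have li : LinearIndependent ℂ fun a : I => U.toRepresentation ⟨_, Z.u_mem a 0⟩ := Fintype.linearIndependent_iff.2 fun c hc a => by
    have := congrArg (fun T => LinearMap.trace ℂ _ (U.toRepresentation ⟨_, Z.u_mem a 0⟩⁻¹ * T)) hc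
    simp only [Finset.mul_sum, mul_smul_comm, ← map_mul, map_sum, map_smul, mul_zero, map_zero] at this
    rw [Finset.sum_eq_single a (fun b _ hb => by
      rw [show (⟨_, Z.u_mem a 0⟩⁻¹ * ⟨_, Z.u_mem b 0⟩ : Z.K Z.inf) = ⟨_, Z.u_mem _ _⟩ from Subtype.ext (by
        rw [Subgroup.coe_mul, Subgroup.coe_inv, Z.u_inv, Z.u_mul])]
      exact smul_eq_zero_of_right _ (tr _ _ (fun e => hb (Subtype.ext (by grind))) fun e => h1 (e ▸ add_mem a.2 b.2))) (by simp)] at this
    simpa [hd] using this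
  have h7 := li.fintype_card_le_finrank
  rw [Module.finrank_linearMap, ← Nat.card_eq_fintype_card] at h7
  rw [← Nat.card_eq_fintype_card, ← I.card_mul_index, hi, mul_comm, pow_two]
  omega

/-- For the Suzuki group Sz(q), q = 2^(2m+1) with m ≥ 1 (realised inside Sp₄ over the field with q elements), every irreducible complex representation of degree at least 2 has degree at least 2^m·(q − 1). -/
theorem result {F : Type*} [Field F] [Fintype F] (m : ℕ) (hm : 1 ≤ m) (hF : Fintype.card F = 2 ^ (2 * m + 1)) :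
    (∀ (k : ℕ) (ρ : Representation ℂ (Cfsg.Lie.Sz F (2 ^ (m + 1))) (Fin k → ℂ)), ρ.IsIrreducible → 2 ≤ k → 2 ^ m * (2 ^ (2 * m + 1) - 1) ≤ k) := by
  have := H5.Suz.charP hF
  obtain ⟨_, ⟨Z⟩⟩ := (H5.Suz.szO hm hF).exists_lie hF
  have hq := H5.Suz.natCard_eq hF
  intro k ρ hρ hk
  obtain ⟨d, h1, h2⟩ := aux Z ρ (by simpa using hk)
  rw [hF] at h1 h2
  refine le_trans (Nat.mul_le_mul_right _ ((Nat.pow_le_pow_iff_left two_ne_zero).1 ?_)) (by simpa using h2)
  rw [← pow_mul, mul_comm m]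
  rw [pow_succ'] at h1
  omega

end Cfsg.Agent.S2337
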