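import Cfsg.Statements.S2354
import Mathlib
import Cfsg.Agent.H7.Sz3

set_option autoImplicit false
open Cfsg

namespace Cfsg.Agent.S2354

open Cfsg.Agent.H7 Suz Polynomial Matrix

section
variable {F : Type*} [Field F] [Fintype F] {m : ℕ} [h : SzF F m]
include h

noncomputable def U (b : F) (v : Fin 4 → F[X]) : Fin 4 → F[X] :=
  ![v 0 + C b * X * v 2 + C (th F b) * X ^ 2 ^ (m + 1) * v 3, v 1 + C b * X * v 3, v 2, v 3]

def W (v : Fin 4 → F[X]) : Fin 4 → F[X] := ![v 3, v 2, v 1, v 0]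

theorem W_W (v : Fin 4 → F[X]) : W (W v) = v := by
  ext1 i; fin_cases i <;> rfl

theorem U_U (b c : F) (v : Fin 4 → F[X]) : U b (U c v) = U (b + c) v := by
  ext1 i; fin_cases i <;> simp [U] <;> ring

noncomputable def ev (y : F) (v : Fin 4 → F[X]) : Fin 4 → F := fun i => (v i).eval y

theorem ev_U (b y : F) (v : Fin 4 → F[X]) : ev y (U b v) = mat (u 0 (b * y)) *ᵥ ev y v := by
  ext i
  fin_cases i <;> simp [ev, U, u, um, ff, mulVec, dotProduct, Fin.sum_univ_four, ← th_def] <;> ring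

theorem ev_W (y : F) (v : Fin 4 → F[X]) : ev y (W v) = mat (w F) *ᵥ ev y v := by
  ext i
  fin_cases i <;> simp [ev, W, w, suzukiForm, mulVec, dotProduct, Fin.sum_univ_four]

def P0 (v : Fin 4 → F[X]) : Prop :=
  (v 1).degree < (v 0).degree ∧ (v 2).degree < (v 0).degree ∧ (v 3).degree < (v 0).degree

def P3 (v : Fin 4 → F[X]) : Prop := v 3 ≠ 0 ∧
  (v 0).degree ≤ (v 3).degree ∧ (v 1).degree ≤ (v 3).degree ∧ (v 2).degree ≤ (v 3).degree

theorem P0.w {v : Fin 4 → F[X]} (hv : P0 v) : P3 (W v) :=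
  ⟨ne_zero_of_degree_gt hv.1, hv.2.2.le, hv.2.1.le, hv.1.le⟩

theorem P3.u {v : Fin 4 → F[X]} (hv : P3 v) {b : F} (hb : b ≠ 0) : P0 (U b v) := by
  obtain ⟨h0, h1, h2, h3⟩ := hv
  have h4 : 2 ≤ 2 ^ (m + 1) := Nat.le_self_pow (by omega) 2
  obtain ⟨d, hd⟩ : ∃ d : ℕ, (v 3).degree = d := ⟨_, degree_eq_natDegree h0⟩
  have e1 : ∀ f : F[X], f.degree ≤ d → (C b * X * f).degree ≤ ((d + 1 : ℕ) : WithBot ℕ) := fun f hf => by
    rw [degree_mul, degree_mul, degree_C hb, degree_X, zero_add, add_comm]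
    push_cast
    gcongr
  have e0 : ((d : ℕ) : WithBot ℕ) ≤ ((d + 1 : ℕ) : WithBot ℕ) := by exact_mod_cast Nat.le_succ d
  have e2 : (C (th F b) * X ^ 2 ^ (m + 1) * v 3).degree = ((d + 2 ^ (m + 1) : ℕ) : WithBot ℕ) := by
    rw [degree_mul, degree_mul, degree_C (th_ne hb), degree_X_pow, zero_add, hd, add_comm]
    push_cast; rfl
  have e3 : ((d + 1 : ℕ) : WithBot ℕ) < ((d + 2 ^ (m + 1) : ℕ) : WithBot ℕ) := by
    exact_mod_cast (by omega : d + 1 < d + 2 ^ (m + 1))
  rw [hd] at h1 h2 h3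
  have e4 : (U b v 0).degree = ((d + 2 ^ (m + 1) : ℕ) : WithBot ℕ) := by
    show (v 0 + C b * X * v 2 + C (th F b) * X ^ 2 ^ (m + 1) * v 3).degree = _
    rw [degree_add_eq_right_of_degree_lt, e2]
    rw [e2]
    exact (degree_add_le_of_degree_le (h1.trans e0) (e1 _ h3)).trans_lt e3
  refine ⟨?_, ?_, ?_⟩ <;> rw [e4]
  · exact (degree_add_le_of_degree_le (h2.trans e0) (e1 _ hd.le)).trans_lt e3
  · exact (h3.trans e0).trans_lt e3
  · exact (hd.le.trans e0).trans_lt e3

def Bd (d : ℕ) (v : Fin 4 → F[X]) : Prop := ∀ i, (v i).natDegree ≤ d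

theorem Bd.w {d : ℕ} {v : Fin 4 → F[X]} (hv : Bd d v) : Bd d (W v) := fun i => by
  fin_cases i <;> exact hv _

theorem Bd.u {d : ℕ} {v : Fin 4 → F[X]} (hv : Bd d v) (b : F) : Bd (d + 2 ^ (m + 1)) (U b v) := by
  have h4 : 2 ≤ 2 ^ (m + 1) := Nat.le_self_pow (by omega) 2
  have e1 : ∀ (c : F) (k : ℕ) i, (C c * X ^ k * v i).natDegree ≤ d + k := fun c k i =>
    natDegree_mul_le.trans (by have := natDegree_C_mul_X_pow_le c k; have := hv i; omega)
  have e2 : ∀ i, (C b * X * v i).natDegree ≤ d + 2 ^ (m + 1) := fun i => by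
    have := e1 b 1 i
    rw [pow_one] at this; omega
  have e3 : ∀ i, (v i).natDegree ≤ d + 2 ^ (m + 1) := fun i => (hv i).trans (by omega)
  intro i
  fin_cases i
  · exact natDegree_add_le_of_degree_le (natDegree_add_le_of_degree_le (e3 _) (e2 _)) (e1 _ _ _)
  · exact natDegree_add_le_of_degree_le (e3 _) (e2 _)
  · exact e3 _
  · exact e3 _

noncomputable def step (β : ℕ → F) (l : ℕ × Bool) (v : Fin 4 → F[X]) : Fin 4 → F[X] :=
  cond l.2 (U (β l.1) (W (U (β l.1) (W v)))) (W (U (β l.1) (W (U (β l.1) v))))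

def gen (β : ℕ → F) (y : F) (i : ℕ) : Cfsg.Sz F m := u 0 (β i * y) * w F * (u 0 (β i * y) * w F)

noncomputable def v0 : Fin 4 → F[X] := ![1, 0, 0, 1]

theorem ev_foldr (β : ℕ → F) (y : F) (L : List (ℕ × Bool)) :
    ev y (L.foldr (step β) v0) = mat (FreeGroup.lift (gen β y) (FreeGroup.mk L)) *ᵥ ev y v0 := by
  induction L with
  | nil => simp [mat_one]
  | cons l L ih =>
    rw [FreeGroup.lift_mk, List.map_cons, List.prod_cons, ← FreeGroup.lift_mk, mat_mul,
      ← mulVec_mulVec, ← ih, List.foldr_cons]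
    obtain ⟨i, _ | _⟩ := l
    · simp only [step, cond_false, gen, _root_.mul_inv_rev, w_inv, u_inv, zero_mul, add_zero,
        mat_mul, ← mulVec_mulVec, ev_U, ev_W]
    · simp only [step, cond_true, gen, mat_mul, ← mulVec_mulVec, ev_U, ev_W]

theorem bd_foldr (β : ℕ → F) (L : List (ℕ × Bool)) :
    Bd (L.length * (2 * 2 ^ (m + 1))) (L.foldr (step β) v0) := by
  induction L with
  | nil => intro i; fin_cases i <;> simp [v0]
  | cons l L ih =>
    rw [List.foldr_cons, List.length_cons, add_one_mul, two_mul, ← add_assoc]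
    rw [two_mul] at ih
    obtain ⟨i, _ | _⟩ := l
    · exact ((ih.u _).w.u _).w
    · exact (ih.w.u _).w.u _

def Inv (β : ℕ → F) (l : ℕ × Bool) (v : Fin 4 → F[X]) : Prop :=
  ∃ p, P0 p ∧ v = cond l.2 (U (β l.1) (W p)) (W (U (β l.1) (W p)))

theorem inv_foldr {β : ℕ → F} (L : List (ℕ × Bool)) (l : ℕ × Bool)
    (h0 : ∀ x ∈ l :: L, β x.1 ≠ 0) (h1 : ∀ x ∈ l :: L, ∀ y ∈ l :: L, β x.1 = β y.1 → x.1 = y.1)
    (hr : FreeGroup.IsReduced (l :: L)) : Inv β l ((l :: L).foldr (step β) v0) := by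
  induction L generalizing l with
  | nil =>
    have : P3 (v0 (F := F)) := by simp [P3, v0]
    have e : W (v0 (F := F)) = v0 := by ext1 i; fin_cases i <;> rfl
    have hb := h0 l (by simp)
    obtain ⟨i, _ | _⟩ := l
    · exact ⟨U (β i) v0, this.u hb, by simp only [List.foldr, step, cond_false]⟩
    · exact ⟨U (β i) v0, this.u hb, by simp only [List.foldr, step, cond_true, e]⟩
  | cons k L ih =>
    rw [FreeGroup.isReduced_cons_cons] at hr
    obtain ⟨p, hp, e⟩ := ih k (fun x hx => h0 x (List.mem_cons_of_mem _ hx))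
      (fun x hx y hy => h1 x (List.mem_cons_of_mem _ hx) y (List.mem_cons_of_mem _ hy)) hr.2
    have hb := h0 l (by simp)
    have hc := h0 k (by simp)
    have hd : l.2 ≠ k.2 → β l.1 + β k.1 ≠ 0 := fun hne e =>
      hne (hr.1 (h1 l (by simp) k (by simp) (CharTwo.add_eq_zero.1 e)))
    rw [List.foldr_cons, e]
    obtain ⟨i, _ | _⟩ := l <;> obtain ⟨j, _ | _⟩ := k
    · exact ⟨_, (hp.w.u hc).w.u hb, by simp only [step, cond_false, W_W]⟩
    · exact ⟨_, hp.w.u (hd (by simp)), by simp only [step, cond_true, cond_false, U_U]⟩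
    · exact ⟨_, hp.w.u (hd (by simp)), by simp only [step, cond_true, cond_false, W_W, U_U]⟩
    · exact ⟨_, (hp.w.u hc).w.u hb, by simp only [step, cond_true]⟩

theorem Inv.ne {β : ℕ → F} {l : ℕ × Bool} {v : Fin 4 → F[X]} (hv : Inv β l v) (hb : β l.1 ≠ 0) :
    v ≠ v0 := by
  obtain ⟨p, hp, e⟩ := hv
  have := hp.w.u hb
  rintro rfl
  obtain ⟨i, _ | _⟩ := l
  · have e' := congrArg W e
    rw [cond_false, W_W] at e'
    rw [← e'] at this
    exact this.2.2.ne rfl
  · rw [cond_true] at e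
    rw [← e] at this
    exact this.2.2.ne rfl

end

/-- A non-trivial law holds in only finitely many Suzuki groups: for every non-trivial element w of the free group on countably many generators there is N such that for q = 2^(2m+1) with m ≥ N some substitution of elements of the Suzuki group over the field with q elements into w is not the identity. -/
theorem result (w : FreeGroup ℕ) (hw : w ≠ 1) :
    ∃ N : ℕ, ∀ (F : Type*) [Field F] [Fintype F] (m : ℕ), 1 ≤ m → N ≤ m →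
      Fintype.card F = 2 ^ (2 * m + 1) →
      ∃ f : ℕ → ↥(Cfsg.Lie.Sz F (2 ^ (m + 1))), FreeGroup.lift f w ≠ 1 := by
  classical
  obtain ⟨N, hN⟩ : ∃ N, ∀ x ∈ w.toWord, x.1 < N := by
    obtain ⟨N, hN⟩ := (w.toWord.map Prod.fst).toFinset.exists_le
    exact ⟨N + 1, fun x hx => Nat.lt_succ_of_le (hN _ (List.mem_toFinset.2 (List.mem_map_of_mem hx)))⟩
  refine ⟨N + 2 * w.toWord.length, fun F _ _ m hm hNm hF => ?_⟩
  haveI : SzF F m := ⟨hm, hF⟩
  have h1 : m < 2 ^ m := Nat.lt_two_pow_self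
  have h2 : N ≤ Fintype.card Fˣ := by
    rw [Fintype.card_units, hF, pow_succ, two_mul, pow_add]
    have : 2 ^ m ≤ 2 ^ m * 2 ^ m := Nat.le_mul_self _
    omega
  obtain ⟨e⟩ := Function.Embedding.nonempty_of_card_le (α := Fin N) (β := Fˣ) (by simpa using h2)
  let β : ℕ → F := fun i => if hi : i < N then e ⟨i, hi⟩ else 0
  obtain ⟨l, L, hL⟩ := List.exists_cons_of_ne_nil (FreeGroup.toWord_eq_nil_iff.not.2 hw)
  have h0 : ∀ x ∈ w.toWord, β x.1 ≠ 0 := fun x hx => by simp [β, hN x hx]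
  have h3 := (inv_foldr L l (hL ▸ h0) (hL ▸ fun x hx y hy e' => by
    simp only [β, hN x hx, hN y hy, dif_pos, Units.val_inj] at e'
    simpa using e.injective e') (hL ▸ FreeGroup.isReduced_toWord)).ne (h0 l (by simp [hL]))
  rw [← hL] at h3
  obtain ⟨i, hi⟩ := Function.ne_iff.1 h3
  have h4 := bd_foldr β w.toWord i
  have h5 : (w.toWord.foldr (step β) v0 i - v0 i).natDegree < Fintype.card F := by
    refine (natDegree_sub_le_of_le h4 (show (v0 i : F[X]).natDegree ≤ 0 by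
      fin_cases i <;> simp [v0])).trans_lt ?_
    rw [hF, max_eq_left (Nat.zero_le _), show 2 * m + 1 = m + (m + 1) by ring, pow_add 2 m (m + 1),
      ← mul_assoc]
    exact Nat.mul_lt_mul_of_pos_right (by omega) (by positivity)
  obtain ⟨y, hy⟩ : ∃ y : F, (w.toWord.foldr (step β) v0 i - v0 i).eval y ≠ 0 := by
    by_contra hc
    push Not at hc
    exact sub_ne_zero.2 hi (eq_zero_of_natDegree_lt_card_of_eval_eq_zero _ Function.injective_id
      hc h5)
  refine ⟨fun j => lieEquiv F (gen β y j), fun e1 => hy ?_⟩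
  have e2 : FreeGroup.lift (gen β y) w = 1 := by
    apply (lieEquiv F).injective
    rw [map_one, ← e1]
    exact FreeGroup.lift_unique ((lieEquiv F).toMonoidHom.comp (FreeGroup.lift (gen β y)))
      fun x => by simp
  have e3 := ev_foldr β y w.toWord
  rw [FreeGroup.mk_toWord, e2, mat_one, one_mulVec] at e3
  rw [eval_sub, sub_eq_zero]
  exact congrFun e3 i

end Cfsg.Agent.S2354
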