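import Cfsg.Statements.S2355
import Cfsg.Agent.C3.LW1

set_option autoImplicit false
open Cfsg

namespace Cfsg.Agent.S2355

/-- A non-trivial law is satisfied by only finitely many finite simple groups that are alternating or classical, up to isomorphism: for every non-trivial element w of the free group on countably many generators there is a bound N such that every alternating group of degree ≥ 5 and every simple classical group (linear, symplectic, unitary or orthogonal, in this problem's sense) in which w is a law has order at most N. -/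
theorem result (w : FreeGroup ℕ) (hw : w ≠ 1) :
    ∃ N : ℕ, ∀ (G : Type*) [Group G] [Finite G],
      (Cfsg.IsAlternating G ∨ Cfsg.IsPSL G ∨ Cfsg.IsPSp G ∨ Cfsg.IsPSU G ∨ Cfsg.IsPOmegaOdd G ∨
          Cfsg.IsPOmegaPlus G ∨ Cfsg.IsPOmegaMinus G) →
      (∀ f : ℕ → G, FreeGroup.lift f w = 1) → Nat.card G ≤ N := by
  obtain ⟨N1, h1⟩ := C3.LW.alt_large hw
  obtain ⟨M2, h2⟩ := C3.LW.sl_field.{0, 0} hw
  obtain ⟨M3, h3⟩ := C3.LW.sl_dim.{0, 0} hw
  obtain ⟨N4, h4⟩ := C3.LW.form_bound hw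
  refine ⟨N1.factorial + ((M2 + M3) ^ (M2 + M3)) ^ ((M2 + M3) ^ (M2 + M3)) + N4,
    fun G _ _ hG hl => ?_⟩
  rcases hG with ⟨n, -, ⟨e⟩⟩ | ⟨F, _, _, n, hn, -, ⟨e⟩⟩ | hG
  · have h5 : n ≤ N1 := by
      by_contra hc
      obtain ⟨f, hf⟩ := h1 n (by omega)
      have := hl fun i => e.symm.toMonoidHom (f i)
      rw [C3.LW.lift_comp] at this
      exact hf (by simpa using this)
    have h6 : Nat.card G ≤ n.factorial := by
      rw [Nat.card_congr e.toEquiv]
      simpa [Fintype.card_perm] using Subgroup.card_le_card_group (alternatingGroup (Fin n))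
    have := Nat.factorial_le h5
    omega
  · have e' := e.trans (H4.quotCenterEquiv ((H4.slEquivKer (Fin n) F).trans
      (H4.glSub fun _ => H4.mem_specialLinear)))
    have hN : ¬ C3.LW.NL w (H4.SLg F (Fin n → F)) := fun h => by
      obtain ⟨f, hf⟩ := h.not_law C3.LW.center_SLg e'
      exact hf (hl f)
    have := C3.LW.card_le _ e' (M := M2 + M3) (by
      by_contra hc
      rw [Nat.card_eq_fintype_card] at hc
      exact hN (h2 F _ (by omega) (by simpa using hn))) (by
      by_contra hc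
      exact hN (h3 F _ (by omega)))
    omega
  refine le_trans ?_ (Nat.le_add_left _ _)
  rcases hG with ⟨F, _, _, m, hm, -, ⟨e⟩⟩ | ⟨F, _, _, n, q, hF, hn, -, ⟨e⟩⟩ |
    ⟨F, _, _, m, hm, ho, ⟨e⟩⟩ | ⟨F, _, _, m, hm, ⟨e⟩⟩ | ⟨F, _, _, m, a, b, hm, hab, ⟨e⟩⟩
  · have hf := H4.spF_nondeg (F := F) m
    have h5 := (H4.spF_TS_inlSub (F := F) m).le_wi
    rw [H4.finrank_inlSub] at h5
    exact h4 F _ _ _ G hf (by simp; omega) (by simp; omega) (Or.inl (by omega))
      ⟨e.trans (H4.quotCenterEquiv ((H4.spEquiv F m).trans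
        (MulEquiv.subgroupCongr hf.symp_E_eq.symm)))⟩ hl
  · have hf := H4.unF_nondeg hF n
    have h5 := hf.unit_finrank_le (H4.frobq_ne hF)
    exact h4 F _ _ _ G hf (by simpa using hn) (by omega) (Or.inr ⟨q, hF, rfl⟩)
      ⟨e.trans (H4.quotCenterEquiv (H4.suEquivE hF (by omega)))⟩ hl
  · have h2 : (2 : F) ≠ 0 := Ring.two_ne_zero
      (fun h => by have := FiniteField.even_card_iff_char_two.1 h; rw [Nat.odd_iff] at ho; omega)
    have hf := H4.oddF_nondeg h2 m
    have h5 : 5 ≤ Module.finrank F (Unit ⊕ (Fin m ⊕ Fin m) → F) := by simp; omega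
    exact h4 F _ _ _ G hf (by omega) hf.orth_finrank_le (Or.inl (hf.orth_wi_two h5))
      ⟨e.trans (H4.pomegaEquivE (hf.orth_commutator_eq_E' h5))⟩ hl
  · have hf := H4.plusF_nondeg (F := F) m
    have h5 : 5 ≤ Module.finrank F (Fin m ⊕ Fin m → F) := by simp; omega
    exact h4 F _ _ _ G hf (by omega) hf.orth_finrank_le (Or.inl (hf.orth_wi_two h5))
      ⟨e.trans (H4.pomegaEquivE (hf.orth_commutator_eq_E' h5))⟩ hl
  · have hf := H4.minusF_nondeg (m - 1) hab
    have h5 : 5 ≤ Module.finrank F ((Fin (m - 1) ⊕ Fin (m - 1)) ⊕ Fin 2 → F) := by simp; omega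
    exact h4 F _ _ _ G hf (by omega) hf.orth_finrank_le (Or.inl (hf.orth_wi_two h5))
      ⟨e.trans (H4.pomegaEquivE (hf.orth_commutator_eq_E' h5))⟩ hl

end Cfsg.Agent.S2355
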