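import Cfsg.Statements.S2357
import Cfsg.Agent.H5.Re3

set_option autoImplicit false
open Cfsg

namespace Cfsg.Agent.S2357

/-- Let R be the small Ree group over the field with q = 3^(2m+1) ≥ 27 elements and write φ for Euler's totient function. Then R has exactly q²(q²−q+1) involutions, (q²−1)(q³+1) elements of order 3, and q²(q−1)(q³+1) elements of order 6 and as many of order 9; for i > 2 dividing q−1 it has φ(i)q³(q³+1)/2 elements of order i; for i > 1 dividing (q+1)/4 it has φ(i)q³(q−1)(q²−q+1)/6 elements of order i and φ(i)q³(q−1)(q²−q+1)/2 elements of order 2i; and for i > 1 dividing q − 3^(m+1) + 1 (respectively q + 3^(m+1) + 1) it has φ(i)q³(q²−1)(q + 3^(m+1) + 1)/6 (respectively φ(i)q³(q²−1)(q − 3^(m+1) + 1)/6) elements of order i. -/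
theorem result {K : Type*} [Field K] [Fintype K] {m : ℕ} (hm : 1 ≤ m)
    (hK : Fintype.card K = 3 ^ (2 * m + 1)) :
    Nat.card {g : ↥(Cfsg.Lie.twistedG2 K (3 ^ m)) // orderOf g = 2} = (3 ^ (2 * m + 1)) ^ 2 * ((3 ^ (2 * m + 1)) ^ 2 - 3 ^ (2 * m + 1) + 1) ∧
    Nat.card {g : ↥(Cfsg.Lie.twistedG2 K (3 ^ m)) // orderOf g = 3} = ((3 ^ (2 * m + 1)) ^ 2 - 1) * ((3 ^ (2 * m + 1)) ^ 3 + 1) ∧
    Nat.card {g : ↥(Cfsg.Lie.twistedG2 K (3 ^ m)) // orderOf g = 6} = (3 ^ (2 * m + 1)) ^ 2 * (3 ^ (2 * m + 1) - 1) * ((3 ^ (2 * m + 1)) ^ 3 + 1) ∧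
    Nat.card {g : ↥(Cfsg.Lie.twistedG2 K (3 ^ m)) // orderOf g = 9} = (3 ^ (2 * m + 1)) ^ 2 * (3 ^ (2 * m + 1) - 1) * ((3 ^ (2 * m + 1)) ^ 3 + 1) ∧
    (∀ i : ℕ, 2 < i → i ∣ 3 ^ (2 * m + 1) - 1 →
      2 * Nat.card {g : ↥(Cfsg.Lie.twistedG2 K (3 ^ m)) // orderOf g = i} = Nat.totient i * (3 ^ (2 * m + 1)) ^ 3 * ((3 ^ (2 * m + 1)) ^ 3 + 1)) ∧
    (∀ i : ℕ, 1 < i → i ∣ (3 ^ (2 * m + 1) + 1) / 4 →
      6 * Nat.card {g : ↥(Cfsg.Lie.twistedG2 K (3 ^ m)) // orderOf g = i} =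
          Nat.totient i * (3 ^ (2 * m + 1)) ^ 3 * (3 ^ (2 * m + 1) - 1) * ((3 ^ (2 * m + 1)) ^ 2 - 3 ^ (2 * m + 1) + 1) ∧
        2 * Nat.card {g : ↥(Cfsg.Lie.twistedG2 K (3 ^ m)) // orderOf g = 2 * i} =
          Nat.totient i * (3 ^ (2 * m + 1)) ^ 3 * (3 ^ (2 * m + 1) - 1) * ((3 ^ (2 * m + 1)) ^ 2 - 3 ^ (2 * m + 1) + 1)) ∧
    (∀ i : ℕ, 1 < i → i ∣ 3 ^ (2 * m + 1) - 3 ^ (m + 1) + 1 →
      6 * Nat.card {g : ↥(Cfsg.Lie.twistedG2 K (3 ^ m)) // orderOf g = i} =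
        Nat.totient i * (3 ^ (2 * m + 1)) ^ 3 * ((3 ^ (2 * m + 1)) ^ 2 - 1) * (3 ^ (2 * m + 1) + 3 ^ (m + 1) + 1)) ∧
    (∀ i : ℕ, 1 < i → i ∣ 3 ^ (2 * m + 1) + 3 ^ (m + 1) + 1 →
      6 * Nat.card {g : ↥(Cfsg.Lie.twistedG2 K (3 ^ m)) // orderOf g = i} =
        Nat.totient i * (3 ^ (2 * m + 1)) ^ 3 * ((3 ^ (2 * m + 1)) ^ 2 - 1) * (3 ^ (2 * m + 1) - 3 ^ (m + 1) + 1)) := by
  obtain ⟨a, ha, hq, _, X, -⟩ := H5.exists_ree hK
  obtain ⟨-, h1, h2, h3⟩ := H5.ree_num ha hq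
  let Z := X.toReeG
  have e0 : H5.Ree.qq a - 1 = 2 * H5.Ree.kk a 0 := by simp [H5.Ree.kk, H5.Ree.qq]; omega
  have e1 : H5.Ree.qq a + 1 = 4 * H5.Ree.kk a 1 := by simp [H5.Ree.kk, H5.Ree.qq]; omega
  have e2 : H5.Ree.qq a ^ 2 - H5.Ree.qq a + 1 = H5.Ree.kk a 2 * H5.Ree.kk a 3 := by
    zify [Nat.le_self_pow two_ne_zero (H5.Ree.qq a)]; simp [H5.Ree.kk, H5.Ree.qq]; ring
  have e3 : H5.Ree.qq a ^ 3 + 1 = 4 * H5.Ree.kk a 1 * (H5.Ree.kk a 2 * H5.Ree.kk a 3) := by simp [H5.Ree.kk, H5.Ree.qq]; ring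
  have e4 : H5.Ree.qq a ^ 2 - 1 = 2 * H5.Ree.kk a 0 * (4 * H5.Ree.kk a 1) := by rw [← e0, ← e1, mul_comm, ← Nat.sq_sub_sq, one_pow]
  have e5 : H5.Ree.qq a ^ 3 - H5.Ree.qq a ^ 2 = H5.Ree.qq a ^ 2 * (H5.Ree.qq a - 1) := by rw [Nat.mul_sub_one, ← pow_succ]
  have hp := fun i => (Z.tor i).odd.pos
  have hc := Z.card
  have ho : ∀ j i, 1 < i → i ∣ H5.Ree.kk a j → Nat.card {g : ↥(Lie.twistedG2 K (3 ^ m)) // orderOf g = i} *
      (H5.Ree.ww j * (H5.Ree.vv j * H5.Ree.kk a j)) = Nat.card ↥(Lie.twistedG2 K (3 ^ m)) * i.totient := fun j i h h' => by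
    rw [Z.count_tor (fun e => ?_) (h'.mul_left _), (Z.tor j).ncard_odd h']
    have := Nat.odd_iff.1 ((Z.tor j).odd.of_dvd_nat h')
    have := Nat.le_of_dvd two_pos e
    omega
  have he : ∀ j i, 1 < i → i ∣ H5.Ree.kk a j → Nat.card {g : ↥(Lie.twistedG2 K (3 ^ m)) // orderOf g = 2 * i} *
      (H5.Ree.ww j * (H5.Ree.vv j * H5.Ree.kk a j)) = Nat.card ↥(Lie.twistedG2 K (3 ^ m)) * ((H5.Ree.vv j - 1) * i.totient) :=
    fun j i h h' => by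
      rw [Z.count_tor (fun e => by have := Nat.le_of_dvd two_pos e; omega) (Nat.mul_dvd_mul_left _ h'), (Z.tor j).ncard_even h']
  have c3 := (Z.count_U one_ne_zero).trans (congrArg _ Z.ncard_U.1)
  have c9 := (Z.count_U two_ne_zero).trans (congrArg _ Z.ncard_U.2)
  rw [pow_one] at c3
  rw [h1, h2, h3, hq, e2, Z.count_six, Z.count_two, c3, show 9 = 3 ^ 2 from rfl, c9, e5, e4, e3, e0]
  rw [e3, e0] at hc
  simp only [hc] at ho he
  refine ⟨rfl, mul_comm _ _, by ring, by ring, fun i h h' => ?_, fun i h h' => ⟨?_, ?_⟩, fun i h h' => ?_, fun i h h' => ?_⟩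
  · refine Nat.eq_of_mul_eq_mul_right (hp 0) (Nat.eq_of_mul_eq_mul_left two_pos ?_)
    rcases Nat.even_or_odd' i with ⟨i, rfl | rfl⟩
    · have h4 := Nat.dvd_of_mul_dvd_mul_left two_pos h'
      have := he 0 i (by omega) h4
      rw [Nat.totient_two_mul_of_odd ((Z.tor 0).odd.of_dvd_nat h4)]
      simp only [H5.Ree.vv, H5.Ree.ww, Matrix.cons_val] at this
      linear_combination this
    · have := ho 0 _ (by omega) ((Odd.coprime_two_right ⟨i, rfl⟩).dvd_of_dvd_mul_left h')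
      simp only [H5.Ree.vv, H5.Ree.ww, Matrix.cons_val] at this
      linear_combination this
  · refine Nat.eq_of_mul_eq_mul_right (hp 1) (Nat.eq_of_mul_eq_mul_left four_pos ?_)
    have := ho 1 i h h'
    simp only [H5.Ree.vv, H5.Ree.ww, Matrix.cons_val] at this
    linear_combination this
  · refine Nat.eq_of_mul_eq_mul_right (hp 1) (Nat.eq_of_mul_eq_mul_left (show 0 < 12 by decide) ?_)
    have := he 1 i h h'
    simp only [H5.Ree.vv, H5.Ree.ww, Matrix.cons_val] at this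
    linear_combination this
  · refine Nat.eq_of_mul_eq_mul_right (hp 2) ?_
    have := ho 2 i h h'
    simp only [H5.Ree.vv, H5.Ree.ww, Matrix.cons_val] at this
    linear_combination this
  · refine Nat.eq_of_mul_eq_mul_right (hp 3) ?_
    have := ho 3 i h h'
    simp only [H5.Ree.vv, H5.Ree.ww, Matrix.cons_val] at this
    linear_combination this

end Cfsg.Agent.S2357
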