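import Cfsg.Statements.S2359
import Cfsg.Agent.H5.Re3

set_option autoImplicit false
open Cfsg

namespace Cfsg.Agent.S2359

/-- Let R be the small Ree group over the field with q = 3^(2m+1) ≥ 27 elements. If H is a cyclic subgroup of R of order (q−1)/2, then the centralizer of H in R is cyclic of order q−1, and every non-trivial subgroup of H has the same centralizer as H. If H is a cyclic subgroup of order (q+1)/4, then the centralizer of H is abelian of order q+1 with no element of order 4 (so it is the direct product of H and a group of order 4 whose non-identity elements all have order 2), and every non-trivial subgroup of H has the same centralizer as H. -/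
theorem result {K : Type*} [Field K] [Fintype K] {m : ℕ} (hm : 1 ≤ m)
    (hK : Fintype.card K = 3 ^ (2 * m + 1)) (H : Subgroup ↥(Cfsg.Lie.twistedG2 K (3 ^ m))) (hH : IsCyclic H) :
    (Nat.card H = (3 ^ (2 * m + 1) - 1) / 2 →
      IsCyclic ↥(Subgroup.centralizer (H : Set ↥(Cfsg.Lie.twistedG2 K (3 ^ m)))) ∧
        Nat.card ↥(Subgroup.centralizer (H : Set ↥(Cfsg.Lie.twistedG2 K (3 ^ m)))) = 3 ^ (2 * m + 1) - 1 ∧
        ∀ A : Subgroup ↥(Cfsg.Lie.twistedG2 K (3 ^ m)), A ≤ H → A ≠ ⊥ →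
          Subgroup.centralizer (A : Set ↥(Cfsg.Lie.twistedG2 K (3 ^ m))) = Subgroup.centralizer (H : Set ↥(Cfsg.Lie.twistedG2 K (3 ^ m)))) ∧
    (Nat.card H = (3 ^ (2 * m + 1) + 1) / 4 →
      IsMulCommutative ↥(Subgroup.centralizer (H : Set ↥(Cfsg.Lie.twistedG2 K (3 ^ m)))) ∧
        Nat.card ↥(Subgroup.centralizer (H : Set ↥(Cfsg.Lie.twistedG2 K (3 ^ m)))) = 3 ^ (2 * m + 1) + 1 ∧
        (∀ x ∈ Subgroup.centralizer (H : Set ↥(Cfsg.Lie.twistedG2 K (3 ^ m))), orderOf x ≠ 4) ∧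
        ∀ A : Subgroup ↥(Cfsg.Lie.twistedG2 K (3 ^ m)), A ≤ H → A ≠ ⊥ →
          Subgroup.centralizer (A : Set ↥(Cfsg.Lie.twistedG2 K (3 ^ m))) = Subgroup.centralizer (H : Set ↥(Cfsg.Lie.twistedG2 K (3 ^ m)))) := by
  obtain ⟨a, ha, hq, _, X, -⟩ := H5.exists_ree hK
  obtain ⟨h0, h1, -⟩ := H5.ree_num ha hq
  have key : ∀ i, Nat.card H = H5.Ree.kk a i → ∃ T N y, H5.Ree.TorD T N y (H5.Ree.vv i) (H5.Ree.kk a i) (H5.Ree.ww i) ∧
      Subgroup.centralizer (H : Set ↥(Lie.twistedG2 K (3 ^ m))) = T ∧ ∀ A : Subgroup ↥(Lie.twistedG2 K (3 ^ m)), A ≤ H → A ≠ ⊥ →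
        Subgroup.centralizer (A : Set ↥(Lie.twistedG2 K (3 ^ m))) = T := fun i h => by
    obtain ⟨x, hx⟩ := X.toReeG.conj_cyc hH h.dvd
    refine ⟨_, _, _, (X.tor i).cj x, ((X.tor i).cj x).centralizer_eq hx fun e => ?_, fun A h1 => ((X.tor i).cj x).centralizer_eq (h1.trans hx)⟩
    have := H5.kk_one_lt hm ha i
    rw [e, Subgroup.card_bot] at h; omega
  rw [h0, h1]
  refine ⟨fun h => ?_, fun h => ?_⟩
  · obtain ⟨T, N, y, h2, h3, h4⟩ := key 0 h
    obtain ⟨t, h5, h6⟩ := h2.exists_ord (by decide)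
    rw [h3, h2.card, hq]
    exact ⟨isCyclic_of_orderOf_eq_card ⟨t, h5⟩ (by rw [Subgroup.orderOf_mk, h6, h2.card]; rfl),
      by simp [H5.Ree.kk, H5.Ree.qq, H5.Ree.vv]; omega, h4⟩
  · obtain ⟨T, N, y, h2, h3, h4⟩ := key 1 h
    rw [h3, h2.card, hq]
    refine ⟨⟨⟨fun a b => Subtype.ext (h2.comm _ a.2 _ b.2)⟩⟩, by simp [H5.Ree.kk, H5.Ree.qq, H5.Ree.vv]; omega, fun x hx e => ?_, h4⟩
    have := e ▸ h2.dvd hx
    have := Nat.odd_iff.1 h2.odd
    omega

end Cfsg.Agent.S2359
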