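import Cfsg.Statements.S2450
import Mathlib
import Cfsg.Agent.H7.Mac

set_option autoImplicit false
open Cfsg

namespace Cfsg.Agent.S2450

open Cfsg.Agent.H4 Cfsg.Agent.H7 Subgroup Matrix
open scoped MatrixGroups

theorem not_sub {F : Type*} [Fintype F] (h4 : 4 ≤ Fintype.card F) (a b c : F) : ¬ ∀ x : F, x = a ∨ x = b ∨ x = c := by
  classical
  intro h
  have : (Finset.univ : Finset F) ⊆ {a, b, c} := fun x _ => by simpa using h x
  have h1 := (Finset.card_le_card this).trans Finset.card_le_three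
  rw [Finset.card_univ] at h1
  omega

theorem core {F : Type*} [Field F] [Fintype F] (h4 : 4 ≤ Fintype.card F) {A B : SL(2, F)} {γ : F}
    (hA : tr A ^ 2 ≠ 4) (hB1 : Matrix.SpecialLinearGroup.toPGL B ≠ 1) (hB : tr B ^ 2 ≠ 4 ∨ tr B = 2)
    (h : ∀ A' : SL(2, F), IsConj (A : PSL(2, F)) A' → tr (A' * B) ^ 2 = γ ^ 2) : False := by
  refine not_sub h4 (tr A) γ (-γ) fun t => ?_
  by_cases ht : t = tr A
  · exact Or.inl ht
  · right
    have : ∃ P Q : SL(2, F), tr P = tr A ∧ tr Q = t ∧ P * Q = B := by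
      rcases hB with hB | hB
      exacts [mac hB _ _, mac_two hB1 hB (Ne.symm ht)]
    obtain ⟨P, Q, hP, hQ, rfl⟩ := this
    have := h P⁻¹ (psl_isConj_of_tr hA (by rw [tr_inv, hP]))
    rw [inv_mul_cancel_left, hQ] at this
    exact sq_eq_sq_iff_eq_or_eq_neg.1 this

/-- The Arad–Herzog conjecture for PSL(2,q): let F be a finite field with q ≥ 4 elements. For any two non-identity elements a, b of PSL(2,F), the set of products of a conjugate of a with a conjugate of b is not a single conjugacy class. -/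
theorem result {F : Type*} [Field F] [Fintype F] (h4 : 4 ≤ Fintype.card F)
    (a b : Matrix.ProjectiveSpecialLinearGroup (Fin 2) F) (ha : a ≠ 1) (hb : b ≠ 1) (c : Matrix.ProjectiveSpecialLinearGroup (Fin 2) F) :
    {g : Matrix.ProjectiveSpecialLinearGroup (Fin 2) F | ∃ u v : Matrix.ProjectiveSpecialLinearGroup (Fin 2) F, g = (u * a * u⁻¹) * (v * b * v⁻¹)} ≠ {g | IsConj c g} := by
  intro e
  obtain ⟨A, rfl, hA⟩ := exists_lift_two a
  obtain ⟨B, rfl, hB⟩ := exists_lift_two b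
  obtain ⟨C, rfl⟩ := QuotientGroup.mk_surjective c
  have hA1 := mt psl_mk_eq_one.2 ha
  have hB1 := mt psl_mk_eq_one.2 hb
  have key : ∀ A' B' : SL(2, F), IsConj (A : PSL(2, F)) A' → IsConj (B : PSL(2, F)) B' →
      tr (A' * B') ^ 2 = tr C ^ 2 := fun A' B' h1 h2 => by
    obtain ⟨u, hu⟩ := isConj_iff.1 h1
    obtain ⟨v, hv⟩ := isConj_iff.1 h2
    have : ((A' * B' : SL(2, F)) : PSL(2, F)) ∈ {g : PSL(2, F) | IsConj (C : PSL(2, F)) g} := by
      rw [← e]; exact ⟨u, v, by rw [hu, hv]; rfl⟩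
    exact tr_sq_of_psl_isConj this
  rcases hA with hA | hA
  · exact core h4 hA hB1 hB fun A' h => key A' B h (IsConj.refl _)
  rcases hB with hB | hB
  · exact core h4 hB hA1 (Or.inr hA) fun B' h => by rw [tr_mul_comm]; exact key A B' (IsConj.refl _) h
  obtain ⟨β, hβ, h1⟩ := exists_isConj_up hA1 hA
  obtain ⟨β', hβ', h2⟩ := exists_isConj_up hB1 hB
  have h3 := key _ _ (psl_isConj h1.symm) (psl_isConj h2.symm)
  have h5 : ∀ c : F, c ≠ 0 → β * β' * c ^ 2 = 4 := fun c hc => by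
    let g : SL(2, F) := sm 0 (-c⁻¹) c 0 (by field_simp; ring)
    have := key _ (g * up β' * g⁻¹) (psl_isConj h1.symm) (psl_isConj (h2.symm.trans (isConj_iff.2 ⟨g, rfl⟩)))
    have e1 : tr (up β * (g * up β' * g⁻¹)) = 2 - β * β' * c ^ 2 := by
      simp only [g, up, sm_inv, sm_mul, tr_sm]
      field_simp
      ring
    have e2 : tr (up β * up β') = 2 := by
      simp only [up, sm_mul, tr_sm]
      ring
    rw [← h3, e1, e2] at this
    have h6 : β * β' * c ^ 2 * (β * β' * c ^ 2 - 4) = 0 := by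
      linear_combination this
    exact sub_eq_zero.1 ((mul_eq_zero.1 h6).resolve_left (mul_ne_zero (mul_ne_zero hβ hβ') (pow_ne_zero _ hc)))
  refine not_sub h4 0 1 (-1) fun c => ?_
  by_cases hc : c = 0
  · exact Or.inl hc
  · right
    have h6 := h5 1 one_ne_zero
    have : c ^ 2 = 1 ^ 2 := mul_left_cancel₀ (mul_ne_zero hβ hβ') ((h5 c hc).trans h6.symm)
    exact sq_eq_sq_iff_eq_or_eq_neg.1 this

end Cfsg.Agent.S2450
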