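import Cfsg.Statements.S2455
import Mathlib
import Cfsg.Agent.H7.Mac

set_option autoImplicit false
open Cfsg

namespace Cfsg.Agent.S2455

open Cfsg.Agent.H4 Cfsg.Agent.H7 Subgroup Matrix
open scoped MatrixGroups

/-- A strong covering result in the direction of Thompson's conjecture (non-identity elements) for PSL(2,q), q odd: let F be a finite field of odd characteristic p with at least 5 elements and let x ∈ PSL(2,F) have order greater than 2 and not divisible by p (so x is not unipotent). Then every non-identity element of PSL(2,F) is a product of two conjugates of x. -/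
theorem result {F : Type*} [Field F] [Fintype F] (p : ℕ) [Fact p.Prime] [CharP F p] (hp : p ≠ 2) (h5 : 5 ≤ Fintype.card F)
    (x : Matrix.ProjectiveSpecialLinearGroup (Fin 2) F) (hx2 : 2 < orderOf x) (hxp : ¬ p ∣ orderOf x) : ∀ g : Matrix.ProjectiveSpecialLinearGroup (Fin 2) F, g ≠ 1 → ∃ u v : Matrix.ProjectiveSpecialLinearGroup (Fin 2) F, g = (u * x * u⁻¹) * (v * x * v⁻¹) := by
  intro g hg
  have h2 : (2 : F) ≠ 0 := two_ne_zero_of_char hp
  obtain ⟨X, rfl, hX⟩ := exists_lift_two x
  obtain ⟨G, rfl, hG⟩ := exists_lift_two g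
  have hx1 : (X : PSL(2, F)) ≠ 1 := fun h => by rw [h] at hx2; simp at hx2
  have h4 : tr X ^ 2 ≠ 4 := by
    refine hX.resolve_right fun h => hxp ?_
    have := pow_eq_one_of_tr p (mt psl_mk_eq_one.2 hx1) h
    rw [orderOf_eq_prime (p := p) (by rw [← QuotientGroup.mk_pow, this]; rfl) hx1]
  have h0 : tr X ≠ 0 := fun h => by
    have h1 : (X : PSL(2, F)) ^ 2 = 1 := by
      rw [← QuotientGroup.mk_pow, (sq_eq_neg_one_iff h2).2 h, psl_neg]; rfl
    have := Nat.le_of_dvd two_pos (orderOf_dvd_of_pow_eq_one h1)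
    omega
  rcases hG with hG | hG
  · obtain ⟨A, B, hA, hB, rfl⟩ := mac hG (tr X) (tr X)
    exact prod_of_tr h4 (by rw [hA]) (by rw [hB])
  · obtain ⟨A, B, hA, hB, rfl⟩ := mac_two (mt psl_mk_eq_one.2 hg) hG (t := tr X) (t' := -tr X)
      fun h => h0 ((mul_eq_zero.1 (by linear_combination h : 2 * tr X = 0)).resolve_left h2)
    exact prod_of_tr h4 (by rw [hA]) (by rw [hB, neg_sq])

end Cfsg.Agent.S2455
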