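import Cfsg.Statements.S2456
import Mathlib
import Cfsg.Agent.H7.Mac

set_option autoImplicit false
open Cfsg

namespace Cfsg.Agent.S2456

open Cfsg.Agent.H4 Cfsg.Agent.H7 Subgroup Matrix
open scoped MatrixGroups

/-- A strong covering result in the direction of Thompson's conjecture (non-identity elements) for PSL(2,q), q even: let F be a finite field of characteristic 2 with q ≥ 4 elements and let x ∈ PSL(2,F) have order greater than 2 and not dividing q + 1. Then every non-identity element of PSL(2,F) is a product of two conjugates of x. -/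
theorem result {F : Type*} [Field F] [Fintype F] [CharP F 2] (h4 : 4 ≤ Fintype.card F)
    (x : Matrix.ProjectiveSpecialLinearGroup (Fin 2) F) (hx2 : 2 < orderOf x) (hxq : ¬ orderOf x ∣ Fintype.card F + 1) : ∀ g : Matrix.ProjectiveSpecialLinearGroup (Fin 2) F, g ≠ 1 → ∃ u v : Matrix.ProjectiveSpecialLinearGroup (Fin 2) F, g = (u * x * u⁻¹) * (v * x * v⁻¹) := by
  intro g hg
  have h2 : (2 : F) = 0 := by exact_mod_cast CharP.cast_eq_zero F 2
  obtain ⟨X, rfl, hX⟩ := exists_lift_two x
  obtain ⟨G, rfl, hG⟩ := exists_lift_two g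
  have hx1 : (X : PSL(2, F)) ≠ 1 := fun h => by rw [h] at hx2; simp at hx2
  have h4 : tr X ^ 2 ≠ 4 := by
    refine hX.resolve_right fun h => ?_
    have := pow_eq_one_of_tr 2 (mt psl_mk_eq_one.2 hx1) h
    rw [orderOf_eq_prime (p := 2) (by rw [← QuotientGroup.mk_pow, this]; rfl) hx1] at hx2
    omega
  rcases hG with hG | hG
  · obtain ⟨A, B, hA, hB, rfl⟩ := mac hG (tr X) (tr X)
    exact prod_of_tr h4 (by rw [hA]) (by rw [hB])
  · obtain ⟨x, y, ht, hx⟩ := exists_TS_of_tr h4
    have hr : Rat x := by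
      by_contra hr
      apply hxq
      rw [← ht.card_TS_qd hr]
      exact (orderOf_map_dvd (QuotientGroup.mk' (center SL(2, F))) X).trans ((TS x y).orderOf_dvd_natCard hx)
    obtain ⟨a, ha⟩ := exists_eigen_of_rat hr (mem_TS.1 hx).1
    obtain ⟨A, B, hA, hB, rfl⟩ := mac_of_conic (mt psl_mk_eq_one.2 hg) (t := tr X) (t' := tr X) (a := a) (b := 0)
      (by linear_combination ha)
    exact prod_of_tr h4 (by rw [hA]) (by rw [hB])

end Cfsg.Agent.S2456
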