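import Cfsg.Statements.S2471
import Cfsg.Agent.H4.Dick8

set_option autoImplicit false
open Cfsg

namespace Cfsg.Agent.S2471

/-- In PSL(2,q) with q odd, the characteristic p is isolated from 2 in the prime graph: for F a finite field of odd characteristic p with at least 5 elements, PSL(2,F) has no element of order 2p. -/
theorem result {F : Type*} [Field F] [Fintype F] (p : ℕ) [Fact p.Prime] [CharP F p] (hp : p ≠ 2) (h5 : 5 ≤ Fintype.card F) (g : Matrix.ProjectiveSpecialLinearGroup (Fin 2) F) :
    orderOf g ≠ 2 * p := by
  open Cfsg.Agent.H4 in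
  intro h
  have h1 : orderOf (Matrix.ProjectiveSpecialLinearGroup.toPGL g) = 2 * p := by
    rw [orderOf_injective _ Matrix.ProjectiveSpecialLinearGroup.toPGL_injective, h]
  have h2 := (Fact.out : p.Prime).two_le
  have h3 := char_dvd_card F p
  rcases orderOf_cases (p := p) le_top (Subgroup.mem_top (Matrix.ProjectiveSpecialLinearGroup.toPGL g))
    with e | e | e
  · have := orderOf_le_of_pow_eq_one (by omega) e; omega
  · rw [h1] at e
    have := Nat.le_of_dvd one_pos ((Nat.dvd_add_right ((dvd_mul_left p _).trans ((dvd_mul_left _ _).trans e))).1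
      (by rwa [Nat.sub_add_cancel (by omega)]))
    omega
  · rw [h1] at e
    have := Nat.le_of_dvd one_pos ((Nat.dvd_add_right h3).1 ((dvd_mul_left p _).trans ((dvd_mul_left _ _).trans e)))
    omega

end Cfsg.Agent.S2471
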