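import Cfsg.Statements.S2485
import Mathlib
import Cfsg.Agent.H7.Sol

set_option autoImplicit false
open scoped Pointwise
open Cfsg

namespace Cfsg.Agent.S2485

open Cfsg.Agent.H4 Cfsg.Agent.H7 Subgroup Matrix
open scoped MatrixGroups

variable {F : Type*} [Field F] [Fintype F]

theorem exists_invol (hodd : Odd (Fintype.card F)) {a b : Pt F} (h : TP a b) :
    ∃ t : PGL(2, F), t ≠ 1 ∧ t ^ 2 = 1 ∧ t • a = a ∧ t • b = b := by
  obtain ⟨p, _, _⟩ := exists_char F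
  have h2 : 2 ∣ Nat.card ↥(St (⊤ : Subgroup PGL(2, F)) a ⊓ St ⊤ b) := by
    have h1 := Nat.odd_iff.1 hodd
    rcases h.card_torus (p := p) (Γ := ⊤) le_top with ⟨-, -, e⟩ | ⟨-, -, e⟩ <;>
      rw [index_top, one_mul] at e <;> omega
  obtain ⟨t, ht⟩ := exists_prime_orderOf_dvd_card' 2 h2
  rw [← Subgroup.orderOf_coe] at ht
  exact ⟨t, fun e => by rw [e] at ht; simp at ht, orderOf_dvd_iff_pow_eq_one.1 (dvd_of_eq ht), t.2.1.2, t.2.2.2⟩

theorem inf_ne_bot (hodd : Odd (Fintype.card F)) {a b c d : Pt F} (h : TP a b) (h' : TP c d) (ha : ¬ Rat a) :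
    PS PGL(2, F) a b ⊓ PS PGL(2, F) c d ≠ ⊥ := by
  obtain ⟨p, _, _⟩ := exists_char F
  set D := dact F p
  have hb : ¬ Rat b := by
    rcases h.2 with h | h
    exacts [(ha h.1).elim, h.2.1.1]
  obtain ⟨z, z1, z2, za, zb⟩ := exists_invol hodd h
  obtain ⟨w, w1, w2, wc, wd⟩ := exists_invol hodd h'
  rw [← D.centralizer_PS h.1 z1 z2 za zb, ← D.centralizer_PS h'.1 w1 w2 wc wd]
  suffices ∃ t : PGL(2, F), t ≠ 1 ∧ t * z = z * t ∧ t * w = w * t by
    obtain ⟨t, t1, h1, h2⟩ := this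
    exact ne_bot_iff_exists_ne_one.2 ⟨⟨t, mem_centralizer_singleton_iff.2 h1, mem_centralizer_singleton_iff.2 h2⟩,
      fun e => t1 (congrArg Subtype.val e)⟩
  have zi : z⁻¹ = z := inv_eq_of_mul_eq_one_right ((sq _).symm.trans z2)
  have wi : w⁻¹ = w := inv_eq_of_mul_eq_one_right ((sq _).symm.trans w2)
  have e : z⁻¹ * (z * w) * z = (z * w)⁻¹ := by rw [inv_mul_cancel_left, _root_.mul_inv_rev, zi, wi]
  by_cases c1 : z * w = 1
  · exact ⟨z, z1, rfl, mul_eq_one_comm.1 c1 ▸ c1⟩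
  by_cases hp : (z * w) ^ p = 1
  · exfalso
    obtain ⟨u, hu⟩ := D.fix (z * w)
    have h1 := D.fix_of_conj_U c1 ⟨hu, hp⟩ (g := z) (by rw [e, inv_smul_eq_iff, hu])
    have h2 : Rat u := rat_of_U (p := p) ⟨hu, hp⟩ c1
    rcases D.fix_or z1 h.1 za zb h1 with rfl | rfl
    exacts [ha h2, hb h2]
  · obtain ⟨u, v, huv, hu, hv⟩ := exists_tp_of hp
    obtain ⟨t, t1, t2, tu, tv⟩ := exists_invol hodd huv
    have h1 : z ∈ PS PGL(2, F) u v := D.mem_PS_of_conj c1 huv.1 hu hv (by rw [e, inv_smul_eq_iff, hu])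
      (by rw [e, inv_smul_eq_iff, hv])
    have h2 : w ∈ PS PGL(2, F) u v := by
      simpa using mul_mem (inv_mem h1) (show z * w ∈ PS PGL(2, F) u v from Or.inl ⟨hu, hv⟩)
    rw [← D.centralizer_PS huv.1 t1 t2 tu tv, mem_centralizer_singleton_iff] at h1 h2
    exact ⟨t, t1, h1.symm, h2.symm⟩

theorem main {k : ℕ} (hk : Fintype.card F + 1 = 2 ^ k) (hq : 7 ≤ Fintype.card F) (H : Sylow 2 PGL(2, F))
    (x : PGL(2, F)) : (H : Subgroup PGL(2, F)) ⊓ MulAut.conj x • (H : Subgroup _) ≠ ⊥ := by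
  obtain ⟨k, rfl⟩ : ∃ j, k = j + 2 := by
    refine ⟨k - 2, ?_⟩
    rcases (by omega : k = 0 ∨ k = 1 ∨ 2 ≤ k) with rfl | rfl | h <;> omega
  have h4 : Fintype.card F % 4 = 3 := by rw [pow_add] at hk; omega
  have hodd : Odd (Fintype.card F) := Nat.odd_iff.2 (by omega)
  obtain ⟨p, _, _⟩ := exists_char F
  obtain ⟨a, b, h, ha⟩ := exists_tp_qd (F := F)
  have hc : Nat.card (PS PGL(2, F) a b) = 2 ^ (k + 2 + 1) := by
    have h4 := h.card_normalizer (Γ := ⊤) le_top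
    have h5 := h.card_qd (Γ := ⊤) le_top ha
    rw [index_top, one_mul] at h5
    rw [top_inf_eq, h5] at h4
    rw [h4, hk, pow_succ' 2 (k + 2)]
  obtain ⟨Q, hQ⟩ := (IsPGroup.of_card hc).exists_le_sylow
  obtain ⟨m, hm⟩ : ∃ m, Fintype.card F = 2 * m + 1 := hodd
  have hG : Nat.card PGL(2, F) = 2 ^ (k + 2 + 1) * (Fintype.card F * m) := by
    rw [card_PGL2, pow_succ' 2, ← hk, hm, show (2 * m + 1) ^ 2 - 1 = 2 * m * (2 * m + 1 + 1) by
      apply Nat.sub_eq_of_eq_add; ring]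
    ring
  have hQc := card_sylow_eq Q hG fun h => by
    rcases (Nat.Prime.dvd_mul Nat.prime_two).1 h with h | h <;> omega
  have hQ' : PS PGL(2, F) a b = Q := eq_of_le_of_card_ge hQ (by omega)
  obtain ⟨g, rfl⟩ := MulAction.exists_smul_eq PGL(2, F) Q H
  have e1 : ((g • Q : Sylow 2 PGL(2, F)) : Subgroup PGL(2, F)) = PS PGL(2, F) (g • a) (g • b) := by
    rw [PS_cjg, hQ']; rfl
  have e2 : MulAut.conj x • PS PGL(2, F) (g • a) (g • b) = PS PGL(2, F) (x • g • a) (x • g • b) := by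
    rw [PS_cjg x]; rfl
  rw [e1, e2]
  exact inf_ne_bot ⟨m, hm⟩ (h.smul g) ((h.smul g).smul x) (mt (rat_smul_iff g).1 ha)

/-- Let q = 2^k − 1 ≥ 7 be a prime and let G = PGL(2,q), the general linear group of degree 2 over the field with q elements modulo its centre. Then any two Sylow 2-subgroups of G have a non-trivial intersection: for a Sylow 2-subgroup H and every x ∈ G, H ∩ H^x ≠ 1. -/
theorem result {q k : ℕ} [Fact q.Prime] (hk : q + 1 = 2 ^ k) (hq : 7 ≤ q)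
    (H : Sylow 2 (GL (Fin 2) (ZMod q) ⧸ Subgroup.center (GL (Fin 2) (ZMod q))))
    (x : GL (Fin 2) (ZMod q) ⧸ Subgroup.center (GL (Fin 2) (ZMod q))) :
    (H : Subgroup (GL (Fin 2) (ZMod q) ⧸ Subgroup.center (GL (Fin 2) (ZMod q)))) ⊓ MulAut.conj x • (H : Subgroup _) ≠ ⊥ := by
  exact main (F := ZMod q) (by rwa [ZMod.card]) (by rwa [ZMod.card]) H x

end Cfsg.Agent.S2485
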