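import Cfsg.Statements.S2488
import Cfsg.Agent.L.PGroup
import Cfsg.Agent.GS.Mk1

set_option autoImplicit false
open scoped Pointwise
open Cfsg

namespace Cfsg.Agent.S2488

section
open Finset Pointwise Cfsg.Agent.St Cfsg.Agent.H6

set_option maxRecDepth 100000
open Equiv in
def cL : List (Perm (Fin 6)) := [1, swap 0 2, swap 0 3, swap 0 4, swap 0 5, swap 1 4, swap 1 5, swap 2 4, swap 2 5, swap 3 4, swap 3 5, swap 0 4 * swap 0 2, swap 0 5 * swap 0 2, swap 1 4 * swap 0 2, swap 1 5 * swap 0 2, swap 2 4 * swap 0 2, swap 2 5 * swap 0 2, swap 3 4 * swap 0 2, swap 3 5 * swap 0 2, swap 0 4 * swap 0 3, swap 0 5 * swap 0 3, swap 1 4 * swap 0 3, swap 1 5 * swap 0 3, swap 2 4 * swap 0 3, swap 2 5 * swap 0 3, swap 3 4 * swap 0 3, swap 3 5 * swap 0 3, swap 1 5 * swap 0 4, swap 2 5 * swap 0 4, swap 3 5 * swap 0 4, swap 2 4 * swap 0 5, swap 3 4 * swap 0 5, swap 2 5 * swap 1 4, swap 3 5 * swap 1 4, swap 2 4 * swap 1 5, swap 3 4 * swap 1 5, swap 3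 5 * swap 2 4, swap 1 5 * swap 0 4 * swap 0 2, swap 3 5 * swap 0 4 * swap 0 2, swap 1 4 * swap 0 5 * swap 0 2, swap 2 5 * swap 1 4 * swap 0 2, swap 3 5 * swap 2 4 * swap 0 2, swap 3 4 * swap 2 5 * swap 0 2, swap 2 5 * swap 0 4 * swap 0 3, swap 3 5 * swap 1 4 * swap 0 3]
open Equiv in
def z0 : Perm (Fin 6) := swap 0 1 * swap 2 3
open Equiv
theorem fA : ∀ z : Perm (Fin 6), z * z = 1 → z ≠ 1 → Perm.sign z = 1 → ∃ c ∈ cL, c⁻¹ * z * c = z0 := by decide +kernel
theorem fB : ∀ g : Perm (Fin 6), g * z0 = z0 * g → g ^ 4 = 1 := by decide +kernel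
theorem fC : (univ.filter fun w : Perm (Fin 6) => w * w = 1 ∧ Perm.sign w = 1 ∧ (z0 * w) ^ 3 = 1).card < 32 := by decide +kernel
theorem fD : (univ.filter fun w : Perm (Fin 6) => w * w = 1 ∧ Perm.sign w = 1 ∧ ¬ (z0 * w) ^ 3 = 1).card < 32 := by decide +kernel

theorem nrm {N : Type*} [Group N] (e : N ≃* alternatingGroup (Fin 6)) {z : N} (hz : orderOf z = 2) :
    ∃ ψ : N →* Perm (Fin 6), Function.Injective ψ ∧ (∀ n, Perm.sign (ψ n) = 1) ∧ ψ z = z0 := by
  have h2 : z * z = 1 := by rw [← pow_two, ← hz, pow_orderOf_eq_one]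
  have h1 : z ≠ 1 := fun h => by rw [h, orderOf_one] at hz; omega
  obtain ⟨c, -, hc⟩ := fA (e z) (by rw [← Subgroup.coe_mul, ← map_mul, h2, map_one]; rfl)
    (fun h => h1 (e.injective (Subtype.ext (by rw [h, map_one]; rfl)))) (Perm.mem_alternatingGroup.1 (e z).2)
  refine ⟨(MulAut.conj c⁻¹).toMonoidHom.comp ((alternatingGroup (Fin 6)).subtype.comp e.toMonoidHom),
    (MulAut.conj c⁻¹).injective.comp (Subtype.val_injective.comp e.injective), fun n => ?_, ?_⟩
  · show Perm.sign (c⁻¹ * (e n).1 * c⁻¹⁻¹) = 1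
    rw [map_mul, map_mul, Perm.mem_alternatingGroup.1 (e n).2, mul_one, ← map_mul, mul_inv_cancel, map_one]
  · show c⁻¹ * (e z).1 * c⁻¹⁻¹ = z0
    rw [inv_inv, hc]

theorem cinv {G : Type*} [Group G] [Finite G] (N : Subgroup G) [N.Normal] (hidx : N.index = 4) (K : Sylow 2 G)
    (hK : 32 ≤ Nat.card K) : ∃ z : N, orderOf z = 2 ∧ z.1 ∈ K ∧ ∀ k ∈ K, k * z.1 = z.1 * k := by
  haveI := K.2.isNilpotent
  have h0 : N.subgroupOf K ≠ ⊥ := fun h => by
    have := Subgroup.relIndex_dvd_index_of_normal N K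
    rw [Subgroup.relIndex, h, Subgroup.index_bot, hidx] at this
    have := Nat.le_of_dvd (by norm_num) this
    omega
  have h1 := L.inf_center_ne_bot_of_isNilpotent _ h0
  obtain ⟨k, hk⟩ := (K.2.to_subgroup (N.subgroupOf K ⊓ Subgroup.center K)).exists_card_eq
  obtain ⟨y, hy⟩ := exists_prime_orderOf_dvd_card' (G := ↥(N.subgroupOf K ⊓ Subgroup.center K)) 2 (by
    rw [hk]; refine dvd_pow_self 2 fun h => h1 ?_
    rw [h, pow_zero] at hk; exact Subgroup.card_eq_one.1 hk)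
  refine ⟨⟨y.1.1, y.2.1⟩, ?_, y.1.2, fun k hk => congrArg Subtype.val (Subgroup.mem_center_iff.1 y.2.2 ⟨k, hk⟩)⟩
  exact (Subgroup.orderOf_coe _).symm.trans ((Subgroup.orderOf_coe y.1).trans ((Subgroup.orderOf_coe y).trans hy))

end

/-- Let G be a finite group with a normal subgroup N of index 4 isomorphic to the alternating group of degree 6 and with trivial centralizer in G (so G is the full automorphism group of A₆). Then any two Sylow 2-subgroups of G have a non-trivial intersection: for a Sylow 2-subgroup H and every x ∈ G, H ∩ H^x ≠ 1. -/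
theorem result {G : Type*} [Group G] [Finite G] (N : Subgroup G) [N.Normal]
    (e : N ≃* alternatingGroup (Fin 6)) (hidx : N.index = 4)
    (hC : Subgroup.centralizer (N : Set G) = ⊥)
    (H : Sylow 2 G) (x : G) :
    (H : Subgroup G) ⊓ MulAut.conj x • (H : Subgroup G) ≠ ⊥ := by
  open Finset Pointwise Cfsg.Agent.St Cfsg.Agent.H6 in focus
    intro hb
    have cN : Nat.card N = 360 := by
      rw [Nat.card_congr e.toEquiv, nat_card_alternatingGroup, Nat.card_eq_fintype_card, Fintype.card_fin]; rfl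
    have cG : Nat.card G = 1440 := by rw [← N.index_mul_card, hidx, cN]
    have cS : ∀ K : Sylow 2 G, 32 ≤ Nat.card K := fun K => by
      refine Nat.le_of_dvd Nat.card_pos (Nat.Coprime.dvd_of_dvd_mul_left (m := K.1.index) ?_ ?_)
      · exact Nat.Coprime.pow_left 5 ((Nat.Prime.coprime_iff_not_dvd Nat.prime_two).2 K.not_dvd_index)
      · rw [K.1.index_mul_card, cG]; norm_num
    obtain ⟨z, hz, -, hzc⟩ := cinv N hidx H (cS H)
    obtain ⟨y, hy, hyK, hyc⟩ := cinv N hidx (x • H) (cS _)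
    obtain ⟨ψ, iψ, sψ, eψ⟩ := nrm e hz
    obtain ⟨χ, iχ, -, eχ⟩ := nrm e hy
    have hC2 : IsPGroup 2 (Subgroup.centralizer {y.1}) := fun g => ⟨4, Subtype.ext (by
      have h4 : g.1 ^ 4 ∈ N := hidx ▸ N.pow_index_mem g.1
      have hc : (⟨_, h4⟩ : N) * y = y * ⟨_, h4⟩ := Subtype.ext (Subgroup.mem_centralizer_singleton_iff.1 (pow_mem g.2 4))
      have := Equiv.Perm.ext_iff.1 (fB (χ ⟨_, h4⟩) (by rw [← eχ, ← map_mul, hc, map_mul]))
      have h5 : (⟨_, h4⟩ : N) ^ 4 = 1 := iχ (by rw [map_pow, map_one]; exact Equiv.Perm.ext this)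
      have h6 := congrArg Subtype.val h5
      rw [Subgroup.coe_pow, ← pow_mul] at h6
      exact h6)⟩
    have hK := (x • H).3 hC2 (fun k hk => Subgroup.mem_centralizer_singleton_iff.2 (hyc k hk))
    rw [Sylow.coe_subgroup_smul] at hK
    have y2 : y * y = 1 := by rw [← pow_two, ← hy, pow_orderOf_eq_one]
    let f : H → N := fun h => MulAut.conjNormal h.1 y
    have fi : Function.Injective (fun h => ψ (f h)) := fun a b hab => by
      have h1 : a.1 * y * a.1⁻¹ = b.1 * y * b.1⁻¹ := congrArg Subtype.val (iψ hab)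
      have h2 : b.1⁻¹ * a.1 ∈ (H : Subgroup G) ⊓ MulAut.conj x • (H : Subgroup G) := ⟨H.1.mul_mem (H.1.inv_mem b.2) a.2, hK ▸
        Subgroup.mem_centralizer_singleton_iff.2 (by rw [mul_assoc, mul_inv_eq_iff_eq_mul.1 h1]; group)⟩
      rw [hb] at h2
      exact Subtype.ext (inv_mul_eq_one.1 h2).symm
    have f3 : ∀ h, (z0 * ψ (f h)) ^ 3 = 1 ↔ (z * y) ^ 3 = 1 := fun h => by
      have : MulAut.conjNormal h.1 z = z := Subtype.ext (by rw [MulAut.conjNormal_apply, hzc _ h.2, mul_inv_cancel_right])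
      rw [← eψ, ← map_mul, ← map_pow, map_eq_one_iff _ iψ, ← this, ← map_mul, ← map_pow, map_eq_one_iff _ (MulEquiv.injective _), this]
    have f2 : ∀ h, ψ (f h) * ψ (f h) = 1 := fun h => by rw [← map_mul, ← map_mul, y2, map_one, map_one]
    have key : ∀ T : Finset (Equiv.Perm (Fin 6)), T.card < 32 → (∀ h, ψ (f h) ∈ T) → False := fun T hT h => by
      have := Nat.card_le_card_of_injective (fun a => (⟨_, h a⟩ : T)) (fun a b hab => fi (congrArg Subtype.val hab))
      rw [Nat.card_eq_fintype_card (α := T), Fintype.card_coe] at this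
      exact absurd ((cS H).trans this) (by omega)
    by_cases h3 : (z * y) ^ 3 = 1
    · exact key _ fC fun h => mem_filter.2 ⟨mem_univ _, f2 h, sψ _, (f3 h).2 h3⟩
    · exact key _ fD fun h => mem_filter.2 ⟨mem_univ _, f2 h, sψ _, fun a => h3 ((f3 h).1 a)⟩

end Cfsg.Agent.S2488
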