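import Cfsg.Statements.S2503
import Mathlib
import Cfsg.Agent.H4.Dick9

set_option autoImplicit false
open Cfsg

namespace Cfsg.Agent.S2503

open Matrix H4
open scoped MatrixGroups

theorem aniso {F : Type*} [Field F] [Fintype F] (h2 : (2 : F) = 0) (h4 : 4 ≤ Fintype.card F)
    {a b c d : F} (h : a * d - b * c = 1) (ho : orderOf (sm a b c d h) = Fintype.card F + 1)
    (x y : F) (h0 : c * x ^ 2 + (d - a) * x * y - b * y ^ 2 = 0) : x = 0 ∧ y = 0 := by
  by_contra hne
  obtain ⟨l, h1, h3⟩ : ∃ l, a * x + b * y = l * x ∧ c * x + d * y = l * y := by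
    by_cases hx : x = 0
    · subst hx
      have hy : y ≠ 0 := fun e => hne ⟨rfl, e⟩
      have : b * y ^ 2 = 0 := by linear_combination -h0
      have hb : b = 0 := (mul_eq_zero.1 this).resolve_right (pow_ne_zero _ hy)
      exact ⟨d, by simp [hb], by simp⟩
    · refine ⟨(a * x + b * y) / x, by field_simp, ?_⟩
      field_simp
      linear_combination h0
  have hv : ∀ n : ℕ, ((sm a b c d h ^ n : SL(2, F)) : Matrix (Fin 2) (Fin 2) F) *ᵥ ![x, y] =
      l ^ n • ![x, y] := by
    intro n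
    induction n with
    | zero => simp
    | succ n ih =>
      rw [pow_succ', Matrix.SpecialLinearGroup.coe_mul, ← mulVec_mulVec, ih, mulVec_smul, sm_val, pow_succ,
        mul_smul]
      congr 1
      ext i; fin_cases i <;> simp [mulVec, dotProduct, Fin.sum_univ_two, h1, h3]
  have h5 := hv (Fintype.card F + 1)
  rw [← ho, pow_orderOf_eq_one, ho, pow_succ, FiniteField.pow_card] at h5
  have h6 : x = l * l * x := by simpa using congrFun h5 0
  have h7 : y = l * l * y := by simpa using congrFun h5 1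
  have h8 : l * l = 1 := by
    by_contra e
    exact hne ⟨by_contra fun hx => e (mul_right_cancel₀ hx (h6.symm.trans (one_mul x).symm)),
      by_contra fun hx => e (mul_right_cancel₀ hx (h7.symm.trans (one_mul y).symm))⟩
  have h9 : l = 1 := by
    have : (l - 1) ^ 2 = 0 := by linear_combination h8 + (1 - l) * h2
    exact sub_eq_zero.1 (pow_eq_zero_iff two_ne_zero |>.1 this)
  subst h9
  have h10 : a + d = 0 := by
    by_contra e
    apply hne
    constructor
    · apply mul_left_cancel₀ e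
      linear_combination (1 - d) * h1 + b * h3 + x * h + x * h2
    · apply mul_left_cancel₀ e
      linear_combination c * h1 + (1 - a) * h3 + y * h + y * h2
  have h11 : sm a b c d h ^ 2 = 1 := by
    rw [sq, sm_mul, sm_eq_one]
    refine ⟨?_, ?_, ?_, ?_⟩
    · linear_combination a * h10 - h - h2
    · linear_combination b * h10
    · linear_combination c * h10
    · linear_combination d * h10 - h - h2
  have := Nat.le_of_dvd two_pos (orderOf_dvd_of_pow_eq_one h11)
  omega

theorem dec {F : Type*} [Field F] (h2 : (2 : F) = 0) (hsq : ∀ z : F, ∃ w, w ^ 2 = z)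
    {a b c d : F} (h : a * d - b * c = 1)
    (han : ∀ x y : F, c * x ^ 2 + (d - a) * x * y - b * y ^ 2 = 0 → x = 0 ∧ y = 0) (g : SL(2, F)) :
    ∃ u ∈ Subgroup.centralizer ({sm a b c d h} : Set SL(2, F)), ∃ t : F,
      ∃ w ∈ Subgroup.centralizer ({sm a b c d h} : Set SL(2, F)),
        g = u * sm 1 t 0 1 (by simp) * w := by
  have hc : c ≠ 0 := fun e => one_ne_zero (han 1 0 (by simp [e])).1
  obtain ⟨p, r, s, u, hN, e⟩ := sm_surj (g * sm a b c d h * g⁻¹)
  have htr : p + u = a + d := by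
    obtain ⟨g1, g2, g3, g4, hg, rfl⟩ := sm_surj g
    rw [sm_inv, sm_mul, sm_mul, sm_inj] at e
    obtain ⟨rfl, -, -, rfl⟩ := e
    linear_combination (a + d) * hg
  obtain ⟨x, y, h1, h3⟩ : ∃ x y : F, (c + s) * x ^ 2 = (b + r) * y ^ 2 ∧ ¬ (x = 0 ∧ y = 0) := by
    obtain ⟨α, hα⟩ := hsq (c + s)
    obtain ⟨β, hβ⟩ := hsq (b + r)
    by_cases h0 : β = 0 ∧ α = 0
    · exact ⟨1, 0, by rw [← hα, h0.2]; simp, by simp⟩
    · exact ⟨β, α, by rw [← hα, ← hβ]; ring, h0⟩
  have h5 : c * x ^ 2 + (d - a) * x * y - b * y ^ 2 ≠ 0 := fun e => h3 (han x y e)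
  obtain ⟨k, hk⟩ := hsq (c / (c * x ^ 2 + (d - a) * x * y - b * y ^ 2))
  have h6 : c * (k * x) ^ 2 + (d - a) * (k * x) * (k * y) - b * (k * y) ^ 2 = c := by
    rw [eq_div_iff h5] at hk
    linear_combination hk
  have h7 : s * (k * x) ^ 2 + (u - p) * (k * x) * (k * y) - r * (k * y) ^ 2 = c := by
    linear_combination h6 + k ^ 2 * h1 + k ^ 2 * x * y * htr +
      (k ^ 2 * (- c * x ^ 2 + b * y ^ 2 + (a - p) * x * y)) * h2
  generalize k * x = X at h6 h7
  generalize k * y = Y at h6 h7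
  have hd : X * (X + Y * (d - a) / c) - Y * b / c * Y = 1 := by
    field_simp
    linear_combination h6
  let A := sm X (Y * b / c) Y (X + Y * (d - a) / c) hd
  obtain ⟨p', r', s', u', hN', e'⟩ := sm_surj (A⁻¹ * sm p r s u hN * A)
  have e2 := e'
  simp only [A] at e2
  rw [sm_inv, sm_mul, sm_mul, sm_inj] at e2
  have hs : s' = c := by rw [← e2.2.2.1]; linear_combination h7
  have ht : p' + u' = a + d := by
    rw [← e2.1, ← e2.2.2.2]; linear_combination (p + u) * hd + htr
  have hA : A ∈ Subgroup.centralizer ({sm a b c d h} : Set SL(2, F)) := by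
    rw [Subgroup.mem_centralizer_singleton_iff]
    simp only [A]
    rw [sm_mul, sm_mul, sm_inj]
    refine ⟨?_, ?_, ?_, ?_⟩ <;> field_simp <;> ring
  let B := sm 1 ((p' - a) / c) 0 1 (by simp : (1 : F) * 1 - (p' - a) / c * 0 = 1)
  have hB : sm p' r' s' u' hN' * B = B * sm a b c d h := by
    simp only [B]
    rw [sm_mul, sm_mul, sm_inj]
    subst hs
    refine ⟨?_, ?_, ?_, ?_⟩ <;> field_simp
    · ring
    · linear_combination p' * ht - hN' + h - d * p' * h2 * 0
    · ring
    · linear_combination ht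
  refine ⟨A, hA, (p' - a) / c, B⁻¹ * A⁻¹ * g, ?_, by simp only [B]; group⟩
  rw [Subgroup.mem_centralizer_singleton_iff]
  calc B⁻¹ * A⁻¹ * g * sm a b c d h = B⁻¹ * (A⁻¹ * (g * sm a b c d h * g⁻¹) * A * B) * B⁻¹ * A⁻¹ * g := by
        group
    _ = _ := by rw [e, e', hB]; group

/-- Let F be a finite field with q = 2^t ≥ 4 elements and L = PSL(2,F). Then L has a cyclic subgroup A of order q + 1 and an elementary abelian 2-subgroup B of order q such that L = ABA: every element of L is a product a·b·a' with a, a' ∈ A and b ∈ B. -/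
theorem result {F : Type*} [Field F] [Fintype F]
    (h2 : 2 ∣ Fintype.card F) (h4 : 4 ≤ Fintype.card F) :
    ∃ A B : Subgroup (Matrix.ProjectiveSpecialLinearGroup (Fin 2) F),
      IsCyclic A ∧ Nat.card A = Fintype.card F + 1 ∧ IsMulCommutative B ∧ (∀ b ∈ B, b * b = 1) ∧
        Nat.card B = Fintype.card F ∧
        ∀ g : Matrix.ProjectiveSpecialLinearGroup (Fin 2) F, ∃ a ∈ A, ∃ b ∈ B, ∃ c ∈ A, g = a * b * c := by
  classical
  obtain ⟨p, hc, k, hp, hk⟩ := FiniteField.card' F
  have hp2 : p = 2 := by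
    rw [hk] at h2
    exact ((Nat.prime_dvd_prime_iff_eq Nat.prime_two hp).1 (Nat.prime_two.dvd_of_dvd_pow h2)).symm
  subst hp2
  have h20 : (2 : F) = 0 := CharP.cast_eq_zero F 2
  have hsq : ∀ z : F, ∃ w, w ^ 2 = z := fun z => surjective_frobenius F 2 z
  obtain ⟨x, y, hxy, hx⟩ := exists_tp_qd (F := F)
  have hcard := hxy.card_TS_qd hx
  obtain ⟨M, hM⟩ := hxy.isCyclic_TS.exists_ofOrder_eq_natCard
  rw [hcard, ← Subgroup.orderOf_coe] at hM
  obtain ⟨a, b, c, d, h, e⟩ := sm_surj (M : SL(2, F))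
  have han := aniso h20 h4 h (e ▸ hM)
  have hc0 : c ≠ 0 := fun e => one_ne_zero (han 1 0 (by simp [e])).1
  have hC := hxy.centralizer_TS M.2 (by rw [e, toPGL_sm, Ne, pm_eq_one]; exact fun h => hc0 h.2.1)
  rw [e] at hC
  have hinj : Function.Injective (QuotientGroup.mk' (Subgroup.center SL(2, F))) := by
    rw [← MonoidHom.ker_eq_bot_iff, QuotientGroup.ker_mk', eq_bot_iff]
    intro z hz
    obtain ⟨r, h1, h2⟩ := Matrix.SpecialLinearGroup.mem_center_iff.1 hz
    have : r = 1 := by
      have : (r - 1) ^ 2 = 0 := by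
        simp only [Fintype.card_fin] at h1
        linear_combination h1 + (1 - r) * h20
      exact sub_eq_zero.1 (pow_eq_zero_iff two_ne_zero |>.1 this)
    subst this
    exact Subtype.ext (by rw [← h2]; simp)
  let f : Multiplicative F →* SL(2, F) := MonoidHom.mk'
    (fun t => sm 1 (Multiplicative.toAdd t) 0 1 (by simp)) (fun s t => by
      rw [sm_mul, sm_inj]; simp [add_comm])
  have hf : Function.Injective f := fun s t e => congrArg (fun m : SL(2, F) => m 0 1) e
  haveI := hxy.isCyclic_TS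
  refine ⟨(TS x y).map (QuotientGroup.mk' _), ((QuotientGroup.mk' _).comp f).range, ?_, ?_, ?_, ?_,
    ?_, ?_⟩
  · exact isCyclic_of_surjective _ ((TS x y).equivMapOfInjective _ hinj).surjective
  · rw [Subgroup.card_map_of_injective hinj, hcard]
  · refine ⟨⟨?_⟩⟩
    rintro ⟨_, s, rfl⟩ ⟨_, t, rfl⟩
    exact Subtype.ext ((map_mul _ s t).symm.trans ((congrArg _ (mul_comm s t)).trans (map_mul _ t s)))
  · rintro _ ⟨s, rfl⟩
    rw [← map_mul]
    have : s * s = 1 := by
      show Multiplicative.toAdd s + Multiplicative.toAdd s = 0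
      linear_combination Multiplicative.toAdd s * h20
    rw [this, map_one]
  · rw [← Nat.card_congr (MonoidHom.ofInjective (f := (QuotientGroup.mk' _).comp f) (hinj.comp hf)).toEquiv]
    simp
  · intro g
    obtain ⟨g, rfl⟩ := QuotientGroup.mk'_surjective _ g
    obtain ⟨u, hu, t, w, hw, rfl⟩ := dec h20 hsq h han g
    rw [hC] at hu hw
    exact ⟨_, ⟨u, hu, rfl⟩, _, ⟨Multiplicative.ofAdd t, rfl⟩, _, ⟨w, hw, rfl⟩, rfl⟩

end Cfsg.Agent.S2503
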