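import Cfsg.Statements.S2504
import Cfsg.Agent.H9.AbSym
import Cfsg.Agent.H9.TJ

set_option autoImplicit false
open Cfsg

namespace Cfsg.Agent.S2504

open Cfsg.Agent Cfsg.Agent.H9

/-- The largest order of an abelian subgroup of the alternating group of degree n is 3^k when n = 3k, 4·3^(k−1) when n = 3k + 1, and 16·3^(k−2) when n = 3k + 2, for every k ≥ 2 (so for all degrees n ≥ 6). -/
theorem result (k : ℕ) (hk : 2 ≤ k) :
    IsGreatest {c : ℕ | ∃ A : Subgroup (alternatingGroup (Fin (3 * k))), IsMulCommutative A ∧ Nat.card A = c} (3 ^ k) ∧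
    IsGreatest {c : ℕ | ∃ A : Subgroup (alternatingGroup (Fin (3 * k + 1))), IsMulCommutative A ∧ Nat.card A = c}
      (4 * 3 ^ (k - 1)) ∧
    IsGreatest {c : ℕ | ∃ A : Subgroup (alternatingGroup (Fin (3 * k + 2))), IsMulCommutative A ∧ Nat.card A = c}
      (16 * 3 ^ (k - 2)) := by
  obtain ⟨k, rfl⟩ : ∃ k', k = k' + 2 := ⟨k - 2, by omega⟩
  refine ⟨AbSym.greatest_A (by simpa using (AbSym.ex0 True).pow (k + 2)) ?_, AbSym.greatest_A ?_ ?_,
    AbSym.greatest_A ?_ ?_⟩
  · intro B hB _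
    exact (AbSym.le_g B hB).trans (AbSym.g0 _).le
  · have := (AbSym.ex4 True).pow (k + 1)
    rwa [show 4 + 3 * (k + 1) = 3 * (k + 2) + 1 by ring] at this
  · intro B hB _
    refine (AbSym.le_g B hB).trans ?_
    rw [show 3 * (k + 2) + 1 = 3 * (k + 1) + 4 by ring, AbSym.g1]; rfl
  · have := ((AbSym.ex4 True).add (AbSym.ex4 True)).pow k
    rwa [show 4 + 4 + 3 * k = 3 * (k + 2) + 2 by ring] at this
  · intro B hB he
    rcases AbSym.card_le_h (k + 2) B Finset.univ hB (fun _ _ x hx => by simp at hx) (by simp) with h | ⟨a, ha, h⟩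
    · exact h
    · have := he a ha
      rw [h.sign_eq] at this
      exact absurd this (by decide)

end Cfsg.Agent.S2504
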