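import Cfsg.Statements.S2505
import Cfsg.Agent.H9.AbSym
import Cfsg.Agent.H9.TJ

set_option autoImplicit false
open Cfsg

namespace Cfsg.Agent.S2505

open Cfsg.Agent Cfsg.Agent.H9

/-- The largest order of an abelian subgroup of the symmetric group of degree n is 3^k when n = 3k, 4·3^(k−1) when n = 3k + 1, and 2·3^k when n = 3k + 2, for every k ≥ 1. -/
theorem result (k : ℕ) (hk : 1 ≤ k) :
    IsGreatest {c : ℕ | ∃ A : Subgroup (Equiv.Perm (Fin (3 * k))), IsMulCommutative A ∧ Nat.card A = c} (3 ^ k) ∧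
    IsGreatest {c : ℕ | ∃ A : Subgroup (Equiv.Perm (Fin (3 * k + 1))), IsMulCommutative A ∧ Nat.card A = c}
      (4 * 3 ^ (k - 1)) ∧
    IsGreatest {c : ℕ | ∃ A : Subgroup (Equiv.Perm (Fin (3 * k + 2))), IsMulCommutative A ∧ Nat.card A = c}
      (2 * 3 ^ k) := by
  open AbSym in
  refine ⟨greatest_S (by simpa using (ex0 False).pow k) (g0 k), ?_, ?_⟩
  · obtain ⟨k, rfl⟩ : ∃ k', k = k' + 1 := ⟨k - 1, by omega⟩
    refine AbSym.greatest_S ?_ ?_
    · have := (AbSym.ex4 False).pow k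
      rwa [show 4 + 3 * k = 3 * (k + 1) + 1 by ring] at this
    · rw [show 3 * (k + 1) + 1 = 3 * k + 4 by ring, AbSym.g1]; rfl
  · refine AbSym.greatest_S ?_ (AbSym.g2 k)
    have := AbSym.ex2.pow k
    rwa [add_comm] at this

end Cfsg.Agent.S2505
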