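import Cfsg.Statements.S2507
import Cfsg.Agent.H4.Dick9

set_option autoImplicit false
open Cfsg

namespace Cfsg.Agent.S2507

/-- Let F be a finite field with q = 2^f ≥ 4 elements. The conjugacy class sizes of PSL(2,F) are exactly 1, q(q − 1), q² − 1 and q(q + 1). -/
theorem result {F : Type*} [Field F] [Fintype F]
    (h2 : 2 ∣ Fintype.card F) (h4 : 4 ≤ Fintype.card F) :
    Set.range (fun g : (Matrix.ProjectiveSpecialLinearGroup (Fin 2) F) => (Subgroup.centralizer ({g} : Set (Matrix.ProjectiveSpecialLinearGroup (Fin 2) F))).index) =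
      {1, Fintype.card F * (Fintype.card F - 1), Fintype.card F ^ 2 - 1, Fintype.card F * (Fintype.card F + 1)} := by
  open Cfsg.Agent.H4 in
  have he : Even (Fintype.card F) := even_iff_two_dvd.2 h2
  haveI : CharP F 2 := (CharP.charP_iff_prime_eq_zero Nat.prime_two).2 (by exact_mod_cast even_card_iff.1 he)
  have h1 := card_LL (K := F)
  have hi := index_LL (K := F)
  rw [gcd_two_even he (by omega)] at h1 hi
  rw [one_mul, sq_sub_one_eq] at h1
  have kU : ∀ (g : Matrix.ProjectiveSpecialLinearGroup (Fin 2) F) (x : Pt F), g ≠ 1 →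
      Matrix.ProjectiveSpecialLinearGroup.toPGL g ∈ (dact F 2).U x →
      (Subgroup.centralizer {g}).index = Fintype.card F ^ 2 - 1 := fun g x g1 hg => by
    have h3 := index_centralizer_psl g
    rw [(dact F 2).centralizer_U (psl_eq_one.not.2 g1) hg, inf_eq_right.2 (U_le_LL x),
      card_U_rat (rat_of_U hg (psl_eq_one.not.2 g1)), h1, mul_comm] at h3
    rw [sq_sub_one_eq]
    exact Nat.eq_of_mul_eq_mul_left (by omega) h3
  have kT : ∀ (g : Matrix.ProjectiveSpecialLinearGroup (Fin 2) F) (x y : Pt F), TP x y →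
      Matrix.ProjectiveSpecialLinearGroup.toPGL g ^ 2 ≠ 1 →
      Matrix.ProjectiveSpecialLinearGroup.toPGL g • x = x → Matrix.ProjectiveSpecialLinearGroup.toPGL g • y = y →
      (Rat x → (Subgroup.centralizer {g}).index = Fintype.card F * (Fintype.card F + 1)) ∧
      (¬ Rat x → (Subgroup.centralizer {g}).index = Fintype.card F * (Fintype.card F - 1)) := by
    intro g x y ht g2 gx gy
    have h3 := index_centralizer_psl g
    rw [(dact F 2).centralizer_T ht.1 g2 gx gy, ← St_inf_St, h1] at h3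
    constructor <;> intro hx
    · have := ht.card_rat le_rfl hx
      rw [hi, one_mul] at this
      rw [this] at h3
      exact Nat.eq_of_mul_eq_mul_right (show 0 < Fintype.card F - 1 by omega) (by rw [h3]; ring)
    · have := ht.card_qd le_rfl hx
      rw [hi, one_mul] at this
      rw [this] at h3
      exact Nat.eq_of_mul_eq_mul_right (show 0 < Fintype.card F + 1 by omega) (by rw [h3]; ring)
  have kG : ∀ x y : Pt F, TP x y → ∃ g : Matrix.ProjectiveSpecialLinearGroup (Fin 2) F,
      Matrix.ProjectiveSpecialLinearGroup.toPGL g ^ 2 ≠ 1 ∧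
      Matrix.ProjectiveSpecialLinearGroup.toPGL g • x = x ∧ Matrix.ProjectiveSpecialLinearGroup.toPGL g • y = y := by
    intro x y ht
    obtain ⟨c, hc, hc'⟩ := ht.exists_gen (LL F)
    have hc1 := hc.le (Subgroup.mem_zpowers c)
    obtain ⟨g, rfl⟩ := exists_psl hc1.1.1
    have := ht.card_le (le_refl (LL F))
    rw [hi] at this
    exact ⟨g, fun e => by have := orderOf_le_of_pow_eq_one two_pos e; omega, hc1.1.2, hc1.2.2⟩
  ext n
  simp only [Set.mem_range, Set.mem_insert_iff, Set.mem_singleton_iff]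
  constructor
  · rintro ⟨g, rfl⟩
    by_cases g1 : g = 1
    · left; rw [g1, Subgroup.index_eq_one, Subgroup.centralizer_eq_top_iff_subset]; simp
    by_cases g2 : Matrix.ProjectiveSpecialLinearGroup.toPGL g ^ 2 = 1
    · obtain ⟨x, hx⟩ := (dact F 2).fix (Matrix.ProjectiveSpecialLinearGroup.toPGL g)
      exact Or.inr (Or.inr (Or.inl (kU g x g1 ⟨hx, g2⟩)))
    · obtain ⟨x, y, ht, gx, gy⟩ := exists_tp_of (p := 2) g2
      by_cases hx : Rat x
      · exact Or.inr (Or.inr (Or.inr ((kT g x y ht g2 gx gy).1 hx)))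
      · exact Or.inr (Or.inl ((kT g x y ht g2 gx gy).2 hx))
  · rintro (rfl | rfl | rfl | rfl)
    · exact ⟨1, by rw [Subgroup.index_eq_one, Subgroup.centralizer_eq_top_iff_subset]; simp⟩
    · obtain ⟨x, y, ht, hx⟩ := exists_tp_qd (F := F)
      obtain ⟨g, g2, gx, gy⟩ := kG x y ht
      exact ⟨g, (kT g x y ht g2 gx gy).2 hx⟩
    · obtain ⟨g, hg⟩ := exists_psl (aff_mem_LL.2 IsSquare.one : aff (1 : Fˣ) 1 ∈ LL F)
      exact ⟨g, kU g (pt OnePoint.infty) (fun e => by rw [e, map_one, eq_comm, aff_eq_one] at hg; simp at hg)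
        (mem_U_infty.2 ⟨_, hg⟩)⟩
    · obtain ⟨x, y, ht, hx⟩ := exists_tp_rat (F := F)
      obtain ⟨g, g2, gx, gy⟩ := kG x y ht
      exact ⟨g, (kT g x y ht g2 gx gy).1 hx⟩

end Cfsg.Agent.S2507
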