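import Cfsg.Statements.S2508
import Cfsg.Agent.H4.Dick9

set_option autoImplicit false
open Cfsg

namespace Cfsg.Agent.S2508

/-- Let F be a finite field with q elements, q odd and q ≥ 7. If q ≡ 1 (mod 4) the conjugacy class sizes of PSL(2,F) are exactly 1, (q² − 1)/2, q(q + 1)/2, q(q − 1) and q(q + 1); if q ≡ 3 (mod 4) they are exactly 1, (q² − 1)/2, q(q − 1)/2, q(q + 1) and q(q − 1). -/
theorem result {F : Type*} [Field F] [Fintype F]
    (hodd : ¬ 2 ∣ Fintype.card F) (h7 : 7 ≤ Fintype.card F) :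
    (Fintype.card F % 4 = 1 →
      Set.range (fun g : (Matrix.ProjectiveSpecialLinearGroup (Fin 2) F) => (Subgroup.centralizer ({g} : Set (Matrix.ProjectiveSpecialLinearGroup (Fin 2) F))).index) =
        {1, (Fintype.card F ^ 2 - 1) / 2, Fintype.card F * (Fintype.card F + 1) / 2,
          Fintype.card F * (Fintype.card F - 1), Fintype.card F * (Fintype.card F + 1)}) ∧
    (Fintype.card F % 4 = 3 →
      Set.range (fun g : (Matrix.ProjectiveSpecialLinearGroup (Fin 2) F) => (Subgroup.centralizer ({g} : Set (Matrix.ProjectiveSpecialLinearGroup (Fin 2) F))).index) =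
        {1, (Fintype.card F ^ 2 - 1) / 2, Fintype.card F * (Fintype.card F - 1) / 2,
          Fintype.card F * (Fintype.card F + 1), Fintype.card F * (Fintype.card F - 1)}) := by
  open Cfsg.Agent.H4 in
  obtain ⟨p, _, _⟩ := exists_char F
  have ho : Odd (Fintype.card F) := Nat.odd_iff.2 (by omega)
  have hp := char_ne_two_of (p := p) (odd_card_iff.1 ho)
  have h1 := two_mul_card_LL ho
  have hi := index_LL_odd ho
  rw [sq_sub_one_eq] at h1
  have kU : ∀ (g : Matrix.ProjectiveSpecialLinearGroup (Fin 2) F) (x : Pt F), g ≠ 1 →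
      Matrix.ProjectiveSpecialLinearGroup.toPGL g ∈ (dact F p).U x →
      (Subgroup.centralizer {g}).index = (Fintype.card F ^ 2 - 1) / 2 := fun g x g1 hg => by
    have h3 := index_centralizer_psl g
    rw [(dact F p).centralizer_U (psl_eq_one.not.2 g1) hg, inf_eq_right.2 (U_le_LL x),
      card_U_rat (rat_of_U hg (psl_eq_one.not.2 g1))] at h3
    rw [sq_sub_one_eq]
    exact (Nat.div_eq_of_eq_mul_right two_pos
      (Nat.eq_of_mul_eq_mul_left (show 0 < Fintype.card F by omega) (by rw [← h1, ← h3]; ring))).symm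
  have kT : ∀ (g : Matrix.ProjectiveSpecialLinearGroup (Fin 2) F) (x y : Pt F), TP x y →
      Matrix.ProjectiveSpecialLinearGroup.toPGL g ^ 2 ≠ 1 →
      Matrix.ProjectiveSpecialLinearGroup.toPGL g • x = x → Matrix.ProjectiveSpecialLinearGroup.toPGL g • y = y →
      (Rat x → (Subgroup.centralizer {g}).index = Fintype.card F * (Fintype.card F + 1)) ∧
      (¬ Rat x → (Subgroup.centralizer {g}).index = Fintype.card F * (Fintype.card F - 1)) := by
    intro g x y ht g2 gx gy
    have h3 := index_centralizer_psl g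
    rw [(dact F p).centralizer_T ht.1 g2 gx gy, ← St_inf_St] at h3
    constructor <;> intro hx
    · have := ht.card_rat le_rfl hx
      rw [hi] at this
      exact Nat.eq_of_mul_eq_mul_right (show 0 < Fintype.card F - 1 by omega)
        (by rw [mul_assoc, ← h1, ← h3, ← this]; ring)
    · have := ht.card_qd le_rfl hx
      rw [hi] at this
      exact Nat.eq_of_mul_eq_mul_right (show 0 < Fintype.card F + 1 by omega)
        (by rw [mul_assoc, mul_comm (_ - 1), ← h1, ← h3, ← this]; ring)
  have kI : ∀ (g : Matrix.ProjectiveSpecialLinearGroup (Fin 2) F) (x y : Pt F), TP x y → g ≠ 1 →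
      Matrix.ProjectiveSpecialLinearGroup.toPGL g ^ 2 = 1 →
      Matrix.ProjectiveSpecialLinearGroup.toPGL g • x = x → Matrix.ProjectiveSpecialLinearGroup.toPGL g • y = y →
      (Fintype.card F % 4 = 1 → (Subgroup.centralizer {g}).index = Fintype.card F * (Fintype.card F + 1) / 2) ∧
      (Fintype.card F % 4 = 3 → (Subgroup.centralizer {g}).index = Fintype.card F * (Fintype.card F - 1) / 2) := by
    intro g x y ht g1 g2 gx gy
    have h3 := index_centralizer_psl g
    rw [(dact F p).centralizer_PS ht.1 (psl_eq_one.not.2 g1) g2 gx gy, ht.card_normalizer (p := p) le_rfl] at h3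
    have h4 := Subgroup.orderOf_dvd_natCard (St (LL F) x ⊓ St (LL F) y) ⟨⟨psl_mem_LL g, gx⟩, psl_mem_LL g, gy⟩
    rw [orderOf_eq_prime g2 (psl_eq_one.not.2 g1)] at h4
    constructor <;> intro h
    · have := ht.card_rat le_rfl (by_contra fun hx => by have := ht.card_qd le_rfl hx; rw [hi] at this; omega)
      rw [hi] at this
      rw [this] at h3
      exact (Nat.div_eq_of_eq_mul_right two_pos (Nat.eq_of_mul_eq_mul_right (show 0 < Fintype.card F - 1 by omega)
        (by rw [mul_assoc, ← h1, ← h3]; ring))).symm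
    · have := ht.card_qd le_rfl (fun hx => by have := ht.card_rat le_rfl hx; rw [hi] at this; omega)
      rw [hi] at this
      rw [this] at h3
      exact (Nat.div_eq_of_eq_mul_right two_pos (Nat.eq_of_mul_eq_mul_right (show 0 < Fintype.card F + 1 by omega)
        (by rw [mul_assoc, mul_comm (_ - 1), ← h1, ← h3]; ring))).symm
  have kG : ∀ x y : Pt F, TP x y → ∃ g : Matrix.ProjectiveSpecialLinearGroup (Fin 2) F,
      Matrix.ProjectiveSpecialLinearGroup.toPGL g ^ 2 ≠ 1 ∧
      Matrix.ProjectiveSpecialLinearGroup.toPGL g • x = x ∧ Matrix.ProjectiveSpecialLinearGroup.toPGL g • y = y := by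
    intro x y ht
    obtain ⟨c, hc, hc'⟩ := ht.exists_gen (LL F)
    have hc1 := hc.le (Subgroup.mem_zpowers c)
    obtain ⟨g, rfl⟩ := exists_psl hc1.1.1
    have := ht.card_le (le_refl (LL F))
    rw [hi] at this
    exact ⟨g, fun e => by have := orderOf_le_of_pow_eq_one two_pos e; omega, hc1.1.2, hc1.2.2⟩
  have k2 : ∀ g : Matrix.ProjGenLinGroup (Fin 2) F, g ≠ 1 → g ^ 2 = 1 → g ^ p ≠ 1 := fun g g1 g2 =>
    (dact F p).pow_ne_one_of Nat.prime_two g1 g2 hp
  have main : ∀ N, (∀ (g : Matrix.ProjectiveSpecialLinearGroup (Fin 2) F) (x y : Pt F), TP x y → g ≠ 1 →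
      Matrix.ProjectiveSpecialLinearGroup.toPGL g ^ 2 = 1 →
      Matrix.ProjectiveSpecialLinearGroup.toPGL g • x = x → Matrix.ProjectiveSpecialLinearGroup.toPGL g • y = y →
      (Subgroup.centralizer {g}).index = N) →
      Set.range (fun g : Matrix.ProjectiveSpecialLinearGroup (Fin 2) F => (Subgroup.centralizer {g}).index) =
        {1, (Fintype.card F ^ 2 - 1) / 2, N, Fintype.card F * (Fintype.card F - 1),
          Fintype.card F * (Fintype.card F + 1)} := by
    intro N hN
    ext n
    simp only [Set.mem_range, Set.mem_insert_iff, Set.mem_singleton_iff]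
    constructor
    · rintro ⟨g, rfl⟩
      by_cases g1 : g = 1
      · left; rw [g1, Subgroup.index_eq_one, Subgroup.centralizer_eq_top_iff_subset]; simp
      by_cases g3 : Matrix.ProjectiveSpecialLinearGroup.toPGL g ^ p = 1
      · obtain ⟨x, hx⟩ := (dact F p).fix (Matrix.ProjectiveSpecialLinearGroup.toPGL g)
        exact Or.inr (Or.inl (kU g x g1 ⟨hx, g3⟩))
      obtain ⟨x, y, ht, gx, gy⟩ := exists_tp_of (p := p) g3
      by_cases g2 : Matrix.ProjectiveSpecialLinearGroup.toPGL g ^ 2 = 1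
      · exact Or.inr (Or.inr (Or.inl (hN g x y ht g1 g2 gx gy)))
      · by_cases hx : Rat x
        · exact Or.inr (Or.inr (Or.inr (Or.inr ((kT g x y ht g2 gx gy).1 hx))))
        · exact Or.inr (Or.inr (Or.inr (Or.inl ((kT g x y ht g2 gx gy).2 hx))))
    · rintro (rfl | rfl | rfl | rfl | rfl)
      · exact ⟨1, by rw [Subgroup.index_eq_one, Subgroup.centralizer_eq_top_iff_subset]; simp⟩
      · obtain ⟨g, hg⟩ := exists_psl (aff_mem_LL.2 IsSquare.one : aff (1 : Fˣ) 1 ∈ LL F)
        exact ⟨g, kU g (pt OnePoint.infty) (fun e => by rw [e, map_one, eq_comm, aff_eq_one] at hg; simp at hg)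
          (mem_U_infty.2 ⟨_, hg⟩)⟩
      · obtain ⟨a, b, hk, ha, -⟩ := exists_KP_LL (odd_card_iff.1 ho)
        obtain ⟨g, rfl⟩ := exists_psl ha
        obtain ⟨x, y, ht, gx, gy⟩ := exists_tp_of (p := p) (k2 _ hk.a1 (by rw [sq, hk.a2]))
        exact ⟨g, hN g x y ht (psl_eq_one.not.1 hk.a1) (by rw [sq, hk.a2]) gx gy⟩
      · obtain ⟨x, y, ht, hx⟩ := exists_tp_qd (F := F)
        obtain ⟨g, g2, gx, gy⟩ := kG x y ht
        exact ⟨g, (kT g x y ht g2 gx gy).2 hx⟩
      · obtain ⟨x, y, ht, hx⟩ := exists_tp_rat (F := F)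
        obtain ⟨g, g2, gx, gy⟩ := kG x y ht
        exact ⟨g, (kT g x y ht g2 gx gy).1 hx⟩
  refine ⟨fun h => main _ fun g x y ht g1 g2 gx gy => (kI g x y ht g1 g2 gx gy).1 h, fun h => ?_⟩
  rw [main _ fun g x y ht g1 g2 gx gy => (kI g x y ht g1 g2 gx gy).2 h, Set.pair_comm]

end Cfsg.Agent.S2508
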