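import Cfsg.Statements.S2511
import Cfsg.Agent.H8.PSUo

set_option autoImplicit false
open Cfsg

namespace Cfsg.Agent.S2511


open Function Cfsg.Agent.Rp Cfsg.Agent.GS Matrix Polynomial
open scoped MatrixGroups

section
variable {K : Type*} [Field K] [Fintype K] [StarRing K] {q n r : ℕ} (hK : Fintype.card K = q ^ 2)
  (hs : ∀ x : K, star x = x ^ q) (p : ℕ) [hp : Fact p.Prime] [CharP K p] (hn : 2 ≤ n) (hr : r.Prime)
  (hrn : ¬ r ∣ n) (hrq : r ∣ q + 1)

include hK hs hn hr hrn hrq in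
theorem dich (g : PSU n K q) {P : ℕ} (hP : ∀ e, p ^ e ∈ spec (PSU n K q) → p ^ e ∣ P) :
    (orderOf g).lcm r ∈ spec (PSU n K q) ∨ orderOf g ∣ (usg q n).lcm P := by
  obtain ⟨g, rfl⟩ := QuotientGroup.mk_surjective g
  obtain ⟨k, N, hN, h1, -⟩ := exists_ss_pow (F := K) p g
  have h2 : Rp.mt (g ^ p ^ k).1 = Rp.mt g.1 ^ p ^ k := by rw [Subgroup.coe_pow, map_pow]
  rcases su_dich hK hs (by omega) hN (B := Rp.mt (g ^ p ^ k).1) (by
    rw [← map_pow, ← Subgroup.coe_pow, h1]; rfl) ((mem_su hs).1 (g ^ p ^ k).2) (mt_det _) with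
    ⟨R, a, b, c, d⟩ | ⟨c, hc⟩
  · refine Or.inl (lcm_of_idem_su hK hs hn hr hrn hrq g a b c ?_ d)
    rw [h2, ← expand_aeval]
    have : Commute (aeval (Rp.mt g.1) (expand K (p ^ k) R)) (aeval (Rp.mt g.1) (X : K[X])) :=
      (Commute.all _ _).map _
    rwa [aeval_X] at this
  · refine Or.inr (dvd_lcm_of p _ (k := k) ?_ hP)
    rw [psu_order hK hn]
    exact psl_dvd.2 ⟨c, by rw [pow_mul, ← h2, hc]⟩

omit [Fintype K] in
theorem ex_idem {a : ℕ} (h : a + 1 = n) (ha : 0 < a) :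
    blk (F := K) h (1, 0) * blk h (1, 0) = blk h (1, 0) ∧ blk (F := K) h (1, 0) ≠ 0 ∧
      blk (F := K) h (1, 0) ≠ 1 ∧ star (blk (F := K) h (1, 0)) = blk h (1, 0) := by
  haveI : Nonempty (Fin a) := ⟨⟨0, ha⟩⟩
  refine ⟨by rw [← map_mul]; simp, fun e => ?_, fun e => ?_, by rw [blk_star]; simp⟩
  · have := (blk_pow_eq h (A := (1 : Matrix _ _ K)) (B := 0) (k := 1) (c := 0)).1 (by simpa using e)
    simp at this
  · have := (blk_pow_eq h (A := (1 : Matrix _ _ K)) (B := 0) (k := 1) (c := 1)).1 (by simpa using e)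
    simp at this

include hK hs hn hr hrn hrq in
theorem ex_W (hj : ¬ ∃ j : ℕ, n - 1 = p ^ j) :
    ∃ P, P.lcm r ∈ spec (PSU n K q) ∧ ∀ e, p ^ e ∈ spec (PSU n K q) → p ^ e ∣ P := by
  have h : n - 1 + 1 = n := by omega
  obtain ⟨N, h1, h2⟩ := exists_jordan (F := K) (n - 1)
  haveI : Nonempty (Fin (n - 1)) := ⟨⟨0, by omega⟩⟩
  obtain ⟨B, hB, hc⟩ := exists_unitary_unip hK hs (A := 1 + N) (m := n - 1) (by simpa using h1)
  have hp1 : ∀ k, B ^ k = 1 ↔ (1 + N) ^ k = 1 := fun k =>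
    ⟨fun e => isConj_one_left.1 (e ▸ hc.pow k), fun e => isConj_one_right.1 (e ▸ hc.pow k)⟩
  have hd : (blk h (B, 1)).det = 1 := by
    rw [blk_det, det_one, mul_one, det_eq_sign_charpoly_coeff, ← IsConj.charpoly_eq hc,
      ← det_eq_sign_charpoly_coeff, Rp.det_unip p ⟨_, h1⟩]
  have hm : mkSL' _ hd ∈ SU n K q := by
    rw [mem_su hs, mt_mk, blk_star, ← map_mul, Prod.mk_mul_mk, hB, star_one, mul_one]
    exact map_one _
  obtain ⟨e1, e2, e3, e4⟩ := ex_idem (K := K) h (by omega)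
  refine ⟨_, lcm_of_idem_su hK hs hn hr hrn hrq ⟨_, hm⟩ e1 e2 e3 ?_ e4, ?_⟩
  · rw [mt_mk]
    refine Commute.map ?_ _
    ext1 <;> simp
  · rintro e ⟨g, hg⟩
    obtain ⟨g, rfl⟩ := QuotientGroup.mk_surjective g
    rw [psu_order hK hn] at hg ⊢
    have h3 : orderOf ((mkSL' _ hd : SL(n, K)) : PSL(n, K)) ∣ p ^ n := by
      refine psl_dvd.2 ⟨1, ?_⟩
      rw [mt_mk, blk_pow_eq, one_smul, hp1, unip_pow' p (c := 1) (by simpa using ⟨_, h1⟩)
        ((Nat.sub_le _ _).trans (Nat.lt_pow_self hp.out.one_lt).le)]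
      simp
    obtain ⟨b, -, hb⟩ := (Nat.dvd_prime_pow hp.out).1 h3
    rw [hb]
    refine ppow_dvd p hg ?_
    obtain ⟨c, hc⟩ := psl_dvd.1 hb.dvd
    rw [mt_mk, blk_pow_eq, one_pow] at hc
    rw [show c = 1 by simpa using (congrFun (congrFun hc.2 0) 0).symm, one_smul, hp1,
      add_pow_char_pow_of_commute _ _ (Commute.one_left N), one_pow, add_eq_left] at hc
    have h4 : ¬ p ^ b < n - 1 := fun h => h2 _ h hc.1
    have h5 : n - 1 ≠ p ^ b := fun h => hj ⟨b, h⟩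
    omega

end

/-- Let F be a finite field with q² elements, q = p^a, n ≥ 3 with (n, q) ≠ (3, 2), L = PSU(n, q) realised over F, and let r be a prime dividing q + 1 and not dividing n. Then for every m the direct product L × L × L × (ℤ/r)^m has the same set of element orders as L × L × L; and if n − 1 is not a power of p, then already L × L × (ℤ/r)^m has the same set of element orders as L × L. -/
theorem result {F : Type*} [Field F] [Fintype F] (p a n q r m : ℕ) (hp : p.Prime) (ha : 1 ≤ a) (hq : q = p ^ a) (hF : Fintype.card F = q ^ 2)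
    (hn : 3 ≤ n) (hn3 : ¬ (n = 3 ∧ q = 2)) (hr : r.Prime) (hrq : r ∣ q + 1) (hrn : ¬ r ∣ n) :
    Set.range (orderOf : Cfsg.PSU n F q × Cfsg.PSU n F q × Cfsg.PSU n F q × Multiplicative (Fin m → ZMod r) → ℕ) = Set.range (orderOf : Cfsg.PSU n F q × Cfsg.PSU n F q × Cfsg.PSU n F q → ℕ) ∧
    ((¬ ∃ j : ℕ, n - 1 = p ^ j) →
      Set.range (orderOf : Cfsg.PSU n F q × Cfsg.PSU n F q × Multiplicative (Fin m → ZMod r) → ℕ) = Set.range (orderOf : Cfsg.PSU n F q × Cfsg.PSU n F q → ℕ)) := by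
  haveI := Fact.mk hp
  haveI : CharP F p := charP_of_card_eq_prime_pow (f := a * 2) (by rw [hF, hq, pow_mul])
  letI : StarRing F :=
    { star := H4.frobq hF
      star_involutive := H4.frobq_frobq hF
      star_mul := fun x y => by rw [map_mul, mul_comm]
      star_add := map_add _ }
  have hs : ∀ x : F, star x = x ^ q := fun _ => rfl
  have h2 : 2 ≤ n := by omega
  have hu := usg_mem hF hs h2
  refine ⟨?_, fun hj => ?_⟩
  · obtain ⟨P, h1, hP⟩ := exists_pmax p (PSU n F q)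
    obtain ⟨e1, e2, e3, e4⟩ := ex_idem (K := F) (show n - 1 + 1 = n by omega) (by omega)
    have h3 := lcm_of_idem_su hF hs h2 hr hrn hrq 1 e1 e2 e3 (Commute.one_right _) e4
    rw [QuotientGroup.mk_one, orderOf_one, Nat.lcm_one_left] at h3
    refine absorb_three ord_vec (· ∣ (usg q n).lcm P) (fun g => dich hF hs p h2 hr hrn hrq g hP) fun x y w hx hy hw =>
      mem_spec_of_dvd (lcm_mem_prod hu (lcm_mem_prod h1 h3)) ?_
    rw [← Nat.lcm_assoc (usg _ _)]
    simp only [Nat.lcm_dvd_iff]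
    exact ⟨hx.trans (Nat.dvd_lcm_left _ _), hy.trans (Nat.dvd_lcm_left _ _), hw.trans (Nat.dvd_lcm_left _ _),
      Nat.dvd_lcm_right _ _⟩
  · obtain ⟨P, h1, hP⟩ := ex_W hF hs p h2 hr hrn hrq hj
    refine absorb_two ord_vec (· ∣ (usg q n).lcm P) (fun g => dich hF hs p h2 hr hrn hrq g hP) fun x y hx hy =>
      mem_spec_of_dvd (lcm_mem_prod hu h1) ?_
    rw [← Nat.lcm_assoc (usg _ _)]
    simp only [Nat.lcm_dvd_iff]
    exact ⟨hx.trans (Nat.dvd_lcm_left _ _), hy.trans (Nat.dvd_lcm_left _ _), Nat.dvd_lcm_right _ _⟩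

end Cfsg.Agent.S2511
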