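import Cfsg.Statements.S2512
import Cfsg.Agent.H8.PSpo

set_option autoImplicit false
open Cfsg

namespace Cfsg.Agent.S2512


open Function Cfsg.Agent.Rp Cfsg.Agent.GS Matrix Polynomial
open scoped MatrixGroups

section
variable {F : Type*} [Field F] [Fintype F] {n : ℕ} (p : ℕ) [hp : Fact p.Prime] [CharP F p] (h2 : (2 : F) ≠ 0)
include h2

omit [Fintype F] in
theorem reg (n : ℕ) : ∃ U ∈ symplecticGroup (Fin n) F, ∃ b, 2 * n ≤ p ^ b ∧ ∀ k, U ^ k = 1 → p ^ b ∣ k := by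
  obtain ⟨U, h1, h3⟩ := exists_reg p h2 n
  obtain ⟨b, -, hb⟩ := (Nat.dvd_prime_pow hp.out).1 (orderOf_dvd_of_pow_eq_one ((h3 (2 * n)).2
    (Nat.lt_pow_self hp.out.one_lt).le))
  exact ⟨U, h1, b, (h3 b).1 (hb ▸ pow_orderOf_eq_one U), fun k hk => hb ▸ orderOf_dvd_of_pow_eq_one hk⟩

theorem cls (hn : 0 < n) (g : PSp n F) : (orderOf g).lcm 2 ∈ spec (PSp n F) ∨ (Odd (orderOf g) ∧
    (orderOf g ∣ Fintype.card F ^ n - 1 ∨ orderOf g ∣ Fintype.card F ^ n + 1 ∨ ∃ e, p ^ e ∈ spec (PSp n F) ∧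
      orderOf g = p ^ e)) := by
  rcases Nat.even_or_odd (orderOf g) with ho | ho
  · exact Or.inl ⟨g, (Nat.lcm_eq_left ho.two_dvd).symm⟩
  obtain ⟨g, rfl⟩ := QuotientGroup.mk_surjective g
  have h1 : orderOf ((g ^ 2 : symplecticGroup (Fin n) F) : PSp n F) = orderOf (g : PSp n F) := by
    rw [QuotientGroup.mk_pow, (Nat.coprime_two_right.2 ho).orderOf_pow]
  have h3 : ∀ k, (g ^ 2).1 ^ k = 1 → orderOf (g : PSp n F) ∣ k := fun k hk =>
    h1 ▸ psp_dvd.2 ⟨1, by rw [hk, one_smul]⟩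
  rcases psp_dich p h2 hn (g ^ 2) (ho.of_dvd_nat (orderOf_dvd_of_pow_eq_one (Subtype.ext (by
    rw [← pow_mul, mul_comm]; exact pow_two_order g)))) with h | ⟨b, h⟩ | ⟨d, m, T, hd, hT, h⟩
  · exact Or.inl (h1 ▸ h)
  · obtain ⟨e, -, he⟩ := (Nat.dvd_prime_pow hp.out).1 (h3 _ h)
    exact Or.inr ⟨ho, Or.inr (Or.inr ⟨e, ⟨_, he⟩, he⟩)⟩
  by_cases hm : m = 1
  · subst hm
    rw [mul_one] at hd
    subst hd
    rw [pow_one, sub_eq_zero] at h
    refine Or.inr ⟨ho, ?_⟩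
    rcases hT with rfl | rfl
    · exact Or.inl (h3 _ h)
    · exact Or.inr (Or.inl (h3 _ h))
  left
  have hd0 : 0 < d := Nat.pos_of_ne_zero (by rintro rfl; omega)
  obtain ⟨m, rfl⟩ : ∃ k, m = k + 2 := ⟨m - 2, by
    have : m ≠ 0 := by rintro rfl; omega
    omega⟩
  have h4 : m + 1 ≤ d * (m + 1) := Nat.le_mul_of_pos_left _ hd0
  obtain ⟨S, hS, h5⟩ := exists_torus hd0 hT
  obtain ⟨U, hU, b, h6, h7⟩ := reg p h2 (d * (m + 1))
  obtain ⟨P, h8, h9, h10⟩ := sblk_two h2 (n := n) (by rw [← hd]; ring) hd0 (by omega) hS hU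
  have h11 := pow_eq_of_nil p (A := (g ^ 2).1) (P := X ^ T) (Q := 1) (b := b) (by simpa using h) (by omega)
  have hc : T.Coprime (p ^ b) := by
    obtain ⟨k, -, hk⟩ := FiniteField.card F p
    have h12 : p ∣ Fintype.card F ^ d := (hk ▸ dvd_pow_self p k.ne_zero).trans (dvd_pow_self _ hd0.ne')
    refine ((Nat.Prime.coprime_iff_not_dvd hp.out).2 fun e => hp.out.not_dvd_one ?_).symm.pow_right _
    rcases hT with rfl | rfl
    · have := Nat.dvd_sub h12 e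
      rwa [Nat.sub_sub_self (Nat.one_le_pow _ _ Fintype.card_pos)] at this
    · exact (Nat.dvd_add_right h12).1 e
  have h12 := (h3 (T * p ^ b) (by simpa [pow_mul] using h11)).trans (hc.mul_dvd_of_dvd_of_dvd (h5 _ h9) (h7 _ h10))
  refine mem_spec_of_dvd h8 (Nat.lcm_dvd (((Nat.coprime_two_right.2 ho).dvd_of_dvd_mul_right h12).trans
    (Nat.dvd_lcm_left _ _)) (Nat.dvd_lcm_right _ _))

theorem ex_W (hn : 2 ≤ n) (hj : ¬ ∃ j : ℕ, 2 * n - 1 = p ^ j) :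
    ∃ P, P.lcm 2 ∈ spec (PSp n F) ∧ ∀ e, p ^ e ∈ spec (PSp n F) → p ^ e ∣ P := by
  obtain ⟨U, hU, b, h6, h7⟩ := reg p h2 (n - 1)
  obtain ⟨P, h8, h9, -⟩ := sblk_two h2 (n := n) (b := 1) (by omega) (by omega) one_pos hU (one_mem _)
  have ho : Odd (p ^ b) := (Nat.Prime.odd_of_ne_two Fact.out (by
    rintro rfl; exact h2 (by exact_mod_cast CharP.cast_eq_zero F 2))).pow
  refine ⟨P, h8, fun e he => (psp_ppow p he ?_).trans ((Nat.coprime_two_right.2 ho).dvd_of_dvd_mul_right (h7 _ h9))⟩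
  have h5 : 2 * n - 1 ≠ p ^ b := fun h => hj ⟨b, h⟩
  obtain ⟨k, hk⟩ := ho
  omega

end

/-- Let F be a finite field of odd order q = p^a, n ≥ 2 (with q ≥ 3 automatic), and L = PSp(2n, F). Then for every m the direct product L × L × L × (ℤ/2)^m has the same set of element orders as L × L × L; and if 2n − 1 is not a power of p, then already L × L × (ℤ/2)^m has the same set of element orders as L × L. -/
theorem result {F : Type*} [Field F] [Fintype F] (p a n m : ℕ) (hp : p.Prime) (ha : 1 ≤ a) (hF : Fintype.card F = p ^ a) (hodd : Odd (Fintype.card F))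
    (hn : 2 ≤ n) :
    Set.range (orderOf : Cfsg.PSp n F × Cfsg.PSp n F × Cfsg.PSp n F × Multiplicative (Fin m → ZMod 2) → ℕ) = Set.range (orderOf : Cfsg.PSp n F × Cfsg.PSp n F × Cfsg.PSp n F → ℕ) ∧
    ((¬ ∃ j : ℕ, 2 * n - 1 = p ^ j) →
      Set.range (orderOf : Cfsg.PSp n F × Cfsg.PSp n F × Multiplicative (Fin m → ZMod 2) → ℕ) = Set.range (orderOf : Cfsg.PSp n F × Cfsg.PSp n F → ℕ)) := by
  haveI := Fact.mk hp
  haveI : CharP F p := charP_of_card_eq_prime_pow hF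
  have h2 := H4.two_ne_zero_of_odd hodd
  have h0 : 0 < n := by omega
  obtain ⟨A, hA, hA'⟩ := torus_mem (F := F) h0 (Or.inl rfl)
  obtain ⟨B, hB, hB'⟩ := torus_mem (F := F) h0 (Or.inr rfl)
  have he : 2 ∣ A.lcm B := by
    obtain ⟨k, hk⟩ := hodd.pow (n := n)
    rcases Nat.even_or_odd' k with ⟨k, rfl | rfl⟩
    · refine Dvd.dvd.trans ?_ (Nat.dvd_lcm_left _ _)
      refine Nat.dvd_of_mul_dvd_mul_right two_pos (Dvd.dvd.trans ⟨k, ?_⟩ hA')
      omega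
    · refine Dvd.dvd.trans ?_ (Nat.dvd_lcm_right _ _)
      refine Nat.dvd_of_mul_dvd_mul_right two_pos (Dvd.dvd.trans ⟨k + 1, ?_⟩ hB')
      omega
  have key : ∀ {P}, (∀ e, p ^ e ∈ spec (PSp n F) → p ^ e ∣ P) → ∀ g : PSp n F,
      (orderOf g).lcm 2 ∈ spec (PSp n F) ∨ (orderOf g ∣ A ∨ orderOf g ∣ B ∨ orderOf g ∣ P) := by
    intro P hP g
    rcases cls p h2 h0 g with h | ⟨ho, h | h | ⟨e, h, h'⟩⟩
    · exact Or.inl h
    · exact Or.inr (Or.inl ((Nat.coprime_two_right.2 ho).dvd_of_dvd_mul_right (h.trans hA')))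
    · exact Or.inr (Or.inr (Or.inl ((Nat.coprime_two_right.2 ho).dvd_of_dvd_mul_right (h.trans hB'))))
    · exact Or.inr (Or.inr (Or.inr (h' ▸ hP e h)))
  have l := Nat.dvd_lcm_left
  have r := Nat.dvd_lcm_right
  refine ⟨?_, fun hj => ?_⟩
  · obtain ⟨P, h1, hP⟩ := exists_pmax p (PSp n F)
    have : ∀ x, (x ∣ A ∨ x ∣ B ∨ x ∣ P) → x ∣ A.lcm (B.lcm P) := by
      rintro x (h | h | h)
      exacts [h.trans (l _ _), h.trans ((l _ _).trans (r _ _)), h.trans ((r _ _).trans (r _ _))]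
    refine absorb_three ord_vec (fun x => x ∣ A ∨ x ∣ B ∨ x ∣ P) (key hP) fun x y w hx hy hw =>
      mem_spec_of_dvd (lcm_mem_prod hA (lcm_mem_prod hB h1)) ?_
    simp only [Nat.lcm_dvd_iff]
    exact ⟨this _ hx, this _ hy, this _ hw, he.trans (lcm_mono (l _ _))⟩
  · obtain ⟨P, h1, hP⟩ := ex_W p h2 hn hj
    refine absorb_two ord_vec (fun x => x ∣ A ∨ x ∣ B ∨ x ∣ P) (key hP) fun x y hx hy => ?_
    have k1 : ∀ {C}, C ∈ spec (PSp n F) → x ∣ C.lcm P → y ∣ C.lcm P →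
        x.lcm (y.lcm 2) ∈ spec (PSp n F × PSp n F) := fun hC a b => by
      refine mem_spec_of_dvd (lcm_mem_prod hC h1) ?_
      rw [← Nat.lcm_assoc _ P]
      exact Nat.lcm_dvd (a.trans (l _ _)) (Nat.lcm_dvd (b.trans (l _ _)) (r _ _))
    have k2 : x ∣ A.lcm B → y ∣ A.lcm B → x.lcm (y.lcm 2) ∈ spec (PSp n F × PSp n F) := fun a b =>
      mem_spec_of_dvd (lcm_mem_prod hA hB) (Nat.lcm_dvd a (Nat.lcm_dvd b he))
    rcases hx with a | a | a <;> rcases hy with b | b | b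
    exacts [k2 (a.trans (l _ _)) (b.trans (l _ _)), k2 (a.trans (l _ _)) (b.trans (r _ _)),
      k1 hA (a.trans (l _ _)) (b.trans (r _ _)), k2 (a.trans (r _ _)) (b.trans (l _ _)),
      k2 (a.trans (r _ _)) (b.trans (r _ _)), k1 hB (a.trans (l _ _)) (b.trans (r _ _)),
      k1 hA (a.trans (r _ _)) (b.trans (l _ _)), k1 hB (a.trans (r _ _)) (b.trans (l _ _)),
      k1 hA (a.trans (r _ _)) (b.trans (r _ _))]

end Cfsg.Agent.S2512
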