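import Cfsg.Statements.S2518
import Cfsg.Agent.H5.G2s
import Cfsg.Agent.H4.Dick3
import Cfsg.Agent.S1059

set_option autoImplicit false
open Cfsg

namespace Cfsg.Agent.S2518

/-- Let F₃ be the field with 3 elements and F₁₃ the field with 13 elements. The Chevalley group G₂(F₃) and PSL(2, F₁₃) have the same prime graph: the same prime divisors of their orders, and for distinct primes r, s an element of order rs in one iff in the other. -/
theorem result {F : Type*} [Field F] [Fintype F] (hF : Fintype.card F = 3) {E : Type*} [Field E] [Fintype E] (hE : Fintype.card E = 13) :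
    ((∀ r : ℕ, r.Prime → (r ∣ Nat.card ↥(Cfsg.Lie.chevG2.group F) ↔ r ∣ Nat.card (Matrix.ProjectiveSpecialLinearGroup (Fin 2) E))) ∧
      (∀ r s : ℕ, r.Prime → s.Prime → r ≠ s → ((∃ x : ↥(Cfsg.Lie.chevG2.group F), orderOf x = r * s) ↔ (∃ y : (Matrix.ProjectiveSpecialLinearGroup (Fin 2) E), orderOf y = r * s)))) := by
  haveI := Fact.mk (show Nat.Prime 13 by decide)
  haveI := H5.charP_of_card (n := 1) (show Nat.Prime 13 by decide) hE
  have c1 : Nat.card (Lie.chevG2.group F) = 4245696 := by rw [S1059.result hF]; rfl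
  have c2 : Nat.card (Matrix.ProjectiveSpecialLinearGroup (Fin 2) E) = 1092 := by
    have := H4.card_PSL_two (F := E)
    rw [hE] at this; norm_num at this; omega
  have c3 : ∀ r : ℕ, r.Prime → r ∣ 4245696 → r = 2 ∨ r = 3 ∨ r = 7 ∨ r = 13 := fun r hr h => by
    rw [show 4245696 = 2 ^ 6 * (3 ^ 6 * (7 * 13)) from rfl] at h
    simp only [hr.dvd_mul] at h
    exact h.imp (fun h => (Nat.prime_dvd_prime_iff_eq hr (by decide)).1 (hr.dvd_of_dvd_pow h)) (.imp (fun h =>
      (Nat.prime_dvd_prime_iff_eq hr (by decide)).1 (hr.dvd_of_dvd_pow h)) (.imp (Nat.prime_dvd_prime_iff_eq hr (by decide)).1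
        (Nat.prime_dvd_prime_iff_eq hr (by decide)).1))
  refine ⟨fun r hr => ?_, fun r s hr hs hrs => (?_ : _ ↔ r * s = 6).trans ⟨fun e => ?_, fun ⟨y, hy⟩ => ?_⟩⟩
  · rw [c1, c2]
    exact ⟨fun h => by rcases c3 r hr h with rfl | rfl | rfl | rfl <;> decide, fun h => h.trans (by decide)⟩
  · haveI := H5.charP_of_card (n := 1) Nat.prime_three hF
    refine ⟨fun ⟨x, hx⟩ => ?_, fun e => e ▸ H5.g2_exists (p := 3) (e := 1) hF rfl (by decide)⟩
    have h5 := hx ▸ c1 ▸ orderOf_dvd_natCard x
    have h6 := hx ▸ H5.g2_ord (p := 3) (e := 1) hF rfl x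
    rcases c3 r hr ((dvd_mul_right _ _).trans h5) with rfl | rfl | rfl | rfl <;>
      rcases c3 s hs ((dvd_mul_left _ _).trans h5) with rfl | rfl | rfl | rfl <;> first | rfl | exact absurd rfl hrs | exact absurd h6 (by decide)
  · have h0 : ∀ n : ℕ, n < 13 → n ≠ 0 → (n : E) ≠ 0 := fun n h h' e => h' (Nat.eq_zero_of_dvd_of_lt ((CharP.cast_eq_zero_iff E 13 n).1 e) h)
    have h13 : (13 : E) = 0 := CharP.cast_eq_zero E 13
    let g : Matrix.SpecialLinearGroup (Fin 2) E := ⟨!![2, 0; 0, 7], by rw [Matrix.det_fin_two_of]; linear_combination h13⟩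
    have hg : ∀ n, (g ^ n).1 = !![2 ^ n, 0; 0, 7 ^ n] := fun n => by
      induction n with
      | zero => simp [Matrix.one_fin_two]
      | succ n ih => rw [pow_succ, Matrix.SpecialLinearGroup.coe_mul, ih]; simp [g, pow_succ]
    refine ⟨QuotientGroup.mk g, e ▸ (orderOf_eq_iff (by decide)).2 ⟨?_, fun n h h' e => ?_⟩⟩
    · rw [← QuotientGroup.mk_pow, QuotientGroup.eq_one_iff, H4.mem_center_SL2]
      refine .inr (Subtype.ext ((hg 6).trans ?_))
      rw [show (2 : E) ^ 6 = -1 by linear_combination 5 * h13, show (7 : E) ^ 6 = -1 by linear_combination 9050 * h13]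
      simp [Matrix.one_fin_two]
    · rw [← QuotientGroup.mk_pow, QuotientGroup.eq_one_iff, H4.mem_center_SL2] at e
      have : (2 : E) ^ n * 2 ^ n = 1 := by
        rcases e with e | e <;> have := congrArg (·.1 0 0) e <;> simp [hg] at this <;> simp [this]
      interval_cases n
      exacts [h0 3 (by decide) (by decide) (by push_cast; linear_combination this), h0 2 (by decide) (by decide) (by
        push_cast; linear_combination this - h13), h0 11 (by decide) (by decide) (by push_cast; linear_combination this - 4 * h13),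
        h0 8 (by decide) (by decide) (by push_cast; linear_combination this - 19 * h13),
        h0 9 (by decide) (by decide) (by push_cast; linear_combination this - 78 * h13)]
  · have := H4.orderOf_cases (p := 13) le_rfl ((H4.range_toPGL (K := E)).le ⟨y, rfl⟩)
    rw [H4.index_LL_odd (by rw [hE]; decide), ← orderOf_dvd_iff_pow_eq_one, orderOf_injective _ Matrix.ProjectiveSpecialLinearGroup.toPGL_injective, hy, hE] at this
    have h1 := hr.two_le
    have h2 := hs.two_le
    have h3 : r * s ≤ 13 := by rcases this with h | h | h <;> have := Nat.le_of_dvd (by decide) h <;> omega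
    have : r ≤ 6 := by nlinarith
    have : s ≤ 6 := by nlinarith
    interval_cases r <;> interval_cases s <;> simp_all (config := {decide := true})

end Cfsg.Agent.S2518
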