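import Cfsg.Statements.S2519
import Cfsg.Agent.H5.G2s

set_option autoImplicit false
open Cfsg

namespace Cfsg.Agent.S2519

theorem anti {p q : ℕ} (hp : p.Prime) (h : p ∣ q) (hq : 5 ≤ q) {m n : ℕ}
    (hm : m = q ^ 2 - 1 ∨ m = q ^ 2 + q + 1 ∨ m = q ^ 2 - q + 1 ∨ m = p * (q + 1) ∨ m = p * (q - 1) ∨ m = p ^ 2)
    (hn : n = q ^ 2 - 1 ∨ n = q ^ 2 + q + 1 ∨ n = q ^ 2 - q + 1 ∨ n = p * (q + 1) ∨ n = p * (q - 1) ∨ n = p ^ 2) (e : m ∣ n) : n = m := by
  have h0 : 5 * q ≤ q ^ 2 := by nlinarith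
  have h2 : p ∣ q ^ 2 := h.trans (dvd_pow_self q two_ne_zero)
  have k : ∀ {x}, p ∣ x → ¬ p ∣ x + 1 := fun a b => hp.one_lt.ne' (Nat.dvd_one.1 ((Nat.dvd_add_right a).1 b))
  have k' : ∀ {x}, p ∣ x → 0 < x → ¬ p ∣ x - 1 := fun {x} a b c => k c (by rwa [Nat.sub_add_cancel b])
  have c1 := k' h2 (by omega)
  have c2 := k (dvd_add h2 h)
  have c3 := k (Nat.dvd_sub h2 h)
  have c4 := k h
  have c5 := k' h (by omega)
  have d : ∀ {x y}, ¬ p ∣ x → x ∣ p * y → 0 < y → x ≤ y := fun a b c =>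
    Nat.le_of_dvd c (((Nat.Prime.coprime_iff_not_dvd hp).2 a).symm.dvd_of_dvd_mul_left b)
  have d' : ∀ {x y}, p * x ∣ p * y → x ∣ y := Nat.dvd_of_mul_dvd_mul_left hp.pos
  have h3 := Nat.le_of_dvd (by omega) h
  have h4 := hp.two_le
  rw [sq p] at hm hn
  rcases hm with rfl | rfl | rfl | rfl | rfl | rfl <;> rcases hn with rfl | rfl | rfl | rfl | rfl | rfl <;> first
    | rfl | exact Nat.eq_of_dvd_of_lt_two_mul (by omega) e (by omega)
    | exact absurd ((dvd_mul_right _ _).trans e) ‹_› | exact absurd (d' e) ‹_›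
    | exact congrArg _ (Nat.eq_of_dvd_of_lt_two_mul (by omega) (d' e) (by omega))
    | (have := d ‹_› e (by omega); omega)
    | (have := (Nat.dvd_prime hp).1 (d' e); rcases this with a | a <;> [omega; exact absurd (a ▸ dvd_rfl) c5])

/-- Let F be a finite field of odd order q = p^a ≥ 5. The element orders of the Chevalley group G₂(F) that are maximal under divisibility are exactly p(q + 1), p(q − 1), q² − 1, q² + q + 1, q² − q + 1, together with p² when p is 3 or 5. -/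
theorem result {F : Type*} [Field F] [Fintype F] (p a : ℕ) (hp : p.Prime) (hp2 : p ≠ 2) (ha : 1 ≤ a) (hF : Fintype.card F = p ^ a) (hq5 : 5 ≤ Fintype.card F) :
    {n : ℕ | n ∈ Set.range (orderOf : ↥(Cfsg.Lie.chevG2.group F) → ℕ) ∧ ∀ m ∈ Set.range (orderOf : ↥(Cfsg.Lie.chevG2.group F) → ℕ), n ∣ m → m = n} =
      ({p * (p ^ a + 1), p * (p ^ a - 1), p ^ (2 * a) - 1, p ^ (2 * a) + p ^ a + 1, p ^ (2 * a) - p ^ a + 1} : Set ℕ) ∪
        (if p = 3 ∨ p = 5 then ({p ^ 2} : Set ℕ) else ∅) := by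
  haveI := Fact.mk hp
  haveI := H5.charP_of_card hp hF
  rw [pow_mul']
  have h1 := dvd_pow_self p (show a ≠ 0 by omega)
  rw [hF] at hq5
  have h2 := fun n h => H5.g2_exists (p := p) (n := n) hF rfl h
  ext n
  simp only [Set.mem_setOf, Set.mem_union, Set.mem_insert_iff, Set.mem_singleton_iff, Set.mem_ite_empty_right]
  refine ⟨fun ⟨⟨g, hg⟩, h⟩ => ?_, fun h => ⟨h2 n (by tauto), ?_⟩⟩
  · rcases hg ▸ H5.g2_ord (p := p) hF rfl g with e | e | e | e | e | e | ⟨e', e⟩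
    all_goals first | exact absurd e.1 hp2 | (have := (h _ (h2 _ (by tauto)) e).symm; tauto)
  · rintro _ ⟨g, rfl⟩ e
    rcases H5.g2_ord (p := p) hF rfl g with e' | e' | e' | e' | e' | e' | ⟨-, e'⟩
    all_goals first | exact absurd e'.1 hp2 | exact Nat.dvd_antisymm (anti hp h1 hq5 (by tauto) (by tauto) (e.trans e') ▸ e') e

end Cfsg.Agent.S2519
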