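import Cfsg.Statements.S2520
import Cfsg.Agent.H5.G2s

set_option autoImplicit false
open Cfsg

namespace Cfsg.Agent.S2520

/-- Let F be a finite field with q = 2^a ≥ 4 elements and G₂(F) the Chevalley group of type G₂ over it. Every element order of G₂(F) maximal under divisibility lies in the set {8, 12, 2(q + 1), 2(q − 1), q² − 1, q² + q + 1, q² − q + 1}, and every member of that set is an element order of G₂(F). -/
theorem result {F : Type*} [Field F] [Fintype F] (a : ℕ) (ha : 2 ≤ a) (hF : Fintype.card F = 2 ^ a) :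
    {n : ℕ | n ∈ Set.range (orderOf : ↥(Cfsg.Lie.chevG2.group F) → ℕ) ∧ ∀ m ∈ Set.range (orderOf : ↥(Cfsg.Lie.chevG2.group F) → ℕ), n ∣ m → m = n} ⊆ ({8, 12, 2 * (2 ^ a + 1), 2 * (2 ^ a - 1), 2 ^ (2 * a) - 1, 2 ^ (2 * a) + 2 ^ a + 1, 2 ^ (2 * a) - 2 ^ a + 1} : Set ℕ) ∧
    ({8, 12, 2 * (2 ^ a + 1), 2 * (2 ^ a - 1), 2 ^ (2 * a) - 1, 2 ^ (2 * a) + 2 ^ a + 1, 2 ^ (2 * a) - 2 ^ a + 1} : Set ℕ) ⊆ Set.range (orderOf : ↥(Cfsg.Lie.chevG2.group F) → ℕ) := by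
  haveI := H5.charP_of_card Nat.prime_two hF
  have h : ∀ n ∈ ({8, 12, 2 * (2 ^ a + 1), 2 * (2 ^ a - 1), 2 ^ (2 * a) - 1, 2 ^ (2 * a) + 2 ^ a + 1, 2 ^ (2 * a) - 2 ^ a + 1} : Set ℕ),
      n ∈ Set.range (orderOf : ↥(Cfsg.Lie.chevG2.group F) → ℕ) := fun n hn =>
    H5.g2_exists (p := 2) hF rfl (by rw [pow_mul'] at hn; simp only [Set.mem_insert_iff, Set.mem_singleton_iff] at hn; tauto)
  refine ⟨?_, h⟩
  rintro _ ⟨⟨g, rfl⟩, h1⟩
  have := H5.g2_ord (p := 2) hF rfl g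
  rw [← pow_mul'] at this
  rcases this with e | e | e | e | e | ⟨-, e | e⟩ | ⟨e | e, -⟩ <;> first | omega | (rw [← h1 _ (h _ (by simp)) e]; simp)

end Cfsg.Agent.S2520
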