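import Cfsg.Statements.S2521
import Cfsg.Agent.H9.TJ
import Cfsg.Agent.L.Frob

set_option autoImplicit false
open Cfsg

namespace Cfsg.Agent.S2521

open Cfsg.Agent Cfsg.Agent.H9

/-- Let B be a finite group that is the semidirect product of a nilpotent normal subgroup U by an abelian subgroup T (U ∩ T = 1, UT = B), and let t ∈ T have centralizer exactly T. Then every element of the coset tU is conjugate to t in B: for each u ∈ U there is b ∈ B with b t b⁻¹ = t u. -/
theorem result {B : Type*} [Group B] [Finite B] (U T : Subgroup B) [U.Normal] (hU : Group.IsNilpotent ↥U) (hT : IsMulCommutative ↥T)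
    (hcompl : Subgroup.IsComplement' U T) (t : B) (ht : t ∈ T) (hreg : Subgroup.centralizer ({t} : Set B) = T) (u : B) (hu : u ∈ U) :
    ∃ b : B, b * t * b⁻¹ = t * u := by
  have h : U ⊓ Subgroup.centralizer ({t} : Set B) = ⊥ := by rw [hreg]; exact hcompl.disjoint.eq_bot
  obtain ⟨k, -, hk⟩ := L.exists_commutator_eq_of_centralizer (K := U) (x := t) (Subgroup.le_normalizer_of_normal (Subgroup.mem_top t)) h
    (y := t * u * t⁻¹) (Subgroup.Normal.conj_mem inferInstance u hu t)
  exact ⟨k, by rw [hk]; group⟩

end Cfsg.Agent.S2521
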