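import Cfsg.Statements.S2550
import Cfsg.Agent.H9.L34
import Cfsg.Agent.S0256

set_option autoImplicit false
open Cfsg

namespace Cfsg.Agent.S2550

open Cfsg.Agent Cfsg.Agent.H9

/-- Let F be a field with 2 elements and K a field with 4 elements. PSL_4(F) and PSL_3(K) have the same order (20160) but are not isomorphic. -/
theorem result {F K : Type*} [Field F] [Fintype F] [Field K] [Fintype K] (hF : Fintype.card F = 2) (hK : Fintype.card K = 4) : Nat.card (Matrix.ProjectiveSpecialLinearGroup (Fin 4) F) = Nat.card (Matrix.ProjectiveSpecialLinearGroup (Fin 3) K) ∧ ¬ Nonempty (Matrix.ProjectiveSpecialLinearGroup (Fin 4) F ≃* Matrix.ProjectiveSpecialLinearGroup (Fin 3) K) := by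
  constructor
  · have h1 := H4.card_PSL (F := F) 4 (by norm_num)
    have h2 := H4.card_PSL (F := K) 3 (by norm_num)
    rw [hF] at h1
    rw [hK] at h2
    simp [Fin.prod_univ_succ] at h1 h2
    omega
  · rintro ⟨e⟩
    obtain ⟨f⟩ := Cfsg.Agent.S0256.result hF
    let s : Equiv.Perm (Fin 8) := c[0, 1, 2] * c[3, 4, 5, 6, 7]
    have hs : s ∈ alternatingGroup (Fin 8) := by
      rw [Equiv.Perm.mem_alternatingGroup]; decide
    have ho : orderOf s = 15 := by
      rw [orderOf_eq_iff (by norm_num)]
      decide +kernel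
    apply psl34_ne15 hK (e (f.symm ⟨s, hs⟩))
    rw [MulEquiv.orderOf_eq, MulEquiv.orderOf_eq, ← Subgroup.orderOf_coe]
    exact ho

end Cfsg.Agent.S2550
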