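import Cfsg.Statements.S2556
import Mathlib
import Cfsg.Agent.H7.SzA
import Cfsg.Agent.H5.Sz5

set_option autoImplicit false
open Cfsg

namespace Cfsg.Agent.S2556

open Cfsg.Agent.H7 Subgroup

/-- Let S be a Sylow 2-subgroup of the Suzuki group Sz(q), q = 2ⁿ with n = 2m + 1 ≥ 3 (realised as 4 × 4 matrices over the field with q elements). Then the largest normal 2-subgroup of the automorphism group of S is elementary abelian of order 2^(n²), and the automorphism group of S has order 2^(n²) · n · (q − 1). -/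
theorem result {S : Type*} [Group S] [Finite S] (m : ℕ) (hm : 1 ≤ m)
    {F : Type*} [Field F] [Fintype F] (hF : Fintype.card F = 2 ^ (2 * m + 1))
    (P : Sylow 2 ↥(Cfsg.Lie.Sz F (2 ^ (m + 1)))) (hS : Nonempty (S ≃* ↥(P : Subgroup ↥(Cfsg.Lie.Sz F (2 ^ (m + 1)))))) :
    Cfsg.IsElementaryAbelian 2 (Cfsg.pCore 2 (MulAut S)) ∧ Nat.card ↥(Cfsg.pCore 2 (MulAut S)) = 2 ^ ((2 * m + 1) ^ 2) ∧
      Nat.card (MulAut S) = 2 ^ ((2 * m + 1) ^ 2) * ((2 * m + 1) * (2 ^ (2 * m + 1) - 1)) := by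
  haveI := H5.Suz.charP hF
  obtain ⟨_, ⟨Z⟩⟩ := H5.Suz.SzG.exists_lie hF (H5.Suz.szO hm hF)
  obtain ⟨a, ea⟩ := Z.exists_K P
  obtain ⟨Z', rfl⟩ := Z.exists_inf a
  let θ : F ≃+* F := RingEquiv.ofBijective (H5.Suz.th F m) (Finite.injective_iff_bijective.1 (H5.Suz.th F m).injective)
  have hθ : ∀ x, θ (θ x) = x ^ 2 := Z.sq
  obtain ⟨hA, hcyc⟩ := ringAut_card7 F hF
  have hc : ∀ g k : F ≃+* F, g * k = k * g := fun g k => hcyc.commutative.is_comm.comm g k
  have h4 : θ ^ 4 ≠ 1 := fun h => by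
    have h1 := orderOf_dvd_natCard θ
    rw [hA] at h1
    have h2 := orderOf_eq_one_iff.1 (Nat.eq_one_of_dvd_coprimes
      (Nat.Coprime.pow_left 2 ((Nat.coprime_two_left).2 (odd_two_mul_add_one m))) (orderOf_dvd_of_pow_eq_one h) h1)
    obtain ⟨k, k0, k1⟩ := Z.two
    have := hθ k
    rw [h2] at this
    exact k1 (mul_left_cancel₀ k0 (by change k = _ at this; linear_combination -this))
  let f : SA θ →* Z'.K Z'.inf := MonoidHom.mk' (fun x => ⟨Z'.u x.a x.b, Z'.u_mem _ _⟩) fun x y =>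
    Subtype.ext (Z'.u_mul _ _ _ _).symm
  have hf : Function.Bijective f := ⟨fun x y h => by
    obtain ⟨h1, h2⟩ := Z'.u_inj.1 (show Z'.u x.a x.b = Z'.u y.a y.b from congrArg Subtype.val h)
    exact SA.ext h1 h2, fun g => by
    obtain ⟨a, b, h⟩ := Z'.mem_K_inf.1 g.2
    exact ⟨⟨a, b⟩, Subtype.ext h.symm⟩⟩
  obtain ⟨e2⟩ := hS
  let e := MulAut.congr ((MulEquiv.ofBijective f hf).trans ((MulEquiv.subgroupCongr ea).symm.trans e2.symm))
  have h1 := H1.map_pCore_equiv (p := 2) e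
  have h2 : Nat.card (pCore 2 (MulAut (SA θ))) = 2 ^ ((2 * m + 1) ^ 2) := by
    letI := ZMod.algebra F 2
    rw [SA.card_pCore hc h4 hθ, card_addHom_zmod (p := 2) (Nat.card_eq_fintype_card.trans hF)
      (Nat.card_eq_fintype_card.trans hF), sq]
  have h3 : ∀ φ ∈ pCore 2 (MulAut S), φ ^ 2 = 1 := by
    rw [← h1]
    rintro _ ⟨φ, hφ, rfl⟩
    rw [← map_pow, sq, SA.sq_of_a hθ φ ((SA.mem_pCore hc h4 hθ).1 hφ), map_one]
  refine ⟨⟨⟨⟨fun a b => ?_⟩⟩, h3⟩, ?_, ?_⟩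
  · have ha := h3 a a.2
    have hb := h3 b b.2
    have hab := h3 _ (a * b).2
    rw [sq, mul_eq_one_iff_eq_inv] at ha hb hab
    exact Subtype.ext (by rw [hab, coe_mul, mul_inv_rev, ← ha, ← hb, coe_mul])
  · rw [← h1, card_map_of_injective e.injective, h2]
  · rw [← Nat.card_congr e.toEquiv, SA.card_aut hc h4 hθ, h2, hA, Nat.card_units, Nat.card_eq_fintype_card, hF]

end Cfsg.Agent.S2556
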