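import Cfsg.Statements.S2731
import Cfsg.Agent.H4.Lang7
import Cfsg.Agent.H1.Cores

set_option autoImplicit false
open Cfsg

namespace Cfsg.Agent.S2731

open Cfsg.Agent.H4 Cfsg.Agent.H4.CForm Cfsg.Agent.H4.Gam Module
open scoped commutatorElement

section
variable {F : Type*} [Field F] [Fintype F] {ι : Type} [Fintype ι] [DecidableEq ι] {F₀ : Type*} [Field F₀] [Fintype F₀] {φ : F₀ →+* F}
  {k : (ι → F) ≃ₗ[F] (ι → F)} {σ : F ≃+* F} (hσ : ∀ x, σ x = x ↔ ∃ y, φ y = x)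
  {f : CForm (FType.orth F) (ι → F)} {f₀ : CForm (FType.orth F₀) (ι → F₀)} {X : Type*} [Group X] (M : Mdl X f.GamS f.E)
include hσ

theorem cent [Nonempty ι] (hG : f₀.Good) (hp : f₀.E ≤ ⁅f₀.E, f₀.E⁆) (hγ : gk k σ ∈ f.GamS) (h1 : ∀ g ∈ f₀.Sim, bk φ k g ∈ f.Sim)
    (b : f.GamS) (h2 : M.Φ b * M.Φ ⟨_, hγ⟩ = M.Φ ⟨_, hγ⟩ * M.Φ b)
    (h3 : ∀ e (he : e ∈ f₀.E), Commute (M.Φ b) (M.Φ ⟨_, h1 e (iso_le_Sim (E_le_iso he))⟩)) : M.Φ b ∈ Subgroup.zpowers (M.Φ ⟨_, hγ⟩) := by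
  have hm : ∀ α β : F ≃+* F, gk k α * gk k β = gk k (α * β) := fun α β => ext' (fun x => by simp [gk_s]) rfl
  obtain ⟨b, hb⟩ := b
  obtain ⟨s, hs⟩ := exists_lin (a := b * (gk k b.ρ)⁻¹) (by simp [show (gk k b.ρ).ρ = b.ρ from rfl])
  generalize b.ρ = τ at hs
  obtain rfl := eq_mul_inv_iff_mul_eq.1 hs
  have hc : σ * τ = τ * σ := (isCyclic_ringAut (F := F)).isMulCommutative.is_comm.comm σ τ
  rw [← map_mul, ← map_mul, M.Φ_eq_iff] at h2
  obtain ⟨c, h2⟩ := h2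
  obtain ⟨d, g, rfl⟩ := exists_bk_of_comm k hσ (orderOf_pos σ) (s := s) (c := c) (mul_right_cancel (b := gk k τ) (by
    rw [mul_assoc, hm, hc, ← hm, ← mul_assoc, mul_assoc (sc _ _ _), mul_assoc (gk k σ)]; exact h2))
  choose t ht using fun y => (hσ (τ (φ y))).1 ((DFunLike.congr_fun hc (φ y)).trans (congrArg τ ((hσ _).2 ⟨y, rfl⟩)))
  let t₁ : F₀ →+* F₀ := ⟨⟨⟨t, φ.injective (by simp [ht])⟩, fun x y => φ.injective (by simp [ht])⟩, φ.injective (by simp [ht]),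
    fun x y => φ.injective (by simp [ht])⟩
  let τ₀ : F₀ ≃+* F₀ := RingEquiv.ofBijective t₁ (Finite.injective_iff_bijective.1 t₁.injective)
  have h4 : ∀ x, (lin (scal _ d * bk φ k g) * gk k τ).s (jv φ k x) = (d : F) • jv φ k ((lin g * fld ι τ₀).s x) := fun x => by
    have : (gk k τ).s (jv φ k x) = jv φ k ((fld ι τ₀).s x) := by
      rw [gk_s, jv, k.symm_apply_apply, jv]; exact congrArg k (funext fun i => (ht _).symm)
    change (d : F) • bk φ k g ((gk k τ).s _) = _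
    rw [this, bk_jv]; rfl
  generalize ha : lin g * fld ι τ₀ = a at h4
  have h5 : ∀ e ∈ f₀.E, ∃ c : Fˣ, bk φ k (cj a e) = scal _ c * bk φ k e := fun e he => by
    have := (h3 e he).eq
    rw [← map_mul, ← map_mul, M.Φ_eq_iff] at this
    obtain ⟨c, hc⟩ := this
    refine ⟨c, bk_eq φ k fun x => ?_⟩
    obtain ⟨x, rfl⟩ := a.s.surjective x
    have h6 : (lin (scal _ d * bk φ k g) * gk k τ).s (bk φ k e (jv φ k x)) =
        (c : F) • bk φ k e ((lin (scal _ d * bk φ k g) * gk k τ).s (jv φ k x)) := congrArg (fun a : Gam F (ι → F) => a.s (jv φ k x)) hc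
    rw [bk_jv, h4, h4, map_smul, smul_comm] at h6
    rw [cj_apply, AddEquiv.symm_apply_apply]
    exact (smul_right_injective _ d.ne_zero h6).symm
  have h6 : ∀ e ∈ f₀.E, cj a e = e := fun e he => (Subgroup.commutator_le (H₃ := (cj a).toMonoidHom.eqLocus (MonoidHom.id _))).2
    (fun x hx y hy => bk_injective φ k (by
      obtain ⟨c, hc⟩ := h5 x hx
      obtain ⟨c', hc'⟩ := h5 y hy
      change bk φ k (cj a _) = bk φ k _
      rw [map_commutatorElement, map_commutatorElement, map_commutatorElement, hc, hc']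
      rw [commutatorElement_def, commutatorElement_def, mul_inv_eq_iff_eq_mul, mul_inv_eq_iff_eq_mul]
      ext v i
      simp [smul_smul, mul_comm, mul_left_comm])) (hp he)
  obtain ⟨c₀, h7⟩ := hG.mem_sc_of_comm fun u v c ok => h6 _ ok.mem_E
  have h8 : τ₀ = 1 := by simpa [← ha] using (congrArg Gam.ρ h7).symm
  have h9 : ∀ x, σ x = x → τ x = x := fun x hx => by
    obtain ⟨y, rfl⟩ := (hσ x).1 hx
    exact (ht y).symm.trans (congrArg φ (DFunLike.congr_fun h8 y))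
  obtain ⟨⟨_, hz⟩, h10⟩ := FixedPoints.toAlgAut_surjective (Subgroup.zpowers σ) F
    (AlgEquiv.ofRingEquiv (f := τ) fun x => h9 _ (mem_fixed_subfield.1 x.2))
  obtain ⟨j, rfl⟩ := (mem_powers_iff_mem_zpowers.2 hz : _ ∈ Submonoid.powers σ)
  obtain rfl : σ ^ j = τ := RingEquiv.ext fun x => AlgEquiv.congr_fun h10 x
  refine Subgroup.mem_zpowers_iff.2 ⟨j, ?_⟩
  rw [zpow_natCast, ← map_pow, eq_comm, M.Φ_eq_iff]
  obtain rfl : g = scal _ c₀ := LinearEquiv.ext fun x => by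
    simpa [← ha, h8] using (congrArg (fun a : Gam F₀ (ι → F₀) => a.s x) h7).symm
  exact ⟨d * Units.map (φ : F₀ →* F) c₀, by simp only [bk_scal, map_mul, sc_eq_lin, Subgroup.coe_pow, gk_pow]⟩

end

set_option maxHeartbeats 4000000 in
/-- A criterion for the failure of local balance in almost simple groups whose socle is an odd-dimensional orthogonal group Ω_{2m+1}(F) (m ≥ 3, |F| odd; the form x₀² + Σ xᵢ yᵢ). Let F be a finite field of characteristic r and K the (simple) group in question; let A be a group of automorphisms of K containing all inner automorphisms, and x ∈ A an automorphism of prime order p ≠ r that is not inner-diagonal (not induced by a similarity of the form). Then the largest normal subgroup of C_A(x) of order prime to p is nontrivial if and only if x is a field automorphism of K (conjugate under Aut(K) to a non-identity standard field automorphism) and p does not divide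 the number of fixed points of x on K. -/
theorem result {F : Type*} [Field F] [Fintype F] {r : ℕ} [Fact r.Prime] [CharP F r] (hodd : Odd (Fintype.card F)) {m : ℕ} (hm : 3 ≤ m) (hK : IsSimpleGroup (Cfsg.POmega F (Cfsg.quadFormOdd m F))) (A : Subgroup (MulAut (Cfsg.POmega F (Cfsg.quadFormOdd m F)))) (hinn : ∀ k : Cfsg.POmega F (Cfsg.quadFormOdd m F), MulAut.conj k ∈ A) {p : ℕ} [Fact p.Prime] (hpr : p ≠ r) (x : MulAut (Cfsg.POmega F (Cfsg.quadFormOdd m F))) (hxA : x ∈ A) (hord : orderOf x = p) (hnot : ¬ Cfsg.IsInnerDiagonalAutPOmegaOdd m x) :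
    Cfsg.pPrimeCore p ↥(A ⊓ Subgroup.centralizer {x}) ≠ ⊥ ↔ (Cfsg.IsFieldAutClassPOmega (Cfsg.quadFormOdd m F) x ∧ Nat.Coprime p (Nat.card ↥(MonoidHom.eqLocus x.toMonoidHom (MonoidHom.id (Cfsg.POmega F (Cfsg.quadFormOdd m F)))))) := by
  classical
  have h2 := two_ne_zero_of_odd hodd
  have hn := oddF_nondeg (F := F) h2 m
  have h7 : 7 ≤ Fintype.card (Unit ⊕ (Fin m ⊕ Fin m)) := by simp; omega
  have ho : Odd (finrank F (Unit ⊕ (Fin m ⊕ Fin m) → F)) := ⟨m, by simp; omega⟩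
  have hfin : Finite (POmega F (quadFormOdd m F)) := by unfold POmega; infer_instance
  let M : Mdl (POmega F (quadFormOdd m F)) (oddF F m).GamS (oddF F m).E := omM hn h7
  have hsurj : Function.Surjective M.Φ := omM_surj hn h7 fun h => by simp at h; omega
  obtain ⟨a, rfl⟩ := hsurj x
  obtain ⟨h3, h4⟩ := M.pow_ρ_eq_one (orderOf_dvd_iff_pow_eq_one.1 (dvd_of_eq hord))
  have h5 : a.1.ρ ≠ 1 := fun e => by
    obtain ⟨g, hg⟩ := exists_lin e
    obtain ⟨g, rfl⟩ := glE.surjective g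
    have hg' : lin (glE g) ∈ (oddF F m).GamS := hg ▸ a.2
    exact hnot ⟨g, (mem_quadSim (f := oddF F m)).2 hg', (omM_lin hn h7 hg').2 (congrArg M.Φ (Subtype.ext hg))⟩
  have h6 : orderOf a.1.ρ = p := orderOf_eq_prime h4 h5
  obtain ⟨F₀, _, _, φ, hσ, -⟩ := exists_fixed_field a.1.ρ
  obtain ⟨d, k, f₀, l, e1, hE⟩ := hn.lang (ι := Unit ⊕ (Fin m ⊕ Fin m)) (FType.orth_hom φ) (by simp) a.2 hσ (h6 ▸ h3)
  have hcl : IsFieldAutClassPOmega (quadFormOdd m F) (M.Φ a) := by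
    obtain ⟨d, s, hs, e⟩ := hn.lang_odd h2 ho a.2 (fld_mem_oddF m a.1.ρ) rfl (h6 ▸ h3) ⟨1, by
      rw [← gk_refl, gk_pow, pow_orderOf_eq_one, gk_one, map_one]⟩
    obtain ⟨α, -, e'⟩ := M.isConj_of le_rfl (γ := a) (γ' := ⟨_, fld_mem_oddF m a.1.ρ⟩) hs e
    exact ⟨α, _, a.1.ρ, h5, (omM_fld hn h7 (fld_mem_oddF m _)).2 rfl, e'.symm⟩
  have hγ := hE.gk_mem hσ
  have e2 : M.Φ a = M.Φ ⟨_, hγ⟩ := (M.Φ_eq_iff.2 ⟨d, e1.symm⟩).symm
  have hn₀ := hE.nondeg hn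
  have hG := (orth_good2' hn₀ h7).toGood
  have h2₀ : (2 : F₀) ≠ 0 := fun h => h2 (by rw [← map_ofNat φ 2, h, map_zero])
  have h5₀ : 5 ≤ finrank F₀ (Unit ⊕ (Fin m ⊕ Fin m) → F₀) := by simp; omega
  have h5₁ : 5 ≤ finrank F (Unit ⊕ (Fin m ⊕ Fin m) → F) := by simp; omega
  have hp : f₀.E ≤ ⁅f₀.E, f₀.E⁆ := hn₀.orth_E_perfect h5₀ (hn₀.orth_wi_two h5₀)
  have h1 : ∀ g ∈ f₀.Sim, bk φ k g ∈ (oddF F m).Sim := fun g => (hE.bk_mem_Sim hn).2
  let θ : f₀.Sim →* MulAut _ := (Subgroup.subtype _).comp ((M.rs le_rfl).comp (bkR h1))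
  have hθ : θ.range = M.im ((oddF F m).Sim.map lin) ⊓ Subgroup.centralizer {M.Φ ⟨_, hγ⟩} := M.range_cent le_rfl h1 hσ (orderOf_pos _) hγ
    fun c g h => ⟨1, g, (hE.bk_mem_Sim hn).1 ((Subgroup.mul_mem_cancel_left _ (scal_mem_Sim c)).1 h), LinearEquiv.ext fun x => by simp⟩
  let ψ : f₀.E →* MulAut _ := θ.comp (Subgroup.inclusion (E_le_iso.trans iso_le_Sim))
  have hψ : ∀ e, ψ e ∈ Inn _ ∧ ψ e ∈ Subgroup.centralizer {M.Φ ⟨_, hγ⟩} := fun e => ⟨(M.inn _).2 ⟨bk φ k e, by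
    obtain ⟨e3, e4⟩ := (hn₀.orth_mem_E h5₀ (E_le_iso e.2)).1 e.2
    obtain ⟨s, e5, e6⟩ := hE.spn_bk hn h2 (n24_of_five h5₀) (E_le_iso e.2) e3
    exact (hn.orth_mem_E h5₁ (hE.bk_mem_iso hn (E_le_iso e.2))).2 ⟨(hE.dk_bk hn (n24_of_five h5₀) (E_le_iso e.2)).trans e3,
      e6.trans (sqc_eq_one.2 ((sqc_eq_one.1 (e5.symm.trans e4)).map φ))⟩, rfl⟩, (hθ.le ⟨_, rfl⟩).2⟩
  have hA : Inn _ ≤ A := by rintro _ ⟨k, rfl⟩; exact hinn k
  obtain ⟨v, -, hv, -⟩ := hn₀.exists_rfx_classes h2₀ (by omega)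
  have hv0 : v ≠ 0 := by rintro rfl; simp at hv
  have hd := hn₀.finrank_perp_singleton hv0
  have hn₁ := hn₀.res_perp_singleton (v := v) (by simp [orth_B_self, hv, h2₀])
  obtain ⟨⟨w, hw0⟩, -, hw, -⟩ := hn₁.exists_rfx_classes h2₀ (by omega)
  have hw' : f₀.Q w = 1 := hw
  have hwv := f₀.mem_perp_singleton.1 hw0
  let i : f₀.E := ⟨f₀.rfx v * f₀.rfx w, (hn₀.orth_mem_E h5₀ (mul_mem (rfx_mem_iso _) (rfx_mem_iso _))).2
    ⟨by rw [hn₀.dk_rfx_mul (rfx_mem_iso _) (by simp [hv]), hn₀.dk_rfx (by simp [hw']), neg_neg],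
      by simpa using (hn₀.spn_list (l := [v, w]) (by simp [hv, hw'])).2 (by simp [hv, hw'])⟩⟩
  have hc : f₀.rfx v * f₀.rfx w = f₀.rfx w * f₀.rfx v := by
    rw [← mul_inv_eq_iff_eq_mul, rfx_conj (rfx_mem_iso _), rfx_apply, hwv]; simp
  have hi : orderOf (ψ i) = 2 := orderOf_eq_prime (by
    rw [← map_pow, show i ^ 2 = 1 from Subtype.ext (by
      change (f₀.rfx v * f₀.rfx w) ^ 2 = 1
      rw [sq, mul_assoc, ← mul_assoc (f₀.rfx w), ← hc, mul_assoc, rfx_mul_self, mul_one, rfx_mul_self]), map_one]) fun e => by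
    obtain ⟨c, hc'⟩ := (M.rs_eq_one le_rfl).1 (Subtype.ext e)
    obtain ⟨c, hc'⟩ := isSc_of_bk φ k hc'
    have e3 : f₀.rfx v = scal _ c * f₀.rfx w := by rw [← hc']; change _ = f₀.rfx v * f₀.rfx w * f₀.rfx w; rw [mul_assoc, rfx_mul_self, mul_one]
    have e4 := congrArg LinearEquiv.det hc'
    have e5 : f₀.rfx v (f₀.rfx w w) = (c : F₀) • w := LinearEquiv.congr_fun hc' w
    rw [rfx_self (by simp [hw']), map_neg, rfx_apply, hwv] at e5
    have e6 : (c : F₀) = -1 := smul_left_injective F₀ (show w ≠ 0 by rintro rfl; simp at hw') (by simpa using e5.symm)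
    have e7 := (hn₀.det_eq_one_iff_dk h2₀ (E_le_iso i.2)).2 ((hn₀.orth_mem_E h5₀ (E_le_iso i.2)).1 i.2).1
    rw [det_scal, show c = -1 from Units.ext e6, Odd.neg_one_pow ⟨m, by simp; omega⟩] at e4
    exact neg_one_ne_one_units h2₀ (e4.symm.trans e7)
  rw [e2] at hord hcl hxA ⊢
  have hcen := cent hσ M hG hp hγ h1
  have hsc : ∀ c, θ ⟨_, scal_mem_Sim c⟩ = 1 := fun c => congrArg Subtype.val ((M.rs_eq_one le_rfl).2 ⟨_, bk_scal φ k c⟩)
  have hθ' : ∀ β ∈ Inn _, β ∈ Subgroup.centralizer {M.Φ ⟨_, hγ⟩} → ∃ u, ∃ hu : u ∈ f₀.iso, β = θ ⟨u, iso_le_Sim hu⟩ := fun β e1 e2 => by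
    obtain ⟨g, rfl⟩ := hθ.ge ⟨M.Inn_le le_rfl (E_le_iso.trans iso_le_Sim) e1, e2⟩
    obtain ⟨c, u, hu, e⟩ := exists_iso_of_sq hn₀ (fun _ => rfl) g.2 (hn₀.mu_sq_of_odd ⟨m, by simp; omega⟩ g.2)
    exact ⟨u, hu, by rw [show g = ⟨_, scal_mem_Sim c⟩ * ⟨u, iso_le_Sim hu⟩ from Subtype.ext e, map_mul, hsc, one_mul]⟩
  replace hcen : ∀ β ∈ Subgroup.centralizer {M.Φ ⟨_, hγ⟩}, (∀ e, Commute β (ψ e)) → β ∈ Subgroup.zpowers (M.Φ ⟨_, hγ⟩) := fun β e1 e2 => by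
    obtain ⟨b, rfl⟩ := hsurj β
    exact hcen b (Subgroup.mem_centralizer_singleton_iff.1 e1) fun e he => e2 ⟨e, he⟩
  generalize M.Φ ⟨_, hγ⟩ = γ at *
  have hi1 : ψ i ≠ 1 := fun e => by simp [e] at hi
  have hinj : Function.Injective (MulAut.conj (G := POmega F (quadFormOdd m F))) := (MonoidHom.ker_eq_bot_iff _).1
    ((hK.eq_bot_or_eq_top_of_normal _ inferInstance).resolve_right fun e => by
      obtain ⟨y, hy⟩ := (hψ i).1
      exact hi1 (hy.symm.trans (e.ge (Subgroup.mem_top y))))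
  have hP : (MonoidHom.eqLocus γ.toMonoidHom (MonoidHom.id _)).map MulAut.conj = Inn _ ⊓ Subgroup.centralizer {γ} := by
    ext β
    rw [Subgroup.mem_inf, Subgroup.mem_centralizer_singleton_iff]
    constructor
    · rintro ⟨y, hy, rfl⟩
      exact ⟨⟨y, rfl⟩, MulEquiv.ext fun z => by simp [show γ y = y from hy]⟩
    · rintro ⟨⟨y, rfl⟩, e⟩
      refine ⟨y, hinj (MulEquiv.ext fun z => ?_), rfl⟩
      obtain ⟨z, rfl⟩ := γ.surjective z
      exact ((map_mul γ _ _).trans (congrArg₂ _ (map_mul γ _ _) (map_inv γ _))).symm.trans (MulEquiv.congr_fun e z).symm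
  rw [← Subgroup.card_map_of_injective hinj]
  erw [hP]
  have hle : Inn _ ⊓ Subgroup.centralizer {γ} ≤ A ⊓ Subgroup.centralizer {γ} := inf_le_inf_right _ hA
  have hIn : (Inn (POmega F (quadFormOdd m F))).Normal := inferInstance
  refine ⟨fun hne => ⟨hcl, (Nat.Prime.coprime_iff_not_dvd Fact.out).2 fun hdv => hne ?_⟩, fun ⟨_, hco⟩ e => ?_⟩
  swap
  · have := H1.le_pPrimeCore (p := p) (N := (Inn _).subgroupOf (A ⊓ Subgroup.centralizer {γ})) inferInstance (by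
      rw [← Subgroup.inf_subgroupOf_right, show Inn _ ⊓ (A ⊓ Subgroup.centralizer {γ}) = Inn _ ⊓ Subgroup.centralizer {γ} from
        le_antisymm (inf_le_inf_left _ inf_le_right) (le_inf inf_le_left hle), Nat.card_congr (Subgroup.subgroupOfEquivOfLe hle).toEquiv]
      exact hco.symm)
    exact hi1 (congrArg Subtype.val (e.le (this (x := ⟨ψ i, hle (hψ i)⟩) (hψ i).1)))
  set C := A ⊓ Subgroup.centralizer {γ}
  have hNn : (pPrimeCore p C).Normal := inferInstance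
  have hN : ∀ β ∈ pPrimeCore p C, (orderOf β.1).Coprime p := fun β hβ => by
    rw [Subgroup.orderOf_coe]
    exact (H1.coprime_pPrimeCore p C).coprime_dvd_left (Subgroup.orderOf_dvd_natCard _ hβ)
  let χ : f₀.E →* C := ψ.codRestrict C fun e => hle (hψ e)
  have hB : ∀ β ∈ pPrimeCore p C, (∀ e, ⁅β, χ e⁆ = 1) → β = 1 := fun β hβ h => Subtype.ext (orderOf_eq_one_iff.1
    ((hN β hβ).eq_one_of_dvd (hord ▸ orderOf_dvd_of_mem_zpowers (hcen β β.2.2 fun e =>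
      congrArg Subtype.val (commutatorElement_eq_one_iff_commute.1 (h e)).eq))))
  have hZ : ∀ e ∈ Subgroup.center f₀.E, χ e = 1 := fun e he => by
    obtain ⟨c, hc⟩ := (hG.isSc_iff e).1 he
    have c0 : c ≠ 0 := fun e' => hv0 (e.1.injective (by simp [hc, e']))
    exact Subtype.ext (show θ ⟨e.1, iso_le_Sim (E_le_iso e.2)⟩ = 1 from
      (congrArg θ (Subtype.ext (LinearEquiv.ext hc))).trans (hsc (Units.mk0 c c0)))
  haveI := hn₀.orth_simple h5₀ (hn₀.orth_wi_two h5₀)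
  have hC : ∀ e, χ e ∈ pPrimeCore p C → χ e = 1 := by
    rcases (((hNn.comap χ).map (QuotientGroup.mk' (Subgroup.center f₀.E)) (QuotientGroup.mk'_surjective _))).eq_bot_or_eq_top with e | e
    · exact fun x hx => hZ x ((QuotientGroup.eq_one_iff _).1 (Subgroup.mem_bot.1 (e.le (Subgroup.mem_map_of_mem _ (Subgroup.mem_comap.2 hx)))))
    have hall : ∀ x, (orderOf (ψ x)).Coprime p := fun x => by
      obtain ⟨y, hy, e'⟩ := Subgroup.mem_map.1 (e.ge (Subgroup.mem_top (QuotientGroup.mk' (Subgroup.center f₀.E) x)))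
      have := hZ (y⁻¹ * x) (QuotientGroup.eq.1 e')
      rw [map_mul, map_inv, inv_mul_eq_one] at this
      have hy' : χ y ∈ pPrimeCore p C := hy
      rw [this] at hy'
      exact hN (χ x) hy'
    exfalso
    rcases (Fact.out : p.Prime).eq_two_or_odd' with rfl | hpo
    · simpa [hi] using hall i
    obtain ⟨⟨β, e1, e2⟩, hβ⟩ := exists_prime_orderOf_dvd_card' p hdv
    replace hβ : orderOf β = p := (Subgroup.orderOf_coe (⟨β, e1, e2⟩ : ↥(Inn _ ⊓ Subgroup.centralizer {γ}))).trans hβ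
    obtain ⟨u, hu, rfl⟩ := hθ' β e1 e2
    have : (orderOf (θ ⟨u, iso_le_Sim hu⟩ ^ 2)).Coprime p := by
      rw [← map_pow, sq]
      exact hall ⟨u * u, (hn₀.orth_mem_E h5₀ (mul_mem hu hu)).2 ⟨by rw [hn₀.dk_mul (n24_of_five h5₀) hu hu, Int.units_mul_self],
        by rw [hn₀.spn_mul h2₀ hu hu, Int.units_mul_self]⟩⟩
    rw [Nat.Coprime.orderOf_pow (by rw [hβ]; exact Nat.coprime_two_right.2 hpo), hβ] at this
    exact (Fact.out : p.Prime).one_lt.ne' (by simpa using this)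
  have hcm : ∀ β ∈ pPrimeCore p C, ∀ y, ⁅β, y⁆ ∈ pPrimeCore p C := fun β hβ y => by
    rw [commutatorElement_def, mul_assoc, mul_assoc, ← mul_assoc y]; exact mul_mem hβ (hNn.conj_mem _ (inv_mem hβ) y)
  have hD : ∀ β ∈ pPrimeCore p C, β.1 ∈ Inn _ → β = 1 := fun β hβ h => hB β hβ fun e => by
    obtain ⟨u, hu, e1⟩ := hθ' β h β.2.2
    have e2 : ⁅β, χ e⁆ = χ (⟨_, conj_mem_E hu e.2⟩ * e⁻¹) := Subtype.ext (by
      have h' := iso_le_Sim (E_le_iso e.2)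
      show β.1 * θ ⟨e.1, h'⟩ * β.1⁻¹ * (θ ⟨e.1, h'⟩)⁻¹ =
        θ (⟨u, iso_le_Sim hu⟩ * ⟨e.1, h'⟩ * (⟨u, iso_le_Sim hu⟩ : f₀.Sim)⁻¹ * (⟨e.1, h'⟩ : f₀.Sim)⁻¹)
      rw [e1]; simp only [map_mul, map_inv])
    rw [e2]; exact hC _ (e2 ▸ hcm β hβ _)
  exact eq_bot_iff.2 fun β hβ => hB β hβ fun e => hD _ (hcm β hβ _) (mul_mem (hIn.conj_mem _ (hψ e).1 β.1) (inv_mem (hψ e).1))

end Cfsg.Agent.S2731
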