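import Cfsg.Statements.S2896
import Mathlib
import Cfsg.Agent.H2.Loc

set_option autoImplicit false
open Cfsg

namespace Cfsg.Agent.S2896

open Cfsg.Agent.H2 Cfsg.Agent.H8 Subgroup

/-- Let p be a prime dividing the order of the finite group G, S a Sylow p-subgroup of G and X a subgroup of S. (i) If some nontrivial element z of the centre of X has F*(C_G(z)) = O_p(C_G(z)), then F*(N_G(X)) = O_p(N_G(X)). (ii) G has parabolic characteristic p if and only if F*(C_G(z)) = O_p(C_G(z)) for every nontrivial z ∈ Ω₁(Z(S)). (iii) If F*(C_G(z)) = O_p(C_G(z)) for every element z of S of order p, then G has local characteristic p. -/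
theorem result {G : Type*} [Group G] [Finite G] {p : ℕ} [Fact p.Prime] (hdiv : p ∣ Nat.card G) (S : Sylow p G) (X : Subgroup G) (hX : X ≤ (S : Subgroup G)) : (∀ z : G, z ≠ 1 → z ∈ X → (∀ x ∈ X, x * z = z * x) → Cfsg.generalizedFittingSubgroup ↥(Subgroup.centralizer ({z} : Set G)) = Cfsg.pCore p ↥(Subgroup.centralizer ({z} : Set G)) → Cfsg.generalizedFittingSubgroup ↥(Subgroup.normalizer (X : Set G)) = Cfsg.pCore p ↥(Subgroup.normalizer (X : Set G))) ∧ (Cfsg.IsOfParabolicCharacteristic p G ↔ ∀ z : G, z ≠ 1 → z ∈ Cfsg.omegaOne p ((S : Subgroup G) ⊓ Subgroup.centralizer ((S : Subgroup G) : Set G)) → Cfsg.generalizedFittingSubgroup ↥(Subgroup.centralizer ({z} : Set G)) = Cfsg.pCore p ↥(Subgroup.centralizer ({z} : Set G))) ∧ ((∀ z : G, z ∈ (S : Subgroup G) → orderOf z = p → Cfsg.generalizedFittingSubgroup ↥(Subgroup.centralizer ({z} : Set G)) = Cfsg.pCore p ↥(Subgroup.centralizer ({z} : Set G))) → Cfsg.IsOfLocalCharacteristic p G) := by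
  refine ⟨fun z _ hz hc h => cp_iff_fstar.2
    (cp_of_mem_center (S.isPGroup'.to_le hX) hz hc (cp_iff_fstar.1 h)), ?_, fun h => ⟨hdiv, ?_⟩⟩
  · rw [par_iff (sylIn_top S)]
    constructor
    · intro h z hz1 hz
      have h1 := mem_Zc.1 (omegaOne_le _ _ hz)
      exact cp_iff_fstar.2 (h z h1.1 (orderOf_eq_prime
        (pow_eq_one_of_mem_omegaOne_comm (isMulCommutative_Zc _) hz) hz1) h1.2)
    · intro h z hz hzo hc
      refine cp_iff_fstar.1 (h z ?_ (mem_omegaOne (mem_Zc.2 ⟨hz, hc⟩) (hzo ▸ pow_orderOf_eq_one z)))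
      rintro rfl
      exact (Fact.out : p.Prime).one_lt.ne (by simpa using hzo)
  · intro T hT h1
    exact cp_iff_char.2 (loc_of (sylIn_top S) (fun z hz hzo => cp_iff_fstar.1 (h z hz hzo)) hT h1)

end Cfsg.Agent.S2896
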