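import Cfsg.Statements.S2897
import Mathlib
import Cfsg.Agent.H2.Loc

set_option autoImplicit false
open Cfsg

namespace Cfsg.Agent.S2897

open Cfsg.Agent.H2 Cfsg.Agent.H8 Subgroup

/-- Let p be a prime dividing the order of the finite group G, suppose G has parabolic characteristic p, let S be a Sylow p-subgroup of G and G₁ a normal subgroup of G. If Ω₁(Z(S ∩ G₁)) is nontrivial and contained in Ω₁(Z(S)), then G₁ has parabolic characteristic p. -/
theorem result {G : Type*} [Group G] [Finite G] {p : ℕ} [Fact p.Prime] (hdiv : p ∣ Nat.card G) (hG : Cfsg.IsOfParabolicCharacteristic p G) (S : Sylow p G) (G₁ : Subgroup G) [G₁.Normal] (hne : Cfsg.omegaOne p (((S : Subgroup G) ⊓ G₁) ⊓ Subgroup.centralizer (((S : Subgroup G) ⊓ G₁ : Subgroup G) : Set G)) ≠ ⊥) (hle : Cfsg.omegaOne p (((S : Subgroup G) ⊓ G₁) ⊓ Subgroup.centralizer (((S : Subgroup G) ⊓ G₁ : Subgroup G) : Set G)) ≤ Cfsg.omegaOne p ((S : Subgroup G) ⊓ Subgroup.centralizer ((S : Subgroup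 G) : Set G))) : Cfsg.IsOfParabolicCharacteristic p ↥G₁ := by
  refine par_of_sn (sylIn_top S) (SN.of_normal G₁) fun z hz hzo hc => ?_
  have h1 := mem_Zc.1 (omegaOne_le _ _
    (hle (mem_omegaOne (mem_Zc.2 ⟨hz, hc⟩) (hzo ▸ pow_orderOf_eq_one z))))
  exact (par_iff (sylIn_top S)).1 hG z h1.1 hzo h1.2

end Cfsg.Agent.S2897
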