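import Cfsg.Statements.S2898
import Cfsg.Agent.H8.Spe

set_option autoImplicit false
open Cfsg

namespace Cfsg.Agent.S2898

open Subgroup Cfsg.Agent.H1 Cfsg.Agent.BG Cfsg.Agent.SF
open Cfsg.Agent.H2 hiding card_lt_of_lt card_lt_of_ne_top isMulCommutative_of_le isPGroup_zpowers_iff mem_of_pow_mem_of_coprime
open Cfsg.Agent.H8 (Op Opp Fit Fs Lay PLay SN Comp PComp Op_le Opp_le Opp_coprime Op_isPGroup le_normalizer_Op le_normalizer_Opp
  le_normalizer_Opp_of le_normalizer_Op_of le_Op le_Opp inf_Opp_le le_of_centralizers)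


/-- Let G be a finite group of even order with parabolic characteristic 2. If the centre of G ⧸ O(G) is trivial, then O(G) = 1. -/
theorem result {G : Type*} [Group G] [Finite G] (h2 : 2 ∣ Nat.card G) (hG : Cfsg.IsOfParabolicCharacteristic 2 G) [hN : (Cfsg.oddCore G).Normal] (hZ : Subgroup.center (G ⧸ Cfsg.oddCore G) = ⊥) : Cfsg.oddCore G = ⊥ := by
  obtain ⟨S⟩ : Nonempty (Sylow 2 G) := inferInstance
  have hO : (♯(oddCore G)).Coprime 2 := by
    have := Opp_coprime 2 (⊤ : Subgroup G)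
    rwa [H8.Opp_top] at this
  have key : ∀ z, orderOf z = 2 → (S : Subgroup G) ≤ 𝒞₁ z → oddCore G ⊓ 𝒞₁ z = ⊥ := fun z hz h => by
    have h1 := H8.Fs_eq_Op_iff.2 ((H8.char_iff_map _).1 (hG _ (H8.isPGroup_zpowers_of_eq hz)
      (H8.zpowers_ne_bot_of_orderOf_eq hz) ⟨S, h.trans (BL.cent_zpowers z ▸ cent_le_norm _)⟩))
    refine le_bot_iff.1 (le_trans ?_ (H8.Fs_eq_Op_iff'.1 h1).2.le)
    refine le_trans (inf_le_inf_left _ (BL.cent_zpowers z ▸ cent_le_norm _)) (le_Opp inf_le_right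
      (H8.le_normalizer_inf (le_top.trans (H8.normal_iff_top_le.1 hN)) le_normalizer)
      (coprime_of_le_left hO inf_le_left))
  have hn : ⊤ ≤ 𝒩 (𝒞 (oddCore G)) := H8.le_normalizer_centralizer (H8.normal_iff_top_le.1 hN)
  by_cases h : 2 ∣ ♯(𝒞 (oddCore G))
  · have h1 := (sylIn_top S).inf_normal' hn le_top
    obtain ⟨z, hz, h3⟩ := H8.exists_orderOf_eq_of_ne_bot (isPGroup_of_le h1.pgrp inf_le_left)
      (inf_centralizer_ne_bot_of_isPGroup h1.pgrp S.isPGroup'
        (H8.le_normalizer_inf le_normalizer (le_top.trans hn)) (h1.ne_bot h))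
    rw [← key z h3 (le_cent1_iff.2 hz.2), inf_of_le_left (le_cent1_iff.2 hz.1.2)]
  · exfalso
    obtain ⟨z, hz, h3, h4⟩ := exists_zc_ord S.isPGroup' ((sylIn_top S).ne_bot (by rwa [card_top]))
    have h5 : 𝒞 (oddCore G) ≤ oddCore G := by
      conv_rhs => rw [oddCore, ← H8.Opp_top]
      exact le_Opp le_top hn (H8.coprime_iff_not_dvd.2 h)
    have h6 := (comm_le_cent_of_fpf (X := ⊤) (by rw [← sq, ← h3, pow_orderOf_eq_one])
      (H8.normal_iff_top_le.1 hN) (H8.normal_iff_top_le.1 hN (mem_top z)) (key z h3 h4)).trans h5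
    have h7 : (z : G ⧸ oddCore G) ∈ center (G ⧸ oddCore G) := mem_center_iff.2 fun g => by
      obtain ⟨g, rfl⟩ := QuotientGroup.mk_surjective g
      rw [← QuotientGroup.mk_mul, ← QuotientGroup.mk_mul, eq_comm, QuotientGroup.eq]
      have := h6 (commutator_mem_commutator (mem_top g⁻¹) (inv_mem (mem_zpowers z)))
      convert this using 1
      rw [commutatorElement_def]; group
    rw [hZ, mem_bot, QuotientGroup.eq_one_iff] at h7
    have := H8.orderOf_coprime_of_mem hO h7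
    rw [h3] at this
    simp at this

end Cfsg.Agent.S2898
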