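import Cfsg.Statements.S2905
import Mathlib
import Cfsg.Agent.H2.Loc2

set_option autoImplicit false
open Cfsg

namespace Cfsg.Agent.S2905

open Cfsg.Agent.H2 Cfsg.Agent.H8 Subgroup

/-- Let P be a finite p-minimal group (a Sylow p-subgroup S is not normal and lies in a unique maximal subgroup M of P) and let F be the normal core of M. Then: every subnormal subgroup N of P contained in M satisfies N ∩ S ≤ O_p(P); if O^p(P) has a normal Sylow p-subgroup then the order of P has at most two prime divisors; every normal subgroup N of P either contains O^p(P) or is contained in F; and O^p(P)F ⧸ F is a minimal normal subgroup of P ⧸ F. -/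
theorem result {P : Type*} [Group P] [Finite P] {p : ℕ} [Fact p.Prime] (hP : Cfsg.IsPMinimal p P) (S : Sylow p P) (M : Subgroup P) (hM : IsCoatom M) (hSM : (S : Subgroup P) ≤ M) [hF : M.normalCore.Normal] : (∀ N : Subgroup P, N.IsSubnormal → N ≤ M → N ⊓ (S : Subgroup P) ≤ Cfsg.pCore p P) ∧ ((∀ T : Sylow p ↥(Cfsg.pResidual p P), (T : Subgroup ↥(Cfsg.pResidual p P)).Normal) → (Nat.card P).primeFactors.card ≤ 2) ∧ (∀ N : Subgroup P, N.Normal → Cfsg.pResidual p P ≤ N ∨ N ≤ M.normalCore) ∧ (∀ N : Subgroup P, N.Normal → M.normalCore ≤ N → N ≤ Cfsg.pResidual p P ⊔ M.normalCore → N = M.normalCore ∨ N = Cfsg.pResidual p P ⊔ M.normalCore) ∧ M.normalCore < Cfsg.pResidual p P ⊔ M.normalCore := by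
  obtain ⟨M', h⟩ := (pminimal_top_iff (sylIn_top S)).1 hP
  obtain rfl := (h.toUMax.eq_of_coatom hM hSM).symm
  have hS := sylIn_top S
  have h3 : ∀ N : Subgroup P, N.Normal → pResidual p P ≤ N ∨ N ≤ M'.normalCore := by
    intro N hN
    by_cases hNM : N ≤ M'
    · exact Or.inr (normal_le_normalCore.2 hNM)
    · exact Or.inl (resOf_top p (G := P) ▸ h.resOf_le hS.pgrp le_top (normal_iff_top_le.1 hN) hNM)
  have h5 := h.not_resOf_le hS.pgrp
  refine ⟨fun N hN hNM => ?_, fun hT => ?_, h3, fun N hN h1 h2 => ?_, ?_⟩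
  · obtain ⟨L, hNL, hL, hLm⟩ := (Set.toFinite {L : Subgroup P | SN ⊤ L ∧ L ≤ M'}).exists_le_maximal
      (a := N) ⟨SN.of_isSubnormal hN, hNM⟩
    have h1 : (S : Subgroup P) ≤ normalizer (L : Set P) := by
      have := hLm ⟨hL.1.ncl (B := S) le_top, ncl_le hL.2 (hSM.trans le_normalizer)⟩ (le_ncl _ _)
      exact le_normalizer_iff_cj.2 fun a ha => (cj_le_ncl L ha).trans this
    obtain ⟨B, hB1, hB2, hB3⟩ := hL.1.exists_lt_norm (fun e => hM.1 (top_le_iff.1 (e ▸ hL.2)))
    have h2 : normalizer (L : Set P) = ⊤ := h.toUMax.eq_of_not_le h1 le_top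
      (fun hle => hB1.not_ge (hLm ⟨hB2, hB3.trans hle⟩ hB1.le))
    have h4 := h.pcl_of_le hS.pgrp hL.2 h2.ge _ (inf_le_left.trans hNL) (hS.pgrp.to_le
      (inf_le_right : N ⊓ (S : Subgroup P) ≤ S))
    exact h4.trans ((Op_le_Op_of_sn p hL.1).trans (Op_top p).le)
  · have hR := hS.inf_resOf
    obtain ⟨T, hT'⟩ := (resOf_top p (G := P) ▸ hR : SylIn p (S ⊓ resOf p ⊤) (pResidual p P)).exists_sylow'
    have h1 : resOf p (⊤ : Subgroup P) ≤ normalizer (((S : Subgroup P) ⊓ resOf p ⊤ : Subgroup P) : Set P) := by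
      haveI := hT T
      have := le_normalizer_map_subtype_of_normal (T : Subgroup (pResidual p P))
      rwa [hT', ← resOf_top] at this
    haveI : ((S : Subgroup P) ⊓ resOf p ⊤).Normal := normal_of_top_le (hS.resOf_sup.ge.trans
      (sup_le h1 (le_normalizer_inf le_normalizer (le_top.trans (le_normalizer_resOf p ⊤)))))
    set f := QuotientGroup.mk' ((S : Subgroup P) ⊓ resOf p ⊤)
    have hk : f.ker = (S : Subgroup P) ⊓ resOf p ⊤ := QuotientGroup.ker_mk' _
    have h2 : (Nat.card ((resOf p (⊤ : Subgroup P)).map f)).Coprime p := by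
      have := hR.map f
      rw [(Subgroup.map_eq_bot_iff _).2 hk.ge] at this
      exact coprime_iff_not_dvd.2 (this.eq_bot_iff.1 rfl)
    by_contra hc
    refine h5 (((Subgroup.map_le_map_iff).1 (le_of_inv_sylIn_le (W := M'.map f) (hS.pgrp.map f)
      (le_normalizer_map' f (le_top.trans (le_normalizer_resOf p ⊤))) h2
      fun q hq Q hQ hn => ?_)).trans (sup_le le_rfl (hk.le.trans (inf_le_left.trans hSM))))
    by_contra hQM
    haveI := Fact.mk hq
    have h6 : (S.map f ⊔ Q).comap f = ⊤ := h.toUMax.eq_of_not_le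
      (le_trans (le_comap_map _ _) (comap_mono le_sup_left)) le_top (fun hle => hQM (by
        have := Subgroup.map_mono (f := f) hle
        rw [map_comap_eq_self_of_surjective (QuotientGroup.mk'_surjective _)] at this
        exact le_sup_right.trans this))
    refine hc ((Finset.card_le_card (t := {p, q}) fun r hr => ?_).trans Finset.card_le_two)
    by_contra hr'
    simp only [Finset.mem_insert, Finset.mem_singleton, not_or] at hr'
    have hr1 := Nat.prime_of_mem_primeFactors hr
    have hrp := (Nat.coprime_primes hr1 Fact.out).2 hr'.1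
    have := coprime_of_map (H := (S.map f ⊔ Q).comap f) (n := r) f
      (coprime_of_le (map_comap_le _ _) (coprime_sup hn (coprime_of_isPGroup (hS.pgrp.map f) hrp)
        (coprime_of_isPGroup hQ.pgrp ((Nat.coprime_primes hr1 hq).2 hr'.2))))
      (coprime_of_isPGroup (hS.pgrp.to_le (inf_le_left.trans (hk.le.trans inf_le_left))) hrp)
    rw [h6, card_top] at this
    exact (hr1.coprime_iff_not_dvd).1 this.symm (Nat.dvd_of_mem_primeFactors hr)
  · rcases h3 N hN with h4 | h4
    · exact Or.inr (le_antisymm h2 (sup_le h4 h1))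
    · exact Or.inl (le_antisymm h4 h1)
  · refine lt_of_le_of_ne le_sup_right fun e => h5 ?_
    rw [resOf_top]
    exact (le_sup_left.trans e.ge).trans (normalCore_le _)

end Cfsg.Agent.S2905
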