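import Cfsg.Statements.S2906
import Mathlib
import Cfsg.Agent.H2.Loc2

set_option autoImplicit false
open Cfsg

namespace Cfsg.Agent.S2906

open Cfsg.Agent.H2 Cfsg.Agent.H8 Subgroup

/-- Let P be a finite p-minimal group with O_p(P) = 1, S a Sylow p-subgroup of P and K a component of P. Then O^p(P) = F*(P) = E(P) is generated by the S-conjugates of K, and the subgroup K·N_S(K) is again p-minimal. -/
theorem result {P : Type*} [Group P] [Finite P] {p : ℕ} [Fact p.Prime] (hP : Cfsg.IsPMinimal p P) (hOp : Cfsg.pCore p P = ⊥) (S : Sylow p P) (K : Subgroup P) (hK : Cfsg.IsComponent K) : Cfsg.pResidual p P = Cfsg.generalizedFittingSubgroup P ∧ Cfsg.generalizedFittingSubgroup P = Cfsg.layer P ∧ Cfsg.layer P = ⨆ s : ↥(S : Subgroup P), K.map (MulAut.conj (s : P)).toMonoidHom ∧ Cfsg.IsPMinimal p ↥(K ⊔ ((S : Subgroup P) ⊓ Subgroup.normalizer (K : Set P))) := by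
  obtain ⟨M, h⟩ := (pminimal_top_iff (sylIn_top S)).1 hP
  have hS := sylIn_top S
  have hK' := comp_top_iff.2 hK
  have hO : Op p (⊤ : Subgroup P) = ⊥ := by rw [Op_top, hOp]
  have hns : ∀ X : Subgroup P, Group.IsNilpotent X → ¬ K ≤ X := fun X hX =>
    qs_not_le_solvable hK.2 (solvable_of_nilpotent hX)
  have hE : ⊤ ≤ normalizer (Lay (⊤ : Subgroup P) : Set P) := le_normalizer_Lay ⊤
  have hcop : ∀ N : Subgroup P, ⊤ ≤ normalizer (N : Set P) → K ≤ N → ¬ (Nat.card N).Coprime p := by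
    intro N hN hKN hc
    by_cases hNM : N ≤ M
    · refine hns _ (Fit_nilpotent ⊤) (hKN.trans (le_of_inv_sylIn_le hS.pgrp (le_top.trans hN) hc
        fun q hq Q hQ hn => ?_))
      haveI := Fact.mk hq
      refine le_Fit le_top ?_ hQ.pgrp.isNilpotent
      by_contra hne
      have h1 : normalizer (Q : Set P) ≤ M := h.toUMax.le_of_ne hn le_top (fun e => hne e.ge)
      exact h.toUMax.not_le ((hQ.frattini_sup le_top hN).ge.trans (sup_le hNM (inf_le_right.trans h1)))
    · refine hNM (le_of_inv_sylIn_le hS.pgrp (le_top.trans hN) hc fun q hq Q hQ hn => ?_)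
      haveI := Fact.mk hq
      by_contra hQM
      have h1 : Q ⊔ S = ⊤ := h.toUMax.eq_of_not_le le_sup_right le_top fun e => hQM (le_sup_left.trans e)
      refine hns Q hQ.pgrp.isNilpotent (le_trans ?_ (resOf_le_of_sup (h1.ge.trans
        (sup_le le_normalizer hn)) hS.pgrp le_top h1.ge))
      exact (resOf_eq_of_perfect hK'.perfect).ge.trans (resOf_mono le_top)
  have hres : ∀ N : Subgroup P, ⊤ ≤ normalizer (N : Set P) → K ≤ N → resOf p ⊤ ≤ N := by
    intro N hN hKN
    refine h.resOf_le hS.pgrp le_top hN fun hNM => hcop N hN hKN ?_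
    have h1 := hS.inf_normal' hN le_top
    have h2 := (h.pcl_of_le hS.pgrp hNM hN _ h1.le h1.pgrp).trans
      (Op_le_Op_of_sn p (SN.of_norm le_top hN))
    exact coprime_iff_not_dvd.2 (h1.eq_bot_iff.1 (le_bot_iff.1 (hO ▸ h2)))
  have h1 : resOf p (⊤ : Subgroup P) = Lay ⊤ := le_antisymm (hres _ hE hK'.le_Lay)
    ((resOf_eq_of_perfect (Lay_perfect ⊤)).ge.trans (resOf_mono le_top))
  have h2 : Fs (⊤ : Subgroup P) = Lay ⊤ := by
    rw [Fs_eq, sup_eq_left, ← h1]
    exact (resOf_eq_of_coprime (Fit_coprime hO)).ge.trans (resOf_mono le_top)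
  have hLS : Lay (⊤ : Subgroup P) ⊔ S = ⊤ := h1 ▸ hS.resOf_sup
  have h3 : Lay (⊤ : Subgroup P) = ncl K S := by
    refine le_antisymm (h1.ge.trans (hres _ (hLS.ge.trans (sup_le ?_ (le_normalizer_ncl _ _)))
      (le_ncl _ _))) (ncl_le hK'.le_Lay (le_top.trans hE))
    exact le_normalizer_iSup fun s =>
      Lay_le_normalizer (hK'.cj_of_mem (le_normalizer_top ⊤ (mem_top s.1)))
  refine ⟨by rw [← resOf_top, h1, ← Fs_top, h2], by rw [← Fs_top, h2, Lay_top], ?_, ?_⟩
  · rw [← Lay_top, h3]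
    exact le_antisymm (ncl_le_iff.2 fun s hs => le_iSup (fun s : S => H8.cj K s) ⟨s, hs⟩)
      (iSup_le fun s => cj_le_ncl K s.2)
  set S₁ := (S : Subgroup P) ⊓ normalizer (K : Set P)
  have hn : S₁ ≤ normalizer (K : Set P) := inf_le_right
  have hSK := hK'.sn.sylIn_inf hS
  have h4 : SylIn p S₁ (K ⊔ S₁) := by
    refine sylIn_of_not_dvd le_sup_right (hS.pgrp.to_le inf_le_left) ?_
    rw [sup_comm, relIndex_sup_of_norm' hn]
    exact hSK.not_dvd_relIndex_of_le (inf_le_inf_left _ le_normalizer)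
  have hKM : ¬ K ≤ M := fun e => h.not_resOf_le hS.pgrp (by
    rw [h1, h3]; exact ncl_le e (h.le.trans le_normalizer))
  refine (pminimal_iff h4).2 ⟨M ⊓ (K ⊔ S₁), minOv_of_umax_sylIn ⟨le_inf (inf_le_left.trans h.le)
    le_sup_right, inf_lt_right.2 fun e => hKM (le_sup_left.trans e), fun Y hY hYX => ?_⟩ h4 fun e => ?_⟩
  · refine le_inf ?_ hYX.le
    have e1 : S₁ ⊔ (K ⊓ Y) = Y := by
      rw [← sup_inf_of_norm hn hY, sup_comm]; exact inf_eq_right.2 hYX.le
    rw [← e1]
    refine sup_le (inf_le_left.trans h.le) (((le_ncl _ S).trans le_sup_left).trans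
      (h.toUMax.le_of_ne le_sup_right le_top fun e2 => hYX.not_ge (sup_le ?_ hY)))
    have e3 : K ≤ (K ⊓ Y) ⊔ centralizer (K : Set P) := by
      refine hK'.le_Lay.trans (h1.ge.trans ((resOf_le_of_sup (e2.ge.trans (sup_le le_normalizer
        (le_normalizer_ncl _ _))) hS.pgrp le_top e2.ge).trans (ncl_le_iff.2 fun s hs => ?_)))
      by_cases hs' : s ∈ normalizer (K : Set P)
      · exact (H8.cj_eq_of_mem_normalizer (le_normalizer_inf hn (hY.trans le_normalizer)
          ⟨hs, hs'⟩)).le.trans le_sup_left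
      · refine (H8.cj_mono inf_le_left s).trans (le_trans ?_ le_sup_right)
        exact commutator_eq_bot_iff_le_centralizer.1 ((hK'.cj_of_mem
          (le_normalizer_top ⊤ (mem_top s))).comm_of_ne hK' fun e => hs' (H8.mem_normalizer_iff_cj.2 e))
    refine le_trans ?_ (inf_le_right : K ⊓ Y ≤ Y)
    refine (eq_of_sup_Phi inf_le_left (le_Phi_of_center_commutator (N := centralizer (K : Set P) ⊓ K)
      inf_le_left (inf_le_right.trans hK'.perfect.ge)) ?_).ge
    rw [← sup_inf_of_norm (le_normalizer_centralizer (inf_le_left.trans le_normalizer)) inf_le_left]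
    exact le_inf e3 le_rfl
  · have e1 : (S : Subgroup P) ⊓ K ≤ Op p ⊤ := by
      refine le_Op_of_sn (hK'.sn.trans (SN.of_norm inf_le_right ?_)) hSK.pgrp
      have : (S : Subgroup P) ⊓ K = S₁ ⊓ K := by
        rw [inf_assoc, inf_eq_right.2 le_normalizer]
      rw [this]
      exact le_normalizer_inf (le_sup_left.trans e) le_normalizer
    have e2 := coprime_iff_not_dvd.2 (hSK.eq_bot_iff.1 (le_bot_iff.1 (hO ▸ e1)))
    refine hcop _ hE hK'.le_Lay (coprime_of_le h3.le (coprime_of_le (le_Opp_of_sn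
      (hK'.sn.ncl le_top) ?_) (Opp_coprime p ⊤)))
    exact coprime_of_le (ncl_le (le_Opp_of_sn hK'.sn e2) (le_top.trans (le_normalizer_Opp p ⊤)))
      (Opp_coprime p ⊤)

end Cfsg.Agent.S2906
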