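import Cfsg.Statements.S2907
import Mathlib
import Cfsg.Agent.H2.Loc2
import Cfsg.Agent.H2.BG4a

set_option autoImplicit false
open Cfsg

namespace Cfsg.Agent.S2907

open Cfsg.Agent.H2 Cfsg.Agent.H8 Subgroup
open scoped commutatorElement

/-- Let X be a finite semi-extraspecial p-group and x an element of X outside the centre. Then the index of C_X(x) in X equals the order of Z(X), and the commutators [x, y], y ∈ X, form exactly the centre Z(X). -/
theorem result {X : Type*} [Group X] [Finite X] {p : ℕ} [Fact p.Prime] (hX : Cfsg.IsSemiExtraspecial p X) (x : X) (hx : x ∉ Subgroup.center X) : (Subgroup.centralizer ({x} : Set X)).index = Nat.card ↥(Subgroup.center X) ∧ {z : X | ∃ y : X, z = x * y * x⁻¹ * y⁻¹} = (Subgroup.center X : Set X) := by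
  obtain ⟨⟨hp, -, hd⟩, hq⟩ := hX
  have hc : ∀ y, ⁅x, y⁆ ∈ center X := fun y => hd ▸ commutator_mem_commutator (mem_top x) (mem_top y)
  let φ : X →* X := MonoidHom.mk' (fun y => ⁅x, y⁆) fun a b =>
    commElt_mul_right' (mem_center_iff.1 (hc b) a)
  have hk : φ.ker = centralizer {x} := by
    ext y
    rw [MonoidHom.mem_ker, mem_centralizer_singleton_iff]
    exact commutatorElement_eq_one_iff_mul_comm.trans eq_comm
  have hr : φ.range = center X := by
    have h1 : φ.range ≤ center X := by rintro _ ⟨y, rfl⟩; exact hc y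
    by_contra hne
    obtain ⟨Y, h2, h3, -, h4⟩ := exists_max_of_lt (hp.to_subgroup _) (lt_of_le_of_ne h1 hne)
    obtain ⟨hY, hE⟩ := hq Y h3 (H1.isCoatom_of_index_prime (by
      change (Y.relIndex _).Prime
      rw [h4]; exact Fact.out))
    have h5 : (center X).map (QuotientGroup.mk' Y) = center (X ⧸ Y) := by
      rw [← hd, ← hE.1.2.2, _root_.commutator_def, Subgroup.map_commutator,
        Subgroup.map_top_of_surjective _ (QuotientGroup.mk'_surjective _), _root_.commutator_def]
    have h6 : QuotientGroup.mk' Y x ∈ center (X ⧸ Y) := by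
      rw [mem_center_iff]
      intro g
      obtain ⟨g, rfl⟩ := QuotientGroup.mk'_surjective Y g
      rw [eq_comm, ← commutatorElement_eq_one_iff_mul_comm, ← map_commutatorElement]
      exact (QuotientGroup.eq_one_iff _).2 (h2 ⟨g, rfl⟩)
    rw [← h5, ← mem_comap, comap_map_eq, QuotientGroup.ker_mk', sup_eq_left.2 h3] at h6
    exact hx h6
  refine ⟨by rw [← hk, index_ker, hr], ?_⟩
  rw [← hr]
  ext z
  exact ⟨fun ⟨y, hy⟩ => ⟨y, hy.symm⟩, fun ⟨y, hy⟩ => ⟨y, hy.symm⟩⟩

end Cfsg.Agent.S2907
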