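import Cfsg.Statements.S2909
import Mathlib
import Cfsg.Agent.H2.Loc2

set_option autoImplicit false
open Cfsg

namespace Cfsg.Agent.S2909

open Cfsg.Agent.H2 Cfsg.Agent.H8 Subgroup
open scoped commutatorElement

/-- Let p be a prime, E a normal p-subgroup of the finite group G, and U a non-cyclic elementary abelian p-subgroup of G such that either C_E(U) = C_E(u) for every nontrivial u ∈ U, or [E, U] = [E, ⟨u⟩] for every nontrivial u ∈ U. If R is a subgroup of order prime to p normalized by U, then [R, U] centralizes E. -/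
theorem result {G : Type*} [Group G] [Finite G] {p : ℕ} [Fact p.Prime] (E : Subgroup G) [E.Normal] (hE : IsPGroup p ↥E) (U : Subgroup G) (hU : Cfsg.IsElementaryAbelian p U) (hnc : ¬ IsCyclic ↥U) (hcond : (∀ u ∈ U, u ≠ 1 → E ⊓ Subgroup.centralizer (U : Set G) = E ⊓ Subgroup.centralizer ({u} : Set G)) ∨ (∀ u ∈ U, u ≠ 1 → ⁅E, U⁆ = ⁅E, Subgroup.zpowers u⁆)) (R : Subgroup G) (hR : ¬ p ∣ Nat.card ↥R) (hRU : U ≤ Subgroup.normalizer (R : Set G)) : ⁅R, U⁆ ≤ Subgroup.centralizer (E : Set G) := by
  have hR' := coprime_iff_not_dvd.2 hR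
  haveI := hU.1
  obtain ⟨U0, hU0, -, hc⟩ := L.exists_elementary_sq_le (elem_isPGroup hU) hnc
  have hn : ∀ X : Subgroup G, X ≤ normalizer (E : Set G) := fun X => le_normalizer_of_normal
  have hn' : ∀ X : Subgroup G, X ≤ normalizer ((centralizer (E : Set G) : Subgroup G) : Set G) :=
    fun X => le_normalizer_centralizer (hn X)
  have h1 : R ≤ ⨆ u : {u // u ∈ U ∧ u ≠ 1}, R ⊓ centralizer {(u : G)} :=
    le_of_centralizers hU (hc ▸ card_le_of_le hU0) hRU hR'
      (fun a ha h1 => le_iSup (fun u : {u // u ∈ U ∧ u ≠ 1} => R ⊓ centralizer {(u : G)}) ⟨a, ha, h1⟩)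
  refine (commutator_mono h1 le_rfl).trans (commutator_iSup_le_of_norm ?_ fun _ => hn' _)
  rintro ⟨u, hu, hu1⟩
  set C := R ⊓ centralizer ({u} : Set G)
  have hUu : U ≤ centralizer {u} := elem_le_centralizer hU hu
  have hUC : U ≤ normalizer (C : Set G) := le_normalizer_inf hRU (hUu.trans le_normalizer)
  have hB : ⁅C, U⁆ ≤ C := commutator_le_left_of_norm hUC
  have hBc : (Nat.card ↥⁅C, U⁆).Coprime p := coprime_of_le (hB.trans inf_le_left) hR'
  have hup : IsPGroup p (zpowers u) := (elem_isPGroup hU).to_le (zpowers_le.2 hu)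
  have huB : ⁅zpowers u, ⁅C, U⁆⁆ = ⊥ :=
    commutator_eq_bot_symm (commutator_zpowers_eq_bot_iff.2 (hB.trans inf_le_right))
  rw [← commutator_eq_bot_iff_le_centralizer]
  refine commutator_eq_bot_symm ?_
  rcases hcond with h | h
  · refine axb hup hBc hE huB (hn _) (hn _) ?_
    rw [centralizer_zpowers, commutator_comm, commutator_eq_bot_iff_le_centralizer]
    have h2 : C ≤ normalizer ((E ⊓ centralizer {u} : Subgroup G) : Set G) :=
      le_normalizer_inf (hn _) (inf_le_right.trans le_normalizer)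
    refine (commutator_le_right_of_norm (le_normalizer_centralizer h2)).trans'
      (commutator_mono le_rfl ?_)
    rw [← h u hu hu1, le_centralizer_iff]; exact inf_le_right
  · refine comm_eq_bot_of_le hE hup (resOf_eq_of_coprime hBc) (hn _) (hn _) huB ?_
    have h2 : ∀ X : Subgroup G, X ≤ centralizer {u} →
        X ≤ normalizer ((⁅E, zpowers u⁆ : Subgroup G) : Set G) := fun X hX =>
      le_normalizer_commutator (hn _) (hX.trans (centralizer_le_normalizer_zpowers u))
    rw [commutator_comm]
    refine three_subgroups (h2 _ inf_le_right) (h2 _ hUu)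
      (Subgroup.normalizer_commutator_ge_left _ _) ?_ ?_
    · rw [commutator_comm U, h u hu hu1]
      exact commutator_le_left_of_norm (h2 _ inf_le_right)
    · rw [← h u hu hu1]
      exact commutator_mono (commutator_le_left_of_norm (hn _)) le_rfl

end Cfsg.Agent.S2909
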