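import Cfsg.Statements.S2910
import Mathlib
import Cfsg.Agent.H2.Loc2

set_option autoImplicit false
open Cfsg

namespace Cfsg.Agent.S2910

open Cfsg.Agent.H2 Cfsg.Agent.H8 Subgroup

/-- Let p be an odd prime dividing the order of the finite group G and P a Sylow p-subgroup of G. If Ω₁(P) (generated by the elements of order dividing p) is contained in the centre of G, then G has a normal p-complement. In particular, if G is quasisimple then Ω₁(P) is not central in G. -/
theorem result {G : Type*} [Group G] [Finite G] {p : ℕ} [Fact p.Prime] (hp : p ≠ 2) (hdiv : p ∣ Nat.card G) (P : Sylow p G) (hZ : Cfsg.omegaOne p (P : Subgroup G) ≤ Subgroup.center G) : Cfsg.HasNormalPComplement p G ∧ ¬ Cfsg.IsQuasisimple G := by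
  have h1 : PNil p (⊤ : Subgroup G) := by
    refine pNil_of_small_central fun x _ hx _ g _ _ _ => ?_
    obtain ⟨k, hk⟩ := orderOf_pow_of_mem (elem_isPGroup (isElementaryAbelian_zpowers (hx hp)))
      (mem_zpowers x)
    obtain ⟨y, hy⟩ := exists_conj_mem_sylow P hk
    have h2 := hZ (mem_omegaOne hy (by rw [conj_pow, hx hp]; simp))
    have h3 := (inferInstance : (center G).Normal).conj_mem _ h2 y⁻¹
    simp only [inv_inv, mul_assoc, inv_mul_cancel_left, inv_mul_cancel, mul_one] at h3
    exact mem_center_iff.1 h3 g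
  refine ⟨hasNPC_iff_top.2 h1, fun h => ?_⟩
  have h2 := pNil_iff_card.1 h1
  rw [resOf_eq_of_perfect (isQuasisimple_iff.1 h).1, card_top] at h2
  exact coprime_iff_not_dvd.1 h2 hdiv

end Cfsg.Agent.S2910
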