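import Cfsg.Statements.S2924
import Cfsg.Agent.H8.SFApp

set_option autoImplicit false
open Cfsg

namespace Cfsg.Agent.S2924

open Cfsg.Agent.H8

open Subgroup Cfsg.Agent.SF Cfsg.Agent.BG Cfsg.Agent.H2

/-- Let X be a finite group and Y an elementary abelian 2-subgroup of X of order at least 8 such that C_X(x) has no components (E(C_X(x)) = 1) for every nontrivial x ∈ Y, and F*(C_X(z)) = O₂(C_X(z)) for some nontrivial z ∈ Y. Then the subgroup generated by the cores O(C_X(y)), y ∈ Y nontrivial, has odd order and is normalized by N_X(Y). -/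
theorem result {X : Type*} [Group X] [Finite X] (Y : Subgroup X) (hY : Cfsg.IsElementaryAbelian 2 Y) (h8 : 8 ≤ Nat.card ↥Y) (hE : ∀ x ∈ Y, x ≠ 1 → Cfsg.layer ↥(Subgroup.centralizer ({x} : Set X)) = ⊥) (hz : ∃ z ∈ Y, z ≠ 1 ∧ Cfsg.generalizedFittingSubgroup ↥(Subgroup.centralizer ({z} : Set X)) = Cfsg.pCore 2 ↥(Subgroup.centralizer ({z} : Set X))) : Odd (Nat.card ↥(⨆ y : {y : X // y ∈ Y ∧ y ≠ 1}, (Cfsg.oddCore ↥(Subgroup.centralizer ({(y : X)} : Set X))).map (Subgroup.centralizer ({(y : X)} : Set X)).subtype)) ∧ Subgroup.normalizer (Y : Set X) ≤ Subgroup.normalizer ((⨆ y : {y : X // y ∈ Y ∧ y ≠ 1}, (Cfsg.oddCore ↥(Subgroup.centralizer ({(y : X)} : Set X))).map (Subgroup.centralizer ({(y : X)} : Set X)).subtype : Subgroup X) : Set X) := by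
  obtain ⟨z, hzY, hz1, hz⟩ := hz
  have hz' : Fs (centralizer ({z} : Set X)) = Op 2 (centralizer ({z} : Set X)) := map_subtype_eq_iff.2 hz
  have hsf : IsSignalizerFunctor 2 Y fun a => Opp 2 (centralizer ({a} : Set X)) := by
    refine sf_core' hY fun a ha h1 => PLay_eq_bot_of_invol (orderOf_of_elem hY hzY hz1)
      (le_cent1_of_comm hY.1 ha hzY) (map_subtype_eq_bot_iff.2 (hE a ha h1)) ?_
    have := Fs_eq_Op_centralizer hz' (isPGroup_zpowers_of_mem (elem_isPGroup hY) ha)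
      ((zpowers_le.2 (le_cent1_of_comm hY.1 hzY ha)).trans le_normalizer)
    rwa [centralizer_zpowers, inf_comm] at this
  have h1 := (sft_two Y _ hY h8 (solv_two hsf)).clos_mem hsf
  refine ⟨Nat.coprime_two_right.1 (fam_cop h1), fun g hg => H2.mem_normalizer_iff_cj.2 ?_⟩
  have := cj_clos (θ := fun a : X => Opp 2 (centralizer ({a} : Set X))) (Opp_cent_eqv 2) g Y
  rw [H2.mem_normalizer_iff_cj.1 hg] at this
  exact this

end Cfsg.Agent.S2924
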