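import Cfsg.Statements.S2925
import Mathlib
import Cfsg.Agent.H2.Loc2

set_option autoImplicit false
open Cfsg

namespace Cfsg.Agent.S2925

open Cfsg.Agent.H2 Cfsg.Agent.H8 Subgroup

/-- Let K be a component of the finite group X and T a Sylow 2-subgroup of X. If some abelian normal subgroup Y of T does not normalize K, then K ⧸ Z(K) has abelian Sylow 2-subgroups. -/
theorem result {X : Type*} [Group X] [Finite X] (K : Subgroup X) (hK : Cfsg.IsComponent K) (T : Sylow 2 X) (Y : Subgroup X) (hYT : Y ≤ (T : Subgroup X)) (hYn : (Y.subgroupOf (T : Subgroup X)).Normal) (hYab : IsMulCommutative ↥Y) (hnot : ¬ Y ≤ Subgroup.normalizer (K : Set X)) (P : Sylow 2 (↥K ⧸ Subgroup.center ↥K)) : IsMulCommutative ↥(P : Subgroup (↥K ⧸ Subgroup.center ↥K)) := by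
  have hK' := comp_top_iff.2 hK
  obtain ⟨y, hy, hyn⟩ := SetLike.not_le_iff_exists.1 hnot
  have hn := (normal_subgroupOf_iff_le_normalizer hYT).1 hYn
  have hc : ⁅H8.cj K y, K⁆ = ⊥ := (hK'.cj_of_mem (le_normalizer_top ⊤ (mem_top y))).comm_of_ne hK'
    (fun h => hyn (H8.mem_normalizer_iff_cj.2 h))
  have h1 := (((sylIn_subgroupOf_iff le_rfl inf_le_right).2
    (hK'.sn.sylIn_inf (sylIn_top T))).map (QuotientGroup.mk' (center K)))
  rw [subgroupOf_self, Subgroup.map_top_of_surjective _ (QuotientGroup.mk'_surjective _)] at h1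
  obtain ⟨g, -, hg⟩ := h1.exists_cj_eq (sylIn_top P)
  rw [← hg, isMulCommutative_iff_comm, ← H2.cj_commutator, H2.cj_eq_bot_iff, ← isMulCommutative_iff_comm,
    isMulCommutative_iff_forall]
  rintro _ ⟨s, hs, rfl⟩ _ ⟨t, ht, rfl⟩
  rw [← map_mul, ← map_mul, QuotientGroup.mk'_apply, QuotientGroup.mk'_apply, QuotientGroup.eq,
    mem_center_iff]
  intro k
  apply Subtype.ext
  have e1 := isMulCommutative_iff_forall.1 hYab _
    (mul_mem (conj_mem_of_mem_normalizer (hn hs.1) hy) (inv_mem hy)) _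
    (mul_mem (conj_mem_of_mem_normalizer (hn ht.1) hy) (inv_mem hy))
  have hs' : y * (s : X)⁻¹ * y⁻¹ ∈ H8.cj K y := H8.conj_mem_cj (inv_mem s.2)
  have ht' : y * (t : X)⁻¹ * y⁻¹ ∈ H8.cj K y := H8.conj_mem_cj (inv_mem t.2)
  set s' := y * (s : X)⁻¹ * y⁻¹
  set t' := y * (t : X)⁻¹ * y⁻¹
  have e2 : (s : X) * s' * (t * t') = t * t' * (s * s') := by
    simpa only [s', t', mul_assoc, coe_subtype] using e1
  have e3 := commute_of_commutator_eq_bot hc hs' t.2
  have e4 := commute_of_commutator_eq_bot hc ht' s.2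
  have e5 : ((s : X) * t)⁻¹ * (t * s) = s' * t' * (t' * s')⁻¹ := by
    have : (s : X) * t * (s' * t') = t * s * (t' * s') := by
      calc (s : X) * t * (s' * t') = s * (t * s') * t' := by group
        _ = s * s' * (t * t') := by rw [← e3]; group
        _ = t * (t' * s) * s' := by rw [e2]; group
        _ = _ := by rw [e4]; group
    calc ((s : X) * t)⁻¹ * (t * s) = ((s : X) * t)⁻¹ * (t * s * (t' * s')) * (t' * s')⁻¹ := by group
      _ = _ := by rw [← this]; group
  have e6 := commute_of_commutator_eq_bot hc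
    (mul_mem (mul_mem hs' ht') (inv_mem (mul_mem ht' hs'))) k.2
  rw [← e5] at e6
  simpa using e6.symm

end Cfsg.Agent.S2925
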