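import Cfsg.Statements.S2931
import Cfsg.Agent.GS.Cp1
import Cfsg.Agent.S0245
import Cfsg.Agent.S0246
import Cfsg.Agent.S0288

set_option autoImplicit false
open Cfsg

namespace Cfsg.Agent.S2931

section
open Finset Pointwise Cfsg.Agent.St Cfsg.Agent.H6

set_option maxRecDepth 100000
def gl1 : List (Equiv.Perm (Fin 8)) := [Equiv.swap 0 5 * Equiv.swap 1 4 * Equiv.swap 2 7 * Equiv.swap 3 6, Equiv.swap 2 3 * Equiv.swap 4 7 * Equiv.swap 5 6 * Equiv.swap 6 7, Equiv.swap 4 5 * Equiv.swap 6 7, Equiv.swap 4 7 * Equiv.swap 5 6]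
noncomputable def nb1 : List Net := [(Net.cons (nat_lit 4) (nat_lit 15)
  (Net.cons (nat_lit 1) (nat_lit 85)
  Net.nil)),
 (Net.cons (nat_lit 2) (nat_lit 48)
  (Net.cons (nat_lit 1) (nat_lit 20)
  Net.nil)),
 (Net.cons (nat_lit 1) (nat_lit 80)
  Net.nil),
 (Net.cons (nat_lit 2) (nat_lit 48)
  (Net.cons (nat_lit 1) (nat_lit 80)
  Net.nil))]
def SL1 : SLev := (SLev.cons [[0]] [[],[0],[1,0],[2,0],[0,1,0],[2,1,0],[0,2,0],[1,0,1,0]]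
  [[(1,[]),(0,[]),(4,[]),(6,[]),(2,[]),(7,[0]),(3,[]),(5,[1,0])],[(0,[0]),(2,[]),(3,[]),(5,[]),(7,[]),(1,[]),(6,[0]),(4,[1])],[(0,[1]),(3,[]),(5,[]),(1,[]),(4,[1]),(2,[]),(6,[1]),(7,[1])],[(0,[2]),(2,[2,0]),(1,[2,0]),(5,[2,0]),(4,[2,1]),(3,[2,0]),(6,[2]),(7,[2])]]
  (SLev.cons [[1]] [[],[0]]
  [[(1,[]),(0,[0])],[(0,[0]),(1,[0])],[(0,[1]),(1,[1,0])]]
  (SLev.cons [[2],[3]] [[],[0],[1],[1,0]]
  [[(1,[]),(0,[]),(3,[]),(2,[])],[(2,[]),(3,[]),(0,[]),(1,[])]]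
  SLev.nil)))
def L1 : Lev := (Lev.cons 0 8 [[0]] (Lev.cons 2 2 [[1]] (Lev.cons 4 4 [[2],[3]] Lev.nil)))
noncomputable def nb2 : List Net := [(Net.cons (nat_lit 4) (nat_lit 15)
  (Net.cons (nat_lit 2) (nat_lit 51)
  (Net.cons (nat_lit 1) (nat_lit 16)
  Net.nil))),
 (Net.cons (nat_lit 2) (nat_lit 48)
  (Net.cons (nat_lit 1) (nat_lit 68)
  Net.nil)),
 (Net.cons (nat_lit 2) (nat_lit 48)
  (Net.cons (nat_lit 1) (nat_lit 16)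
  Net.nil)),
 (Net.cons (nat_lit 1) (nat_lit 64)
  Net.nil)]
def SL2 : SLev := (SLev.cons [[0]] [[],[0],[1,0],[2,0],[3,0],[0,1,0],[0,2,0],[0,3,0]]
  [[(1,[]),(0,[1,2,0]),(5,[]),(6,[]),(7,[]),(3,[1,0]),(2,[1,0]),(4,[1,2,0])],[(0,[0]),(2,[]),(4,[1,0]),(1,[2,0,0]),(3,[1,2,0]),(6,[0,2]),(5,[2,0]),(7,[0,0,0])],[(0,[1]),(3,[]),(1,[2,0,0]),(4,[1,0]),(2,[1,2,0]),(5,[1]),(6,[1,0,0]),(7,[1,0,0])],[(0,[2]),(4,[]),(2,[1,0]),(3,[1,0]),(1,[]),(5,[2]),(6,[2]),(7,[2])]]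
  (SLev.cons [[1]] [[],[0]]
  [[(1,[]),(0,[0,0])],[(0,[0]),(1,[0])],[(0,[1]),(1,[1,0,0])]]
  (SLev.cons [[2]] [[],[0],[0,0],[1,0]]
  [[(1,[]),(2,[]),(3,[0]),(0,[0])],[(0,[0]),(3,[]),(2,[0]),(1,[])]]
  (SLev.cons [[3]] [[],[0]]
  [[(1,[]),(0,[])]]
  SLev.nil))))
def L2 : Lev := (Lev.cons 0 8 [[0]] (Lev.cons 2 2 [[1]] (Lev.cons 4 4 [[2]] (Lev.cons 6 2 [[3]] Lev.nil))))
theorem ev1 (l : ℕ) : lk 1 gl1 l ∈ alternatingGroup (Fin 8) := by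
  rcases lk_mem 1 gl1 l with e | e
  · rw [e]; exact Subgroup.one_mem _
  · generalize lk 1 gl1 l = g at e
    revert g
    simp [gl1, Equiv.Perm.mem_alternatingGroup]

end

/-- The Sylow 2-subgroups of the alternating group of degree 8 and of PSp₄(3) are isomorphic, and so are the Sylow 2-subgroups of the symmetric group of degree 8 and of the full isometry group of a non-degenerate quadratic form of minus type in dimension 6 over the field with 2 elements. -/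
theorem result (F : Type) [Field F] [Fintype F] (hF : Fintype.card F = 3) (K : Type) [Field K] [Fintype K] (hK : Fintype.card K = 2) (a b : K) (hab : ∀ z₁ z₂ : K, z₁ ^ 2 + a * z₁ * z₂ + b * z₂ ^ 2 = 0 → z₁ = 0 ∧ z₂ = 0) (P : Sylow 2 ↥(alternatingGroup (Fin 8))) (Q : Sylow 2 (Cfsg.PSp 2 F)) (P' : Sylow 2 (Equiv.Perm (Fin 8))) (Q' : Sylow 2 ↥(Cfsg.isometryGroup K (Cfsg.quadFormMinus 2 K a b))) : Nonempty (↥(P : Subgroup ↥(alternatingGroup (Fin 8))) ≃* ↥(Q : Subgroup (Cfsg.PSp 2 F))) ∧ Nonempty (↥(P' : Subgroup (Equiv.Perm (Fin 8))) ≃* ↥(Q' : Subgroup ↥(Cfsg.isometryGroup K (Cfsg.quadFormMinus 2 K a b)))) := by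
  open Finset Pointwise Cfsg.Agent.St Cfsg.Agent.H6 in focus
    haveI : Fact (Nat.Prime 3) := ⟨Nat.prime_three⟩
    haveI := charP_of_card (p := 3) (k := 1) Nat.prime_three hF
    haveI := charP_of_card (p := 2) (k := 1) Nat.prime_two hK
    constructor
    · have mA := (listModel (gl := gl1) (nl := nb1) (.cons ⟨(by decide +kernel), (by decide +kernel)⟩ (.cons ⟨(by decide +kernel), (by decide +kernel)⟩ (.cons ⟨(by decide +kernel), (by decide +kernel)⟩ (.cons ⟨(by decide +kernel), (by decide +kernel)⟩ .nil))))).subA ev1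
      have hs := semP (F := F) 3 (by norm_num)
      obtain ⟨g, hg⟩ := mrep_Sp hs (ixSum 2) (hJ_of (e := 2) hs (by
        rw [eq_neg_iff_add_eq_zero, ← CharP.cast_eq_zero F 3]; norm_num) (U := [18,54,1,3]) (by decide +kernel)) (ml := [[80,24,15,38],[65,39,56,24],[3,2,31,25],[16,58,80,68],[10,3,9,27],[1,3,11,27],[1,30,9,27],[1,3,9,33],[37,39,9,27],[40,12,21,73],[78,65,19,30],[6,1,62,14],[23,35,40,52],[19,3,9,27],[1,3,10,27],[1,57,9,27],[1,3,9,30],[73,75,9,27]]) (by decide +kernel)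
      have he := eqv_of_faith mA ((faith_fin 8).sub _) 3
      have lb := mA.ord_le_card (L := L1) (k := 0) (r := 40) (by decide +kernel)
      refine sylow_equiv P Q (emb_of he (eqvQ hg (hg.psat (il := [9,10,11,12,13,14,15,16,17,0,1,2,3,4,5,6,7,8]) (Rl := []) (by decide +kernel)).inv) (SL := SL1) (by decide +kernel)
        (le_of_eq_of_le (by decide +kernel) lb) (tr := [[],[0],[1],[2],[3],[1,0],[2,0],[3,0],[0,1],[2,1],[3,1],[0,2],[3,2],[0,3],[1,3],[0,1,0],[2,1,0],[3,1,0],[0,2,0],[3,2,0],[0,3,0],[1,3,0],[1,0,1],[2,0,1],[3,0,1],[0,2,1],[1,0,2],[2,0,2],[3,0,2],[0,3,2],[1,0,3],[2,0,3],[3,0,3],[0,1,3],[1,0,1,0],[2,0,1,0],[3,0,1,0],[0,2,1,0],[1,0,2,0],[2,0,2,0],[3,0,2,0],[0,3,2,0],[1,0,3,0],[2,0,3,0],[3,0,3,0],[0,1,3,0],[0,1,0,1],[2,1,0,1],[3,2,0,1],[1,3,0,1],[2,0,2,1],[2,1,0,2],[3,2,0,2],[1,3,0,2],[0,1,0,3],[2,1,0,3],[3,2,0,3],[2,1,0,1,0],[1,3,0,1,0],[2,0,2,1,0],[2,1,0,2,0],[3,2,0,2,0],[1,3,0,2,0],[2,1,0,3,0]])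 (dat := [[(1,[]),(0,[]),(8,[]),(11,[]),(13,[]),(15,[]),(18,[]),(20,[]),(2,[]),(25,[]),(17,[]),(3,[]),(29,[]),(4,[]),(33,[]),(5,[]),(37,[]),(10,[]),(6,[]),(41,[]),(7,[]),(45,[]),(46,[]),(38,[]),(36,[]),(9,[]),(35,[]),(39,[]),(43,[]),(12,[]),(54,[]),(40,[]),(44,[]),(14,[]),(56,[]),(26,[]),(24,[]),(16,[]),(23,[]),(27,[]),(31,[]),(19,[]),(48,[]),(28,[]),(32,[]),(21,[]),(22,[]),(57,[]),(42,[]),(61,[]),(60,[]),(59,[]),(58,[]),(62,[]),(30,[]),(63,[]),(34,[]),(47,[]),(52,[]),(51,[]),(50,[]),(49,[]),(53,[]),(55,[])],[(2,[]),(5,[]),(3,[]),(9,[]),(14,[]),(6,[]),(16,[]),(21,[]),(22,[]),(0,[]),(4,[]),(26,[]),(10,[]),(30,[]),(12,[]),(34,[]),(1,[]),(7,[]),(38,[]),(17,[]),(42,[]),(19,[]),(23,[]),(47,[]),(49,[]),(32,[]),(27,[]),(51,[]),(53,[]),(24,[]),(31,[]),(55,[]),(50,[]),(28,[]),(35,[]),(57,[]),(58,[]),(44,[]),(39,[]),(60,[]),(62,[]),(36,[])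,(43,[]),(63,[]),(59,[]),(40,[]),(37,[]),(8,[]),(29,[]),(48,[]),(56,[]),(11,[]),(33,[]),(52,[]),(41,[]),(13,[]),(25,[]),(15,[]),(54,[]),(46,[]),(18,[]),(45,[]),(61,[]),(20,[])],[(3,[]),(6,[]),(9,[]),(0,[]),(12,[]),(16,[]),(1,[]),(19,[]),(23,[]),(2,[]),(14,[]),(27,[]),(4,[]),(31,[]),(10,[]),(35,[]),(5,[]),(21,[]),(39,[]),(7,[]),(43,[]),(17,[]),(47,[]),(8,[]),(48,[]),(50,[]),(51,[]),(11,[]),(52,[]),(49,[]),(55,[]),(13,[]),(56,[]),(53,[]),(57,[]),(15,[]),(54,[]),(59,[]),(60,[]),(18,[]),(61,[]),(58,[]),(63,[]),(20,[]),(46,[]),(62,[]),(44,[]),(22,[]),(24,[]),(29,[]),(25,[]),(26,[]),(28,[]),(33,[]),(36,[]),(30,[]),(32,[]),(34,[]),(41,[]),(37,[]),(38,[]),(40,[]),(45,[]),(42,[])],[(4,[]),(7,[]),(10,[]),(12,[]),(0,[]),(17,[]),(19,[]),(1,[]),(24,[]),(14,[]),(2,[]),(28,[]),(3,[]),(32,[]),(9,[]),(36,[]),(21,[]),(5,[]),(40,[]),(6,[]),(44,[]),(16,[]),(29,[]),(48,[]),(8,[]),(30,[]),(33,[]),(52,[]),(11,[]),(22,[]),(25,[]),(56,[]),(13,[]),(26,[]),(41,[]),(54,[]),(15,[]),(42,[]),(45,[]),(61,[]),(18,[]),(34,[]),(37,[]),(46,[]),(20,[]),(38,[]),(43,[]),(49,[]),(23,[]),(47,[]),(55,[]),(53,[]),(27,[]),(51,[]),(35,[]),(50,[]),(31,[]),(58,[]),(57,[]),(63,[]),(62,[]),(39,[]),(60,[]),(59,[])]])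 (by decide +kernel) (ntQ hg (injP 3) [[4],[5],[6],[7],[8]]) (by decide +kernel))
        (k := 6) (m := 315) (m' := 405) (le_antisymm ((SLev.card_le he (L := SL1) (by decide +kernel)).2.trans (by decide +kernel)) (le_of_eq_of_le (by decide +kernel) lb))
        (by rw [nat_card_alternatingGroup, Nat.card_fin]; rfl) ?_ (by norm_num) (by norm_num)
      · have h1 := S0245.result hF 2
        have h2 := S0246.result hF 2 (by norm_num)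
        rw [Subgroup.card_eq_card_quotient_mul_card_subgroup (Subgroup.center _), h2] at h1
        generalize Nat.card (PSp 2 F) = x at h1
        norm_num [Finset.prod_range_succ] at h1 ⊢; omega
    · have z : ∀ x : K, x ≠ 0 → x = 1 := fun x h => by simpa [hK] using FiniteField.pow_card_sub_one_eq_one x h
      have h2 : (1 : K) + 1 = 0 := CharTwo.add_self_eq_zero 1
      obtain rfl : b = 1 := z b fun e => one_ne_zero (hab 0 1 (by simp [e])).2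
      obtain rfl : a = 1 := z a fun e => one_ne_zero (hab 1 1 (by simp [e, h2])).2
      have hok : NetsOk 8 (lk Net.nil nb2) vT := netsOk_of (by decide +kernel)
      have mA := finModel hok
      have hs := semP (F := K) 2 (by norm_num)
      obtain ⟨g, hg⟩ := mrep_O hs (ixMin 2) (Q := quadFormMinus 2 K 1 1) (fun v => by
        simpa using hQ_min (a := 1) (b := 1) hs (U := [4,8,0,0,48,32]) (by decide +kernel) v) (ml := [[39,61,8,29,44,5],[61,62,55,59,48,47],[30,29,27,23,63,47],[59,55,62,61,31,47]]) (inv := [[62,43,30,4,44,10],[29,30,23,27,63,47],[62,61,59,55,48,47],[59,55,62,61,31,47]]) (by decide +kernel)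
      have he := eqv_of_faith mA (faith_fin 8) 3
      have lb := mA.ord_le_card (L := L2) (k := 0) (r := 40) (by decide +kernel)
      refine sylow_equiv P' Q' (emb_of he hg.eqv (SL := SL2) (by decide +kernel)
        (le_of_eq_of_le (by decide +kernel) lb) (tr := [[],[0],[1],[2],[3],[0,0],[1,0],[2,0],[3,0],[0,1],[1,1],[2,1],[3,1],[0,2],[3,2],[0,3],[1,3],[2,3],[0,0,0],[3,0,0],[0,1,0],[1,1,0],[2,1,0],[3,1,0],[0,2,0],[3,2,0],[0,3,0],[1,3,0],[2,3,0],[1,0,1],[2,0,1],[3,0,1],[0,1,1],[1,1,1],[2,1,1],[3,1,1],[0,2,1],[3,2,1],[0,3,1],[1,0,2],[2,0,2],[3,0,2],[0,3,2],[1,0,3],[2,0,3],[3,0,3],[0,1,3],[0,2,3],[3,0,0,0],[0,3,0,0],[1,0,1,0],[2,0,1,0],[3,0,1,0],[0,1,1,0],[1,1,1,0],[2,1,1,0],[3,2,1,0],[0,3,1,0],[1,0,2,0],[2,0,2,0],[3,0,2,0],[0,3,2,0],[1,0,3,0],[2,0,3,0],[3,0,3,0],[0,1,3,0],[0,2,3,0],[0,1,0,1],[1,1,0,1],[3,1,0,1],[0,2,0,1],[3,2,0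,1],[0,3,0,1],[1,3,0,1],[2,3,0,1],[1,0,1,1],[2,0,1,1],[3,0,1,1],[0,1,1,1],[0,2,1,1],[0,3,2,1],[1,0,3,1],[2,0,3,1],[3,0,3,1],[1,1,0,2],[3,1,0,2],[0,2,0,2],[3,2,0,2],[0,3,0,2],[3,0,3,2],[1,1,0,3],[3,1,0,3],[3,2,0,3],[1,3,0,3],[2,3,0,3],[1,0,1,3],[2,0,1,3],[3,0,1,3],[1,0,2,3],[2,0,2,3],[3,0,2,3],[0,3,0,0,0],[3,0,3,0,0],[1,1,0,1,0],[3,1,0,1,0],[3,2,0,1,0],[2,3,0,1,0],[3,0,1,1,0],[0,1,1,1,0],[0,2,1,1,0],[0,3,2,1,0],[1,0,3,1,0],[2,0,3,1,0],[3,0,3,1,0],[1,1,0,2,0],[3,2,0,2,0],[3,0,3,2,0],[1,1,0,3,0],[3,1,0,3,0],[3,2,0,3,0],[1,3,0,3,0],[2,3,0,3,0],[1,0,1,3,0],[2,0,1,3,0],[3,0,1,3,0],[2,0,2,3,0],[3,0,2,3,0],[2,0,3,0,1]]) (dat := [[(1,[]),(5,[]),(9,[]),(13,[]),(15,[]),(18,[]),(20,[]),(24,[]),(26,[]),(14,[]),(32,[]),(36,[]),(38,[]),(12,[]),(42,[]),(19,[]),(46,[]),(47,[]),(0,[]),(49,[]),(25,[]),(53,[]),(11,[]),(57,[]),(23,[]),(61,[]),(48,[])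,(65,[]),(66,[]),(67,[]),(70,[]),(72,[]),(37,[]),(78,[]),(79,[]),(22,[]),(35,[]),(80,[]),(3,[]),(51,[]),(86,[]),(88,[]),(2,[]),(52,[]),(60,[]),(64,[]),(34,[]),(33,[]),(101,[]),(4,[]),(74,[]),(87,[]),(92,[]),(56,[]),(108,[]),(109,[]),(110,[]),(7,[]),(99,[]),(29,[]),(91,[]),(6,[]),(100,[]),(97,[]),(102,[]),(55,[]),(54,[]),(71,[]),(63,[]),(122,[]),(69,[]),(59,[]),(89,[]),(111,[]),(105,[]),(103,[]),(114,[]),(117,[]),(17,[]),(16,[]),(10,[]),(58,[]),(123,[]),(120,[]),(62,[]),(112,[]),(85,[]),(104,[]),(83,[]),(121,[]),(107,[]),(113,[]),(116,[]),(124,[]),(126,[]),(125,[]),(50,[]),(118,[]),(106,[]),(115,[]),(119,[]),(8,[]),(127,[]),(93,[]),(39,[]),(96,[]),(82,[]),(77,[]),(28,[]),(27,[]),(21,[]),(95,[]),(40,[]),(44,[]),(94,[]),(81,[]),(43,[]),(90,[]),(68,[]),(84,[]),(41,[]),(31,[]),(30,[]),(98,[]),(75,[]),(73,[]),(76,[]),(45,[])],[(2,[]),(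6,[]),(10,[]),(11,[]),(16,[]),(17,[]),(21,[]),(22,[]),(27,[]),(29,[]),(33,[]),(34,[]),(4,[]),(39,[]),(5,[]),(43,[]),(35,[]),(37,[]),(28,[]),(3,[]),(50,[]),(54,[]),(55,[]),(8,[]),(58,[]),(18,[]),(62,[]),(36,[]),(56,[]),(68,[]),(46,[]),(73,[]),(75,[]),(0,[]),(19,[]),(12,[]),(23,[]),(14,[]),(81,[]),(84,[]),(47,[]),(82,[]),(74,[]),(90,[]),(32,[]),(93,[]),(95,[]),(98,[]),(7,[]),(94,[]),(103,[]),(65,[]),(70,[]),(88,[]),(1,[]),(48,[]),(25,[]),(111,[]),(114,[]),(66,[]),(112,[]),(106,[]),(117,[]),(53,[]),(120,[]),(122,[]),(86,[]),(60,[]),(96,[]),(31,[]),(109,[]),(42,[]),(26,[]),(79,[]),(97,[]),(102,[]),(15,[]),(92,[]),(85,[]),(69,[]),(91,[]),(100,[]),(78,[]),(40,[]),(99,[]),(41,[]),(113,[]),(38,[]),(127,[]),(30,[]),(76,[]),(45,[]),(49,[]),(80,[]),(77,[]),(89,[]),(9,[]),(71,[]),(83,[]),(13,[]),(87,[]),(121,[]),(44,[]),(123,[]),(52,[]),(61,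[]),(124,[]),(119,[]),(67,[]),(104,[]),(118,[]),(126,[]),(108,[]),(59,[]),(125,[]),(57,[]),(51,[]),(72,[]),(64,[]),(101,[]),(110,[]),(107,[]),(116,[]),(20,[]),(105,[]),(24,[]),(115,[]),(63,[])],[(3,[]),(7,[]),(11,[]),(10,[]),(17,[]),(16,[]),(22,[]),(21,[]),(28,[]),(30,[]),(34,[]),(33,[]),(5,[]),(40,[]),(4,[]),(44,[]),(37,[]),(35,[]),(27,[]),(2,[]),(51,[]),(55,[]),(54,[]),(18,[]),(59,[]),(8,[]),(63,[]),(56,[]),(36,[]),(46,[]),(68,[]),(74,[]),(76,[]),(19,[]),(0,[]),(14,[]),(25,[]),(12,[]),(82,[]),(47,[]),(84,[]),(81,[]),(73,[]),(32,[]),(90,[]),(94,[]),(96,[]),(99,[]),(6,[]),(93,[]),(65,[]),(103,[]),(106,[]),(72,[]),(48,[]),(1,[]),(23,[]),(112,[]),(66,[]),(114,[]),(111,[]),(70,[]),(53,[]),(117,[]),(121,[]),(123,[]),(125,[]),(57,[]),(95,[]),(42,[]),(124,[]),(31,[]),(127,[]),(97,[]),(79,[]),(15,[]),(102,[]),(91,[]),(87,[]),(71,[]),(92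,[]),(78,[]),(100,[]),(39,[]),(98,[]),(38,[]),(24,[]),(41,[]),(26,[]),(29,[]),(75,[]),(49,[]),(45,[]),(77,[]),(80,[]),(9,[]),(89,[]),(69,[]),(13,[]),(83,[]),(85,[]),(120,[]),(43,[]),(122,[]),(61,[]),(52,[]),(109,[]),(118,[]),(115,[]),(105,[]),(119,[]),(108,[]),(126,[]),(58,[]),(86,[]),(60,[]),(50,[]),(88,[]),(101,[]),(64,[]),(107,[]),(110,[]),(20,[]),(116,[]),(104,[]),(113,[]),(67,[]),(62,[])],[(4,[]),(8,[]),(12,[]),(14,[]),(0,[]),(19,[]),(23,[]),(25,[]),(1,[]),(31,[]),(35,[]),(37,[]),(2,[]),(41,[]),(3,[]),(45,[]),(33,[]),(34,[]),(48,[]),(5,[]),(52,[]),(36,[]),(56,[]),(6,[]),(60,[]),(7,[]),(64,[]),(54,[]),(55,[]),(69,[]),(71,[]),(9,[]),(77,[]),(16,[]),(17,[]),(10,[]),(21,[]),(11,[]),(83,[]),(85,[]),(87,[]),(13,[]),(89,[]),(91,[]),(92,[]),(15,[]),(97,[]),(100,[]),(18,[]),(102,[]),(104,[]),(105,[]),(20,[]),(107,[]),(27,[]),(28,[]),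(22,[]),(113,[]),(67,[]),(115,[]),(24,[]),(116,[]),(118,[]),(119,[]),(26,[]),(124,[]),(126,[]),(58,[]),(79,[]),(29,[]),(123,[]),(30,[]),(120,[]),(96,[]),(95,[]),(94,[]),(93,[]),(32,[]),(84,[]),(68,[]),(90,[]),(98,[]),(99,[]),(38,[]),(78,[]),(39,[]),(111,[]),(40,[]),(121,[]),(42,[]),(80,[]),(43,[]),(44,[]),(76,[]),(75,[]),(74,[]),(73,[]),(46,[]),(81,[]),(82,[]),(47,[]),(127,[]),(49,[]),(109,[]),(50,[]),(51,[]),(122,[]),(53,[]),(114,[]),(103,[]),(117,[]),(86,[]),(125,[]),(57,[]),(108,[]),(59,[]),(61,[]),(110,[]),(62,[]),(63,[]),(72,[]),(88,[]),(106,[]),(70,[]),(65,[]),(112,[]),(66,[]),(101,[])]]) (by decide +kernel) (fun w h => ne_of_neM hg (injP 2) (u := w) (w := []) h) (by decide +kernel))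
        (k := 7) (m := 315) (m' := 405) (le_antisymm ((SLev.card_le he (L := SL2) (by decide +kernel)).2.trans (by decide +kernel)) (le_of_eq_of_le (by decide +kernel) lb))
        (by rw [Nat.card_perm, Nat.card_fin]; rfl) ?_ (by norm_num) (by norm_num)
      have h1 := S0288.result hK 3 (by norm_num) 1 1 hab
      norm_num [Finset.prod_range_succ] at h1 ⊢
      exact h1

end Cfsg.Agent.S2931
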