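import Cfsg.Statements.S2939
import Mathlib
import Cfsg.Agent.H2.SylC

set_option autoImplicit false
open Cfsg

namespace Cfsg.Agent.S2939

open Cfsg.Agent.H2 Subgroup

/-- Let p be a prime dividing the order of the finite group G and 𝓕 a family of subgroups of G closed under conjugation, with conjugates taken as X^g = g⁻¹Xg. Then 𝓕 controls Sylow p-intersections in G (any two distinct Sylow p-subgroups S and T with S ∩ T ≠ 1 are joined by a chain S = S₀, S₁, …, Sₙ = T of Sylow p-subgroups where, for each i, some member Xᵢ of 𝓕 meets both S_{i-1} and Sᵢ in Sylow p-subgroups of Xᵢ, satisfies S ∩ T ≤ Sᵢ ∩ Xᵢ, and contains an element xᵢ with Sᵢ^{xᵢ} = S_{i-1}) if and only if 𝓕 strongly controls p-fusion in G (whenever A is a subset of a Sylow p-subgroup S, A contains an element other than 1, and A^g ⊆ S, the element g factorises as g = y₁⋯yₙy with y ∈ N_G(S) and each yᵢ in a member Yᵢ of 𝓕 that meets S in a Sylow p-subgroup of Yᵢ, with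 A^{y₁⋯yᵢ} ⊆ S ∩ Yᵢ for each i). -/
theorem result {G : Type*} [Group G] [Finite G] {p : ℕ} [Fact p.Prime] (hdiv : p ∣ Nat.card G) (𝓕 : Set (Subgroup G)) (h𝓕 : Cfsg.IsNormalSet 𝓕) : Cfsg.ControlsSylowIntersections p 𝓕 ↔ Cfsg.FamilyStronglyControlsFusion p 𝓕 := by
  rw [controls_iff]
  let R : Subgroup G → Subgroup G → G → Prop := fun S T y => ∃ Y ∈ sylowMembers p 𝓕 S, y ∈ Y ∧
    T = cj y S ⊓ Y
  have hcj : ∀ {S X : Subgroup G} g, X ∈ 𝓕 → SylIn p (S ⊓ X) X →
      cj g X ∈ 𝓕 ∧ SylIn p (cj g S ⊓ cj g X) (cj g X) := fun g a b =>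
    ⟨by simpa only [subgroupConjRight, inv_inv] using h𝓕 _ a g⁻¹, cj_inf g _ _ ▸ b.cj g⟩
  have key : ∀ (S : Subgroup G) (A : Set G) (w : G), Chain (R S) A w ↔
      ∃ (n : ℕ) (Y : Fin n → Subgroup G) (y : Fin n → G), (List.ofFn y).prod = w ∧
      (∀ i : Fin n, Y i ∈ sylowMembers p 𝓕 S ∧ y i ∈ Y i) ∧ ∀ i : Fin n,
        conjRight (((List.ofFn y).take (i.val + 1)).prod) A ⊆ (S : Set G) ∩ (Y i : Set G) := by
    intro S A w
    have h1 : ∀ {n} (y : Fin n → G) (i : Fin n) (Y : Subgroup G), y i ∈ Y →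
        ((fun a => (((List.ofFn y).take i.val).prod)⁻¹ * a * ((List.ofFn y).take i.val).prod) '' A
          ⊆ (cj (y i) S ⊓ Y : Subgroup G) ↔
        conjRight (((List.ofFn y).take (i.val + 1)).prod) A ⊆ (S : Set G) ∩ (Y : Set G)) := by
      intro n y i Y hy
      rw [List.prod_take_succ _ _ (by simp), conjRight, Set.image_subset_iff, Set.image_subset_iff]
      refine forall₂_congr fun a _ => ?_
      simp only [Set.mem_preimage, SetLike.mem_coe, mem_inf, mem_cj, Set.mem_inter_iff,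
        List.getElem_ofFn, mul_inv_rev, Fin.eta]
      rw [← mul_mem_cancel_left (inv_mem hy), ← mul_mem_cancel_right hy]
      simp only [mul_assoc]
    rw [chain_iff]
    constructor
    · rintro ⟨n, T, y, e, a, b⟩
      choose Y c d f using a
      exact ⟨n, Y, y, e, fun i => ⟨c i, d i⟩, fun i => (h1 y i _ (d i)).1 (f i ▸ b i)⟩
    · rintro ⟨n, Y, y, e, a, b⟩
      exact ⟨n, _, y, e, fun i => ⟨Y i, (a i).1, (a i).2, rfl⟩,
        fun i => (h1 y i _ (a i).2).2 (b i)⟩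
  constructor
  · rintro h S A g hA ⟨a, ha, a1⟩ hAg
    have h1 : A ⊆ ((S : Subgroup G) ⊓ cj g S : Subgroup G) := fun x hx =>
      ⟨hA hx, mem_cj.2 (hAg ⟨x, hx, rfl⟩)⟩
    have h2 : ∀ U, Relation.ReflTransGen (CStp p 𝓕 ⊤ (S ⊓ cj g S)) S U →
        ∃ w, Chain (R S) A w ∧ cj w S = U := by
      intro U hU
      induction hU with
      | refl => exact ⟨1, .nil _, cj_one _⟩
      | tail _ e ih =>
        obtain ⟨w, hw, rfl⟩ := ih
        obtain ⟨-, -, X, hX, x, hx, a, -, rfl, b⟩ := e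
        have h3 := hcj w⁻¹ hX a
        rw [cj_inv_cj] at h3
        refine ⟨w * (w⁻¹ * x * w), hw.trans (.single ⟨_, mem_sylowMembers.2 h3,
          by simpa using conj_mem_cj w⁻¹ hx, rfl⟩ ?_), by rw [← cj_mul]; congr 1; group⟩
        rintro _ ⟨u, hu, rfl⟩
        have h4 := conj_mem_cj w⁻¹ (b (h1 hu))
        rw [cj_inf, ← cj_mul, ← cj_mul, inv_inv] at h4
        exact h4
    obtain ⟨w, hw, e⟩ := h2 _ (h _ _ (sylIn_top S) ((sylIn_top S).cj_of_mem (mem_top g))
      fun e => a1 (mem_bot.1 (e ▸ h1 ha)))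
    obtain ⟨n, Y, y, rfl, b, c⟩ := (key _ _ _).1 hw
    exact ⟨n, Y, y, _, mem_normalizer_iff_cj.2 (by rw [cj_mul, ← e, cj_inv_cj]), b,
      (mul_inv_cancel_left _ _).symm, c⟩
  · intro h S T hS hT hne
    obtain ⟨g, -, rfl⟩ := hS.exists_cj_eq hT
    obtain ⟨S, rfl⟩ := hS.exists_sylow_top
    obtain ⟨n, Y, y, y₀, a, b, c, d⟩ := h S ((S : Subgroup G) ⊓ cj g S : Subgroup G) g
      (fun x hx => hx.1) ((bot_or_exists_ne_one _).resolve_left hne)
      (by rintro _ ⟨x, hx, rfl⟩; exact mem_cj.1 hx.2)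
    have h1 := (key _ _ _).2 ⟨n, Y, y, rfl, b, d⟩
    have h2 : ∀ (D : Subgroup G) A w, Chain (R S) A w → ∀ v, (cj v⁻¹ D : Set G) ⊆ A →
        Relation.ReflTransGen (CStp p 𝓕 ⊤ D) (cj v S) (cj (v * w) S) := by
      intro D A w hw
      induction hw with
      | nil => intro v _; rw [mul_one]
      | @cons T x A w r hA _ ih =>
        intro v hv
        obtain ⟨Y, hY, hx, rfl⟩ := r
        rw [mem_sylowMembers] at hY
        have h3 := hcj v hY.1 hY.2
        have h4 := hcj (v * x) hY.1 hY.2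
        rw [cj_mul v x Y, cj_eq_of_mem hx] at h4
        rw [← mul_assoc]
        refine .head ⟨hS.cj_of_mem (mem_top _), hS.cj_of_mem (mem_top _), _, h3.1, _,
          conj_mem_cj v hx, h3.2, h4.2, by rw [← cj_mul]; congr 1; group, ?_⟩ (ih _ ?_)
        · rw [cj_mul, ← cj_inf, le_cj_iff]; exact hv.trans hA
        · rw [mul_inv_rev, cj_mul, ← image_eq_cj]; exact Set.image_mono hv
    have h3 := h2 _ _ _ h1 1 (by rw [inv_one, cj_one])
    have h4 : cj g (S : Subgroup G) = cj (List.ofFn y).prod S := by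
      rw [c, cj_mul, cj_eq_of_mem_normalizer a]
    rw [cj_one, one_mul] at h3
    rw [h4] at h3 ⊢
    exact h3

end Cfsg.Agent.S2939
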