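import Cfsg.Statements.S2955
import Mathlib
import Cfsg.Agent.H2.SylC

set_option autoImplicit false
open Cfsg

namespace Cfsg.Agent.S2955

open Cfsg.Agent.H2 Subgroup

/-- Let p be a prime dividing the order of the finite group G and 𝓕 a conjugation-closed family of subgroups that controls Sylow p-intersections in G. Suppose the Sylow p-subgroups of G are chain-connected: any two of them are joined by a chain of Sylow p-subgroups, consecutive ones distinct with nontrivial intersection, all containing the intersection of the two ends (equivalently, the graph on the Sylow p-subgroups whose edges are the distinct pairs meeting nontrivially is connected). Then for every Sylow p-subgroup S, G is generated by N_G(S) together with the members of 𝓕 that meet S in a Sylow p-subgroup of themselves. -/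
theorem result {G : Type*} [Group G] [Finite G] (p : ℕ) [Fact p.Prime] (hdiv : p ∣ Nat.card G)
    (𝓕 : Set (Subgroup G)) (h𝓕 : Cfsg.IsNormalSet 𝓕) (hc : Cfsg.ControlsSylowIntersections p 𝓕)
    (hconn : Cfsg.IsSylowChainConnected p G) (S : Sylow p G) :
    (⨆ X ∈ Cfsg.sylowMembers p 𝓕 (S : Subgroup G), X) ⊔ Subgroup.normalizer ((S : Subgroup G) : Set G) = ⊤ := by
  rw [controls_iff] at hc
  set H := (⨆ X ∈ sylowMembers p 𝓕 (S : Subgroup G), X) ⊔ normalizer ((S : Subgroup G) : Set G)
  have h1 : ∀ D A B, Relation.ReflTransGen (CStp p 𝓕 ⊤ D) A B → (∃ h ∈ H, cj h S = A) →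
      ∃ h ∈ H, cj h S = B := by
    intro D A B hr h0
    induction hr with
    | refl => exact h0
    | tail _ e ih =>
      obtain ⟨h, hh, rfl⟩ := ih
      obtain ⟨-, -, X, hX, x, hx, a, -, rfl, -⟩ := e
      have h2 : cj h⁻¹ X ≤ H := le_sup_of_le_left (le_biSup (f := fun X => X)
        (mem_sylowMembers.2 ⟨h𝓕 X hX h, by simpa only [cj_inf, cj_inv_cj] using a.cj h⁻¹⟩))
      have h3 : X ≤ H := (le_cj_iff.2 h2).trans (cj_eq_of_mem hh).le
      exact ⟨x * h, mul_mem (h3 hx) hh, cj_mul _ _ _⟩
  rw [eq_top_iff]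
  intro g _
  obtain ⟨n, c, h0, hn, -, h2⟩ := hconn S (g • S)
  have h3 := rtg_of_chain (r := fun A B : Sylow p G => (A : Subgroup G) ⊓ B ≠ ⊥) n c
    fun i => (h2 i).2
  rw [h0, hn] at h3
  have h4 : ∀ T : Sylow p G, Relation.ReflTransGen
      (fun A B : Sylow p G => (A : Subgroup G) ⊓ B ≠ ⊥) S T → ∃ h ∈ H, cj h S = T := by
    intro T hT
    induction hT with
    | refl => exact ⟨1, one_mem _, cj_one _⟩
    | tail _ e ih => exact h1 _ _ _ (hc _ _ (sylIn_top _) (sylIn_top _) e) ih
  obtain ⟨h, hh, e⟩ := h4 _ h3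
  rw [coe_smul_sylow] at e
  rw [← mul_mem_cancel_left (inv_mem hh)]
  exact mem_sup_right (mem_normalizer_iff_cj.2 (by rw [cj_mul, ← e, cj_inv_cj]))

end Cfsg.Agent.S2955
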