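import Cfsg.Statements.S2957
import Mathlib
import Cfsg.Agent.H2.SylC

set_option autoImplicit false
open Cfsg

namespace Cfsg.Agent.S2957

open Cfsg.Agent.H2 Subgroup

/-- Let p be a prime dividing the order of the finite group G, f an equivariant assignment of a set of subgroups f(P) of P to every p-subgroup P, each normalized by N_G(P), and S a Sylow p-subgroup. If G = G₁G₂ for subgroups G₁, G₂ both containing S and both regular for f (in each Gᵢ, the family of normalizers in Gᵢ of the members of f(P), P a Sylow p-subgroup of Gᵢ, controls Sylow p-intersections), then G itself is regular for f. -/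
theorem result {G : Type*} [Group G] [Finite G] (p : ℕ) [Fact p.Prime] (hdiv : p ∣ Nat.card G)
    (f : Subgroup G → Set (Subgroup G)) (hf : Cfsg.IsNormalizerFunctor p f) (S : Sylow p G)
    (G₁ G₂ : Subgroup G) (h₁ : (S : Subgroup G) ≤ G₁) (h₂ : (S : Subgroup G) ≤ G₂)
    (hprod : ∀ g : G, ∃ g₁ ∈ G₁, ∃ g₂ ∈ G₂, g = g₁ * g₂)
    (hr₁ : Cfsg.IsFunctorRegular p f G₁) (hr₂ : Cfsg.IsFunctorRegular p f G₂) :
    Cfsg.IsFunctorRegular p f ⊤ := by
  rw [regular_iff] at hr₁ hr₂ ⊢
  intro A B hA hB hne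
  have hS := sylIn_top S
  obtain ⟨a, -, rfl⟩ := hS.exists_cj_eq hA
  obtain ⟨b, -, rfl⟩ := hA.exists_cj_eq hB
  have c : ∀ {M} g, CSI p (functorFamily p f M) M → CSI p (functorFamily p f (cj g M)) (cj g M) :=
    fun g h => h.map _ (MulAut.conj g).injective fun X hX => cj_mem_functorFamily hf hX g
  obtain ⟨U, hU, h3, h4⟩ := exists_sylIn_fact hA (cj_mono a h₁) (cj_mono a h₂) (fun g => by
    obtain ⟨x, hx, y, hy, e⟩ := hprod (a⁻¹ * g * a)
    exact ⟨_, conj_mem_cj a hx, _, conj_mem_cj a hy, by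
      rw [show g = a * (a⁻¹ * g * a) * a⁻¹ by group, e]; group⟩) b
  have key : ∀ {M X Y}, CSI p (functorFamily p f M) M → SylIn p X ⊤ → SylIn p Y ⊤ → X ≤ M →
      Y ≤ M → cj a S ⊓ cj b (cj a S) ≤ X → cj a S ⊓ cj b (cj a S) ≤ Y →
      Relation.ReflTransGen (CStp p (functorFamily p f ⊤) ⊤ (cj a S ⊓ cj b (cj a S))) X Y :=
    fun h hX hY x y z w => SF.rtg_mono (fun _ _ e => e.up hf hX x) (rtg_cstp_imp
      (h _ _ (hX.mono x le_top) (hY.mono y le_top) (ne_bot_of_le_ne_bot hne (le_inf z w)))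
      subset_rfl (le_inf z w))
  exact (key (c a hr₁) hA hU (cj_mono a h₁) (h4.trans inf_le_left) inf_le_left h3).trans
    (key (c b (c a hr₂)) hU hB (h4.trans inf_le_right) (cj_mono b (cj_mono a h₂)) h3 inf_le_right)

end Cfsg.Agent.S2957
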