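import Cfsg.Statements.S2958
import Mathlib
import Cfsg.Agent.H2.Syl

set_option autoImplicit false
open Cfsg

namespace Cfsg.Agent.S2958

open Cfsg.Agent.H2 Subgroup

/-- Let X, A, B be subgroups of a group G such that G is generated by the conjugates of X and every conjugate of X is contained in A or in B. Then A = G or B = G. -/
theorem result {G : Type*} [Group G] (X A B : Subgroup G) (hgen : (⨆ g : G, X.map (MulAut.conj g).toMonoidHom) = ⊤) (hcover : ∀ g : G, X.map (MulAut.conj g).toMonoidHom ≤ A ∨ X.map (MulAut.conj g).toMonoidHom ≤ B) : A = ⊤ ∨ B = ⊤ := by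
  by_contra hne
  rw [not_or] at hne
  have h1 : ∀ C : Subgroup G, C ≠ ⊤ → ∃ g, ¬ cj g X ≤ C := by
    intro C hC
    by_contra h
    push Not at h
    exact hC (top_le_iff.1 (hgen ▸ iSup_le h))
  obtain ⟨g, hg⟩ := h1 A hne.1
  obtain ⟨h, hh⟩ := h1 B hne.2
  have hgB : cj g X ≤ B := (hcover g).resolve_left hg
  have hhA : cj h X ≤ A := (hcover h).resolve_right hh
  -- every conjugate not in `A` is normalized-closed
  have key : ∀ (C D : Subgroup G), (∀ g, cj g X ≤ C ∨ cj g X ≤ D) → ∀ k, ¬ cj k X ≤ C →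
      ∀ c ∈ C, cj (c * k) X ≤ D ∧ ¬ cj (c * k) X ≤ C := by
    intro C D hCD k hk c hc
    have : ¬ cj (c * k) X ≤ C := by
      intro h
      apply hk
      have := cj_le_of_le h (inv_mem hc)
      rwa [cj_mul, cj_inv_cj] at this
    exact ⟨(hCD _).resolve_left this, this⟩
  -- the join `D` of the conjugates not in `A` is normalized by `A` and by itself
  set D : Subgroup G := ⨆ k : {k : G // ¬ cj k X ≤ A}, cj k.1 X with hD
  have hDB : D ≤ B := iSup_le fun k => (hcover k.1).resolve_left k.2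
  have hAD : ∀ a ∈ A, cj a D ≤ D := by
    intro a ha
    rw [cj_le_iff, hD]
    refine iSup_le fun k => ?_
    rw [← cj_le_iff, ← cj_mul]
    exact le_iSup (fun k : {k : G // ¬ cj k X ≤ A} => cj k.1 X) ⟨_, (key A B hcover k.1 k.2 a ha).2⟩
  have hAn : A ≤ normalizer (D : Set G) := by
    intro a ha
    rw [mem_normalizer_iff_cj]
    exact le_antisymm (hAD a ha) (le_cj_iff.2 (hAD _ (inv_mem ha)))
  have hn : ⊤ ≤ normalizer (D : Set G) := by
    rw [← hgen]
    refine iSup_le fun k => ?_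
    by_cases hk : cj k X ≤ A
    · exact hk.trans hAn
    · exact (le_iSup (fun k : {k : G // ¬ cj k X ≤ A} => cj k.1 X) ⟨k, hk⟩).trans le_normalizer
  apply hh
  have h2 : cj g X ≤ D := le_iSup (fun k : {k : G // ¬ cj k X ≤ A} => cj k.1 X) ⟨g, hg⟩
  have h3 := cj_mono (h * g⁻¹) h2
  rw [← cj_mul, mem_normalizer_iff_cj.1 (hn (mem_top _))] at h3
  simpa using h3.trans hDB

end Cfsg.Agent.S2958
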