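import Cfsg.Statements.S2962
import Mathlib
import Cfsg.Agent.H2.LBal

set_option autoImplicit false
open Cfsg

namespace Cfsg.Agent.S2962

open Cfsg.Agent.H2 Cfsg.Agent.H8 Subgroup

theorem comm_le_Opp {G : Type*} [Group G] [Finite G] {S K A T : Subgroup G} (hS : SylIn 2 S K)
    (hAK : A ≤ normalizer (K : Set G)) (hAS : A ≤ centralizer (S : Set G))
    (hT : T ≤ ⁅A, A⁆) (hTp : IsPGroup 2 T) : ⁅K, T⁆ ≤ Opp 2 K := by
  obtain ⟨Y, _, _, f, -, hk⟩ := exists_hom_kr_eq (Z := K ⊔ A) (N := Opp 2 K)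
    ((Opp_le 2 K).trans le_sup_left) (sup_le (le_normalizer_Opp 2 K) (le_normalizer_Opp_of 2 hAK))
  have hTA : T ≤ A := hT.trans (commutator_le_left_of_norm le_normalizer)
  rw [← hk, ← commutator_im_eq_bot_iff f le_sup_left (hTA.trans le_sup_right), commutator_comm,
    commutator_eq_bot_iff_le_centralizer]
  refine SylIn.le_centralizer_of_two (S := im f S) (A := im f A)
    (((sylIn_subgroupOf_iff le_sup_left (hS.le.trans le_sup_left)).2 hS).map f)
    (Opp_im_eq_bot f le_sup_left hk) (im_le_normalizer f hAK) (im_le_centralizer f hAS) ?_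
    (isPGroup_im f hTp)
  rw [← im_commutator f le_sup_right le_sup_right]
  exact im_mono f hT

/-- Let G be a finite group with G = QN, where N is a normal subgroup of G and Q is a non-abelian 2-subgroup with Q ∩ N = 1. Suppose that some nontrivial element t of Z(Q) ∩ [Q, Q] satisfies C_N(Q) = C_N(t). Then [N, Q] is solvable of odd order. -/
theorem result {G : Type*} [Group G] [Finite G] (N Q : Subgroup G) [N.Normal] (hG : Q ⊔ N = ⊤) (hQ : IsPGroup 2 ↥Q) (hQna : ¬ IsMulCommutative ↥Q) (hdisj : Q ⊓ N = ⊥) (t : G) (ht1 : t ≠ 1) (htZ : t ∈ Q ⊓ Subgroup.centralizer (Q : Set G)) (htQ : t ∈ ⁅Q, Q⁆) (hC : N ⊓ Subgroup.centralizer (Q : Set G) = N ⊓ Subgroup.centralizer ({t} : Set G)) : Group.IsSolvable ↥⁅N, Q⁆ ∧ Odd (Nat.card ↥⁅N, Q⁆) := by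
  obtain ⟨P, hP, hQP⟩ := exists_sylIn_ge hQ (le_top (a := Q))
  have hS := hP.inf_normal' (N := N) le_normalizer_of_normal le_top
  have hQS : Q ≤ normalizer ((P ⊓ N : Subgroup G) : Set G) :=
    le_normalizer_inf (hQP.trans le_normalizer) le_normalizer_of_normal
  have hc : Q ≤ centralizer ((P ⊓ N : Subgroup G) : Set G) := by
    rw [le_centralizer_iff]
    by_contra hn
    have hlt : P ⊓ N ⊓ centralizer (Q : Set G) < P ⊓ N :=
      lt_of_le_of_ne inf_le_left fun e => hn (e ▸ inf_le_right)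
    have hQU : Q ≤ normalizer ((P ⊓ N ⊓ centralizer (Q : Set G) : Subgroup G) : Set G) :=
      le_normalizer_inf hQS (le_normalizer_centralizer le_normalizer)
    obtain ⟨w, hw, hwU, hcw⟩ := exists_commutator_mem hQ (hS.pgrp.to_le inf_le_left)
      (le_normalizer_inf hQS (hQU.trans (le_normalizer.trans' le_rfl)))
      (lt_inf_normalizer hS.pgrp hlt) hQU inf_le_right
    have h1 : ⁅⁅zpowers w, Q⁆, Q⁆ = ⊥ := commutator_eq_bot_iff_le_centralizer.2
      (((commutator_mono le_rfl le_sup_left).trans hcw).trans inf_le_right)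
    have h2 : ⁅⁅Q, Q⁆, zpowers w⁆ ≤ ⊥ := three_subgroups (le_normalizer_bot _) (le_normalizer_bot _)
      (le_normalizer_bot _) (by rw [commutator_comm Q, h1]) h1.le
    have h3 := commute_of_commutator_eq_bot (le_bot_iff.1 h2) htQ (mem_zpowers w)
    have h4 : w ∈ N ⊓ centralizer ({t} : Set G) := ⟨hw.1.2, mem_centralizer_singleton_iff.2 h3.symm⟩
    rw [← hC] at h4
    exact hwU ⟨hw.1, h4.2⟩
  have hT : IsPGroup 2 (zpowers t) := hQ.to_le (zpowers_le.2 htZ.1)
  have h1 := comm_le_Opp hS le_normalizer_of_normal hc (zpowers_le.2 htQ) hT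
  have h2 := le_centralizer_sup_of_commutator_le' hT (Opp_coprime 2 N)
    (le_normalizer_Opp_of 2 le_normalizer_of_normal) (Opp_le 2 N) le_rfl h1
  rw [centralizer_zpowers, ← hC] at h2
  have h3 : ⁅N, Q⁆ ≤ Opp 2 N := by
    refine (commutator_mono h2 le_rfl).trans (commutator_sup_le_of_norm ?_
      (commutator_le_left_of_norm (le_normalizer_Opp_of 2 le_normalizer_of_normal))
      (le_normalizer_Opp_of 2 le_normalizer_of_normal))
    rw [commutator_eq_bot_iff_le_centralizer.2 inf_le_right]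
    exact bot_le
  exact ⟨solvable_of_le h3 (Opp_two_solvable N), Nat.coprime_two_right.1
    ((Opp_coprime 2 N).coprime_dvd_left (card_dvd_of_le h3))⟩

end Cfsg.Agent.S2962
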