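import Cfsg.Statements.S2963
import Cfsg.Agent.H9.TJ

set_option autoImplicit false
open Cfsg

namespace Cfsg.Agent.S2963

open Cfsg.Agent Cfsg.Agent.H9
theorem exists_odd_choose (m : ℕ) (h0 : 0 < m) (h : ∀ j, m ≠ 2 ^ j) :
    ∃ k, 0 < k ∧ k < m ∧ Odd (m.choose k) := by
  induction m using Nat.strong_induction_on with
  | _ m ih =>
  rcases Nat.even_or_odd' m with ⟨r, rfl | rfl⟩
  · obtain ⟨k, h1, h2, h3⟩ := ih r (by omega) (by omega) fun j e => h (j + 1) (by rw [e]; ring)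
    refine ⟨2 * k, by omega, by omega, ?_⟩
    have := @Choose.choose_modEq_choose_mod_mul_choose_div_nat (2 * r) (2 * k) 2 ⟨Nat.prime_two⟩
    rw [Nat.odd_iff] at h3 ⊢
    simp only [Nat.mul_mod_right, Nat.choose_self, one_mul, Nat.ModEq,
      Nat.mul_div_cancel_left _ Nat.two_pos] at this
    rw [this, h3]
  · have := h 0
    exact ⟨1, by omega, by omega, by simp⟩

/-- Let n be odd. If the symmetric group of degree n is a minimal parabolic group for the prime 2, that is, a Sylow 2-subgroup is not normal and lies in exactly one maximal subgroup, then n = 2^m + 1 for some natural number m. -/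
theorem result (n : ℕ) (hn : Odd n) (h : Cfsg.IsPMinimal 2 (Equiv.Perm (Fin n))) : ∃ m : ℕ, n = 2 ^ m + 1 := by
  by_contra hcon
  push Not at hcon
  obtain ⟨r, rfl⟩ := hn
  rcases Nat.eq_zero_or_pos r with rfl | hr
  · obtain ⟨S⟩ : Nonempty (Sylow 2 (Equiv.Perm (Fin (2 * 0 + 1)))) := inferInstance
    haveI : Subsingleton (Equiv.Perm (Fin (2 * 0 + 1))) :=
      inferInstanceAs (Subsingleton (Equiv.Perm (Fin 1)))
    exact (h S).1 ⟨fun a ha g => by rwa [Subsingleton.elim (g * a * g⁻¹) a]⟩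
  obtain ⟨k, h1, h2, h3⟩ := exists_odd_choose (2 * r) (by omega) fun j e => hcon j (by rw [e])
  obtain ⟨l, hl⟩ : ∃ l, 2 * r = k + l := ⟨2 * r - k, by omega⟩
  have hodd : Odd (k + l + 1) := by rw [← hl]; exact odd_two_mul_add_one r
  rw [hl] at h h2 h3
  clear hcon hl
  let ι : Fin k ⊕ Fin l ↪ Fin (k + l + 1) := finSumFinEquiv.toEmbedding.trans Fin.castSuccEmb
  let φ := (Equiv.Perm.viaEmbeddingHom ι).comp (Equiv.Perm.sumCongrHom (Fin k) (Fin l))
  have hφ : Function.Injective φ :=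
    (Equiv.Perm.viaEmbeddingHom_injective ι).comp Equiv.Perm.sumCongrHom_injective
  have hx : Fin.last (k + l) ∉ Set.range ι := by
    rintro ⟨y, hy⟩
    exact (Fin.castSucc_lt_last _).ne hy
  have hidx : ¬ 2 ∣ φ.range.relIndex ⊤ := by
    rw [Subgroup.relIndex_top_right]
    have e1 := φ.range.card_mul_index
    rw [← Nat.card_congr (MonoidHom.ofInjective hφ).toEquiv, Nat.card_prod, Nat.card_perm,
      Nat.card_perm, Nat.card_perm, Nat.card_fin, Nat.card_fin, Nat.card_fin, Nat.factorial_succ,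
      ← Nat.add_choose_mul_factorial_mul_factorial k l, Nat.choose_symm_add.symm] at e1
    have e2 : φ.range.index = (k + l + 1) * (k + l).choose k :=
      Nat.eq_of_mul_eq_mul_left (Nat.mul_pos k.factorial_pos l.factorial_pos) (by rw [e1]; ring)
    rw [e2]
    exact (hodd.mul h3).not_two_dvd_nat
  obtain ⟨T, hT⟩ := H2.exists_sylIn 2 φ.range
  obtain ⟨S, rfl⟩ := (hT.trans_of_not_dvd le_top hidx).exists_sylow_top
  obtain ⟨M, -, hM⟩ := (h S).2
  let K : Subgroup (Equiv.Perm (Fin (k + l + 1))) :=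
    { carrier := {σ | ∀ y, σ y ∈ Set.range (ι ∘ Sum.inl) ↔ y ∈ Set.range (ι ∘ Sum.inl)}
      one_mem' := fun _ => Iff.rfl
      mul_mem' := fun {a b} ha hb y => (ha (b y)).trans (hb y)
      inv_mem' := fun {a} ha y => by
        have := ha (a⁻¹ y)
        rw [show a (a⁻¹ y) = y by simp] at this
        exact this.symm }
  have hxA : Fin.last (k + l) ∉ Set.range (ι ∘ Sum.inl) := fun ⟨y, hy⟩ => hx ⟨_, hy⟩
  have hK1 : K ≠ ⊤ := by
    intro e
    have : Equiv.swap (ι (Sum.inl ⟨0, h1⟩)) (Fin.last (k + l)) ∈ K := e ▸ Subgroup.mem_top _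
    have := this (ι (Sum.inl ⟨0, h1⟩))
    rw [Equiv.swap_apply_left] at this
    exact hxA (this.mpr ⟨_, rfl⟩)
  have hHK : φ.range ≤ K := by
    rintro _ ⟨⟨a, b⟩, rfl⟩ y
    change Equiv.Perm.viaEmbedding (Equiv.sumCongr a b) ι y ∈ _ ↔ _
    by_cases hy : y ∈ Set.range ι
    · obtain ⟨y, rfl⟩ := hy
      rw [Equiv.Perm.viaEmbedding_apply]
      cases y with
      | inl y => exact ⟨fun _ => ⟨_, rfl⟩, fun _ => ⟨_, rfl⟩⟩
      | inr y => simp
    · rw [Equiv.Perm.viaEmbedding_apply_of_notMem _ _ _ hy]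
  have hHX : φ.range ≤ MulAction.stabilizer _ (Fin.last (k + l)) := by
    rintro _ ⟨⟨a, b⟩, rfl⟩
    exact Equiv.Perm.viaEmbedding_apply_of_notMem _ _ _ hx
  haveI : Nontrivial (Fin (k + l + 1)) := Fin.nontrivial_iff_two_le.mpr (by omega)
  have e1 := hM _ ⟨MulAction.IsPreprimitive.isCoatom_stabilizer_of_isPreprimitive
    (Equiv.Perm (Fin (k + l + 1))) (Fin.last (k + l)), hT.le.trans hHX⟩
  obtain ⟨M', hM', hKM⟩ := (eq_top_or_exists_le_coatom K).resolve_left hK1
  rw [hM M' ⟨hM', hT.le.trans (hHK.trans hKM)⟩, ← e1] at hKM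
  have hl : 0 < l := by omega
  have : Equiv.swap (ι (Sum.inr ⟨0, hl⟩)) (Fin.last (k + l)) ∈ K := by
    intro y
    have hA : ι (Sum.inr ⟨0, hl⟩) ∉ Set.range (ι ∘ Sum.inl) := by simp
    rcases eq_or_ne y (ι (Sum.inr ⟨0, hl⟩)) with rfl | a1
    · rw [Equiv.swap_apply_left]; exact iff_of_false hxA hA
    rcases eq_or_ne y (Fin.last (k + l)) with rfl | a2
    · rw [Equiv.swap_apply_right]; exact iff_of_false hA hxA
    rw [Equiv.swap_apply_of_ne_of_ne a1 a2]
  have := hKM this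
  rw [MulAction.mem_stabilizer_iff, Equiv.Perm.smul_def, Equiv.swap_apply_right] at this
  exact hx ⟨_, this⟩

end Cfsg.Agent.S2963
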