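import Cfsg.Statements.S2998
import Mathlib
import Cfsg.Agent.H2.Loc

set_option autoImplicit false
open Cfsg

namespace Cfsg.Agent.S2998

open Cfsg.Agent.H2 Cfsg.Agent.H8 Subgroup

/-- Let G be a finite group, p a prime, P a Sylow p-subgroup of G and x ∈ P an element such that N_G(R) ≤ C_G(x) for every nontrivial subgroup R of P. Then P ≤ C_G(x); every G-conjugate of x lying in P equals x (so g ∈ C_G(x) whenever g x g⁻¹ ∈ P); and for every normal subgroup N of G, the image of x in G ⧸ N has the same property with respect to the image of P: the normalizer of every nontrivial subgroup of the image of P centralizes the image of x. -/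
theorem result {G : Type*} [Group G] [Finite G] {p : ℕ} [Fact p.Prime] (P : Sylow p G) (x : G) (hxP : x ∈ (P : Subgroup G)) (hlc : ∀ R : Subgroup G, R ≤ (P : Subgroup G) → R ≠ ⊥ → Subgroup.normalizer (R : Set G) ≤ Subgroup.centralizer ({x} : Set G)) : (P : Subgroup G) ≤ Subgroup.centralizer ({x} : Set G) ∧ (∀ g : G, g * x * g⁻¹ ∈ (P : Subgroup G) → g * x * g⁻¹ = x) ∧ ∀ (N : Subgroup G) [N.Normal], ∀ R : Subgroup (G ⧸ N), R ≤ (P : Subgroup G).map (QuotientGroup.mk' N) → R ≠ ⊥ → Subgroup.normalizer (R : Set (G ⧸ N)) ≤ Subgroup.centralizer ({(QuotientGroup.mk x : G ⧸ N)} : Set (G ⧸ N)) := by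
  by_cases hx1 : x = 1
  · subst hx1
    refine ⟨fun y _ => by simp [mem_centralizer_singleton_iff], by simp, fun N _ R _ _ y _ => by
      simp [mem_centralizer_singleton_iff]⟩
  have hP1 : (P : Subgroup G) ≠ ⊥ := fun h => hx1 (mem_bot.1 (h ▸ hxP))
  have hN := hlc P le_rfl hP1
  refine ⟨le_normalizer.trans hN, fun g hg => ?_, fun N _ R hR hR1 => ?_⟩
  · have h1 : centralizer ({g * x * g⁻¹} : Set G) ≤ centralizer {x} :=
      (centralizer_le_normalizer_zpowers _).trans (hlc _ (zpowers_le.2 hg) (by simpa using hx1))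
    have h2 : H2.cj g (P : Subgroup G) ≤ centralizer {x} := by
      refine le_trans ?_ h1
      rw [← H2.cj_centralizer_singleton]
      exact H2.cj_mono g (le_normalizer.trans hN)
    have h3 : SylIn p (H2.cj g (P : Subgroup G)) (centralizer {x}) :=
      ((sylIn_top P).cj_of_mem (mem_top g)).mono h2 le_top
    obtain ⟨c, hc, he⟩ := h3.exists_cj_eq (sylIn_of_le P (le_normalizer.trans hN))
    rw [← cj_mul, ← H2.mem_normalizer_iff_cj] at he
    have h4 := mul_mem (inv_mem hc) (hN he)
    exact conj_eq_of_mem_cent (by simpa using h4)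
  · intro y hy
    obtain ⟨y, rfl⟩ := QuotientGroup.mk'_surjective N y
    set M := R.comap (QuotientGroup.mk' N)
    have hNM : N ≤ M := fun n hn => by
      rw [mem_comap, QuotientGroup.mk'_apply, (QuotientGroup.eq_one_iff n).2 hn]; exact one_mem _
    have hM : M ≤ (P : Subgroup G) ⊔ N := by
      have := comap_mono (f := QuotientGroup.mk' N) hR
      rwa [comap_map_eq, QuotientGroup.ker_mk'] at this
    have hM' : M = (P : Subgroup G) ⊓ M ⊔ N := by
      rw [← sup_inf_of_norm' le_normalizer_of_normal hNM, inf_eq_right.2 hM]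
    have hS : SylIn p ((P : Subgroup G) ⊓ M) M := by
      refine sylIn_of_not_dvd inf_le_right (P.isPGroup'.to_le inf_le_left) ?_
      generalize_proofs
      have h0 : ∀ Z : Subgroup G, M = Z → ¬ p ∣ ((P : Subgroup G) ⊓ M).relIndex Z →
        ¬ p ∣ ((P : Subgroup G) ⊓ M).relIndex M := fun Z hZ h => by rwa [← hZ] at h
      refine h0 _ hM' ?_
      rw [relIndex_sup_of_norm' le_normalizer_of_normal, ← inf_relIndex_right, inf_assoc,
        inf_eq_right.2 hNM]
      exact (sylow_inf_normal P N).not_dvd_relIndex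
    have hy' : y ∈ normalizer (M : Set G) :=
      H1.comap_le_normalizer_comap (QuotientGroup.mk' N) (le_refl (normalizer (R : Set (G ⧸ N)))) hy
    obtain ⟨n, hn, hny⟩ := hS.frattini hy'
    have hne : (P : Subgroup G) ⊓ M ≠ ⊥ := by
      intro h
      rw [h, bot_sup_eq] at hM'
      apply hR1
      rw [← map_comap_eq_self_of_surjective (QuotientGroup.mk'_surjective N) R]
      change M.map _ = ⊥
      rw [hM', QuotientGroup.map_mk'_self]
    have h1 := hlc _ inf_le_left hne hny
    rw [hM', sup_comm] at hn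
    obtain ⟨a, ha, b, hb, rfl⟩ := mem_sup_of_norm_left le_normalizer_of_normal hn
    have h2 := mul_mem ((le_normalizer.trans hN) hb.1) h1
    have h3 := congrArg (QuotientGroup.mk' N) (mem_centralizer_singleton_iff.1 h2)
    rw [mem_centralizer_singleton_iff]
    have ha' : (a : G ⧸ N) = 1 := (QuotientGroup.eq_one_iff a).2 ha
    simpa [mul_assoc, ha'] using h3

end Cfsg.Agent.S2998
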