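import Cfsg.Statements.S3003
import Mathlib
import Cfsg.Agent.H2.Loc2

set_option autoImplicit false
open Cfsg

namespace Cfsg.Agent.S3003

open Cfsg.Agent.H2 Cfsg.Agent.H8 Subgroup

/-- Let G be a finite group, p a prime and Q a large p-subgroup of G: C_G(Q) ≤ Q and N_G(U) ≤ N_G(Q) for every nontrivial subgroup U of C_G(Q). Let Q ≤ G₁ ≤ G, let R be a subgroup of order prime to p normalized by G₁, and let U ≤ G₁ be a p-subgroup. If U contains a nontrivial element which is G₁-conjugate to an element of Z(Q), then C_R(U) = 1. In particular, if U is elementary abelian of order at least p² and every maximal subgroup of U contains a nontrivial element G₁-conjugate into Z(Q), then R = 1. -/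
theorem result {G : Type*} [Group G] [Finite G] {p : ℕ} [Fact p.Prime] (Q : Subgroup G) (hQp : IsPGroup p ↥Q) (hlarge : Cfsg.IsLarge Q) (G₁ : Subgroup G) (hQG : Q ≤ G₁) (R : Subgroup G) (hR : (Nat.card ↥R).Coprime p) (hGR : G₁ ≤ Subgroup.normalizer (R : Set G)) (U : Subgroup G) (hUG : U ≤ G₁) (hUp : IsPGroup p ↥U) : ((∃ x ∈ U, x ≠ 1 ∧ ∃ g ∈ G₁, g * x * g⁻¹ ∈ Q ⊓ Subgroup.centralizer (Q : Set G)) → R ⊓ Subgroup.centralizer (U : Set G) = ⊥) ∧ (Cfsg.IsElementaryAbelian p U → p ^ 2 ≤ Nat.card ↥U → (∀ U₀ : Subgroup G, U₀ ≤ U → IsCoatom (U₀.subgroupOf U) → ∃ x ∈ U₀, x ≠ 1 ∧ ∃ g ∈ G₁, g * x * g⁻¹ ∈ Q ⊓ Subgroup.centralizer (Q : Set G)) → R = ⊥) := by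
  have key : ∀ U : Subgroup G, (∃ x ∈ U, x ≠ 1 ∧ ∃ g ∈ G₁,
      g * x * g⁻¹ ∈ Q ⊓ centralizer (Q : Set G)) → R ⊓ centralizer (U : Set G) = ⊥ := by
    rintro U ⟨x, hx, hx1, g, hg, hz⟩
    have h1 : centralizer {g * x * g⁻¹} ≤ normalizer (Q : Set G) :=
      (centralizer_le_normalizer_zpowers _).trans (hlarge.2 _ (zpowers_le.2 hz.2)
        (by simpa using hx1))
    have h2 : ⁅R ⊓ centralizer {g * x * g⁻¹}, Q⁆ = ⊥ := by
      rw [_root_.eq_bot_iff, ← inf_eq_bot_of_pgroup_coprime hQp hR]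
      exact le_inf (commutator_le_right_of_norm (inf_le_right.trans h1))
        ((commutator_mono inf_le_left le_rfl).trans (commutator_le_left_of_norm (hQG.trans hGR)))
    have h3 : R ⊓ centralizer {g * x * g⁻¹} = ⊥ := by
      rw [_root_.eq_bot_iff, ← inf_eq_bot_of_pgroup_coprime hQp hR]
      exact le_inf ((commutator_eq_bot_iff_le_centralizer.1 h2).trans hlarge.1) inf_le_left
    rw [← H8.cj_centralizer_singleton, ← H8.cj_eq_of_mem_normalizer (hGR hg), ← H8.cj_inf,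
      H8.cj_eq_bot_iff] at h3
    rw [_root_.eq_bot_iff, ← h3]
    exact inf_le_inf_left _ (centralizer_le (by simpa using hx))
  refine ⟨key U, fun hU h2 h => le_bot_iff.1 (le_of_hyperplanes' hU (ne_bot_of_pow_le h2)
    (hUG.trans hGR) hR fun B hB hi => (key B (h B hB (H1.isCoatom_of_index_prime ?_))).le)⟩
  change (B.relIndex U).Prime
  rw [hi]; exact Fact.out

end Cfsg.Agent.S3003
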