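import Cfsg.Statements.S3006
import Mathlib
import Cfsg.Agent.H2.CD

set_option autoImplicit false
open scoped Pointwise
open Cfsg

namespace Cfsg.Agent.S3006

open Cfsg.Agent.H2 Cfsg.Agent.H8 Subgroup

/-- Let P be a finite p-group, Q a centrally large subgroup of P (|Q|·|Z(Q)| maximal among subgroups of P) and A an abelian subgroup of P of largest order. Then QA = AQ is a centrally large subgroup of P, C_{QA}(Q ∩ A) = Z(Q)·A, and the subgroup generated by all centrally large subgroups of P contains C_P(Z(J(P))), where J(P) is generated by the abelian subgroups of largest order. -/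
theorem result {p : ℕ} [Fact p.Prime] (P : Type*) [Group P] [Finite P] (hP : IsPGroup p P) (Q A : Subgroup P) (hQ : Cfsg.IsCentrallyLarge Q) (hA : A ∈ Cfsg.maxAbelianSubgroups P) : ((Q ⊔ A : Subgroup P) : Set P) = (Q : Set P) * (A : Set P) ∧ Cfsg.IsCentrallyLarge (Q ⊔ A) ∧ (Q ⊔ A) ⊓ Subgroup.centralizer ((Q ⊓ A : Subgroup P) : Set P) = (Q ⊓ Subgroup.centralizer (Q : Set P)) ⊔ A ∧ (((Q ⊓ Subgroup.centralizer (Q : Set P)) ⊔ A : Subgroup P) : Set P) = ((Q ⊓ Subgroup.centralizer (Q : Set P)) : Set P) * (A : Set P) ∧ Subgroup.centralizer ((Cfsg.thompsonSubgroupA P ⊓ Subgroup.centralizer (Cfsg.thompsonSubgroupA P : Set P) : Subgroup P) : Set P) ≤ Cfsg.centrallyLargeJoin P := by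
  obtain ⟨h1, h2, h3⟩ := cl_maxAb hQ hA
  have h4 := (cl_iff.1 hQ).2
  rw [inf_eq_right.2 h4]
  have hA' := isMulCommutative_iff_le.1 hA.1
  have h5 : centralizer (Q : Set P) ⊔ A ≤ (Q ⊔ A) ⊓ centralizer ((Q ⊓ A : Subgroup P) : Set P) :=
    sup_le (le_inf (h4.trans le_sup_left) (centralizer_anti inf_le_left))
      (le_inf le_sup_right (hA'.trans (centralizer_anti inf_le_right)))
  have h6 : ∀ g ∈ (Q ⊔ A) ⊓ centralizer ((Q ⊓ A : Subgroup P) : Set P),
      ∃ x ∈ centralizer (Q : Set P), ∃ y ∈ A, g = x * y := by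
    rintro g ⟨hg, hg'⟩
    obtain ⟨x, hx, y, hy, rfl⟩ := h2 g hg
    have hx' : x ∈ (Q ⊓ A) ⊔ centralizer (Q : Set P) := by
      rw [← cent_eq_of_maxAb h3, centralizer_sup_eq]
      have h7 : y ∈ centralizer ((Q ⊓ A : Subgroup P) : Set P) := centralizer_anti inf_le_right (hA' hy)
      exact ⟨(Subgroup.mul_mem_cancel_right _ h7).1 hg', le_cent_cent Q hx⟩
    rw [sup_comm] at hx'
    obtain ⟨c, hc, a, ha, rfl⟩ := mem_sup_of_norm_left
      (le_normalizer_centralizer (inf_le_left.trans le_normalizer)) hx'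
    exact ⟨c, hc, _, mul_mem ha.2 hy, mul_assoc _ _ _⟩
  refine ⟨H1.coe_eq_mul_iff.2 ⟨le_sup_left, le_sup_right, h2⟩, h1, le_antisymm (fun g hg => ?_) h5, ?_, ?_⟩
  · obtain ⟨x, hx, y, hy, rfl⟩ := h6 g hg
    exact mul_mem (mem_sup_left hx) (mem_sup_right hy)
  · have := H1.coe_eq_mul_iff.2 ⟨le_sup_left, le_sup_right, fun g hg => h6 g (h5 hg)⟩
    rw [this, inf_eq_right.2 (SetLike.coe_subset_coe.2 h4)]
  · refine jt_le_of_cl (cl_sSup ⟨Q, hQ⟩ fun _ h => h) (sSup_le fun B hB => ?_)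
    exact le_sup_right.trans (le_sSup (cl_maxAb hQ hB).1)

end Cfsg.Agent.S3006
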