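import Cfsg.Statements.S3011
import Cfsg.Agent.H9.TJ
import Cfsg.Agent.H2.Baer

set_option autoImplicit false
open Cfsg

namespace Cfsg.Agent.S3011

open Cfsg.Agent Cfsg.Agent.H9
theorem comm_of_sq {G : Type*} [Group G] {x y : G} (hx : Odd (orderOf x)) (h : Commute (x ^ 2) y) :
    Commute x y := by
  obtain ⟨m, hm⟩ := hx
  have : x = (x ^ 2) ^ (m + 1) := by
    rw [← pow_mul, show 2 * (m + 1) = orderOf x + 1 by omega, pow_succ, pow_orderOf_eq_one, one_mul]
  rw [this]; exact h.pow_left _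

theorem eq_one_of_inv {G : Type*} [Group G] {x : G} (hx : Odd (orderOf x)) (h : x = x⁻¹) : x = 1 := by
  obtain ⟨m, hm⟩ := hx
  have h2 : x ^ 2 = 1 := by rw [pow_two]; nth_rewrite 2 [h]; simp
  have : x = (x ^ 2) ^ (m + 1) := by
    rw [← pow_mul, show 2 * (m + 1) = orderOf x + 1 by omega, pow_succ, pow_orderOf_eq_one, one_mul]
  rw [this, h2, one_pow]

theorem four {G : Type*} [Group G] [Finite G] {V : Subgroup G} (hV : Cfsg.IsElementaryAbelian 2 V)
    (h4 : Nat.card V ≤ 4) {a b w : G} (ha : a ∈ V) (hb : b ∈ V) (hw : w ∈ V) (ha1 : a ≠ 1) (hb1 : b ≠ 1)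
    (hab : a ≠ b) (hw1 : w ≠ 1) : w = a ∨ w = b ∨ w = a * b := by
  classical
  by_contra hne
  push Not at hne
  obtain ⟨h1, h2, h3⟩ := hne
  have ha2 : a * a = 1 := by rw [← pow_two]; exact hV.2 a ha
  have e1 : a * b ≠ 1 := fun h => hab (by rw [← mul_one a, ← h, ← mul_assoc, ha2, one_mul])
  have e2 : a * b ≠ a := by simpa using hb1
  have e3 : a * b ≠ b := by simpa using ha1
  have hc : ({1, a, b, a * b, w} : Finset G).card = 5 := by
    rw [Finset.card_insert_of_notMem, Finset.card_insert_of_notMem, Finset.card_insert_of_notMem,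
      Finset.card_insert_of_notMem, Finset.card_singleton]
    · simpa using h3.symm
    · simp [e3.symm, h2.symm]
    · simp [hab, e2.symm, h1.symm]
    · simp [ha1.symm, hb1.symm, e1.symm, hw1.symm]
  have hsub : (({1, a, b, a * b, w} : Finset G) : Set G) ⊆ V := by
    intro x hx
    simp only [Finset.coe_insert, Finset.coe_singleton, Set.mem_insert_iff, Set.mem_singleton_iff] at hx
    rcases hx with rfl | rfl | rfl | rfl | rfl
    exacts [V.one_mem, ha, hb, V.mul_mem ha hb, hw]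
  have := Set.ncard_le_ncard hsub (Set.toFinite _)
  rw [Set.ncard_coe_finset, hc] at this
  have h5 : Nat.card V = (V : Set G).ncard := rfl
  omega

theorem key {G : Type*} [Group G] [Finite G] {V : Subgroup G} (hV : Cfsg.IsElementaryAbelian 2 V)
    (hS : Cfsg.IsSidkiPair V) (h4 : Nat.card V ≤ 4) {a b h k : G} (ha : a ∈ V) (hb : b ∈ V)
    (hh1 : h ≠ 1) (hk1 : k ≠ 1) (hh : Odd (orderOf h)) (hk : Odd (orderOf k))
    (ah : a * h * a⁻¹ = h⁻¹) (ak : a * k * a⁻¹ = k) (bh : b * h * b⁻¹ = h) (bk : b * k * b⁻¹ = k⁻¹) :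
    False := by
  have ha1 : a ≠ 1 := by
    rintro rfl
    exact hh1 (eq_one_of_inv hh (by simpa using ah))
  have hb1 : b ≠ 1 := by
    rintro rfl
    exact hk1 (eq_one_of_inv hk (by simpa using bk))
  have hab : a ≠ b := by
    rintro rfl
    exact hh1 (eq_one_of_inv hh (bh.symm.trans ah))
  have ak' : a * k⁻¹ * a⁻¹ = k⁻¹ := by
    calc a * k⁻¹ * a⁻¹ = (a * k * a⁻¹)⁻¹ := by group
      _ = _ := by rw [ak]
  have bk' : b * k⁻¹ * b⁻¹ = k := by
    calc b * k⁻¹ * b⁻¹ = (b * k * b⁻¹)⁻¹ := by group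
      _ = _ := by rw [bk, inv_inv]
  have hu : Odd (orderOf (k⁻¹ * h * k)) := by
    have : orderOf (k⁻¹ * h * k) = orderOf h := by
      have := (MulAut.conj k⁻¹).orderOf_eq h
      simpa using this
    rwa [this]
  have au : a * (k⁻¹ * h * k) * a⁻¹ = k⁻¹ * h⁻¹ * k := by
    calc a * (k⁻¹ * h * k) * a⁻¹ = (a * k⁻¹ * a⁻¹) * (a * h * a⁻¹) * (a * k * a⁻¹) := by group
      _ = _ := by rw [ak', ah, ak]
  have bu : b * (k⁻¹ * h * k) * b⁻¹ = k * h * k⁻¹ := by
    calc b * (k⁻¹ * h * k) * b⁻¹ = (b * k⁻¹ * b⁻¹) * (b * h * b⁻¹) * (b * k * b⁻¹) := by group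
      _ = _ := by rw [bk', bh, bk]
  have hhk : Commute k h := by
    obtain ⟨w, hw, hw1, hc⟩ := hS (k⁻¹ * h * k) a ha hu (by rw [au]; group)
    have hc' : w * (k⁻¹ * h * k) * w⁻¹ = k⁻¹ * h * k := by rw [hc]; group
    rcases four hV h4 ha hb hw ha1 hb1 hab hw1 with rfl | rfl | rfl
    · rw [au] at hc'
      exact absurd (eq_one_of_inv hh (by simpa using hc'.symm)) hh1
    · rw [bu] at hc'
      apply comm_of_sq hk
      show k ^ 2 * h = h * k ^ 2
      calc k ^ 2 * h = k * (k * h * k⁻¹) * k := by rw [pow_two]; group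
        _ = h * k ^ 2 := by rw [hc', pow_two]; group
    · have e : a * b * (k⁻¹ * h * k) * (a * b)⁻¹ = k * h⁻¹ * k⁻¹ := by
        calc a * b * (k⁻¹ * h * k) * (a * b)⁻¹ = a * (b * (k⁻¹ * h * k) * b⁻¹) * a⁻¹ := by group
          _ = (a * k * a⁻¹) * (a * h * a⁻¹) * (a * k⁻¹ * a⁻¹) := by rw [bu]; group
          _ = _ := by rw [ak', ah, ak]
      rw [e] at hc'
      have e2 : k ^ 2 * h⁻¹ * (k ^ 2)⁻¹ = h := by
        calc k ^ 2 * h⁻¹ * (k ^ 2)⁻¹ = k * (k * h⁻¹ * k⁻¹) * k⁻¹ := by rw [pow_two]; group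
          _ = h := by rw [hc']; group
      have e3 : k ^ 2 * h * (k ^ 2)⁻¹ = h⁻¹ := by
        calc k ^ 2 * h * (k ^ 2)⁻¹ = (k ^ 2 * h⁻¹ * (k ^ 2)⁻¹)⁻¹ := by
              generalize k ^ 2 = y; group
          _ = _ := by rw [e2]
      have hk2 : Odd (orderOf (k ^ 2)) := by
        rw [orderOf_pow' _ two_ne_zero]
        exact Odd.of_dvd_nat hk (Nat.div_dvd_of_dvd (Nat.gcd_dvd_left _ _))
      apply comm_of_sq hk
      apply comm_of_sq hk2
      show (k ^ 2) ^ 2 * h = h * (k ^ 2) ^ 2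
      calc (k ^ 2) ^ 2 * h = k ^ 2 * (k ^ 2 * h * (k ^ 2)⁻¹) * (k ^ 2)⁻¹ * (k ^ 2) ^ 2 := by
            generalize k ^ 2 = y; rw [pow_two]; group
        _ = _ := by rw [e3, e2]
  have ho : Odd (orderOf (h * k)) :=
    Odd.of_dvd_nat (hh.mul hk) (hhk.symm.orderOf_mul_dvd_mul_orderOf)
  have a1 : a * (h * k) * a⁻¹ = h⁻¹ * k := by
    calc a * (h * k) * a⁻¹ = (a * h * a⁻¹) * (a * k * a⁻¹) := by group
      _ = _ := by rw [ah, ak]
  have b1 : b * (h * k) * b⁻¹ = h * k⁻¹ := by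
    calc b * (h * k) * b⁻¹ = (b * h * b⁻¹) * (b * k * b⁻¹) := by group
      _ = _ := by rw [bh, bk]
  have ab1 : a * b * (h * k) * (a * b)⁻¹ = (h * k)⁻¹ := by
    calc a * b * (h * k) * (a * b)⁻¹ = a * (b * (h * k) * b⁻¹) * a⁻¹ := by group
      _ = (a * h * a⁻¹) * (a * k⁻¹ * a⁻¹) := by rw [b1]; group
      _ = _ := by rw [ah, ak', ← hhk.eq, mul_inv_rev]
  obtain ⟨w, hw, hw1, hc⟩ := hS (h * k) (a * b) (V.mul_mem ha hb) ho ab1
  have hc' : w * (h * k) * w⁻¹ = h * k := by rw [hc]; group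
  rcases four hV h4 ha hb hw ha1 hb1 hab hw1 with rfl | rfl | rfl
  · rw [a1] at hc'
    exact hh1 (eq_one_of_inv hh (by simpa using hc'.symm))
  · rw [b1] at hc'
    exact hk1 (eq_one_of_inv hk (by simpa using hc'.symm))
  · rw [ab1] at hc'
    have e := eq_one_of_inv ho hc'.symm
    have e2 : h = k⁻¹ := eq_inv_of_mul_eq_one_left e
    rw [e2, ak', inv_inv] at ah
    exact hk1 (eq_one_of_inv hk ah.symm)

/-- Let G be a finite group and V a nontrivial elementary abelian 2-subgroup of G of order at most 4 such that, whenever an element of V inverts an element h of G of odd order, some nontrivial element of V commutes with h. Then V meets O₂(G) nontrivially. (The case of order at most 4 has a short argument from the Baer–Suzuki theorem.) -/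
theorem result {G : Type*} [Group G] [Finite G] (V : Subgroup G) (hV : Cfsg.IsElementaryAbelian 2 V) (hV1 : V ≠ ⊥) (hS : Cfsg.IsSidkiPair V) (h4 : Nat.card V ≤ 4) : V ⊓ Cfsg.pCore 2 G ≠ ⊥ := by
  intro hbot
  have hinv : ∀ v ∈ V, v ≠ 1 → ∃ h : G, h ≠ 1 ∧ Odd (orderOf h) ∧ v * h * v⁻¹ = h⁻¹ := by
    intro v hv hv1
    apply H2.exists_inverted_odd (by rw [← pow_two]; exact hV.2 v hv)
    intro hO
    have : v ∈ V ⊓ Cfsg.pCore 2 G := ⟨hv, hO⟩
    rw [hbot] at this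
    exact hv1 this
  obtain ⟨⟨a, ha⟩, ha1⟩ := Subgroup.ne_bot_iff_exists_ne_one.1 hV1
  have ha1 : a ≠ 1 := fun h => ha1 (Subtype.ext h)
  obtain ⟨h, hh1, hh, ah⟩ := hinv a ha ha1
  obtain ⟨b, hb, hb1, bh⟩ := hS h a ha hh ah
  have bh' : b * h * b⁻¹ = h := by rw [bh]; group
  have hab : a ≠ b := by
    rintro rfl
    exact hh1 (eq_one_of_inv hh (bh'.symm.trans ah))
  obtain ⟨k, hk1, hk, bk⟩ := hinv b hb hb1
  obtain ⟨w, hw, hw1, wk⟩ := hS k b hb hk bk
  have wk' : w * k * w⁻¹ = k := by rw [wk]; group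
  rcases four hV h4 ha hb hw ha1 hb1 hab hw1 with rfl | rfl | rfl
  · exact key hV hS h4 ha hb hh1 hk1 hh hk ah wk' bh' bk
  · exact hk1 (eq_one_of_inv hk (wk'.symm.trans bk))
  · refine key hV hS h4 hw hb hh1 hk1 hh hk ?_ wk' bh' bk
    calc a * b * h * (a * b)⁻¹ = a * (b * h * b⁻¹) * a⁻¹ := by group
      _ = _ := by rw [bh', ah]

end Cfsg.Agent.S3011
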