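import Cfsg.Statements.S3012
import Mathlib
import Cfsg.Agent.H2.Loc2

set_option autoImplicit false
open Cfsg

namespace Cfsg.Agent.S3012

open Cfsg.Agent.H2 Cfsg.Agent.H8 Subgroup

/-- Let G be a finite group, V a nontrivial elementary abelian 2-subgroup of G satisfying the Sidki pair condition (every odd-order element inverted by an element of V commutes with a nontrivial element of V), and K a normal subgroup of G with V ∩ K = 1. Then the image of V in G/K satisfies the Sidki pair condition in G/K. -/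
theorem result {G : Type*} [Group G] [Finite G] (V K : Subgroup G) [K.Normal] (hV : Cfsg.IsElementaryAbelian 2 V) (hV1 : V ≠ ⊥) (hS : Cfsg.IsSidkiPair V) (hVK : V ⊓ K = ⊥) : Cfsg.IsSidkiPair (V.map (QuotientGroup.mk' K)) := by
  rintro h _ ⟨v, hv, rfl⟩ ho hi
  obtain ⟨m, hm⟩ := exists_pow_pow_eq (n := 2) (Nat.coprime_two_right.2 ho)
  obtain ⟨x, hx⟩ := QuotientGroup.mk'_surjective K (h ^ m)
  have hv2 : v * v = 1 := by rw [← sq]; exact hV.2 v hv
  have h1 : QuotientGroup.mk' K (x * (v * x⁻¹ * v⁻¹)) = h := by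
    simp only [map_mul, map_inv, hx]
    rw [← inv_pow, ← conj_pow, ← conj_inv, hi, inv_inv, ← sq, ← pow_mul, mul_comm, pow_mul, hm]
  obtain ⟨n, hn, hn'⟩ := exists_lift_coprime (p := 2) (QuotientGroup.mk' K) (x * (v * x⁻¹ * v⁻¹))
    (by rw [h1]; exact Nat.coprime_two_right.2 ho)
  obtain ⟨w, hw, hw1, hw2⟩ := hS _ v hv (Nat.coprime_two_right.1 hn') (by
    rw [← conj_pow, ← inv_pow]
    congr 1
    calc _ = v * x * v⁻¹ * (v * v) * x⁻¹ * (v * v)⁻¹ := by group
      _ = _ := by rw [hv2]; group)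
  refine ⟨_, mem_map_of_mem _ hw, fun e => hw1 ?_, by rw [← h1, ← hn, ← map_mul, hw2, map_mul]⟩
  exact mem_bot.1 (hVK ▸ ⟨hw, (QuotientGroup.eq_one_iff _).1 e⟩)

end Cfsg.Agent.S3012
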