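import Cfsg.Statements.S3013
import Mathlib
import Cfsg.Agent.H2.Loc2

set_option autoImplicit false
open Cfsg

namespace Cfsg.Agent.S3013

open Cfsg.Agent.H2 Cfsg.Agent.H8 Subgroup

/-- Let G be a finite group and V a nontrivial elementary abelian 2-subgroup of G satisfying the Sidki pair condition. Let v ∈ V and let x be an element of odd order inverted by v, and put C = C_G(v) ∩ C_G(x), the centralizer of the dihedral subgroup generated by v and x. Then C ∩ V is nontrivial and satisfies the Sidki pair condition inside C: every odd-order element of C inverted by an element of C ∩ V commutes with a nontrivial element of C ∩ V. -/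
theorem result {G : Type*} [Group G] [Finite G] (V : Subgroup G) (hV : Cfsg.IsElementaryAbelian 2 V) (hV1 : V ≠ ⊥) (hS : Cfsg.IsSidkiPair V) (v x : G) (hv : v ∈ V) (hx : Odd (orderOf x)) (hinv : v * x * v⁻¹ = x⁻¹) (C : Subgroup G) (hC : C = Subgroup.centralizer ({v} : Set G) ⊓ Subgroup.centralizer ({x} : Set G)) : C ⊓ V ≠ ⊥ ∧ Cfsg.IsSidkiPair ((C ⊓ V).subgroupOf C) := by
  have hc := isMulCommutative_iff_forall.1 hV.1
  subst hC
  constructor
  · obtain ⟨w, hw, hw1, hw2⟩ := hS x v hv hx hinv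
    exact fun e => hw1 (mem_bot.1 (e ▸ ⟨⟨mem_centralizer_singleton_iff.2 (hc _ hw _ hv),
      mem_centralizer_singleton_iff.2 hw2⟩, hw⟩))
  · rintro ⟨h, hh1, hh2⟩ ⟨u, hu1, hu2⟩ ⟨-, hu⟩ ho hi
    have ho' : Odd (orderOf h) := by rwa [← Subgroup.orderOf_coe] at ho
    have hi' : u * h * u⁻¹ = h⁻¹ := congrArg Subtype.val hi
    have e1 : v * h * v⁻¹ = h := conj_eq_of_mem_cent (mem_centralizer_singleton_comm.1 hh1)
    have e2 : u * x * u⁻¹ = x := conj_eq_of_mem_cent hu2
    have e3 : Commute x h := (mem_centralizer_singleton_iff.1 hh2).symm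
    obtain ⟨w, hw, hw1, hw2⟩ := hS (x * h) (u * v) (mul_mem hu hv)
      (Odd.of_dvd_nat (hx.mul ho') e3.orderOf_mul_dvd_mul_orderOf) (by
        calc _ = u * ((v * x * v⁻¹) * (v * h * v⁻¹)) * u⁻¹ := by group
          _ = (u * x * u⁻¹)⁻¹ * (u * h * u⁻¹) := by rw [hinv, e1]; group
          _ = _ := by rw [e2, hi', e3.eq]; group)
    have h1 : x * h ∈ centralizer {w} := mem_centralizer_singleton_iff.2 hw2.symm
    have h2 : v ∈ centralizer {w} := mem_centralizer_singleton_iff.2 (hc _ hv _ hw)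
    have h3 : x⁻¹ * h ∈ centralizer {w} := by
      have := mul_mem (mul_mem h2 h1) (inv_mem h2)
      rwa [show v * (x * h) * v⁻¹ = (v * x * v⁻¹) * (v * h * v⁻¹) by group, hinv, e1] at this
    have h4 : h ∈ centralizer {w} := by
      refine mem_of_pow_mem_of_coprime (n := 2) ?_ (Nat.coprime_two_right.2 ho')
      have := mul_mem h1 h3
      rwa [e3.eq, show h * x * (x⁻¹ * h) = h ^ 2 by rw [sq]; group] at this
    have h5 : x ∈ centralizer {w} := (Subgroup.mul_mem_cancel_right _ h4).1 h1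
    have h6 : w ∈ centralizer {v} ⊓ centralizer {x} :=
      ⟨mem_centralizer_singleton_comm.1 h2, mem_centralizer_singleton_comm.1 h5⟩
    exact ⟨⟨w, h6⟩, ⟨h6, hw⟩, fun e => hw1 (congrArg Subtype.val e),
      Subtype.ext (mem_centralizer_singleton_iff.1 h4).symm⟩

end Cfsg.Agent.S3013
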