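import Cfsg.Statements.S3014
import Cfsg.Agent.H2.Transfer

set_option autoImplicit false
open Cfsg

namespace Cfsg.Agent.S3014

open Cfsg.Agent Cfsg.Agent.H2 Subgroup
open scoped Pointwise commutatorElement
theorem exists_ker {G : Type*} [Group G] [Finite G] {H M : Subgroup G} (hc : ⁅M, M⁆ ≤ H)
    (h : ∀ a ∉ M, ∀ x ∈ M, a⁻¹ * x * a ∈ M → a⁻¹ * x * a ∈ H) :
    ∃ N : Subgroup G, N.Normal ∧ ∀ x ∈ M, x ∈ N ↔ x ∈ H := by
  classical
  haveI := normal_subgroupOf_of_commutator_le hc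
  letI : CommGroup (M ⧸ H.subgroupOf M) :=
    { (inferInstance : Group (M ⧸ H.subgroupOf M)) with
      mul_comm := by
        rintro ⟨a⟩ ⟨b⟩
        change ((a * b : M) : M ⧸ H.subgroupOf M) = ((b * a : M) : M ⧸ H.subgroupOf M)
        rw [QuotientGroup.eq]
        refine mem_subgroupOf.2 (hc ?_)
        have := commutator_mem_commutator (M.inv_mem b.2) (M.inv_mem a.2)
        simpa [commutatorElement_def, mul_assoc] using this }
  let φ : M →* M ⧸ H.subgroupOf M := QuotientGroup.mk' _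
  refine ⟨(MonoidHom.transfer φ).ker, inferInstance, fun x hx => ?_⟩
  letI := Fintype.ofFinite (Quotient (MulAction.orbitRel (zpowers x) (G ⧸ M)))
  have hfix : ∀ y : G ⧸ M, y.out ∈ M → y = ((1 : G) : G ⧸ M) := fun y hy => by
    rw [← y.out_eq', QuotientGroup.eq]; simpa using M.inv_mem hy
  have hx1 : x • ((1 : G) : G ⧸ M) = ((1 : G) : G ⧸ M) := by
    rw [MulAction.Quotient.smul_mk, QuotientGroup.eq]; simpa using M.inv_mem hx
  have key : MonoidHom.transfer φ x = φ ⟨x, hx⟩ := by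
    rw [MonoidHom.transfer_eq_prod_quotient_orbitRel_zpowers_quot,
      Finset.prod_eq_single (Quotient.mk _ ((1 : G) : G ⧸ M))]
    · have e : (Quotient.mk (MulAction.orbitRel (zpowers x) (G ⧸ M)) ((1 : G) : G ⧸ M)).out = ((1 : G) : G ⧸ M) := by
        obtain ⟨⟨y, hy⟩, e⟩ := Quotient.mk_out (s := MulAction.orbitRel (zpowers x) (G ⧸ M)) ((1 : G) : G ⧸ M)
        rw [← e]
        exact (zpowers_le.2 (MulAction.mem_stabilizer_iff.2 hx1) : zpowers x ≤ MulAction.stabilizer G _) hy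
      have hm : ((1 : G) : G ⧸ M).out ∈ M := by
        have := QuotientGroup.eq.1 (((1 : G) : G ⧸ M).out_eq')
        simpa using M.inv_mem this
      have e2 : Function.minimalPeriod (x • ·) ((1 : G) : G ⧸ M) = 1 :=
        Function.minimalPeriod_eq_one_iff_isFixedPt.2 hx1
      have : φ ⟨x, hx⟩ = φ (⟨_, hm⟩⁻¹ * ⟨x, hx⟩ * ⟨_, hm⟩) := by
        rw [map_mul, map_mul, map_inv, mul_comm _ (φ ⟨x, hx⟩), inv_mul_cancel_right]
      rw [this]
      congr 1
      apply Subtype.ext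
      simp only [e, e2, pow_one]
      rfl
    · intro q _ hq
      refine (QuotientGroup.eq_one_iff _).2 (mem_subgroupOf.2 (h _ (fun hm => hq ?_) _ (M.pow_mem hx _)
        (QuotientGroup.out_conj_pow_minimalPeriod_mem M x q.out)))
      rw [← hfix _ hm, Quotient.out_eq]
    · simp
  rw [MonoidHom.mem_ker, key]
  exact (QuotientGroup.eq_one_iff _).trans mem_subgroupOf


/-- Let G be a finite group and H ≤ M ≤ G subgroups such that for every g ∈ G the subgroup generated by H and g H g⁻¹ meets M exactly in H. If H is a maximal subgroup of M and M is a maximal subgroup of G, then the normal closure of H in G meets M exactly in H. -/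
theorem result {G : Type*} [Group G] [Finite G] (H M : Subgroup G) (hHM : H ≤ M) (hcl : ∀ g : G, (H ⊔ H.map (MulAut.conj g).toMonoidHom) ⊓ M = H) (hmaxH : IsCoatom (H.subgroupOf M)) (hmaxM : IsCoatom M) : Subgroup.normalClosure (H : Set G) ⊓ M = H := by
  have hcl' : ∀ g : G, (H ⊔ cj g H) ⊓ M = H := hcl
  have hmax : ∀ K : Subgroup G, H ≤ K → K ≤ M → K = H ∨ K = M := by
    intro K h1 h2
    by_cases h : K.subgroupOf M = H.subgroupOf M
    · left
      have := congrArg (map M.subtype) h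
      rwa [map_subgroupOf_eq_of_le h2, map_subgroupOf_eq_of_le hHM] at this
    · right
      have := hmaxH.2 _ (lt_of_le_of_ne (comap_mono h1) (Ne.symm h))
      exact le_antisymm h2 (subgroupOf_eq_top.1 this)
  have hw : ∀ g, cj g H ≤ M → cj g H = H := fun g hg =>
    eq_of_le_of_card_ge ((le_inf le_sup_right hg).trans (hcl' g).le) (card_cj g H).ge
  have hn : ∀ g ∈ M, cj g H = H := fun g hg => hw g (cj_le_of_le hHM hg)
  have fin : ∀ N : Subgroup G, N.Normal → H ≤ N → N ⊓ M ≤ H → normalClosure (H : Set G) ⊓ M = H :=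
    fun N hN h1 h2 => le_antisymm ((inf_le_inf_right _ (normalClosure_le_normal h1)).trans h2)
      (le_inf le_normalClosure hHM)
  by_cases hHn : H.Normal
  · exact fin H hHn le_rfl inf_le_left
  have hN : normalizer (H : Set G) = M := by
    by_contra h
    have := hmaxM.2 _ (lt_of_le_of_ne (fun g hg => mem_normalizer_iff_cj.2 (hn g hg)) (Ne.symm h))
    exact hHn (normalizer_eq_top_iff.1 this)
  by_cases hx : ∃ a ∉ M, ∃ x ∈ M, a⁻¹ * x * a ∈ M ∧ a⁻¹ * x * a ∉ H
  · obtain ⟨a, ha, x, hx, h1, h2⟩ := hx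
    have hK : M ≤ normalizer ((H ⊔ cj a⁻¹ H : Subgroup G) : Set G) := by
      rcases hmax (M ⊓ normalizer ((H ⊔ cj a⁻¹ H : Subgroup G) : Set G))
        (le_inf hHM (le_sup_left.trans le_normalizer)) inf_le_left with h | h
      · refine absurd (h.le ⟨h1, mem_normalizer_iff_cj.2 ?_⟩) h2
        rw [cj_sup, hn _ h1, ← cj_mul, mul_inv_cancel_right, cj_mul, hn x hx]
      · exact inf_eq_left.1 h
    have hK' : normalizer ((H ⊔ cj a⁻¹ H : Subgroup G) : Set G) = ⊤ := by
      refine hmaxM.2 _ (lt_of_le_of_ne hK fun h => ha ?_)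
      have := hw a⁻¹ ((le_sup_right.trans le_normalizer).trans h.ge)
      rw [← hN]; simpa using inv_mem (mem_normalizer_iff_cj.2 this)
    exact fin _ (normalizer_eq_top_iff.1 hK') le_sup_left (hcl' _).le
  push Not at hx
  have hc : ⁅M, M⁆ ≤ H := by
    obtain ⟨x, hxM, hxH⟩ : ∃ x ∈ M, x ∉ H := by
      by_contra h
      push Not at h
      exact hmaxH.1 (subgroupOf_eq_top.2 h)
    have h1 : H ⊔ zpowers x = M :=
      (hmax _ le_sup_left (sup_le hHM (zpowers_le.2 hxM))).resolve_left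
        fun h => hxH (h.le (mem_sup_right (mem_zpowers x)))
    have h2 : ∀ y ∈ M, ∃ k : ℤ, ∃ u ∈ H, y = x ^ k * u := by
      intro y hy
      rw [← h1, sup_comm, ← SetLike.mem_coe, coe_mul_of_left_le_normalizer_right _ _ ((zpowers_le.2 hxM).trans hN.ge)] at hy
      obtain ⟨_, ⟨k, rfl⟩, u, hu, rfl⟩ := hy
      exact ⟨k, u, hu, rfl⟩
    rw [commutator_le]
    intro a ha b hb
    obtain ⟨k, u, hu, rfl⟩ := h2 a ha
    obtain ⟨l, v, hv, rfl⟩ := h2 b hb
    have c : ∀ g ∈ M, ∀ w ∈ H, g * w * g⁻¹ ∈ H := fun g hg w hw' => (hn g hg).le (conj_mem_cj g hw')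
    have : ⁅x ^ k * u, x ^ l * v⁆ = (x ^ k * u * (x ^ k)⁻¹) *
        (x ^ (k + l) * (v * u⁻¹) * (x ^ (k + l))⁻¹) * (x ^ l * v⁻¹ * (x ^ l)⁻¹) := by
      rw [commutatorElement_def]; group
    rw [this]
    exact mul_mem (mul_mem (c _ (zpow_mem hxM _) _ hu) (c _ (zpow_mem hxM _) _ (mul_mem hv (inv_mem hu))))
      (c _ (zpow_mem hxM _) _ (inv_mem hv))
  obtain ⟨N, hNn, h⟩ := exists_ker hc hx
  exact fin N hNn (fun x hx => (h x (hHM hx)).2 hx) fun x hx => (h x hx.2).1 hx.1

end Cfsg.Agent.S3014
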