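import Cfsg.Statements.S3015
import Cfsg.Agent.S3014
import Cfsg.Agent.L.K4

set_option autoImplicit false
open Cfsg

namespace Cfsg.Agent.S3015

open Cfsg.Agent Cfsg.Agent.H2 Subgroup
open scoped Pointwise commutatorElement

/-- Let G be a finite non-abelian simple group, M a maximal subgroup of G and H a normal subgroup of M of prime index in M. Then G is generated by H together with one of its conjugates. -/
theorem result {G : Type*} [Group G] [Finite G] [IsSimpleGroup G] (hG : ¬ IsMulCommutative G) (M H : Subgroup G) (hmaxM : IsCoatom M) (hHM : H ≤ M) (hHn : (H.subgroupOf M).Normal) (hidx : (H.relIndex M).Prime) : ∃ g : G, H ⊔ H.map (MulAut.conj g).toMonoidHom = ⊤ := by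
  by_contra hne
  push Not at hne
  have hne' : ∀ g : G, H ⊔ cj g H ≠ ⊤ := hne
  haveI := Fact.mk hidx
  have hG' : ∃ x y : G, x * y ≠ y * x := by
    by_contra h
    push Not at h
    exact hG ⟨⟨h⟩⟩
  have hmax : ∀ K L : Subgroup G, K ≤ M → K.relIndex M = H.relIndex M → K ≤ L → L ≤ M → L = K ∨ L = M := by
    intro K L h0 e h1 h2
    have := relIndex_mul_relIndex K L M h1 h2
    rcases (Nat.dvd_prime hidx).1 (e ▸ Dvd.intro _ this) with h | h
    · exact Or.inl (le_antisymm (relIndex_eq_one.1 h) h1)
    · right
      rw [h, e] at this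
      exact le_antisymm h2 (relIndex_eq_one.1 (Nat.eq_of_mul_eq_mul_left hidx.pos (by rw [this, mul_one])))
  have hMn : M ≤ normalizer (H : Set G) := (normal_subgroupOf_iff_le_normalizer hHM).1 hHn
  have nrm : ∀ K : Subgroup G, K ≤ M → M ≤ normalizer (K : Set G) → ¬ normalizer (K : Set G) ≤ M → K = ⊥ := by
    intro K h1 h2 h3
    have := normalizer_eq_top_iff.1 (hmaxM.2 _ (lt_of_le_of_ne h2 fun h => h3 h.ge))
    exact this.eq_bot_or_eq_top.resolve_right fun h => hmaxM.1 (top_le_iff.1 (h ▸ h1))
  have hHM' : H ≠ M := by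
    rintro rfl; rw [relIndex_self] at hidx; exact Nat.not_prime_one hidx
  by_cases h : ∀ g : G, (H ⊔ cj g H) ⊓ M = H
  · have hco : IsCoatom (H.subgroupOf M) := by
      refine ⟨fun e => hHM' (le_antisymm hHM (subgroupOf_eq_top.1 e)), fun K hK => ?_⟩
      rcases hmax H (K.map M.subtype) hHM rfl (by
        rw [← map_subgroupOf_eq_of_le hHM]; exact map_mono hK.le) (map_subtype_le _) with e | e
      · exact absurd (by rw [← e]; exact comap_map_eq_self_of_injective M.subtype_injective K) hK.ne
      · rw [← comap_map_eq_self_of_injective M.subtype_injective K, e]; exact subgroupOf_self M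
    have h1 := S3014.result H M hHM h hco hmaxM
    rcases (inferInstance : (normalClosure (H : Set G)).Normal).eq_bot_or_eq_top with e | e
    · rw [e, bot_inf_eq] at h1
      subst h1
      rw [relIndex_bot_left] at hidx this
      have hP : IsPGroup (Nat.card M) M := IsPGroup.of_card (n := 1) (pow_one _).symm
      have hNM : normalizer (M : Set G) ≤ M := by
        by_contra hc
        exact hHM' (nrm M le_rfl le_normalizer hc).symm
      have hS : SylIn (Nat.card M) M ⊤ := sylIn_of_sylIn_normalizer
        ⟨le_inf le_top le_normalizer, hP, fun Q hQ _ hle => le_antisymm (hQ.trans (inf_le_right.trans hNM)) hle⟩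
      haveI : IsCyclic M := isCyclic_of_prime_card rfl
      exact L.not_pNil_of_simple (card_subgroup_dvd_card M) hG'
        (hS.pNil_of_normalizer_le (inf_le_right.trans (hNM.trans le_centralizer_self_of_comm)))
    · rw [e, top_inf_eq] at h1
      exact hHM' h1.symm
  push Not at h
  obtain ⟨g, hg⟩ := h
  have h1 : M ≤ H ⊔ cj g H :=
    inf_eq_right.1 ((hmax H _ hHM rfl (le_inf le_sup_left hHM) inf_le_right).resolve_left hg)
  have h2 : H ⊔ cj g H = M := by
    by_contra h
    exact hne' g (hmaxM.2 _ (lt_of_le_of_ne h1 (Ne.symm h)))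
  have h3 : cj g H ≤ M := h2 ▸ le_sup_right
  have hgM : g ∉ M := fun h => hHM' (by rw [← h2, cj_eq_of_mem_normalizer (hMn h), sup_idem])
  have hr : resOf (H.relIndex M) M = resOf (H.relIndex M) H :=
    le_antisymm (by
      rw [← resOf_resOf]; exact resOf_mono (resOf_le_of_relIndex (k := 1) hMn (pow_one _).symm))
      (resOf_mono hHM)
  have h4 : resOf (H.relIndex M) M = ⊥ := by
    refine nrm _ (resOf_le _ _) (le_normalizer_resOf _ _) fun h => hgM (h (mem_normalizer_of_cj_le ?_))
    nth_rewrite 1 [hr]
    rw [cj_resOf]; exact resOf_mono h3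
  have hP : IsPGroup (H.relIndex M) M := by
    obtain ⟨P, hP⟩ := exists_sylIn (H.relIndex M) M
    have := hP.resOf_sup
    rw [h4, bot_sup_eq] at this
    exact this ▸ hP.pgrp
  have e : (cj g H).relIndex M = H.relIndex M := by
    have e1 := card_eq_relIndex_mul hHM
    have e2 := card_eq_relIndex_mul h3
    rw [card_cj, e1] at e2
    exact (Nat.eq_of_mul_eq_mul_right Nat.card_pos e2).symm
  have hlt : cj g H < M := lt_of_le_of_ne h3 fun h => by
    rw [h, relIndex_self] at e; exact Nat.not_prime_one (e ▸ hidx)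
  have h5 : M ≤ normalizer ((cj g H : Subgroup G) : Set G) := by
    have := lt_inf_normalizer hP hlt
    exact inf_eq_left.1 ((hmax _ _ h3 e this.le inf_le_left).resolve_left this.ne')
  have h6 : cj g H = ⊥ := by
    refine nrm _ h3 h5 fun h => ?_
    have h7 : cj g M ≤ M := by
      refine le_trans ?_ h
      rw [← cj_normalizer]; exact cj_mono g hMn
    have h8 := nrm M le_rfl le_normalizer fun h' => hgM (h' (mem_normalizer_of_cj_le h7))
    exact hHM' (le_antisymm hHM (h8 ▸ bot_le))
  rw [h6, sup_bot_eq] at h2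
  exact hHM' h2

end Cfsg.Agent.S3015
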