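import Cfsg.Statements.S3025
import Cfsg.Agent.H9.CNg

set_option autoImplicit false
open Cfsg

namespace Cfsg.Agent.S3025

open Cfsg.Agent Cfsg.Agent.H9

/-- Let F be a finite group and H a nontrivial subgroup of F that is contained in every nontrivial subgroup of F which H normalizes. Then F has a nontrivial normal subgroup N contained in every nontrivial normal subgroup of F (a unique minimal normal subgroup), N is simple, and one of the following holds: C_F(N) = 1; or H = N has prime order p, C_F(N) is cyclic of order a power of p, and F/C_F(N) is cyclic of order dividing p − 1; or H = N has order 2, N is central in F, and F is a generalized quaternion group. -/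
theorem result {F : Type*} [Group F] [Finite F] (H : Subgroup F) (hH : H ≠ ⊥)
    (hmin : ∀ R : Subgroup F, R ≠ ⊥ → H ≤ Subgroup.normalizer (R : Set F) → H ≤ R) :
    ∃ N : Subgroup F, N.Normal ∧ N ≠ ⊥ ∧ (∀ M : Subgroup F, M.Normal → M ≠ ⊥ → N ≤ M) ∧ IsSimpleGroup ↥N ∧
      (Subgroup.centralizer (N : Set F) = ⊥ ∨
       (H = N ∧ (Nat.card N).Prime ∧ IsCyclic ↥(Subgroup.centralizer (N : Set F)) ∧
          (∃ k : ℕ, 1 ≤ k ∧ Nat.card ↥(Subgroup.centralizer (N : Set F)) = Nat.card N ^ k) ∧
          (∃ g : F, Subgroup.centralizer (N : Set F) ⊔ Subgroup.zpowers g = ⊤) ∧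
          (Subgroup.centralizer (N : Set F)).index ∣ Nat.card N - 1) ∨
       (H = N ∧ Nat.card N = 2 ∧ Subgroup.centralizer (N : Set F) = ⊤ ∧
          ∃ k : ℕ, 1 ≤ k ∧ Nonempty (F ≃* QuaternionGroup (2 ^ k)))) := by
  have hHn : ∀ M : Subgroup F, M.Normal → M ≠ ⊥ → H ≤ M := fun M _ h1 =>
    hmin M h1 Subgroup.le_normalizer_of_normal
  have htop : (⊤ : Subgroup F) ≠ ⊥ := fun h => hH (eq_bot_iff.2 (h ▸ le_top))
  obtain ⟨N, -, hNn, hN1, hNmin⟩ := L.exists_minimal_normal_le (⊤ : Subgroup F) htop
  have hHN := hHn N hNn hN1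
  have hNle : ∀ M : Subgroup F, M.Normal → M ≠ ⊥ → N ≤ M := by
    intro M hM h1
    rcases hNmin (N ⊓ M) inferInstance inf_le_left with h | h
    · exact absurd (eq_bot_iff.2 (h ▸ le_inf hHN (hHn M hM h1))) hH
    · exact h ▸ inf_le_right
  have hNs : IsSimpleGroup N := by
    haveI : Nontrivial N := (Subgroup.nontrivial_iff_ne_bot N).2 hN1
    refine ⟨fun K hK => ?_⟩
    by_cases hK1 : K = ⊥
    · exact Or.inl hK1
    right
    have h1 : H ≤ (K.map N.subtype).normalCore := by
      intro h hh g
      have h2 : H ≤ (K.map N.subtype).map (MulAut.conj g⁻¹).toMonoidHom := by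
        apply hmin
        · rw [ne_eq, Subgroup.map_eq_bot_iff_of_injective _ (MulAut.conj g⁻¹).injective,
            Subgroup.map_eq_bot_iff_of_injective _ N.subtype_injective]
          exact hK1
        · rw [L.le_normalizer_iff_conj]
          rintro a ha _ ⟨_, ⟨k, hk, rfl⟩, rfl⟩
          refine ⟨_, ⟨_, hK.conj_mem k hk ⟨g * a * g⁻¹, hNn.conj_mem a (hHN ha) g⟩, rfl⟩, ?_⟩
          simp [mul_assoc]
      obtain ⟨y, hy, e⟩ := h2 hh
      have : g * h * g⁻¹ = y := by rw [← e]; simp [mul_assoc]
      rwa [this]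
    have h2 := (hNle _ inferInstance (fun h => hH (eq_bot_iff.2 (h ▸ h1)))).trans
      (K.map N.subtype).normalCore_le
    rw [eq_top_iff]
    intro x _
    obtain ⟨y, hy, e⟩ := h2 x.2
    rwa [← show y = x from Subtype.ext e]
  refine ⟨N, hNn, hN1, hNle, hNs, ?_⟩
  set C := Subgroup.centralizer (N : Set F) with hC
  by_cases hC1 : C = ⊥
  · exact Or.inl hC1
  right
  have hNC : N ≤ C := hNle C inferInstance hC1
  haveI : IsMulCommutative N := L.isMulCommutative_of_forall fun a ha b hb => hNC hb a ha
  have hp : (Nat.card N).Prime := by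
    letI : CommGroup N := { mul_comm := fun a b => mul_comm' a b }
    exact IsSimpleGroup.prime_card
  haveI := Fact.mk hp
  have hHeq : H = N := (L.eq_bot_or_eq_of_prime_card hp hHN).resolve_left hH
  have hsub : ∀ R : Subgroup F, R ≤ C → R ≠ ⊥ → N ≤ R := by
    intro R hR h1
    rw [← hHeq]
    refine hmin R h1 (le_trans ?_ (Subgroup.centralizer_le_normalizer _))
    rw [hHeq]; exact Subgroup.le_centralizer_iff.1 hR
  have hsub' : ∀ R : Subgroup C, (Nat.card R).Prime → R.map C.subtype = N := by
    intro R hR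
    have h1 : R.map C.subtype ≠ ⊥ := by
      rw [ne_eq, Subgroup.map_eq_bot_iff_of_injective _ C.subtype_injective]
      rintro rfl; simp [Nat.not_prime_one] at hR
    exact ((L.eq_bot_or_eq_of_prime_card (by rwa [L.card_map_subtype])
      (hsub _ (Subgroup.map_subtype_le _) h1)).resolve_left hN1).symm
  have hCp : IsPGroup (Nat.card N) C := by
    refine (L.isPi_singleton_iff_isPGroup hp).1 fun q hq hd => ?_
    haveI := Fact.mk hq
    obtain ⟨t, ht⟩ := exists_prime_orderOf_dvd_card' q hd
    have := hsub' (Subgroup.zpowers t) (by rwa [Nat.card_zpowers, ht])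
    show q = _
    rw [← this, L.card_map_subtype, Nat.card_zpowers, ht]
  haveI : IsCyclic N := isCyclic_of_prime_card rfl
  set f : F →* MulAut N := MulAut.conjNormal with hf
  have hker : f.ker = C := by
    ext g
    rw [MonoidHom.mem_ker, hC, Subgroup.mem_centralizer_iff]
    constructor
    · intro h x hx
      have := congrArg (fun φ : MulAut N => (φ ⟨x, hx⟩ : F)) h
      simp only [hf, MulAut.conjNormal_apply, MulAut.one_apply] at this
      rw [← mul_inv_eq_iff_eq_mul.1 this]
    · intro h
      ext x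
      simp only [hf, MulAut.conjNormal_apply, MulAut.one_apply]
      rw [← h x x.2]; group
  have hidx : C.index ∣ Nat.card N - 1 := by
    rw [← hker, Subgroup.index_ker, ← Nat.totient_prime hp, ← IsCyclic.card_mulAut]
    exact Subgroup.card_subgroup_dvd_card _
  rcases L.isCyclic_or_quaternion_of_unique hCp (fun A B hA hB => Subgroup.map_injective C.subtype_injective
    ((hsub' A (hA ▸ hp)).trans (hsub' B (hB ▸ hp)).symm)) with h | ⟨h2, n, hn, ⟨e⟩⟩
  · left
    refine ⟨hHeq, hp, h, ?_, ?_, hidx⟩
    · obtain ⟨k, hk⟩ := hCp.exists_card_eq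
      refine ⟨k, ?_, hk⟩
      rcases k with _ | k
      · exact absurd (Subgroup.card_eq_one.1 (by simpa using hk)) hC1
      · omega
    · haveI : IsCyclic (MulAut N) := by
        haveI : IsCyclic (ZMod (Nat.card N))ˣ := inferInstance
        exact isCyclic_of_surjective _ (IsCyclic.mulAutMulEquiv N).symm.surjective
      obtain ⟨⟨_, g, rfl⟩, hg⟩ := IsCyclic.exists_generator (α := f.range)
      refine ⟨g, eq_top_iff.2 fun x _ => ?_⟩
      obtain ⟨k, hk⟩ := hg ⟨f x, x, rfl⟩
      have hk' : f g ^ k = f x := congrArg Subtype.val hk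
      have : x * (g ^ k)⁻¹ ∈ C := by
        rw [← hker, MonoidHom.mem_ker, map_mul, map_inv, map_zpow, hk', mul_inv_cancel]
      have e : x = x * (g ^ k)⁻¹ * g ^ k := by group
      rw [e]
      exact Subgroup.mul_mem_sup this ⟨k, rfl⟩
  · right
    have hCt : C = ⊤ := by
      rw [h2] at hidx
      exact Subgroup.index_eq_one.1 (by simpa using hidx)
    exact ⟨hHeq, h2, hCt, n, hn, ⟨((MulEquiv.subgroupCongr hCt).trans Subgroup.topEquiv).symm.trans e⟩⟩

end Cfsg.Agent.S3025
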