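import Cfsg.Statements.S3027
import Mathlib
import Cfsg.Agent.H2.Loc2

set_option autoImplicit false
open Cfsg

namespace Cfsg.Agent.S3027

open Cfsg.Agent.H2 Cfsg.Agent.H8 Subgroup
open scoped commutatorElement

/-- Let G be a finite group and D a normal subgroup of G such that G/D is perfect (that is, G = G′D). Then among the subnormal subgroups B of G with BD = G there is a least one, and it is normal in G. -/
theorem result {G : Type*} [Group G] [Finite G] (D : Subgroup G) [D.Normal] (hperf : ⁅(⊤ : Subgroup G), (⊤ : Subgroup G)⁆ ⊔ D = ⊤) :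
    ∃ B : Subgroup G, B.Normal ∧ B ⊔ D = ⊤ ∧ ∀ B' : Subgroup G, B'.IsSubnormal → B' ⊔ D = ⊤ → B ≤ B' := by
  have e : ∀ K : Subgroup G, K ⊔ D = ⊤ ↔ K.map (QuotientGroup.mk' D) = ⊤ := fun K => by
    have := comap_map_eq (QuotientGroup.mk' D) K
    rw [QuotientGroup.ker_mk'] at this
    rw [← this]
    exact ⟨fun h => by
      rw [← map_comap_eq_self_of_surjective (QuotientGroup.mk'_surjective D) (K.map _), h,
        Subgroup.map_top_of_surjective _ (QuotientGroup.mk'_surjective D)], fun h => by rw [h, comap_top]⟩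
  have hc : ∀ K L : Subgroup G, K ⊔ D = ⊤ → L ⊔ D = ⊤ → ⁅K, L⁆ ⊔ D = ⊤ := fun K L hK hL => by
    rw [e] at hK hL hperf ⊢
    rw [Subgroup.map_commutator, Subgroup.map_top_of_surjective _ (QuotientGroup.mk'_surjective D)] at hperf
    rw [Subgroup.map_commutator, hK, hL, hperf]
  have key : ∀ X : Subgroup G, X ⊔ D = ⊤ → ∃ K ≤ X, normalizer (X : Set G) ≤ normalizer (K : Set G) ∧
      K ⊔ D = ⊤ ∧ ∀ L ≤ X, X ≤ normalizer (L : Set G) → L ⊔ D = ⊤ → K ≤ L := by
    intro X hX
    obtain ⟨K, hK, hm⟩ := (Set.toFinite {K : Subgroup G | K ≤ X ∧ X ≤ normalizer (K : Set G) ∧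
      K ⊔ D = ⊤}).exists_minimal ⟨X, le_rfl, le_normalizer, hX⟩
    have h1 : ∀ L ≤ X, X ≤ normalizer (L : Set G) → L ⊔ D = ⊤ → K ≤ L := fun L h1 h2 h3 =>
      (hm ⟨inf_le_left.trans hK.1, le_normalizer_inf hK.2.1 h2, top_le_iff.1 ((hc K L hK.2.2 h3).ge.trans
        (sup_le_sup_right (commutator_le_inf_of_norm (h1.trans hK.2.1) (hK.1.trans h2)) _))⟩
        inf_le_left).trans inf_le_right
    refine ⟨K, hK.1, fun g hg => ?_, hK.2.2, h1⟩
    refine H8.mem_normalizer_of_cj_le (H8.cj_le_iff.2 (h1 _ (cj_le_of_mem hK.1 (inv_mem hg)) ?_ ?_))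
    · rw [← H8.cj_normalizer, ← H8.cj_eq_of_mem_normalizer (inv_mem hg)]
      exact H8.cj_mono hK.2.1 _
    · rw [← H8.cj_eq_of_normal D g⁻¹, ← H8.cj_sup, hK.2.2, H8.cj_top]
  obtain ⟨B, -, hB1, hB2, hB3⟩ := key ⊤ (top_sup_eq _)
  haveI hBn : B.Normal := normal_of_top_le (le_normalizer.trans hB1)
  refine ⟨B, hBn, hB2, fun B' hB' => ?_⟩
  have := SN.of_isSubnormal hB'
  clear hB'
  induction this with
  | refl => exact fun _ => le_top
  | step A C hAC _ hn ih =>
    intro hA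
    have h1 := ih (top_le_iff.1 (hA.ge.trans (sup_le_sup_right hAC _)))
    obtain ⟨K, -, hK1, hK2, hK3⟩ := key B hB2
    refine (hB3 K le_top (le_trans (normal_iff_top_le.1 hBn) hK1) hK2).trans
      ((hK3 _ inf_le_right (le_normalizer_inf (h1.trans hn) le_normalizer) ?_).trans inf_le_left)
    exact top_le_iff.1 ((hc A B hA hB2).ge.trans (sup_le_sup_right
      (commutator_le_inf_of_norm (h1.trans hn) le_normalizer_of_normal) _))

end Cfsg.Agent.S3027
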