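import Cfsg.Statements.S3035
import Mathlib
import Cfsg.Agent.H7.BSW4
import Cfsg.Agent.S0254
import Cfsg.Agent.S0255
import Cfsg.Agent.H4.Linear

set_option autoImplicit false
open Cfsg

namespace Cfsg.Agent.S3035

open Cfsg.Agent.H7 Cfsg.Agent.H2 Subgroup

variable {G : Type*} [Group G] [Finite G]

theorem Finite.two_lt_card_iff_aux {α : Type*} [Finite α] (a b c : α) (h1 : a ≠ b) (h2 : a ≠ c)
    (h3 : b ≠ c) : 2 < Nat.card α := by
  classical
  haveI := Fintype.ofFinite α
  rw [Nat.card_eq_fintype_card]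
  exact Fintype.two_lt_card_iff.2 ⟨a, b, c, h1, h2, h3⟩

theorem small_normal {z x y : G} (h : MC (centralizer ({z} : Set G)) 1 x y 1) (e : z = x ^ (2 * 1))
    (hG : Nat.card G ≠ 8) (M : Subgroup G) [hM : M.Normal] (hc : Nat.card M ≤ 2) : M = ⊥ := by
  by_contra h0
  obtain ⟨⟨m, hm⟩, m1⟩ := ne_bot_iff_exists_ne_one.1 h0
  have m1' : m ≠ 1 := fun a => m1 (Subtype.ext a)
  have c : ∀ g, g * m = m * g := fun g => by
    by_contra a
    have := (Finite.two_lt_card_iff_aux (α := M) ⟨1, M.one_mem⟩ ⟨m, hm⟩ ⟨_, hM.conj_mem m hm g⟩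
      (fun b => m1' (congrArg Subtype.val b).symm) (fun b => conj_ne_one m1' (congrArg Subtype.val b).symm)
      (fun b => a (mul_inv_eq_iff_eq_mul.1 (congrArg Subtype.val b).symm)))
    omega
  have mz : m = z := ((h.mem_Z.1 (h.center_eq ▸ mem_inf.2 ⟨mem_centralizer_singleton_iff.2 (c z).symm,
    fun g _ => c g⟩)).resolve_left m1').trans e.symm
  have : centralizer ({z} : Set G) = ⊤ := eq_top_iff.2 fun g _ =>
    mem_centralizer_singleton_iff.2 (mz ▸ c g)
  have h8 := h.card
  rw [this, card_top] at h8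
  exact hG h8

theorem one_act {z x y : G} (hz : orderOf z = 2) (h : MC (centralizer ({z} : Set G)) 1 x y 1)
    (hy : y * y = 1) (e : z = x ^ (2 * 1)) (hS : SylIn 2 (centralizer ({z} : Set G)) ⊤)
    (ha : Act (centralizer ({z} : Set G)) x y) (hb : ¬ Act (centralizer ({z} : Set G)) x (y * x)) :
    Nonempty (G ≃* Equiv.Perm (Fin 4)) ∨ Nonempty (G ≃* Equiv.Perm (Fin 5)) := by
  classical
  have k : K4 (zpowers (x ^ 2) ⊔ zpowers y) z y := e ▸ h.k4 hy
  have i2 := h.index_res hS ha hb
  have e1 := h.inf_res_eq hS ha hb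
  have s0 := h.sylIn_res hS ha hb
  set V := zpowers (x ^ 2) ⊔ zpowers y
  set G0 := pResidual 2 G
  have xG : x ∉ G0 := fun a => h.x_not_mem_M (e1.le ⟨h.x_mem, a⟩)
  have zG : z ∈ G0 := s0.le k.a_mem
  have yG : y ∈ G0 := s0.le k.b_mem
  have xz : x * z = z * x := mem_centralizer_singleton_iff.1 h.x_mem
  have c1 : ∀ u, IsConj z u → ∃ g ∈ G0, g * z * g⁻¹ = u := fun u hu => by
    obtain ⟨g, rfl⟩ := isConj_iff.1 hu
    by_cases a : g ∈ G0
    · exact ⟨g, a, rfl⟩
    · refine ⟨g * x, (mul_mem_iff_of_index_two i2).2 (iff_of_false a xG), ?_⟩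
      rw [mul_assoc g x, xz]; group
  have c2 : ∀ u ∈ G0, orderOf u = 2 → IsConj z u := fun u hu ou => by
    obtain ⟨g, -, hg⟩ := s0.exists_conj_mem hu (k := 1) (by rw [ou, pow_one])
    refine IsConj.trans ?_ (isConj_iff.2 ⟨g, rfl⟩).symm
    have zy : IsConj z y := e ▸ h.isConj_z ha hy
    rcases (k.mem _).1 hg with a | a | a | a
    · exact absurd a (conj_ne_one (ne_one_of_ord ou))
    · rw [a]
    · rwa [a]
    · obtain ⟨b, -, hb⟩ := h.exists_conj (by rw [e]; exact MC.z_mem_B : z ∈ zpowers (x ^ 2))
      rw [a, k.comm, ← hb]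
      exact zy.trans (isConj_iff.2 ⟨b, rfl⟩)
  have hz0 : orderOf (⟨z, zG⟩ : G0) = 2 := by rw [← Subgroup.orderOf_coe]; exact hz
  have mz : ∀ g : G0, g ∈ zpowers (⟨z, zG⟩ : G0) ↔ g = 1 ∨ g = ⟨z, zG⟩ := fun g => by
    rw [mem_zpowers_iff_mem_range_orderOf, hz0]
    simp [Finset.range_add_one, eq_comm, or_comm]
    rfl
  have b : BSW (⟨z, zG⟩ : G0) (zpowers ⟨z, zG⟩) ⟨y, yG⟩ := by
    refine BSW.of hz0 (mem_zpowers _) (ord_two (fun a => k.b1 (congrArg Subtype.val a)) (Subtype.ext hy))
      (fun a => ?_) (fun g hg => ?_) (fun g hg _ => (mz g).1 hg) (fun g hg => ?_)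
      (fun g hg g1 ho => ?_) (fun u hu => ?_)
    · exact ((mz _).1 a).elim (fun a => k.b1 (congrArg Subtype.val a))
        fun a => k.ne (congrArg Subtype.val a).symm
    · rcases (mz g).1 hg with rfl | rfl
      · simp
      · exact Subtype.ext (show y * z * y⁻¹ = z⁻¹ by rw [← k.comm, k.a_inv, mul_inv_cancel_right])
    · rcases (k.mem _).1 (e1.le ⟨mem_centralizer_singleton_iff.2 (congrArg Subtype.val hg), g.2⟩)
        with a | a | a | a
      · exact Or.inl ((mz _).2 (Or.inl (Subtype.ext a)))
      · exact Or.inl ((mz _).2 (Or.inr (Subtype.ext a)))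
      · exact Or.inr ((mz _).2 (Or.inl (Subtype.ext (show g.1 * y = 1 by rw [a, hy]))))
      · exact Or.inr ((mz _).2 (Or.inr (Subtype.ext (show g.1 * y = z by
          rw [a, mul_assoc, hy, mul_one]))))
    · rw [((mz g).1 hg).resolve_left g1, hz0] at ho
      exact absurd ho (by decide)
    · obtain ⟨g, hg, a⟩ := c1 u (c2 u u.2 (by rw [Subgroup.orderOf_coe]; exact hu))
      exact isConj_iff.2 ⟨⟨g, hg⟩, Subtype.ext a⟩
  obtain ⟨Q, D, c, hq⟩ := b.exists_BSWC
  rw [Nat.card_zpowers, hz0] at hq
  have cG := G0.card_mul_index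
  rw [i2] at cG
  have c0 := c.card
  have cD := c.cardD
  rcases hq with hq | hq
  · right
    have cG' : Nat.card G = 120 := by rw [hq] at c0; omega
    haveI : Fact (Nat.Prime 5) := ⟨by norm_num⟩
    obtain ⟨f⟩ := c.psl (c.eq_top (fun a => by rw [a, card_bot] at cD; omega) _ b.mem_commutator)
      (ZMod 5) (by rw [hq, ZMod.card])
    haveI := Matrix.ProjectiveSpecialLinearGroup.rank_two_simple (F := ZMod 5) (by simp)
    haveI := f.isSimpleGroup
    have cV : centralizer (V : Set G) = V := by
      exact (inf_eq_right.2 (centralizer_le (Set.singleton_subset_iff.2 k.a_mem))).symm.trans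
        (h.cent_k4 k.isKleinFour h.M_le)
    have r6 : (centralizer (V : Set G)).relIndex (normalizer (V : Set G)) = 6 :=
      (h.relIndex_k4 hS k.isKleinFour h.M_le).resolve_left fun a => by
        obtain ⟨g, h1, h2, h3⟩ := h.oddN_of_act_k4 ha hy k.isKleinFour h.M_le k.b_mem (by simp)
        have h4 : g ^ 2 ∈ centralizer (V : Set G) := by
          have := sq_mem_of_index_two a ⟨g, h1⟩
          exact this
        exact h3 (zpowers_le_of_mem h4 (mem_zpowers_pow_iff.2 h2.symm))
    have cN := H1.card_mul_relIndex (centralizer_le_normalizer (V : Set G))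
    rw [r6, cV, k.card] at cN
    have i5 := (normalizer (V : Set G)).card_mul_index
    have i5' : (normalizer (V : Set G)).index = 5 := by rw [← cN, cG'] at i5; omega
    refine equiv_perm_of_index i5' (small_normal h e (by omega) _ ?_) cG'
    rcases (inferInstance : ((normalizer (V : Set G)).normalCore.subgroupOf G0).Normal).eq_bot_or_eq_top
      with a | a
    · have h1 := H1.card_mul_relIndex (inf_le_left : (normalizer (V : Set G)).normalCore ⊓ G0 ≤ _)
      rw [disjoint_iff.1 (subgroupOf_eq_bot.1 a), card_bot, one_mul, relIndex_bot_left] at h1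
      have h2 := relIndex_dvd_index_of_normal G0 (normalizer (V : Set G)).normalCore
      rw [← inf_relIndex_right, inf_comm, disjoint_iff.1 (subgroupOf_eq_bot.1 a), relIndex_bot_left, i2] at h2
      exact Nat.le_of_dvd two_pos h2
    · have := index_dvd_of_le ((subgroupOf_eq_top.1 a).trans (normalCore_le _))
      rw [i2, i5'] at this
      omega
  · left
    have cG' : Nat.card G = 24 := by rw [show Nat.card Q = 3 by omega] at c0; omega
    haveI : Fact (Nat.Prime 3) := ⟨by norm_num⟩
    obtain ⟨P⟩ : Nonempty (Sylow 3 G) := inferInstance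
    have cP : Nat.card (P : Subgroup G) = 3 := by
      rw [P.card_eq_multiplicity, cG']; decide +kernel
    have nn : ¬ (P : Subgroup G).Normal := fun hn => by
      obtain ⟨g, hg, og⟩ := H1.exists_mem_orderOf_eq_prime (H := (P : Subgroup G)) Nat.prime_three (by rw [cP])
      have eP : zpowers g = P := eq_of_le_of_card_ge (zpowers_le_of_mem hg)
        (by rw [cP, Nat.card_zpowers, og])
      have g1 : g ≠ 1 := by rintro rfl; simp at og
      have h1 := eP.ge (hn.conj_mem g hg x)
      rw [mem_zpowers_iff_mem_range_orderOf, og] at h1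
      have h2 : z * g * z⁻¹ = g := by
        have : z * g * z⁻¹ = x * (x * g * x⁻¹) * x⁻¹ := by rw [e]; simp only [mul_one, pow_two]; group
        rw [this]
        simp only [Finset.range_add_one, Finset.range_zero, Finset.image_insert, Finset.mem_insert,
          Finset.image_empty, Finset.notMem_empty, or_false, pow_zero, pow_one] at h1
        rcases h1 with a | a | a
        · rw [a, ← conj_pow, a, ← pow_mul, show 2 * 2 = 3 + 1 from rfl, pow_succ, ← og,
            pow_orderOf_eq_one, one_mul]
        · rw [a, a]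
        · exact absurd a (conj_ne_one g1)
      have := orderOf_dvd_natCard _ (mem_centralizer_singleton_iff.2
        (mul_inv_eq_iff_eq_mul.1 h2).symm : g ∈ centralizer ({z} : Set G))
      rw [h.card, og] at this
      omega
    have i4 : (normalizer ((P : Subgroup G) : Set G)).index = 4 := by
      have h1 := card_sylow_modEq_one 3 G
      have h2 := P.card_dvd_index
      have h3 := (P : Subgroup G).card_mul_index
      rw [cP, cG'] at h3
      rw [show (P : Subgroup G).index = 8 by omega] at h2
      rw [P.card_eq_index_normalizer] at h1 h2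
      have h4 : (normalizer ((P : Subgroup G) : Set G)).index ≠ 1 := fun a =>
        nn (normalizer_eq_top_iff.1 (index_eq_one.1 a))
      have := Nat.le_of_dvd (by norm_num) h2
      change (normalizer ((P : Subgroup G) : Set G)).index ≡ 1 [MOD 3] at h1
      change (normalizer ((P : Subgroup G) : Set G)).index ∣ 8 at h2
      generalize (normalizer ((P : Subgroup G) : Set G)).index = n at *
      unfold Nat.ModEq at h1
      interval_cases n <;> omega
    refine equiv_perm_of_index i4 (small_normal h e (by omega) _ ?_) cG'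
    have h1 := (normalizer ((P : Subgroup G) : Set G)).card_mul_index
    rw [i4, cG'] at h1
    have h2 := card_dvd_of_le (normalCore_le (normalizer ((P : Subgroup G) : Set G)))
    rw [show Nat.card (normalizer ((P : Subgroup G) : Set G)) = 6 by omega] at h2
    have h3 : ¬ 3 ∣ Nat.card (normalizer ((P : Subgroup G) : Set G)).normalCore := fun a => by
      obtain ⟨g, hg, og⟩ := H1.exists_mem_orderOf_eq_prime Nat.prime_three a
      have : ∀ u, u * g * u⁻¹ ∈ (P : Subgroup G) := fun u =>
        (((isPGroup_zpowers_of_orderOf (k := 1) (by rw [ord_conj, og, pow_one])).inf_normalizer_sylow P).le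
          ⟨mem_zpowers _, normalCore_le _ ((normalCore_normal _).conj_mem g hg u)⟩).2
      have eP : zpowers g = P := eq_of_le_of_card_ge (zpowers_le_of_mem (by simpa using this 1))
        (by rw [cP, Nat.card_zpowers, og])
      refine nn ⟨fun v hv u => ?_⟩
      obtain ⟨i, rfl⟩ := eP.ge hv
      simp only
      rw [← conj_zpow]
      exact zpow_mem (this u) i
    have := Nat.le_of_dvd (by norm_num) h2
    generalize Nat.card (normalizer ((P : Subgroup G) : Set G)).normalCore = n at *
    interval_cases n <;> omega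

/-- Let G be a finite group with an involution z whose centralizer is dihedral of order 8. Then G = C_G(z) O(G) with O(G) the largest normal subgroup of odd order, or G is isomorphic to the symmetric group of degree 4, the symmetric group of degree 5, the group SL₃(2), or the alternating group of degree 6. -/
theorem result {G : Type*} [Group G] [Finite G] (z : G) (hz : orderOf z = 2)
    (hC : Nonempty (↥(Subgroup.centralizer ({z} : Set G)) ≃* DihedralGroup 4)) :
    Subgroup.centralizer ({z} : Set G) ⊔ Cfsg.oddCore G = ⊤ ∨ Nonempty (G ≃* Equiv.Perm (Fin 4)) ∨ Nonempty (G ≃* Equiv.Perm (Fin 5)) ∨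
      Nonempty (G ≃* Matrix.SpecialLinearGroup (Fin 3) (ZMod 2)) ∨ Nonempty (G ≃* ↥(alternatingGroup (Fin 6))) := by
  obtain ⟨x, y, h, hy, e, hS⟩ := d8_setup hz hC.some
  by_cases ha : Act (centralizer ({z} : Set G)) x y <;>
    by_cases hb : Act (centralizer ({z} : Set G)) x (y * x)
  · obtain ⟨q, h1, -, h3⟩ := d8_psl hz hC.some (pResidual_two_eq_top_iff.1 (h.res_eq_top hS ha hb))
    rcases h1 with rfl | rfl
    · obtain ⟨F, _, _, hF, -⟩ := exists_field_card Nat.prime_three (f := 2) (by norm_num)
      exact Or.inr (Or.inr (Or.inr (Or.inr ⟨(h3 F hF).some.trans (S0254.result hF).some⟩)))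
    · haveI : Fact (Nat.Prime 7) := ⟨by norm_num⟩
      refine Or.inr (Or.inr (Or.inr (Or.inl ⟨((h3 _ (ZMod.card 7)).some.trans
        (S0255.result (ZMod.card 7) (ZMod.card 2)).some).trans
        ((QuotientGroup.quotientMulEquivOfEq ?_).trans QuotientGroup.quotientBot)⟩)))
      rw [← card_eq_one, H4.card_center_SL]; simp
  · rcases one_act hz h hy e hS ha hb with a | a
    exacts [Or.inr (Or.inl a), Or.inr (Or.inr (Or.inl a))]
  · rcases one_act hz h.swap (by rw [h.yx_sq, hy, one_mul]) e hS hb (by rwa [act_swap]) with a | a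
    exacts [Or.inr (Or.inl a), Or.inr (Or.inr (Or.inl a))]
  · left
    obtain ⟨S, hS'⟩ := hS.exists_sylow_top
    have c := (h.pNil hS ha hb).isComplement' S
    rw [eq_top_iff, ← c.sup_eq_top, sup_comm, hS']
    refine sup_le_sup_left (L.le_pPrimeCore ?_) _
    rw [← c.index_eq_card]
    exact ((Nat.Prime.coprime_iff_not_dvd Nat.prime_two).2 S.not_dvd_index).symm

end Cfsg.Agent.S3035
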