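import Cfsg.Statements.S3053
import Mathlib
import Cfsg.Agent.H2.Loc2
import Cfsg.Agent.H2.BG4b

set_option autoImplicit false
open Cfsg

namespace Cfsg.Agent.S3053

open Cfsg.Agent.H2 Cfsg.Agent.H8 Subgroup
open scoped commutatorElement

/-- Let p be an odd prime and G a finite group with a Sylow p-subgroup P that is extraspecial of order p³ and exponent p². Then the centre of P is strongly closed in P with respect to G: a G-conjugate of an element of Z(P) that lies in P already lies in Z(P). In particular a nontrivial central element of P is conjugate in G to no noncentral element of P. -/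
theorem result {G : Type*} [Group G] [Finite G]
    {p : ℕ} [Fact p.Prime] (hp : p ≠ 2) (P : Sylow p G) (hE : Cfsg.IsExtraspecial p ↥P)
    (hcard : Nat.card P = p ^ 3) (hexp : Monoid.exponent ↥P = p ^ 2) :
    Cfsg.IsStronglyClosed ((Subgroup.center ↥P).map (P : Subgroup G).subtype) (P : Subgroup G) := by
  change IsStronglyClosed ((center (P : Subgroup G)).map (P : Subgroup G).subtype) _
  rw [center_map_eq_Zc]
  obtain ⟨hP, hF, hd, hZ⟩ := (isExtraspecial_iff (p := p) (R := (P : Subgroup G))).1 hE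
  have hS := sylIn_top P
  refine ⟨Zc_le _, fun z hz g hy => ?_⟩
  set y := g * z * g⁻¹ with hydef
  have hZp : ∀ w ∈ Zc (P : Subgroup G), w ^ p = 1 := fun w hw =>
    orderOf_dvd_iff_pow_eq_one.1 (hZ ▸ Subgroup.orderOf_dvd_natCard _ hw)
  have hyp : y ^ p = 1 := by rw [hydef, conj_pow, hZp z hz]; simp
  have hc : ∀ a ∈ (P : Subgroup G), ∀ b ∈ (P : Subgroup G), ⁅a, b⁆ ∈ Zc (P : Subgroup G) :=
    fun a ha b hb => hd ▸ commutator_mem_commutator ha hb
  have hyG : y ∈ _root_.commutator G := (inferInstance : (_root_.commutator G).Normal).conj_mem _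
    (commutator_mono le_top le_top (hd.ge hz)) g
  have h1 : y ∈ ⁅normalizer ((P : Subgroup G) : Set G), normalizer ((P : Subgroup G) : Set G)⁆ := by
    by_contra hne
    obtain ⟨w, hw, M, K, -, -, -, -, -, -, -, h, -⟩ := hw_core (U := (P : Subgroup G)) hP le_normalizer le_rfl
      (fun g hg => mem_of_weaklyClosed hS (isWeaklyClosed_self _) le_rfl (by rwa [closure_eq] at hg))
      le_rfl hy hyG hne (fun g k ⟨j, hj⟩ _ => by rw [hj, pow_mul, hyp]; simp [one_mem])
    apply h
    have : ∀ n, itc w (n + 2) y = 1 := by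
      intro n
      induction n with
      | zero =>
        have h2 := (mem_Zc.1 (hc _ (inv_mem hy) _ (inv_mem hw))).2 w hw
        rw [itc_succ, itc_succ]
        change (y⁻¹ * w⁻¹ * y * w)⁻¹ * w⁻¹ * (y⁻¹ * w⁻¹ * y * w) * w = 1
        simp only [commutatorElement_def, inv_inv] at h2
        rw [mul_assoc, ← h2]; group
      | succ n ih => rw [itc_succ, ih]; group
    obtain ⟨n, hn⟩ : ∃ n, p - 1 = n + 2 :=
      ⟨p - 3, by have := (Fact.out : p.Prime).two_le; omega⟩
    rw [hn, this]; exact one_mem _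
  refine (hS.mono le_normalizer le_top).mem_of_central_mod ((Zc_le _).trans le_normalizer)
    (normalizer_le_Zc _) hd.le hy (fun h hh => ?_) h1
  by_cases hyZ : y ∈ Zc (P : Subgroup G)
  · exact mul_mem (conj_mem_of_mem_normalizer (normalizer_le_Zc _ hh) hyZ) (inv_mem hyZ)
  obtain ⟨a, ha, hap⟩ : ∃ a ∈ (P : Subgroup G), a ^ p ≠ 1 := by
    by_contra hn
    push Not at hn
    have : Monoid.exponent P ∣ p ^ 1 := Monoid.exponent_dvd_of_forall_pow_eq_one fun a =>
      Subtype.ext (by simpa using hn a a.2)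
    have := (Nat.pow_dvd_pow_iff_le_right (Fact.out : p.Prime).one_lt).1 (hexp.symm.dvd.trans this)
    omega
  have hpZ : ∀ b ∈ (P : Subgroup G), b ^ p ∈ Zc (P : Subgroup G) := fun b hb =>
    hF ▸ H1.pow_mem_map_frattini hP hb
  obtain ⟨k, hk⟩ : ⁅y, a⁆ ∈ zpowers (a ^ p) := by
    rw [zpowers_eq_of_card_prime hZ (hpZ a ha) hap]; exact hc _ hy _ ha
  have hmul := expMg_odd_nil23 hp hP (Or.inl (class_two_of_le hd.le inf_le_right))
    (hd.le.trans (le_omegaOne (Zc_le _) hZp))
  let W : Subgroup G :=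
    { carrier := {b | b ∈ (P : Subgroup G) ∧ ⁅y, b⁆ = (b ^ p) ^ k}
      one_mem' := ⟨one_mem _, by simp⟩
      mul_mem' := by
        rintro b c ⟨hb, hb'⟩ ⟨hc1, hc'⟩
        refine ⟨mul_mem hb hc1, ?_⟩
        rw [commElt_mul_right' ((mem_Zc.1 (hc _ hy _ hc1)).2 b hb), hb', hc', hmul b hb c hc1,
          Commute.mul_zpow ((mem_Zc.1 (hpZ c hc1)).2 _ (pow_mem hb p))]
      inv_mem' := by
        rintro b ⟨hb, hb'⟩
        refine ⟨inv_mem hb, ?_⟩
        have := commElt_mul_right' ((mem_Zc.1 (hc _ hy _ (inv_mem hb))).2 b hb)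
        rw [mul_inv_cancel, commutatorElement_one_right, hb'] at this
        rw [inv_pow, inv_zpow]
        exact (eq_inv_of_mul_eq_one_right this.symm) }
  have hE : IsElementaryAbelian p (Zc (P : Subgroup G) ⊔ zpowers y) :=
    elem_sup ⟨isMulCommutative_Zc _, hZp⟩ (isElementaryAbelian_zpowers hyp)
      (inf_le_right.trans (centralizer_anti (zpowers_le.2 hy)))
  have hEP : Zc (P : Subgroup G) ⊔ zpowers y ≤ P := sup_le (Zc_le _) (zpowers_le.2 hy)
  have hi : (Zc (P : Subgroup G) ⊔ zpowers y).relIndex P = p := by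
    have e1 := relIndex_sup_zpowers_dvd (le_normalizer.trans (normalizer_le_Zc (P : Subgroup G)) hy) hyp
    rcases (Nat.dvd_prime Fact.out).1 e1 with e2 | e2
    · exact absurd (relIndex_eq_one.1 e2 (mem_sup_right (mem_zpowers y))) hyZ
    have e3 := relIndex_mul_relIndex _ _ _ (le_sup_left : Zc (P : Subgroup G) ≤ _) hEP
    have e4 := card_mul_index ((Zc (P : Subgroup G)).subgroupOf P)
    rw [card_subgroupOf_of_le (Zc_le _), hZ, hcard] at e4
    change p * (Zc (P : Subgroup G)).relIndex P = _ at e4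
    rw [← e3, e2, show p ^ 3 = p * (p * p) by ring] at e4
    have := (Fact.out : p.Prime).pos
    exact Nat.eq_of_mul_eq_mul_left this (Nat.eq_of_mul_eq_mul_left this e4)
  have hW : (P : Subgroup G) ≤ W := by
    rw [← sup_zpowers_of_relIndex_prime hEP (by rw [hi]; exact Fact.out) ha fun e => hap (hE.2 a e)]
    refine sup_le (fun b hb => ⟨hEP hb, ?_⟩) (zpowers_le.2 ⟨ha, hk.symm⟩)
    rw [hE.2 b hb, one_zpow, commutatorElement_eq_one_iff_mul_comm]
    exact isMulCommutative_iff_forall.1 hE.1 _ (mem_sup_right (mem_zpowers y)) _ hb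
  have hy' := conj_mem_of_mem_normalizer hh hy
  refine mem_Zc.2 ⟨mul_mem hy' (inv_mem hy), fun b hb => ?_⟩
  have e1 : ⁅h * y * h⁻¹, y⁻¹ * b * y⁆ = ⁅y, y⁻¹ * b * y⁆ := by
    have hb' : y⁻¹ * b * y ∈ (P : Subgroup G) := mul_mem (mul_mem (inv_mem hy) hb) hy
    generalize y⁻¹ * b * y = c at hb'
    have := (hW (conj_mem_of_mem_normalizer' hh hb')).2
    rw [(hW hb').2, show c = h * (h⁻¹ * c * h) * h⁻¹ by group, ← conj_commElt, this, conj_pow, conj_zpow]
  simp only [commutatorElement_def] at e1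
  set y' := h * y * h⁻¹
  calc _ = (y * (y⁻¹ * b * y) * y⁻¹ * (y⁻¹ * b * y)⁻¹) * (y⁻¹ * b * y) * y' * y⁻¹ := by group
    _ = y' * y⁻¹ * b * (y * y'⁻¹ * (y⁻¹ * b⁻¹ * y * (y⁻¹ * b * y)) * y' * y⁻¹) := by rw [← e1]; group
    _ = _ := by group

end Cfsg.Agent.S3053
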