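import Cfsg.Statements.S3054
import Cfsg.Agent.H9.Heis
import Cfsg.Agent.H8.Sig0

set_option autoImplicit false
open Cfsg

namespace Cfsg.Agent.S3054

open Cfsg.Agent Cfsg.Agent.H9
open scoped Cfsg.Agent.H4

theorem exists_aut {A : Type*} [Group A] {p : ℕ} [hp : Fact p.Prime] (hc : ∀ x y : A, x * y = y * x)
    (he : ∀ x : A, x ^ p = 1) {a z : A} (hz : z ∉ Subgroup.zpowers a) (ha : a ≠ 1) :
    ∃ φ : MulAut A, orderOf φ = p ∧ φ z = z * a := by
  obtain ⟨l, h1, h2, h3⟩ := H2.exists_char (p := p) (Subgroup.zpowers a)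
    (fun x y => by rw [commutatorElement_eq_one_iff_mul_comm.mpr (hc x y)]; exact one_mem _)
    (fun x => by rw [he]; exact one_mem _) hz
  have h4 : ∀ (x : A) (n : ℕ), l (x * a ^ n) = l x := fun x n => by
    rw [h1, h2 _ (Subgroup.npow_mem_zpowers a n), add_zero]
  let φ : MulAut A :=
    { toFun := fun x => x * a ^ (l x).val
      invFun := fun x => x * a ^ (-l x).val
      left_inv := fun x => by
        simp only [h4]
        rw [mul_assoc, ← pw_add (he a)]; simp
      right_inv := fun x => by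
        simp only [h4]
        rw [mul_assoc, ← pw_add (he a)]; simp
      map_mul' := fun x y => by
        rw [h1, pw_add (he a), mul_assoc, mul_assoc, ← mul_assoc y, hc y, mul_assoc] }
  have h5 : φ z = z * a := by
    change z * a ^ (l z).val = _
    rw [h3, ZMod.val_one, pow_one]
  refine ⟨φ, orderOf_eq_prime ?_ fun e => ha ?_, h5⟩
  · have : ∀ (n : ℕ) x, (φ ^ n) x = x * a ^ ((n : ZMod p) * l x).val := fun n x => by
      induction n with
      | zero => simp
      | succ n ih =>
        rw [pow_succ', MulAut.mul_apply, ih]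
        change x * _ * a ^ (l (x * _)).val = _
        rw [h4, mul_assoc, ← pw_add (he a)]
        congr 3
        push_cast; ring
    ext x
    rw [this]; simp
  · rw [e] at h5
    simpa using h5

/-- Let p be an odd prime and G a finite group with a Sylow p-subgroup P that is extraspecial of order p³ and exponent p. Suppose P contains three distinct subgroups A of order p² (each is elementary abelian of rank 2) such that every automorphism of A of order p is induced by conjugation by an element of G; equivalently the automorphism group induced on A by its normalizer contains the special linear group of A. Then p ≤ 13. -/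
theorem result {G : Type*} [Group G] [Finite G]
    {p : ℕ} [Fact p.Prime] (hp : p ≠ 2) (P : Sylow p G) (hE : Cfsg.IsExtraspecial p ↥P)
    (hcard : Nat.card P = p ^ 3) (hexp : Monoid.exponent ↥P = p)
    (A : Fin 3 → Subgroup G) (hA : Function.Injective A) (hAP : ∀ i, A i ≤ (P : Subgroup G))
    (hAcard : ∀ i, Nat.card ↥(A i) = p ^ 2)
    (hSL : ∀ i, ∀ φ : MulAut ↥(A i), orderOf φ = p → ∃ g : G, ∀ a : ↥(A i), (φ a : G) = g * (a : G) * g⁻¹) :
    p ≤ 13 := by
  have hpr : p.Prime := Fact.out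
  obtain ⟨V, _, _, c, hc, -, -⟩ := H2.IsExtraspecial.exists_cExt (E := (P : Subgroup G)) hE
  have he : ∀ x : (P : Subgroup G), x ^ p = 1 := fun x => by
    have := Monoid.pow_exponent_eq_one x
    rwa [show Monoid.exponent (P : Subgroup G) = p from hexp] at this
  have hS := H2.sylIn_top P
  obtain ⟨H, pt, h1, h2, -, h4⟩ := heis_core hS c hc hcard he
  have hoz : orderOf (c.z : G) = p := (Subgroup.orderOf_coe _).trans c.ord
  have hker : ∀ x : (P : Subgroup G), c.π x = 0 ↔ (x : G) ∈ Subgroup.zpowers (c.z : G) := fun x => by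
    rw [c.ker]
    exact ⟨fun ⟨k, hk⟩ => ⟨k, congrArg Subtype.val hk⟩, fun ⟨k, hk⟩ => ⟨k, Subtype.ext hk⟩⟩
  have hlt : p < p ^ 2 := by nlinarith [hpr.two_le]
  have hz : ∀ i, (c.z : G) ∈ A i := by
    intro i
    have h5 : A i < P := lt_of_le_of_ne (hAP i) fun e => by
      have := hAcard i
      rw [e] at this
      have := Nat.pow_right_injective hpr.two_le (this.symm.trans hcard)
      omega
    have h6 := H2.lt_inf_normalizer P.isPGroup' h5
    have h7 : (P : Subgroup G) ⊓ Subgroup.normalizer (A i : Set G) = P := by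
      refine Subgroup.eq_of_le_of_card_ge inf_le_left ?_
      have h8 := H2.card_lt_of_lt h6
      obtain ⟨k, hk, e⟩ := (Nat.dvd_prime_pow hpr).mp
        (hcard ▸ Subgroup.card_dvd_of_le (inf_le_left : (P : Subgroup G) ⊓ Subgroup.normalizer (A i : Set G) ≤ P))
      rw [e, hAcard, Nat.pow_lt_pow_iff_right hpr.one_lt] at h8
      rw [e, show k = 3 by omega]
      exact hcard.le
    obtain ⟨⟨w, hw⟩, hw1⟩ := Subgroup.ne_bot_iff_exists_ne_one.mp
      (H1.inf_centralizer_ne_bot_of_isPGroup (P.isPGroup'.to_le (hAP i)) P.isPGroup'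
        (inf_eq_left.mp h7) (fun e => by
          have := hAcard i
          rw [e, Subgroup.card_bot] at this
          have := hpr.two_le
          omega))
    have h9 : w ∈ Subgroup.zpowers (c.z : G) := by
      rw [← hker ⟨w, hAP i hw.1⟩, c.ker, ← c.nondeg_iff.mp hc, Subgroup.mem_center_iff]
      exact fun y => Subtype.ext (hw.2 y y.2)
    have := H8.zpowers_eq_of_prime hoz h9 (fun e => hw1 (Subtype.ext e))
    exact Subgroup.zpowers_le.mpr hw.1 (this ▸ Subgroup.mem_zpowers _)
  have key : ∀ i, ∃ a : (P : Subgroup G), (a : G) ∈ A i ∧ c.π a ≠ 0 ∧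
      ∃ h ∈ H, h • pt a = pt a ∧ p - 1 ∣ 3 * orderOf h := by
    intro i
    obtain ⟨a, ha, haz⟩ : ∃ a ∈ A i, a ∉ Subgroup.zpowers (c.z : G) := by
      by_contra h
      push Not at h
      have := Subgroup.card_le_of_le (show A i ≤ _ from h)
      rw [hAcard, Nat.card_zpowers, hoz] at this
      omega
    have ha1 : a ≠ 1 := by rintro rfl; exact haz (one_mem _)
    have hoa : orderOf a = p := orderOf_eq_prime (congrArg Subtype.val (he ⟨a, hAP i ha⟩)) ha1
    obtain ⟨φ, k1, k2⟩ := exists_aut (A := A i) (p := p)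
      (IsPGroup.isMulCommutative_of_card_eq_prime_sq (hAcard i)).is_comm.comm
      (fun x => Subtype.ext (show (x : G) ^ p = 1 from congrArg Subtype.val (he ⟨x, hAP i x.2⟩))) (a := ⟨a, ha⟩)
      (z := ⟨c.z, hz i⟩) (fun ⟨k, hk⟩ => haz (by
        rw [H8.zpowers_eq_of_prime hoa (a := (c.z : G)) ⟨k, congrArg Subtype.val hk⟩
          (fun e => c.z_ne_one (Subtype.ext e))]
        exact Subgroup.mem_zpowers _)) (fun e => ha1 (congrArg Subtype.val e))
    obtain ⟨g, hg⟩ := hSL i φ k1
    have k3 := hg ⟨c.z, hz i⟩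
    rw [k2] at k3
    have k4 := hg (φ.symm ⟨c.z, hz i⟩)
    rw [MulEquiv.apply_symm_apply] at k4
    have hm : (c.z : G) * a ∈ A i := mul_mem (hz i) ha
    have hne : c.π ⟨_, hAP i hm⟩ ≠ 0 := by
      rw [Ne, hker]
      intro h
      exact haz (by simpa using mul_mem (inv_mem (Subgroup.mem_zpowers (c.z : G))) h)
    refine ⟨⟨_, hAP i hm⟩, hm, hne, h4 _ hne g⁻¹ ?_ ?_⟩
    · change g⁻¹ * (c.z * a) * g⁻¹⁻¹ = _
      rw [show (c.z : G) * a = g * c.z * g⁻¹ from k3]; group
    · rw [show (c.z : G) = _ from k4]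
      simpa [mul_assoc] using hAP i (φ.symm ⟨c.z, hz i⟩).2
  choose a a1 a2 a3 using key
  have hinj : Function.Injective fun i => pt (a i) := by
    intro i j h
    obtain ⟨t, ht⟩ := h2 _ _ (a2 i) h
    have k1 : c.π (a i ^ t.val) = c.π (a j) := by
      rw [c.π_pow, ← Nat.cast_smul_eq_nsmul (ZMod p), ZMod.natCast_zmod_val, ht]
    obtain ⟨s, hs⟩ := c.exists_mul_ζ k1
    have k2 : (a j : G) ∈ A i := by
      rw [hs]
      exact mul_mem (pow_mem (a1 i) _) (pow_mem (hz i) _)
    have k3 : Subgroup.zpowers (c.z : G) < A i ⊓ A j := by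
      refine lt_of_le_of_ne (Subgroup.zpowers_le.mpr ⟨hz i, hz j⟩) fun e => a2 j ?_
      rw [hker, e]; exact ⟨k2, a1 j⟩
    have k4 := H2.card_lt_of_lt k3
    obtain ⟨k, hk, e⟩ := (Nat.dvd_prime_pow hpr).mp
      (hAcard i ▸ Subgroup.card_dvd_of_le (inf_le_left : A i ⊓ A j ≤ A i))
    rw [Nat.card_zpowers, hoz, e] at k4
    have k5 : k = 2 := by
      have := (Nat.pow_lt_pow_iff_right hpr.one_lt).mp ((pow_one p).trans_lt k4)
      omega
    rw [k5] at e
    apply hA
    exact (Subgroup.eq_of_le_of_card_ge inf_le_left (by rw [e, hAcard])).symm.trans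
      (Subgroup.eq_of_le_of_card_ge inf_le_right (by rw [e, hAcard]))
  by_contra hlt
  have hpos : ∀ h : Matrix.ProjGenLinGroup (Fin 2) (ZMod p), 0 < orderOf h := fun h => orderOf_pos h
  have hcl := pgl_three_pts h1 _ hinj (fun i => by
    obtain ⟨h, b1, b2, b3⟩ := a3 i
    have := Nat.le_of_dvd (by have := hpos h; omega) b3
    exact ⟨h, b1, b2, by omega⟩)
  obtain ⟨h, b1, -, b3⟩ := a3 0
  have h5 : orderOf h ≤ 5 := by
    rcases hcl with ⟨⟨e⟩⟩ | ⟨⟨e⟩⟩ | ⟨⟨e⟩⟩
    · have := H4.orderOf_le_of_A4 e b1; omega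
    · have := H4.orderOf_le_of_S4 e b1; omega
    · exact H4.orderOf_le_of_A5 e b1
  have := Nat.le_of_dvd (by have := hpos h; omega) b3
  have : p = 14 ∨ p = 15 ∨ p = 16 := by omega
  rcases this with rfl | rfl | rfl <;> exact absurd hpr (by norm_num)

end Cfsg.Agent.S3054
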