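import Cfsg.Statements.S3055
import Cfsg.Agent.H9.Heis

set_option autoImplicit false
open Cfsg

namespace Cfsg.Agent.S3055

open Cfsg.Agent Cfsg.Agent.H9
open scoped Cfsg.Agent.H4

/-- Let p be an odd prime and G a finite group with a Sylow p-subgroup P that is extraspecial of order p³ and exponent p. If all nonidentity elements of P are conjugate in G, then p ≤ 7. -/
theorem result {G : Type*} [Group G] [Finite G]
    {p : ℕ} [Fact p.Prime] (hp : p ≠ 2) (P : Sylow p G) (hE : Cfsg.IsExtraspecial p ↥P)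
    (hcard : Nat.card P = p ^ 3) (hexp : Monoid.exponent ↥P = p)
    (hconj : ∀ x y : ↥P, x ≠ 1 → y ≠ 1 → ∃ g : G, g * (x : G) * g⁻¹ = (y : G)) :
    p ≤ 7 := by
  have hpr : p.Prime := Fact.out
  obtain ⟨V, _, _, c, hc, -, -⟩ := H2.IsExtraspecial.exists_cExt (E := (P : Subgroup G)) hE
  have he : ∀ x : (P : Subgroup G), x ^ p = 1 := fun x => by
    have := Monoid.pow_exponent_eq_one x
    rwa [show Monoid.exponent (P : Subgroup G) = p from hexp] at this
  have hS := H2.sylIn_top P
  obtain ⟨H, pt, h1, -, h3, h4⟩ := heis_core hS c hc hcard he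
  have key : ∀ x : OnePoint (ZMod p), ∃ h ∈ H, h • x = x ∧ p - 1 ∣ 3 * orderOf h := by
    intro x
    obtain ⟨a, ha, rfl⟩ := h3 x
    obtain ⟨g, hg⟩ := hconj a c.z (by rintro rfl; exact ha c.π_one) c.z_ne_one
    have hPC : (P : Subgroup G) ≤ Subgroup.centralizer {(c.z : G)} := fun y hy =>
      Subgroup.mem_centralizer_singleton_iff.mpr (congrArg Subtype.val (c.central ⟨y, hy⟩).symm.eq)
    have hm : g * c.z * g⁻¹ ∈ Subgroup.centralizer {(c.z : G)} := by
      rw [Subgroup.mem_centralizer_singleton_iff]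
      nth_rewrite 2 3 [← hg]
      rw [conj_mul, conj_mul]
      exact congrArg (fun t => g * t * g⁻¹) (congrArg Subtype.val (c.central a).eq)
    obtain ⟨d, hd, hd'⟩ := (hS.mono hPC le_top).exists_conj_mem hm (k := 1) (by
      rw [pow_one]
      exact ((MulAut.conj g).orderOf_eq (c.z : G)).trans ((Subgroup.orderOf_coe _).trans c.ord))
    refine h4 a ha (d * g) ?_ (by simpa [mul_assoc] using hd')
    have := Subgroup.mem_centralizer_singleton_iff.mp hd
    calc _ = d * (g * a * g⁻¹) * d⁻¹ := by group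
      _ = _ := by rw [hg, this, mul_inv_cancel_right]
  by_contra hlt
  have hpos : ∀ h : Matrix.ProjGenLinGroup (Fin 2) (ZMod p), 0 < orderOf h := fun h => orderOf_pos h
  have h11 : 11 ≤ p := by
    by_contra h
    have : p = 8 ∨ p = 9 ∨ p = 10 := by omega
    rcases this with rfl | rfl | rfl <;> exact absurd hpr (by norm_num)
  have h01 : (0 : ZMod p) ≠ 1 := zero_ne_one
  have hcl := pgl_three_pts h1 ![OnePoint.infty, ((0 : ZMod p) : OnePoint (ZMod p)),
    ((1 : ZMod p) : OnePoint (ZMod p))] (by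
      intro i j h
      fin_cases i <;> fin_cases j <;> simp_all) (fun i => by
      obtain ⟨h, a1, a2, a3⟩ := key (![OnePoint.infty, ((0 : ZMod p) : OnePoint (ZMod p)),
        ((1 : ZMod p) : OnePoint (ZMod p))] i)
      have := Nat.le_of_dvd (by have := hpos h; omega) a3
      exact ⟨h, a1, a2, by omega⟩)
  have h5 : ∀ h ∈ H, orderOf h ≤ 5 := fun h hh => by
    rcases hcl with ⟨⟨e⟩⟩ | ⟨⟨e⟩⟩ | ⟨⟨e⟩⟩
    · have := H4.orderOf_le_of_A4 e hh; omega
    · have := H4.orderOf_le_of_S4 e hh; omega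
    · exact H4.orderOf_le_of_A5 e hh
  have h13 : p = 13 := by
    obtain ⟨h, a1, -, a3⟩ := key OnePoint.infty
    have b1 := h5 h a1
    have b2 := hpos h
    have := Nat.le_of_dvd (by omega) a3
    have : p = 11 ∨ p = 12 ∨ p = 13 ∨ p = 14 ∨ p = 15 ∨ p = 16 := by omega
    rcases this with rfl | rfl | rfl | rfl | rfl | rfl
    · omega
    · exact absurd hpr (by norm_num)
    · rfl
    all_goals exact absurd hpr (by norm_num)
  subst h13
  choose f f1 f2 f3 using key
  have f4 : ∀ x, orderOf (f x) = 4 := fun x => by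
    have := h5 _ (f1 x)
    have := hpos (f x)
    have := f3 x
    omega
  have hno : ∀ {X : Type} [Group X] (e : H ≃* X) (x), orderOf (e ⟨f x, f1 x⟩) = 4 := fun e x => by
    rw [MulEquiv.orderOf_eq, Subgroup.orderOf_mk, f4]
  rcases hcl with ⟨⟨e⟩⟩ | ⟨⟨e⟩⟩ | ⟨⟨e⟩⟩
  · have := H4.orderOf_le_of_A4 e (f1 OnePoint.infty)
    rw [f4] at this; omega
  · classical
    haveI : Fintype (OnePoint (ZMod 13)) := inferInstanceAs (Fintype (Option (ZMod 13)))
    obtain ⟨y, -, hy⟩ := Finset.exists_lt_card_fiber_of_mul_lt_card_of_maps_to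
      (s := Finset.univ) (t := Finset.univ.filter fun σ : Equiv.Perm (Fin 4) => σ ^ 2 ≠ 1 ∧ σ ^ 4 = 1)
      (f := fun x => e ⟨f x, f1 x⟩) (n := 2) (fun x _ => by
        simp only [Finset.mem_filter, Finset.mem_univ, true_and]
        refine ⟨fun h => ?_, orderOf_dvd_iff_pow_eq_one.mp (hno e x).dvd⟩
        have := orderOf_le_of_pow_eq_one (by norm_num) h
        rw [hno e x] at this; omega) (by
        have e1 : (Finset.univ.filter fun σ : Equiv.Perm (Fin 4) => σ ^ 2 ≠ 1 ∧ σ ^ 4 = 1).card = 6 := by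
          decide +kernel
        have e2 : (Finset.univ : Finset (OnePoint (ZMod 13))).card = 14 := by
          rw [Finset.card_univ, ← Nat.card_eq_fintype_card]
          change Nat.card (Option (ZMod 13)) = 14
          rw [Nat.card_eq_fintype_card, Fintype.card_option, ZMod.card]
        rw [e2]; convert (by norm_num : 6 * 2 < 14))
    obtain ⟨a, b, d, ha, hb, hd, n1, n2, n3⟩ := Finset.two_lt_card_iff.mp hy
    simp only [Finset.mem_filter, Finset.mem_univ, true_and] at ha hb hd
    have eb : f b = f a := congrArg Subtype.val (e.injective (hb.trans ha.symm))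
    have ed : f d = f a := congrArg Subtype.val (e.injective (hd.trans ha.symm))
    have := H4.pgl_three n1 n2 n3 (f2 a) (eb ▸ f2 b) (ed ▸ f2 d)
    have h6 := f4 a
    rw [this, orderOf_one] at h6
    omega
  · have := hno e OnePoint.infty
    rcases H4.A5_pow (e ⟨f OnePoint.infty, f1 _⟩) with h | h | h <;>
      have h7 := orderOf_dvd_of_pow_eq_one h <;> rw [this] at h7 <;> omega

end Cfsg.Agent.S3055
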