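import Cfsg.Statements.S3057
import Mathlib
import Cfsg.Agent.H2.SL23
import Cfsg.Agent.H1.Hall

set_option autoImplicit false
open Cfsg

namespace Cfsg.Agent.S3057

open Cfsg.Agent.H2 Subgroup

/-- Let p be a prime and G a finite p-solvable group of order divisible by p, with Sylow p-subgroup P. Then the Sylow p-subgroups of G fail to be chain-connected through nontrivial intersections (equivalently, G has a strongly p-embedded subgroup) if and only if O_p(G) = 1 and P is cyclic or, for p = 2, generalized quaternion. -/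
theorem result {G : Type*} [Group G] [Finite G]
    (p : ℕ) [Fact p.Prime] (hdiv : p ∣ Nat.card G) (hsol : Cfsg.IsPSolvable p G) (P : Sylow p G) :
    ¬ Cfsg.IsSylowChainConnected p G ↔
      Cfsg.pCore p G = ⊥ ∧ (IsCyclic ↥P ∨ (p = 2 ∧ ∃ n : ℕ, Nonempty (↥P ≃* QuaternionGroup (2 ^ n)))) := by
  rw [SF.not_chainConn_iff]
  have hP := sylIn_top P
  constructor
  · rintro ⟨H, hH⟩
    obtain ⟨S, hS, hSH⟩ := SF.spe_ex_syl hH
    refine ⟨?_, ?_⟩
    · by_contra e
      exact SF.spe_not_dvd_normal hH ((hS.normal_le (L.pCore_isPGroup p G) le_top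
        (le_top.trans (H8.normal_iff_top_le.1 inferInstance))).trans hSH)
        (H8.dvd_card_of_isPGroup_ne_bot (L.pCore_isPGroup p G) e)
    refine (L.isCyclic_or_quaternion_of_rank_one P.2 fun E hE h2 => ?_).imp_right
      fun ⟨a, n, _, b⟩ => ⟨a, n, b⟩
    obtain ⟨g, -, hg⟩ := hS.exists_cj_le (Q := E.map (P : Subgroup G).subtype)
      (P.2.to_le (map_subtype_le _)) le_top
    have h3 : SF.Vx p 2 H (cj g (E.map (P : Subgroup G).subtype)) :=
      ⟨hg.trans hSH, (SF.Vx.cj_top (k := 0) ⟨le_top, SF.elem_map_subtype_iff.2 hE,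
        Nat.one_le_iff_ne_zero.2 Nat.card_pos.ne'⟩ g).2, by
          rw [card_cj, H8.card_map_subtype, h2]⟩
    have h4 := SF.spe_Opp_le hH h3 (H8.Opp_coprime p ⊤) (le_top.trans (H8.le_normalizer_Opp _ _))
    have h5 : OppP p ⊤ ≤ H := by
      rw [OppP_eq_sup (hS.inf_normal' (le_normalizer_OppP p _) le_top)]
      exact sup_le h4 (inf_le_left.trans hSH)
    haveI : (OppP p (⊤ : Subgroup G)).Normal := H8.normal_of_top_le (le_normalizer_OppP _ _)
    haveI : (H8.Opp p (⊤ : Subgroup G)).Normal := H8.normal_of_top_le (H8.le_normalizer_Opp _ _)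
    have h6 := H8.coprime_iff_not_dvd.2 (SF.spe_not_dvd_normal hH h5)
    obtain ⟨M, hM, hlt, h7⟩ := H1.IsPSolvable.exists_step Fact.out hsol (H8.Opp p ⊤)
      fun e => hH.2.1 (top_le_iff.1 (e ▸ h4))
    refine hlt.not_ge (H8.le_Opp le_top (H8.normal_iff_top_le.1 hM) ?_)
    rcases h7 with ⟨k, hk⟩ | h7
    · exact H8.coprime_of_le (le_OppP le_top (H8.normal_iff_top_le.1 hM) (pNil_of_relIndex
        (le_top.trans (H8.le_normalizer_Opp _ _)) (H8.Opp_coprime p ⊤) hk)) h6
    · rw [card_eq_relIndex_mul hlt.le]; exact h7.mul_left (H8.Opp_coprime p ⊤)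
  · rintro ⟨h1, h2⟩
    exact ⟨_, spe_omega h1 hP (hP.ne_bot (by rwa [card_top]))
      (h2.imp_right fun ⟨_, n, e⟩ => ⟨_, e⟩)⟩

end Cfsg.Agent.S3057
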