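import Cfsg.Statements.S3062
import Cfsg.Agent.H9.DStar

set_option autoImplicit false
open Cfsg

namespace Cfsg.Agent.S3062

open Cfsg.Agent Cfsg.Agent.H9

/-- Let S be a finite p-group, J(S) the subgroup generated by the abelian subgroups of S of largest order and Z(J(S)) its centre. Then Z(S) ≤ D*(S) ≤ Z(J(S)), and every maximal normal abelian subgroup of S contains D*(S). -/
theorem result {S : Type*} [Group S] [Finite S] {p : ℕ} [Fact p.Prime]
    (hS : IsPGroup p S) :
    Subgroup.center S ≤ Cfsg.dStar S ∧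
    Cfsg.dStar S ≤ Cfsg.thompsonSubgroupA S ⊓ Subgroup.centralizer (Cfsg.thompsonSubgroupA S : Set S) ∧
    ∀ A : Subgroup S, A.Normal → IsMulCommutative A →
      (∀ B : Subgroup S, B.Normal → IsMulCommutative B → A ≤ B → B = A) → Cfsg.dStar S ≤ A := by
  have hT : IsPGroup p (⊤ : Subgroup S) := hS.to_subgroup ⊤
  rw [← DD_top, ← JJ_top_zero]
  refine ⟨?_, DD_le_ZJ hT, fun A hA hc hm => ?_⟩
  · refine le_trans ?_ (df_Zc ⊤).le_DD
    intro x hx
    exact ⟨trivial, fun y _ => Subgroup.mem_center_iff.mp hx y⟩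
  · have h1 := le_cen_DD hT le_top hc Subgroup.le_normalizer_of_normal
    haveI : (DD (⊤ : Subgroup S)).Normal :=
      H8.normal_of_top_le (Subgroup.le_normalizer.trans (normalizer_le_DD _))
    have := hm (A ⊔ DD ⊤) inferInstance
      (AE.sup (ae_zero.mpr hc) (ae_zero.mpr (DD_comm hT)) h1).1 le_sup_left
    rw [← this]
    exact le_sup_right

end Cfsg.Agent.S3062
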