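import Cfsg.Statements.S3064
import Mathlib
import Cfsg.Agent.H2.Loc2
import Cfsg.Agent.S0035

set_option autoImplicit false
open Cfsg

namespace Cfsg.Agent.S3064

open Cfsg.Agent.H2 Cfsg.Agent.H8 Subgroup

universe u
theorem aux {p : ℕ} [Fact p.Prime] (n : ℕ) : ∀ (G : Type u) [Group G] [Finite G], Nat.card G = n →
    ∀ (x : G) (k : ℕ), orderOf x = p ^ k → IsIsolated x → (∀ H : Subgroup G, (Nat.card H).Coprime p →
      x ∈ normalizer (H : Set G) → H ≤ centralizer {x}) → centralizer ({x} : Set G) = ⊤ := by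
  induction n using Nat.strong_induction_on with | _ n ih =>
  intro G _ _ hn x k hk hiso hb
  by_contra hC
  have h1 : ∀ M : Subgroup G, x ∈ M → M ≠ ⊤ → M ≤ centralizer {x} := by
    intro M hx hM g hg
    have := ih _ (hn ▸ card_lt_of_ne_top hM) M rfl ⟨x, hx⟩ k (by rw [← hk, ← Subgroup.orderOf_coe])
      (iso_subgroup hx hiso) (fun H hH hxH y hy => by
        have := hb (H.map M.subtype) (by rwa [card_map_subtype]) ((normalizer_map_subtype H).le
          (mem_map_of_mem _ hxH)).2 (mem_map_of_mem _ hy)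
        exact mem_centralizer_singleton_iff.2 (Subtype.ext (mem_centralizer_singleton_iff.1 this)))
    have h2 : (⟨g, hg⟩ : M) * ⟨x, hx⟩ = ⟨x, hx⟩ * ⟨g, hg⟩ :=
      mem_centralizer_singleton_iff.1 (this ▸ mem_top (⟨g, hg⟩ : M))
    exact mem_centralizer_singleton_iff.2 (congrArg Subtype.val h2)
  have hZ : center G = ⊥ := by
    by_contra hZ
    set f := QuotientGroup.mk' (center G)
    obtain ⟨j, -, hj⟩ := (Nat.dvd_prime_pow Fact.out).1 (hk ▸ orderOf_map_dvd f x)
    have := ih _ (hn ▸ card_quot_lt hZ) _ rfl (f x) j hj (iso_map f (QuotientGroup.mk'_surjective _) hk hiso)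
      (fun H hH hxH => by
        obtain ⟨P, hP⟩ := exists_sylIn p (H.comap f)
        have h2 : P ≤ center G := by
          rw [← QuotientGroup.ker_mk' (center G), ← Subgroup.map_eq_bot_iff]
          exact eq_bot_of_pgroup_coprime (hP.pgrp.map f) (coprime_of_le (map_le_iff_le_comap.2 hP.le) hH)
        have h3 := hP.pNil_of_normalizer_le (le_top.trans (centralizer_eq_top_iff_subset.2 h2).ge)
        have h4 := hb _ (pNil_iff_card.1 h3) (normalizer_le_normalizer_resOf p _
          (le_normalizer_comap f hxH))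
        have h5 : H.comap f ≤ centralizer {x} := hP.resOf_sup.ge.trans
          (sup_le h4 (h2.trans (center_le_centralizer _)))
        intro y hy
        obtain ⟨y, rfl⟩ := QuotientGroup.mk'_surjective _ y
        rw [mem_centralizer_singleton_iff, ← map_mul, mem_centralizer_singleton_iff.1 (h5 hy), map_mul])
    refine hC (top_le_iff.1 fun g _ => mem_cent_of_conj_eq (hiso g ?_))
    have h2 : f (x⁻¹ * (g * x * g⁻¹)) = 1 := by
      simp only [map_mul, map_inv]
      rw [conj_eq_of_mem_cent (this ▸ mem_top (f g)), inv_mul_cancel]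
    have h3 := mem_center_iff.1 ((QuotientGroup.eq_one_iff _).1 h2) x
    rw [mul_inv_cancel_left] at h3
    change x * _ = _ * x
    conv_lhs => rw [h3]
    group
  have hx1 : x ≠ 1 := by
    rintro rfl
    exact hC (by simp)
  have hF : IsFrobeniusComplement (centralizer ({x} : Set G)) := by
    refine ⟨fun e => hx1 (mem_bot.1 (e ▸ self_mem_centralizer x)), hC, fun g hg => ?_⟩
    rw [← H8.cj_eq_smul, H8.cj_centralizer_singleton, _root_.eq_bot_iff]
    rintro y ⟨hy1, hy2⟩
    by_contra hy
    have := h1 (centralizer {y}) (mem_centralizer_singleton_comm.1 hy1) (fun e => hy (by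
      rw [← hZ]; simpa using centralizer_eq_top_iff_subset.1 e)) (mem_centralizer_singleton_comm.1 hy2)
    exact hg (mem_cent_of_conj_eq (hiso g (mem_centralizer_singleton_iff.1 this).symm))
  obtain ⟨N, -, hN, hc⟩ := S0035.result _ hF
  have hd : N ⊓ centralizer {x} = ⊥ := hc.disjoint.eq_bot
  have h2 := (L.fpf_of_frobenius hF hd).coprime le_normalizer_of_normal
  have h3 : p ∣ Nat.card (centralizer ({x} : Set G)) := dvd_card_of_isPGroup_ne_bot.{u} (H8.isPGroup_zpowers hk)
    (by simpa using hx1) |>.trans (card_dvd_of_le (zpowers_le_centralizer x))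
  have h4 := hb N (Nat.Coprime.coprime_dvd_left h3 h2).symm (le_normalizer_of_normal (mem_top x))
  exact hC (top_le_iff.1 (hc.sup_eq_top.ge.trans (sup_le h4 le_rfl)))

/-- Let S be a Sylow p-subgroup of the finite group G and x an element of S such that (i) x is the only G-conjugate of x lying in S, and (ii) x centralizes every subgroup of order prime to p that it normalizes. Then x lies in the centre of G. -/
theorem result {G : Type*} [Group G] [Finite G] {p : ℕ} [Fact p.Prime]
    (S : Sylow p G) (x : G) (hx : x ∈ S)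
    (hU : ∀ g : G, g⁻¹ * x * g ∈ S → g⁻¹ * x * g = x)
    (hb : ∀ H : Subgroup G, (Nat.card H).Coprime p → (∀ h ∈ H, x * h * x⁻¹ ∈ H) → ∀ h ∈ H, x * h = h * x) :
    x ∈ Subgroup.center G := by
  obtain ⟨k, hk⟩ := orderOf_pow_of_mem S.isPGroup' hx
  have := aux (p := p) _ G rfl x k hk (fun g hg => by
    have h1 : IsPGroup p ↥(zpowers x ⊔ zpowers (g * x * g⁻¹)) := isPGroup_sup
      ((zpowers_le.2 (mem_centralizer_singleton_iff.2 hg.eq)).trans (centralizer_le_normalizer_zpowers _))
      (H8.isPGroup_zpowers hk) (H8.isPGroup_zpowers (k := k) (by rw [H2.orderOf_conj', hk]))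
    obtain ⟨a, ha⟩ := exists_cj_le_sylow S h1
    have e1 := hU a⁻¹ (by rw [inv_inv]; exact ha (H8.conj_mem_cj (mem_sup_left (mem_zpowers x))))
    have e2 := hU (a * g)⁻¹ (by
      have := ha (H8.conj_mem_cj (mem_sup_right (mem_zpowers (g * x * g⁻¹))))
      rwa [show a * (g * x * g⁻¹) * a⁻¹ = (a * g)⁻¹⁻¹ * x * (a * g)⁻¹ by group] at this)
    rw [inv_inv] at e1 e2
    calc _ = a⁻¹ * (a * g * x * (a * g)⁻¹) * a := by group
      _ = a⁻¹ * (a * x * a⁻¹) * a := by rw [e1, e2]
      _ = _ := by group)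
    (fun H hH hn h hh => mem_centralizer_singleton_iff.2
      (hb H hH (fun h hh => conj_mem_of_mem_normalizer hn hh) h hh).symm)
  simpa using centralizer_eq_top_iff_subset.1 this

end Cfsg.Agent.S3064
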