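import Cfsg.Statements.S3065
import Mathlib
import Cfsg.Agent.H2.LBal

set_option autoImplicit false
open Cfsg

namespace Cfsg.Agent.S3065

open Cfsg.Agent.H2 Cfsg.Agent.H8 Subgroup

/-- Let G be a finite non-abelian simple group with a nontrivial Sylow 2-subgroup S (that is, G has even order). If the automorphism group of S is solvable, then the outer automorphism group Out(G) = Aut(G)/Inn(G) is solvable. -/
theorem result {G : Type*} [Group G] [Finite G] [IsSimpleGroup G]
    (hG : ¬ IsMulCommutative G) (S : Sylow 2 G) (hS1 : (S : Subgroup G) ≠ ⊥) (hS : Group.IsSolvable (MulAut ↥S)) :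
    Group.IsSolvable (Cfsg.Out G) := by
  have hZ : center G = ⊥ := (IsSimpleGroup.eq_bot_or_eq_top_of_normal (center G)
    inferInstance).resolve_right fun e => hG ⟨⟨fun a b => (mem_center_iff.1 (e ▸ mem_top b) a)⟩⟩
  have hi : Function.Injective (MulAut.conj : G →* MulAut G) := by
    rw [injective_iff_map_eq_one]
    intro a ha
    rw [← mem_bot, ← hZ, mem_center_iff]
    intro b
    have := DFunLike.congr_fun ha b
    rw [MulAut.conj_apply, MulAut.one_apply, mul_inv_eq_iff_eq_mul] at this
    exact this.symm
  have hO : pPrimeCore 2 G = ⊥ := (IsSimpleGroup.eq_bot_or_eq_top_of_normal (pPrimeCore 2 G)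
    inferInstance).resolve_right fun e => hS1 (eq_bot_of_pgroup_coprime S.2
      ((L.pPrimeCore_coprime 2).coprime_dvd_left (card_dvd_of_le (e ▸ le_top))))
  have hS' := (sylIn_top S).map_inj MulAut.conj hi
  rw [← MonoidHom.range_eq_map] at hS'
  have hO' : Opp 2 (Inn G) = ⊥ := by
    rw [Inn, MonoidHom.range_eq_map, Opp, ← map_Opp_injective 2 _ hi, Opp_top, hO, Subgroup.map_bot]
  have hC : centralizer (Inn G : Set (MulAut G)) = ⊥ := by
    rw [_root_.eq_bot_iff]
    intro φ hφ
    rw [mem_bot]
    ext g
    apply hi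
    have := mem_centralizer_iff.1 hφ _ ⟨g, rfl⟩
    ext x
    have h2 := DFunLike.congr_fun this (φ⁻¹ x)
    simpa using h2.symm
  have h1 : Group.IsSolvable (centralizer (((S : Subgroup G).map MulAut.conj : Subgroup (MulAut G)) :
      Set (MulAut G))) :=
    solvable_of_im (Inn G).normalizerMonoidHom le_normalizer_of_normal (hS'.solvable_im hO' le_rfl)
      (by rw [H2.kr_normalizerMonoidHom, hC, bot_inf_eq]; infer_instance)
  have h2 : Group.IsSolvable (MulAut ((S : Subgroup G).map (MulAut.conj : G →* MulAut G))) :=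
    solvable_of_equiv (MulAut.congr (equivMapOfInjective _ _ hi)) hS
  have h3 := solvable_of_im ((S : Subgroup G).map (MulAut.conj : G →* MulAut G)).normalizerMonoidHom
    le_rfl inferInstance (by rw [H2.kr_normalizerMonoidHom]; exact solvable_of_le inf_le_left h1)
  have h4 := hS'.frattini_sup le_top le_normalizer_of_normal
  have h5 := solvable_map (QuotientGroup.mk' (Inn G)) h3
  have h6 := congrArg (Subgroup.map (QuotientGroup.mk' (Inn G))) h4
  rw [Subgroup.map_sup, top_inf_eq, (Subgroup.map_eq_bot_iff _).2 (QuotientGroup.ker_mk' _).ge,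
    bot_sup_eq, map_top_of_surjective _ (QuotientGroup.mk'_surjective _)] at h6
  rw [h6] at h5
  exact solvable_of_equiv topEquiv h5

end Cfsg.Agent.S3065
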