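import Cfsg.Statements.S3071
import Cfsg.Agent.H9.Quad

set_option autoImplicit false
open Cfsg

namespace Cfsg.Agent.S3071

open Cfsg.Agent Cfsg.Agent.H9

/-- Let p be an odd prime and S a Sylow p-subgroup of the finite group G such that, for every subgroup P with Z(S) ≤ P ≤ S, the normalizer N_G(P) has no section isomorphic to SL₂(p). Let J(S) be the subgroup generated by the abelian subgroups of S of largest order. Then two elements of S are conjugate in G if and only if they are conjugate in N_G(Z(J(S))). -/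
theorem result {G : Type*} [Group G] [Finite G] {p : ℕ} [Fact p.Prime]
    (hp : p ≠ 2) (S : Sylow p G)
    (hfree : ∀ P : Subgroup G, (S : Subgroup G) ⊓ Subgroup.centralizer ((S : Subgroup G) : Set G) ≤ P → P ≤ S →
      ¬ ∃ (H K : Subgroup G) (hK : (K.subgroupOf H).Normal), H ≤ Subgroup.normalizer (P : Set G) ∧
        Nonempty ((H ⧸ K.subgroupOf H) ≃* Matrix.SpecialLinearGroup (Fin 2) (ZMod p))) :
    ∀ x ∈ S, ∀ y ∈ S, (∃ g : G, g * x * g⁻¹ = y) ↔
      ∃ n ∈ Subgroup.normalizer (Cfsg.centerThompsonAOf (S : Subgroup G) : Set G), n * x * n⁻¹ = y := by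
  have hS := H2.sylIn_top_iff.2 ⟨S, rfl⟩
  have hW := pf_ZW (p := p) (e := 0) (Or.inl rfl) false
  have h := ctl_of_wp hW.cf hS (fun T hT hZ => ?_) (fun U hU hZ => ?_)
  · rw [ZW_false, II_zero_eq, top_inf_eq] at h
    intro x hx y hy
    refine ⟨?_, fun ⟨n, _, e⟩ => ⟨n, e⟩⟩
    rintro ⟨g, rfl⟩
    exact h.elem hx (Subgroup.mem_top g) hy
  · refine le_trans ?_ (omegaOne_Zc_le_II 0 T)
    rw [omegaOne_zero]
    exact le_inf hZ (inf_le_right.trans (Subgroup.centralizer_le hT))
  · refine CtlAll.sub hW (zw_ctlAll_of_not_sl hp (Or.inl rfl) false fun h => hfree U hZ hU.1 ?_)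
      hU.fn (scl_self _ _)
    rw [top_inf_eq] at h
    exact sec_sub_iff.1 h

end Cfsg.Agent.S3071
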