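import Cfsg.Statements.S3072
import Mathlib
import Cfsg.Agent.H2.Tame

set_option autoImplicit false
open Cfsg

namespace Cfsg.Agent.S3072

open Cfsg.Agent.H2 Subgroup

/-- A strong form of the Alperin–Goldschmidt fusion Theorem. Let P be a Sylow p-subgroup of the finite group G, A a subset of P containing a nonidentity element, and g an element with g⁻¹Ag ⊆ P. Then g = c·x₁⋯xₙ·y with c ∈ C_G(A), y ∈ N_G(P) and, for each i, an element xᵢ and a subgroup Hᵢ ≤ P such that: N_P(Hᵢ) is a Sylow p-subgroup of N_G(Hᵢ); C_P(Hᵢ) ≤ Hᵢ; O_{p',p}(N_G(Hᵢ)) = Hᵢ·C_G(Hᵢ); the Sylow p-subgroups of N_G(Hᵢ)/Hᵢ are not chain-connected through nontrivial intersections (the quotient has a strongly p-embedded subgroup); xᵢ lies in O^p(Xᵢ), where Xᵢ/Hᵢ is the smallest normal subgroup of N_G(Hᵢ)/Hᵢ of order divisible by p; and (x₁⋯xᵢ₋₁)⁻¹A(x₁⋯xᵢ₋₁) ⊆ Hᵢ. -/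
theorem result {G : Type*} [Group G] [Finite G] {p : ℕ} [Fact p.Prime]
    (P : Sylow p G) (A : Set G) (hA : A ⊆ (P : Set G)) (hA1 : ∃ a ∈ A, a ≠ 1)
    (g : G) (hAg : (fun a => g⁻¹ * a * g) '' A ⊆ (P : Set G)) :
    ∃ (n : ℕ) (H X : Fin n → Subgroup G) (x : Fin n → G) (c y : G),
      c ∈ Subgroup.centralizer A ∧ y ∈ Subgroup.normalizer ((P : Subgroup G) : Set G) ∧
      g = c * (List.ofFn x).prod * y ∧
      ∀ i : Fin n,
        H i ≤ (P : Subgroup G) ∧
        ¬ p ∣ ((P : Subgroup G) ⊓ Subgroup.normalizer (H i : Set G)).relIndex (Subgroup.normalizer (H i : Set G)) ∧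
        (P : Subgroup G) ⊓ Subgroup.centralizer (H i : Set G) ≤ H i ∧
        (Cfsg.pPrimePCore p ↥(Subgroup.normalizer (H i : Set G))).map (Subgroup.normalizer (H i : Set G)).subtype =
          H i ⊔ Subgroup.centralizer (H i : Set G) ∧
        ¬ Cfsg.IsSylowChainConnected p
            (↥(Subgroup.normalizer (H i : Set G)) ⧸ (H i).subgroupOf (Subgroup.normalizer (H i : Set G))) ∧
        (H i ≤ X i ∧ X i ≤ Subgroup.normalizer (H i : Set G) ∧
          ((X i).subgroupOf (Subgroup.normalizer (H i : Set G))).Normal ∧ p ∣ (H i).relIndex (X i) ∧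
          ∀ Y : Subgroup G, H i ≤ Y → Y ≤ Subgroup.normalizer (H i : Set G) →
            (Y.subgroupOf (Subgroup.normalizer (H i : Set G))).Normal → p ∣ (H i).relIndex Y → X i ≤ Y) ∧
        x i ∈ (Cfsg.pResidual p ↥(X i)).map (X i).subtype ∧
        (fun a => (((List.ofFn x).take i.val).prod)⁻¹ * a * ((List.ofFn x).take i.val).prod) '' A ⊆ (H i : Set G) := by
  let R : Subgroup G → G → Prop := fun T x => Ess p P ⊤ T ∧ x ∈ normalizer (T : Set G) ∧
    ∀ Y, Gd p T Y → x ∈ resOf p Y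
  have hR : ∀ T x, R T x → R T x⁻¹ ∧ x ∈ normalizer (T : Set G) :=
    fun T x h => ⟨⟨h.1, inv_mem h.2.1, fun Y hY => inv_mem (h.2.2 Y hY)⟩, h.2.1⟩
  have hS := sylIn_top P
  have hN : ∀ y ∈ normalizer ((P : Subgroup G) : Set G), ∀ T x, R T x →
      R (cj y T) (y * x * y⁻¹) := by
    rintro y hy T x ⟨h1, h2, h3⟩
    refine ⟨by simpa only [cj_eq_of_mem_normalizer hy, cj_top] using h1.cj y, ?_, fun Y hY => ?_⟩
    · rw [← cj_normalizer]; exact conj_mem_cj y h2
    · have := conj_mem_cj y (h3 _ (by simpa only [cj_inv_cj] using hY.cj y⁻¹))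
      rwa [cj_resOf, cj_cj_inv] at this
  obtain ⟨c, hc, y, hy, w, hw, e⟩ := ag_induction hS (fusProp_chain_norm hR _ hN)
    (fun T _ c hc => ⟨c⁻¹, inv_mem hc.2, 1, one_mem _, 1, Chain.nil _, by simp⟩)
    (fun x hx => ⟨1, one_mem _, x⁻¹, inv_mem hx.2, 1, Chain.nil _, by simp⟩)
    (fun U hU => by
      obtain ⟨X, hX, hm⟩ := hU.exists_least hS
      exact ⟨X, le_inf le_top hX.leN, inf_le_right.trans hX.nrm, hX.not_le hU.fn, fun x hx ho =>
        ⟨1, one_mem _, 1, one_mem _, x⁻¹, Chain.single ⟨hU, inv_mem (hX.leN hx),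
          fun Y hY => inv_mem (mem_resOf (hm Y hY hx) ho)⟩ subset_rfl, by simp⟩⟩)
    (mem_top g⁻¹) ((closure_le _).2 hA) (cj_closure_le hAg)
  rw [inv_inv] at e
  obtain ⟨n, T, x, h1, h2, h3⟩ := chain_iff.1 (hw.mono subset_closure)
  choose X hX hm using fun i => (h2 i).1.exists_least hS
  refine ⟨n, T, X, x, c, y, centralizer_le Subgroup.subset_closure hc, hy, by rw [e, h1], fun i => ?_⟩
  have ha := (h2 i).1.ag hS
  refine ⟨ha.le, (fn_top_iff P).1 ha.fn, ha.cent, ha.OppP_eq', SF.not_chainConn_iff.2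
    ((h2 i).1.spe hS), ⟨(hX i).le, (hX i).leN,
      (normal_subgroupOf_iff_le_normalizer (hX i).leN).2 (hX i).nrm, (hX i).dvd,
      fun Y a b c d => hm i Y ⟨a, b, (normal_subgroupOf_iff_le_normalizer b).1 c, d⟩⟩, ?_, h3 i⟩
  rw [pResidual_map_subtype]
  exact (h2 i).2.2 _ (hX i)

end Cfsg.Agent.S3072
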