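import Cfsg.Statements.S3075
import Cfsg.Agent.H9.TJ
import Cfsg.Agent.L.PCyc

set_option autoImplicit false
open Cfsg

namespace Cfsg.Agent.S3075

open Cfsg.Agent Cfsg.Agent.H9

/-- Let p be an odd prime and N a finite group with a normal elementary abelian subgroup A of order p² that is its own centralizer in N, such that N/A is isomorphic to SL₂(p) (over any field F with p elements). Then N splits over A: some subgroup U of N satisfies A ∩ U = 1 and AU = N. -/
theorem result {N : Type*} [Group N] [Finite N] {p : ℕ} [Fact p.Prime] (hp : p ≠ 2)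
    (A : Subgroup N) [A.Normal] (hAcomm : IsMulCommutative A) (hAcard : Nat.card A = p ^ 2) (hAexp : Monoid.exponent ↥A = p)
    (hAself : Subgroup.centralizer (A : Set N) = A)
    {F : Type*} [Field F] [Fintype F] (hF : Fintype.card F = p) (e : N ⧸ A ≃* Matrix.SpecialLinearGroup (Fin 2) F) :
    ∃ U : Subgroup N, A ⊓ U = ⊥ ∧ A ⊔ U = ⊤ := by
  have hpr : p.Prime := Fact.out
  obtain ⟨m, hm⟩ := hpr.odd_of_ne_two hp
  have hc : ∀ a ∈ A, ∀ b ∈ A, a * b = b * a := H2.isMulCommutative_iff_forall.mp hAcomm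
  have he : ∀ a ∈ A, a ^ p = 1 := fun a ha => by
    have := Monoid.pow_exponent_eq_one (⟨a, ha⟩ : A)
    rw [hAexp] at this
    exact congrArg Subtype.val this
  let π : N →* Matrix.SpecialLinearGroup (Fin 2) F := e.toMonoidHom.comp (QuotientGroup.mk' A)
  have hπ : Function.Surjective π := e.surjective.comp (QuotientGroup.mk'_surjective A)
  have hker : ∀ x, π x = 1 ↔ x ∈ A := fun x => by
    change e _ = 1 ↔ _
    rw [map_eq_one_iff _ e.injective]
    exact QuotientGroup.eq_one_iff x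
  haveI : Fact (Even (Fintype.card (Fin 2))) := ⟨by simp⟩
  have h2 : (2 : F) ≠ 0 := by
    intro h
    have h1 : ((p : ℕ) : F) = 0 := by rw [← hF]; exact Nat.cast_card_eq_zero F
    rw [hm] at h1
    push_cast at h1
    rw [h] at h1
    simp at h1
  have hne : (-1 : Matrix.SpecialLinearGroup (Fin 2) F) ≠ 1 := by
    intro h
    have := congrArg (fun M : Matrix.SpecialLinearGroup (Fin 2) F => M.1 0 0) h
    simp at this
    apply h2
    linear_combination -this
  obtain ⟨x, hx⟩ := hπ (-1)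
  set t := x ^ p with ht
  have ht1 : π t = -1 := by rw [ht, map_pow, hx, (hpr.odd_of_ne_two hp).neg_one_pow]
  have ht2 : t * t = 1 := by
    rw [ht, ← pow_add, ← two_mul, pow_mul]
    exact he _ ((hker _).mp (by rw [map_pow, hx]; simp))
  have hti : t⁻¹ = t := inv_eq_of_mul_eq_one_left ht2
  have hsq : ∀ a ∈ A, (a ^ (m + 1)) ^ 2 = a := fun a ha => by
    rw [← pow_mul, show (m + 1) * 2 = p + 1 by omega, pow_succ, he a ha, one_mul]
  have hN := (inferInstance : A.Normal)
  have hfr : ∀ n : N, ∃ b ∈ A, b * n ∈ Subgroup.centralizer {t} := by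
    intro n
    have ha : t⁻¹ * (n * t * n⁻¹) ∈ A := (hker _).mp (by simp [ht1])
    set a := t⁻¹ * (n * t * n⁻¹) with hadef
    have e1 : n * t * n⁻¹ = t * a := by rw [hadef]; group
    have e2 : t * a * t⁻¹ = a⁻¹ := by
      have : t * a * (t * a) = 1 := by rw [← e1, conj_mul, ht2]; simp
      rw [hti, eq_inv_iff_mul_eq_one, ← this]; group
    refine ⟨a ^ (m + 1), pow_mem ha _, Subgroup.mem_centralizer_singleton_iff.mpr ?_⟩
    set b := a ^ (m + 1) with hb
    have e3 : t * b * t⁻¹ = b⁻¹ := by rw [hb, ← conj_pow, e2, inv_pow]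
    have e4 : b ^ 2 = a := hsq a ha
    calc b * n * t = b * (n * t * n⁻¹) * n := by group
      _ = b * (t * b * t⁻¹) * t * b * n := by rw [e1, ← e4, pow_two]; group
      _ = t * (b * n) := by rw [e3]; group
  refine ⟨Subgroup.centralizer {t}, ?_, ?_⟩
  swap
  · rw [eq_top_iff]
    intro n _
    obtain ⟨b, hb, h⟩ := hfr n
    rw [show n = b⁻¹ * (b * n) by group]
    exact Subgroup.mul_mem_sup (inv_mem hb) h
  by_contra hB
  set B := A ⊓ Subgroup.centralizer {t} with hBdef
  let D : Subgroup N :=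
    { carrier := {a | a ∈ A ∧ t * a * t⁻¹ = a⁻¹}
      one_mem' := ⟨one_mem _, by simp⟩
      mul_mem' := fun {a b} ha hb => ⟨mul_mem ha.1 hb.1, by
        rw [← conj_mul, ha.2, hb.2, mul_inv_rev, hc _ (inv_mem ha.1) _ (inv_mem hb.1)]⟩
      inv_mem' := fun {a} ha => ⟨inv_mem ha.1, by rw [← ha.2]; rw [ha.2, ← conj_inv, ha.2]⟩ }
  have hcj : ∀ n : N, ∃ c ∈ Subgroup.centralizer {t}, ∀ a ∈ A, n * a * n⁻¹ = c * a * c⁻¹ := by
    intro n
    obtain ⟨b, hb, h⟩ := hfr n
    refine ⟨_, h, fun a ha => ?_⟩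
    have := hc b hb _ (hN.conj_mem a ha n)
    calc _ = b * (n * a * n⁻¹) * b⁻¹ := by rw [this]; group
      _ = _ := by group
  haveI hBn : B.Normal := ⟨fun a ha n => by
    obtain ⟨c, h1, h2⟩ := hcj n
    refine ⟨hN.conj_mem a ha.1 n, ?_⟩
    rw [h2 a ha.1]
    exact Subgroup.mul_mem _ (Subgroup.mul_mem _ h1 ha.2) (Subgroup.inv_mem _ h1)⟩
  haveI hDn : D.Normal := ⟨fun a ha n => by
    obtain ⟨c, h1, h2⟩ := hcj n
    refine ⟨hN.conj_mem a ha.1 n, ?_⟩
    rw [h2 a ha.1]
    have h3 := Subgroup.mem_centralizer_singleton_iff.mp h1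
    calc _ = (t * c) * a * (t * c)⁻¹ := by group
      _ = c * (t * a * t⁻¹) * c⁻¹ := by rw [← h3]; group
      _ = _ := by rw [ha.2]; group⟩
  have hcyc : ∀ X : Subgroup N, X < A → IsCyclic X := fun X hX => by
    have h1 := H2.card_lt_of_lt hX
    obtain ⟨k, -, e⟩ := (Nat.dvd_prime_pow hpr).mp (hAcard ▸ Subgroup.card_dvd_of_le hX.le)
    rw [e, hAcard, Nat.pow_lt_pow_iff_right hpr.one_lt] at h1
    exact isCyclic_of_card_dvd_prime (p := p) (by
      rw [e]; exact (pow_dvd_pow p (by omega)).trans (pow_one p).dvd)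
  haveI := hcyc B (lt_of_le_of_ne inf_le_left fun e => hne (by
    rw [← ht1, hker, ← hAself]
    intro a ha
    rw [← e] at ha
    exact Subgroup.mem_centralizer_singleton_iff.mp ha.2))
  haveI := hcyc D (lt_of_le_of_ne (fun a ha => ha.1) fun e => hB (by
    rw [eq_bot_iff]
    intro a ha
    have h1 : a ∈ D := e ▸ ha.1
    have h2 := h1.2
    rw [← Subgroup.mem_centralizer_singleton_iff.mp ha.2, mul_inv_cancel_right] at h2
    rw [Subgroup.mem_bot, ← hsq a ha.1, ← pow_mul, mul_comm, pow_mul, pow_two]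
    nth_rewrite 2 [h2]
    simp))
  have hder : commutator N ≤ A := by
    rw [← hAself]
    intro g hg a ha
    have k1 := L.commutator_le_centralizer_of_isCyclic B hg
    have k2 := L.commutator_le_centralizer_of_isCyclic D hg
    have ha' := hN.conj_mem a ha t
    have e0 : t * (t * a * t⁻¹) * t⁻¹ = a := by
      calc _ = (t * t) * a * (t * t)⁻¹ := by group
        _ = a := by rw [ht2]; simp
    have k3 : a * (t * a * t⁻¹) ∈ B := ⟨mul_mem ha ha', Subgroup.mem_centralizer_singleton_iff.mpr (by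
      rw [eq_comm, ← mul_inv_eq_iff_eq_mul, ← conj_mul, e0, hc a ha _ ha'])⟩
    have k4 : a * (t * a * t⁻¹)⁻¹ ∈ D := ⟨mul_mem ha (inv_mem ha'), by
      rw [← conj_mul, ← conj_inv, e0, mul_inv_rev a, inv_inv]⟩
    have k5 : Commute (a ^ 2) g := by
      have : a ^ 2 = a * (t * a * t⁻¹) * (a * (t * a * t⁻¹)⁻¹) := by
        rw [hc a ha _ (inv_mem ha'), pow_two]; group
      rw [this]
      exact Commute.mul_left (k1 _ k3) (k2 _ k4)
    rw [← hsq a ha, ← pow_mul, mul_comm, pow_mul]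
    exact (k5.pow_left _).eq
  obtain ⟨u, hu⟩ := hπ ⟨!![1, 1; 0, 1], by simp [Matrix.det_fin_two]⟩
  obtain ⟨v, hv⟩ := hπ ⟨!![1, 0; 1, 1], by simp [Matrix.det_fin_two]⟩
  have := (hker _).mpr (hder (Subgroup.commutator_mem_commutator (Subgroup.mem_top u)
    (Subgroup.mem_top v)))
  rw [map_commutatorElement, commutatorElement_eq_one_iff_mul_comm, hu, hv] at this
  have := congrArg (fun M : Matrix.SpecialLinearGroup (Fin 2) F => M.1 0 0) this
  change ((!![1, 1; 0, 1] * !![1, 0; 1, 1] : Matrix (Fin 2) (Fin 2) F)) 0 0 =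
    ((!![1, 0; 1, 1] * !![1, 1; 0, 1] : Matrix (Fin 2) (Fin 2) F)) 0 0 at this
  simp at this

end Cfsg.Agent.S3075
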