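import Cfsg.Statements.S3076
import Mathlib
import Cfsg.Agent.H2.Tame

set_option autoImplicit false
open Cfsg

namespace Cfsg.Agent.S3076

open Cfsg.Agent.H2 Subgroup

/-- Let P be a Sylow p-subgroup of the finite group G and H ≤ P a subgroup with N_P(H) a Sylow p-subgroup of N_G(H). Let N be the preimage in N_G(H) of O_p(N_G(H)/C_G(H)). Then H is a Sylow p-subgroup of N if and only if C_P(H) ≤ H and O_{p',p}(N_G(H)) = H·C_G(H). -/
theorem result {G : Type*} [Group G] [Finite G] {p : ℕ} [Fact p.Prime]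
    (P : Sylow p G) (H : Subgroup G) (hHP : H ≤ (P : Subgroup G))
    (hSyl : ¬ p ∣ ((P : Subgroup G) ⊓ Subgroup.normalizer (H : Set G)).relIndex (Subgroup.normalizer (H : Set G)))
    [hC : ((Subgroup.centralizer (H : Set G)).subgroupOf (Subgroup.normalizer (H : Set G))).Normal] :
    (H ≤ ((Cfsg.pCore p (↥(Subgroup.normalizer (H : Set G)) ⧸
              (Subgroup.centralizer (H : Set G)).subgroupOf (Subgroup.normalizer (H : Set G)))).comap
            (QuotientGroup.mk' _)).map (Subgroup.normalizer (H : Set G)).subtype ∧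
      ¬ p ∣ H.relIndex (((Cfsg.pCore p (↥(Subgroup.normalizer (H : Set G)) ⧸
              (Subgroup.centralizer (H : Set G)).subgroupOf (Subgroup.normalizer (H : Set G)))).comap
            (QuotientGroup.mk' _)).map (Subgroup.normalizer (H : Set G)).subtype)) ↔
    ((P : Subgroup G) ⊓ Subgroup.centralizer (H : Set G) ≤ H ∧
      (Cfsg.pPrimePCore p ↥(Subgroup.normalizer (H : Set G))).map (Subgroup.normalizer (H : Set G)).subtype =
        H ⊔ Subgroup.centralizer (H : Set G)) := by
  set f := QuotientGroup.mk' ((centralizer (H : Set G)).subgroupOf (normalizer (H : Set G)))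
  have hk : H8.kr f = centralizer (H : Set G) :=
    H8.kr_mk'_subgroupOf (centralizer_le_normalizer _)
  have hf := QuotientGroup.mk'_surjective
    ((centralizer (H : Set G)).subgroupOf (normalizer (H : Set G)))
  have hH : IsPGroup p H := P.2.to_le hHP
  have hfn := (fn_top_iff P).2 hSyl
  change (H ≤ H8.pre f _ ∧ ¬ p ∣ H.relIndex (H8.pre f _)) ↔ (_ ∧ OppP p _ = _)
  rw [← H8.Op_top]
  have key : ∀ X ≤ normalizer (H : Set G), normalizer (H : Set G) ≤ normalizer (X : Set G) →
      resOf p X ≤ centralizer (H : Set G) → X ≤ H8.pre f (H8.Op p ⊤) := fun X h1 h2 h3 => by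
    rw [← H8.im_le_iff f h1]
    refine H8.le_Op le_top (H8.normal_iff_top_le.1 (H8.im_normal f hf h2)) ?_
    rintro ⟨_, x, hx, rfl⟩
    obtain ⟨k, e⟩ := exists_pow_mem_resOf (p := p) (H := X) hx
    refine ⟨k, Subtype.ext ?_⟩
    have := (H8.mem_kr' f (x := x ^ p ^ k)).1 (hk.ge (h3 e))
    rwa [map_pow] at this
  have hHle := key H le_normalizer le_rfl (by rw [resOf_eq_bot_of_isPGroup hH]; exact bot_le)
  constructor
  · rintro ⟨-, h2⟩
    have h3 := sylIn_of_not_dvd hHle hH h2
    have h4 : ∀ X ≤ H8.pre f (H8.Op p ⊤), (P : Subgroup G) ⊓ X ≤ H := fun X hX =>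
      le_sup_left.trans (h3.max _ (sup_le (inf_le_right.trans hX) hHle)
        (P.2.to_le (sup_le inf_le_left hHP)) le_sup_right).le
    have h5 := h4 _ (hk.ge.trans (H8.kr_le_pre f _))
    exact ⟨h5, AG.OppP_eq' ⟨P.2, hHP, hfn, h5, h4 _ (key _ (OppP_le _ _) (le_normalizer_OppP _ _)
      (by rw [resOf_OppP]; exact Opp_normalizer_le hH))⟩⟩
  · rintro ⟨h1, h2⟩
    refine ⟨hHle, ?_⟩
    have hc := ctr_of_fn hfn h1
    have h3 : H8.pre f (H8.Op p ⊤) ≤ OppP p (normalizer (H : Set G)) := by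
      refine le_OppP (H8.pre_le f _) (H8.le_normalizer_pre f le_rfl
        (le_top.trans (H8.le_normalizer_Op _ _))) (pNil_of_resOf (hc.pNil.mono ?_))
      refine le_inf le_top (resOf_le_iff.2 fun x hx ho => ?_)
      obtain ⟨hxN, hx⟩ := (H8.mem_pre f).1 hx
      refine hk.le ((H8.mem_kr f).2 ⟨hxN, eq_one_of_mem_pgroup_of_coprime (H8.Op_isPGroup _ _) hx ?_⟩)
      exact Nat.Coprime.coprime_dvd_left ((orderOf_map_dvd f _).trans
        (by rw [← Subgroup.orderOf_coe])) ho
    have h4 : OppP p (normalizer (H : Set G)) ≤ H ⊔ H8.Opp p (normalizer (H : Set G)) := by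
      rw [h2, sup_comm H (H8.Opp _ _)]; exact sup_le le_sup_right hc.cent_le
    have h5 : SylIn p H (H ⊔ H8.Opp p (normalizer (H : Set G))) :=
      sylIn_of_not_dvd le_sup_left hH fun e => H8.coprime_iff_not_dvd.1 (H8.Opp_coprime p _)
        (e.trans (H8.relIndex_sup_dvd_card' (le_normalizer.trans (H8.le_normalizer_Opp _ _))))
    exact (h5.mono hHle (h3.trans h4)).not_dvd_relIndex

end Cfsg.Agent.S3076
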