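import Cfsg.Statements.S3087
import Cfsg.Agent.H2.PNil
import Cfsg.Agent.H1.Products

set_option autoImplicit false
open Cfsg

namespace Cfsg.Agent.S3087

open Cfsg.Agent Cfsg.Agent.H2 Subgroup
open scoped Pointwise commutatorElement

/-- Let p be a prime, G a finite group acting linearly on a finite vector space V over the field with p elements, W a G-invariant subspace, and A a subgroup of G with |A|·|C_V(A)| ≥ |B|·|C_V(B)| for every subgroup B of A. Then |A|·|C_W(A)| ≥ |B|·|C_W(B)| for every subgroup B of A that contains C_A(W); that is, the image of A in the group induced on W satisfies the same maximality condition. -/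
theorem result {G V : Type*} [Group G] [Finite G] [AddCommGroup V] [Finite V] (p : ℕ) [Fact p.Prime] [Module (ZMod p) V]
    (ρ : Representation (ZMod p) G V) (W : Submodule (ZMod p) V) (hW : ∀ g : G, ∀ w ∈ W, ρ g w ∈ W)
    (A : Subgroup G)
    (hP : ∀ B : Subgroup G, B ≤ A →
      Nat.card ↥B * Nat.card {v : V // ∀ b ∈ B, ρ b v = v} ≤ Nat.card ↥A * Nat.card {v : V // ∀ a ∈ A, ρ a v = v})
    (B : Subgroup G) (hBA : B ≤ A) (hCB : ∀ a ∈ A, (∀ w ∈ W, ρ a w = w) → a ∈ B) :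
    Nat.card ↥B * Nat.card {w : W // ∀ b ∈ B, ρ b w = w} ≤ Nat.card ↥A * Nat.card {w : W // ∀ a ∈ A, ρ a w = w} := by
  let C : Subgroup G → AddSubgroup V := fun H =>
    { carrier := {v | ∀ h ∈ H, ρ h v = v}
      zero_mem' := fun h _ => map_zero _
      add_mem' := fun {a b} ha hb h hh => by rw [map_add, ha h hh, hb h hh]
      neg_mem' := fun {a} ha h hh => by rw [map_neg, ha h hh] }
  have eW : ∀ H : Subgroup G, Nat.card {w : W // ∀ b ∈ H, ρ b w = w} = Nat.card ↥(W.toAddSubgroup ⊓ C H) :=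
    fun H => Nat.card_congr ⟨fun w => ⟨w.1.1, w.1.2, w.2⟩, fun w => ⟨⟨w.1, w.2.1⟩, w.2.2⟩, fun _ => rfl, fun _ => rfl⟩
  have h1 : Nat.card B * Nat.card (C B) ≤ Nat.card A * Nat.card (C A) := hP B hBA
  rw [eW, eW]
  have h2 := H1.card_mul_card_le (G := Multiplicative V) (H := (W.toAddSubgroup ⊓ C B).toSubgroup)
    (K := (C A).toSubgroup) (L := (C B).toSubgroup) (fun x hx => hx.2) (fun x hx h hh => hx h (hBA hh))
  have e : (W.toAddSubgroup ⊓ C B).toSubgroup ⊓ (C A).toSubgroup = (W.toAddSubgroup ⊓ C A).toSubgroup := by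
    ext x
    exact ⟨fun hx => ⟨hx.1.1, hx.2⟩, fun hx => ⟨⟨hx.1, fun h hh => hx.2 h (hBA hh)⟩, hx.2⟩⟩
  rw [e] at h2
  change Nat.card ↥(W.toAddSubgroup ⊓ C B) * Nat.card (C A) ≤ Nat.card (C B) * Nat.card ↥(W.toAddSubgroup ⊓ C A) at h2
  have h3 : 0 < Nat.card (C A) := Nat.card_pos
  refine Nat.le_of_mul_le_mul_right ?_ h3
  calc _ = Nat.card B * (Nat.card ↥(W.toAddSubgroup ⊓ C B) * Nat.card (C A)) := by ring
    _ ≤ Nat.card B * (Nat.card (C B) * Nat.card ↥(W.toAddSubgroup ⊓ C A)) := Nat.mul_le_mul_left _ h2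
    _ = (Nat.card B * Nat.card (C B)) * Nat.card ↥(W.toAddSubgroup ⊓ C A) := by ring
    _ ≤ (Nat.card A * Nat.card (C A)) * Nat.card ↥(W.toAddSubgroup ⊓ C A) := Nat.mul_le_mul_right _ h1
    _ = _ := by ring

end Cfsg.Agent.S3087
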