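import Cfsg.Statements.S3103
import Mathlib
import Cfsg.Agent.S0256
import Cfsg.Agent.H9.Stab
import Cfsg.Agent.H2.BG2
import Cfsg.Agent.H1.Coprime

set_option autoImplicit false
open Cfsg

namespace Cfsg.Agent.S3103

open Subgroup Module

/-- Let X be a finite 2-constrained group with no nontrivial normal subgroup of odd order such that O₂(X) has sectional 2-rank at most 4. Then X/O₂(X) is isomorphic to a subgroup of the alternating group of degree 8. -/
theorem result {X : Type*} [Group X] [Finite X] (hc : Cfsg.IsPConstrained 2 X) (hO : Cfsg.oddCore X = ⊥)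
    (h4 : Cfsg.SectionalPRankLE 2 4 ↥(Cfsg.pCore 2 X)) :
    ∃ f : X ⧸ Cfsg.pCore 2 X →* ↥(alternatingGroup (Fin 8)), Function.Injective f := by
  classical
  have hQ := H1.isPGroup_pCore 2 X
  have hC := H9.charP_of_constrained hc hO
  set Q := pCore 2 X
  let π := QuotientGroup.mk' ((frattini Q).map Q.subtype)
  have hV : IsElementaryAbelian 2 (Q.map π) := (H1.map_frattini_eq_bot_iff (hQ.map π)).1 (by
    rw [← H1.map_map_frattini hQ, Subgroup.map_eq_bot_iff, QuotientGroup.ker_mk'])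
  have hcard : Nat.card (Q.map π) ≤ 2 ^ 4 := by
    let g := (π.subgroupMap Q).comp (topEquiv (G := Q)).toMonoidHom
    let e := QuotientGroup.quotientKerEquivOfSurjective g ((π.subgroupMap_surjective Q).comp topEquiv.surjective)
    rw [← Nat.card_congr e.toEquiv, ← card_top]
    exact h4 ⊤ g.ker ⊤ ⟨⟨fun a b => Subtype.ext (e.injective (by
      rw [coe_mul, coe_mul, map_mul, map_mul, hV.1.is_comm.comm]))⟩⟩
      fun a _ => e.injective (by rw [map_pow, map_one]; exact Subtype.ext (hV.2 _ (e a).2))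
  haveI : (Q.map π).Normal := Normal.map inferInstance π (QuotientGroup.mk'_surjective _)
  have hker : (centralizer (Q.map π : Set _)).comap π = Q := by
    refine le_antisymm (H1.le_pCore inferInstance (IsPGroup.iff_card.2 ⟨_, Nat.eq_prime_pow_of_unique_prime_dvd
      Nat.card_pos.ne' fun {q} hq hd => ?_⟩)) (map_le_iff_le_comap.1 (haveI := hV.1; le_centralizer _))
    by_contra q2
    haveI := Fact.mk hq
    obtain ⟨⟨y, hy⟩, ho⟩ := exists_prime_orderOf_dvd_card' q hd
    rw [orderOf_mk] at ho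
    obtain ⟨k, hk⟩ := IsPGroup.iff_card.1 (hQ.to_subgroup (frattini Q))
    have h1 := H1.le_centralizer_of_commutator_le_frattini (A := zpowers y) (K := Q) le_normalizer_of_normal
      (by rw [hk, Nat.card_zpowers, ho]; exact ((Nat.coprime_primes hq Nat.prime_two).2 q2).pow_right k)
      (H1.commutator_le_iff_map_mk'.2 (le_centralizer_iff.1 (map_le_iff_le_comap.2 (zpowers_le.2 hy))))
    obtain ⟨j, hj⟩ := hQ ⟨y, hC (h1 (mem_zpowers y))⟩
    exact q2 ((Nat.prime_dvd_prime_iff_eq hq Nat.prime_two).1 (hq.dvd_of_dvd_pow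
      (ho ▸ orderOf_dvd_of_pow_eq_one (congrArg Subtype.val hj))))
  obtain ⟨W, _, _, _, ρ, h1, -, h2, -⟩ := H2.exists_rep' (ZMod 2) hV (X := ⊤) le_normalizer_of_normal
  rw [h1, Nat.pow_le_pow_iff_right one_lt_two] at hcard
  let ρ' := ρ.prod (Representation.trivial (ZMod 2) _ (Fin (4 - finrank (ZMod 2) W) → ZMod 2))
  let b := finBasisOfFinrankEq (ZMod 2) (W × (Fin (4 - finrank (ZMod 2) W) → ZMod 2)) (n := 4) (by simp; omega)
  let ψ := ((LinearMap.toMatrixAlgEquiv b).toMulEquiv.toMonoidHom.comp ρ').comp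
    ((topEquiv (G := X ⧸ (frattini Q).map Q.subtype)).symm.toMonoidHom.comp π)
  have hu : ∀ u v : ZMod 2, u * v = 1 → u = 1 := by decide
  let φ : X →* Matrix.SpecialLinearGroup (Fin 4) (ZMod 2) := MonoidHom.mk' (fun g => ⟨ψ g, hu _ (ψ g⁻¹).det (by
    rw [← Matrix.det_mul, ← map_mul, mul_inv_cancel, map_one, Matrix.det_one])⟩) fun a b => Subtype.ext (map_mul ψ a b)
  obtain ⟨e⟩ := S0256.result (F := ZMod 2) (ZMod.card 2)
  let χ := e.toMonoidHom.comp ((QuotientGroup.mk' _).comp φ)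
  have hχ : Q = χ.ker := by
    ext g
    have a1 : g ∈ χ.ker ↔ φ g ∈ center _ := (map_eq_one_iff e e.injective).trans (QuotientGroup.eq_one_iff _)
    have a2 : φ g ∈ center _ ↔ ψ g = 1 := ⟨fun h => by
      obtain ⟨r, r1, r2⟩ := Matrix.SpecialLinearGroup.mem_center_iff.1 h
      rw [hu r (r ^ 3) (by rw [← pow_succ']; exact r1), map_one] at r2
      exact r2.symm, fun h => (Subtype.ext h : φ g = 1) ▸ one_mem _⟩
    have a3 : ψ g = 1 ↔ ρ' ⟨π g, trivial⟩ = 1 := map_eq_one_iff _ (LinearMap.toMatrixAlgEquiv b).injective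
    have a4 : ρ' ⟨π g, trivial⟩ = 1 ↔ ρ ⟨π g, trivial⟩ = 1 := ⟨fun h => LinearMap.ext fun w =>
      congrArg Prod.fst (LinearMap.congr_fun h (w, 0)), fun h => LinearMap.ext fun w =>
        Prod.ext (LinearMap.congr_fun h w.1) rfl⟩
    rw [a1, a2, a3, a4, ← MonoidHom.mem_ker, h2]
    exact (SetLike.ext_iff.1 hker g).symm
  exact ⟨QuotientGroup.lift Q χ hχ.le, (QuotientGroup.injective_lift_iff Q χ hχ.le).2 hχ⟩

end Cfsg.Agent.S3103
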