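import Cfsg.Statements.S3116
import Mathlib
import Cfsg.Agent.H2.MCF

set_option autoImplicit false
open Cfsg

namespace Cfsg.Agent.S3116

open Cfsg.Agent.H2 Cfsg.Agent.L Subgroup

/-- The automorphism group of a dihedral 2-group of order at least 8, or of a quasi-dihedral (semidihedral) 2-group of order at least 16, is a 2-group. -/
theorem result {X : Type*} [Group X] [Finite X] (h2 : IsPGroup 2 X)
    (h : (∃ n : ℕ, 4 ≤ n ∧ Nonempty (X ≃* DihedralGroup n)) ∨ Cfsg.IsQuasiDihedral X) : IsPGroup 2 (MulAut X) := by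
  have h1 : IsPGroup 2 (MulAut (⊤ : Subgroup X)) := by
    refine isPGroup_mulAut fun f hf => ?_
    by_contra hne
    push Not at hne
    rcases h with ⟨n, hn, ⟨e⟩⟩ | h
    · have := (isKleinFour_of_dih (h2.to_subgroup ⊤) (topEquiv.trans e) le_rfl hf hne).card_four
      rw [card_top, Nat.card_congr e.toEquiv, DihedralGroup.nat_card] at this
      omega
    · obtain ⟨m, x, y, hc, h⟩ := exists_sdp_top h
      have h3 := h.mc.card_of_oddAut le_rfl hf hne
      have h4 := h.one_lt
      rw [h.mc.card] at h3
      omega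
  exact h1.of_equiv (MulAut.congr topEquiv)

end Cfsg.Agent.S3116
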