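import Cfsg.Statements.S3156
import Mathlib
import Cfsg.Agent.H7.U3B

set_option autoImplicit false
open Cfsg

namespace Cfsg.Agent.S3156

open Cfsg.Agent.H4 Cfsg.Agent.H7 Subgroup

/-- If a finite group T is isomorphic to a Sylow 2-subgroup of the projective special unitary group of dimension 3 with parameter 4 (realised over the field with 16 elements), then no subgroup of the automorphism group of T is isomorphic to the symmetric group of degree 3. -/
theorem result {T : Type*} [Group T] [Finite T] (hT : (∃ (F : Type) (_ : Field F) (_ : Fintype F), Fintype.card F = 16 ∧ ∃ S : Sylow 2 (Cfsg.PSU 3 F 4), Nonempty (T ≃* ↥(S : Subgroup (Cfsg.PSU 3 F 4))))) (H : Subgroup (MulAut T)) : ¬ Nonempty (↥H ≃* Equiv.Perm (Fin 3)) := by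
  obtain ⟨F, _, _, hF, S, ⟨e2⟩⟩ := hT
  rintro ⟨e3⟩
  haveI : CharP F 2 := charP_of_card_eq_prime_pow (p := 2) (f := 4) hF
  have hF' : Fintype.card F = (2 ^ 2) ^ 2 := hF
  haveI : Fact (∀ x, frobq hF' (frobq hF' x) = x) := ⟨frobq_frobq hF'⟩
  obtain ⟨e1⟩ : Nonempty (U3 (frobq hF') ≃* ↥(S : Subgroup (Cfsg.PSU 3 F 4))) := exists_U3_equiv hF' S
  have hne := frobq_ne hF'
  let f := (MulAut.congr (e2.trans e1.symm)).toMonoidHom.comp (H.subtype.comp e3.symm.toMonoidHom)
  have hf : Function.Injective f :=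
    (MulAut.congr (e2.trans e1.symm)).injective.comp (H.subtype_injective.comp e3.symm.injective)
  obtain ⟨δ, hδ⟩ := U3.exists_delta hne
  obtain ⟨c, hc⟩ : ∃ c, c = f (Equiv.swap 0 1 * Equiv.swap 1 2) := ⟨_, rfl⟩
  obtain ⟨t, ht⟩ : ∃ t, t = f (Equiv.swap 0 1) := ⟨_, rfl⟩
  have c3 : c * c * c = 1 := by rw [hc, ← map_mul, ← map_mul, ← map_one f]; congr 1; decide
  have t2 : t * t = 1 := by rw [ht, ← map_mul, ← map_one f]; congr 1; decide
  have tc : t * c = c * c * t := by rw [hc, ht, ← map_mul, ← map_mul, ← map_mul]; congr 1; decide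
  have c2 : c * c ≠ 1 := by
    rw [hc, ← map_mul, ← map_one f, hf.ne_iff]; decide
  obtain ⟨s, ρ, hs⟩ := U3.exists_semi hne c
  obtain ⟨u, τ, hu⟩ := U3.exists_semi hne t
  have h1 : ∀ a, s * ρ (s * ρ (s * ρ a)) = a := fun a => by
    have := congrArg (fun φ : MulAut (U3 (frobq hF')) => (φ (U3.sec hδ a)).a) c3
    simp only [MulAut.mul_apply, hs] at this
    exact this
  have h2 : ρ ^ 3 = 1 := RingEquiv.ext fun a => by
    have e1 := h1 a
    have e2 := h1 1
    simp only [map_mul, map_one, mul_one, ← mul_assoc] at e1 e2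
    rw [e2, one_mul] at e1
    exact e1
  have h3 : ρ = 1 := by
    have := pow_card_eq_one' (x := ρ)
    rwa [(ringAut_card7 F (p := 2) (f := 4) hF).1, pow_succ, h2, one_mul] at this
  subst h3
  have hs' : ∀ x, (c x).a = s * x.a := hs
  have h4 : (s : F) * (s * (s * 1)) = 1 := h1 1
  have h5 : ∀ a, u * τ (u * τ a) = a := fun a => by
    have := congrArg (fun φ : MulAut (U3 (frobq hF')) => (φ (U3.sec hδ a)).a) t2
    simp only [MulAut.mul_apply, hu] at this
    exact this
  have h6 : τ s = s := by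
    rcases U3.inv_cases hne τ (fun a => by
      have e1 := h5 a
      have e2 := h5 1
      simp only [map_mul, map_one, mul_one, ← mul_assoc] at e1 e2
      rwa [e2, one_mul] at e1) with h | h
    · exact h s
    · rw [h, frobq_apply]; linear_combination s * h4
  have h7 := congrArg (fun φ : MulAut (U3 (frobq hF')) => (φ (U3.sec hδ 1)).a) tc
  simp only [MulAut.mul_apply, hu, hs', U3.sec, map_one, mul_one, h6] at h7
  have h8 : (s : F) = 1 := by
    have := mul_left_cancel₀ (mul_ne_zero u.ne_zero s.ne_zero) (show (u : F) * s * s = u * s * 1 by linear_combination -h7)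
    exact this
  exact c2 (U3.sq_of_a hne c fun x => by rw [hs', h8, one_mul])

end Cfsg.Agent.S3156
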