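import Cfsg.Statements.S3162
import Mathlib
import Cfsg.Agent.H7.U3B

set_option autoImplicit false
open Cfsg

namespace Cfsg.Agent.S3162

open Cfsg.Agent.H4 Cfsg.Agent.H7 Subgroup

/-- Let S be a Sylow 2-subgroup of the special unitary group of dimension 3 with parameter q = 2^n (n ≥ 2; realised over the field with q² elements). Then the largest normal 2-subgroup of the automorphism group of S is elementary abelian of order 2^(2n²), and the automorphism group has order 2^(2n²) · 2n(q² − 1). -/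
theorem result {S : Type*} [Group S] [Finite S] (n : ℕ) (hn : 2 ≤ n) {F : Type*} [Field F] [Fintype F] (hF : Fintype.card F = 4 ^ n)
    (P : Sylow 2 ↥(Cfsg.SU 3 F (2 ^ n))) (hS : Nonempty (S ≃* ↥(P : Subgroup ↥(Cfsg.SU 3 F (2 ^ n))))) :
    Cfsg.IsElementaryAbelian 2 (Cfsg.pCore 2 (MulAut S)) ∧ Nat.card ↥(Cfsg.pCore 2 (MulAut S)) = 2 ^ (2 * n ^ 2) ∧
      Nat.card (MulAut S) = 2 ^ (2 * n ^ 2) * (2 * n * ((2 ^ n) ^ 2 - 1)) := by
  have hF' : Fintype.card F = (2 ^ n) ^ 2 := by rw [hF, ← pow_mul, mul_comm, pow_mul]; rfl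
  have hF2 : Fintype.card F = 2 ^ (2 * n) := by rw [hF', ← pow_mul, mul_comm]
  haveI : CharP F 2 := charP_of_card_eq_prime_pow (p := 2) hF2
  haveI : Fact (∀ x, frobq hF' (frobq hF' x) = x) := ⟨frobq_frobq hF'⟩
  obtain ⟨e1⟩ := exists_U3_equiv' hF' P
  obtain ⟨e2⟩ := hS
  let e := MulAut.congr (e1.trans e2.symm)
  have hne := frobq_ne hF'
  have h1 := H1.map_pCore_equiv (p := 2) e
  have h2 : Nat.card (pCore 2 (MulAut (U3 (frobq hF')))) = 2 ^ (2 * n ^ 2) := by
    letI := ZMod.algebra F 2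
    letI := ZMod.algebra ((frobq hF').eqLocusField (RingHom.id F)) 2
    rw [U3.card_pCore hne, card_addHom_zmod (p := 2) (N := (frobq hF').eqLocusField (RingHom.id F)) (Nat.card_eq_fintype_card.trans hF2) (card_fixed_frobq hF'),
      mul_assoc, sq]
  have h3 : ∀ φ ∈ pCore 2 (MulAut S), φ ^ 2 = 1 := by
    rw [← h1]
    rintro _ ⟨φ, hφ, rfl⟩
    rw [← map_pow, sq, U3.sq_of_a hne φ ((U3.mem_pCore hne).1 hφ), map_one]
  refine ⟨⟨⟨⟨fun a b => ?_⟩⟩, h3⟩, ?_, ?_⟩
  · have ha := h3 a a.2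
    have hb := h3 b b.2
    have hab := h3 _ (a * b).2
    rw [sq, mul_eq_one_iff_eq_inv] at ha hb hab
    exact Subtype.ext (by rw [hab, coe_mul, mul_inv_rev, ← ha, ← hb, coe_mul])
  · rw [← h1, card_map_of_injective e.injective, h2]
  · rw [← Nat.card_congr e.toEquiv, U3.card_aut hne (fun ρ a => (map_pow ρ a _).symm), h2, (ringAut_card7 F hF2).1,
      Nat.card_units, Nat.card_eq_fintype_card, hF']

end Cfsg.Agent.S3162
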