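import Cfsg.Statements.S3171
import Cfsg.Agent.GS.Mk4
import Cfsg.Agent.L.Frattini

set_option autoImplicit false
open Cfsg

namespace Cfsg.Agent.S3171

section
open Finset Pointwise Cfsg.Agent.St Cfsg.Agent.H6

set_option maxRecDepth 100000
structure U where (a b c d e f g h i j : ZMod 2)
structure W where (a b c d e f g h i : ZMod 2)
  deriving DecidableEq
instance : Mul U := ⟨fun x y => ⟨x.a + y.a, x.b + y.b, x.c + y.c, x.d + y.d, x.e + x.a * y.b + y.e, x.f + x.b * y.c + y.f,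
  x.g + x.c * y.d + y.g, x.h + x.a * y.f + x.e * y.c + y.h, x.i + x.b * y.g + x.f * y.d + y.i,
  x.j + x.a * y.i + x.e * y.g + x.h * y.d + y.j⟩⟩
instance : One U := ⟨⟨0, 0, 0, 0, 0, 0, 0, 0, 0, 0⟩⟩
instance : Inv U := ⟨fun x => ⟨-x.a, -x.b, -x.c, -x.d, -x.e + x.a * x.b, -x.f + x.b * x.c, -x.g + x.c * x.d,
  -x.h + x.a * x.f + x.e * x.c - x.a * x.b * x.c, -x.i + x.b * x.g + x.f * x.d - x.b * x.c * x.d,
  -x.j + x.a * x.i + x.e * x.g + x.h * x.d - x.a * x.b * x.g - x.a * x.f * x.d - x.e * x.c * x.d + x.a * x.b * x.c * x.d⟩⟩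
theorem U.mul_def (x y : U) : x * y = ⟨x.a + y.a, x.b + y.b, x.c + y.c, x.d + y.d, x.e + x.a * y.b + y.e, x.f + x.b * y.c + y.f,
  x.g + x.c * y.d + y.g, x.h + x.a * y.f + x.e * y.c + y.h, x.i + x.b * y.g + x.f * y.d + y.i,
  x.j + x.a * y.i + x.e * y.g + x.h * y.d + y.j⟩ := rfl
instance : Group U := Group.ofLeftAxioms
  (fun x y z => by simp only [U.mul_def]; congr 1 <;> ring)
  (fun x => by show U.mk .. = U.mk x.a x.b x.c x.d x.e x.f x.g x.h x.i x.j; congr 1 <;> (dsimp only [One.one, OfNat.ofNat]; ring))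
  (fun x => by show U.mk .. = U.mk 0 0 0 0 0 0 0 0 0 0; congr 1 <;> (dsimp only [Inv.inv]; ring))
instance : Mul W := ⟨fun x y => ⟨x.a + y.a, x.b + y.b, x.c + y.c, x.d + y.d, x.e + x.a * y.b + y.e, x.f + x.b * y.c + y.f,
  x.g + x.c * y.d + y.g, x.h + x.a * y.f + x.e * y.c + y.h, x.i + x.b * y.g + x.f * y.d + y.i⟩⟩
instance : One W := ⟨⟨0, 0, 0, 0, 0, 0, 0, 0, 0⟩⟩
instance : Inv W := ⟨fun x => ⟨-x.a, -x.b, -x.c, -x.d, -x.e + x.a * x.b, -x.f + x.b * x.c, -x.g + x.c * x.d,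
  -x.h + x.a * x.f + x.e * x.c - x.a * x.b * x.c, -x.i + x.b * x.g + x.f * x.d - x.b * x.c * x.d⟩⟩
theorem W.mul_def (x y : W) : x * y = ⟨x.a + y.a, x.b + y.b, x.c + y.c, x.d + y.d, x.e + x.a * y.b + y.e, x.f + x.b * y.c + y.f,
  x.g + x.c * y.d + y.g, x.h + x.a * y.f + x.e * y.c + y.h, x.i + x.b * y.g + x.f * y.d + y.i⟩ := rfl
instance : Group W := Group.ofLeftAxioms
  (fun x y z => by simp only [W.mul_def]; congr 1 <;> ring)
  (fun x => by show W.mk .. = W.mk x.a x.b x.c x.d x.e x.f x.g x.h x.i; congr 1 <;> (dsimp only [One.one, OfNat.ofNat]; ring))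
  (fun x => by show W.mk .. = W.mk 0 0 0 0 0 0 0 0 0; congr 1 <;> (dsimp only [Inv.inv]; ring))
def pr : U →* W := MonoidHom.mk' (fun x => ⟨x.a, x.b, x.c, x.d, x.e, x.f, x.g, x.h, x.i⟩) fun _ _ => rfl
theorem cU : Nat.card U = 1024 := (Nat.card_congr (⟨fun x => (x.a, x.b, x.c, x.d, x.e, x.f, x.g, x.h, x.i, x.j),
  fun p => ⟨p.1, p.2.1, p.2.2.1, p.2.2.2.1, p.2.2.2.2.1, p.2.2.2.2.2.1, p.2.2.2.2.2.2.1, p.2.2.2.2.2.2.2.1, p.2.2.2.2.2.2.2.2.1, p.2.2.2.2.2.2.2.2.2⟩,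
  fun _ => rfl, fun _ => rfl⟩ : U ≃ _)).trans (by simp)
theorem cW : Nat.card W = 512 := (Nat.card_congr (⟨fun x => (x.a, x.b, x.c, x.d, x.e, x.f, x.g, x.h, x.i),
  fun p => ⟨p.1, p.2.1, p.2.2.1, p.2.2.2.1, p.2.2.2.2.1, p.2.2.2.2.2.1, p.2.2.2.2.2.2.1, p.2.2.2.2.2.2.2.1, p.2.2.2.2.2.2.2.2⟩,
  fun _ => rfl, fun _ => rfl⟩ : W ≃ _)).trans (by simp)
theorem ker_pr (x : U) : x ∈ pr.ker ↔ x ∈ Subgroup.center U := by
  rw [Subgroup.mem_center_iff, MonoidHom.mem_ker]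
  obtain ⟨a, b, c, d, e, f, g, h, i, j⟩ := x
  constructor
  · intro hx
    obtain ⟨rfl, rfl, rfl, rfl, rfl, rfl, rfl, rfl, rfl⟩ : a = 0 ∧ b = 0 ∧ c = 0 ∧ d = 0 ∧ e = 0 ∧ f = 0 ∧ g = 0 ∧ h = 0 ∧ i = 0 :=
      (W.mk.injEq ..).mp hx
    intro y; simp only [U.mul_def]; congr 1 <;> ring
  · intro hx
    have h1 := hx ⟨1, 0, 0, 0, 0, 0, 0, 0, 0, 0⟩
    have h2 := hx ⟨0, 1, 0, 0, 0, 0, 0, 0, 0, 0⟩
    have h3 := hx ⟨0, 0, 1, 0, 0, 0, 0, 0, 0, 0⟩
    have h4 := hx ⟨0, 0, 0, 1, 0, 0, 0, 0, 0, 0⟩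
    simp only [U.mul_def, U.mk.injEq, mul_zero, zero_mul, one_mul, mul_one, add_zero, zero_add, add_eq_left, left_eq_add, add_eq_right,
      right_eq_add] at h1 h2 h3 h4
    refine (W.mk.injEq ..).mpr ?_
    tauto
def mu : U →* Matrix (Fin 5) (Fin 5) (ZMod 2) where
  toFun x := !![1, x.j, x.a, x.e, x.h; 0, 1, 0, 0, 0; 0, x.i, 1, x.b, x.f; 0, x.g, 0, 1, x.c; 0, x.d, 0, 0, 1]
  map_one' := by decide +kernel
  map_mul' x y := by
    ext i j; fin_cases i <;> fin_cases j <;> simp [U.mul_def, Matrix.mul_apply, Fin.sum_univ_succ] <;> ring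
def nu : U →* Matrix.SpecialLinearGroup (Fin 5) (ZMod 2) := MonoidHom.mk' (fun x => ⟨mu x,
  (by decide : ∀ a b : ZMod 2, a * b = 1 → a = 1) _ (mu x⁻¹).det (by rw [← Matrix.det_mul, ← map_mul, mul_inv_cancel, map_one, Matrix.det_one])⟩)
  fun x y => Subtype.ext (map_mul mu x y)
theorem nu_inj : Function.Injective nu := fun x y h => by
  have e : ∀ i j, mu x i j = mu y i j := fun i j => congrFun (congrFun (congrArg Subtype.val h) i) j
  cases x; cases y
  exact (U.mk.injEq ..).mpr ⟨e 0 2, e 2 3, e 3 4, e 4 1, e 0 3, e 2 4, e 3 1, e 0 4, e 2 1, e 0 1⟩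
theorem isoU (P : Sylow 2 M24) : Nonempty ((P : Subgroup M24) ≃* U) := by
  let z : U := ⟨0, 0, 0, 0, 0, 0, 0, 0, 0, 1⟩
  obtain ⟨e⟩ := isoZ (nu z) (by show mu z = _; decide +kernel)
  have hz : ∀ x, nu x ∈ Subgroup.centralizer {nu z} := fun x => Subgroup.mem_centralizer_singleton_iff.2 (by
    rw [← map_mul, ← map_mul, Subgroup.mem_center_iff.1 ((ker_pr z).1 rfl) x])
  let θ : U →* M24 := (Subgroup.subtype _).comp (e.symm.toMonoidHom.comp (nu.codRestrict _ hz))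
  have hθ : Function.Injective θ := Subtype.val_injective.comp (e.symm.injective.comp fun x y h => nu_inj (congrArg Subtype.val h))
  have cA : Nat.card θ.range = 2 ^ 10 := (Nat.card_congr (MonoidHom.ofInjective hθ).toEquiv).symm.trans cU
  haveI : Finite M24 := Nat.finite_of_card_ne_zero (by rw [card_M24]; norm_num)
  have i1 : θ.range.index = 239085 := by
    have := θ.range.index_mul_card; rw [cA, card_M24] at this; omega
  exact ⟨(P.equiv ((IsPGroup.of_card cA).toSylow (by rw [i1]; norm_num))).trans (MonoidHom.ofInjective hθ).symm⟩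

def bz (b : Bool) : ZMod 2 := cond b 1 0
def enc (n : ℕ) : W := ⟨bz (tb n 0), bz (tb n 1), bz (tb n 2), bz (tb n 3), bz (tb n 4), bz (tb n 5), bz (tb n 6), bz (tb n 7), bz (tb n 8)⟩
theorem enc_sj (x : W) : ∃ n < 512, enc n = x := by
  obtain ⟨a, b, c, d, e, f, g, h, i⟩ := x
  refine ⟨a.val + 2 * b.val + 4 * c.val + 8 * d.val + 16 * e.val + 32 * f.val + 64 * g.val + 128 * h.val + 256 * i.val, ?_⟩
  revert a b c d e f g h i; decide +kernel
noncomputable def ym (k : ℕ) : ℕ := lk 0 [0xaaaaaaaaaaaaaaaaaaaaaaaaaaaaaaaaaaaaaaaaaaaaaaaaaaaaaaaaaaaaaaaaaaaaaaaaaaaaaaaaaaaaaaaaaaaaaaaaaaaaaaaaaaaaaaaaaaaaaaaaaaaaaaaa, 0xcccccccccccccccccccccccccccccccccccccccccccccccccccccccccccccccccccccccccccccccccccccccccccccccccccccccccccccccccccccccccccccccc, 0xf0f0f0f0f0f0f0f0f0f0f0f0f0f0f0f0f0f0f0f0f0f0f0f0f0f0f0f0f0f0f0f0f0f0f0f0f0f0f0f0f0f0f0f0f0f0f0f0f0f0f0f0f0f0f0f0f0f0f0f0f0f0f0f0, 0xff00ff00ff00ff00ff00ff00ff00ff00ff00ff00ff00ff00ff00ff00ff00ff00ff00ff00ff00ff00ff00ff00ff00ff00ff00ff00ff00ff00ff00ff00ff00ff00,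 0xffff0000ffff0000ffff0000ffff0000ffff0000ffff0000ffff0000ffff0000ffff0000ffff0000ffff0000ffff0000ffff0000ffff0000ffff0000ffff0000, 0xffffffff00000000ffffffff00000000ffffffff00000000ffffffff00000000ffffffff00000000ffffffff00000000ffffffff00000000ffffffff00000000, 0xffffffffffffffff0000000000000000ffffffffffffffff0000000000000000ffffffffffffffff0000000000000000ffffffffffffffff0000000000000000, 0xffffffffffffffffffffffffffffffffffffffffffffffffffffffffffffffffffffffffffffffffffffffffffffffffffffffffffffffffffffffffffffffff] k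
noncomputable def sl (n k l : ℕ) : ℕ := cnd (tb n k) (ym l) 0
noncomputable def cm (n : ℕ) : ℕ := Nat.xor (ym 7) (Nat.lor (Nat.xor (sl n 0 1) (sl n 1 0)) (Nat.lor (Nat.xor (sl n 1 2) (sl n 2 1))
  (Nat.lor (Nat.xor (sl n 2 3) (sl n 3 2)) (Nat.lor (Nat.xor (Nat.xor (sl n 0 5) (sl n 4 2)) (Nat.xor (sl n 5 0) (sl n 2 4)))
  (Nat.xor (Nat.xor (sl n 1 6) (sl n 5 3)) (Nat.xor (sl n 6 1) (sl n 3 5)))))))
theorem ym_ok : nall (fun j => band (tb (ym 7) j) (nall (fun k => beqb (tb (ym k) j) (tb j k)) 7)) 512 = true := by decide +kernel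
theorem cm_lt : nall (fun n => Nat.ble (Nat.succ (cm n)) (Nat.pow 2 512)) 512 = true := by decide +kernel
noncomputable def cnt (f : ℕ → Bool) (n : ℕ) : ℕ := Nat.rec (motive := fun _ => ℕ) 0 (fun k ih => Nat.add (cnd (f k) 1 0) ih) n
theorem cnt_eq (f : ℕ → Bool) (n : ℕ) : ((range n).filter fun k => f k = true).card = cnt f n := by
  induction n with
  | zero => rfl
  | succ n ih =>
    rw [range_add_one, filter_insert, show cnt f (n + 1) = cnd (f n) 1 0 + cnt f n from rfl, ← ih]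
    cases f n
    · simp [cnd]
    · rw [if_pos rfl, card_insert_of_notMem (by simp), add_comm]; rfl
theorem chkA : Nat.ble (cnt (fun n => Nat.ble 256 (popc 6 (cm n))) 512) 12 = true := by decide +kernel
theorem chkC : nall (fun n => bor (beqb (bor (tb n 1) (bor (tb n 2) (tb n 5))) false) (seq (cm n) fun T => bor (Nat.ble (popc 6 T) 63)
  (Nat.ble (cnt (fun j => band (tb T j) (Nat.ble 64 (popc 6 (Nat.land T (cm j))))) 512) 63))) 512 = true := by decide +kernel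
theorem cm_of {n j : ℕ} (hj : j < 512) (h : enc n * enc j = enc j * enc n) : (cm n).testBit j = true := by
  have y := (nall_eq _ _).1 ym_ok j hj
  simp only [band_eq, nall_eq, beqb_eq, tb_eq] at y
  have s : ∀ k, ∀ l < 7, (sl n k l).testBit j = (n.testBit k && j.testBit l) := fun k l hl => by
    rw [sl, tb_eq, ← y.2 l hl]; cases n.testBit k <;> simp [cnd]
  have e : ∀ a b, Nat.xor a b = a ^^^ b := fun _ _ => rfl
  have e' : ∀ a b, Nat.lor a b = a ||| b := fun _ _ => rfl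
  simp only [cm, e, e', Nat.testBit_xor, Nat.testBit_or, y.1, s _ 0 (by omega), s _ 1 (by omega), s _ 2 (by omega), s _ 3 (by omega),
    s _ 4 (by omega), s _ 5 (by omega), s _ 6 (by omega)]
  simp only [W.mul_def, enc, W.mk.injEq, tb_eq] at h
  obtain ⟨-, -, -, -, h1, h2, h3, h4, h5⟩ := h
  have p : ∀ (a b c d : Bool) (u v : ZMod 2), u + bz a * bz b + v = v + bz c * bz d + u → ((a && b) ^^ (d && c)) = false := by decide
  have q : ∀ (a b c d e f g h : Bool) (u v : ZMod 2), u + bz a * bz b + bz c * bz d + v = v + bz e * bz f + bz g * bz h + u →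
    (((a && b) ^^ (c && d)) ^^ ((f && e) ^^ (h && g))) = false := by decide +kernel
  rw [p _ _ _ _ _ _ h1, p _ _ _ _ _ _ h2, p _ _ _ _ _ _ h3, q _ _ _ _ _ _ _ _ _ _ h4]
  have := q _ _ _ _ _ _ _ _ _ _ h5
  rw [this]; rfl
def A0 : Subgroup W where
  carrier := {x | x.b = 0 ∧ x.c = 0 ∧ x.f = 0}
  one_mem' := ⟨rfl, rfl, rfl⟩
  mul_mem' := fun {x y} h h' => by simp [W.mul_def, h.1, h.2.1, h.2.2, h'.1, h'.2.1, h'.2.2]
  inv_mem' := fun {x} h => show -x.b = 0 ∧ -x.c = 0 ∧ -x.f + x.b * x.c = 0 by simp [h.1, h.2.1, h.2.2]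
theorem cA0 : Nat.card A0 = 64 := (Nat.card_congr (⟨fun x => (x.1.a, x.1.d, x.1.e, x.1.g, x.1.h, x.1.i),
  fun p => ⟨⟨p.1, 0, 0, p.2.1, p.2.2.1, 0, p.2.2.2.1, p.2.2.2.2.1, p.2.2.2.2.2⟩, rfl, rfl, rfl⟩,
  by
    rintro ⟨⟨a, b, c, d, e, f, g, h, i⟩, hx⟩
    obtain ⟨rfl, rfl, rfl⟩ : b = 0 ∧ c = 0 ∧ f = 0 := hx
    rfl, fun _ => rfl⟩ : A0 ≃ _)).trans (by simp)
theorem main {Q : Type} [Group Q] (E : Q ≃* W) : (∀ M : Subgroup Q, IsCoatom M → Nat.card (Subgroup.center M) ≤ 8) ∧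
    (∃ A : Subgroup Q, IsElementaryAbelian 2 A ∧ Nat.card A = 64) ∧
    ∀ A B : Subgroup Q, IsMulCommutative A → Nat.card A = 64 → IsMulCommutative B → Nat.card B = 64 → A = B := by
  have cQ : Nat.card Q = 512 := (Nat.card_congr E.toEquiv).trans cW
  haveI : Finite Q := Nat.finite_of_card_ne_zero (by omega)
  have ub : ∀ (S : Subgroup Q) (F : Finset ℕ), (∀ n < 512, E.symm (enc n) ∈ S → n ∈ F) → Nat.card S ≤ F.card := fun S F h => by
    rw [← Set.ncard_coe_finset]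
    refine (Set.ncard_le_ncard (t := (fun n => E.symm (enc n)) '' F) (fun x hx => ?_) (F.finite_toSet.image _)).trans (Set.ncard_image_le F.finite_toSet)
    obtain ⟨n, hn, e⟩ := enc_sj (E x)
    have : E.symm (enc n) = x := by rw [e, E.symm_apply_apply]
    exact ⟨n, h n hn (this ▸ hx), this⟩
  have cmE : ∀ {n j}, j < 512 → E.symm (enc n) * E.symm (enc j) = E.symm (enc j) * E.symm (enc n) → (cm n).testBit j = true :=
    fun hj h => cm_of hj (E.symm.injective (by rw [map_mul, map_mul, h]))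
  have lt : ∀ n < 512, cm n < 2 ^ (8 * 2 ^ 6) := fun n hn => ble_eq.1 ((nall_eq _ _).1 cm_lt n hn)
  have cA : Nat.card (A0.comap E.toMonoidHom) = 64 := (Nat.card_congr (E.subgroupMap _).toEquiv).trans (by
    rw [show (A0.comap E.toMonoidHom).map (E : Q →* W) = A0 from Subgroup.map_comap_eq_self_of_surjective E.surjective _, cA0])
  have uq : ∀ A : Subgroup Q, IsMulCommutative A → Nat.card A = 64 → A = A0.comap E.toMonoidHom := fun A hA c => by
    refine Subgroup.eq_of_le_of_card_ge (fun x hx => ?_) (by omega)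
    obtain ⟨n, hn, e⟩ := enc_sj (E x)
    have ex : E.symm (enc n) = x := by rw [e, E.symm_apply_apply]
    have cc : ∀ {a b}, a ∈ A → b ∈ A → a * b = b * a := fun ha hb => congrArg Subtype.val (hA.is_comm.comm ⟨_, ha⟩ ⟨_, hb⟩)
    have k := (nall_eq _ _).1 chkC n hn
    simp only [seq_eq, bor_eq, ble_eq, beqb_eq] at k
    rcases k with k | k | k
    · show E x ∈ A0
      rw [← e]
      show bz (tb n 1) = 0 ∧ bz (tb n 2) = 0 ∧ bz (tb n 5) = 0
      revert k; cases tb n 1 <;> cases tb n 2 <;> cases tb n 5 <;> decide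
    · have := ub A (bits (8 * 2 ^ 6) (cm n)) fun j hj h => mem_bits.2 ⟨hj, cmE hj (cc (ex ▸ hx) h)⟩
      rw [popc_eq _ _ (lt n hn)] at this; omega
    · rw [← cnt_eq] at k
      have := ub A _ (fun j hj h => ?_) |>.trans k
      · omega
      refine mem_filter.2 ⟨mem_range.2 hj, ?_⟩
      rw [band_eq, tb_eq, ble_eq, ← popc_eq _ (Nat.land (cm n) (cm j)) (Nat.and_le_left.trans_lt (lt n hn)), ← c]
      exact ⟨cmE hj (cc (ex ▸ hx) h), ub A _ fun l hl h' => mem_bits.2 ⟨hl, by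
        rw [show Nat.land (cm n) (cm j) = cm n &&& cm j from rfl, Nat.testBit_and, cmE hl (cc (ex ▸ hx) h'), cmE hl (cc h h')]; rfl⟩⟩
  refine ⟨fun M hM => ?_, ⟨_, ⟨⟨⟨fun x y => Subtype.ext (E.injective ?_)⟩⟩, fun x hx => E.injective ?_⟩, cA⟩,
    fun A B a b c d => (uq A a b).trans (uq B c d).symm⟩
  · have i2 := L.index_eq_of_isCoatom_of_isPGroup (IsPGroup.of_card (p := 2) (n := 9) cQ) hM
    have cM : Nat.card M = 256 := by have := M.index_mul_card; rw [i2, cQ] at this; omega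
    have d := (Subgroup.center M).card_subgroup_dvd_card
    have := ub ((Subgroup.center M).map M.subtype) _ (fun n hn h => ?_) |>.trans ((cnt_eq _ _).trans_le (ble_eq.1 chkA))
    · rw [Subgroup.card_map_of_injective M.subtype_injective] at this
      rw [cM] at d
      generalize Nat.card (Subgroup.center M) = k at *
      interval_cases k <;> first | omega | exact absurd d (by decide)
    obtain ⟨z, hz, e⟩ := h
    refine mem_filter.2 ⟨mem_range.2 hn, ?_⟩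
    rw [ble_eq, ← popc_eq _ _ (lt n hn), ← cM]
    exact ub M _ fun j hj h => mem_bits.2 ⟨hj, cmE hj (e ▸ (congrArg Subtype.val (Subgroup.mem_center_iff.1 hz ⟨_, h⟩)).symm)⟩
  · have hx : _ ∧ _ ∧ _ := x.2
    have hy : _ ∧ _ ∧ _ := y.2
    simp only [Subgroup.coe_mul, map_mul, W.mul_def, MulEquiv.coe_toMonoidHom] at hx hy ⊢
    rw [hx.1, hx.2.1, hx.2.2, hy.1, hy.2.1, hy.2.2]; congr 1 <;> ring
  · have hx' : _ ∧ _ ∧ _ := hx
    simp only [map_mul, pow_two, map_one, W.mul_def, MulEquiv.coe_toMonoidHom] at hx' ⊢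
    rw [hx'.1, hx'.2.1, hx'.2.2]
    show W.mk .. = W.mk 0 0 0 0 0 0 0 0 0
    congr 1 <;> simp [CharTwo.add_self_eq_zero]

end

/-- Let P be a Sylow 2-subgroup of the Mathieu group of degree 24 and S the quotient of P by its centre. Then the centre of every maximal subgroup of S has order at most 8; S has an elementary abelian subgroup of order 64; and S has only one abelian subgroup of order 64. -/
theorem result (P : Sylow 2 ↥Cfsg.M24) :
    (∀ M : Subgroup (↥(P : Subgroup ↥Cfsg.M24) ⧸ Subgroup.center ↥(P : Subgroup ↥Cfsg.M24)), IsCoatom M →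
        Nat.card ↥(Subgroup.center ↥M) ≤ 8) ∧
      (∃ A : Subgroup (↥(P : Subgroup ↥Cfsg.M24) ⧸ Subgroup.center ↥(P : Subgroup ↥Cfsg.M24)),
        Cfsg.IsElementaryAbelian 2 A ∧ Nat.card ↥A = 64) ∧
      ∀ A B : Subgroup (↥(P : Subgroup ↥Cfsg.M24) ⧸ Subgroup.center ↥(P : Subgroup ↥Cfsg.M24)),
        IsMulCommutative ↥A → Nat.card ↥A = 64 → IsMulCommutative ↥B → Nat.card ↥B = 64 → A = B := by
  open Finset Pointwise Cfsg.Agent.St Cfsg.Agent.H6 in focus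
    obtain ⟨e⟩ := isoU P
    have hs : Function.Surjective (pr.comp e.toMonoidHom) := fun w =>
      ⟨e.symm ⟨w.a, w.b, w.c, w.d, w.e, w.f, w.g, w.h, w.i, 0⟩, by simp [pr]⟩
    have hk : Subgroup.center (P : Subgroup M24) = (pr.comp e.toMonoidHom).ker := by
      ext x
      rw [show x ∈ (pr.comp e.toMonoidHom).ker ↔ e x ∈ pr.ker from Iff.rfl, ker_pr, Subgroup.mem_center_iff, Subgroup.mem_center_iff]
      exact ⟨fun h g => by obtain ⟨g, rfl⟩ := e.surjective g; rw [← map_mul, h, map_mul], fun h g => e.injective (by rw [map_mul, h, map_mul])⟩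
    exact main ((QuotientGroup.quotientMulEquivOfEq hk).trans (QuotientGroup.quotientKerEquivOfSurjective _ hs))

end Cfsg.Agent.S3171
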