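import Cfsg.Statements.S3178
import Mathlib
import Cfsg.Agent.H2.MC

set_option autoImplicit false
open Cfsg

namespace Cfsg.Agent.S3178

open Cfsg.Agent.H2 Subgroup

/-- Groups with a modular Sylow 2-subgroup have a normal 2-complement. Let S, of order 2^(n+1) with n ≥ 3, be a Sylow 2-subgroup of a finite group G, and suppose S contains an element a of order 2^n and an involution b with b a b⁻¹ = a^(2^(n-1) + 1); so S is the non-abelian 2-group with a cyclic subgroup of index 2 that is neither dihedral, semidihedral nor generalized quaternion. Then G has a normal 2-complement. -/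
theorem result {G : Type*} [Group G] [Finite G]
    (S : Sylow 2 G) (n : ℕ) (hn : 3 ≤ n) (hS : Nat.card ↥(S : Subgroup G) = 2 ^ (n + 1))
    (a b : G) (ha : a ∈ (S : Subgroup G)) (hb : b ∈ (S : Subgroup G))
    (hao : orderOf a = 2 ^ n) (hbo : orderOf b = 2) (hrel : b * a * b⁻¹ = a ^ (2 ^ (n - 1) + 1)) :
    Cfsg.HasNormalPComplement 2 G := by
  obtain ⟨m, rfl⟩ : ∃ m, n = m + 3 := ⟨n - 3, by omega⟩
  have ha1 : a ^ 2 ^ (m + 3) = 1 := hao ▸ pow_orderOf_eq_one a
  have hi : (zpowers a).relIndex S = 2 := relIndex_eq_two_of_card (zpowers_le.2 ha)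
    (by rw [hS, Nat.card_zpowers, hao, pow_succ'])
  have hix := ix2_of_relIndex hi
  have hbn : b ∉ zpowers a := fun h => by
    rw [(L.commute_of_mem_zpowers h).eq, mul_inv_cancel_right, pow_succ, eq_comm, mul_eq_right] at hrel
    have := Nat.le_of_dvd (by positivity) (hao ▸ orderOf_dvd_of_pow_eq_one hrel)
    exact absurd this (not_le.2 (Nat.pow_lt_pow_right (by norm_num) (by omega)))
  have hc : (S : Subgroup G) ≤ centralizer ({a ^ 2} : Set G) := by
    refine hix.le_of_mem (inf_le_left.trans (zpowers_le.2 (mem_centralizer_singleton_iff.2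
      (Commute.self_pow a 2)))) hb hbn (mem_centralizer_singleton_iff.2 ?_)
    rw [← mul_inv_eq_iff_eq_mul, ← conj_pow, hrel, ← pow_mul, add_mul,
      show m + 3 - 1 = m + 2 from rfl, ← pow_succ, pow_add, ha1, one_mul, one_mul]
  have h4 : a ^ 2 * a ^ 2 ≠ 1 := fun h => by
    rw [← pow_add] at h
    have := Nat.le_of_dvd (by positivity) (hao ▸ orderOf_dvd_of_pow_eq_one h)
    rw [pow_add] at this
    have := Nat.one_le_two_pow (n := m)
    omega
  rw [hasNPC_iff_top, (sylIn_top S).pNil_iff, ← le_bot_iff]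
  refine (sylIn_top S).hyp_le (H8.le_normalizer_bot _) fun U hU hCU g _ h1 h2 h3 => ?_
  exfalso
  have h5 : a ^ 2 ∈ U ⊓ centralizer (U : Set G) := by
    have : a ^ 2 ∈ centralizer (U : Set G) := fun u hu => mem_centralizer_singleton_iff.1 (hc (hU hu))
    exact ⟨hCU ⟨pow_mem ha 2, this⟩, this⟩
  obtain ⟨u, hu⟩ := (Subgroup.isCyclic_iff_exists_zpowers_eq_top _).1
    (Subgroup.isCyclic_of_le (inf_le_left : zpowers a ⊓ U ≤ zpowers a))
  obtain ⟨k, h6 | h6⟩ := OddN.k4_or_qp ⟨g, h1, h2, h3⟩ (S.isPGroup'.to_le hU)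
    ((hu.le (mem_zpowers u)).2) (hu ▸ hix.inf hU)
  · exact h4 (h6.mul_self h5.1)
  · have h7 := (L.QP.mc' (n := 0) h6).1
    rw [h7.center_eq] at h5
    rcases h7.mem_Z.1 h5 with e | e <;> rw [e] at h4
    · simp at h4
    · exact h4 h7.z_mul_self

end Cfsg.Agent.S3178
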