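import Cfsg.Statements.S3179
import Cfsg.Agent.S0243
import Cfsg.Agent.S0280
import Cfsg.Agent.S1163

set_option autoImplicit false
open Cfsg

namespace Cfsg.Agent.S3179

open Polynomial in
theorem gl5_no_nine (g : GL (Fin 5) (ZMod 2)) (h : g ^ 9 = 1) : g ^ 3 = 1 := by
  set A : Matrix (Fin 5) (Fin 5) (ZMod 2) := g.val with hA
  have hA9 : A ^ 9 = 1 := by rw [hA, ← Units.val_pow_eq_pow_val, h, Units.val_one]
  haveI : Fact (Nat.Prime 3) := ⟨by norm_num⟩
  have hfac : (X ^ 9 - 1 : (ZMod 2)[X]) = (X ^ 3 - 1) * cyclotomic 9 (ZMod 2) := by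
    have := cyclotomic_prime_pow_mul_X_pow_sub_one (ZMod 2) 3 1
    norm_num at this
    rw [← this, mul_comm]
  have hdvd : minpoly (ZMod 2) A ∣ X ^ 9 - 1 := minpoly.dvd _ _ (by simp [hA9])
  have hdeg : (minpoly (ZMod 2) A).natDegree ≤ 5 := by
    have := natDegree_le_of_dvd (Matrix.minpoly_dvd_charpoly A) (Matrix.charpoly_monic A).ne_zero
    simpa using this
  have hirr : Irreducible (cyclotomic 9 (ZMod 2)) := by
    refine ZMod.irreducible_of_dvd_cyclotomic_of_natDegree (p := 2) (n := 9) (by norm_num) dvd_rfl ?_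
    rw [natDegree_cyclotomic, ← orderOf_units, ZMod.coe_unitOfCoprime]
    symm
    rw [show Nat.totient 9 = 6 by decide]
    exact orderOf_eq_iff (by norm_num) |>.2 (by decide)
  have hcop : IsCoprime (minpoly (ZMod 2) A) (cyclotomic 9 (ZMod 2)) := by
    refine (hirr.coprime_iff_not_dvd.2 fun hd => ?_).symm
    have := natDegree_le_of_dvd hd (minpoly.ne_zero (Matrix.isIntegral A))
    rw [natDegree_cyclotomic, show Nat.totient 9 = 6 by decide] at this
    omega
  rw [hfac] at hdvd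
  have h3 := hcop.dvd_of_dvd_mul_right hdvd
  have h4 : aeval A (X ^ 3 - 1 : (ZMod 2)[X]) = 0 := aeval_eq_zero_of_dvd_aeval_eq_zero h3 (minpoly.aeval _ _)
  simp only [map_sub, map_pow, aeval_X, map_one] at h4
  ext1
  rw [Units.val_pow_eq_pow_val, Units.val_one]
  exact sub_eq_zero.1 h4

theorem psl28_nine {F : Type*} [Field F] [Fintype F] (hF : Fintype.card F = 2 ^ 3) :
    ∃ x : Matrix.ProjectiveSpecialLinearGroup (Fin 2) F, x ^ 9 = 1 ∧ x ^ 3 ≠ 1 := by
  classical
  have h2 : (2 : F) = 0 := by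
    have h := FiniteField.cast_card_eq_zero F
    rw [hF] at h
    push_cast at h
    exact pow_eq_zero_iff (n := 3) (by norm_num) |>.1 (by linear_combination h)
  obtain ⟨t, ht⟩ : ∃ t : F, t ^ 3 + t + 1 = 0 := by
    obtain ⟨s, hs0, hs1⟩ : ∃ s : F, s ≠ 0 ∧ s ≠ 1 := by
      by_contra hne
      push Not at hne
      have : (Finset.univ : Finset F) ⊆ {0, 1} := fun s _ => by
        by_cases h : s = 0 <;> simp [h, hne s]
      have := Finset.card_le_card this
      rw [Finset.card_univ, hF] at this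
      exact absurd (this.trans Finset.card_le_two) (by norm_num)
    have h7 : s ^ 7 = 1 := by
      have := FiniteField.pow_card_sub_one_eq_one s hs0
      rwa [hF] at this
    have : (s - 1) * ((s ^ 3 + s + 1) * ((s + 1) ^ 3 + (s + 1) + 1)) = 0 := by
      linear_combination h7 + (s ^ 6 + s ^ 5 + s ^ 4 - 2 * s - 1) * h2
    rcases mul_eq_zero.1 this with h | h
    · exact absurd (sub_eq_zero.1 h) hs1
    rcases mul_eq_zero.1 h with h | h
    · exact ⟨s, h⟩
    · exact ⟨s + 1, h⟩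
  let M : Matrix.SpecialLinearGroup (Fin 2) F := ⟨!![0, 1; 1, t], by
    rw [Matrix.det_fin_two_of]; linear_combination -h2⟩
  have hM3 : (M ^ 3).1 = !![t, t ^ 2 + 1; t ^ 2 + 1, t + 1] := by
    rw [Matrix.SpecialLinearGroup.coe_pow]
    simp only [M, pow_succ, pow_zero, one_mul, Matrix.mul_fin_two]
    ext i j; fin_cases i <;> fin_cases j <;> simp
    all_goals grind
  have hM9 : M ^ 9 = 1 := by
    rw [show 9 = 3 * 3 by rfl, pow_mul]
    ext1 i j
    rw [Matrix.SpecialLinearGroup.coe_pow, hM3]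
    simp only [pow_succ, pow_zero, one_mul, Matrix.mul_fin_two]
    fin_cases i <;> fin_cases j <;> simp
    all_goals grind
  refine ⟨QuotientGroup.mk M, by rw [← QuotientGroup.mk_pow, hM9, QuotientGroup.mk_one], fun h => ?_⟩
  rw [← QuotientGroup.mk_pow, QuotientGroup.eq_one_iff, Matrix.SpecialLinearGroup.mem_center_iff] at h
  obtain ⟨r, -, hr⟩ := h
  rw [hM3] at hr
  have h0 := congrFun (congrFun hr 0) 0
  have h1 := congrFun (congrFun hr 1) 1
  simp at h0 h1
  exact one_ne_zero (α := F) (by linear_combination h0 - h1)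

/-- Let X be a section of the general linear group GL(5, 2), that is, a quotient of a subgroup of it. If X is isomorphic to PSL(2, 2^n) for some n ≥ 2, to a Suzuki group over the field with 2^(2m+1) elements for some m ≥ 1, or to PSU(3, 2^n) for some n ≥ 2, then X is isomorphic to PSL(2, 4). -/
theorem result {H : Subgroup (GL (Fin 5) (ZMod 2))}
    {K : Subgroup ↥H} [K.Normal]
    (hX : (∃ (n : ℕ) (F : Type) (_ : Field F) (_ : Fintype F), 2 ≤ n ∧ Fintype.card F = 2 ^ n ∧
        Nonempty (↥H ⧸ K ≃* Matrix.ProjectiveSpecialLinearGroup (Fin 2) F)) ∨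
      (∃ (m : ℕ) (F : Type) (_ : Field F) (_ : Fintype F), 1 ≤ m ∧ Fintype.card F = 2 ^ (2 * m + 1) ∧
        Nonempty (↥H ⧸ K ≃* ↥(Cfsg.Lie.Sz F (2 ^ (m + 1))))) ∨
      (∃ (n : ℕ) (F : Type) (_ : Field F) (_ : Fintype F), 2 ≤ n ∧ Fintype.card F = 4 ^ n ∧
        Nonempty (↥H ⧸ K ≃* Cfsg.PSU 3 F (2 ^ n)))) :
    ∃ (F : Type) (_ : Field F) (_ : Fintype F), Fintype.card F = 4 ∧
      Nonempty (↥H ⧸ K ≃* Matrix.ProjectiveSpecialLinearGroup (Fin 2) F) := by
  have hc : Nat.card (↥H ⧸ K) ∣ 9999360 := by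
    have h1 : Nat.card (GL (Fin 5) (ZMod 2)) = 9999360 := by
      rw [Matrix.card_GL_field, ZMod.card]
      simp [Fin.prod_univ_five]
    exact (Subgroup.card_quotient_dvd_card K).trans (h1 ▸ Subgroup.card_subgroup_dvd_card H)
  have hle := Nat.le_of_dvd (by norm_num) hc
  rcases hX with ⟨n, F, _, _, hn, hF, ⟨e⟩⟩ | ⟨m, F, _, _, hm, hF, ⟨e⟩⟩ | ⟨n, F, _, _, hn, hF, ⟨e⟩⟩
  · have h1 := S0243.result hF 2 le_rfl
    rw [← Nat.card_congr e.toEquiv, Fin.prod_univ_two] at h1
    have hn' : n < 12 := by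
      by_contra hh
      have h2 : 2 ^ 12 ≤ 2 ^ n := Nat.pow_le_pow_right (by norm_num) (not_lt.1 hh)
      obtain ⟨k, hk⟩ : ∃ k, 2 ^ n = k + 1 := ⟨2 ^ n - 1, by omega⟩
      rw [hk] at h1 h2
      have h3 : Nat.gcd 2 (k + 1 - 1) ≤ 2 := Nat.gcd_le_left _ (by norm_num)
      have h4 : (k + 1) ^ 2 - (k + 1) ^ ((0 : Fin 2) : ℕ) = k * (k + 2) := by
        simp only [Fin.val_zero, pow_zero]; exact Nat.sub_eq_of_eq_add (by ring)
      have h5 : (k + 1) ^ 2 - (k + 1) ^ ((1 : Fin 2) : ℕ) = k * (k + 1) := by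
        simp only [Fin.val_one, pow_one]; exact Nat.sub_eq_of_eq_add (by ring)
      rw [h4, h5, Nat.add_sub_cancel] at h1
      rw [Nat.add_sub_cancel] at h3
      have h6 : k * (k + 2) * (k * (k + 1)) ≤ 2 * (k * 9999360) := h1 ▸ Nat.mul_le_mul h3 (Nat.mul_le_mul_left _ hle)
      have h7 : 4095 ≤ k := by omega
      have h8 : k * 4095 * (4095 * 4095) ≤ k * (k + 2) * (k * (k + 1)) := by gcongr <;> omega
      omega
    by_cases h2 : n = 2
    · subst h2; exact ⟨F, _, _, hF, ⟨e⟩⟩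
    exfalso
    by_cases h3 : n = 3
    · subst h3
      obtain ⟨x, hx9, hx3⟩ := psl28_nine hF
      obtain ⟨y, hy⟩ := QuotientGroup.mk_surjective (e.symm x)
      have hxy : e (QuotientGroup.mk' K y) = x := by rw [QuotientGroup.mk'_apply, hy, e.apply_symm_apply]
      have hy1 : (y : GL (Fin 5) (ZMod 2)) ^ (9 * 1111040) = 1 := by
        have h1 : Nat.card (GL (Fin 5) (ZMod 2)) = 9 * 1111040 := by
          rw [Matrix.card_GL_field, ZMod.card]
          simp [Fin.prod_univ_five]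
        rw [← h1]; exact pow_card_eq_one'
      have hy2 := gl5_no_nine ((y : GL (Fin 5) (ZMod 2)) ^ 1111040) (by rw [← pow_mul, mul_comm, hy1])
      have hy3 : y ^ (1111040 * 3) = 1 := Subtype.ext (by rw [Subgroup.coe_pow, pow_mul, hy2, Subgroup.coe_one])
      have hx : x ^ (1111040 * 3) = 1 := by rw [← hxy, ← map_pow, ← map_pow, hy3, map_one, map_one]
      have := pow_gcd_eq_one.2 ⟨hx9, hx⟩
      exact hx3 (by simpa using this)
    generalize Nat.card (↥H ⧸ K) = c at h1 hc hle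
    rw [← mul_assoc] at h1
    have h5 := Nat.eq_div_of_mul_eq_right (fun h0 => by
      rw [h0, zero_mul] at h1; revert h1; interval_cases n <;> norm_num) h1
    clear h1 hle
    subst h5
    interval_cases n <;> first | omega | norm_num at hc
  · have h1 := (S1163.result hm hF).1
    rw [← Nat.card_congr e.toEquiv] at h1
    rw [h1] at hc hle
    have hm' : m < 4 := by
      by_contra hh
      have h2 : 2 ^ 9 ≤ 2 ^ (2 * m + 1) := Nat.pow_le_pow_right (by norm_num) (by omega)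
      generalize 2 ^ (2 * m + 1) = q at h2 hle
      have h8 : 512 ^ 2 * 511 * 1 ≤ q ^ 2 * (q - 1) * (q ^ 2 + 1) := by gcongr <;> omega
      omega
    interval_cases m <;> norm_num at hc
  · have h1 := S0280.result (q := 2 ^ n) (hF.trans (by rw [← pow_mul, mul_comm, pow_mul]; norm_num)) 3 (by norm_num)
    rw [← Nat.card_congr e.toEquiv] at h1
    simp only [Finset.prod_range_succ, Finset.range_zero, Finset.prod_empty] at h1
    norm_num at h1
    have hn' : n < 6 := by
      by_contra hh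
      have h2 : 2 ^ 6 ≤ 2 ^ n := Nat.pow_le_pow_right (by norm_num) (not_lt.1 hh)
      generalize 2 ^ n = q at h1 h2
      have h3 : Nat.gcd 3 (q + 1) ≤ 3 := Nat.gcd_le_left _ (by norm_num)
      have h6 : q ^ 3 * ((q + 1) * (q ^ 2 - 1) * (q ^ 3 + 1)) ≤ 3 * ((q + 1) * 9999360) :=
        h1 ▸ Nat.mul_le_mul h3 (Nat.mul_le_mul_left _ hle)
      have h9 : 64 ^ 2 ≤ q ^ 2 := Nat.pow_le_pow_left (by omega) _
      have h8 : 64 ^ 3 * ((q + 1) * 4095 * 1) ≤ q ^ 3 * ((q + 1) * (q ^ 2 - 1) * (q ^ 3 + 1)) := by gcongr <;> omega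
      omega
    exfalso
    generalize Nat.card (↥H ⧸ K) = c at h1 hc hle
    rw [← mul_assoc] at h1
    have h5 := Nat.eq_div_of_mul_eq_right (fun h0 => by
      rw [h0, zero_mul] at h1; revert h1; interval_cases n <;> norm_num) h1
    clear h1 hle
    subst h5
    interval_cases n <;> norm_num at hc

end Cfsg.Agent.S3179
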