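import Cfsg.Statements.S3180
import Mathlib
import Cfsg.Agent.H2.Transfer

set_option autoImplicit false
open Cfsg

namespace Cfsg.Agent.S3180

open Cfsg.Agent.H2 Subgroup

/-- Let P be a Sylow p-subgroup of a finite group J and P₁ a subgroup of P that is weakly closed in P with respect to J. If J acts on a set and two points, each fixed by every element of P₁, lie in one J-orbit, then they lie in one orbit of the normalizer of P₁ in J. -/
theorem result {J : Type*} [Group J] [Finite J]
    {p : ℕ} [Fact p.Prime] (P : Sylow p J) (P₁ : Subgroup J) (hW : Cfsg.IsWeaklyClosed P₁ (P : Subgroup J))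
    {Ω : Type*} [MulAction J Ω] (x y : Ω) (hx : ∀ g ∈ P₁, g • x = x) (hy : ∀ g ∈ P₁, g • y = y)
    (hc : ∃ g : J, g • x = y) :
    ∃ g ∈ Subgroup.normalizer (P₁ : Set J), g • x = y := by
  obtain ⟨g, rfl⟩ := hc
  obtain ⟨n, -, hn, c, -, hc, rfl⟩ := (sylIn_top P).control_of_weaklyClosed hW.1 (fun g _ => hW.2 g)
    (M := MulAction.stabilizer J x) (mem_top g) hx (cj_le_iff_forall.2 fun a ha => by
      rw [MulAction.mem_stabilizer_iff, inv_inv, mul_smul, mul_smul, hy a ha, inv_smul_smul])
  exact ⟨n, hn, by rw [mul_smul, MulAction.mem_stabilizer_iff.1 hc]⟩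

end Cfsg.Agent.S3180
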