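import Cfsg.Statements.S3183
import Mathlib
import Cfsg.Agent.H2.Loc

set_option autoImplicit false
open Cfsg

namespace Cfsg.Agent.S3183

open Cfsg.Agent.H2 Cfsg.Agent.H8 Subgroup

/-- Let G be a finite group in which the intersection of any two distinct Sylow 2-subgroups is contained in the centre of some Sylow 2-subgroup, and let S be a Sylow 2-subgroup. Then for every x in S the centralizer of x in S is a Sylow 2-subgroup of the centralizer of x in G (no 2-subgroup centralizing x is larger), and for every other Sylow 2-subgroup T the intersection S ∩ T lies in both the centre of S and the centre of T. -/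
theorem result {G : Type*} [Group G] [Finite G]
    (hCI : ∀ S T : Sylow 2 G, S ≠ T → ∃ U : Sylow 2 G,
      (S : Subgroup G) ⊓ (T : Subgroup G) ≤ (Subgroup.center ↥(U : Subgroup G)).map (U : Subgroup G).subtype)
    (S : Sylow 2 G) :
    (∀ x ∈ (S : Subgroup G), ∀ P : Subgroup G, IsPGroup 2 ↥P → P ≤ Subgroup.centralizer ({x} : Set G) →
        Nat.card ↥P ≤ Nat.card ↥((S : Subgroup G) ⊓ Subgroup.centralizer ({x} : Set G))) ∧
    (∀ T : Sylow 2 G, T ≠ S →
        (S : Subgroup G) ⊓ (T : Subgroup G) ≤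
          (Subgroup.center ↥(S : Subgroup G)).map (S : Subgroup G).subtype ⊓
            (Subgroup.center ↥(T : Subgroup G)).map (T : Subgroup G).subtype) := by
  simp only [center_map_subtype] at hCI ⊢
  have key : ∀ S T : Sylow 2 G, S ≠ T → (S : Subgroup G) ⊓ normalizer (((S : Subgroup G) ⊓ T : Subgroup G) : Set G) ≤
      centralizer (((S : Subgroup G) ⊓ T : Subgroup G) : Set G) := fun S T h x hx => by
    obtain ⟨U, hU⟩ := hCI S T h
    have h1 := le_centralizer_iff.1 (hU.trans inf_le_right)
    obtain ⟨k, hk⟩ := H8.orderOf_pow_of_mem S.isPGroup' hx.1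
    refine mem_of_norm_of_coprime (H8.normalizer_le_normalizer_centralizer _) hx.2 ?_
    rw [hk]
    exact Nat.Coprime.pow_left k ((Nat.Prime.coprime_iff_not_dvd Nat.prime_two).2
      ((sylIn_of_le U (h1.trans (centralizer_le_normalizer _))).not_dvd_relIndex_of_le h1))
  have key2 : ∀ S T : Sylow 2 G, S ≠ T → (S : Subgroup G) ⊓ T ≤ centralizer ((S : Subgroup G) : Set G) := by
    intro S T h
    obtain ⟨U, hU⟩ := hCI S T h
    have h1 := le_centralizer_iff.1 (hU.trans inf_le_right)
    obtain ⟨V, hV, h2⟩ := exists_sylIn_ge (S.isPGroup'.to_le inf_le_left)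
      (inf_le_right : (S : Subgroup G) ⊓ centralizer (((S : Subgroup G) ⊓ T : Subgroup G) : Set G) ≤ _)
    obtain ⟨W, rfl⟩ := ((sylIn_top U).of_card_le hV.pgrp le_top
      (hV.card_le U.isPGroup' h1)).exists_sylow_top
    rw [le_centralizer_iff]
    by_cases e : S = W
    · exact e ▸ hV.le
    exfalso
    have h3 : (S : Subgroup G) ⊓ T ≤ (S : Subgroup G) ⊓ W :=
      (le_inf inf_le_left ((hU.trans inf_le_left).trans h1)).trans (le_inf inf_le_left h2)
    have h4 := H2.lt_inf_normalizer S.isPGroup' (Q := (S : Subgroup G) ⊓ W)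
      (lt_of_le_of_ne inf_le_left fun e' => e (Sylow.ext
        (S.is_maximal' W.isPGroup' (inf_eq_left.1 e')).symm))
    exact h4.not_ge (le_inf inf_le_left
      ((le_inf inf_le_left ((key S W e).trans (centralizer_le h3))).trans h2))
  refine ⟨fun x hx P hP hPC => ?_, fun T hT => le_inf (le_inf inf_le_left (key2 S T hT.symm))
    (le_inf inf_le_right (inf_comm (T : Subgroup G) S ▸ key2 T S hT))⟩
  obtain ⟨Q, hQ, h1⟩ := exists_sylIn_ge (S.isPGroup'.to_le inf_le_left)
    (inf_le_right : (S : Subgroup G) ⊓ centralizer ({x} : Set G) ≤ _)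
  obtain ⟨T, hT⟩ := hQ.pgrp.exists_le_sylow
  by_cases e : S = T
  · exact (hQ.card_le hP hPC).trans (card_le_of_le (le_inf (e ▸ hT) hQ.le))
  · have h2 := key2 S T e ⟨hx, hT (h1 ⟨hx, mem_centralizer_singleton_iff.2 rfl⟩)⟩
    exact ((sylIn_top S).card_le hP le_top).trans (card_le_of_le (le_inf le_rfl fun s hs =>
      mem_centralizer_singleton_iff.2 (h2 s hs)))

end Cfsg.Agent.S3183
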