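import Cfsg.Statements.S3184
import Mathlib
import Cfsg.Agent.H2.GAut

set_option autoImplicit false
open Cfsg

namespace Cfsg.Agent.S3184

open Cfsg.Agent.H2 Subgroup

/-- Let G be a finite group in which the intersection of any two distinct Sylow 2-subgroups is contained in the centre of some Sylow 2-subgroup, and let S be a Sylow 2-subgroup. If C is a nontrivial cyclic characteristic subgroup of S, then the involution of C is central modulo the largest normal subgroup of odd order of G: each of its conjugates has the same image in G/O(G). -/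
theorem result {G : Type*} [Group G] [Finite G]
    (hCI : ∀ S T : Sylow 2 G, S ≠ T → ∃ U : Sylow 2 G,
      (S : Subgroup G) ⊓ (T : Subgroup G) ≤ (Subgroup.center ↥(U : Subgroup G)).map (U : Subgroup G).subtype)
    (S : Sylow 2 G) (C : Subgroup ↥(S : Subgroup G)) (hC : C ≠ ⊥) (hCc : IsCyclic ↥C) (hCh : C.Characteristic)
    (c : ↥(S : Subgroup G)) (hc : c ∈ C) (hc2 : orderOf c = 2) :
    ∀ g : G, (QuotientGroup.mk (s := Cfsg.oddCore G) (g * (c : G) * g⁻¹)) =
      QuotientGroup.mk (s := Cfsg.oddCore G) (c : G) := by
  intro g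
  have hS := sylIn_top S
  have h2 : orderOf (c : G) = 2 := by rw [Subgroup.orderOf_coe, hc2]
  have hr : Equivalence (fun x y : G => x = c ↔ y = c) := ⟨fun _ => Iff.rfl, Iff.symm, Iff.trans⟩
  have hi : IsIsolatedInvolution (c : G) := by
    refine isolated_of_sylow S h2 fun g hg => (hS.rel_of_local hr (fun n hn x _ => ?_)
      (fun U hU => ?_) (mem_top g) c.2 hg).1 rfl
    · have h3 : n * c * n⁻¹ = c := by
        have hC' : IsCyclic (C.map (S : Subgroup G).subtype) :=
          isCyclic_of_surjective _ (H8.mapSubtypeEquiv C).surjective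
        exact eq_of_ord2_of_isCyclic hC' (H8.conj_mem_of_mem_normalizer
          (H8.normalizer_le_normalizer_map_of_char C hn.2) (mem_map_of_mem _ hc))
          (mem_map_of_mem _ hc) (ord2_conj h2 n) h2
      refine ⟨fun e => e ▸ h3, fun e => ?_⟩
      rw [← h3] at e
      simpa using e
    · exfalso
      obtain ⟨H, hH, -, hH'⟩ := hU.ex
      obtain ⟨x, hx, hxH⟩ := SetLike.exists_of_lt hH
      obtain ⟨T, hT⟩ := hCI S (x • S) fun e => hxH (hH' x hx S hU.lt le_rfl (by
        rw [← coe_smul_sylow, ← e]))
      rw [H8.center_map_subtype, coe_smul_sylow] at hT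
      have h3 : U ≤ centralizer ((T : Subgroup G) : Set G) := by
        refine le_trans (le_inf hU.lt.le ?_) (hT.trans inf_le_right)
        rw [← cj_eq_of_mem_normalizer hx.2]
        exact cj_mono x hU.lt.le
      have h4 := hU.ctr hS T (le_inf le_top (le_centralizer_iff.1 h3)) T.2
      exact absurd ((sylIn_top T).card_eq hS) (((card_le_of_le h4).trans_lt (card_lt_of_lt hU.lt)).ne)
  symm
  rw [QuotientGroup.eq]
  have := (inferInstance : (oddCore G).Normal).conj_mem _ (B.zstar hi g) (c : G)⁻¹
  simpa [commutatorElement_def, mul_assoc] using this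

end Cfsg.Agent.S3184
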