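import Cfsg.Statements.S3190
import Mathlib
import Cfsg.Agent.H2.Loc
import Cfsg.Agent.H1.Coprime

set_option autoImplicit false
open Cfsg

namespace Cfsg.Agent.S3190

open Cfsg.Agent.H2 Cfsg.Agent.H8 Subgroup
open scoped commutatorElement

/-- Let p be an odd prime and, inside a finite group, let P be a p-subgroup normalized by a Klein four-group T. Let R be a subgroup of P, normal in P and normalized by T, such that P is the product of R with the centralizer of T in P. If T centralizes the centre of P, then T centralizes the centre of R. -/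
theorem result {X : Type*} [Group X] [Finite X]
    {p : ℕ} (hp : p.Prime) (hodd : Odd p) (P T R : Subgroup X) (hP : IsPGroup p ↥P) (hT : IsKleinFour ↥T)
    (hTP : T ≤ Subgroup.normalizer (P : Set X)) (hRP : R ≤ P) (hRn : (R.subgroupOf P).Normal)
    (hTR : T ≤ Subgroup.normalizer (R : Set X)) (hfac : R ⊔ (P ⊓ Subgroup.centralizer (T : Set X)) = P)
    (hZ : T ≤ Subgroup.centralizer (((Subgroup.center ↥P).map P.subtype : Subgroup X) : Set X)) :
    T ≤ Subgroup.centralizer (((Subgroup.center ↥R).map R.subtype : Subgroup X) : Set X) := by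
  haveI := Fact.mk hp
  rw [center_map_subtype] at hZ ⊢
  have hn := le_normalizer_of_normal_subgroupOf hRP
  have hTZ : T ≤ normalizer ((R ⊓ centralizer (R : Set X) : Subgroup X) : Set X) :=
    le_normalizer_inf hTR (le_normalizer_centralizer hTR)
  haveI : IsMulCommutative ↥(R ⊓ centralizer (R : Set X)) :=
    ⟨⟨fun a b => Subtype.ext (b.2.2 a a.2.1)⟩⟩
  have h1 := H1.commutator_inf_centralizer_eq_bot hTZ (by
    rw [hT.card_four]
    exact (H8.coprime_of_isPGroup (hP.to_le (inf_le_left.trans hRP))
      (Nat.Coprime.pow_left 2 hodd.coprime_two_left)).symm)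
  have h2 := commutator_le_left_of_norm hTZ
  rw [le_centralizer_iff, ← commutator_eq_bot_iff_le_centralizer]
  by_contra h0
  obtain ⟨z, hz, hz1, hc⟩ := exists_mem_inf_Zc hP (h2.trans (inf_le_left.trans hRP)) (by
    rw [← hfac]
    exact sup_le (le_normalizer_of_le_centralizer (le_centralizer_iff.1 (h2.trans inf_le_right)))
      (le_normalizer_commutator (inf_le_left.trans (le_normalizer_inf hn (le_normalizer_centralizer hn)))
        (le_normalizer_of_le_centralizer inf_le_right))) h0
  have : z ∈ ⁅R ⊓ centralizer (R : Set X), T⁆ ⊓ centralizer (T : Set X) :=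
    ⟨hz, le_centralizer_iff.1 hZ ⟨hRP (h2 hz).1, hc⟩⟩
  rw [h1, mem_bot] at this
  exact hp.one_lt.ne (by simpa [this] using hz1)

end Cfsg.Agent.S3190
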