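import Cfsg.Statements.S3192
import Cfsg.Agent.C3.Rank3

set_option autoImplicit false
open Cfsg

namespace Cfsg.Agent.S3192

open H2 C3 Subgroup BG

/-- Simple groups of conjugate type rank three. For a finite group G consider the set of indices of the centralizers of the non-central elements of G. Then G is a non-abelian simple group for which this set has exactly three members if and only if G is isomorphic to PSL(2, 2^m) for some m ≥ 2. -/
theorem result (G : Type*) [Group G] [Finite G] :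
    (IsSimpleGroup G ∧ ¬ IsMulCommutative G ∧
        Set.ncard {m : ℕ | ∃ x : G, x ∉ Subgroup.center G ∧ m = (Subgroup.centralizer ({x} : Set G)).index} = 3) ↔
      ∃ (m : ℕ) (F : Type) (_ : Field F) (_ : Fintype F), 2 ≤ m ∧ Fintype.card F = 2 ^ m ∧
        Nonempty (G ≃* Matrix.ProjectiveSpecialLinearGroup (Fin 2) F) := by
  constructor
  · rintro ⟨_, hG, h⟩
    have hZ : ∀ {x : G}, x ≠ 1 → x ∉ center G := fun {x} h1 h2 =>
      h1 (eq_one_of_comm_conj hG h1 fun g => mem_center_iff.1 h2 _)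
    obtain ⟨F, _, _, f, h4, h5, -, h6, -⟩ := (ac1_of_simple hG (ac_of_three hG fun a b c d ha hb hc hd h1 h2 h3 => by
      have := Set.eq_of_subset_of_ncard_le (s := {(𝒞₁ a).index, (𝒞₁ b).index, (𝒞₁ c).index}) (by
        rintro _ (rfl | rfl | rfl)
        exacts [⟨a, hZ ha, rfl⟩, ⟨b, hZ hb, rfl⟩, ⟨c, hZ hc, rfl⟩])
        (h.trans (Set.ncard_eq_three.2 ⟨_, _, _, h1, h2, h3, rfl⟩).symm).le (Set.finite_of_ncard_ne_zero (by omega))
      exact this.ge ⟨d, hZ hd, rfl⟩)).equiv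
    exact ⟨f, F, inferInstance, inferInstance, h4, h5, h6⟩
  · rintro ⟨m, F, _, _, h1, h2, ⟨e⟩⟩
    have : CharP F 2 := by
      obtain ⟨p, hp⟩ := CharP.exists F
      obtain ⟨n, h3, h4⟩ := FiniteField.card F p
      rwa [(Nat.prime_dvd_prime_iff_eq h3 Nat.prime_two).1 (h3.dvd_of_dvd_pow
        (h2 ▸ h4 ▸ dvd_pow_self p n.ne_zero : p ∣ 2 ^ m))] at hp
    have h3 : Even (Fintype.card F) := h2 ▸ (Nat.even_pow' (by omega)).2 even_two
    have h4 : 4 ≤ Fintype.card F := h2 ▸ Nat.pow_le_pow_right two_pos h1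
    have := Matrix.ProjectiveSpecialLinearGroup.rank_two_simple (F := F) (by rwa [Nat.card_eq_fintype_card])
    have := e.isSimpleGroup
    let e' := e.trans ((H4.pslEquiv F).trans ((MulEquiv.subgroupCongr (H4.LL_eq_top_of_even h3)).trans topEquiv))
    obtain ⟨r, hr⟩ : ∃ r, Fintype.card F = r + 1 := ⟨Fintype.card F - 1, by omega⟩
    have h5 : Nat.card G = r * (r + 1) * (r + 2) := by
      rw [Nat.card_congr e'.toEquiv, H4.card_PGL_two, hr, show (r + 1) ^ 2 - 1 = r * (r + 2) by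
        rw [Nat.sub_eq_iff_eq_add (Nat.one_le_pow 2 (r + 1) r.succ_pos)]; ring]
      ring
    have h6 : ∀ g : G, g ≠ 1 → Nat.card (𝒞₁ g) = r ∨ Nat.card (𝒞₁ g) = r + 1 ∨ Nat.card (𝒞₁ g) = r + 2 := fun g hg => by
      have := card_c1_pgl (e' g) (by simpa using hg)
      rwa [hr, ← Nat.card_congr (e'.toEquiv.subtypeEquiv (p := (· ∈ 𝒞₁ g)) fun a => by
        simp [mem_c1, Commute, SemiconjBy, ← map_mul])] at this
    rw [hr] at h3 h4
    obtain ⟨k, hk⟩ := h3
    have h7 : ∀ n, n = r ∨ n = r + 1 ∨ n = r + 2 → ∃ g : G, g ≠ 1 ∧ Nat.card (𝒞₁ g) = n := fun n hn => by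
      obtain ⟨s, hs, h7⟩ := Nat.exists_prime_and_dvd (n := n) (by omega)
      have := Fact.mk hs
      obtain ⟨g, hg⟩ := exists_prime_orderOf_dvd_card' (G := G) s (h7.trans (by
        rw [h5]; rcases hn with rfl | rfl | rfl
        exacts [(dvd_mul_right _ _).mul_right _, (dvd_mul_left _ _).mul_right _, dvd_mul_left _ _]))
      have g1 : g ≠ 1 := fun e => hs.one_lt.ne (by rw [← hg, e, orderOf_one])
      refine ⟨g, g1, by_contra fun e => ?_⟩
      have h8 := hg ▸ orderOf_dvd_natCard _ (mem_c1.2 (Commute.refl g))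
      have h9 := h6 g g1
      generalize Nat.card (𝒞₁ g) = c at h8 h9 e
      have h10 : s ∣ 2 := by
        have a1 := Nat.dvd_sub h7 h8
        have a2 := Nat.dvd_sub h8 h7
        have : n - c = 1 ∨ n - c = 2 ∨ c - n = 1 ∨ c - n = 2 := by omega
        rcases this with b | b | b | b
        exacts [(b ▸ a1).trans (one_dvd 2), b ▸ a1, (b ▸ a2).trans (one_dvd 2), b ▸ a2]
      obtain rfl := (Nat.prime_dvd_prime_iff_eq hs Nat.prime_two).1 h10
      omega
    have hG : ¬ IsMulCommutative G := fun h => by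
      obtain ⟨g, -, hg⟩ := h7 r (Or.inl rfl)
      rw [show 𝒞₁ g = ⊤ from eq_top_iff.2 fun a _ => mem_c1.2 (mul_comm' a g), card_top, h5, mul_assoc] at hg
      have := Nat.eq_of_mul_eq_mul_left (by omega) (hg.trans (mul_one r).symm)
      nlinarith
    have hZ : ∀ {x : G}, x ∉ center G ↔ x ≠ 1 := fun {x} => ⟨fun h e => h (e ▸ one_mem _), fun h1 h2 =>
      h1 (eq_one_of_comm_conj hG h1 fun g => mem_center_iff.1 h2 _)⟩
    have h8 : ∀ {g : G} {a b : ℕ}, Nat.card (𝒞₁ g) = a → a * b = r * (r + 1) * (r + 2) → b = (𝒞₁ g).index :=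
      fun {g a b} h h' => Nat.eq_of_mul_eq_mul_left (h ▸ Nat.card_pos) (by rw [h', ← h, card_mul_index, h5])
    refine ⟨inferInstance, hG, Set.ncard_eq_three.2 ⟨(r + 1) * (r + 2), r * (r + 2), r * (r + 1), by nlinarith, by nlinarith,
      by nlinarith, Set.Subset.antisymm ?_ ?_⟩⟩
    · rintro _ ⟨g, hg, rfl⟩
      rcases h6 g (hZ.1 hg) with h | h | h
      exacts [Or.inl (h8 h (by ring)).symm, Or.inr (Or.inl (h8 h (by ring)).symm), Or.inr (Or.inr (h8 h (by ring)).symm)]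
    · rintro _ (rfl | rfl | rfl)
      · obtain ⟨g, h, h'⟩ := h7 _ (Or.inl rfl)
        exact ⟨g, hZ.2 h, h8 h' (by ring)⟩
      · obtain ⟨g, h, h'⟩ := h7 _ (Or.inr (Or.inl rfl))
        exact ⟨g, hZ.2 h, h8 h' (by ring)⟩
      · obtain ⟨g, h, h'⟩ := h7 _ (Or.inr (Or.inr rfl))
        exact ⟨g, hZ.2 h, h8 h' (by ring)⟩

end Cfsg.Agent.S3192
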