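import Cfsg.Statements.S3195
import Cfsg.Agent.H2.Baer
import Cfsg.Agent.H2.Two

set_option autoImplicit false
open Cfsg

namespace Cfsg.Agent.S3195

open Cfsg.Agent Cfsg.Agent.H2 Subgroup
open scoped Pointwise commutatorElement
theorem comm_of_sq {G : Type*} [Group G] {x s : G} (ho : Odd (orderOf s)) (h : Commute x (s ^ 2)) :
    Commute x s := by
  obtain ⟨k, hk⟩ := ho
  have : s = (s ^ 2) ^ (k + 1) := by
    rw [← pow_mul, show 2 * (k + 1) = (2 * k + 1) + 1 by ring, pow_succ, ← hk, pow_orderOf_eq_one, one_mul]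
  rw [this]; exact h.pow_right _

theorem not_comm {G : Type*} [Group G] {x s : G} (ho : Odd (orderOf s)) (h1 : s ≠ 1)
    (hi : x * s * x⁻¹ = s⁻¹) : ¬ Commute x s := by
  intro h
  rw [h.eq, mul_inv_cancel_right] at hi
  have h2 : s ^ 2 = 1 := by rw [pow_two]; nth_rewrite 1 [hi]; exact inv_mul_cancel s
  have := (Nat.dvd_prime Nat.prime_two).1 (orderOf_dvd_of_pow_eq_one h2)
  rcases this with h3 | h3
  · exact h1 (orderOf_eq_one_iff.1 h3)
  · rw [h3] at ho; exact absurd ho (by decide)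

theorem conj_eq {G : Type*} [Group G] {x s : G} (hi : x * s * x⁻¹ = s⁻¹) :
    s⁻¹ * x * s⁻¹⁻¹ = x * s ^ 2 := by
  have : s⁻¹ * x = x * s := by rw [← hi]; group
  rw [this, inv_inv, pow_two, mul_assoc]


/-- Let A be a Klein four-subgroup of a finite group G. If every G-conjugate of every involution of A commutes with some involution of A (its centralizer meets A nontrivially), then A meets the largest normal 2-subgroup O₂(G) nontrivially. -/
theorem result {G : Type*} [Group G] [Finite G]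
    (A : Subgroup G) (hA : IsKleinFour ↥A)
    (h : ∀ a ∈ A, a ≠ 1 → ∀ g : G, A ⊓ Subgroup.centralizer ({g * a * g⁻¹} : Set G) ≠ ⊥) :
    A ⊓ Cfsg.pCore 2 G ≠ ⊥ := by
  intro h0
  have hinv : ∀ a ∈ A, a ≠ 1 → ∃ s : G, s ≠ 1 ∧ Odd (orderOf s) ∧ a * s * a⁻¹ = s⁻¹ := fun a ha a1 =>
    exists_inverted_odd (IsKleinFour.mul_self' hA ha) fun hO => a1 (mem_bot.1 (h0 ▸ (⟨ha, hO⟩ : a ∈ A ⊓ _)))
  have H : ∀ a ∈ A, a ≠ 1 → ∀ g k : G, ∃ w ∈ A, w ≠ 1 ∧ Commute (g * a * g⁻¹) (k * w * k⁻¹) := by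
    intro a ha a1 g k
    obtain ⟨⟨w, hw, hc⟩, w1⟩ := ne_bot_iff_exists_ne_one.1 (h a ha a1 (k⁻¹ * g))
    refine ⟨w, hw, fun e => w1 (Subtype.ext e), ?_⟩
    have := hc _ rfl
    calc g * a * g⁻¹ * (k * w * k⁻¹) = k * (k⁻¹ * g * a * (k⁻¹ * g)⁻¹ * w) * k⁻¹ := by group
      _ = _ := by rw [this]; group
  have step : ∀ a ∈ A, a ≠ 1 → ∃ s : G, s ≠ 1 ∧ Odd (orderOf s) ∧ a * s * a⁻¹ = s⁻¹ ∧
      ∃ b ∈ A, b ≠ 1 ∧ a ≠ b ∧ Commute b s := by
    intro a ha a1
    obtain ⟨s, s1, so, hs⟩ := hinv a ha a1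
    obtain ⟨w, hw, w1, hc⟩ := H a ha a1 s⁻¹ 1
    rw [conj_eq hs, one_mul, inv_one, mul_one] at hc
    obtain ⟨c, hK⟩ := exists_k4_of_mem hA ha a1
    have h2 : Commute w (s ^ 2) := by
      have := (hK.commute hw ha).inv_right.mul_right hc.symm
      simpa using this
    exact ⟨s, s1, so, hs, w, hw, w1, fun e => not_comm so s1 hs (e ▸ comm_of_sq so h2), comm_of_sq so h2⟩
  obtain ⟨a, b0, hK0⟩ := exists_k4 hA
  obtain ⟨s, s1, so, hs, b, hb, b1, hab, hbs⟩ := step a hK0.a_mem hK0.a1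
  have hK := k4_of_isKleinFour hA hK0.a_mem hb hK0.a1 b1 hab
  obtain ⟨t, t1, to', ht, w, hw, w1, hbw, hwt⟩ := step b hb b1
  have cab : Commute a b := hK.comm
  have nas := not_comm so s1 hs
  have nbt := not_comm to' t1 ht
  have canc : ∀ {x u v : G}, Commute x u → Commute x (u * v) → Commute x v := fun {x u v} h1 h2 => by
    simpa using h1.inv_right.mul_right h2
  have canc' : ∀ {x u v : G}, Commute x v → Commute x (u * v) → Commute x u := fun {x u v} h1 h2 => by
    simpa using h2.mul_right h1.inv_right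
  have xb : ∀ r : G, Commute b r → Commute (a * r ^ 2) b := fun r hr => cab.mul_left (hr.pow_right 2).symm
  have xa : ∀ r : G, Odd (orderOf r) → r ≠ 1 → a * r * a⁻¹ = r⁻¹ → ¬ Commute (a * r ^ 2) a :=
    fun r ro r1 hr hc => not_comm ro r1 hr (comm_of_sq ro (canc (Commute.refl a) hc.symm))
  rcases (hK.mem w).1 hw with rfl | rfl | rfl | rfl
  · exact w1 rfl
  · -- a commutes with t
    have hct : (w * b) * t * (w * b)⁻¹ = t⁻¹ := by
      calc _ = w * (b * t * b⁻¹) * w⁻¹ := by group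
        _ = t⁻¹ := by rw [ht, hwt.inv_right.eq, mul_inv_cancel_right]
    have hcs : (w * b) * s * (w * b)⁻¹ = s⁻¹ := by
      calc _ = w * (b * s * b⁻¹) * w⁻¹ := by group
        _ = s⁻¹ := by rw [hbs.eq, mul_inv_cancel_right, hs]
    obtain ⟨v, hv, v1, hc⟩ := H w hw w1 s⁻¹ t⁻¹
    rw [conj_eq hs] at hc
    have hst : Commute s t := by
      rcases (hK.mem v).1 hv with rfl | rfl | rfl | rfl
      · exact absurd rfl v1
      · rw [hwt.inv_right.symm.eq, mul_inv_cancel_right] at hc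
        exact absurd hc (xa s so s1 hs)
      · rw [conj_eq ht] at hc
        have h1 := comm_of_sq to' (canc (xb s hbs) hc)
        exact (comm_of_sq so (canc hwt.symm h1.symm)).symm
      · exfalso
        rw [conj_eq hct, cab.eq, mul_assoc] at hc
        have h1 := canc (xb s hbs) hc
        have h2 := h1.mul_right h1
        have e : w * t ^ 2 * (w * t ^ 2) = (t ^ 2) ^ 2 := by
          rw [mul_assoc, ← mul_assoc (t ^ 2), ← (hwt.pow_right 2).eq, mul_assoc, ← mul_assoc, hK.a2, one_mul, pow_two (t ^ 2)]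
        rw [e] at h2
        have h3 := comm_of_sq (Odd.of_dvd_nat to' (orderOf_pow_dvd 2)) h2
        exact xa s so s1 hs (canc' h3 h1)
    have hcst : (w * b) * (s * t) * (w * b)⁻¹ = (s * t)⁻¹ := by
      calc _ = ((w * b) * s * (w * b)⁻¹) * ((w * b) * t * (w * b)⁻¹) := by group
        _ = _ := by rw [hcs, hct, hst.eq, mul_inv_rev]
    have sto : Odd (orderOf (s * t)) := Odd.of_dvd_nat (so.mul to') hst.orderOf_mul_dvd_mul_orderOf
    obtain ⟨v, hv, v1, hc⟩ := H (w * b) hK.ab_mem hK.ab1 (s * t)⁻¹ 1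
    rw [conj_eq hcst, one_mul, inv_one, mul_one] at hc
    have h1 := comm_of_sq sto (canc (hK.commute hv hK.ab_mem) hc.symm)
    rcases (hK.mem v).1 hv with rfl | rfl | rfl | rfl
    · exact v1 rfl
    · exact nas (canc' hwt h1)
    · exact nbt (canc hbs h1)
    · refine not_comm sto (fun e => nas ?_) hcst h1
      rw [eq_inv_of_mul_eq_one_left e]; exact hwt.inv_right
  · exact hbw rfl
  · -- ab commutes with t
    have hat : a * t * a⁻¹ = t⁻¹ := by
      have e : a = b * (a * b) := by rw [cab.eq, ← mul_assoc, hK.b2, one_mul]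
      calc _ = (b * (a * b)) * t * (b * (a * b))⁻¹ := by rw [← e]
        _ = b * ((a * b) * t * (a * b)⁻¹) * b⁻¹ := by group
        _ = t⁻¹ := by rw [hwt.eq, mul_inv_cancel_right, ht]
    have key : ∀ r : G, Odd (orderOf r) → r ≠ 1 → a * r * a⁻¹ = r⁻¹ → Commute b r → Commute (a * r ^ 2) t := by
      intro r ro r1 hr hbr
      obtain ⟨v, hv, v1, hc⟩ := H a hK.a_mem hK.a1 r⁻¹ t⁻¹
      rw [conj_eq hr] at hc
      rcases (hK.mem v).1 hv with rfl | rfl | rfl | rfl
      · exact absurd rfl v1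
      · exfalso
        rw [conj_eq hat] at hc
        have h1 := (xb r hbr).mul_right hc
        rw [← mul_assoc, ← cab.eq] at h1
        have h2 := h1.mul_right h1
        have e : v * b * t ^ 2 * (v * b * t ^ 2) = (t ^ 2) ^ 2 := by
          rw [(hwt.pow_right 2).symm.mul_mul_mul_comm, hK.mul_self hK.ab_mem, one_mul, pow_two (t ^ 2)]
        rw [e] at h2
        have h3 := comm_of_sq (Odd.of_dvd_nat to' (orderOf_pow_dvd 2)) h2
        exact xa r ro r1 hr (canc' (xb r hbr) (canc' h3 h1))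
      · rw [conj_eq ht] at hc
        exact comm_of_sq to' (canc (xb r hbr) hc)
      · rw [hwt.inv_right.symm.eq, mul_inv_cancel_right] at hc
        exact absurd (canc' (xb r hbr) hc) (xa r ro r1 hr)
    have h1 := key s so s1 hs hbs
    have h2 := key s⁻¹ (by rwa [orderOf_inv]) (inv_ne_one.2 s1) (by rw [← conj_inv, hs]) hbs.inv_right
    have h3 := h2.symm.inv_right.mul_right h1.symm
    have e : (a * s⁻¹ ^ 2)⁻¹ * (a * s ^ 2) = (s ^ 2) ^ 2 := by group
    rw [e] at h3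
    have h4 := comm_of_sq (Odd.of_dvd_nat so (orderOf_pow_dvd 2)) h3
    exact not_comm to' t1 hat (canc' h4 h1.symm).symm

end Cfsg.Agent.S3195
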