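import Cfsg.Statements.S3200
import Mathlib
import Cfsg.Agent.H2.KW

set_option autoImplicit false
open Cfsg

namespace Cfsg.Agent.S3200

open Cfsg.Agent.H2 Cfsg.Agent.H8 Subgroup

/-- Let H be a finite group in which a Sylow 2-subgroup has an abelian complement (an abelian subgroup meeting it trivially whose product with it is all of H). Then H is solvable, and every subgroup and every quotient group of H again has a Sylow 2-subgroup with an abelian complement. -/
theorem result {H : Type*} [Group H] [Finite H]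
    (S : Sylow 2 H) (C : Subgroup H) (hC : IsMulCommutative ↥C) (hSC : Subgroup.IsComplement' (S : Subgroup H) C) :
    Group.IsSolvable H ∧
    (∀ L : Subgroup H, ∃ (P : Sylow 2 ↥L) (D : Subgroup ↥L), IsMulCommutative ↥D ∧ Subgroup.IsComplement' (P : Subgroup ↥L) D) ∧
    (∀ (N : Subgroup H) [N.Normal], ∃ (P : Sylow 2 (H ⧸ N)) (D : Subgroup (H ⧸ N)),
      IsMulCommutative ↥D ∧ Subgroup.IsComplement' (P : Subgroup (H ⧸ N)) D) := by
  have hCn : Group.IsNilpotent C := by
    exact nilpotent_of_comm2 (commutator_eq_bot_iff_forall.2 fun a ha b hb =>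
      congrArg Subtype.val (hC.is_comm.comm ⟨a, ha⟩ ⟨b, hb⟩))
  have hf : ∀ g : H, ∃ a ∈ (S : Subgroup H), ∃ b ∈ C, g = a * b := fun g => by
    obtain ⟨⟨a, b⟩, e⟩ := hSC.2 g
    exact ⟨a, a.2, b, b.2, e.symm⟩
  have hs := kegel_wielandt S.isPGroup'.isNilpotent hCn (fz_top_iff.2 hf)
  have hCi : C.index = Nat.card S := hSC.index_eq_card
  have hCc : Nat.card C = (S : Subgroup H).index := hSC.symm.index_eq_card.symm
  obtain ⟨k, hk⟩ := IsPGroup.iff_card.1 S.isPGroup'
  have hCH : IsPiHall {2}ᶜ C := (H1.isPiHall_compl_iff Nat.prime_two).2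
    ⟨by rw [hCc]; exact ((Nat.Prime.coprime_iff_not_dvd Nat.prime_two).2 S.not_dvd_index).symm,
      k, hCi.trans hk⟩
  have key : ∀ {X : Type _} [Group X] [Finite X] (D : Subgroup X), IsPiHall {2}ᶜ D →
      ∃ P : Sylow 2 X, IsComplement' (P : Subgroup X) D := by
    intro X _ _ D hD
    obtain ⟨h1, j, hj⟩ := (H1.isPiHall_compl_iff Nat.prime_two).1 hD
    obtain ⟨P⟩ : Nonempty (Sylow 2 X) := inferInstance
    obtain ⟨i, hi⟩ := IsPGroup.iff_card.1 P.isPGroup'
    have h2 : (Nat.card P).Coprime (Nat.card D) := by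
      change (Nat.card (P : Subgroup X)).Coprime _
      rw [hi]; exact Nat.Coprime.pow_left i h1.symm
    refine ⟨P, isComplement'_of_coprime ?_ h2⟩
    have h3 := H1.forall_mul_iff_card_top.1 (H1.forall_mul_of_coprime_index (H := (P : Subgroup X)) (K := D) (by
      rw [hj]
      exact Nat.Coprime.pow_right j ((Nat.Prime.coprime_iff_not_dvd Nat.prime_two).2 P.not_dvd_index).symm))
    rw [inf_eq_bot_of_pgroup_coprime P.isPGroup' h1, card_bot, mul_one] at h3
    exact h3.symm
  refine ⟨hs, fun L => ?_, fun N _ => ?_⟩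
  · haveI := hs
    obtain ⟨D, hD⟩ := H1.exists_hall (G := L) {2}ᶜ inferInstance
    obtain ⟨P, hP⟩ := key D hD
    refine ⟨P, D, ?_, hP⟩
    obtain ⟨g, hg⟩ := H1.hall_conj_le hs hCH (U := D.map L.subtype) (fun p hp hd =>
      hD.1 p hp (by rwa [H8.card_map_subtype] at hd))
    refine ⟨⟨fun a b => Subtype.ext (Subtype.ext ?_)⟩⟩
    have ha := hg (H1.conj_mem_conj_smul.2 (mem_map_of_mem L.subtype a.2))
    have hb := hg (H1.conj_mem_conj_smul.2 (mem_map_of_mem L.subtype b.2))
    have := congrArg Subtype.val (hC.is_comm.comm ⟨_, ha⟩ ⟨_, hb⟩)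
    simp only [← mul_assoc, coe_mul, coe_subtype, inv_mul_cancel_right, mul_left_inj] at this
    simpa [mul_assoc] using this
  · obtain ⟨P, hP⟩ := key _ (H1.isPiHall_map hCH (QuotientGroup.mk'_surjective N))
    exact ⟨P, _, inferInstance, hP⟩

end Cfsg.Agent.S3200
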