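import Cfsg.Statements.S3202
import Cfsg.Agent.H9.TJ
import Cfsg.Agent.L.PCyc2
import Cfsg.Agent.L.Quat
import Cfsg.Agent.L.Cores
import Cfsg.Agent.L.Fitting

set_option autoImplicit false
open Cfsg

namespace Cfsg.Agent.S3202

open Cfsg.Agent Cfsg.Agent.H9
open Cfsg.Agent Cfsg.Agent.H9 Subgroup
open scoped commutatorElement

theorem qp_of_unique {X : Type*} [Group X] [Finite X] (hX : IsPGroup 2 X) (hna : ¬ IsMulCommutative X)
    (hu : ∃! x : X, orderOf x = 2) : ∃ (k : ℕ) (a b : X), L.QP ⊤ (2 ^ (k + 1)) a b := by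
  obtain ⟨t, ht, ht'⟩ := hu
  have h1 : ∀ H : Subgroup X, Nat.card H = 2 → H = zpowers t := fun H hH => by
    obtain ⟨x, hx⟩ := exists_prime_orderOf_dvd_card' (G := H) 2 (hH ▸ dvd_rfl)
    rw [← orderOf_coe] at hx
    refine (eq_of_le_of_card_ge (zpowers_le.mpr (ht' _ hx ▸ x.2)) ?_).symm
    rw [Nat.card_zpowers, ht, hH]
  rcases L.isCyclic_or_quaternion_of_unique hX fun H K hH hK => (h1 H hH).trans (h1 K hK).symm with h | ⟨-, n, hn, ⟨e⟩⟩
  · haveI := h
    exact (hna inferInstance).elim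
  · obtain ⟨k, rfl⟩ : ∃ k, n = k + 1 := ⟨n - 1, by omega⟩
    exact ⟨k, L.exists_qP (pow_pos two_pos _) (topEquiv.trans e)⟩

theorem nz {S : Type*} [Group S] [Finite S] {g c : S} (h : g * c * g⁻¹ ∈ zpowers c) : g ∈ normalizer (zpowers c : Set S) :=
  L.mem_normalizer_of_forall (by
    rintro _ ⟨i, rfl⟩
    show g * c ^ i * g⁻¹ ∈ _
    rw [← conj_zpow]; exact zpow_mem h i)

theorem hall {S : Type*} [Group S] (D : Subgroup S) [D.Normal] {m : ℕ} {x y : S}
    (h : L.QP ⊤ m (QuotientGroup.mk' D x) (QuotientGroup.mk' D y)) (K : Subgroup S) (h1 : D ≤ K) (h2 : x ∈ K) (h3 : y ∈ K)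
    (g : S) : g ∈ K := by
  rw [← comap_map_eq_self (f := QuotientGroup.mk' D) (H := K) (by rwa [QuotientGroup.ker_mk']), mem_comap]
  obtain ⟨k, e | e⟩ := (h.mem (QuotientGroup.mk' D g)).mp (mem_top _) <;> rw [e]
  · exact zpow_mem (mem_map_of_mem _ h2) k
  · exact mul_mem (mem_map_of_mem _ h3) (zpow_mem (mem_map_of_mem _ h2) k)

/-- Let S be a finite 2-group of 2-rank exactly 2 and D a maximal subgroup of the centre of S such that S/D is a non-abelian group with exactly one involution (a generalized quaternion group). Then S has a nontrivial cyclic characteristic subgroup. -/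
theorem result {S : Type*} [Group S]
    [Finite S] (hS : IsPGroup 2 S) (hr2 : Cfsg.PRankLE 2 2 S) (hr1 : ¬ Cfsg.PRankLE 2 1 S)
    (D : Subgroup ↥(Subgroup.center S)) (hD : IsCoatom D)
    (hq : ∃ (_ : (D.map (Subgroup.center S).subtype).Normal),
      ¬ IsMulCommutative (S ⧸ D.map (Subgroup.center S).subtype) ∧
      ∃! x : S ⧸ D.map (Subgroup.center S).subtype, orderOf x = 2) :
    ∃ C : Subgroup S, C ≠ ⊥ ∧ IsCyclic ↥C ∧ C.Characteristic := by
  obtain ⟨hn, hna, hu⟩ := hq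
  have hDZ : D.map (center S).subtype ≤ center S := map_subtype_le _
  generalize D.map (center S).subtype = D' at *
  obtain ⟨k, a, b, h⟩ := qp_of_unique (hS.to_quotient D') hna hu
  obtain ⟨x, rfl⟩ := QuotientGroup.mk'_surjective D' a
  obtain ⟨y, rfl⟩ := QuotientGroup.mk'_surjective D' b
  have hA : ∀ g, QuotientGroup.mk' D' g ∈ zpowers (QuotientGroup.mk' D' x) → g * x = x * g := by
    rintro g ⟨i, hi⟩
    have h1 : (x ^ i)⁻¹ * g ∈ D' := QuotientGroup.eq.mp ((map_zpow (QuotientGroup.mk' D') x i).trans hi)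
    calc g * x = x ^ i * ((x ^ i)⁻¹ * g * x) := by group
      _ = _ := by rw [← mem_center_iff.mp (hDZ h1) x]; group
  have h2 := hA (y * x⁻¹ * y⁻¹) (by rw [map_mul, map_mul, map_inv, map_inv, ← conj_inv, h.inv, inv_inv]; exact mem_zpowers _)
  have h3 := hA (y * y) (by rw [map_mul, h.sq]; exact pow_mem (mem_zpowers _) _)
  haveI : (zpowers ⁅x, y⁆).Normal := L.normal_of_le_normalizer_top fun g _ => hall D' h _
    (hDZ.trans ((center_le_centralizer _).trans (centralizer_le_normalizer _)))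
    (nz (by
      have : x * ⁅x, y⁆ * x⁻¹ = ⁅x, y⁆ := by
        calc _ = x * (x * (y * x⁻¹ * y⁻¹)) * x⁻¹ := by rw [commutatorElement_def]; group
          _ = _ := by rw [← h2, commutatorElement_def]; group
      rw [this]; exact mem_zpowers _))
    (nz (by
      have : y * ⁅x, y⁆ * y⁻¹ = ⁅x, y⁆⁻¹ := by
        calc _ = y * x * y⁻¹ * (y * y * x⁻¹ * (y * y)⁻¹) := by rw [commutatorElement_def]; group
          _ = _ := by rw [(show Commute (y * y) x from h3).inv_right.eq, commutatorElement_def]; group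
      rw [this]; exact inv_mem (mem_zpowers _))) g
  have hq : ∀ u v : S, u ∈ (centralizer {QuotientGroup.mk' (zpowers ⁅x, y⁆) v}).comap (QuotientGroup.mk' (zpowers ⁅x, y⁆)) ↔
      ⁅u, v⁆ ∈ zpowers ⁅x, y⁆ := fun u v => by
    rw [mem_comap, mem_centralizer_singleton_iff, ← commutatorElement_eq_one_iff_mul_comm, ← map_commutatorElement]
    exact QuotientGroup.eq_one_iff _
  have hsw : ∀ u v : S, ⁅u, v⁆ ∈ zpowers ⁅x, y⁆ → ⁅v, u⁆ ∈ zpowers ⁅x, y⁆ := fun u v h => by
    rw [← commutatorElement_inv u v]; exact inv_mem h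
  have hD' : ∀ v, D' ≤ (centralizer {QuotientGroup.mk' (zpowers ⁅x, y⁆) v}).comap (QuotientGroup.mk' (zpowers ⁅x, y⁆)) :=
    fun v d hd => (hq d v).mpr (by
      rw [commutatorElement_eq_one_iff_mul_comm.mpr (mem_center_iff.mp (hDZ hd) v).symm]; exact one_mem _)
  have hc : commutator S = zpowers ⁅x, y⁆ := le_antisymm (commutator_le.mpr fun u _ v _ => (hq u v).mp (hall D' h _ (hD' v)
    ((hq x v).mpr (hsw _ _ ((hq v x).mp (hall D' h _ (hD' x) ((hq x x).mpr (by simp)) ((hq y x).mpr (hsw _ _ (mem_zpowers _))) v))))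
    ((hq y v).mpr (hsw _ _ ((hq v y).mp (hall D' h _ (hD' y) ((hq x y).mpr (mem_zpowers _)) ((hq y y).mpr (by simp)) v)))) u))
    (zpowers_le.mpr (commutator_mem_commutator (mem_top _) (mem_top _)))
  refine ⟨commutator S, fun e => hna ⟨⟨fun a b => ?_⟩⟩, hc ▸ inferInstance, inferInstance⟩
  obtain ⟨a, rfl⟩ := QuotientGroup.mk'_surjective D' a
  obtain ⟨b, rfl⟩ := QuotientGroup.mk'_surjective D' b
  rw [← map_mul, ← map_mul, ((commutator_eq_bot_iff S).mp e).1.1 a b]

end Cfsg.Agent.S3202
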