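import Cfsg.Statements.S3201
import Cfsg.Agent.H9.TJ
import Cfsg.Agent.L.PCyc2
import Cfsg.Agent.L.Quat
import Cfsg.Agent.L.Cores
import Cfsg.Agent.L.Fitting
import Cfsg.Agent.L.Frattini
import Cfsg.Agent.S3202

set_option autoImplicit false
open Cfsg

namespace Cfsg.Agent.S3201

open Cfsg.Agent Cfsg.Agent.H9
open Cfsg.Agent Cfsg.Agent.H9 Subgroup Cfsg.Agent.S3202

/-- Let S be a finite 2-group whose centre Z(S) has n ≥ 2 distinct maximal subgroups C₁, …, Cₙ with trivial intersection such that each quotient S/Cᵢ is a non-abelian group with exactly one involution (a generalized quaternion group). Then S is the internal direct product of an elementary abelian subgroup and a non-abelian subgroup with exactly one involution. -/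
theorem result {S : Type*} [Group S] [Finite S]
    (hS : IsPGroup 2 S) (n : ℕ) (hn : 2 ≤ n) (C : Fin n → Subgroup ↥(Subgroup.center S))
    (hCmax : ∀ i, IsCoatom (C i)) (hCinj : Function.Injective C) (hCint : ⨅ i, C i = ⊥)
    (hCq : ∀ i, ∃ (_ : ((C i).map (Subgroup.center S).subtype).Normal),
      ¬ IsMulCommutative (S ⧸ (C i).map (Subgroup.center S).subtype) ∧
      ∃! x : S ⧸ (C i).map (Subgroup.center S).subtype, orderOf x = 2) :
    ∃ E Q : Subgroup S, Cfsg.IsInternalDirectProduct E Q ⊤ ∧ Cfsg.IsElementaryAbelian 2 E ∧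
      ¬ IsMulCommutative ↥Q ∧ ∃! x : ↥Q, orderOf x = 2 := by
  classical
  haveI : Nonempty (Fin n) := ⟨⟨0, by omega⟩⟩
  have hZ := hS.to_subgroup (center S)
  have hidx : ∀ i, (C i).index = 2 := fun i => L.index_eq_of_isCoatom_of_isPGroup hZ (hCmax i)
  have hm : ∀ i (z : center S), z.1 ∈ (C i).map (center S).subtype ↔ z ∈ C i := fun i z =>
    mem_map_iff_mem (center S).subtype_injective
  have hone : ∀ z : center S, (∀ i, z ∈ C i) → z = 1 := fun z h => mem_bot.mp (hCint ▸ mem_iInf.mpr h)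
  have hZ2 : ∀ z ∈ center S, z * z = 1 := fun z hz =>
    congrArg Subtype.val (hone (⟨z, hz⟩ * ⟨z, hz⟩) fun i => mul_self_mem_of_index_two (hidx i) _)
  have hA : ∀ s : S, s ∉ center S → ∀ i, s * s ∉ (C i).map (center S).subtype := fun s hs i h => by
    obtain ⟨hN, -, t, -, ht⟩ := hCq i
    obtain ⟨z, -, hz⟩ := SetLike.exists_of_lt (hCmax i).lt_top
    have h1 : ∀ u : S, u ∉ (C i).map (center S).subtype → u * u ∈ (C i).map (center S).subtype →
        QuotientGroup.mk' ((C i).map (center S).subtype) u = t := fun u h2 h3 =>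
      ht _ (orderOf_eq_prime (by rw [sq, ← map_mul]; exact (QuotientGroup.eq_one_iff _).mpr h3)
        fun e => h2 ((QuotientGroup.eq_one_iff _).mp e))
    have h2 := QuotientGroup.eq.mp ((h1 z.1 (by rwa [hm]) (by rw [hZ2 _ z.2]; exact one_mem _)).trans
      (h1 s (fun h => hs (map_subtype_le _ h)) h).symm)
    exact hs ((mul_mem_cancel_left (inv_mem z.2)).mp (map_subtype_le _ h2))
  have hB : ∀ s t : S, s ∉ center S → s * s ∈ center S → t ∉ center S → t * t ∈ center S → s * s = t * t := fun s t h1 h2 h3 h4 => by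
    have := congrArg Subtype.val (hone (⟨_, h2⟩ * ⟨_, h4⟩) fun i => (mul_mem_iff_of_index_two (hidx i)).mpr
      (iff_of_false (fun h => hA s h1 i ((hm i _).mpr h)) fun h => hA t h3 i ((hm i _).mpr h)))
    exact mul_right_cancel (this.trans (hZ2 _ h4).symm)
  obtain ⟨i⟩ : Nonempty (Fin n) := inferInstance
  obtain ⟨hN, hna, hu⟩ := hCq i
  obtain ⟨z, -, hz⟩ := SetLike.exists_of_lt (hCmax i).lt_top
  rw [← hm] at hz
  have hA' := fun s hs => hA s hs i
  have hDZ : (C i).map (center S).subtype ≤ center S := map_subtype_le _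
  generalize (C i).map (center S).subtype = D at *
  obtain ⟨k, a, b, h⟩ := qp_of_unique (hS.to_quotient D) hna hu
  obtain ⟨x, rfl⟩ := QuotientGroup.mk'_surjective D a
  obtain ⟨y, rfl⟩ := QuotientGroup.mk'_surjective D b
  set f := QuotientGroup.mk' D with hf
  have hz1 : ∀ u ∈ center S, f u * f u = 1 := fun u hu => by rw [← map_mul, hZ2 u hu, map_one]
  have hz2 : f z = f x ^ 2 ^ (k + 1) := h.eq_t (mem_top _) (orderOf_eq_prime (by rw [sq, hz1 _ z.2])
    fun e => hz ((QuotientGroup.eq_one_iff _).mp e))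
  have hC : ∀ s, f s * f s = f x ^ 2 ^ (k + 1) → s ∉ center S ∧ s * s ∈ center S := fun s hs =>
    ⟨fun h1 => h.t_ne_one (hs.symm.trans (hz1 s h1)), (mul_mem_cancel_left (inv_mem z.2)).mp
      (hDZ (QuotientGroup.eq.mp (hz2.trans (hs.symm.trans (map_mul f s s).symm))))⟩
  have c1 := hC y h.sq
  have c2 := fun j : ℤ => hC (y * x ^ j) (by rw [map_mul, map_zpow]; exact h.mul_self j)
  have c3 := hC (x ^ 2 ^ k) (by rw [map_pow, ← pow_add, ← two_mul, ← pow_succ'])
  have e1 : y * y = x ^ 2 ^ (k + 1) := by rw [hB _ _ c1.1 c1.2 c3.1 c3.2, ← pow_add, ← two_mul, ← pow_succ']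
  have e2 := fun j : ℤ => hB _ _ (c2 j).1 (c2 j).2 c1.1 c1.2
  have e3 : y * x * y⁻¹ = x⁻¹ := by
    have := e2 1
    rw [zpow_one, mul_assoc, mul_left_cancel_iff] at this
    calc _ = x⁻¹ * (x * (y * x)) * y⁻¹ := by group
      _ = _ := by rw [this]; group
  have hw1 : y * y ∉ D := hA' y c1.1
  let Q : Subgroup S :=
    { carrier := {g | g ∈ zpowers x ∨ y⁻¹ * g ∈ zpowers x}
      one_mem' := Or.inl (one_mem _)
      mul_mem' := by
        have hn := nz (g := y) (c := x) (by rw [e3]; exact inv_mem (mem_zpowers x))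
        rintro a b (ha | ha) (hb | hb)
        · exact Or.inl (mul_mem ha hb)
        · refine Or.inr ?_
          convert mul_mem (L.inv_conj_mem_of_mem_normalizer hn ha) hb using 1
          group
        · exact Or.inr (by rw [← mul_assoc]; exact mul_mem ha hb)
        · refine Or.inl ?_
          convert mul_mem (mul_mem (L.conj_mem_of_mem_normalizer hn ha) (e1 ▸ pow_mem (mem_zpowers x) _)) hb using 1
          group
      inv_mem' := by
        have hn := nz (g := y) (c := x) (by rw [e3]; exact inv_mem (mem_zpowers x))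
        rintro a (ha | ha)
        · exact Or.inl (inv_mem ha)
        · refine Or.inr ?_
          convert mul_mem (L.inv_conj_mem_of_mem_normalizer hn (inv_mem ha)) (inv_mem (e1 ▸ pow_mem (mem_zpowers x) _)) using 1
          group }
  have hxQ : x ∈ Q := Or.inl (mem_zpowers x)
  have hyQ : y ∈ Q := Or.inr (by simp)
  have hw2 : orderOf (y * y) = 2 := orderOf_eq_prime (by rw [sq, hZ2 _ c1.2]) fun e => hw1 (e ▸ one_mem _)
  have hinv : ∀ t ∈ Q, orderOf t = 2 → t = y * y := by
    rintro t (ht | ⟨j, hj⟩) h2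
    · have h3 := L.mem_zpowers_of_orderOf_dvd (A := zpowers x) ht (e1 ▸ pow_mem (mem_zpowers x) _) (by rw [h2, hw2])
      rw [mem_zpowers_iff_mem_range_orderOf, hw2] at h3
      simp [Finset.range_add_one] at h3
      rcases h3 with h3 | h3
      · exact h3
      · rw [h3, orderOf_one] at h2; omega
    · have h3 : t = y * x ^ j := by simp only at hj; rw [hj]; group
      have h4 := e2 j
      rw [← h3, ← sq, ← h2, pow_orderOf_eq_one] at h4
      exact absurd (h4 ▸ one_mem _) hw1
  refine ⟨D, Q, ⟨le_top, le_top, fun a ha b _ => (mem_center_iff.mp (hDZ ha) b).symm, ?_, ?_⟩,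
    ⟨L.isMulCommutative_of_forall fun a ha b _ => (mem_center_iff.mp (hDZ ha) b).symm, fun a ha => by rw [sq, hZ2 a (hDZ ha)]⟩,
    fun hc => ?_, ⟨⟨y * y, mul_mem hyQ hyQ⟩, (orderOf_coe _).symm.trans hw2, fun t ht => Subtype.ext (hinv t.1 t.2 (by rwa [orderOf_coe]))⟩⟩
  · rw [eq_bot_iff]
    rintro t ⟨h1, h2⟩
    by_contra h3
    exact hw1 (hinv t h2 (orderOf_eq_prime (by rw [sq, hZ2 t (hDZ h1)]) h3) ▸ h1)
  · exact eq_top_iff.mpr fun g _ => hall D h _ le_sup_left (mem_sup_right hxQ) (mem_sup_right hyQ) g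
  · refine c1.1 (mem_center_iff.mpr fun g => mem_centralizer_singleton_iff.mp (hall D h _ (fun d hd =>
      mem_centralizer_singleton_iff.mpr (mem_center_iff.mp (hDZ hd) y).symm)
      (mem_centralizer_singleton_iff.mpr (L.mul_comm_of_isMulCommutative hxQ hyQ)) (mem_centralizer_singleton_iff.mpr rfl) g))

end Cfsg.Agent.S3201
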