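import Cfsg.Statements.S3208
import Mathlib
import Cfsg.Agent.H2.Inv3

set_option autoImplicit false
open Cfsg

namespace Cfsg.Agent.S3208

open Cfsg.Agent.H2 Cfsg.Agent.H8 Subgroup

/-- Let j be an involution of a finite group G, H a subgroup of G, and T a Sylow 2-subgroup of H ∩ C_G(j) containing j such that ⟨j⟩ is a characteristic subgroup of T. Then T is a Sylow 2-subgroup of H. -/
theorem result {G : Type*} [Group G] [Finite G]
    (j : G) (hj : orderOf j = 2) (H T : Subgroup G) (hT : T ≤ H ⊓ Subgroup.centralizer ({j} : Set G)) (h2 : IsPGroup 2 ↥T)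
    (hSyl : ¬ 2 ∣ T.relIndex (H ⊓ Subgroup.centralizer ({j} : Set G))) (hjT : j ∈ T)
    (hchar : ((Subgroup.zpowers j).subgroupOf T).Characteristic) :
    ¬ 2 ∣ T.relIndex H := by
  have h1 := normalizer_le_normalizer_map_of_char ((zpowers j).subgroupOf T)
  rw [subgroupOf_map_subtype, inf_eq_left.2 (zpowers_le.2 hjT)] at h1
  refine (sylIn_of_sylIn_normalizer ((sylIn_of_not_dvd hT h2 hSyl).mono
    (le_inf (hT.trans inf_le_left) le_normalizer) (inf_le_inf_left _ (h1.trans ?_)))).not_dvd_relIndex
  exact normalizer_zpowers_invol (ord2_mul_self hj)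

end Cfsg.Agent.S3208
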