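import Cfsg.Statements.S3210
import Cfsg.Agent.H9.SLcp

set_option autoImplicit false
open Cfsg

namespace Cfsg.Agent.S3210

open Cfsg.Agent Cfsg.Agent.H9

/-- Let G be a finite group with subgroups L₁ ≅ SL₂(q₁) and L₂ ≅ SL₂(q₂), q₁ and q₂ odd prime powers, which commute elementwise and meet in ⟨j⟩ for an involution j, and suppose L₁L₂ has index 2 in C_G(j). Then every element n of C_G(j) outside L₁L₂ either normalizes both L₁ and L₂, or conjugates L₁ onto L₂; in the second case q₁ = q₂ and there is an element n′ of C_G(j) outside L₁L₂ conjugating L₁ onto L₂ with n′² ∈ ⟨j⟩. -/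
theorem result {G : Type*} [Group G] [Finite G]
    {F₁ : Type*} [Field F₁] [Fintype F₁] {F₂ : Type*} [Field F₂] [Fintype F₂]
    (hF₁ : Odd (Fintype.card F₁)) (hF₂ : Odd (Fintype.card F₂)) (L₁ L₂ : Subgroup G)
    (e₁ : ↥L₁ ≃* Matrix.SpecialLinearGroup (Fin 2) F₁) (e₂ : ↥L₂ ≃* Matrix.SpecialLinearGroup (Fin 2) F₂)
    (hc : ∀ x ∈ L₁, ∀ y ∈ L₂, x * y = y * x) (j : G) (hj : orderOf j = 2) (hm : L₁ ⊓ L₂ = Subgroup.zpowers j)
    (hle : L₁ ⊔ L₂ ≤ Subgroup.centralizer ({j} : Set G)) (hi : (L₁ ⊔ L₂).relIndex (Subgroup.centralizer ({j} : Set G)) = 2) (n : G) (hn : n ∈ Subgroup.centralizer ({j} : Set G)) (hn' : n ∉ L₁ ⊔ L₂) :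
    (L₁.map (MulAut.conj n).toMonoidHom = L₁ ∧ L₂.map (MulAut.conj n).toMonoidHom = L₂) ∨
      (L₁.map (MulAut.conj n).toMonoidHom = L₂ ∧ Fintype.card F₁ = Fintype.card F₂ ∧
        ∃ n' ∈ Subgroup.centralizer ({j} : Set G), n' ∉ L₁ ⊔ L₂ ∧ L₁.map (MulAut.conj n').toMonoidHom = L₂ ∧ n' ^ 2 ∈ Subgroup.zpowers j) := by
  have hjm : j ∈ L₁ ⊓ L₂ := hm ▸ Subgroup.mem_zpowers j
  have h₁ := slish_of_equiv hF₁ e₁ hj hjm.1
  have h₂ := slish_of_equiv hF₂ e₂ hj hjm.2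
  set C := Subgroup.centralizer ({j} : Set G) with hC
  have hN : ((L₁ ⊔ L₂).subgroupOf C).Normal := Subgroup.normal_of_index_eq_two hi
  have hnorm : ∀ m ∈ C, ∀ x ∈ L₁ ⊔ L₂, m * x * m⁻¹ ∈ L₁ ⊔ L₂ := fun m hm x hx =>
    hN.conj_mem ⟨x, hle hx⟩ hx ⟨m, hm⟩
  have hnj : n⁻¹ * j * n = j := by
    have := hn j rfl
    rw [mul_assoc, this]; group
  rcases swap_or_fix h₁ h₂ hc hm hnj (hnorm n hn)
    (fun x hx => by simpa using hnorm n⁻¹ (inv_mem hn) x hx) with h | ⟨s1, s2⟩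
  · exact Or.inl h
  right
  refine ⟨s1, ?_, ?_⟩
  · have c1 : Nat.card L₂ = Nat.card L₁ := by
      rw [← s1]; exact Subgroup.card_map_of_injective (MulAut.conj n).injective
    rw [Nat.card_congr e₁.toEquiv, Nat.card_congr e₂.toEquiv, H4.card_SL_two, H4.card_SL_two] at c1
    have mono : ∀ a b : ℕ, 1 < a → a < b → a * (a ^ 2 - 1) < b * (b ^ 2 - 1) := by
      intro a b ha hab
      have h1 : a ^ 2 < b ^ 2 := Nat.pow_lt_pow_left hab two_ne_zero
      have h2 : 1 < a ^ 2 := Nat.one_lt_pow two_ne_zero ha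
      exact Nat.mul_lt_mul'' hab (by omega)
    have p1 : 1 < Fintype.card F₁ := Fintype.one_lt_card
    have p2 : 1 < Fintype.card F₂ := Fintype.one_lt_card
    rcases lt_trichotomy (Fintype.card F₁) (Fintype.card F₂) with h | h | h
    · have := mono _ _ p1 h; omega
    · exact h
    · have := mono _ _ p2 h; omega
  · have hnn : n * n ∈ L₁ ⊔ L₂ := by
      have := Subgroup.mul_self_mem_of_index_two (H := (L₁ ⊔ L₂).subgroupOf C) hi ⟨n, hn⟩
      exact this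
    obtain ⟨a, ha, b, hb, hab⟩ := mem_sup_comm hc hnn
    have na : n * a * n⁻¹ ∈ L₂ := s1 ▸ ⟨a, ha, rfl⟩
    have nb : n * b * n⁻¹ ∈ L₁ := s2 ▸ ⟨b, hb, rfl⟩
    refine ⟨n * a⁻¹, mul_mem hn (inv_mem (hle (Subgroup.mem_sup_left ha))), ?_, ?_, ?_⟩
    · intro h
      exact hn' (by simpa using mul_mem h (Subgroup.mem_sup_left ha : a ∈ L₁ ⊔ L₂))
    · rw [← s1]
      ext x
      rw [mem_map_conj, mem_map_conj]
      constructor
      · intro h
        have := mul_mem (mul_mem (inv_mem ha) h) ha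
        convert this using 1; group
      · intro h
        have := mul_mem (mul_mem ha h) (inv_mem ha)
        convert this using 1; group
    · have e1 : (n * a⁻¹) ^ 2 = (n * a * n⁻¹)⁻¹ * b := by
        calc (n * a⁻¹) ^ 2 = (n * a * n⁻¹)⁻¹ * (n * n) * a⁻¹ := by rw [pow_two]; group
          _ = _ := by rw [hab, hc a ha b hb]; group
      have e2 : (n * a⁻¹) ^ 2 = (n * b * n⁻¹) * a⁻¹ := by
        calc (n * a⁻¹) ^ 2 = n * a⁻¹ * (n * n) * n⁻¹ * a⁻¹ := by rw [pow_two]; group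
          _ = _ := by rw [hab]; group
      rw [← hm]
      refine Subgroup.mem_inf.2 ⟨?_, ?_⟩
      · rw [e2]; exact L₁.mul_mem nb (L₁.inv_mem ha)
      · rw [e1]; exact L₂.mul_mem (L₂.inv_mem na) hb

end Cfsg.Agent.S3210
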