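import Cfsg.Statements.S3213
import Cfsg.Agent.GS.Mk1

set_option autoImplicit false
open Cfsg

namespace Cfsg.Agent.S3213

section
open Finset Pointwise Cfsg.Agent.St Cfsg.Agent.H6

set_option maxRecDepth 100000
open Matrix Module
theorem dec5 : ∀ a b c d : ZMod 5, !![a, b; c, d] ^ 3 = 1 → !![a, b; c, d] ≠ 1 → ∃ t : ZMod 5,
    ((!![a, b; c, d] * (!![1, t; 0, 1] * !![a, b; c, d] * !![1, -t; 0, 1])) ^ 2) ^ 5 = 1 ∧
    (!![a, b; c, d] * (!![1, t; 0, 1] * !![a, b; c, d] * !![1, -t; 0, 1])) ^ 2 ≠ 1 := by decide +kernel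

theorem ex5 (x : SpecialLinearGroup (Fin 2) (ZMod 5)) (h3 : x ^ 3 = 1) (h1 : x ≠ 1) :
    ∃ g : SpecialLinearGroup (Fin 2) (ZMod 5), ((x * (g * x * g⁻¹)) ^ 2) ^ 5 = 1 ∧ (x * (g * x * g⁻¹)) ^ 2 ≠ 1 := by
  have e : x.1 = !![x.1 0 0, x.1 0 1; x.1 1 0, x.1 1 1] := eta_fin_two _
  obtain ⟨t, a, b⟩ := dec5 _ _ _ _ (e ▸ congrArg Subtype.val h3) (e ▸ fun h => h1 (Subtype.ext h))
  rw [← e] at a b
  let g : SpecialLinearGroup (Fin 2) (ZMod 5) := ⟨!![1, t; 0, 1], by simp [det_fin_two]⟩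
  have hg : (g⁻¹).1 = !![1, -t; 0, 1] := by
    rw [SpecialLinearGroup.SL2_inv_expl]; simp [g]; rfl
  haveI : Fact (Nat.Prime 5) := ⟨by norm_num⟩
  have hm : slToMat 2 (ZMod 5) ((x * (g * x * g⁻¹)) ^ 2) = (x.1 * (!![1, t; 0, 1] * x.1 * !![1, -t; 0, 1])) ^ 2 := by
    rw [map_pow, map_mul, map_mul, map_mul, ← hg]; rfl
  rw [← hm] at a b
  rw [← map_pow, map_eq_one_iff _ slToMat_inj] at a
  exact ⟨g, a, fun h => b (by rw [h, map_one])⟩

theorem fix_le {F : Type*} [Field F] [Fintype F] (hF : Fintype.card F = 3) {G : Type*} [Group G]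
    (ρ : G →* Matrix (Fin 2 ⊕ Fin 2) (Fin 2 ⊕ Fin 2) F) (hρ : Function.Injective ρ) {x g : G}
    (h5 : ((x * (g * x * g⁻¹)) ^ 2) ^ 5 = 1) (h1 : (x * (g * x * g⁻¹)) ^ 2 ≠ 1) :
    finrank F (LinearMap.ker (toLin' (ρ x) - LinearMap.id)) ≤ 2 := by
  classical
  by_contra hc
  have mem : ∀ a v, v ∈ LinearMap.ker (toLin' (ρ a) - LinearMap.id) ↔ ρ a *ᵥ v = v := fun a v => by
    simp [LinearMap.mem_ker, sub_eq_zero]
  have mul : ∀ a b v, ρ (a * b) *ᵥ v = ρ a *ᵥ (ρ b *ᵥ v) := fun a b v => by rw [map_mul, mulVec_mulVec]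
  have d4 : finrank F (Fin 2 ⊕ Fin 2 → F) = 4 := by simp
  have a1 : finrank F (LinearMap.ker (toLin' (ρ x) - LinearMap.id)) ≤
      finrank F (LinearMap.ker (toLin' (ρ (g * x * g⁻¹)) - LinearMap.id)) := by
    refine LinearMap.finrank_le_finrank_of_injective (f := (toLin' (ρ g)).restrict fun v hv => (mem _ _).2 ?_) fun v w e => ?_
    · rw [toLin'_apply, ← mul, inv_mul_cancel_right, mul, (mem _ _).1 hv]
    · have : ρ g *ᵥ v.1 = ρ g *ᵥ w.1 := congrArg Subtype.val e
      have := congrArg (fun u => ρ g⁻¹ *ᵥ u) this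
      simp only [← mul, inv_mul_cancel, map_one, one_mulVec] at this
      exact Subtype.ext this
  have a2 := Submodule.finrank_sup_add_finrank_inf_eq (LinearMap.ker (toLin' (ρ x) - LinearMap.id))
    (LinearMap.ker (toLin' (ρ (g * x * g⁻¹)) - LinearMap.id))
  have a3 := Submodule.finrank_le (LinearMap.ker (toLin' (ρ x) - LinearMap.id) ⊔ LinearMap.ker (toLin' (ρ (g * x * g⁻¹)) - LinearMap.id))
  have a4 := Submodule.finrank_mono (show LinearMap.ker (toLin' (ρ x) - LinearMap.id) ⊓ LinearMap.ker (toLin' (ρ (g * x * g⁻¹)) - LinearMap.id) ≤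
      LinearMap.ker (toLin' (ρ ((x * (g * x * g⁻¹)) ^ 2)) - LinearMap.id) from fun v hv => (mem _ _).2 (by
    have : ρ (x * (g * x * g⁻¹)) *ᵥ v = v := by rw [mul, (mem _ _).1 hv.2, (mem _ _).1 hv.1]
    rw [pow_two, mul, this, this]))
  generalize (x * (g * x * g⁻¹)) ^ 2 = y at h5 h1 a4
  letI : MulAction G (Fin 2 ⊕ Fin 2 → F) :=
    { smul := fun a v => ρ a *ᵥ v
      one_smul := fun v => by show ρ 1 *ᵥ v = v; rw [map_one, one_mulVec]
      mul_smul := mul }
  haveI : Fact (Nat.Prime 5) := ⟨by norm_num⟩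
  have hp : IsPGroup 5 (Subgroup.zpowers y) := IsPGroup.of_card (n := 1) (by rw [Nat.card_zpowers, orderOf_eq_prime h5 h1, pow_one])
  have b1 := hp.card_modEq_card_fixedPoints (Fin 2 ⊕ Fin 2 → F)
  have b2 : Nat.card (MulAction.fixedPoints (Subgroup.zpowers y) (Fin 2 ⊕ Fin 2 → F)) =
      Nat.card (LinearMap.ker (toLin' (ρ y) - LinearMap.id)) := Nat.card_congr (Equiv.subtypeEquivRight fun v => by
    rw [mem]
    exact ⟨fun h => h ⟨y, Subgroup.mem_zpowers y⟩, fun h a =>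
      (Subgroup.zpowers_le.2 (show y ∈ MulAction.stabilizer G v from h) a.2 : a.1 ∈ MulAction.stabilizer G v)⟩)
  have cF : Nat.card F = 3 := by rw [Nat.card_eq_fintype_card, hF]
  rw [b2, Module.natCard_eq_pow_finrank (K := F) (V := Fin 2 ⊕ Fin 2 → F),
    Module.natCard_eq_pow_finrank (K := F) (V := LinearMap.ker (toLin' (ρ y) - LinearMap.id)), d4, cF] at b1
  have a5 := Submodule.finrank_le (LinearMap.ker (toLin' (ρ y) - LinearMap.id))
  have a6 : finrank F (LinearMap.ker (toLin' (ρ y) - LinearMap.id)) = 4 := by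
    generalize finrank F (LinearMap.ker (toLin' (ρ y) - LinearMap.id)) = e at *
    have : e = 2 ∨ e = 3 ∨ e = 4 := by omega
    rcases this with rfl | rfl | rfl
    · exact absurd b1 (by decide)
    · exact absurd b1 (by decide)
    · rfl
  have a7 := Submodule.eq_top_of_finrank_eq (a6.trans d4.symm)
  refine h1 (hρ ?_)
  rw [map_one]
  exact toLin'.injective (LinearMap.ext fun v => by
    rw [toLin'_apply, toLin'_apply, one_mulVec]; exact (mem _ _).1 (a7 ▸ Submodule.mem_top))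

theorem fin2 {F : Type*} [Field F] (h3 : (3 : F) = 0) (X : Matrix (Fin 2 ⊕ Fin 2) (Fin 2 ⊕ Fin 2) F) (hX : Xᵀ * J (Fin 2) F * X = J (Fin 2) F)
    (hX3 : X * X * X = 1) (hk : finrank F (LinearMap.ker (toLin' X - LinearMap.id)) ≤ 2) :
    finrank F (LinearMap.ker (toLin' X - LinearMap.id)) = 2 ∧
      ∀ v w : Fin 2 ⊕ Fin 2 → F, X *ᵥ v = v → X *ᵥ w = w → v ⬝ᵥ (J (Fin 2) F *ᵥ w) = 0 := by
  have d4 : finrank F (Fin 2 ⊕ Fin 2 → F) = 4 := by simp
  obtain ⟨B, hB⟩ : ∃ B : (Fin 2 ⊕ Fin 2 → F) → (Fin 2 ⊕ Fin 2 → F) → F, ∀ v w, B v w = v ⬝ᵥ (J (Fin 2) F *ᵥ w) := ⟨_, fun _ _ => rfl⟩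
  have inv : ∀ v w, B (X *ᵥ v) (X *ᵥ w) = B v w := fun v w => by
    rw [hB, hB, ← vecMul_transpose, ← dotProduct_mulVec, mulVec_mulVec, mulVec_mulVec, hX]
  have asym : ∀ v w, B v w = -B w v := fun v w => by
    rw [hB, hB, dotProduct_mulVec, dotProduct_comm, ← mulVec_transpose, J_transpose, neg_mulVec, dotProduct_neg]
  have x3 : ∀ v, X *ᵥ (X *ᵥ (X *ᵥ v)) = v := fun v => by rw [mulVec_mulVec, mulVec_mulVec, hX3, one_mulVec]
  set N := toLin' X - LinearMap.id with hN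
  have nv : ∀ v, N v = X *ᵥ v - v := fun v => by simp [hN]
  have t3 : ∀ v : Fin 2 ⊕ Fin 2 → F, v + v + v = 0 := fun v => by
    funext i; simp only [Pi.add_apply, Pi.zero_apply]; linear_combination v i * h3
  have n2 : ∀ v, N (N v) = X *ᵥ (X *ᵥ v) + X *ᵥ v + v := fun v => by
    rw [nv, nv, mulVec_sub]; linear_combination (exp := 1) -t3 (X *ᵥ v)
  have n3 : ∀ v, N (N (N v)) = 0 := fun v => by
    rw [nv, n2, mulVec_add, mulVec_add, x3]; abel
  have sa : ∀ v w, B (N (N v)) w = -B (N (N w)) v := fun v w => by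
    have e1 := inv v (X *ᵥ (X *ᵥ w))
    have e2 := inv (X *ᵥ v) (X *ᵥ (X *ᵥ w))
    have e3 := inv v (X *ᵥ w)
    rw [x3] at e1 e2
    rw [← asym, n2, n2]
    simp only [hB, add_dotProduct, mulVec_add, dotProduct_add] at *
    linear_combination e1 + e2 + e3
  have rk := LinearMap.finrank_range_add_finrank_ker N
  have z : ∀ v, N (N v) = 0 := by
    by_cases hr : finrank F (LinearMap.range (N ∘ₗ N)) ≤ 1
    · obtain ⟨u, hu⟩ := finrank_le_one_iff.1 hr
      intro v
      obtain ⟨a, ha⟩ := hu ⟨_, v, rfl⟩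
      have ha' : a • u.1 = N (N v) := congrArg Subtype.val ha
      by_cases a0 : a = 0
      · rw [← ha', a0, zero_smul]
      have s1 := sa v v
      have s2 : B u.1 v = 0 := by
        rw [← ha', hB, smul_dotProduct, ← hB, smul_eq_mul] at s1
        exact (mul_eq_zero.1 (by linear_combination -s1 + a * B u.1 v * h3)).resolve_left a0
      funext i
      obtain ⟨b, hb⟩ := hu ⟨_, J (Fin 2) F *ᵥ Pi.single i 1, rfl⟩
      have hb' : b • u.1 = N (N (J (Fin 2) F *ᵥ Pi.single i 1)) := congrArg Subtype.val hb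
      have s3 := sa v (J (Fin 2) F *ᵥ Pi.single i 1)
      rw [← hb', hB (b • u.1), smul_dotProduct, ← hB, s2, hB, mulVec_mulVec, J_squared, neg_mulVec, one_mulVec, dotProduct_neg,
        dotProduct_single_one, smul_zero, neg_zero] at s3
      exact neg_eq_zero.1 s3
    · have l1 : LinearMap.range (N ∘ₗ N) ≤ LinearMap.ker N := by rintro _ ⟨v, rfl⟩; exact n3 v
      have l2 : LinearMap.range (N ∘ₗ N) ≤ LinearMap.range N := LinearMap.range_comp_le_range _ _
      have := Submodule.finrank_mono l1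
      have e1 := Submodule.eq_of_le_of_finrank_le l2 (by omega)
      exact fun v => l1 (e1 ▸ ⟨v, rfl⟩)
  have l3 : LinearMap.range N ≤ LinearMap.ker N := by rintro _ ⟨v, rfl⟩; exact z v
  have := Submodule.finrank_mono l3
  refine ⟨by omega, fun v w hv hw => ?_⟩
  obtain ⟨u, rfl⟩ := (Submodule.eq_of_le_of_finrank_le l3 (by omega)).ge (show v ∈ LinearMap.ker N by
    rw [LinearMap.mem_ker, nv, hv, sub_self])
  have := inv u w
  rw [hw, hB, hB] at this
  rw [nv, sub_dotProduct, this, sub_self]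

end

/-- Let F be the field with 3 elements and K the field with 5 elements. For every injective homomorphism φ from SL₂(K) into the symplectic group Sp₄(F) (4 × 4 matrices g with g J gᵀ = J for the standard alternating matrix J) and every element x of order 3 of SL₂(K), the vectors of F⁴ fixed by φ(x) form a 2-dimensional subspace that is totally isotropic for the alternating form defined by J. -/
theorem result {F : Type*} [Field F] [Fintype F] (hF : Fintype.card F = 3)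
    {K : Type*} [Field K] [Fintype K] (hK : Fintype.card K = 5)
    (φ : Matrix.SpecialLinearGroup (Fin 2) K →* ↥(Matrix.symplecticGroup (Fin 2) F)) (hφ : Function.Injective φ)
    (x : Matrix.SpecialLinearGroup (Fin 2) K) (hx : orderOf x = 3) :
    Module.finrank F ↥(LinearMap.ker (Matrix.toLin' ((φ x : Matrix (Fin 2 ⊕ Fin 2) (Fin 2 ⊕ Fin 2) F)) - LinearMap.id)) = 2 ∧
      ∀ v w : Fin 2 ⊕ Fin 2 → F, (φ x : Matrix (Fin 2 ⊕ Fin 2) (Fin 2 ⊕ Fin 2) F).mulVec v = v →
        (φ x : Matrix (Fin 2 ⊕ Fin 2) (Fin 2 ⊕ Fin 2) F).mulVec w = w →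
          dotProduct v ((Matrix.J (Fin 2) F).mulVec w) = 0 := by
  open Finset Pointwise Cfsg.Agent.St Cfsg.Agent.H6 in focus
    haveI : Fact (Nat.Prime 5) := ⟨by norm_num⟩
    let e : ZMod 5 ≃+* K := ZMod.ringEquivOfPrime K (by norm_num) hK
    have i1 : ∀ y, Matrix.SpecialLinearGroup.map (n := Fin 2) (e : ZMod 5 →+* K) (Matrix.SpecialLinearGroup.map (e.symm : K →+* ZMod 5) y) = y :=
      fun y => Subtype.ext (by ext i j; simp)
    have i2 : Function.Injective (Matrix.SpecialLinearGroup.map (n := Fin 2) (e : ZMod 5 →+* K)) := fun a b h =>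
      Subtype.ext (by ext i j; exact e.injective (congrFun (congrFun (congrArg Subtype.val h) i) j))
    have h3 : x ^ 3 = 1 := hx ▸ pow_orderOf_eq_one x
    obtain ⟨g, a, b⟩ := ex5 (Matrix.SpecialLinearGroup.map (e.symm : K →+* ZMod 5) x) (by rw [← map_pow, h3, map_one]) fun h => by
      have := i1 x
      rw [h, map_one] at this
      rw [← this, orderOf_one] at hx; omega
    have k := fix_le hF ((Matrix.symplecticGroup (Fin 2) F).subtype.comp (φ.comp (Matrix.SpecialLinearGroup.map (e : ZMod 5 →+* K))))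
      (Subtype.val_injective.comp (hφ.comp i2)) a b
    rw [MonoidHom.comp_apply, MonoidHom.comp_apply, i1] at k
    haveI : CharP F 3 := charP_of_card (k := 1) Nat.prime_three hF
    refine fin2 (CharP.cast_eq_zero F 3) _ (SymplecticGroup.mem_iff'.1 (φ x).2) ?_ k
    have := congrArg (fun y => (φ y).1) h3
    simpa [pow_succ] using this

end Cfsg.Agent.S3213
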