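import Cfsg.Statements.S3215
import Cfsg.Agent.L.Frob2
import Cfsg.Agent.L.Fitting
import Cfsg.Agent.L.Cores
import Cfsg.Agent.H1.Frattini
import Cfsg.Agent.S0028

set_option autoImplicit false
open Cfsg

namespace Cfsg.Agent.S3215

open Cfsg.Agent
open Subgroup

theorem lemA {H : Type*} [Group H] [Finite H] (hsol : Group.IsSolvable H)
    (hO : Cfsg.oddCore H = ⊥)
    (hI : ∀ t : H, orderOf t = 2 → Cfsg.HasNormalPComplement 2 ↥(Subgroup.centralizer ({t} : Set H)))
    {x t : H} (hx : Odd (orderOf x)) (ht : orderOf t = 2) (hc : Commute x t) : x = 1 := by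
  obtain ⟨P, K, hK, hKP⟩ := hI t ht
  have hxC : x ∈ centralizer ({t} : Set H) := mem_centralizer_singleton_iff.2 hc.eq
  obtain ⟨k, hk⟩ := IsPGroup.iff_card.mp P.isPGroup'
  have hxK : (⟨x, hxC⟩ : centralizer ({t} : Set H)) ∈ K := L.mem_of_coprime_index (by
    rw [orderOf_mk, hKP.symm.index_eq_card, hk]
    exact (Nat.coprime_two_right.mpr hx).pow_right k)
  have hKo : (Nat.card K).Coprime 2 := by
    rw [← hKP.index_eq_card]
    exact ((Nat.Prime.coprime_iff_not_dvd Nat.prime_two).mpr P.not_dvd_index).symm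
  have hY : IsPGroup 2 ((pCore 2 H).subgroupOf (centralizer ({t} : Set H))) := (L.pCore_isPGroup 2 H).comap_subtype
  have h0 : K ≤ centralizer (((pCore 2 H).subgroupOf (centralizer ({t} : Set H)) : Subgroup _) : Set _) :=
    L.le_centralizer_of_coprime le_normalizer_of_normal le_normalizer_of_normal
      (L.coprime_card_of_isPGroup Nat.prime_two hY hKo).symm
  have h1 : zpowers x ≤ centralizer (pCore 2 H : Set H) := by
    refine Cfsg.Agent.S0028.result 2 (zpowers t) (zpowers x) (pCore 2 H)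
      (IsPGroup.of_card (n := 1) (by rw [Nat.card_zpowers, ht, pow_one]))
      (by rw [Nat.card_zpowers]; exact Nat.coprime_two_right.mpr hx) (L.pCore_isPGroup 2 H) ?_
      le_normalizer_of_normal le_normalizer_of_normal ?_
    · rw [zpowers_le, mem_centralizer_iff]
      rintro _ ⟨n, rfl⟩
      exact (hc.zpow_left n).eq
    · rintro y ⟨hy1, hy2⟩
      have hyC : y ∈ centralizer ({t} : Set H) :=
        mem_centralizer_singleton_iff.2 (mem_centralizer_iff.1 hy2 t (mem_zpowers t)).symm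
      have h2 : Commute x y := (congrArg Subtype.val (mem_centralizer_iff.1 (h0 hxK) ⟨y, hyC⟩ hy1)).symm
      rw [mem_centralizer_iff]
      rintro _ ⟨n, rfl⟩
      exact (h2.zpow_left n).eq
  have h3 : x ∈ pCore 2 H := L.centralizer_pCore_le Nat.prime_two hO (h1 (mem_zpowers x))
  obtain ⟨j, hj⟩ := IsPGroup.iff_orderOf.mp (L.pCore_isPGroup 2 H) ⟨x, h3⟩
  rw [orderOf_mk] at hj
  rw [← orderOf_eq_one_iff]
  rcases j with _ | j
  · exact hj
  · exact absurd (hj ▸ hx) (by simp [Nat.odd_pow_iff])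

theorem lemD {G : Type*} [Group G] [Finite G] {N X : Subgroup G} [N.Normal] (h : (Nat.card N).Coprime X.index) : N ≤ X := by
  have h1 := L.card_sup_mul_card_inf (H := X) (N := N) le_normalizer_of_normal
  rw [← L.card_mul_relIndex (le_sup_left : X ≤ X ⊔ N), mul_assoc] at h1
  have h2 := Nat.eq_of_mul_eq_mul_left Nat.card_pos h1
  have h3 : X.relIndex (X ⊔ N) = 1 :=
    Nat.eq_one_of_dvd_coprimes h (Dvd.intro _ h2) (relIndex_dvd_index_of_le le_sup_left)
  exact le_sup_right.trans (relIndex_eq_one.mp h3)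

/-- Let H be a finite solvable group with no nontrivial normal subgroup of odd order in which the centralizer of every involution has a normal 2-complement. Let X be a Hall 2'-subgroup of H (odd order, index a power of 2) and Y = O₂(H). Then no non-identity element of X commutes with a non-identity element of Y (so for X ≠ 1 the group XY is a Frobenius group with kernel Y), every Sylow subgroup of X is cyclic, XY is normal in H, and H/XY is a cyclic 2-group. -/
theorem result {H : Type*} [Group H] [Finite H] (hsol : Group.IsSolvable H)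
    (hO : Cfsg.oddCore H = ⊥)
    (hI : ∀ t : H, orderOf t = 2 → Cfsg.HasNormalPComplement 2 ↥(Subgroup.centralizer ({t} : Set H)))
    (X : Subgroup H) (hXodd : Odd (Nat.card X)) (hXidx : ∃ k : ℕ, X.index = 2 ^ k) :
    (∀ x ∈ X, x ≠ 1 → ∀ y ∈ Cfsg.pCore 2 H, y ≠ 1 → x * y ≠ y * x) ∧
      (∀ (p : ℕ) [Fact p.Prime] (P : Sylow p ↥X), IsCyclic ↥(P : Subgroup ↥X)) ∧
      (X ⊔ Cfsg.pCore 2 H).Normal ∧
      ∀ hN : (X ⊔ Cfsg.pCore 2 H).Normal, IsCyclic (H ⧸ (X ⊔ Cfsg.pCore 2 H)) ∧ IsPGroup 2 (H ⧸ (X ⊔ Cfsg.pCore 2 H)) := by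
  have hA : ∀ {x t : H}, Odd (orderOf x) → orderOf t = 2 → Commute x t → x = 1 := fun hx ht hc => lemA hsol hO hI hx ht hc
  have hC : ∀ (g : H) (r : ℕ), r.Prime → r ≠ 2 → ¬ 2 * r ∣ orderOf g := fun g r hr hr2 hd => by
    have h0 := (orderOf_pos g).ne'
    have h1 := orderOf_pow_orderOf_div h0 ((Dvd.intro _ rfl).trans hd)
    have h2 := orderOf_pow_orderOf_div h0 ((Dvd.intro_left _ rfl).trans hd)
    have h3 := hA (h2.symm ▸ hr.odd_of_ne_two hr2) h1 (Commute.pow_pow_self g _ _)
    rw [h3, orderOf_one] at h2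
    exact hr.one_lt.ne h2
  have h1 : ∀ x ∈ X, x ≠ 1 → ∀ y ∈ Cfsg.pCore 2 H, y ≠ 1 → x * y ≠ y * x := fun x hx hx1 y hy hy1 hc => by
    obtain ⟨j, hj⟩ := IsPGroup.iff_orderOf.mp (L.pCore_isPGroup 2 H) ⟨y, hy⟩
    rw [orderOf_mk] at hj
    have h2 : 2 ∣ orderOf y := by
      rcases j with _ | j
      · exact absurd (orderOf_eq_one_iff.mp hj) hy1
      · rw [hj]; exact dvd_pow_self 2 (by omega)
    exact hx1 (hA (hXodd.of_dvd_nat (X.orderOf_dvd_natCard hx)) (orderOf_pow_orderOf_div (orderOf_pos y).ne' h2)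
      (Commute.pow_right hc _))
  have hZ : IsZGroup X := by
    by_cases hY : pCore 2 H = ⊥
    · have h2 := L.centralizer_pCore_le Nat.prime_two hO
      rw [hY] at h2
      have h3 : ∀ g : H, g = 1 := fun g => mem_bot.mp (h2 (mem_centralizer_iff.mpr fun h hh => by
        rw [mem_bot.mp hh]; simp))
      haveI : Subsingleton H := ⟨fun a b => (h3 a).trans (h3 b).symm⟩
      infer_instance
    · refine L.FPF.isZGroup_of_odd (K := pCore 2 H) (fun x hx hx1 => ?_) le_normalizer_of_normal hY hXodd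
      rw [eq_bot_iff]
      rintro y ⟨hy1, hy2⟩
      by_contra h4
      exact h1 x hx hx1 y hy1 h4 (mem_centralizer_singleton_iff.1 hy2).symm
  obtain ⟨k, hk⟩ := hXidx
  obtain ⟨C, hCn, hCc, hCle⟩ : ∃ (C : Subgroup H) (_ : C.Normal), IsCyclic (H ⧸ C) ∧ C ≤ X ⊔ pCore 2 H := by
    rcases subsingleton_or_nontrivial (H ⧸ pCore 2 H) with hs | hs
    · exact ⟨pCore 2 H, inferInstance, inferInstance, le_sup_right⟩
    obtain ⟨N, r, hN, hN1, -, hr, hE, -⟩ := H1.exists_minimal_normal_elementary (⊤ : Subgroup (H ⧸ pCore 2 H)) top_ne_bot inferInstance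
    haveI := Fact.mk hr
    have hNp : IsPGroup r N := fun g => ⟨1, Subtype.ext (by simpa using hE.2 g g.2)⟩
    have hr2 : r ≠ 2 := by
      rintro rfl
      exact hN1 (le_bot_iff.mp (L.pCore_quotient_eq_bot 2 H ▸ L.le_pCore hNp))
    have hidx : ∀ M : Subgroup (H ⧸ pCore 2 H), M.Normal → ¬ 2 ∣ Nat.card M → M ≤ X.map (QuotientGroup.mk' _) := fun M _ hM =>
      lemD (Nat.Coprime.of_dvd_right (X.index_map_dvd (QuotientGroup.mk'_surjective _))
        (hk ▸ (((Nat.Prime.coprime_iff_not_dvd Nat.prime_two).mpr hM).symm.pow_right k)))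
    obtain ⟨j, hj⟩ := IsPGroup.iff_card.mp hNp
    have hNX := hidx N hN (fun h => hr2 ((Nat.prime_dvd_prime_iff_eq Nat.prime_two hr).mp
      (Nat.prime_two.dvd_of_dvd_pow (hj ▸ h))).symm)
    haveI : IsZGroup (X.map (QuotientGroup.mk' (pCore 2 H))) := IsZGroup.of_surjective (MonoidHom.subgroupMap_surjective _ X)
    haveI : IsZGroup N := IsZGroup.of_injective (inclusion_injective hNX)
    haveI : IsCyclic (⊤ : Subgroup N) := (hNp.to_subgroup ⊤).isCyclic_of_isZGroup
    haveI : IsCyclic N := isCyclic_of_surjective _ (topEquiv (G := N)).surjective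
    have hcard : Nat.card N = r := by
      rw [← IsCyclic.exponent_eq_card]
      haveI := (nontrivial_iff_ne_bot N).mpr hN1
      exact (Nat.dvd_prime hr).mp (Monoid.exponent_dvd_of_forall_pow_eq_one fun g => Subtype.ext (by simpa using hE.2 g g.2)) |>.resolve_left
        Monoid.one_lt_exponent.ne'
    haveI : IsCyclic (MulAut N) := (IsCyclic.mulAutMulEquiv N).isCyclic.2 (ZMod.isCyclic_units_prime (hcard ▸ hr))
    let φ : H ⧸ pCore 2 H →* MulAut N := MulAut.conjNormal
    refine ⟨(φ.comp (QuotientGroup.mk' _)).ker, inferInstance,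
      (QuotientGroup.quotientKerEquivRange _).isCyclic.2 inferInstance, ?_⟩
    have h5 := hidx φ.ker inferInstance (fun h => by
      obtain ⟨u, hu⟩ := exists_prime_orderOf_dvd_card' (G := φ.ker) 2 h
      obtain ⟨w, hw⟩ := exists_prime_orderOf_dvd_card' (G := N) r (hcard ▸ dvd_rfl)
      rw [← orderOf_coe] at hu hw
      have h6 : Commute (u : H ⧸ pCore 2 H) w := by
        have := congrArg Subtype.val (MulEquiv.congr_fun (MonoidHom.mem_ker.mp u.2) w)
        simp only [φ, MulAut.conjNormal_apply, MulAut.one_apply] at this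
        exact mul_inv_eq_iff_eq_mul.mp this
      obtain ⟨g, hg⟩ := QuotientGroup.mk'_surjective _ ((u : H ⧸ pCore 2 H) * (w : H ⧸ pCore 2 H))
      refine hC g r hr hr2 ?_
      rw [← hu, ← hw, ← h6.orderOf_mul_eq_mul_orderOf_of_coprime, ← hg]
      · exact orderOf_map_dvd _ g
      · rw [hu, hw]; exact (Nat.coprime_primes Nat.prime_two hr).mpr hr2.symm)
    have h7 := comap_mono (f := QuotientGroup.mk' (pCore 2 H)) h5
    rwa [comap_map_eq, QuotientGroup.ker_mk'] at h7
  refine ⟨h1, fun p hp P => IsZGroup.isZGroup p hp.out P, ⟨fun n hn g => ?_⟩, fun hN => ⟨?_, ?_⟩⟩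
  · have h8 : g * n * g⁻¹ * n⁻¹ ∈ C := by
      rw [← QuotientGroup.eq_one_iff]
      letI := IsCyclic.commGroup (α := H ⧸ C)
      simp [mul_comm (g : H ⧸ C)]
    simpa using mul_mem (hCle h8) hn
  · refine isCyclic_of_surjective (QuotientGroup.map C (X ⊔ pCore 2 H) (MonoidHom.id H) hCle) fun q => ?_
    obtain ⟨g, rfl⟩ := QuotientGroup.mk_surjective q
    exact ⟨g, rfl⟩
  · obtain ⟨j, -, hj⟩ := (Nat.dvd_prime_pow Nat.prime_two).mp (hk ▸ index_dvd_of_le (le_sup_left : X ≤ X ⊔ pCore 2 H))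
    exact IsPGroup.of_card hj

end Cfsg.Agent.S3215
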