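import Cfsg.Statements.S3225
import Mathlib
import Cfsg.Agent.H2.Two2

set_option autoImplicit false
open Cfsg

namespace Cfsg.Agent.S3225

open Cfsg.Agent.H2 Subgroup

/-- Let G be a finite group of even order with no subgroup of index 2, S a Sylow 2-subgroup of G and M a subgroup of index 2 in S such that, for some n ≥ 1, every element of S outside M has order greater than 2^(n−1). Then every element of S of order 2ⁿ is conjugate in G to an element of M. -/
theorem result {G : Type*} [Group G] [Finite G] (hev : Even (Nat.card G))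
    (hG : ∀ H : Subgroup G, H.index ≠ 2) (S : Sylow 2 G) (M : Subgroup G) (hMS : M ≤ (S : Subgroup G)) (hM : M.relIndex (S : Subgroup G) = 2)
    (n : ℕ) (hn : 1 ≤ n) (hord : ∀ y ∈ (S : Subgroup G), y ∉ M → 2 ^ (n - 1) < orderOf y)
    (x : G) (hx : x ∈ (S : Subgroup G)) (hxn : orderOf x = 2 ^ n) :
    ∃ g : G, g * x * g⁻¹ ∈ M := by
  by_contra hc
  push Not at hc
  obtain ⟨m, rfl⟩ : ∃ m, n = m + 1 := ⟨n - 1, by omega⟩
  have hx1 : x ^ 2 ^ (m + 1) = 1 := hxn ▸ pow_orderOf_eq_one x
  obtain ⟨N, -, -, h1, h2⟩ := not_mem_of_transfer (p := 2) (commutator_le_of_relIndex_two hM)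
    S.not_dvd_index hx (by simpa using hc 1) (j := m + 1) (hx1 ▸ one_mem _) (fun k a ha => by
      rcases Nat.even_or_odd k with ⟨j, rfl⟩ | hk
      · have key : ∀ y ∈ (S : Subgroup G), y ^ 2 ^ m = 1 → y ∈ M := fun y hy h => by
          by_contra h'
          exact (hord y hy h').not_ge (Nat.le_of_dvd (by positivity) (orderOf_dvd_of_pow_eq_one h))
        have h3 : (x ^ (j + j)) ^ 2 ^ m = 1 := by
          rw [← pow_mul, show (j + j) * 2 ^ m = 2 ^ (m + 1) * j by ring, pow_mul, hx1, one_pow]
        exact mul_mem (key _ ha (by rw [conj_pow, h3]; simp)) (inv_mem (key _ (pow_mem hx _) h3))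
      · have key : ∀ a : G, a * x ^ k * a⁻¹ ∉ M := fun a h => hc a (mem_of_zpow_odd (j := m + 1)
          (i := k) (by rw [conj_pow, hx1]; simp) (by exact_mod_cast hk) (by rwa [zpow_natCast, conj_pow]))
        exact mul_mem_of_relIndex_two hM ha (inv_mem (pow_mem hx k)) (key a)
          (fun h => key 1 (by simpa using h)))
  rw [hM] at h1
  rcases (Nat.dvd_prime Nat.prime_two).1 h1 with e | e
  · exact h2 (index_eq_one.1 e ▸ mem_top x)
  · exact hG N e

end Cfsg.Agent.S3225
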