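import Cfsg.Statements.S3246
import Mathlib
import Cfsg.Agent.H2.Loc3
import Cfsg.Agent.H2.Two

set_option autoImplicit false
open Cfsg

namespace Cfsg.Agent.S3246

open Cfsg.Agent.H2 Cfsg.Agent.H8 Subgroup
open scoped commutatorElement

/-- Let G be a finite group whose Sylow 2-subgroup S has a self-centralizing normal subgroup of rank at least 3. Suppose that either every maximal 2-local subgroup of G is 2-constrained with no nontrivial normal subgroup of odd order, or the centralizer of every involution of G is 2-constrained with no nontrivial normal subgroup of odd order. Then S normalizes no nontrivial subgroup of G of odd order and every 2-local subgroup of G is 2-constrained. -/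
theorem result {G : Type*} [Group G] [Finite G]
    (S : Sylow 2 G) (A : Subgroup G) (hA : Cfsg.IsSCN (S : Subgroup G) A) (hA3 : ¬ Cfsg.PRankLE 2 2 ↥A)
    (h : (∀ M : Subgroup G, Cfsg.IsMaximalTwoLocal M → Cfsg.IsPConstrained 2 ↥M ∧ Cfsg.oddCore ↥M = ⊥) ∨
      (∀ t : G, orderOf t = 2 → Cfsg.IsPConstrained 2 ↥(Subgroup.centralizer ({t} : Set G)) ∧
        Cfsg.oddCore ↥(Subgroup.centralizer ({t} : Set G)) = ⊥)) :
    (∀ X : Subgroup G, Odd (Nat.card ↥X) → (S : Subgroup G) ≤ Subgroup.normalizer (X : Set G) → X = ⊥) ∧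
      (∀ T : Subgroup G, IsPGroup 2 ↥T → T ≠ ⊥ → Cfsg.IsPConstrained 2 ↥(Subgroup.normalizer (T : Set G))) := by
  have h2 : ∀ t : G, orderOf t = 2 → CP 2 (centralizer ({t} : Set G)) := by
    intro t ht
    rcases h with h | h
    · obtain ⟨M, h1, hM⟩ := Finite.exists_le_maximal (p := fun M : Subgroup G => IsTwoLocal M)
        ⟨zpowers t, isPGroup_zp ht, fun e => by simp [zpowers_eq_bot.1 e] at ht, rfl⟩
      obtain ⟨h3, h4⟩ := h M ⟨hM.1, fun N hN h5 => le_antisymm (hM.2 hN h5) h5⟩
      have h5 : CP 2 M := Fs_eq_Op_of_PLay_Opp (constr_iff.1 h3) (map_subtype_eq_bot_iff.2 h4)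
      have h6 := h5.cent (isPGroup_zp ht) ((le_normalizer.trans h1).trans le_normalizer)
      rwa [inf_eq_right.2 ((centralizer_le_normalizer _).trans h1), centralizer_zpowers] at h6
    · exact Fs_eq_Op_of_PLay_Opp (constr_iff.1 (h t ht).1) (map_subtype_eq_bot_iff.2 (h t ht).2)
  refine ⟨fun X hX hn => ?_, fun T hT h1 => constr_iff.2 (PLay_normalizer_of_cent
    (fun x hx => (Fs_eq_Op_iff_PLay.1 (h2 x hx)).1) hT h1)⟩
  have hAc : ∀ a ∈ A, ∀ b ∈ A, a * b = b * a := fun a ha b hb => (hA.2.2.ge hb).2 a ha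
  haveI : (A.subgroupOf S).Normal := (normal_subgroupOf_iff_le_normalizer hA.1).2 hA.2.1
  haveI : IsMulCommutative (A.subgroupOf S) :=
    ⟨⟨fun a b => Subtype.ext (Subtype.ext (hAc _ a.2 _ b.2))⟩⟩
  have hnc : ¬ IsCyclic (A.subgroupOf S) := fun hc => hA3 (by
    haveI : IsCyclic A := isCyclic_of_surjective _ (subgroupOfEquivOfLe hA.1).surjective
    intro B _ hB
    haveI := Subgroup.isCyclic B
    have := IsCyclic.exponent_eq_card (α := B) ▸ Monoid.exponent_dvd_of_forall_pow_eq_one
      (G := B) (n := 2) fun b => Subtype.ext (hB b b.2)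
    exact (Nat.le_of_dvd two_pos this).trans (by norm_num))
  obtain ⟨E, hEn, -, hE, hE4⟩ := L.exists_normal_elementary_sq_le (G := (S : Subgroup G)) (p := 2)
    S.isPGroup' hnc
  have hV : IsElementaryAbelian 2 (E.map (S : Subgroup G).subtype) := isElementaryAbelian_map _ hE
  have hV4 : Nat.card (E.map (S : Subgroup G).subtype) = 2 ^ 2 := by rw [H8.card_map_subtype, hE4]
  have hVn := le_normalizer_map_subtype_of_normal E
  have hVS := map_subtype_le E
  generalize E.map (S : Subgroup G).subtype = V at *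
  have hX2 : (Nat.card X).Coprime 2 := hX.coprime_two_right
  refine le_bot_iff.1 (le_of_centralizers hV hV4.ge (hVS.trans hn) hX2 fun v hv hv1 => ?_)
  have hv2 : orderOf v = 2 := orderOf_eq_prime (hV.2 v hv) hv1
  have hi := H1.relIndex_centralizer_dvd_of_card_dvd_sq S.isPGroup' hV4.dvd hVn
  have hT : (S : Subgroup G) ⊓ centralizer (V : Set G) ≤ centralizer ({v} : Set G) :=
    inf_le_right.trans (centralizer_le (Set.singleton_subset_iff.2 hv))
  obtain ⟨R, hR, hTR⟩ := exists_sylIn_ge (S.isPGroup'.to_le inf_le_left) hT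
  have hQR : Op 2 (centralizer ({v} : Set G)) ≤ R := hR.normal_le (Op_isPGroup _ _) (Op_le _ _)
    (hR.le.trans (le_normalizer_Op _ _))
  have hi2 : ((S : Subgroup G) ⊓ centralizer (V : Set G)).relIndex R ≤ 2 := by
    have e1 := (card_eq_relIndex_mul hTR).symm
    have e2 := (card_eq_relIndex_mul (inf_le_left : (S : Subgroup G) ⊓ centralizer (V : Set G) ≤ S)).symm
    have e3 := (sylIn_top S).card_le hR.pgrp le_top
    rw [inf_relIndex_left] at e2
    have e4 := Nat.le_of_dvd two_pos hi
    have e5 : 0 < Nat.card ↥((S : Subgroup G) ⊓ centralizer (V : Set G)) := Nat.card_pos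
    refine Nat.le_of_mul_le_mul_right ?_ e5
    rw [e1]
    exact e3.trans (e2 ▸ Nat.mul_le_mul_right _ e4)
  have hYn : X ⊓ centralizer ({v} : Set G) ≤ normalizer (Op 2 (centralizer ({v} : Set G)) : Set G) :=
    inf_le_right.trans (le_normalizer_Op _ _)
  have hY2 : (Nat.card ↥(X ⊓ centralizer ({v} : Set G))).Coprime 2 := H8.coprime_of_le inf_le_left hX2
  have h3 : ((S : Subgroup G) ⊓ centralizer (V : Set G)) ⊓ Op 2 (centralizer ({v} : Set G)) ≤
      centralizer ((X ⊓ centralizer ({v} : Set G) : Subgroup G) : Set G) := by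
    refine commutator_eq_bot_iff_le_centralizer.1 (le_bot_iff.1 ?_)
    rw [← inf_eq_bot_of_pgroup_coprime (Op_isPGroup 2 (centralizer ({v} : Set G))) hY2]
    refine le_inf ((commutator_mono inf_le_right le_rfl).trans (commutator_le_left_of_norm hYn))
      (commutator_le_right_of_norm (le_normalizer_inf (inf_le_left.trans (inf_le_left.trans hn))
        (inf_le_left.trans (hT.trans le_normalizer))))
  have h4 := le_cent_of_relIndex_le_two hYn (H8.coprime_of_isPGroup (Op_isPGroup _ _) hY2)
    (le_trans (relIndex_le_of_le_left h3 FiniteIndex.index_ne_zero) (by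
      rw [inf_relIndex_right]
      exact (relIndex_le_of_le_right hQR FiniteIndex.index_ne_zero).trans hi2))
  exact (eq_bot_of_pgroup_coprime ((Op_isPGroup _ _).to_le
    ((h2 v hv2).le_Op inf_le_right (le_centralizer_iff.1 h4))) hY2).le

end Cfsg.Agent.S3246
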