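import Cfsg.Statements.S3261
import Mathlib
import Cfsg.Agent.H7.BSW4
import Cfsg.Agent.S0254

set_option autoImplicit false
open Cfsg

namespace Cfsg.Agent.S3261

open Cfsg.Agent.H7 Subgroup

open Equiv Equiv.Perm in
theorem cent0 : ∀ g : Perm (Fin 6), g * (swap 0 1 * swap 2 3) = (swap 0 1 * swap 2 3) * g → sign g = 1 →
    ∃ i : Fin 4, g = (swap 0 2 * swap 2 1 * swap 1 3 * swap 4 5) ^ i.1 ∨
      g = (swap 0 2 * swap 2 1 * swap 1 3 * swap 4 5) ^ i.1 * (swap 0 1 * swap 4 5) := by
  decide +kernel

open Equiv Equiv.Perm in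
theorem cent_A6 (a : alternatingGroup (Fin 6)) (h : orderOf a = 2)
    (hs : (a : Equiv.Perm (Fin 6)).support.card = 4) :
    Nonempty (centralizer ({a} : Set (alternatingGroup (Fin 6))) ≃* DihedralGroup 4) := by
  let a0 : alternatingGroup (Fin 6) := ⟨swap 0 1 * swap 2 3, mem_alternatingGroup.2 (by decide +kernel)⟩
  let x : alternatingGroup (Fin 6) := ⟨swap 0 2 * swap 2 1 * swap 1 3 * swap 4 5, mem_alternatingGroup.2 (by decide +kernel)⟩
  let y : alternatingGroup (Fin 6) := ⟨swap 0 1 * swap 4 5, mem_alternatingGroup.2 (by decide +kernel)⟩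
  have ox : orderOf x = 4 := orderOf_eq_prime_pow (p := 2) (n := 1) (by decide +kernel) (by decide +kernel)
  have e0 : centralizer ({a0} : Set (alternatingGroup (Fin 6))) = closure {x, y} := by
    refine le_antisymm (fun g hg => ?_) ((closure_le _).2 ?_)
    · have hx : x ∈ closure ({x, y} : Set _) := subset_closure (by simp)
      have hy : y ∈ closure ({x, y} : Set _) := subset_closure (by simp)
      obtain ⟨i, hi | hi⟩ := cent0 g (congrArg Subtype.val (mem_centralizer_singleton_iff.1 hg)) g.2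
      · exact (Subtype.ext hi : g = x ^ i.1) ▸ pow_mem hx _
      · exact (Subtype.ext hi : g = x ^ i.1 * y) ▸ mul_mem (pow_mem hx _) hy
    · rintro _ (rfl | rfl) <;> exact mem_centralizer_singleton_iff.2 (by decide +kernel)
  obtain ⟨f⟩ := H2.closure_equiv_dihedral (t := y) ox (by decide +kernel) (by decide +kernel) (by
    rw [mem_zpowers_iff_mem_range_orderOf, ox]; decide +kernel)
  have ct : ∀ b : Perm (Fin 6), orderOf b = 2 → b.support.card = 4 → b.cycleType = {2, 2} := fun b h1 h2 => by
    have h3 := cycleType_prime_order (σ := b) (h1 ▸ Nat.prime_two)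
    obtain ⟨n, hn⟩ := h3
    have := sum_cycleType b
    rw [hn, h1, h2, Multiset.sum_replicate, smul_eq_mul] at this
    rw [hn, h1, show n = 1 by omega]; rfl
  obtain ⟨g, hg⟩ := isConj_iff.1 (isConj_iff_cycleType_eq.2
    ((ct a ((Subgroup.orderOf_coe a).trans h) hs).trans (ct a0 (orderOf_eq_prime (by decide +kernel)
      (by decide +kernel)) (by decide +kernel)).symm))
  have e1 : MulAut.conjNormal g a = a0 := Subtype.ext hg
  refine ⟨(((MulAut.conjNormal g).subgroupMap _).trans (MulEquiv.subgroupCongr ?_)).trans f⟩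
  rw [← e0, ← e1]
  ext u
  obtain ⟨u, rfl⟩ := (MulAut.conjNormal (H := alternatingGroup (Fin 6)) g).surjective u
  rw [mem_centralizer_singleton_iff, ← map_mul, ← map_mul, (MulEquiv.injective _).eq_iff]
  exact (mem_map_iff_mem (MulEquiv.injective _)).trans mem_centralizer_singleton_iff

/-- Let α̃ be an involution of the alternating group A₆ that is a product of two disjoint transpositions (it lies in the centre of a Sylow 2-subgroup of A₆; its centralizer is dihedral of order 8). Let G be a finite group that has no subgroup of index 2 and contains an involution α, central in some Sylow 2-subgroup of G, with C_G(α) ≅ C_{A₆}(α̃). Then G is isomorphic to A₆ or to PSL₂(7). -/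
theorem result {G : Type*} [Group G] [Finite G]
    (hG : ∀ H : Subgroup G, H.index ≠ 2)
    (αt : ↥(alternatingGroup (Fin 6))) (hαt : orderOf αt = 2) (hsupp : (αt : Equiv.Perm (Fin 6)).support.card = 4)
    (α : G) (hα : orderOf α = 2) (S : Sylow 2 G) (hαS : α ∈ (S : Subgroup G)) (hαc : ∀ s ∈ (S : Subgroup G), s * α = α * s)
    (e : ↥(Subgroup.centralizer ({α} : Set G)) ≃* ↥(Subgroup.centralizer ({αt} : Set ↥(alternatingGroup (Fin 6))))) :
    Nonempty (G ≃* ↥(alternatingGroup (Fin 6))) ∨
      (∃ (F : Type) (_ : Field F) (_ : Fintype F), Fintype.card F = 7 ∧ Nonempty (G ≃* Matrix.ProjectiveSpecialLinearGroup (Fin 2) F)) := by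
  obtain ⟨e'⟩ := cent_A6 αt hαt hsupp
  obtain ⟨q, h1, -, h3⟩ := d8_psl hα (e.trans e') hG
  rcases h1 with rfl | rfl
  · obtain ⟨F, _, _, hF, -⟩ := exists_field_card Nat.prime_three (f := 2) (by norm_num)
    exact Or.inl ⟨(h3 F hF).some.trans (S0254.result hF).some⟩
  · haveI : Fact (Nat.Prime 7) := ⟨by norm_num⟩
    exact Or.inr ⟨ZMod 7, _, _, ZMod.card 7, h3 _ (ZMod.card 7)⟩

end Cfsg.Agent.S3261
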