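import Cfsg.Statements.S3277
import Cfsg.Agent.C3.Inv3
import Cfsg.Agent.H2.Alperin

set_option autoImplicit false
open Cfsg

namespace Cfsg.Agent.S3277

open H2 C3 Subgroup

/-- Let G be a finite group containing an involution whose centralizer is elementary abelian of order 4. If G has no normal 2-complement and no normal elementary abelian 2-subgroup of order 2 or 4, then G is isomorphic to the alternating group of degree 5 (that is, to PSL(2, 5)). -/
theorem result {G : Type*} [Group G] [Finite G] (x : G) (hx : orderOf x = 2)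
    (hC4 : Nat.card ↥(Subgroup.centralizer ({x} : Set G)) = 4) (hCe : ∀ c ∈ Subgroup.centralizer ({x} : Set G), c ^ 2 = 1)
    (hnc : ¬ Cfsg.HasNormalPComplement 2 G)
    (hne : ∀ E : Subgroup G, E.Normal → Cfsg.IsElementaryAbelian 2 E → Nat.card ↥E ≠ 2 ∧ Nat.card ↥E ≠ 4) :
    Nonempty (G ≃* ↥(alternatingGroup (Fin 5))) := by
  have hxC : x ∈ centralizer ({x} : Set G) := mem_centralizer_singleton_iff.2 rfl
  have hK : IsKleinFour (centralizer ({x} : Set G)) := ⟨hC4, by
    have : Nontrivial (centralizer ({x} : Set G)) := Finite.one_lt_card_iff_nontrivial.1 (by omega)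
    exact (Monoid.exponent_eq_prime_iff Nat.prime_two).2 fun g hg =>
      ord2_of (Subtype.ext ((pow_two _).symm.trans (hCe g g.2))) hg⟩
  obtain ⟨s, hs⟩ := exists_k4_of_mem hK hxC (ord2_ne_one hx)
  have hc : ∀ {u}, Commute x u → u ∈ centralizer ({x} : Set G) := fun h => mem_centralizer_singleton_iff.2 h.symm
  have h : Inv3 x := fun a u ha hu h1 h2 h3 => by
    have := (k4_of_isKleinFour hK hxC (hc h1) (ord2_ne_one hx) (ord2_ne_one ha) h3.symm).mem u
    exact (this.1 (hc h2)).resolve_left (ord2_ne_one hu)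
  have hne' : ∀ E : Subgroup G, E.Normal → IsElementaryAbelian 2 E → Nat.card E ≤ 4 → E = ⊥ := fun E h1 h2 h3 => by
    obtain ⟨k, hk⟩ := IsPGroup.iff_card.1 (isPGroup_iff_forall.2 fun a ha => ⟨1, by simpa using h2.2 a ha⟩ : IsPGroup 2 E)
    have := hne E h1 h2
    rw [hk] at this h3
    rcases k with _ | _ | _ | k
    · exact card_eq_one.1 hk
    · simp at this
    · simp at this
    · have : 0 < 2 ^ k := by positivity
      rw [pow_succ, pow_succ, pow_succ] at h3
      omega
  obtain ⟨S, hS⟩ := (h.sylow hx).resolve_right fun ⟨y, h1, h2, h3, h4⟩ => by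
    obtain ⟨-, h5, h6⟩ := h.closure hx h1 h2 h3 h4
    have hy : y ∈ normalClosure ({y} : Set G) := subset_normalClosure rfl
    refine ord2_ne_one h1 (mem_bot.1 (hne' _ inferInstance h5 ?_ ▸ hy))
    by_cases hxN : x ∈ normalClosure ({y} : Set G)
    · exact hC4 ▸ card_le_of_le fun a ha => mem_centralizer_singleton_iff.2
        (congrArg Subtype.val (h5.1.is_comm.comm ⟨a, ha⟩ ⟨x, hxN⟩))
    · refine h6 fun u hu h7 h8 => ?_
      rcases h y u h1 h7 h2 h8.symm (fun e => h3 (e ▸ IsConj.refl _)) with rfl | rfl | rfl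
      · exact absurd hu hxN
      · rfl
      · exact absurd ((Subgroup.mul_mem_cancel_right _ hy).1 hu) hxN
  have e : centralizer ({x} : Set G) = S := (sylIn_top S).max _ le_top hs.isPGroup hS
  rw [e] at hs hK hc
  have hone : ∀ u, orderOf u = 2 → IsConj x u := by
    by_contra! hcon
    obtain ⟨u, hu, hxu⟩ := hcon
    refine hnc (hasNPC_iff_top.2 ((sylIn_top S).frobenius fun U hU _ _ hcen g hg ho => ?_))
    have : U = S := le_antisymm hU fun a ha => hcen ⟨ha, mem_centralizer_iff.2 fun b hb => hs.commute (hU hb) ha⟩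
    subst this
    by_contra hg'
    obtain ⟨c, hc⟩ := exists_conj_mem_sylow S (k := 1) (hu.trans (pow_one 2).symm)
    have := (oddAut_conj hg.2 ho).k4_trans hK (by
      by_contra! h'
      exact hg' (mem_centralizer_iff.2 fun a ha => (mul_inv_eq_iff_eq_mul.1 (h' a ha)).symm)) hs.a_mem hc hs.a1
      (ord2_ne_one (ord2_conj hu c))
    refine hxu (IsConj.trans ?_ (isConj_iff.2 ⟨c, rfl⟩).symm)
    rcases this with e | e | e <;> rw [e]
    · exact isConj_iff.2 ⟨g, rfl⟩
    · exact isConj_iff.2 ⟨g * g, by group⟩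
  refine klein_A5 S hs (fun u v hu hv => (hone u hu).symm.trans (hone v hv)) (fun u _ h => hc h) ?_
  have hle := (normalizer ((S : Subgroup G) : Set G)).normalCore_le
  generalize hN : (normalizer ((S : Subgroup G) : Set G)).normalCore = N at hle
  have : N.Normal := hN ▸ inferInstance
  have h1 := sylow_inf_normal S N
  have h2 : (S : Subgroup G) ⊓ N = ⊥ := hne' _ (normal_iff_cj.2 fun g => cj_eq_of_mem_normalizer (mem_normalizer_of_cj_le
    (h1.le_of_le_normalizer (isPGroup_cj g h1.pgrp) (by rw [cj_inf, cj_eq_of_normal g N]; exact inf_le_right) (by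
      rw [cj_inf, cj_eq_of_normal g N]
      exact inf_le_right.trans (H1.le_normalizer_inf hle le_normalizer))))) ⟨⟨⟨fun a b => Subtype.ext (hs.commute a.2.1 b.2.1)⟩⟩,
        fun a ha => (pow_two a).trans (hs.mul_self ha.1)⟩ (hs.card ▸ card_le_of_le inf_le_left)
  refine eq_bot_iff.2 fun n hn => h2 ▸ ⟨hc ?_, hn⟩
  have h3 : n * x * n⁻¹ * x⁻¹ ∈ (S : Subgroup G) ⊓ N := ⟨mul_mem ((mem_normalizer_iff.1 (hle hn) x).1 hs.a_mem)
    ((S : Subgroup G).inv_mem hs.a_mem), by simpa [mul_assoc] using N.mul_mem hn (this.conj_mem _ (inv_mem hn) x)⟩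
  rw [h2, mem_bot, mul_inv_eq_one, mul_inv_eq_iff_eq_mul] at h3
  exact h3.symm

end Cfsg.Agent.S3277
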