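import Cfsg.Statements.S3279
import Cfsg.Agent.C3.Inv3
import Cfsg.Agent.B.ZStar

set_option autoImplicit false
open Cfsg

namespace Cfsg.Agent.S3279

open H2 C3 B Subgroup

/-- Let G be a finite simple group and x an involution of G whose centralizer contains at most three involutions. Then C_G(x) contains a Sylow 2-subgroup of G, and all involutions of G are conjugate. -/
theorem result {G : Type*} [Group G] [Finite G] [IsSimpleGroup G] (x : G) (hx : orderOf x = 2)
    (h3 : Nat.card {u : ↥(Subgroup.centralizer ({x} : Set G)) // orderOf u = 2} ≤ 3) :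
    (∃ S : Sylow 2 G, (S : Subgroup G) ≤ Subgroup.centralizer ({x} : Set G)) ∧
      ∀ u v : G, orderOf u = 2 → orderOf v = 2 → IsConj u v := by
  have h := inv3_of_card hx h3
  have K : ∀ y, orderOf y = 2 → Commute x y → ¬ IsConj x y → ¬ IsConj x (x * y) := fun y hy hxy hnc hc => by
    have h1 := ((normalClosure_normal (s := {y})).eq_bot_or_eq_top).resolve_right (h.closure hx hy hxy hnc hc).1
    exact ord2_ne_one hy (mem_bot.1 (h1 ▸ subset_normalClosure (Set.mem_singleton y)))
  obtain ⟨S, hS⟩ := (h.sylow hx).resolve_right fun ⟨y, h1, h2, h3, h4⟩ => K y h1 h2 h3 h4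
  have key : ∀ u, orderOf u = 2 → IsConj x u := fun u hu => by
    obtain ⟨g, hg⟩ := exists_conj_mem_sylow S (k := 1) (hu.trans (pow_one 2).symm)
    refine IsConj.trans ?_ (isConj_iff.2 ⟨g, rfl⟩).symm
    have hy := ord2_conj hu g
    have hxy : Commute x (g * u * g⁻¹) := (mem_centralizer_singleton_iff.1 (hS hg)).symm
    generalize g * u * g⁻¹ = y at *
    by_contra hnc
    have hne : y ≠ x := fun e => hnc (e ▸ IsConj.refl _)
    have hi : IsIsolatedInvolution x := ⟨hx, fun c hc => by
      rcases h y _ hy (ord2_conj hx c) hxy hc hne with e | e | e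
      · exact e
      · exact absurd (isConj_iff.2 ⟨c, e⟩) hnc
      · exact absurd (isConj_iff.2 ⟨c, e⟩) (K y hy hxy hnc)⟩
    have hO : pPrimeCore 2 G = ⊥ := ((inferInstance : (pPrimeCore 2 G).Normal).eq_bot_or_eq_top).resolve_right fun e =>
      L.not_dvd_card_pPrimeCore (G := G) Nat.prime_two (by rw [e, card_top, ← hx]; exact orderOf_dvd_natCard x)
    have h1 := ((normal_of_le_center (zpowers_le.2 (zstar_center hi hO))).eq_bot_or_eq_top).resolve_left
      (by simpa using ord2_ne_one hx)
    have h2 : zpowers y = ⊤ := eq_top_of_card_eq _ (by rw [Nat.card_zpowers, hy, ← hx, ← Nat.card_zpowers, h1, card_top])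
    exact hne (eq_of_ord2_of_isCyclic (H := zpowers x) inferInstance (h1 ▸ mem_top y) (mem_zpowers x) hy hx)
  exact ⟨⟨S, hS⟩, fun u v hu hv => (key u hu).symm.trans (key v hv)⟩

end Cfsg.Agent.S3279
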