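import Cfsg.Statements.S3278
import Cfsg.Agent.C3.Inv3
import Cfsg.Agent.S3279
import Cfsg.Agent.H2.Count

set_option autoImplicit false
open Cfsg

namespace Cfsg.Agent.S3278

open H2 C3 Subgroup

/-- Let G be a finite simple group with an involution x such that a Sylow 2-subgroup of C_G(x) is a Klein four-group which is normal in C_G(x). Then G is isomorphic to the alternating group of degree 5 (that is, to PSL(2, 5)). -/
theorem result {G : Type*} [Group G] [Finite G] [IsSimpleGroup G] (x : G) (hx : orderOf x = 2)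
    (S₀ : Subgroup G) (hle : S₀ ≤ Subgroup.centralizer ({x} : Set G)) (hK : IsKleinFour ↥S₀)
    (hodd : ¬ 2 ∣ S₀.relIndex (Subgroup.centralizer ({x} : Set G))) (hn : (S₀.subgroupOf (Subgroup.centralizer ({x} : Set G))).Normal) :
    Nonempty (G ≃* ↥(alternatingGroup (Fin 5))) := by
  have h2 : IsPGroup 2 S₀ := IsPGroup.of_card (n := 2) hK.card_four
  have hS := sylIn_of_not_dvd hle h2 hodd
  have hn' : centralizer ({x} : Set G) ≤ normalizer (S₀ : Set G) := (normal_subgroupOf_iff_le_normalizer hle).1 hn
  have hC : ∀ u : G, orderOf u = 2 → Commute x u → u ∈ S₀ := fun u hu hc =>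
    hS.mem_of_mem_normalizer (mem_centralizer_singleton_iff.2 hc.symm) (k := 1)
      ((pow_two u).trans (ord2_mul_self hu)) (hn' (mem_centralizer_singleton_iff.2 hc.symm))
  obtain ⟨s, hs⟩ := exists_k4_of_mem hK (hC x hx (Commute.refl x)) (ord2_ne_one hx)
  obtain ⟨⟨S, hS'⟩, hone⟩ := S3279.result x hx (by
    classical
    have := Nat.card_le_card_of_injective (fun u : {u : centralizer ({x} : Set G) // orderOf u = 2} =>
      (⟨u.1, by
        have h1 : orderOf (u.1 : G) = 2 := by rw [orderOf_coe, u.2]
        have := (hs.mem _).1 (hC _ h1 (mem_centralizer_singleton_iff.1 u.1.2).symm)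
        simpa [ord2_ne_one h1] using this⟩ : ({x, s, x * s} : Finset G)))
      fun a b e => Subtype.ext (Subtype.ext (Subtype.mk.inj e))
    rw [Nat.card_eq_finsetCard] at this
    exact this.trans Finset.card_le_three)
  have e : S₀ = S := ((sylIn_top S).max _ le_top h2 (hS.le_of_le_normalizer S.isPGroup' hS' (hS'.trans hn')))
  subst e
  refine klein_A5 S hs hone hC (normalCore_eq_bot_of_simple fun e => ?_)
  have h3 := ((normalizer_eq_top_iff.1 e).eq_bot_or_eq_top).resolve_left fun e => hs.a1 (mem_bot.1 (e ▸ hs.a_mem))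
  have h4 := ((normal_of_le_center (Z := zpowers x) (zpowers_le.2 (mem_center_iff.2 fun g =>
    hs.commute (h3 ▸ mem_top g) hs.a_mem))).eq_bot_or_eq_top).resolve_left (by simpa using hs.a1)
  have := hs.card
  rw [h3, ← h4, Nat.card_zpowers, hx] at this
  omega

end Cfsg.Agent.S3278
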