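import Cfsg.Statements.S3282
import Mathlib
import Cfsg.Agent.H7.BSW3

set_option autoImplicit false
open Cfsg

namespace Cfsg.Agent.S3282

open Cfsg.Agent.H7 Cfsg.Agent.H2 Subgroup

/-- The abstract form of the Brauer–Suzuki–Wall Theorem. Let G be a finite group with an involution t and an abelian subgroup K of H = C_G(t) containing t, such that H = K⟨s⟩ for an involution s ∉ K with C_K(s) = ⟨t⟩ and s inverting every element of K, K ∩ K^g = 1 for every g outside H, and all involutions of G conjugate. Then G has a subgroup Q, of order q say, with |G| = q(q+1)(q−1)/2, C_G(x) = Q for every non-identity x ∈ Q, N_G(Q) = QD for an abelian subgroup D of order (q−1)/2 meeting Q trivially, and for every nontrivial subgroup X of D, N_G(X) = N_G(D) = D⟨u⟩ for some involution u ∉ D inverting D. -/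
theorem result {G : Type*} [Group G] [Finite G] (t : G) (ht : orderOf t = 2)
    (K : Subgroup G) (hKab : IsMulCommutative ↥K) (hKH : K ≤ Subgroup.centralizer ({t} : Set G)) (htK : t ∈ K)
    (s : G) (hs : orderOf s = 2) (hsH : s ∈ Subgroup.centralizer ({t} : Set G)) (hsK : s ∉ K)
    (hH : K ⊔ Subgroup.zpowers s = Subgroup.centralizer ({t} : Set G)) (hCK : K ⊓ Subgroup.centralizer ({s} : Set G) = Subgroup.zpowers t)
    (hinv : ∀ x ∈ K, s * x * s⁻¹ = x⁻¹)
    (hTI : ∀ g : G, g ∉ Subgroup.centralizer ({t} : Set G) → K ⊓ K.map (MulAut.conj g).toMonoidHom = ⊥)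
    (hconj : ∀ x y : G, orderOf x = 2 → orderOf y = 2 → IsConj x y) :
    ∃ Q D : Subgroup G, 2 * Nat.card G = Nat.card ↥Q * (Nat.card ↥Q + 1) * (Nat.card ↥Q - 1) ∧
      (∀ x ∈ Q, x ≠ 1 → Subgroup.centralizer ({x} : Set G) = Q) ∧
      IsMulCommutative ↥D ∧ 2 * Nat.card ↥D + 1 = Nat.card ↥Q ∧ Q ⊓ D = ⊥ ∧
      Subgroup.normalizer (Q : Set G) = Q ⊔ D ∧
      ∀ X : Subgroup G, X ≤ D → X ≠ ⊥ →
        Subgroup.normalizer (X : Set G) = Subgroup.normalizer (D : Set G) ∧
        ∃ u : G, orderOf u = 2 ∧ u ∉ D ∧ (∀ d ∈ D, u * d * u⁻¹ = d⁻¹) ∧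
          Subgroup.normalizer (D : Set G) = D ⊔ Subgroup.zpowers u := by
  classical
  have h : BSW t K s := by
    refine ⟨⟨hs, hsK, hinv, fun x hx x1 g hg => ?_⟩, ht, htK, fun x hx e => ?_, fun x hx => hconj t x ht hx⟩
    · have hgH : g ∈ centralizer ({t} : Set G) := by
        by_contra hn
        exact conj_ne_one x1 (mem_bot.1 ((hTI g hn).le ⟨hg, conj_mem_cj g hx⟩))
      rw [← hH, sup_comm, ← SetLike.mem_coe, coe_mul_of_left_le_normalizer_right _ _
        (zpowers_le_of_mem (mem_normalizer_iff.2 fun y => ⟨fun hy => hinv y hy ▸ K.inv_mem hy, fun hy => by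
          have := K.inv_mem hy
          rw [← hinv _ hy, ← mul_assoc, ← mul_assoc, mul_self_of_ord hs, one_mul, mul_assoc, ← mul_inv_rev,
            mul_self_of_ord hs, inv_one, mul_one] at this
          exact this⟩))] at hgH
      obtain ⟨a, ha, b, hb, rfl⟩ := hgH
      rcases (mem_zpowers_iff_mem_range_orderOf.1 ha) with ha'
      rw [hs] at ha'
      obtain ⟨i, hi, rfl⟩ := Finset.mem_image.1 ha'
      rw [Finset.mem_range] at hi
      interval_cases i
      · exact Or.inl (by simpa using hb)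
      · refine Or.inr ?_
        have := K.inv_mem hb
        rw [← hinv b hb, inv_of_ord hs] at this
        simpa using this
    · have : x ∈ zpowers t := hCK ▸ ⟨hx, mem_centralizer_singleton_iff.2 (by
        have := hinv x hx
        rw [inv_eq_of_mul_eq_one_left e, mul_inv_eq_iff_eq_mul] at this
        exact this.symm)⟩
      have ha' := mem_zpowers_iff_mem_range_orderOf.1 this
      rw [ht] at ha'
      obtain ⟨i, hi, rfl⟩ := Finset.mem_image.1 ha'
      rw [Finset.mem_range] at hi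
      interval_cases i <;> simp
  obtain ⟨Q, D, c, -⟩ := h.exists_BSWC
  refine ⟨Q, D, c.card, c.sc, ?_, c.cardD, c.inf, c.norm, fun X hX X1 => ?_⟩
  · rcases c.dt with rfl | ⟨u, d⟩
    · infer_instance
    · exact ⟨⟨fun a b => Subtype.ext (d.comm a a.2 b b.2)⟩⟩
  · have D1 : D ≠ ⊥ := ne_bot_of_le_ne_bot X1 hX
    obtain ⟨u, d⟩ := c.dt.resolve_left D1
    exact ⟨(d.normalizer_eq hX X1).trans (d.normalizer_eq le_rfl D1).symm, u, d.ord, d.nm, d.inv,
      d.normalizer_eq le_rfl D1⟩

end Cfsg.Agent.S3282
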