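import Cfsg.Statements.S3305
import Mathlib
import Cfsg.Agent.H2.PNil

set_option autoImplicit false
open Cfsg

namespace Cfsg.Agent.S3305

open Cfsg.Agent.H2 Subgroup

/-- If any two distinct Sylow 2-subgroups of the finite group G intersect in a cyclic group, then the same holds in every quotient group G/H, H a normal subgroup of G. -/
theorem result {G : Type*} [Group G] [Finite G]
    (hC : ∀ S T : Sylow 2 G, S ≠ T → IsCyclic ↥((S : Subgroup G) ⊓ (T : Subgroup G))) (H : Subgroup G) [H.Normal] :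
    ∀ S T : Sylow 2 (G ⧸ H), S ≠ T → IsCyclic ↥((S : Subgroup (G ⧸ H)) ⊓ (T : Subgroup (G ⧸ H))) := by
  intro S T hST
  let f := QuotientGroup.mk' H
  have hf : Function.Surjective f := QuotientGroup.mk'_surjective H
  obtain ⟨P, rfl⟩ := Sylow.mapSurjective_surjective hf 2 S
  obtain ⟨Q, rfl⟩ := Sylow.mapSurjective_surjective hf 2 T
  change IsCyclic ↥((P : Subgroup G).map f ⊓ (Q : Subgroup G).map f)
  set D := ((P : Subgroup G).map f ⊓ (Q : Subgroup G).map f).comap f with hD
  have hH : H ≤ D := (QuotientGroup.ker_mk' H).ge.trans (ker_le_comap f _)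
  have key : ∀ R : Sylow 2 G, D ≤ ((R : Subgroup G).map f).comap f → SylIn 2 ((R : Subgroup G) ⊓ D) D ∧
      ((R : Subgroup G) ⊓ D).map f = D.map f := fun R hR => by
    rw [comap_map_eq, QuotientGroup.ker_mk'] at hR
    have e : (R : Subgroup G) ⊓ D ⊔ H = D := by
      rw [← H8.sup_inf_of_norm' le_normalizer_of_normal hH, inf_eq_right.2 hR]
    constructor
    · refine sylIn_of_not_dvd inf_le_right (R.isPGroup'.to_le inf_le_left) ?_
      nth_rewrite 2 [← e]
      rw [H8.relIndex_sup_of_norm' le_normalizer_of_normal, ← inf_relIndex_right, inf_assoc,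
        inf_eq_right.2 hH]
      exact (sylow_inf_normal R H).not_dvd_relIndex
    · nth_rewrite 2 [← e]
      rw [Subgroup.map_sup, QuotientGroup.map_mk'_self, sup_bot_eq]
  obtain ⟨h1, h2⟩ := key P (comap_mono inf_le_left)
  obtain ⟨h3, -⟩ := key Q (comap_mono inf_le_right)
  obtain ⟨d, hd, e⟩ := h3.exists_cj_eq h1
  have h4 : P ≠ d • Q := fun e' => hST (Sylow.ext (by
    simp only [Sylow.coe_mapSurjective]
    rw [e', coe_smul_sylow, ← cj_eq_of_mem (hd.2 : f d ∈ (Q : Subgroup G).map f)]
    simp only [cj, Subgroup.map_map]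
    congr 1))
  haveI := hC _ _ h4
  haveI : IsCyclic ↥((P : Subgroup G) ⊓ D) := Subgroup.isCyclic_of_le (H' := (P : Subgroup G) ⊓ (d • Q : Sylow 2 G))
    (le_inf inf_le_left (by rw [← e, coe_smul_sylow]; exact cj_mono d inf_le_left))
  rw [← map_comap_eq_self_of_surjective hf ((P : Subgroup G).map f ⊓ (Q : Subgroup G).map f), ← hD, ← h2]
  exact isCyclic_of_surjective _ (f.subgroupMap_surjective _)

end Cfsg.Agent.S3305
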