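import Cfsg.Statements.S3303
import Mathlib
import Cfsg.Agent.S3305
import Cfsg.Agent.H2.Loc3

set_option autoImplicit false
open Cfsg

namespace Cfsg.Agent.S3303

open Cfsg.Agent.H2 Cfsg.Agent.H8 Subgroup

/-- Let G be a finite solvable group in which the intersection of any two distinct Sylow 2-subgroups is cyclic. Then G/O(G) has a normal Sylow 2-subgroup, where O(G) is the largest normal subgroup of odd order. -/
theorem result {G : Type*} [Group G] [Finite G] (hs : Group.IsSolvable G)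
    (hC : ∀ S T : Sylow 2 G, S ≠ T → IsCyclic ↥((S : Subgroup G) ⊓ (T : Subgroup G))) :
    ∃ P : Sylow 2 (G ⧸ Cfsg.oddCore G), (P : Subgroup (G ⧸ Cfsg.oddCore G)).Normal := by
  obtain ⟨P⟩ : Nonempty (Sylow 2 (G ⧸ oddCore G)) := inferInstance
  refine ⟨P, ?_⟩
  by_contra hn
  obtain ⟨g, hg⟩ : ∃ g, g • P ≠ P := by
    by_contra h
    push Not at h
    exact hn (normalizer_eq_top_iff.1 (eq_top_iff.2 fun g _ => Sylow.smul_eq_iff_mem_normalizer.1 (h g)))
  haveI := S3305.result hC (oddCore G) _ _ hg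
  have hle : ∀ Q : Sylow 2 (G ⧸ oddCore G), Op 2 ⊤ ≤ (Q : Subgroup (G ⧸ oddCore G)) := fun Q =>
    (sylIn_top Q).normal_le (Op_isPGroup _ _) le_top (le_top.trans (le_normalizer_Op _ _))
  have hc : IsCyclic (Op 2 (⊤ : Subgroup (G ⧸ oddCore G))) :=
    Subgroup.isCyclic_of_le (le_inf (hle (g • P)) (hle P))
  have hcp : CP 2 (⊤ : Subgroup (G ⧸ oddCore G)) := Fs_eq_Op_of_PLay_Opp
    (PLay_eq_bot_of_solvable inferInstance) (by rw [Opp_top]; exact L.pPrimeCore_quotient_eq_bot 2 G)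
  have h1 : resOf 2 (⊤ : Subgroup (G ⧸ oddCore G)) ≤ P := resOf_le_iff.2 fun x _ hx =>
    hle P (hcp.le_Op le_top le_rfl (L.mem_centralizer_of_isCyclic_two (Op_isPGroup _ _) hc
      (le_normalizer_Op _ _ (mem_top x)) hx))
  have h2 := (sylIn_top P).resOf_sup
  rw [sup_eq_right.2 h1] at h2
  exact hn (h2 ▸ inferInstance)

end Cfsg.Agent.S3303
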