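import Cfsg.Statements.S3315
import Mathlib
import Cfsg.Agent.H7.U3B

set_option autoImplicit false
open Cfsg

namespace Cfsg.Agent.S3315

open Cfsg.Agent.H4 Cfsg.Agent.H7 Subgroup

/-- Let S be a Sylow 2-subgroup of SU₃(2ⁿ), n ≥ 2 (realised over the field with 4ⁿ elements). If a finite 2-group R contains a subgroup S' of index 2 isomorphic to S, then the centre of S' is contained in the centre of R. -/
theorem result {R : Type*} [Group R] [Finite R]
    (hR : IsPGroup 2 R) (n : ℕ) (hn : 2 ≤ n) {F : Type*} [Field F] [Fintype F] (hF : Fintype.card F = 4 ^ n)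
    (P : Sylow 2 ↥(Cfsg.SU 3 F (2 ^ n))) (S' : Subgroup R) (hS : Nonempty (↥S' ≃* ↥(P : Subgroup ↥(Cfsg.SU 3 F (2 ^ n)))))
    (hidx : S'.index = 2) :
    (Subgroup.center ↥S').map S'.subtype ≤ Subgroup.center R := by
  have hF' : Fintype.card F = (2 ^ n) ^ 2 := by rw [hF, ← pow_mul, mul_comm, pow_mul]; rfl
  haveI : CharP F 2 := charP_of_card_eq_prime_pow (p := 2) (f := n * 2) (by rw [hF', pow_mul])
  haveI : Fact (∀ x, frobq hF' (frobq hF' x) = x) := ⟨frobq_frobq hF'⟩
  obtain ⟨e1⟩ := exists_U3_equiv' hF' P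
  obtain ⟨e2⟩ := hS
  let e := e1.trans e2.symm
  have hne := frobq_ne hF'
  haveI := normal_of_index_eq_two hidx
  rintro _ ⟨z, hz, rfl⟩
  refine mem_center_iff.2 fun r => ?_
  obtain ⟨z, rfl⟩ := e.surjective z
  have hz' : z.a = 0 := (U3.mem_center hne).1 (mem_center_iff.2 fun g => e.injective (by
    rw [map_mul, map_mul]; exact mem_center_iff.1 hz _))
  obtain ⟨y, hy⟩ := e.surjective ⟨r * r, mul_self_mem_of_index_two hidx r⟩
  have h := U3.fix_center hne ((e.trans (MulAut.conjNormal r)).trans e.symm) (fun x => by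
    have : ((e.trans (MulAut.conjNormal r)).trans e.symm) (((e.trans (MulAut.conjNormal r)).trans e.symm) x) =
        y * x * y⁻¹ := e.injective (Subtype.ext (by
      simp only [MulEquiv.trans_apply, MulEquiv.apply_symm_apply, MulAut.conjNormal_apply, map_mul, map_inv, hy,
        coe_mul, coe_inv]
      group))
    rw [this]
    simp only [U3.mul_a, U3.inv_a]
    grind) hz'
  have h2 := congrArg (fun x => (e x : R)) h
  simp only [MulEquiv.trans_apply, MulEquiv.apply_symm_apply, MulAut.conjNormal_apply] at h2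
  exact mul_inv_eq_iff_eq_mul.1 h2

end Cfsg.Agent.S3315
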