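import Cfsg.Statements.S3335
import Cfsg.Agent.GS.Misc1

set_option autoImplicit false
open Cfsg

namespace Cfsg.Agent.S3335

open Cfsg.Agent.H1

/-- A presentation of the alternating group of degree n ≥ 3 on generators x_1, …, x_{n−2} (indexed here by 0, …, n−3): the first generator cubes to 1, every other generator squares to 1, the product of two consecutive generators has order dividing 3, and the product of two generators at distance at least 2 has order dividing 2. The group so presented is isomorphic to the alternating group of degree n. -/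
theorem result (n : ℕ) (hn : 3 ≤ n) :
    Nonempty (PresentedGroup
      ({g : FreeGroup (Fin (n - 2)) | ∃ i : Fin (n - 2), i.val = 0 ∧ g = FreeGroup.of i ^ 3} ∪
       {g | ∃ i : Fin (n - 2), 1 ≤ i.val ∧ g = FreeGroup.of i ^ 2} ∪
       {g | ∃ i j : Fin (n - 2), j.val = i.val + 1 ∧ g = (FreeGroup.of i * FreeGroup.of j) ^ 3} ∪
       {g | ∃ i j : Fin (n - 2), i.val + 1 < j.val ∧ g = (FreeGroup.of i * FreeGroup.of j) ^ 2})
      ≃* alternatingGroup (Fin n)) := by
  open Subgroup Pointwise commutatorElement Cfsg.Agent.BG Cfsg.Agent.GS in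
  open Cfsg.Agent.H2 hiding card_lt_of_lt card_lt_of_ne_top isMulCommutative_of_le isPGroup_zpowers_iff mem_of_pow_mem_of_coprime inf_eq_bot_of_cop exists_maxElem_ge Sec in
  open Cfsg.Agent.H8 (Op Opp Fit SN) in
  open Cfsg.Agent.L (FPF) in focus
    obtain ⟨m, rfl⟩ : ∃ m, n = m + 2 := ⟨n - 2, by omega⟩
    obtain ⟨a, b, c, d⟩ := altGen_rel (n := m)
    generalize hR : (_ ∪ _ : Set (FreeGroup (Fin (m + 2 - 2)))) = R
    have hψ : ∀ r ∈ R, FreeGroup.lift (altGen (n := m)) r = 1 := by
      rintro r hr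
      rw [← hR] at hr
      rcases hr with ((⟨i, h, rfl⟩ | ⟨i, h, rfl⟩) | ⟨i, j, h, rfl⟩) | ⟨i, j, h, rfl⟩ <;> simp only [map_pow, map_mul, FreeGroup.lift_apply_of]
      exacts [a i h, b i h, c i j h, d i j h]
    have k : ∀ r ∈ R, PresentedGroup.mk R r = 1 := fun r hr => PresentedGroup.one_of_mem hr
    obtain ⟨θ, hθ⟩ := exists_alt_hom (n := m) (fun i => (PresentedGroup.of i : PresentedGroup R))
      (fun i h => k _ (hR ▸ Or.inl (Or.inl (Or.inl ⟨i, h, rfl⟩)))) (fun i h => k _ (hR ▸ Or.inl (Or.inl (Or.inr ⟨i, h, rfl⟩))))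
      (fun i j h => k _ (hR ▸ Or.inl (Or.inr ⟨i, j, h, rfl⟩))) fun i j h => k _ (hR ▸ Or.inr ⟨i, j, h, rfl⟩)
    refine ⟨MonoidHom.toMulEquiv (PresentedGroup.toGroup hψ) θ (PresentedGroup.ext fun i => by simp [hθ]) ?_⟩
    exact MonoidHom.eq_of_eqOn_top (fun x _ => (alt_eq_top (K := MonoidHom.eqLocus ((PresentedGroup.toGroup hψ).comp θ) (MonoidHom.id _)) fun i =>
      show PresentedGroup.toGroup hψ (θ (altGen i)) = altGen i by simp [hθ]).ge (mem_top x))

end Cfsg.Agent.S3335
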