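import Cfsg.Statements.S3349
import Mathlib
import Cfsg.Agent.H2.ES2

set_option autoImplicit false
open Cfsg

namespace Cfsg.Agent.S3349

open Cfsg.Agent.H2 Subgroup
open scoped commutatorElement

/-- Let Q be a finite extraspecial p-group and α an automorphism of Q fixing every element of some maximal abelian subgroup of Q. Then the order of α is a power of p. -/
theorem result {Q : Type*} [Group Q] [Finite Q]
    (p : ℕ) [Fact p.Prime] (hQ : Cfsg.IsExtraspecial p Q) (α : MulAut Q)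
    (A : Subgroup Q) (hA : IsMulCommutative A) (hmax : ∀ B : Subgroup Q, A ≤ B → IsMulCommutative B → B = A)
    (hfix : ∀ a ∈ A, α a = a) :
    ∃ k : ℕ, orderOf α = p ^ k := by
  obtain ⟨V, _, _, c, h, -⟩ := H2.IsExtraspecial.exists_cExt hQ
  have hC : ∀ x ∈ centralizer (A : Set Q), x ∈ A := fun x hx => by
    rw [← hmax _ le_sup_right (H1.isMulCommutative_zpowers_sup_of_le_centralizer hx)]
    exact mem_sup_left (mem_zpowers x)
  have hz : α c.z = c.z := hfix _ (hC _ fun a _ => (c.central a).symm.eq)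
  have h1 : ∀ x, x⁻¹ * α x ∈ A := fun x => hC _ fun a ha => by
    have h2 : ⁅α x, a⁆ = ⁅x, a⁆ := by
      conv_lhs => rw [← hfix a ha, ← map_commutatorElement, ← c.ζ_B, CExt.ζ, map_pow, hz]
      exact c.ζ_B _ _
    have h3 : c.B (c.π (α x)) (c.π a) = c.B (c.π x) (c.π a) := c.ζ_inj (by rw [c.ζ_B, c.ζ_B, h2])
    refine (c.B_eq_zero.1 ?_).symm.eq
    rw [c.π_mul, c.B_add_left, h3, ← c.B_add_left, ← c.π_mul, inv_mul_cancel]
    exact c.B_eq_zero.2 (Commute.one_left _)
  have h2 : ∀ (n : ℕ) x, (α ^ n) x = x * (x⁻¹ * α x) ^ n := fun n x => by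
    induction n with
    | zero => simp
    | succ n ih =>
      rw [pow_succ', MulAut.mul_apply, ih, map_mul, hfix _ (A.pow_mem (h1 x) n), pow_succ',
        ← mul_assoc, mul_inv_cancel_left]
  have h3 : α ^ p ^ 2 = 1 := by
    ext x
    rw [h2, pow_two, pow_mul, ← c.ζ_P (x⁻¹ * α x), c.ζ_pow_p]; simp
  obtain ⟨k, -, hk⟩ := (Nat.dvd_prime_pow Fact.out).1 (orderOf_dvd_of_pow_eq_one h3)
  exact ⟨k, hk⟩

end Cfsg.Agent.S3349
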