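import Cfsg.Statements.S3376
import Cfsg.Agent.GS.Wr3b

set_option autoImplicit false
open Cfsg

namespace Cfsg.Agent.S3376

open Cfsg.Agent.H1.Wr3

theorem A0 {A : Type*} [CommGroup A] (h3 : ∀ a : A, a ^ 3 = 1) (σ : A →* A) (w : A) (hN : w * σ w * σ (σ w) = 1) :
    σ (σ w * w⁻¹) = σ w * w⁻¹ := by
  have h1 : σ w * σ w * σ w = 1 := by rw [← pow_three']; exact h3 _
  have h2 : σ (σ w) = (w * σ w)⁻¹ := eq_inv_of_mul_eq_one_right hN
  have h4 : σ w = (σ w * σ w)⁻¹ := eq_inv_of_mul_eq_one_right h1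
  rw [map_mul, map_inv, h2]
  calc (w * σ w)⁻¹ * (σ w)⁻¹ = (σ w * σ w)⁻¹ * w⁻¹ := by simp only [mul_inv]; ac_rfl
    _ = _ := by rw [← h4]

theorem A1 {A : Type*} [CommGroup A] (h3 : ∀ a : A, a ^ 3 = 1) (σ τ : A →* A) (hσ : ∀ w, σ (σ (σ w)) = w)
    (hc : ∀ w, τ (σ w) = σ (τ w)) (hf : ∀ w, σ w = w → τ w = w) (w : A) (hw : τ w = w⁻¹) : w = 1 := by
  have k : ∀ w, σ w = w → τ w = w⁻¹ → w = 1 := fun w h1 h2 => by
    have e : w = w⁻¹ := (hf w h1).symm.trans h2
    have e2 : w * w = 1 := by nth_rewrite 2 [e]; exact mul_inv_cancel w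
    have := h3 w
    rwa [pow_three', e2, one_mul] at this
  have hN : w * σ w * σ (σ w) = 1 := k _ (by simp only [map_mul, hσ]; ac_rfl)
    (by simp only [map_mul, hc, hw, map_inv, mul_inv])
  have hd : σ w * w⁻¹ = 1 := k _ (A0 h3 σ w hN) (by simp only [map_mul, hc, hw, map_inv, mul_inv])
  exact k w (mul_inv_eq_one.1 hd) hw

theorem A2 {A : Type*} [CommGroup A] [Finite A] (h3 : ∀ a : A, a ^ 3 = 1) (σ : A →* A) (hA : Nat.card A = 27)
    (hk : Nat.card (σ * (MonoidHom.id A)⁻¹).ker ≤ 3) : ∃ v, v * σ v * σ (σ v) ≠ 1 := by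
  by_contra hc
  push Not at hc
  have hle : (σ * (MonoidHom.id A)⁻¹).range ≤ (σ * (MonoidHom.id A)⁻¹).ker := by
    rintro _ ⟨w, rfl⟩
    have := A0 h3 σ w (hc w)
    change σ (σ w * w⁻¹) * (σ w * w⁻¹)⁻¹ = 1
    rw [this, mul_inv_cancel]
  have h1 := Subgroup.card_le_of_le hle
  have h2 := (σ * (MonoidHom.id A)⁻¹).ker.card_mul_index
  rw [Subgroup.index_ker, hA] at h2
  nlinarith

/-- Let G be a group of order 162 = 3⁴·2 with Sylow 3-subgroup S and Sylow 2-subgroup T, having an elementary abelian normal subgroup J of order 27, such that Z = Z(S) has order 3, Z centralizes T, and C_S(T) ≠ S. Then G is isomorphic to the centralizer in Sym(9) of a product of three disjoint 3-cycles. -/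
theorem result {G : Type*} [Group G] [Finite G] (hG : Nat.card G = 162)
    (S : Sylow 3 G) (T : Sylow 2 G) (J : Subgroup G) [hJn : J.Normal] (hJcomm : IsMulCommutative J)
    (hJexp : ∀ a ∈ J, a ^ 3 = 1) (hJcard : Nat.card J = 27)
    (Z : Subgroup G) (hZ : Z = (S : Subgroup G) ⊓ Subgroup.centralizer ((S : Subgroup G) : Set G)) (hZcard : Nat.card Z = 3)
    (hZT : Z ≤ Subgroup.centralizer ((T : Subgroup G) : Set G))
    (hST : (S : Subgroup G) ⊓ Subgroup.centralizer ((T : Subgroup G) : Set G) ≠ S) :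
    Nonempty (G ≃* Subgroup.centralizer ({Equiv.swap (0 : Fin 9) 1 * Equiv.swap 1 2 * Equiv.swap 3 4 * Equiv.swap 4 5 * Equiv.swap 6 7 * Equiv.swap 7 8} : Set (Equiv.Perm (Fin 9)))) := by
  have hS : Nat.card (S : Subgroup G) = 81 := by
    rw [S.card_eq_multiplicity, hG, ← Nat.primeFactorsList_count_eq]; simp
  have hT : Nat.card (T : Subgroup G) = 2 := by
    rw [T.card_eq_multiplicity, hG, ← Nat.primeFactorsList_count_eq]; simp
  have hSi : (S : Subgroup G).index = 2 := by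
    have := (S : Subgroup G).card_mul_index; rw [hS, hG] at this; omega
  have hJi : J.index = 6 := by
    have := J.card_mul_index; rw [hJcard, hG] at this; omega
  haveI hSn : (S : Subgroup G).Normal := Subgroup.normal_of_index_eq_two hSi
  have hJS : J ≤ S := fun a ha => by
    have := pow_mem ((S : Subgroup G).sq_mem_of_index_two hSi a) 2
    rwa [← pow_mul, show 2 * 2 = 3 + 1 from rfl, pow_succ, hJexp a ha, one_mul] at this
  have h81 : ∀ s ∈ (S : Subgroup G), s ^ 81 = 1 := fun s hs => by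
    have := pow_card_eq_one' (G := (S : Subgroup G)) (x := ⟨s, hs⟩)
    rw [hS] at this; exact congrArg Subtype.val this
  obtain ⟨⟨t, htT⟩, ht1, htu⟩ := (Nat.card_eq_two_iff' (1 : (T : Subgroup G))).1 hT
  have ht2 : t ^ 2 = 1 := by
    have := pow_card_eq_one' (G := (T : Subgroup G)) (x := ⟨t, htT⟩)
    rw [hT] at this; exact congrArg Subtype.val this
  have sq1 : ∀ s ∈ (S : Subgroup G), s ^ 2 = 1 → s = 1 := fun s hs h2 => by
    have := h81 s hs
    rwa [show 81 = 2 * 40 + 1 from rfl, pow_succ, pow_mul, h2, one_pow, one_mul] at this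
  have htS : t ∉ (S : Subgroup G) := fun h => ht1 (Subtype.ext (sq1 t h ht2))
  have htt : t * t = 1 := by rw [← pow_two]; exact ht2
  have hti : t⁻¹ = t := inv_eq_of_mul_eq_one_right htt
  have cJ : ∀ a ∈ J, ∀ b ∈ J, a * b = b * a := fun a ha b hb =>
    congrArg Subtype.val (hJcomm.is_comm.comm ⟨a, ha⟩ ⟨b, hb⟩)
  have hZt : ∀ z ∈ Z, t * z * t⁻¹ = z := fun z hz => by
    rw [(hZT hz) t htT, mul_inv_cancel_right]
  have centr : ∀ y ∈ (S : Subgroup G), y ∉ J → ∀ z ∈ J, y * z = z * y → z ∈ Z := fun y hy hyJ z hz hc => by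
    let K : Subgroup G := Subgroup.centralizer {z} ⊓ S
    have hJK : J ≤ K := fun a ha => ⟨Subgroup.mem_centralizer_singleton_iff.2 (cJ a ha z hz), hJS ha⟩
    have d1 := Subgroup.card_dvd_of_le hJK
    have d2 := Subgroup.card_dvd_of_le (inf_le_right : K ≤ S)
    rw [hJcard] at d1; rw [hS] at d2
    have hne : Nat.card K ≠ 27 := fun e => hyJ (by
      rw [Subgroup.eq_of_le_of_card_ge hJK (by rw [e, hJcard])]
      exact ⟨Subgroup.mem_centralizer_singleton_iff.2 hc, hy⟩)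
    have h81' : Nat.card K = 81 := by
      have := Nat.le_of_dvd (by norm_num) d2
      obtain ⟨m, hm⟩ := d1
      rw [hm] at d2 this hne ⊢
      have : m ≤ 3 := by omega
      interval_cases m <;> omega
    have hKS : K = S := Subgroup.eq_of_le_of_card_ge inf_le_right (by rw [h81', hS])
    rw [hZ]
    refine ⟨hJS hz, fun s hs => ?_⟩
    have : s ∈ K := by rw [hKS]; exact hs
    exact Subgroup.mem_centralizer_singleton_iff.1 this.1
  have cube : ∀ y ∈ (S : Subgroup G), y ^ 3 ∈ J := fun y hy => by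
    have h6 := pow_mem (J.pow_index_mem y) 13
    rw [hJi, ← pow_mul] at h6
    have := h81 y hy
    rw [show 81 = 6 * 13 + 3 from rfl, pow_add] at this
    exact (J.mul_mem_cancel_left h6).1 (this ▸ one_mem J)
  letI : CommGroup J := { (inferInstance : Group J) with mul_comm := hJcomm.is_comm.comm }
  have e3 : ∀ a : J, a ^ 3 = 1 := fun a => Subtype.ext (hJexp a a.2)
  have inv1 : ∀ s : G, t * (s * (t * s * t⁻¹)⁻¹) * t⁻¹ = (s * (t * s * t⁻¹)⁻¹)⁻¹ := fun s => by
    simp only [mul_inv_rev, inv_inv, hti, mul_assoc, htt, mul_one]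
  obtain ⟨x, hxS, hxi, hxJ⟩ : ∃ x ∈ (S : Subgroup G), t * x * t⁻¹ = x⁻¹ ∧ x ∉ J := by
    by_contra hc
    push Not at hc
    have inS : ∀ s ∈ (S : Subgroup G), s * (t * s * t⁻¹)⁻¹ ∈ J := fun s hs =>
      hc _ (mul_mem hs (inv_mem (hSn.conj_mem _ hs _))) (inv1 s)
    obtain ⟨y, hy, hyJ⟩ : ∃ y ∈ (S : Subgroup G), y ∉ J := by
      by_contra h; push Not at h
      have := Subgroup.card_le_of_le (show (S : Subgroup G) ≤ J from h)
      omega
    have key := A1 e3 (MulAut.conjNormal y : MulAut J).toMonoidHom (MulAut.conjNormal t : MulAut J).toMonoidHom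
      (fun w => Subtype.ext (by
        change y * (y * (y * w * y⁻¹) * y⁻¹) * y⁻¹ = w
        have := cJ _ (cube y hy) w w.2
        calc _ = y ^ 3 * w * (y ^ 3)⁻¹ := by simp only [pow_three', mul_inv_rev, mul_assoc]
          _ = _ := by rw [this, mul_inv_cancel_right]))
      (fun w => Subtype.ext (by
        change t * (y * w * y⁻¹) * t⁻¹ = y * (t * w * t⁻¹) * y⁻¹
        have := cJ _ (inS y hy) _ (hJn.conj_mem _ (hJn.conj_mem _ w.2 y) t)
        have h2 := mul_inv_eq_of_eq_mul this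
        rw [← h2]; group))
      (fun w hw => Subtype.ext (hZt _ (centr y hy hyJ w w.2 (by
        have : y * w * y⁻¹ = w := congrArg Subtype.val hw
        exact mul_inv_eq_iff_eq_mul.1 this))))
    apply hST
    refine inf_eq_left.2 fun s hs r hr => ?_
    by_cases h1 : (⟨r, hr⟩ : (T : Subgroup G)) = 1
    · obtain rfl : r = 1 := congrArg Subtype.val h1
      simp
    · obtain rfl : r = t := congrArg Subtype.val (htu _ h1)
      have : s * (r * s * r⁻¹)⁻¹ = 1 := congrArg Subtype.val (key ⟨_, inS s hs⟩ (Subtype.ext (inv1 s)))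
      exact mul_inv_eq_iff_eq_mul.1 (mul_inv_eq_one.1 this).symm
  have hx3 : x ^ 3 = 1 := by
    have h1 := hZt _ (centr x hxS hxJ _ (cube x hxS) ((Commute.refl x).pow_right 3).eq)
    rw [← conj_pow, hxi, inv_pow] at h1
    exact sq1 _ (pow_mem hxS _) (by rw [pow_two]; nth_rewrite 1 [← h1]; exact inv_mul_cancel _)
  have hx2 : x⁻¹ = x ^ 2 := inv_eq_of_mul_eq_one_right (by rw [← pow_succ']; exact hx3)
  obtain ⟨v, hv⟩ := A2 e3 (MulAut.conjNormal x : MulAut J).toMonoidHom hJcard (by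
    rw [← hZcard]
    refine Nat.card_le_card_of_injective (fun w => (⟨w.1.1, centr x hxS hxJ _ w.1.2 (by
      have : x * w.1 * x⁻¹ * (w.1 : G)⁻¹ = 1 := congrArg Subtype.val w.2
      exact mul_inv_eq_iff_eq_mul.1 (mul_inv_eq_one.1 this))⟩ : Z)) fun w w' e => ?_
    exact Subtype.ext (Subtype.ext (congrArg (fun z : Z => (z : G)) e)))
  let σ : J →* J := (MulAut.conjNormal x : MulAut J).toMonoidHom
  let τ : J →* J := (MulAut.conjNormal t : MulAut J).toMonoidHom
  have s3 : ∀ w, σ (σ (σ w)) = w := fun w => Subtype.ext (by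
    change x * (x * (x * w * x⁻¹) * x⁻¹) * x⁻¹ = w
    calc _ = x ^ 3 * w * (x ^ 3)⁻¹ := by simp only [pow_three', mul_inv_rev, mul_assoc]
      _ = _ := by rw [hx3]; simp)
  have ts : ∀ w, σ (τ (σ w)) = τ w := fun w => Subtype.ext (by
    change x * (t * (x * w * x⁻¹) * t⁻¹) * x⁻¹ = t * w * t⁻¹
    calc _ = x * (t * x * t⁻¹) * (t * w * t⁻¹) * (x * (t * x * t⁻¹))⁻¹ := by group
      _ = _ := by rw [hxi]; simp)
  have tt : ∀ w, τ (τ w) = w := fun w => Subtype.ext (by
    change t * (t * w * t⁻¹) * t⁻¹ = w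
    rw [hti, ← mul_assoc, ← mul_assoc, htt, one_mul, mul_assoc, htt, mul_one])
  have hv' : v * σ v * σ (σ v) ≠ 1 := hv
  have nZ : τ (v * σ v * σ (σ v)) = v * σ v * σ (σ v) := Subtype.ext (hZt _ (centr x hxS hxJ _ (v * σ v * σ (σ v)).2 (by
    have h1 : σ (v * σ v * σ (σ v)) = v * σ v * σ (σ v) := by simp only [map_mul, s3]; ac_rfl
    have : x * (v * σ v * σ (σ v) : J) * x⁻¹ = (v * σ v * σ (σ v) : J) := congrArg Subtype.val h1
    exact mul_inv_eq_iff_eq_mul.1 this)))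
  have q1 : σ (τ v) = τ (σ (σ v)) := by rw [← ts (σ (σ v)), s3]
  have q2 : σ (σ (τ v)) = τ (σ v) := by rw [q1, ts]
  have hN : (v * τ v) * σ (v * τ v) * σ (σ (v * τ v)) ≠ 1 := fun e => hv' (by
    have : (v * σ v * σ (σ v)) * τ (v * σ v * σ (σ v)) = 1 := by
      rw [← e]; simp only [map_mul, q1, ts]; ac_rfl
    rw [nZ] at this
    exact Subtype.ext (sq1 _ (hJS (v * σ v * σ (σ v)).2) (by rw [pow_two]; exact congrArg Subtype.val this)))
  obtain ⟨a, ha⟩ : ∃ a : J, a = v * τ v := ⟨_, rfl⟩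
  rw [← ha] at hN
  have hta : τ a = a := by rw [ha, map_mul, tt, mul_comm]
  have m1 : x * a * x ^ 2 = (σ a : J) := by rw [← hx2]; rfl
  have m2 : x ^ 2 * a * x = (σ (σ a) : J) := by
    change _ = x * (x * a * x⁻¹) * x⁻¹
    have : x⁻¹ * x⁻¹ = x := by rw [hx2, ← pow_add, show 2 + 2 = 3 + 1 from rfl, pow_succ, hx3, one_mul]
    rw [mul_assoc x, mul_assoc (x * a), this, pow_two]; simp only [mul_assoc]
  have R : Rel (a : G) x t :=
    { ha := hJexp _ a.2, hx := hx3, ht := ht2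
      htx := by rw [← hx2, ← hxi, inv_mul_cancel_right]
      hta := mul_inv_eq_iff_eq_mul.1 (congrArg Subtype.val hta)
      c01 := by rw [m1]; exact cJ _ a.2 _ (σ a).2
      c02 := by rw [m2]; exact cJ _ a.2 _ (σ (σ a)).2
      c12 := by rw [m1, m2]; exact cJ _ (σ a).2 _ (σ (σ a)).2 }
  have hB : B (a : G) x 1 1 1 ≠ 1 := fun e => hN (Subtype.ext (by
    unfold B at e
    rw [pow_one, pow_one, pow_one, m1, m2] at e
    exact e))
  exact iso R relC ((Nat.bijective_iff_injective_and_card _).2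
    ⟨Finj R hB J S hJS a.2 hxS hxJ htS, by rw [hG]; simp⟩) bijC

end Cfsg.Agent.S3376
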