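import Cfsg.Statements.S3389
import Cfsg.Agent.GS.Lem2

set_option autoImplicit false
open Cfsg

namespace Cfsg.Agent.S3389

open Cfsg.Agent.H1

/-- Let G be a finite group acting faithfully and transitively on a finite set Ω with fixity k ≥ 1: every non-identity element fixes at most k points and some non-identity element fixes exactly k points. Then |Z(G)| divides k; if k = 2 then |G| is even; and for every prime p > k dividing |G| and every point α, either p does not divide |G_α| or G_α contains a Sylow p-subgroup of G. -/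
theorem result {G : Type*} [Group G] [Finite G] {Ω : Type*} [Fintype Ω] [MulAction G Ω] [FaithfulSMul G Ω]
    (htr : MulAction.IsPretransitive G Ω) (k : ℕ) (hk : 1 ≤ k)
    (hfix : ∀ g : G, g ≠ 1 → Nat.card (MulAction.fixedBy Ω g) ≤ k) (hex : ∃ g : G, g ≠ 1 ∧ Nat.card (MulAction.fixedBy Ω g) = k) :
    Nat.card (Subgroup.center G) ∣ k ∧ (k = 2 → 2 ∣ Nat.card G) ∧
      ∀ (p : ℕ), p.Prime → k < p → p ∣ Nat.card G → ∀ α : Ω,
        ¬ p ∣ Nat.card (MulAction.stabilizer G α) ∨ ¬ p ∣ (MulAction.stabilizer G α).index := by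
  open Subgroup Pointwise commutatorElement Cfsg.Agent.BG Cfsg.Agent.GS in
  open Cfsg.Agent.H2 hiding card_lt_of_lt card_lt_of_ne_top isMulCommutative_of_le isPGroup_zpowers_iff mem_of_pow_mem_of_coprime inf_eq_bot_of_cop exists_maxElem_ge Sec in
  open Cfsg.Agent.H8 (Op Opp Fit SN) in
  open Cfsg.Agent.L (FPF) in focus
    obtain ⟨g, g1, hg⟩ := hex
    refine ⟨?_, ?_, fun p hp _ _ α => ?_⟩
    · let A : SubMulAction (center G) Ω := ⟨MulAction.fixedBy Ω g, fun c x hx => by
        change g • (c : G) • x = (c : G) • x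
        rw [smul_smul, mem_center_iff.1 c.2, mul_smul, show g • x = x from hx]⟩
      rw [← hg]
      change _ ∣ Nat.card A
      rw [Nat.card_congr (MulAction.selfEquivOrbitsQuotientProd (G := center G) (X := A) fun v => eq_bot_iff.2 fun c hc =>
        Subtype.ext (FaithfulSMul.eq_of_smul_eq_smul (α := Ω) fun x => by
          obtain ⟨y, rfl⟩ := htr.exists_smul_eq (v : Ω) x
          rw [smul_smul, ← mem_center_iff.1 c.2, mul_smul, show (c : G) • (v : Ω) = v from congrArg Subtype.val hc]; simp)), Nat.card_prod]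
      exact dvd_mul_left _ _
    · rintro rfl
      by_contra ho
      obtain ⟨⟨a, ha⟩, ⟨b, hb⟩, hab, -⟩ := Nat.card_eq_two_iff.1 hg
      replace hab : a ≠ b := fun e => hab (Subtype.ext e)
      let H := MulAction.stabilizer G a ⊓ MulAction.stabilizer G b
      have h1 : ∀ h ∈ H, h ≠ 1 → ∀ c, h • c = c → c = a ∨ c = b := fun h hh h1 c hc => by
        have : ({a, b} : Set Ω) = MulAction.fixedBy Ω h := Set.eq_of_subset_of_ncard_le (by rintro _ (rfl | rfl); exacts [hh.1, hh.2])
          (by rw [Set.ncard_pair hab]; exact hfix h h1)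
        exact this.ge hc
      have hF : IsFrobeniusComplement H := by
        refine ⟨fun e => g1 (mem_bot.1 (e.le ⟨ha, hb⟩)), fun e => ?_, fun x hx => eq_bot_iff.2 fun h hh => by_contra fun h0 => hx ?_⟩
        · obtain ⟨y, hy⟩ := htr.exists_smul_eq a b
          exact hab ((e.ge (mem_top y)).1.symm.trans hy)
        have h2 := H1.mem_conj_smul.1 hh.2
        have h3 := h1 h hh.1 h0 (x • a) (by simpa [mul_smul, inv_smul_eq_iff] using h2.1)
        have h4 := h1 h hh.1 h0 (x • b) (by simpa [mul_smul, inv_smul_eq_iff] using h2.2)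
        have h5 : x • a ≠ x • b := fun e => hab (smul_left_cancel x e)
        have h6 : x • a = a := h3.resolve_right fun e => hab (Eq.trans (Eq.symm (H1.mem_of_pow_mem_of_coprime (H := MulAction.stabilizer G a) (n := 2)
          (by rw [MulAction.mem_stabilizer_iff, pow_two, mul_smul, e, h4.resolve_right fun e' => h5 (e.trans e'.symm)])
          ((Nat.prime_two.coprime_iff_not_dvd.2 ho).coprime_dvd_right (orderOf_dvd_natCard x)))) e)
        exact ⟨h6, h4.resolve_left fun e => h5 (h6.trans e.symm)⟩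
      obtain ⟨K, hK, h2, -, h3, -⟩ := exists_frobKernel hF
      obtain ⟨y, hy⟩ := htr.exists_smul_eq a b
      have h4 : y⁻¹ * g * y ∈ MulAction.stabilizer G a := by simp [mul_smul, hy, show g • b = b from hb, inv_smul_eq_iff]
      obtain ⟨u, hu, v, hv, h5⟩ := mem_sup_of_normal_left.1 (h2.ge (mem_top (y⁻¹ * g * y)))
      obtain ⟨w, hw, h6⟩ := (h3.mono (inf_le_left : K ⊓ MulAction.stabilizer G a ≤ K) le_rfl).exists_conj_mem
        (le_normalizer_inf le_normalizer_of_normal (inf_le_left.trans le_normalizer)) (x := y⁻¹ * g * y)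
        (h5 ▸ mul_mem_sup ⟨hu, ((MulAction.stabilizer G a).mul_mem_cancel_right hv.1).1 (h5 ▸ h4)⟩ hv)
        fun e => g1 (mem_bot.1 (h3.inf_eq_bot.le ⟨by simpa [mul_assoc] using hK.conj_mem _ e.1 y, ha, hb⟩))
      have h7 := L.mem_of_conj_mem_of_frobenius hF (g := (y * w)⁻¹) ⟨ha, hb⟩ g1 (by simpa [mul_assoc] using h6)
      exact hab (Eq.trans (Eq.symm (((MulAction.stabilizer G a).mul_mem_cancel_right hw.2).1 (inv_mem_iff.1 h7).1)) hy)
    haveI := Fact.mk hp
    by_contra! hc
    obtain ⟨P, hP⟩ := exists_sylIn p (MulAction.stabilizer G α)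
    obtain ⟨Q, hQ, h1⟩ := exists_sylIn_ge hP.pgrp le_top
    obtain ⟨x, hx, hxP⟩ := SetLike.exists_of_lt (lt_inf_normalizer_of_isNilpotent hQ.pgrp.isNilpotent (lt_of_le_of_ne h1 (by
      rintro rfl
      exact hQ.not_dvd_relIndex_of_le hP.le (by simpa using hc.2))))
    obtain ⟨⟨y, hy⟩, y1⟩ := ne_bot_iff_exists_ne_one.1 (hP.ne_bot hc.1)
    have h2 : IsPGroup p (zpowers x) := hQ.pgrp.to_le (zpowers_le.2 hx.1)
    obtain ⟨n, hn⟩ := h2.card_orbit α
    have h3 : Nat.card (MulAction.orbit (zpowers x) α) ≤ k := le_trans (Set.ncard_le_ncard (t := MulAction.fixedBy Ω y) (by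
        rintro _ ⟨c, rfl⟩
        have := hP.le ((mem_normalizer_iff''.1 (zpowers_le.2 hx.2 c.2) y).1 hy)
        change y • (c : G) • α = (c : G) • α
        simpa [mul_smul, inv_smul_eq_iff] using this)) (hfix y fun e => y1 (Subtype.ext e))
    have h4 : n = 0 := by_contra fun e => absurd (Nat.le_self_pow e p) (by omega)
    rw [h4, pow_zero, Nat.card_eq_one_iff_unique] at hn
    refine hxP (hP.le_of_le_normalizer h2 (zpowers_le.2 ?_) (zpowers_le.2 hx.2) (mem_zpowers x))
    exact congrArg Subtype.val (hn.1.elim ⟨_, MulAction.mem_orbit α ⟨x, mem_zpowers x⟩⟩ ⟨α, MulAction.mem_orbit_self α⟩)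

end Cfsg.Agent.S3389
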