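import Cfsg.Statements.S3419
import Cfsg.Agent.GS.Spec2

set_option autoImplicit false
open Cfsg

namespace Cfsg.Agent.S3419

open Cfsg.Agent.H1

/-- Let n ≥ 5 and let G be a finite group with the same order and the same set of element orders as the alternating group of degree n. Then G is not solvable. -/
theorem result {G : Type*} [Group G] [Finite G] (n : ℕ) (hn : 5 ≤ n)
    (hcard : Nat.card G = Nat.card ↥(alternatingGroup (Fin n)))
    (hspec : Set.range (orderOf : G → ℕ) = Set.range (orderOf : ↥(alternatingGroup (Fin n)) → ℕ)) :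
    ¬ Group.IsSolvable G := by
  open Subgroup Pointwise commutatorElement Cfsg.Agent.BG Cfsg.Agent.GS in
  open Cfsg.Agent.H2 hiding card_lt_of_lt card_lt_of_ne_top isMulCommutative_of_le isPGroup_zpowers_iff mem_of_pow_mem_of_coprime inf_eq_bot_of_cop exists_maxElem_ge Sec in
  open Cfsg.Agent.H8 (Op Opp Fit SN) in
  open Cfsg.Agent.L (FPF) in focus
    have c : 2 * ♯G = n.factorial := by
      haveI : Nontrivial (Fin n) := Fin.nontrivial_iff_two_le.2 (by omega)
      rw [hcard, two_mul_nat_card_alternatingGroup, Nat.card_perm, Nat.card_eq_fintype_card, Fintype.card_fin]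
    have key : ∀ r p : ℕ, r.Prime → p.Prime → 2 < r → r < p → p ≤ n → n < p + r → (∀ k, 0 < k → p ^ k ∣ n.factorial → ¬ r ∣ p ^ k - 1) →
        (∀ k, 0 < k → r ^ k ∣ n.factorial → ¬ p ∣ r ^ k - 1) → ¬ Group.IsSolvable G := fun r p hr hp a b d e f g => by
      have k : ∀ s : ℕ, s.Prime → 2 < s → s ≤ n → s ∣ ♯G := fun s hs a b =>
        (hs.dvd_mul.1 (c ▸ (hs.dvd_factorial.2 b))).resolve_left fun e => (Nat.le_of_dvd two_pos e).not_gt a
      exact not_solv_of_pair hp hr b.ne' (k p hp (by omega) d) (k r hr a (by omega))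
        (fun h => (add_le_of_mem_spec hp hr b.ne' (by rwa [spec, ← hspec])).not_gt e)
        (fun k a b => f k a (b.trans (c ▸ dvd_mul_left _ _))) fun k a b => g k a (b.trans (c ▸ dvd_mul_left _ _))
    have s : ∀ {p r m k : ℕ}, ¬ p ^ 3 ∣ m → ¬ r ∣ p - 1 → (p ^ 2 ∣ m → ¬ r ∣ p ^ 2 - 1) → 0 < k → p ^ k ∣ m → ¬ r ∣ p ^ k - 1 :=
      fun {p r m k} a b c d e => by
        have : k < 3 := not_le.1 fun f => a ((pow_dvd_pow p f).trans e)
        interval_cases k
        exacts [by simpa using b, c e]
    rcases lt_or_ge n 11 with h | h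
    · interval_cases n
      iterate 2 exact key 3 5 (by decide) (by decide) (by decide) (by decide) (by decide) (by decide) (fun _ => s (by decide) (by decide) (by decide)) (fun _ => s (by decide) (by decide) (by decide))
      iterate 4 exact key 5 7 (by decide) (by decide) (by decide) (by decide) (by decide) (by decide) (fun _ => s (by decide) (by decide) (by decide)) (fun _ => s (by decide) (by decide) (by decide))
    · obtain ⟨r, p, hr, hp, a, b, d⟩ := two_primes h
      exact key r p hr hp (by omega) b d (by omega) (fun _ => big_prime hp hr (by omega) (by omega) a) fun _ => big_prime hr hp (by omega) a (by omega)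

end Cfsg.Agent.S3419
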