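import Cfsg.Statements.S3420
import Cfsg.Agent.GS.Spec2

set_option autoImplicit false
open Cfsg

namespace Cfsg.Agent.S3420

open Cfsg.Agent.H1

/-- Let n ≥ 11 and let G be a finite group with the same order and the same set of element orders as the alternating group of degree n. Then G has normal subgroups N < H such that H/N is a non-abelian simple group whose order is divisible by every prime p with n/2 < p ≤ n. -/
theorem result {G : Type*} [Group G] [Finite G] (n : ℕ) (hn : 11 ≤ n)
    (hcard : Nat.card G = Nat.card ↥(alternatingGroup (Fin n)))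
    (hspec : Set.range (orderOf : G → ℕ) = Set.range (orderOf : ↥(alternatingGroup (Fin n)) → ℕ)) :
    ∃ (N H : Subgroup G) (_ : N.Normal), H.Normal ∧ N < H ∧
      IsSimpleGroup (↥H ⧸ N.subgroupOf H) ∧ ¬ IsMulCommutative (↥H ⧸ N.subgroupOf H) ∧
      ∀ p : ℕ, p.Prime → n < 2 * p → p ≤ n → p ∣ Nat.card (↥H ⧸ N.subgroupOf H) := by
  open Subgroup Pointwise commutatorElement Cfsg.Agent.BG Cfsg.Agent.GS in
  open Cfsg.Agent.H2 hiding card_lt_of_lt card_lt_of_ne_top isMulCommutative_of_le isPGroup_zpowers_iff mem_of_pow_mem_of_coprime inf_eq_bot_of_cop exists_maxElem_ge Sec in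
  open Cfsg.Agent.H8 (Op Opp Fit SN) in
  open Cfsg.Agent.L (FPF) in focus
    have c : 2 * ♯G = n.factorial := by
      haveI : Nontrivial (Fin n) := Fin.nontrivial_iff_two_le.2 (by omega)
      rw [hcard, two_mul_nat_card_alternatingGroup, Nat.card_perm, Nat.card_eq_fintype_card, Fintype.card_fin]
    have c' : ♯G ∣ n.factorial := c ▸ dvd_mul_left _ _
    have k : ∀ s : ℕ, s.Prime → n < 2 * s → s ≤ n → s ∣ ♯G := fun s hs a b =>
      (hs.dvd_mul.1 (c ▸ (hs.dvd_factorial.2 b))).resolve_left fun e => by have := Nat.le_of_dvd two_pos e; omega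
    have key : ∀ (K : Subgroup G) [K.Normal] (p r : ℕ), p.Prime → r.Prime → n < 2 * p → n < 2 * r → r ≤ n → p ∣ ♯K → r ∣ ♯K :=
      fun K _ p r hp hr a b d e => by
        rcases eq_or_ne p r with rfl | f
        · exact e
        refine (hr.dvd_mul.1 (K.card_mul_index ▸ k r hr b d)).resolve_right fun g => ?_
        rcases mul_mem_spec_or hp hr f e g with h | ⟨k, h1, h2, h3⟩
        · have := add_le_of_mem_spec (n := n) hp hr f (by rwa [spec, ← hspec])
          omega
        · exact big_prime hp hr (by omega) a b h1 (h2.trans c') h3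
    obtain ⟨r, p, hr, hp, a, b, d⟩ := two_primes hn
    obtain ⟨N, H, _, _, e, f, g, h⟩ := exists_simple_chief hp (k p hp (by omega) d) fun e =>
      absurd (le_one_of_pow_dvd_factorial hp (by omega) (e.trans c')) (by decide)
    have i : ∀ s : ℕ, s.Prime → n < 2 * s → s ≤ n → s ∣ ♯(H ⧸ N.subgroupOf H) := fun s hs a' b' =>
      (hs.dvd_mul.1 (card_mul_relIndex e.le ▸ key H p s hp hs (by omega) a' b' h)).resolve_left fun j => g (key N s p hs hp a' (by omega) d j)
    refine ⟨N, H, ‹_›, ‹_›, e, f, fun j => ?_, i⟩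
    have := (Group.is_simple_iff_prime_card (α := H ⧸ N.subgroupOf H)).1 f
    exact b.ne (((Nat.prime_dvd_prime_iff_eq hr this).1 (i r hr a (by omega))).trans ((Nat.prime_dvd_prime_iff_eq hp this).1 (i p hp (by omega) d)).symm)

end Cfsg.Agent.S3420
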