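import Cfsg.Statements.S3496
import Mathlib
import Cfsg.Agent.H7.EP
import Cfsg.Agent.H1.Cores
import Cfsg.Agent.H1.Frattini
import Cfsg.Agent.PF.S09h

set_option autoImplicit false
open Cfsg

namespace Cfsg.Agent.S3496

open Cfsg.Agent.H7 MulAction Subgroup Polynomial

theorem exists_frob {F : Type*} [Field F] [Finite F] {p : ℕ} [Fact p.Prime] [CharP F p] (τ : F →+ F)
    (hτ : τ 1 ≠ 0) {c c' : F} (h : ∀ y, τ (c * y) = c' * τ y) : ∃ j, c' = c ^ p ^ j := by
  let _ := ZMod.algebra F p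
  have h1 : ∀ P : (ZMod p)[X], ∀ y, τ (aeval c P * y) = aeval c' P * τ y := fun P => by
    induction P using Polynomial.induction_on with
    | C a => intro y; rw [aeval_C, aeval_C, ← Algebra.smul_def, ← Algebra.smul_def]; exact ZMod.map_smul τ a y
    | add P Q hP hQ => intro y; simp only [map_add, add_mul, hP, hQ]
    | monomial n a hn =>
      intro y
      rw [pow_succ, ← mul_assoc, map_mul (aeval c), map_mul (aeval c'), aeval_X, aeval_X, mul_assoc, hn, h]; ring
  have h2 := h1 (minpoly (ZMod p) c) 1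
  rw [minpoly.aeval, zero_mul, map_zero, eq_comm, mul_eq_zero] at h2
  obtain ⟨σ, hσ⟩ := (isConjRoot_of_aeval_eq_zero (Algebra.IsIntegral.isIntegral c)
    (h2.resolve_right hτ)).symm.exists_algEquiv
  obtain ⟨j, rfl⟩ := (FiniteField.bijective_frobeniusAlgEquivOfAlgebraic_pow (ZMod p) F).2 σ
  refine ⟨j, hσ.symm.trans ?_⟩
  rw [AlgEquiv.coe_pow, FiniteField.coe_frobeniusAlgEquivOfAlgebraic_iterate, ZMod.card]

/-- The soluble extremely primitive groups. Let a finite solvable group G act faithfully and primitively on a finite set Ω with p ^ d points (p prime), with non-trivial point stabilizers each acting primitively on every one of its orbits. Then there is a prime q such that every orbit of a point stabilizer G_α other than {α} has exactly q points, q divides p ^ d − 1 but no p ^ i − 1 with 0 < i < d, and G_α has a normal subgroup T of order q with G_α generated by T and one further element and the order of G_α dividing q·d (so G_α is cyclic of order q, or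 an extension of T by a cyclic group of order dividing d). -/
theorem result {G : Type*} [Group G] [Finite G] {Ω : Type*} [Fintype Ω] [MulAction G Ω] [FaithfulSMul G Ω] [Group.IsSolvable G] (p d : ℕ) (hp : p.Prime) (hcard : Fintype.card Ω = p ^ d)
    (hprim : MulAction.IsPreprimitive G Ω) (hH : ∀ α : Ω, MulAction.stabilizer G α ≠ ⊥) (hep : ∀ (α : Ω) (ω : Ω), MulAction.IsPreprimitive (MulAction.stabilizer G α) (MulAction.orbit (MulAction.stabilizer G α) ω)) (α : Ω) :
    ∃ q : ℕ, q.Prime ∧ (∀ ω : Ω, ω ≠ α → Nat.card (MulAction.orbit (MulAction.stabilizer G α) ω) = q) ∧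
      q ∣ p ^ d - 1 ∧ (∀ i : ℕ, 0 < i → i < d → ¬ q ∣ p ^ i - 1) ∧
      ∃ T : Subgroup G, T ≤ MulAction.stabilizer G α ∧ MulAction.stabilizer G α ≤ Subgroup.normalizer (T : Set G) ∧ Nat.card T = q ∧
        (∃ h : G, MulAction.stabilizer G α = T ⊔ Subgroup.zpowers h) ∧ Nat.card (MulAction.stabilizer G α) ∣ q * d := by
  have := Fact.mk hp
  have : Nontrivial (stabilizer G α) := (nontrivial_iff_ne_bot _).2 (hH α)
  have : Nontrivial G := (stabilizer G α).subtype_injective.nontrivial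
  obtain ⟨x, hx⟩ : ∃ x, x ≠ α := by
    by_contra! h
    exact hH α (eq_bot_iff.2 fun g _ => eq_one_of_fix (α := Ω) fun y => (h _).trans (h _).symm)
  have hf := fun y (hy : y ≠ α) => EP.faithful hep hH hy
  have hN := H1.fittingSubgroup_ne_bot (G := G) inferInstance
  obtain ⟨n1, n2, -⟩ := prim_nil (Ω := Ω) _ hN
  have hNn : (fittingSubgroup G).Normal := inferInstance
  generalize fittingSubgroup G = N at *
  have n3 : ∀ u ∈ N, ∀ v ∈ N, u * v = v * u := fun u hu v hv => n2.ge hv u hu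
  have n4 := stabilizer_eq_bot_of_comm n3 n1 α
  have : IsMulCommutative N := ⟨⟨fun u v => Subtype.ext (n3 _ u.2 _ v.2)⟩⟩
  have hT := H1.fittingSubgroup_ne_bot (G := stabilizer G α) inferInstance
  have := hf x hx
  have := hep α x
  obtain ⟨-, t2, q, hq, t3⟩ := prim_nil (Ω := orbit (stabilizer G α) x) _ hT
  have hTn : (fittingSubgroup (stabilizer G α)).Normal := inferInstance
  generalize fittingSubgroup (stabilizer G α) = T at *
  have t4 : ∀ u ∈ T, ∀ v ∈ T, u * v = v * u := fun u hu v hv => t2.ge hv u hu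
  have t5 : ∀ y, y ≠ α → Nat.card (orbit (stabilizer G α) y) = Nat.card T := fun y hy => by
    have := hf y hy
    have := hep α y
    have := normal_trans (α := orbit (stabilizer G α) y) _ hT
    exact (card_eq_of_regular (stabilizer_eq_bot_of_comm t4 this ⟨y, mem_orbit_self y⟩)).symm
  have t6 : stabilizer G α ≤ normalizer (T.map (stabilizer G α).subtype : Set G) := by
    intro g hg
    refine H1.mem_normalizer_of_conj_mem ?_
    rintro _ ⟨u, hu, rfl⟩
    exact ⟨_, hTn.conj_mem u hu ⟨g, hg⟩, rfl⟩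
  have hirr := EP.irr hep hH (mt (map_eq_bot_iff_of_injective _ (subtype_injective _)).1 hT) (map_subtype_le T)
    t6 n4
  obtain ⟨⟨w, hw⟩, hw1⟩ := ne_bot_iff_exists_ne_one.1 hN
  obtain ⟨F, _, _, f, f1, f2, f3, f4, f5⟩ := PF.irr_field (A := T.map (stabilizer G α).subtype)
    le_normalizer_of_normal (commutator_le.2 (by
      rintro _ ⟨u, hu, rfl⟩ _ ⟨v, hv, rfl⟩
      rw [← map_commutatorElement, commutatorElement_eq_one_iff_mul_comm.2 (t4 u hu v hv), map_one]
      exact one_mem _)) hirr hw (fun e => hw1 (Subtype.ext e))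
  rw [card_eq_of_regular n4, Nat.card_eq_fintype_card, hcard] at f1
  have := charP_of_card_eq_prime_pow f1
  have f6 : ∀ u : G, ∀ y ∈ N, u * y * u⁻¹ ∈ N := fun u y hy => hNn.conj_mem y hy u
  have f7 : f 1 = 0 := by simpa using f3 1 (one_mem _) 1 (one_mem _)
  have f8 : ∀ u : T, ∀ y ∈ N, f (u * y * (u : G)⁻¹) = f (u * w * (u : G)⁻¹) * f y := fun u y hy => by
    obtain ⟨c, hc⟩ := f4 u ⟨u, u.2, rfl⟩
    rw [hc y hy, hc w hw, f5, mul_one]
  let c : T →* F := ⟨⟨fun u => f (u * w * (u : G)⁻¹), by simpa⟩, fun u v => by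
    rw [← f8 u _ (f6 _ _ hw)]; simp [mul_assoc]⟩
  have c1 : Function.Injective c := (injective_iff_map_eq_one c).2 fun u hu => Subtype.ext (Subtype.ext
    (eq_one_of_fix (α := Ω) fun y => by
      obtain ⟨n, rfl⟩ := n1.exists_smul_eq α y
      have h := f2.injOn (f6 u n n.2) n.2 ((f8 u n n.2).trans (by rw [show f _ = 1 from hu, one_mul]))
      rw [Subgroup.smul_def, ← mul_smul, mul_inv_eq_iff_eq_mul.1 h, mul_smul, u.1.2]))
  have := isCyclic_of_injective_ringHom c c1
  have : Nontrivial T := (nontrivial_iff_ne_bot _).2 hT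
  obtain ⟨t, ht⟩ := IsCyclic.exists_generator (α := T)
  have t7 : orderOf t = q := by
    have := Fact.mk hq
    refine orderOf_eq_prime (Subtype.ext (t3 _ t.2)) ?_
    rintro rfl
    obtain ⟨u, hu⟩ := exists_ne (1 : T)
    simpa [hu] using ht u
  have t8 : Nat.card T = q := (orderOf_eq_card_of_forall_mem_zpowers ht).symm.trans t7
  have t9 : orderOf (c t) = q := (orderOf_injective c c1 t).trans t7
  have d1 : q ∣ p ^ d - 1 := by
    rw [← t9, ← f1]
    exact orderOf_dvd_of_pow_eq_one (FiniteField.pow_card_sub_one_eq_one _ ((Group.isUnit t).map c).ne_zero)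
  have d2 : ∀ (u : F) i, q ∣ p ^ i - 1 → u ^ q = 1 → u ^ p ^ i = u := fun u i ⟨k, hk⟩ hu => by
    rw [Nat.eq_add_of_sub_eq (Nat.one_le_pow _ _ hp.pos) hk, pow_succ, pow_mul, hu, one_pow, one_mul]
  have := Fact.mk hq
  let φ : stabilizer G α →* MulAut T := MulAut.conjNormal
  have p1 : φ.ker = T := by
    refine Eq.trans (b := centralizer (T : Set (stabilizer G α)))
      (Subgroup.ext fun g => ⟨fun h u hu => ?_, fun h => MulEquiv.ext fun u => Subtype.ext ?_⟩) t2
    · exact (mul_inv_eq_iff_eq_mul.1 (congrArg Subtype.val (MulEquiv.congr_fun (show φ g = 1 from h) ⟨u, hu⟩))).symm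
    · exact mul_inv_eq_iff_eq_mul.2 (h u u.2).symm
  have : IsCyclic (MulAut T) := (MulEquiv.isCyclic (IsCyclic.mulAutMulEquiv T)).2 (t8 ▸ inferInstance)
  obtain ⟨⟨_, h, rfl⟩, hh⟩ := IsCyclic.exists_generator (α := φ.range)
  refine ⟨q, hq, fun y hy => (t5 y hy).trans t8, d1, fun i hi hid h => ?_, _, map_subtype_le T, t6,
    (card_map_of_injective (subtype_injective _)).trans t8, ⟨h, le_antisymm (fun g hg => ?_)
      (sup_le (map_subtype_le T) (zpowers_le.2 h.2))⟩, ?_⟩
  · let L : Subgroup G := ⟨⟨⟨{y | y ∈ N ∧ f y ^ p ^ i = f y}, fun ha hb => ⟨mul_mem ha.1 hb.1, by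
      rw [f3 _ ha.1 _ hb.1, add_pow_char_pow, ha.2, hb.2]⟩⟩, one_mem _, by simp [f7, hp.ne_zero]⟩,
      fun {y} hy => ⟨inv_mem hy.1, by
        have := f3 _ (inv_mem hy.1) _ hy.1
        rw [inv_mul_cancel, f7] at this
        rw [eq_neg_of_add_eq_zero_left this.symm, neg_pow, neg_one_pow_char_pow, hy.2, neg_one_mul]⟩⟩
    have h1 := (hirr L (fun y hy => hy.1) (by
      rintro _ ⟨u, hu, rfl⟩
      refine H1.mem_normalizer_of_conj_mem fun y hy => ⟨f6 _ _ hy.1, ?_⟩
      have := f8 ⟨u, hu⟩ y hy.1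
      change f (u * y * (u : G)⁻¹) ^ p ^ i = f (u * y * (u : G)⁻¹)
      rw [this, mul_pow, hy.2]
      exact congrArg (· * f y) (d2 (c ⟨u, hu⟩) i h (by rw [← map_pow, ← t8, pow_card_eq_one', map_one])))).resolve_left
        fun e => hw1 (Subtype.ext (e.le (show w ∈ L from ⟨hw, by rw [f5, one_pow]⟩)))
    have h2 := (FiniteField.forall_pow_eq_one_iff F (p ^ i - 1)).1 fun y => by
      obtain ⟨z, hz, e⟩ := f2.surjOn (Set.mem_univ (y : F))
      refine mul_right_cancel (b := y) (Units.ext ?_)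
      rw [← pow_succ, Nat.sub_add_cancel (Nat.one_le_pow _ _ hp.pos), one_mul, Units.val_pow_eq_pow_val, ← e]
      exact (h1.ge hz).2
    have h3 := Nat.one_lt_pow hi.ne' hp.one_lt
    have h4 := Nat.pow_lt_pow_right hp.one_lt hid
    have := Nat.le_of_dvd (by omega) h2
    omega
  · obtain ⟨k, hk⟩ := hh ⟨_, ⟨g, hg⟩, rfl⟩
    have h1 : ⟨g, hg⟩ * (h ^ k)⁻¹ ∈ T := p1.le (by
      rw [MonoidHom.mem_ker, map_mul, map_inv, map_zpow, mul_inv_eq_one]; exact (congrArg Subtype.val hk).symm)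
    simpa using mul_mem_sup (mem_map_of_mem (stabilizer G α).subtype h1) (zpow_mem (mem_zpowers (h : G)) k)
  rw [← φ.ker.card_mul_index, index_ker, p1, t8, ← orderOf_eq_card_of_forall_mem_zpowers hh, ← orderOf_coe]
  refine Nat.mul_dvd_mul_left q (orderOf_dvd_of_pow_eq_one ?_)
  choose! g hg using fun y : F => f2.surjOn (Set.mem_univ y)
  obtain ⟨j, hj⟩ := exists_frob (p := p) (AddMonoidHom.mk' (fun y => f (h * g y * (h : G)⁻¹)) fun y z => by
      rw [← f3 _ (f6 _ _ (hg y).1) _ (f6 _ _ (hg z).1), f2.injOn (hg _).1 (mul_mem (hg y).1 (hg z).1)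
        (by rw [f3 _ (hg y).1 _ (hg z).1, (hg y).2, (hg z).2, (hg _).2])]
      simp [mul_assoc])
    (fun e => one_ne_zero (α := F) (by
      have := f2.injOn (f6 _ _ (hg 1).1) (one_mem _) (e.trans f7.symm)
      rw [← (hg 1).2, conj_eq_one_iff.1 this, f7])) (c := c t) (c' := c (φ h t)) fun y => by
      refine Eq.trans ?_ (f8 (φ h t) _ (f6 _ _ (hg y).1))
      rw [AddMonoidHom.mk'_apply, f2.injOn (hg _).1 (f6 t _ (hg y).1) (by rw [f8 t _ (hg y).1, (hg y).2, (hg _).2]; rfl)]
      simp [φ, mul_assoc]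
  have h1 : φ h t = t ^ p ^ j := c1 (hj.trans (map_pow _ _ _).symm)
  have h2 : ∀ n, (φ h ^ n) t = t ^ p ^ (j * n) := fun n => by
    induction n with
    | zero => simp
    | succ n ih => rw [pow_succ', MulAut.mul_apply, ih, map_pow, h1, ← pow_mul, ← pow_add, mul_add, mul_one, add_comm]
  refine MulEquiv.toMonoidHom_injective (MonoidHom.eq_of_eqOn_dense (s := {t}) ?_ ?_)
  · rw [← zpowers_eq_closure]; exact eq_top_iff.2 fun u _ => ht u
  · rintro _ rfl
    refine (h2 d).trans (c1 ?_)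
    rw [map_pow, d2 _ _ (d1.trans ?_) (t9 ▸ pow_orderOf_eq_one _)]
    · rfl
    · rw [mul_comm, pow_mul]; simpa using Nat.sub_dvd_pow_sub_pow (p ^ d) 1 j

end Cfsg.Agent.S3496
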