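import Cfsg.Statements.S3497
import Mathlib
import Cfsg.Agent.H7.EP
import Cfsg.Agent.H1.Cores

set_option autoImplicit false
open Cfsg

namespace Cfsg.Agent.S3497

open Cfsg.Agent.H7 MulAction Subgroup

/-- Restrictions on the point stabilizer of an extremely primitive group. Let a finite group G act faithfully and primitively on a finite set Ω with point stabilizers H = G_α whose order is neither 1 nor a prime, each acting primitively on every one of its orbits. Then H has trivial center, the Fitting subgroup F(H) is an elementary abelian p-group for some prime p, and if F(H) ≠ 1 has order p ^ e then p ^ e divides the number of points minus one and H / F(H) embeds in GL_e(p) (there is a homomorphism from H to GL_e(p) with kernel exactly F(H)). -/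
theorem result {G : Type*} [Group G] [Finite G] {Ω : Type*} [Fintype Ω] [MulAction G Ω] [FaithfulSMul G Ω] (hprim : MulAction.IsPreprimitive G Ω) (hep : ∀ (α : Ω) (ω : Ω), MulAction.IsPreprimitive (MulAction.stabilizer G α) (MulAction.orbit (MulAction.stabilizer G α) ω)) (α : Ω)
    (hH1 : MulAction.stabilizer G α ≠ ⊥) (hHp : ¬ (Nat.card (MulAction.stabilizer G α)).Prime) :
    Subgroup.center (MulAction.stabilizer G α) = ⊥ ∧
    IsMulCommutative (Cfsg.fittingSubgroup (MulAction.stabilizer G α)) ∧
    ∃ p e : ℕ, p.Prime ∧ Nat.card (Cfsg.fittingSubgroup (MulAction.stabilizer G α)) = p ^ e ∧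
      (∀ x ∈ Cfsg.fittingSubgroup (MulAction.stabilizer G α), x ^ p = 1) ∧
      (Cfsg.fittingSubgroup (MulAction.stabilizer G α) ≠ ⊥ →
        p ^ e ∣ Fintype.card Ω - 1 ∧
        ∃ φ : MulAction.stabilizer G α →* GL (Fin e) (ZMod p), φ.ker = Cfsg.fittingSubgroup (MulAction.stabilizer G α)) := by
  have hH : ∀ a : Ω, stabilizer G a ≠ ⊥ := fun a e => hH1 (card_eq_one.1
    ((card_stabilizer_eq_of_transitive α a).trans (card_eq_one.2 e)))
  obtain ⟨x, hx⟩ : ∃ x, x ≠ α := by
    by_contra! h
    exact hH1 (eq_bot_iff.2 fun g _ => eq_one_of_fix (α := Ω) fun y => (h _).trans (h _).symm)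
  have hf := fun y (hy : y ≠ α) => EP.faithful hep hH hy
  have := hf x hx
  have := hep α x
  refine ⟨by_contra fun h => hHp (prime_card_of_isCoatom_bot ?_).2, ?_⟩
  · have : Nontrivial (orbit (stabilizer G α) x) := by
      by_contra e
      have := not_nontrivial_iff_subsingleton.1 e
      exact hH1 (eq_bot_iff.2 fun g hg => congrArg Subtype.val (eq_one_of_fix (α := orbit (stabilizer G α) x)
        (g := (⟨g, hg⟩ : stabilizer G α)) fun _ => Subsingleton.elim _ _))
    have h1 := IsPreprimitive.isCoatom_stabilizer_of_isPreprimitive (stabilizer G α)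
      (⟨x, mem_orbit_self x⟩ : orbit (stabilizer G α) x)
    convert h1
    exact (eq_bot_iff.2 fun g hg => reg_of_comm (normal_trans _ h) (fun n hn => mem_center_iff.1 hn g) hg).symm
  by_cases h : fittingSubgroup (stabilizer G α) = ⊥
  · rw [h]
    exact ⟨inferInstance, 2, 0, Nat.prime_two, by simp, by simp, by simp⟩
  obtain ⟨-, h2, p, hp, h3⟩ := prim_nil (Ω := orbit (stabilizer G α) x) _ h
  have h4 : ∀ u ∈ fittingSubgroup (stabilizer G α), ∀ v ∈ fittingSubgroup (stabilizer G α), u * v = v * u :=
    fun u hu v hv => h2.ge hv u hu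
  have h5 : IsMulCommutative (fittingSubgroup (stabilizer G α)) := ⟨⟨fun u v => Subtype.ext (h4 _ u.2 _ v.2)⟩⟩
  have := Fact.mk hp
  obtain ⟨e, h6, φ, h7⟩ := exists_GL _ h3
  refine ⟨h5, p, e, hp, h6, h3, fun _ => ⟨?_, φ, h7.trans h2⟩⟩
  rw [← h6, ← Nat.card_eq_fintype_card]
  refine card_dvd_card_sub_one α (fun g => g.1.2) fun y hy g hg => Subtype.ext ?_
  have := hf y hy
  have := hep α y
  exact reg_of_comm (normal_trans (α := orbit (stabilizer G α) y) _ h) (h4 _ g.2) (a := ⟨y, mem_orbit_self y⟩)
    (Subtype.ext hg)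

end Cfsg.Agent.S3497
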