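import Cfsg.Statements.S3498
import Mathlib
import Cfsg.Agent.H7.PS
import Cfsg.Agent.S0042
import Cfsg.Agent.S0035
import Cfsg.Agent.H1.Basic

set_option autoImplicit false
open Cfsg

namespace Cfsg.Agent.S3498

open Cfsg.Agent.H7 Subgroup
open scoped Pointwise

/-- A maximal subgroup of a finite almost simple group does not have prime order. Here G is almost simple in the sense that it has a non-abelian simple normal subgroup T with trivial centralizer. -/
theorem result {G : Type*} [Group G] [Finite G] (T : Subgroup G) [T.Normal] (hT : IsSimpleGroup T) (hTc : ¬ IsMulCommutative T)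
    (hC : Subgroup.centralizer (T : Set G) = ⊥) (H : Subgroup G) (hmax : IsCoatom H) : ¬ (Nat.card H).Prime := by
  intro hp
  have := Fact.mk hp
  have h0 : ∀ K : Subgroup G, K ≤ H → K = ⊥ ∨ K = H := fun K hK =>
    ((Nat.dvd_prime hp).1 (card_dvd_of_le hK)).imp card_eq_one.1 fun e => eq_of_le_of_card_ge hK e.ge
  have h1 : ∀ N : Subgroup G, N.Normal → N = ⊥ ∨ T ≤ N := fun N hN =>
    (hT.eq_bot_or_eq_top_of_normal (N.subgroupOf T) inferInstance).imp (fun e => eq_bot_iff.2 (hC ▸ fun n hn t ht =>
      (commute_of_normal_of_disjoint T N inferInstance hN (subgroupOf_eq_bot.1 e).symm t n ht hn).eq))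
      subgroupOf_eq_top.1
  have h2 : ∀ N : Subgroup G, T ≤ N → ¬ Group.IsSolvable N := fun N hN hs => hTc ⟨⟨IsSimpleGroup.comm_iff_isSolvable.2
    (H1.isSolvable_of_le hN hs)⟩⟩
  have h3 : H ≠ ⊥ := fun e => hp.ne_one (card_eq_one.2 e)
  have h4 : IsFrobeniusComplement H := ⟨h3, hmax.1, fun g hg => (h0 _ inf_le_left).resolve_right fun e => by
    have h5 : g ∈ normalizer (H : Set G) := H1.conj_smul_eq_self_iff.1
      (eq_of_le_of_card_ge (inf_eq_left.1 e) (Nat.card_congr (H.equivSMul _).toEquiv).ge).symm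
    have h6 := normalizer_eq_top_iff.1 (hmax.2 _ (lt_of_le_of_ne le_normalizer fun e => hg (e.ge h5)))
    have := isCyclic_of_prime_card (α := H) rfl
    exact h2 H ((h1 H h6).resolve_left h3) (Group.isSolvable_of_comm fun a b => IsCyclic.commGroup.mul_comm a b)⟩
  obtain ⟨N, e1, h5, h6⟩ := S0042.result H h4
  obtain ⟨N', e2, -, h7⟩ := S0035.result H h4
  obtain rfl : N = N' := SetLike.coe_injective (e1.trans e2.symm)
  rcases h1 N h5 with rfl | h
  · exact hmax.1 (isComplement'_bot_left.1 h7)
  · exact h2 N h inferInstance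

end Cfsg.Agent.S3498
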