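import Cfsg.Statements.S3504
import Mathlib
import Cfsg.Agent.H7.PS

set_option autoImplicit false
open Cfsg

namespace Cfsg.Agent.S3504

open Equiv.Perm

/-- For n ≥ 5, the fixed-point-free permutations of prime order in the symmetric group of degree n form a single conjugacy class if and only if n is a prime power. -/
theorem result (n : ℕ) (hn : 5 ≤ n) :
    Nat.card {c : ConjClasses (Equiv.Perm (Fin n)) // ∃ g : Equiv.Perm (Fin n), ConjClasses.mk g = c ∧ (orderOf g).Prime ∧ ∀ i : Fin n, g i ≠ i} = 1 ↔ IsPrimePow n := by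
  have h1 : ∀ g : Equiv.Perm (Fin n), (∀ i, g i ≠ i) ↔ g.cycleType.sum = n := fun g => by
    rw [sum_cycleType]
    simpa [Finset.eq_univ_iff_forall] using (Finset.card_eq_iff_eq_univ g.support).symm
  have h2 : ∀ g : Equiv.Perm (Fin n), (orderOf g).Prime → (∀ i, g i ≠ i) → orderOf g ∣ n ∧
      g.cycleType = Multiset.replicate (n / orderOf g) (orderOf g) := fun g hg h => by
    obtain ⟨k, hk⟩ := cycleType_prime_order hg
    have := (h1 g).1 h
    rw [hk, Multiset.sum_replicate, smul_eq_mul] at this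
    exact ⟨Dvd.intro_left _ this, by rw [hk, Nat.div_eq_of_eq_mul_left hg.pos this.symm]⟩
  have h3 : ∀ p, p.Prime → p ∣ n → ∃ g : Equiv.Perm (Fin n), orderOf g = p ∧ ∀ i, g i ≠ i := fun p hp h => by
    have h4 : (Multiset.replicate (n / p) p).sum = n := by simp [Nat.div_mul_cancel h]
    obtain ⟨g, hg⟩ := (exists_with_cycleType_iff (Fin n) (m := Multiset.replicate (n / p) p)).2
      ⟨by simp [h4], fun a ha => Multiset.eq_of_mem_replicate ha ▸ hp.two_le⟩
    have := Fact.mk hp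
    have h5 := (h1 g).2 (hg ▸ h4)
    exact ⟨g, orderOf_eq_prime (pow_prime_eq_one_iff.2 fun c hc => Multiset.eq_of_mem_replicate (hg ▸ hc))
      fun e => h5 ⟨0, by omega⟩ (by simp [e]), h5⟩
  rw [isPrimePow_iff_unique_prime_dvd, Nat.card_eq_one_iff_exists]
  constructor
  · rintro ⟨⟨_, g, rfl, hg, hg'⟩, h⟩
    refine ⟨_, ⟨hg, (h2 g hg hg').1⟩, fun p hp => ?_⟩
    obtain ⟨k, rfl, hk⟩ := h3 p hp.1 hp.2
    rw [← lcm_cycleType, ← lcm_cycleType, isConj_iff_cycleType_eq.1 (ConjClasses.mk_eq_mk_iff_isConj.1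
      (congrArg Subtype.val (h ⟨_, k, rfl, hp.1, hk⟩)))]
  · rintro ⟨p, hp, h⟩
    obtain ⟨g, rfl, hg⟩ := h3 p hp.1 hp.2
    refine ⟨⟨_, g, rfl, hp.1, hg⟩, ?_⟩
    rintro ⟨_, k, rfl, hk, hk'⟩
    refine Subtype.ext (ConjClasses.mk_eq_mk_iff_isConj.2 (isConj_iff_cycleType_eq.2 ?_))
    rw [(h2 k hk hk').2, (h2 g hp.1 hg).2, h _ ⟨hk, (h2 k hk hk').1⟩]

end Cfsg.Agent.S3504
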