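import Cfsg.Statements.S3508
import Mathlib
import Cfsg.Agent.H7.EP

set_option autoImplicit false
open Cfsg

namespace Cfsg.Agent.S3508

open Cfsg.Agent.H7 MulAction Subgroup Polynomial

theorem unip {A : Type*} [AddCommGroup A] [Finite A] {p m r s : ℕ} [hp : Fact p.Prime] [Module (ZMod p) A]
    (hA : Nat.card A = p ^ m) (T : Module.End (ZMod p) A) (hT : T ^ p ^ r = 1) (hs : m < p ^ s) :
    T ^ p ^ s = 1 ∧ ∑ i ∈ Finset.range (p ^ s), T ^ i = 0 := by
  have : Module.Finite (ZMod p) A := Module.Finite.of_finite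
  have h0 : ∀ k, (X - 1 : (ZMod p)[X]) ^ p ^ k = X ^ p ^ k - 1 := fun k => by rw [sub_pow_char_pow, one_pow]
  have h1 : Module.finrank (ZMod p) A = m := Nat.pow_right_injective hp.out.two_le
    ((by rw [Nat.card_zmod] : _ = _ ^ _).trans ((Module.natCard_eq_pow_finrank (K := ZMod p)).symm.trans hA))
  have h2 : (T - 1) ^ m = 0 := by
    have := LinearMap.aeval_self_charpoly (T - 1)
    rwa [(LinearMap.isNilpotent_iff_charpoly _).1 ⟨p ^ r, by simpa [hT] using congrArg (aeval T) (h0 r)⟩, h1,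
      aeval_X_pow] at this
  have h3 : ∑ i ∈ Finset.range (p ^ s), (X : (ZMod p)[X]) ^ i = (X - 1) ^ (p ^ s - 1) :=
    mul_right_cancel₀ (X_sub_C_ne_zero 1) (by rw [C_1, geom_sum_mul, ← pow_succ, Nat.sub_add_cancel (by omega), h0])
  exact ⟨sub_eq_zero.1 (by simpa [pow_eq_zero_of_le hs.le h2] using congrArg (aeval T) (h0 s).symm),
    by simpa [pow_eq_zero_of_le (show m ≤ p ^ s - 1 by omega) h2] using congrArg (aeval T) h3⟩

theorem unip' {A G : Type*} [Group G] [AddCommGroup A] [Finite A] {p m r s : ℕ} [hp : Fact p.Prime]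
    [Module (ZMod p) A] (hA : Nat.card A = p ^ m) (ψ : G →* AddMonoid.End A) {g : G} (hg : g ^ p ^ r = 1)
    (hs : m < p ^ s) (v : A) : ψ (g ^ p ^ s) v = v ∧ ∑ i ∈ Finset.range (p ^ s), ψ (g ^ i) v = 0 := by
  obtain ⟨h1, h2⟩ := unip (r := r) hA (H2.zmodRep p ψ g) (by rw [← map_pow, hg, map_one]) hs
  simp only [← map_pow] at h1 h2
  exact ⟨LinearMap.congr_fun h1 v, (LinearMap.sum_apply _ _ _).symm.trans (LinearMap.congr_fun h2 v)⟩

open scoped IsMulCommutative in

/-- Let a finite group G act faithfully on a set Ω with p ^ m points (p prime) and have an elementary abelian normal p-subgroup N acting regularly on Ω (so G is a group of affine transformations of an m-dimensional space over the field with p elements). If G contains an element of order p ^ r with r ≥ 1, then p ^ (r − 1) ≤ m. In particular an element of order p ^ m forces m ≤ 2, and m ≤ 1 when p is odd. -/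
theorem result {G : Type*} [Group G] [Finite G] {Ω : Type*} [Fintype Ω] [MulAction G Ω] [FaithfulSMul G Ω] (p m : ℕ) (hp : p.Prime) (hcard : Fintype.card Ω = p ^ m)
    (N : Subgroup G) [N.Normal] (hNc : IsMulCommutative N) (hNp : ∀ n ∈ N, n ^ p = 1)
    (hNtr : MulAction.IsPretransitive N Ω) (hNreg : ∀ ω : Ω, MulAction.stabilizer N ω = ⊥)
    (g : G) (r : ℕ) (hr : 1 ≤ r) (hg : orderOf g = p ^ r) :
    p ^ (r - 1) ≤ m ∧ (r = m → m ≤ 2 ∧ (2 < p → m ≤ 1)) := by
  have := Fact.mk hp
  have h1 : p ^ (r - 1) ≤ m := by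
    by_contra! h
    letI : Module (ZMod p) (Additive N) := AddCommGroup.zmodModule fun x =>
      Additive.toMul.injective (Subtype.ext (hNp _ x.toMul.2))
    have : Nonempty Ω := Fintype.card_pos_iff.1 (hcard ▸ pow_pos hp.pos m)
    obtain ⟨a⟩ := this
    let σ := (H1.conjEnd N).comp ((MonoidHom.id G).codRestrict _ fun g => normalizer_eq_top N ▸ mem_top g)
    have hσ : ∀ (g : G) (v : Additive N), ((σ g v).toMul : G) = g * v.toMul * g⁻¹ := fun _ _ => rfl
    have h2 := unip' (A := Additive N) (r := r) ((card_eq_of_regular (hNreg a)).trans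
      (Nat.card_eq_fintype_card.trans hcard)) σ (hg ▸ pow_orderOf_eq_one g) h
    obtain ⟨n, hn⟩ := hNtr.exists_smul_eq a (g • a)
    have h4 : ∀ k, g ^ k • a = ((∑ i ∈ Finset.range k, σ (g ^ i) (Additive.ofMul n)).toMul : G) • a := fun k => by
      induction k with
      | zero => simp
      | succ k ih =>
        rw [Finset.sum_range_succ_comm, toMul_add, Subgroup.coe_mul, hσ, pow_succ,
          mul_smul, ← hn, mul_smul, ← ih, mul_smul, mul_smul, inv_smul_smul]
        rfl
    have h5 : g ^ p ^ (r - 1) = 1 := reg_of_comm hNtr (fun v hv => mul_inv_eq_iff_eq_mul.1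
      ((hσ _ (Additive.ofMul ⟨v, hv⟩)).symm.trans (by rw [(h2 _).1]; rfl))) (a := a) (by rw [h4, (h2 _).2]; simp)
    have := (Nat.pow_dvd_pow_iff_le_right hp.one_lt).1 (hg ▸ orderOf_dvd_of_pow_eq_one h5)
    omega
  refine ⟨h1, ?_⟩
  rintro rfl
  have h2 := hp.two_le
  rcases r with _ | _ | r
  · omega
  · omega
  have h3 := Nat.lt_pow_self (n := r) hp.one_lt
  rw [Nat.add_sub_cancel, pow_succ] at h1
  exact ⟨by nlinarith, fun h => by nlinarith⟩

end Cfsg.Agent.S3508
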