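import Cfsg.Statements.S3511
import Mathlib

set_option autoImplicit false
open Cfsg

namespace Cfsg.Agent.S3511

/-- Let a finite group G act faithfully on a set Ω. If every element of G of square-free order has a regular cycle (an orbit of the cyclic group it generates with trivial stabilizer), then every element of G has a regular cycle. -/
theorem result {G : Type*} [Group G] [Finite G] {Ω : Type*} [MulAction G Ω] [FaithfulSMul G Ω]
    (h : ∀ g : G, Squarefree (orderOf g) → ∃ ω : Ω, MulAction.stabilizer (Subgroup.zpowers g) ω = ⊥) (g : G) :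
    ∃ ω : Ω, MulAction.stabilizer (Subgroup.zpowers g) ω = ⊥ := by
  set n := orderOf g with hn
  have hn0 : n ≠ 0 := (orderOf_pos g).ne'
  set r := UniqueFactorizationMonoid.radical n with hr
  have hrn : r ∣ n := UniqueFactorizationMonoid.radical_dvd_self
  obtain ⟨m, hm⟩ := hrn
  have hm0 : m ≠ 0 := by rintro rfl; simp at hm; exact hn0 hm
  have ho : orderOf (g ^ m) = r := by
    rw [orderOf_pow' g hm0, ← hn, hm, Nat.gcd_mul_left_left, Nat.mul_div_cancel _ (Nat.pos_of_ne_zero hm0)]
  obtain ⟨ω, hω⟩ := h (g ^ m) (ho ▸ UniqueFactorizationMonoid.squarefree_radical)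
  refine ⟨ω, ?_⟩
  by_contra hne
  haveI : Nontrivial (MulAction.stabilizer (Subgroup.zpowers g) ω) :=
    (Subgroup.nontrivial_iff_ne_bot _).2 hne
  obtain ⟨p, hp, hpd⟩ := Nat.exists_prime_and_dvd (Finite.one_lt_card (α := MulAction.stabilizer (Subgroup.zpowers g) ω)).ne'
  haveI := Fact.mk hp
  obtain ⟨⟨⟨x, hx⟩, hxs⟩, hxo⟩ := exists_prime_orderOf_dvd_card' p hpd
  rw [← Subgroup.orderOf_coe, ← Subgroup.orderOf_coe] at hxo
  change orderOf x = p at hxo
  have hxω : x • ω = ω := hxs
  obtain ⟨k, rfl⟩ := (mem_powers_iff_mem_zpowers.2 hx)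
  change orderOf (g ^ k) = p at hxo
  have h1 : n ∣ k * p := by
    rw [hn, orderOf_dvd_iff_pow_eq_one, pow_mul, ← hxo, pow_orderOf_eq_one]
  have hpn : p ∣ n := by rw [← hxo, hn]; exact orderOf_pow_dvd k
  have hpr : p ∣ r := by
    rw [hr]; exact (UniqueFactorizationMonoid.dvd_radical_iff_of_irreducible hp.prime.irreducible hn0).2 hpn
  obtain ⟨s, hs⟩ := hpr
  have h2 : m ∣ k := by
    rw [hm, hs] at h1
    have : s * m * p ∣ k * p := by rwa [show s * m * p = p * s * m by ring]
    exact (Dvd.intro_left s rfl).trans (Nat.dvd_of_mul_dvd_mul_right hp.pos this)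
  obtain ⟨j, rfl⟩ := h2
  have : (⟨g ^ (m * j), by rw [pow_mul]; exact Subgroup.npow_mem_zpowers _ _⟩ : Subgroup.zpowers (g ^ m)) ∈
      MulAction.stabilizer (Subgroup.zpowers (g ^ m)) ω := hxω
  rw [hω, Subgroup.mem_bot, Subtype.ext_iff] at this
  change g ^ (m * j) = 1 at this
  rw [this, orderOf_one] at hxo
  exact hp.one_lt.ne hxo

end Cfsg.Agent.S3511
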