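import Cfsg.Statements.S3514
import Mathlib
import Cfsg.Agent.H7.Basic
import Cfsg.Agent.H1.Basic

set_option autoImplicit false
open Cfsg

namespace Cfsg.Agent.S3514

open Cfsg.Agent.H7 MulAction Subgroup

/-- Let p be a prime, V a finite vector space over the field with p elements, and H a group of linear transformations of V all of whose orbits on V have size coprime to p. (i) Every normal subgroup K of H has all its orbits on V of size coprime to p. (ii) If N is a group of linear transformations of V of order coprime to p that is normalized by H, then the group generated by N and H has all its orbits on V of size coprime to p. -/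
theorem result (p : ℕ) [Fact p.Prime] {V : Type*} [AddCommGroup V] [Module (ZMod p) V] [Finite V]
    (H : Subgroup (V ≃ₗ[ZMod p] V)) (hH : ∀ v : V, ¬ p ∣ Nat.card {u : V | ∃ h ∈ H, h v = u}) :
    (∀ K : Subgroup (V ≃ₗ[ZMod p] V), K ≤ H → H ≤ Subgroup.normalizer (K : Set (V ≃ₗ[ZMod p] V)) →
        ∀ v : V, ¬ p ∣ Nat.card {u : V | ∃ k ∈ K, k v = u}) ∧
    (∀ N : Subgroup (V ≃ₗ[ZMod p] V), ¬ p ∣ Nat.card N → H ≤ Subgroup.normalizer (N : Set (V ≃ₗ[ZMod p] V)) →
        ∀ v : V, ¬ p ∣ Nat.card {u : V | ∃ x ∈ N ⊔ H, x v = u}) := by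
  have : Finite (V ≃ₗ[ZMod p] V) := Finite.of_injective _ DFunLike.coe_injective
  have h0 : ∀ (K : Subgroup (V ≃ₗ[ZMod p] V)) (v : V), Nat.card {u : V | ∃ k ∈ K, k v = u} =
      (stabilizer _ v ⊓ K).relIndex K := fun K v => by
    rw [inf_relIndex_right, relIndex, ← stabilizer_subgroup_eq, ← card_orbit_eq_index]
    exact congrArg (fun S : Set V => Nat.card S) (Set.ext fun u => ⟨fun ⟨k, hk, e⟩ => ⟨⟨k, hk⟩, e⟩,
      fun ⟨k, e⟩ => ⟨k, k.2, e⟩⟩)
  have h1 : ∀ {A K : Subgroup (V ≃ₗ[ZMod p] V)}, A ≤ normalizer (K : Set (V ≃ₗ[ZMod p] V)) →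
      A.relIndex (A ⊔ K) = A.relIndex K := fun {A K} h => by
    have h2 := H1.card_sup_mul_card_inf h
    rw [← H1.card_mul_relIndex (le_sup_left : A ≤ A ⊔ K), ← H1.card_inf_mul_relIndex A K, mul_assoc, mul_comm _
      (Nat.card ↥(A ⊓ K))] at h2
    exact Nat.eq_of_mul_eq_mul_left Nat.card_pos (Nat.eq_of_mul_eq_mul_left Nat.card_pos h2)
  simp only [h0] at hH ⊢
  refine ⟨fun K hK hn v h => hH v (h.trans ?_), fun N hN hn v h => ?_⟩
  · rw [← inf_eq_right.2 hK, ← inf_assoc, inf_eq_right.2 hK, inf_relIndex_right, ← h1 (inf_le_right.trans hn)]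
    exact Dvd.intro _ (relIndex_mul_relIndex _ _ _ le_sup_left (sup_le inf_le_right hK))
  · have h2 := h.trans (relIndex_dvd_of_le_left _ (inf_le_inf_left (stabilizer _ v) (le_sup_right : H ≤ N ⊔ H)))
    rw [← relIndex_mul_relIndex _ H _ inf_le_right le_sup_right, sup_comm, h1 hn] at h2
    exact ((Nat.Prime.dvd_mul Fact.out).1 h2).elim (hH v) fun h => hN (h.trans (relIndex_dvd_card _ _))

end Cfsg.Agent.S3514
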