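import Cfsg.Statements.S3516
import Mathlib
import Cfsg.Agent.H7.Aff

set_option autoImplicit false
open Cfsg

namespace Cfsg.Agent.S3516

open Cfsg.Agent.H7

/-- Let p be an odd prime, d ≥ 3, and G a group of affine permutations x ↦ Ax + b of V = F_p^d containing all translations and all maps x ↦ Ax with A of determinant 1. Then the 3-closure of G is the full affine group: a permutation σ of V agrees on every triple of points with some element of G if and only if σ is an affine map. -/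
theorem result (p : ℕ) [Fact p.Prime] (hp : p ≠ 2) (d : ℕ) (hd : 3 ≤ d) (G : Subgroup (Equiv.Perm (Fin d → ZMod p)))
    (haff : (G : Set (Equiv.Perm (Fin d → ZMod p))) ⊆ {τ : Equiv.Perm (Fin d → ZMod p) | ∃ (A : (Fin d → ZMod p) ≃ₗ[ZMod p] (Fin d → ZMod p)) (b : Fin d → ZMod p), ∀ x, τ x = A x + b})
    (htrans : ∀ b : Fin d → ZMod p, ∃ g ∈ G, ∀ x, g x = x + b)
    (hsl : ∀ A : (Fin d → ZMod p) ≃ₗ[ZMod p] (Fin d → ZMod p), LinearMap.det (A : (Fin d → ZMod p) →ₗ[ZMod p] (Fin d → ZMod p)) = 1 → ∃ g ∈ G, ∀ x, g x = A x)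
    (σ : Equiv.Perm (Fin d → ZMod p)) :
    (∀ t : Fin 3 → (Fin d → ZMod p), ∃ g ∈ G, ∀ i, σ (t i) = g (t i)) ↔ σ ∈ {τ : Equiv.Perm (Fin d → ZMod p) | ∃ (A : (Fin d → ZMod p) ≃ₗ[ZMod p] (Fin d → ZMod p)) (b : Fin d → ZMod p), ∀ x, τ x = A x + b} := by
  refine ⟨fun h => affine_of_triples (fun e => hp ((Nat.prime_dvd_prime_iff_eq Fact.out Nat.prime_two).1
    ((ZMod.natCast_eq_zero_iff 2 p).1 e))) σ fun t => ?_, fun ⟨A, b, h⟩ t => ?_⟩
  · obtain ⟨g, hg, e⟩ := h t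
    obtain ⟨A, b, e'⟩ := haff hg
    exact ⟨A, b, fun i => (e i).trans (e' _)⟩
  obtain ⟨B, hB, e⟩ := H4.exists_det_fix (W := Submodule.span (ZMod p) (Set.range ![t 1 - t 0, t 2 - t 0])) (fun e => by
    have := finrank_range_le_card (R := ZMod p) ![t 1 - t 0, t 2 - t 0]
    rw [Set.finrank, e, finrank_top] at this
    simp at this; omega) (LinearEquiv.det A)⁻¹
  obtain ⟨g, hg, e1⟩ := hsl (A * B) (by rw [← LinearEquiv.coe_det, map_mul, e, mul_inv_cancel, Units.val_one])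
  obtain ⟨k, hk, e2⟩ := htrans (A (t 0 - B (t 0)) + b)
  refine ⟨k * g, mul_mem hk hg, fun i => ?_⟩
  have h1 : B (t i - t 0) = t i - t 0 := by
    fin_cases i
    · simp
    · exact hB _ (Submodule.subset_span ⟨0, rfl⟩)
    · exact hB _ (Submodule.subset_span ⟨1, rfl⟩)
  rw [Equiv.Perm.mul_apply, e1, e2, h, ← add_assoc, LinearEquiv.mul_apply, ← map_add, sub_eq_iff_eq_add.1 ((map_sub B _ _).symm.trans h1)]
  congr 2; abel

end Cfsg.Agent.S3516
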