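import Cfsg.Statements.S3517
import Mathlib
import Cfsg.Agent.H7.Aff

set_option autoImplicit false
open Cfsg

namespace Cfsg.Agent.S3517

open Cfsg.Agent.H7

/-- For d ≥ 3, the 3-closure of the affine group AGL_d(2) acting on F_2^d is the full symmetric group: every permutation of F_2^d agrees on every ordered triple of points with some affine map (AGL_d(2) is 3-transitive). -/
theorem result (d : ℕ) (hd : 3 ≤ d) (σ : Equiv.Perm (Fin d → ZMod 2)) (t : Fin 3 → (Fin d → ZMod 2)) :
    ∃ (A : (Fin d → ZMod 2) ≃ₗ[ZMod 2] (Fin d → ZMod 2)) (b : Fin d → ZMod 2), ∀ i, σ (t i) = A (t i) + b := by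
  have h1 : ∀ x y z : Fin d → ZMod 2, x - z + (y - z) = 0 ↔ x = y := fun x y z => by
    rw [add_eq_zero_iff_eq_neg, (funext fun i => ZMod.neg_eq_self_mod_two _ :
      -(y - z) = y - z), sub_left_inj]
  obtain ⟨A, hA⟩ := exists_equiv_of_ker (i := Fintype.linearCombination (ZMod 2) ![t 1 - t 0, t 2 - t 0])
    (j := Fintype.linearCombination (ZMod 2) ![σ (t 1) - σ (t 0), σ (t 2) - σ (t 0)]) (Submodule.ext fun c => by
      have h2 : ∀ a : ZMod 2, a = 0 ∨ a = 1 := by decide
      rcases h2 (c 0) with e | e <;> rcases h2 (c 1) with e' | e' <;>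
        simp [Fintype.linearCombination_apply, e, e', sub_eq_zero, h1])
  have h2 := hA ![1, 0]
  have h3 := hA ![0, 1]
  simp [Fintype.linearCombination_apply] at h2 h3
  refine ⟨A, σ (t 0) - A (t 0), fun i => ?_⟩
  fin_cases i
  · simp
  · exact (sub_eq_iff_eq_add.1 h2.symm).trans (by simp; abel)
  · exact (sub_eq_iff_eq_add.1 h3.symm).trans (by simp; abel)

end Cfsg.Agent.S3517
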