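import Cfsg.Statements.S3518
import Mathlib
import Cfsg.Agent.H7.PS
import Cfsg.Agent.H7.EP
import Cfsg.Agent.H1.Frattini

set_option autoImplicit false
open Cfsg

namespace Cfsg.Agent.S3518

open Cfsg.Agent.H7 MulAction Subgroup

/-- Closures of subgroups of the one-dimensional affine group. Let p be a prime and G a group of permutations of F_p lying in the affine group AGL₁(p) = {x ↦ ax + b, a ≠ 0} and containing all translations. (1) If G is a proper subgroup of AGL₁(p), then G is 2-closed: a permutation of F_p agreeing on every ordered pair of points with some element of G lies in G. (2) Every permutation of F_p agrees on every ordered pair with some element of AGL₁(p) (the 2-closure of AGL₁(p) is the symmetric group). (3) AGL₁(p) is 3-closed: a permutation agreeing on every ordered triple with some affine map is affine. -/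
theorem result (p : ℕ) [Fact p.Prime] (G : Subgroup (Equiv.Perm (ZMod p))) (hG : G ≤ Cfsg.affineGroup (ZMod p))
    (htrans : ∀ b : ZMod p, ∃ g ∈ G, ∀ x, g x = x + b) :
    (G ≠ Cfsg.affineGroup (ZMod p) → ∀ σ : Equiv.Perm (ZMod p), (∀ t : Fin 2 → ZMod p, ∃ g ∈ G, ∀ i, σ (t i) = g (t i)) → σ ∈ G) ∧
    (∀ σ : Equiv.Perm (ZMod p), (∀ t : Fin 2 → ZMod p, ∃ g ∈ Cfsg.affineGroup (ZMod p), ∀ i, σ (t i) = g (t i))) ∧
    (∀ σ : Equiv.Perm (ZMod p), (∀ t : Fin 3 → ZMod p, ∃ g ∈ Cfsg.affineGroup (ZMod p), ∀ i, σ (t i) = g (t i)) → σ ∈ Cfsg.affineGroup (ZMod p)) := by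
  have h0 : ∀ σ g : Equiv.Perm (ZMod p), σ ∈ affineGroup (ZMod p) → g ∈ affineGroup (ZMod p) → σ 0 = g 0 →
      σ 1 = g 1 → σ = g := by
    rintro σ g ⟨a, b, h⟩ ⟨c, d, h'⟩ e0 e1
    simp only [h, h', mul_zero, zero_add, mul_one] at e0 e1
    exact Equiv.ext fun x => by rw [h, h', e0, show (a : ZMod p) = c from add_right_cancel (e0 ▸ e1)]
  have h1 : ∀ a b : ZMod p, a ≠ 0 → ∃ g ∈ affineGroup (ZMod p), ∀ x, g x = a * x + b := fun a b ha =>
    ⟨(Equiv.mulLeft₀ a ha).trans (Equiv.addRight b), ⟨Units.mk0 a ha, b, fun _ => rfl⟩, fun _ => rfl⟩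
  refine ⟨fun hne σ hσ => ?_, fun σ t => ?_, fun σ hσ => ?_⟩
  · let X : Subgroup (Equiv.Perm (ZMod p)) := ⟨⟨⟨{σ | ∀ t : Fin 2 → ZMod p, ∃ g ∈ G, ∀ i, σ (t i) = g (t i)},
      fun {σ τ} h h' t => by
        obtain ⟨k, hk, e⟩ := h' t
        obtain ⟨g, hg, e'⟩ := h (τ ∘ t)
        exact ⟨g * k, mul_mem hg hk, fun i => (e' i).trans (congrArg g (e i))⟩⟩, fun t => ⟨1, one_mem _, fun _ => rfl⟩⟩,
      fun {σ} h t => by
        obtain ⟨g, hg, e⟩ := h (⇑σ⁻¹ ∘ t)
        exact ⟨g⁻¹, inv_mem hg, fun i => Equiv.Perm.eq_inv_iff_eq.2 (by simpa using (e i).symm)⟩⟩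
    have hX : G ≤ X := fun g hg t => ⟨g, hg, fun _ => rfl⟩
    have : IsPretransitive X (ZMod p) := ⟨fun a b => (htrans (b - a)).elim fun g hg =>
      ⟨⟨g, hX hg.1⟩, (hg.2 a).trans (add_sub_cancel a b)⟩⟩
    have h2 : Group.IsSolvable X := by_contra fun h => hne (le_antisymm hG fun s hs => by
      obtain ⟨u, u0, u1⟩ := mt_two (burnside_prime (G := X) (Nat.card_zmod p) h) (zero_ne_one (α := ZMod p))
        (s.injective.ne zero_ne_one)
      obtain ⟨g, hg, e⟩ := u.2 ![0, 1]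
      exact h0 g s (hG hg) hs ((e 0).symm.trans u0) ((e 1).symm.trans u1) ▸ hg)
    have : IsPreprimitive X (ZMod p) := IsPreprimitive.of_prime_card (by rw [Nat.card_zmod]; exact Fact.out)
    obtain ⟨τ, hτ, e⟩ := htrans 1
    have h3 : ∀ (n : ℕ) x, (τ ^ n) x = x + n := fun n x => by
      induction n with
      | zero => simp
      | succ n ih => rw [pow_succ', Equiv.Perm.mul_apply, e, ih, Nat.cast_succ, add_assoc]
    have : Nontrivial X := ⟨⟨τ, hX hτ⟩, 1, fun h => by simpa using (e 0).symm.trans (Equiv.congr_fun (congrArg Subtype.val h) 0)⟩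
    obtain ⟨n1, n2, -⟩ := prim_nil (Ω := ZMod p) _ (H1.fittingSubgroup_ne_bot h2)
    have h4 := n2.le (comm_of_card_le (x := ⟨τ, hX hτ⟩) Fact.out (Subtype.ext (Equiv.ext fun x => by
      simpa using h3 p x)) (fittingSubgroup X) ((card_eq_of_regular (stabilizer_eq_bot_of_comm
        (fun u hu v hv => n2.ge hv u hu) n1 0)).trans (Nat.card_zmod p)).le)
    have h5 := congrArg Subtype.val (n2.ge h4 _ (Normal.conj_mem inferInstance _ h4 ⟨σ, hσ⟩))
    have h6 : ∀ (n : ℕ), (σ * τ * σ⁻¹) n = n + (σ * τ * σ⁻¹) 0 := fun n => by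
      have := Equiv.congr_fun (Commute.pow_right (show Commute (σ * τ * σ⁻¹) τ from h5) n).eq 0
      rwa [Equiv.Perm.mul_apply, Equiv.Perm.mul_apply (τ ^ n), h3, h3, zero_add, add_comm] at this
    have h7 : ∀ n : ℕ, σ n = (σ * τ * σ⁻¹) 0 * n + σ 0 := fun n => by
      induction n with
      | zero => simp
      | succ n ih =>
        have := h6 (σ n).val
        rw [ZMod.natCast_zmod_val, Equiv.Perm.mul_apply, Equiv.Perm.mul_apply, Equiv.Perm.inv_def,
          Equiv.symm_apply_apply, e] at this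
        rw [Nat.cast_succ, this, ih, Equiv.Perm.inv_def]; ring
    obtain ⟨g, hg, e'⟩ := hσ ![0, 1]
    exact h0 g σ (hG hg) ⟨Units.mk0 ((σ * τ * σ⁻¹) 0) fun h => zero_ne_one (σ.injective (by simpa only [h, zero_mul, zero_add, Nat.cast_one] using (h7 1).symm)), σ 0,
      fun x => by simpa using h7 x.val⟩ (e' 0).symm (e' 1).symm ▸ hg
  · by_cases h : t 0 = t 1
    · obtain ⟨g, hg, e⟩ := h1 1 (σ (t 0) - t 0) one_ne_zero
      exact ⟨g, hg, fun i => by fin_cases i <;> simp [e, h]⟩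
    · have h' := sub_ne_zero.2 h
      obtain ⟨g, hg, e⟩ := h1 ((σ (t 0) - σ (t 1)) / (t 0 - t 1)) (σ (t 0) - (σ (t 0) - σ (t 1)) / (t 0 - t 1) * t 0)
        (div_ne_zero (sub_ne_zero.2 (σ.injective.ne h)) h')
      refine ⟨g, hg, fun i => ?_⟩
      fin_cases i
      · simp [e]
      · simp only [e, Fin.mk_one]; field_simp; ring
  · obtain ⟨g, hg, e⟩ := hσ ![0, 1, 0]
    refine (Equiv.ext fun x => ?_ : g = σ) ▸ hg
    obtain ⟨k, hk, e'⟩ := hσ ![0, 1, x]
    rw [h0 g k hg hk ((e 0).symm.trans (e' 0)) ((e 1).symm.trans (e' 1))]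
    exact (e' 2).symm

end Cfsg.Agent.S3518
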