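import Cfsg.Statements.S3547
import Mathlib
import Cfsg.Agent.H7.Der

set_option autoImplicit false
open Cfsg

namespace Cfsg.Agent.S3547

open Cfsg.Agent.H7 Cfsg.Agent.H3 MulAction Finset

/-- Let G act faithfully and transitively on a finite set Ω, let D be the subgroup generated by the derangements, and let r_G and r_D be the numbers of orbits of G and of D on ordered pairs of points (the permutation ranks). Then r_D − 1 = (r_G − 1)·[G : D]. -/
theorem result {G Ω : Type*} [Group G] [Finite G] [MulAction G Ω] [FaithfulSMul G Ω] [Finite Ω]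
    (htrans : MulAction.IsPretransitive G Ω) :
    Nat.card (MulAction.orbitRel.Quotient ↥(Subgroup.closure {g : G | ∀ ω : Ω, g • ω ≠ ω}) (Ω × Ω)) - 1 =
      (Nat.card (MulAction.orbitRel.Quotient G (Ω × Ω)) - 1) * (Subgroup.closure {g : G | ∀ ω : Ω, g • ω ≠ ω}).index := by
  classical
  have := Fintype.ofFinite G
  have := Fintype.ofFinite (der G Ω)
  have h1 := sum_card_fixedBy (G := G) (Ω := Ω × Ω)
  have h2 : ∑ g : der G Ω, Nat.card (fixedBy (Ω × Ω) (g : G)) = _ := sum_card_fixedBy (G := der G Ω) (Ω := Ω × Ω)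
  rw [sum_split (der G Ω), h2, sum_congr rfl (g := fun _ => 1) fun g hg => by
    rw [card_fixedBy_prod, der_main.2 g (mem_filter.1 hg).2], sum_const, smul_eq_mul, mul_one] at h1
  have h3 := card_not_mem (der G Ω)
  have h4 := (der G Ω).card_mul_index
  have h5 : 0 < Nat.card (der G Ω) := Nat.card_pos
  refine Nat.eq_of_mul_eq_mul_right h5 ?_
  rw [mul_assoc, mul_comm (Subgroup.index _), h4, Nat.sub_one_mul, Nat.sub_one_mul]
  rcases Nat.eq_zero_or_pos (Nat.card (orbitRel.Quotient (der G Ω) (Ω × Ω))) with h | h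
  · have : IsEmpty (orbitRel.Quotient G (Ω × Ω)) := ⟨fun q => (Nat.card_eq_zero.1 h).elim
      (fun h => h.elim (Quotient.mk'' q.out)) fun h => (not_finite_iff_infinite.2 h inferInstance).elim⟩
    simp [h]
  · have := Nat.le_mul_of_pos_left (Nat.card (der G Ω)) h
    generalize Nat.card (orbitRel.Quotient (der G Ω) (Ω × Ω)) * Nat.card (der G Ω) = x at *
    generalize Nat.card (orbitRel.Quotient G (Ω × Ω)) * Nat.card G = y at *
    omega

end Cfsg.Agent.S3547
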