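import Cfsg.Statements.S3548
import Mathlib
import Cfsg.Agent.H7.Der

set_option autoImplicit false
open Cfsg

namespace Cfsg.Agent.S3548

open Cfsg.Agent.H7 Cfsg.Agent.H3 MulAction Finset

/-- Let G act faithfully and transitively on a finite set with n ≥ 2 points and let D be the subgroup generated by the derangements. Then the index of D in G divides n − 1, and if it equals n − 1 then n is a prime power. -/
theorem result {G Ω : Type*} [Group G] [Finite G] [MulAction G Ω] [FaithfulSMul G Ω] [Finite Ω]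
    (htrans : MulAction.IsPretransitive G Ω) (hΩ : 2 ≤ Nat.card Ω) :
    (Subgroup.closure {g : G | ∀ ω : Ω, g • ω ≠ ω}).index ∣ Nat.card Ω - 1 ∧
    ((Subgroup.closure {g : G | ∀ ω : Ω, g • ω ≠ ω}).index = Nat.card Ω - 1 → IsPrimePow (Nat.card Ω)) := by
  have : Nontrivial Ω := Finite.one_lt_card_iff_nontrivial.1 hΩ
  obtain ⟨a⟩ : Nonempty Ω := inferInstance
  refine ⟨by simpa using index_der_dvd (G := G) (Set.mem_univ a) (by simp), fun h => ?_⟩
  have hD := (der_main (G := G) (Ω := Ω)).1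
  have h1 : ∀ b, b ≠ a → orbit (stabilizer G a) b = {a}ᶜ := fun b hb => by
    refine Set.eq_of_subset_of_ncard_le ?_ ?_ (Set.toFinite _)
    · rintro _ ⟨g, rfl⟩ e
      exact hb ((smul_left_cancel_iff g).1 (e.trans g.2.symm))
    · rw [Set.ncard_compl, Set.ncard_singleton, ← h]
      have : Nonempty (orbit (stabilizer G a) b) := ⟨⟨b, mem_orbit_self b⟩⟩
      exact Nat.le_of_dvd Nat.card_pos (index_der_dvd_orbit hb.symm)
  have h2 : stabilizer (der G Ω) a = ⊥ := by
    refine eq_bot_iff.2 fun d hd => Subtype.ext (eq_one_of_fix (α := Ω) fun b => ?_)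
    by_cases hb : b = a
    · exact hb ▸ hd
    have h3 : (stabilizer (stabilizer G a) b) = (der G Ω).subgroupOf (stabilizer G a) := by
      refine Subgroup.eq_of_le_of_card_ge (fun g hg => mem_der (Ne.symm hb) g.2 hg) (le_of_eq ?_)
      refine Nat.eq_of_mul_eq_mul_right (Nat.pos_of_ne_zero (Subgroup.index_ne_zero_of_finite
        (H := (der G Ω).subgroupOf (stabilizer G a)))) ?_
      rw [Subgroup.card_mul_index, ← Subgroup.relIndex, relIndex_der, h, ← Subgroup.card_mul_index
        (stabilizer (stabilizer G a) b), ← card_orbit_eq_index, h1 b hb, Nat.card_coe_set_eq, Set.ncard_compl,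
        Set.ncard_singleton]
    exact h3.ge (x := ⟨d, hd⟩) d.2
  have h3 := card_eq_of_regular h2
  have : Nontrivial (der G Ω) := Finite.one_lt_card_iff_nontrivial.1 (h3 ▸ hΩ)
  obtain ⟨p, j, hp, hj, h4, -⟩ := elemAb_of_aut_transitive (N := der G Ω) fun x y hx hy => by
    have h5 : ∀ z : der G Ω, z ≠ 1 → z.1 • a ≠ a := fun z hz e => hz (h2.le e)
    obtain ⟨g, hg⟩ := (h1 _ (h5 x hx)).ge (h5 y hy)
    refine ⟨MulAut.conjNormal g.1, Subtype.ext (eq_of_smul_eq_of_reg h2 (Subtype.prop _) y.2 ?_)⟩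
    rw [MulAut.conjNormal_apply, mul_smul, mul_smul, inv_smul_eq_iff.2 g.2.symm]; exact hg
  exact h3 ▸ h4 ▸ ⟨p, j, hp.prime, hj, rfl⟩

end Cfsg.Agent.S3548
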