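import Cfsg.Statements.S3549
import Mathlib
import Cfsg.Agent.H7.Der

set_option autoImplicit false
open Cfsg

namespace Cfsg.Agent.S3549

open Cfsg.Agent.H7 Cfsg.Agent.H3 MulAction Finset
open scoped Pointwise

/-- Let G act faithfully, transitively but imprimitively on a finite set with n points, and let D be the subgroup generated by the derangements. Then the index of D in G is at most √n − 1. -/
theorem result {G Ω : Type*} [Group G] [Finite G] [MulAction G Ω] [FaithfulSMul G Ω] [Finite Ω]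
    (htrans : MulAction.IsPretransitive G Ω) (himp : ¬ MulAction.IsPreprimitive G Ω) :
    ((Subgroup.closure {g : G | ∀ ω : Ω, g • ω ≠ ω}).index : ℝ) ≤ Real.sqrt (Nat.card Ω) - 1 := by
  obtain ⟨B, hB, h1⟩ : ∃ B : Set Ω, IsBlock G B ∧ ¬ IsTrivialBlock B := by
    by_contra! h
    exact himp ⟨fun hB => h _ hB⟩
  rw [IsTrivialBlock, not_or, Set.not_subsingleton_iff] at h1
  obtain ⟨a, ha⟩ := h1.1.nonempty
  have h2 : (der G Ω).index ∣ B.ncard - 1 := index_der_dvd ha fun g hg x hx =>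
    (hB.smul_eq_of_mem ha (hg.symm ▸ ha)) ▸ Set.smul_mem_smul_set hx
  have h3 : (der G Ω).index ∣ Nat.card Ω - 1 := by simpa using index_der_dvd (G := G) (Set.mem_univ a) (by simp)
  obtain ⟨m, hm⟩ := hB.ncard_dvd_card h1.1.nonempty
  have h4 : 1 < B.ncard := Set.one_lt_ncard_iff_nontrivial.2 h1.1
  have h5 : 1 < m := by
    have : B.ncard < Nat.card Ω := Set.ncard_univ Ω ▸ Set.ncard_lt_ncard (Set.ssubset_univ_iff.2 h1.2)
    nlinarith
  generalize (der G Ω).index = i at *
  obtain ⟨b, hb⟩ := Nat.exists_eq_add_of_le' h4.le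
  obtain ⟨m, rfl⟩ := Nat.exists_eq_add_of_le' h5.le
  rw [hm] at h3 ⊢
  rw [hb] at h2 h3 h4 ⊢
  have h6 : i ∣ m := by
    rw [show (b + 1) * (m + 1) - 1 = b * (m + 1) + m by rw [add_mul, one_mul, ← add_assoc]; rfl] at h3
    exact (Nat.dvd_add_right (Dvd.dvd.mul_right h2 _)).1 h3
  have h7 := Nat.le_of_dvd (by omega) h2
  have h8 := Nat.le_of_dvd (by omega) h6
  rw [le_sub_iff_add_le]
  refine Real.le_sqrt_of_sq_le ?_
  have : (i + 1) ^ 2 ≤ (b + 1) * (m + 1) := by rw [sq]; exact Nat.mul_le_mul (by omega) (by omega)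
  exact_mod_cast this

end Cfsg.Agent.S3549
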