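import Cfsg.Statements.S3559
import Mathlib
import Cfsg.Agent.H7.PS

set_option autoImplicit false
open Cfsg

namespace Cfsg.Agent.S3559

open Cfsg.Agent.H7 Subgroup MulAction Finset

theorem sum_pow {R ι : Type*} [Semiring R] {p : ℕ} [Fact p.Prime] [CharP R p] (s : Finset ι) (f : ι → R)
    (h : ∀ i j, Commute (f i) (f j)) : (∑ i ∈ s, f i) ^ p = ∑ i ∈ s, f i ^ p := by
  classical
  induction s using Finset.induction_on with
  | empty => simp [(Fact.out : p.Prime).ne_zero]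
  | insert a s ha ih => rw [sum_insert ha, sum_insert ha, add_pow_char_of_commute _
      (Commute.sum_right _ _ _ fun j _ => h a j), ih]

variable {G Ω : Type*} [Group G] [Finite G] [MulAction G Ω] [Finite Ω] [IsPreprimitive G Ω] {C : Subgroup G}
  [IsCyclic C] [IsPretransitive C Ω] {a y : Ω} {p : ℕ} [hp : Fact p.Prime]

theorem coset (hC : ∀ a : Ω, stabilizer C a = ⊥) (hd : p ∣ Nat.card C) {t e : C}
    (ht : ∃ g : G, g • a = a ∧ g • y = t • a) (htp : t ^ p ≠ 1) (he : e ^ p = 1) :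
    ∃ g : G, g • a = a ∧ g • y = (t * e) • a := by
  classical
  have := Fintype.ofFinite Ω
  have := Fintype.ofFinite C
  have : Nonempty Ω := ⟨a⟩
  have hc : ∀ s t : C, s * t = t * s := IsCyclic.commGroup.mul_comm
  have hr : ∀ (s t : C) (u : Ω), s • u = t • u → s = t := fun s t u h =>
    Subtype.ext (eq_of_smul_eq_of_reg (hC u) s.2 t.2 h)
  let T : Finset C := {s | ∃ g : G, g • a = a ∧ g • y = s • a}
  let P : C →* Matrix Ω Ω (ZMod p) := Matrix.permMatrixHom.comp (toPermHom C Ω)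
  have hP : ∀ s u v, P s u v = if s • v = u then 1 else 0 := fun s u v => by
    simp [P, Matrix.permMatrixHom_apply, PEquiv.toMatrix_apply, Equiv.Perm.inv_def, inv_smul_eq_iff, eq_comm (a := u)]
  let A : Matrix Ω Ω (ZMod p) := fun u v => if ∃ g : G, g • a = v ∧ g • y = u then 1 else 0
  have hA : ∀ g : G, Matrix.reindexAlgEquiv (ZMod p) _ (toPerm g) A = A := fun g => by
    ext u v
    refine if_congr ⟨fun ⟨k, h1, h2⟩ => ⟨g * k, ?_, ?_⟩, fun ⟨k, h1, h2⟩ => ⟨g⁻¹ * k, ?_, ?_⟩⟩ rfl rfl <;>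
      simp [mul_smul, h1, h2]
  have h1 : A = ∑ s ∈ T, P s := by
    ext u v
    obtain ⟨d, rfl⟩ := exists_smul_eq C a v
    obtain ⟨c, rfl⟩ := exists_smul_eq C (d • a) u
    rw [Matrix.sum_apply, sum_congr rfl fun s _ => (hP s _ _).trans (if_congr ⟨hr _ _ _, fun h => h ▸ rfl⟩ rfl rfl),
      sum_ite_eq']
    refine if_congr ⟨fun ⟨k, h1, h2⟩ => mem_filter.2 ⟨mem_univ _, (d : G)⁻¹ * k, ?_, ?_⟩, fun h => ?_⟩ rfl rfl
    · rw [mul_smul, h1]; exact inv_smul_smul d a
    · rw [mul_smul, h2, smul_smul c d, hc, mul_smul]; exact inv_smul_smul d _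
    · obtain ⟨k, h1, h2⟩ := (mem_filter.1 h).2
      exact ⟨d * k, by rw [mul_smul, h1]; rfl, by rw [mul_smul, h2, smul_smul c d, hc, mul_smul]; rfl⟩
  have h2 : ∀ u, (A ^ p) u a = #{s ∈ T | s ^ p • a = u} := fun u => by
    rw [h1, sum_pow _ _ fun s t => (Commute.map (hc s t) P), Matrix.sum_apply, natCast_card_filter]
    exact sum_congr rfl fun s _ => by rw [← map_pow, hP]
  have h3 : (#{s ∈ T | s ^ p • a = t ^ p • a} : ZMod p) = 0 := by
    by_contra h
    have h4 := univ_of_closed (G := G) (a := a) (y := t ^ p • a) (B := {u | ∃ s : C, s ^ p • a = u})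
      (fun e => htp (hr _ _ a (e.trans (one_smul _ _).symm))) ⟨1, by simp⟩ (by
      rintro g ⟨s, hs⟩
      have h5 := (map_pow _ A p).trans (congrArg (· ^ p) (hA (g⁻¹ * (s ^ p : C))))
      replace h5 := congrFun (congrFun h5 (t ^ p • a)) a
      rw [h2 (t ^ p • a), Matrix.reindexAlgEquiv_apply, Matrix.reindex_apply, Matrix.submatrix_apply, toPerm_symm_apply,
        toPerm_symm_apply, mul_inv_rev, inv_inv, mul_smul _ g a, ← hs, show ((s ^ p : C) : G)⁻¹ • s ^ p • a = a from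
          inv_smul_smul (s ^ p) a, h2] at h5
      obtain ⟨r, hr⟩ := card_ne_zero.1 fun e => h (h5.symm.trans ((congrArg Nat.cast e).trans Nat.cast_zero))
      refine ⟨s * r, ?_⟩
      rw [Commute.mul_pow (hc s r), mul_smul, (mem_filter.1 hr).2, mul_smul]
      exact smul_inv_smul (s ^ p) _)
    obtain ⟨x, hx⟩ := exists_prime_orderOf_dvd_card' p hd
    have h5 : Function.Injective fun s : C => s ^ p := Finite.injective_iff_surjective.2 fun s =>
      (h4.ge (Set.mem_univ (s • a))).imp fun r => hr _ _ a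
    exact hp.out.one_lt.ne (by rw [← hx, h5 (a₁ := x) (a₂ := 1) ((hx ▸ pow_orderOf_eq_one x).trans (one_pow p).symm),
      orderOf_one])
  have h4 : #{s : C | s ^ p • a = t ^ p • a} ≤ p := le_trans (card_le_card_of_injOn (fun s => s * t⁻¹) (fun s hs => by
    simpa [Commute.mul_pow (hc s t⁻¹), mul_inv_eq_one] using hr _ _ a (mem_filter.1 hs).2)
      fun s _ s' _ => mul_right_cancel) (IsCyclic.card_pow_eq_one_le hp.out.pos)
  have h5 := eq_of_subset_of_card_le (filter_subset_filter _ (subset_univ T)) (h4.trans (Nat.le_of_dvd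
    (card_pos.2 ⟨t, mem_filter.2 ⟨mem_filter.2 ⟨mem_univ _, ht⟩, rfl⟩⟩) ((ZMod.natCast_eq_zero_iff _ _).1 h3)))
  exact (mem_filter.1 (mem_filter.1 (h5.ge (mem_filter.2 ⟨mem_univ (t * e), by
    rw [Commute.mul_pow (hc t e), he, mul_one]⟩))).1).2

theorem meet (hC : ∀ a : Ω, stabilizer C a = ⊥) (hd : p ∣ Nat.card C) (hy : y ≠ a) :
    ∃ t : C, t ^ p = 1 ∧ ∃ g : G, g • a = a ∧ g • y = t • a := by
  by_contra! h
  have hc : ∀ s t : C, s * t = t * s := IsCyclic.commGroup.mul_comm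
  obtain ⟨e, he⟩ := exists_prime_orderOf_dvd_card' p hd
  let Γ : Ω → Ω → Prop := fun u z => ∃ g : G, g • a = u ∧ g • y = z
  have h1 : ∀ (g : G) u z, Γ (g • u) z ↔ Γ u (g⁻¹ • z) := fun g u z =>
    ⟨fun ⟨k, h1, h2⟩ => ⟨g⁻¹ * k, by simp [mul_smul, h1], by simp [mul_smul, h2]⟩,
      fun ⟨k, h1, h2⟩ => ⟨g * k, by simp [mul_smul, h1], by simp [mul_smul, h2]⟩⟩
  have h2 : ∀ (e : C) z, e ^ p = 1 → Γ a z → Γ a (e • z) := fun e z he hz => by
    obtain ⟨t, rfl⟩ := exists_smul_eq C a z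
    rw [smul_smul, hc]
    exact coset hC hd hz (fun e' => hz.elim fun g hg => h t e' g hg.1 hg.2) he
  have h3 := he ▸ pow_orderOf_eq_one e
  rcases prim_block (G := G) {u | ∀ z, Γ u z ↔ Γ a z} (fun g u hu hu' w hw z => by
    rw [h1, hw, ← hu, ← h1, hu']) with h4 | h4
  · refine hp.out.one_lt.ne ?_
    rw [← he, show e = 1 from (hC a).le (h4 (x := e • a) (fun z => (h1 e a z).trans ⟨fun hz => by
      simpa [Subgroup.smul_def] using h2 e _ h3 hz, h2 e⁻¹ _ (by rw [inv_pow, h3, inv_one])⟩) fun z => Iff.rfl),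
      orderOf_one]
  · obtain ⟨g, g1, g2⟩ := (h4.ge (Set.mem_univ y) y).2 ⟨1, one_smul _ _, one_smul _ _⟩
    exact hy (MulAction.injective g (g2.trans g1.symm))

/-- Let G act faithfully and transitively on a finite set whose number of points n ≥ 2 is not a prime power, and suppose G has a cyclic subgroup acting regularly (transitively with trivial point stabilizers). Then G is imprimitive or doubly transitive. -/
theorem result {G Ω : Type*} [Group G] [Finite G] [MulAction G Ω] [FaithfulSMul G Ω] [Finite Ω]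
    (htrans : MulAction.IsPretransitive G Ω) (hn : 2 ≤ Nat.card Ω) (hnp : ¬ IsPrimePow (Nat.card Ω))
    (C : Subgroup G) (hcyc : IsCyclic ↥C) (hC : MulAction.IsPretransitive ↥C Ω ∧ ∀ a : Ω, MulAction.stabilizer ↥C a = ⊥) :
    ¬ MulAction.IsPreprimitive G Ω ∨ MulAction.IsMultiplyPretransitive G Ω 2 := by
  refine or_iff_not_imp_left.2 fun h => ?_
  rw [not_not] at h
  have := hC.1
  have : Nonempty Ω := (Nat.card_pos_iff.1 (by omega)).1
  obtain ⟨a⟩ := this
  rw [← card_eq_of_regular (hC.2 a)] at hn hnp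
  obtain ⟨p, q, hp, hq, hpq⟩ : ∃ p q, (p.Prime ∧ p ∣ Nat.card C) ∧ (q.Prime ∧ q ∣ Nat.card C) ∧ q ≠ p := by
    by_contra! h
    obtain ⟨p, hp⟩ := Nat.exists_prime_and_dvd (n := Nat.card C) (by omega)
    exact hnp (isPrimePow_iff_unique_prime_dvd.2 ⟨p, hp, fun q hq => h p q hp hq⟩)
  have := Fact.mk hp.1
  have := Fact.mk hq.1
  obtain ⟨e, he⟩ := exists_prime_orderOf_dvd_card' p hp.2
  have h1 : ∀ y, y ≠ a → ∃ g : G, g • a = a ∧ g • y = e • a := fun y hy => by
    obtain ⟨x, hx, h2⟩ := meet hC.2 hq.2 hy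
    have h3 : x ≠ 1 := by
      rintro rfl
      obtain ⟨g, g1, g2⟩ := h2
      exact hy (MulAction.injective g (g2.trans ((one_smul _ _).trans g1.symm)))
    rw [← (mul_inv_eq_iff_eq_mul.2 (IsCyclic.commGroup.mul_comm x e) : x * e * x⁻¹ = e)]
    refine coset hC.2 hq.2 (coset hC.2 hp.2 h2 (fun e' => hpq
      ((orderOf_eq_prime hx h3).symm.trans (orderOf_eq_prime e' h3))) (he ▸ pow_orderOf_eq_one e)) (e := x⁻¹)
      (fun e' => hpq ?_) (by rw [inv_pow, hx, inv_one])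
    rw [Commute.mul_pow (IsCyclic.commGroup.mul_comm x e), hx, one_mul, ← orderOf_dvd_iff_pow_eq_one, he] at e'
    exact ((Nat.prime_dvd_prime_iff_eq hp.1 hq.1).1 e').symm
  refine two_trans_of_stab a fun y z hy hz => ?_
  obtain ⟨g, g1, g2⟩ := h1 y hy
  obtain ⟨k, k1, k2⟩ := h1 z hz
  exact ⟨k⁻¹ * g, by rw [mul_smul, g1, inv_smul_eq_iff, k1], by rw [mul_smul, g2, inv_smul_eq_iff, k2]⟩

end Cfsg.Agent.S3559
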