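import Cfsg.Statements.S3560
import Cfsg.Agent.H9.TJ

set_option autoImplicit false
open Cfsg

namespace Cfsg.Agent.S3560

open Cfsg.Agent Cfsg.Agent.H9
open scoped Pointwise

/-- adjacency in the Hamming graph -/
def Adj {ι X : Type*} (x y : ι → X) : Prop := ∃ k, x k ≠ y k ∧ ∀ j, j ≠ k → x j = y j

/-- product action element -/
def W {ι X : Type*} (τ : ι → Equiv.Perm X) (s : Equiv.Perm ι) : Equiv.Perm (ι → X) :=
  (Equiv.arrowCongr s.symm (Equiv.refl X)).trans (Equiv.piCongrRight τ)

theorem W_apply {ι X : Type*} (τ : ι → Equiv.Perm X) (s : Equiv.Perm ι) (z : ι → X) (k : ι) :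
    W τ s z k = τ k (z (s k)) := rfl

theorem W_adj {ι X : Type*} (τ : ι → Equiv.Perm X) (s : Equiv.Perm ι) (x y : ι → X) :
    Adj (W τ s x) (W τ s y) ↔ Adj x y := by
  constructor
  · rintro ⟨k, h1, h2⟩
    refine ⟨s k, fun e => h1 (by rw [W_apply, W_apply, e]), fun j hj => ?_⟩
    have := h2 (s.symm j) (fun e => hj (by rw [← e]; simp))
    rw [W_apply, W_apply] at this
    simpa using this
  · rintro ⟨k, h1, h2⟩
    refine ⟨s.symm k, by simpa [W_apply] using h1, fun j hj => ?_⟩
    rw [W_apply, W_apply, h2 _ (fun e => hj (by rw [← e]; simp))]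

theorem two_trans {X : Type*} {a b c d : X} (h : a ≠ b) (h' : c ≠ d) : ∃ t : Equiv.Perm X, t a = c ∧ t b = d := by
  classical
  refine ⟨Equiv.swap (Equiv.swap a c b) d * Equiv.swap a c, ?_, by simp⟩
  rw [Equiv.Perm.mul_apply, Equiv.swap_apply_left]
  refine Equiv.swap_apply_of_ne_of_ne (fun e => h ?_) h'
  have := congrArg (Equiv.swap a c) e
  simpa using this

theorem block_all {ι : Type*} [Fintype ι] {m : ℕ} (hm : 3 ≤ m) (P : (ι → Fin m) → Prop)
    (key : ∀ τ s u v, P u → P (W τ s u) → P v → P (W τ s v)) (x y : ι → Fin m) (hxy : x ≠ y) (hx : P x) (hy : P y)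
    (z : ι → Fin m) : P z := by
  classical
  have step : ∀ y k c, P y → c ≠ y k → P (Function.update y k c) → ∀ j c', P (Function.update y j c') := by
    intro y k c hy hc hu j c'
    by_cases hc' : c' = y j
    · rw [hc', Function.update_eq_self]; exact hy
    obtain ⟨t, ht1, ht2⟩ := two_trans hc hc'
    let τ : ι → Equiv.Perm (Fin m) := fun i => if i = j then t else Equiv.swap (y (Equiv.swap j k i)) (y i)
    have h1 : W τ (Equiv.swap j k) y = y := by
      funext i
      rw [W_apply]
      by_cases hi : i = j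
      · subst hi; simp [τ, ht2]
      · simp [τ, hi]
    have h2 : W τ (Equiv.swap j k) (Function.update y k c) = Function.update y j c' := by
      funext i
      rw [W_apply]
      by_cases hi : i = j
      · subst hi; simp [τ, ht1]
      · have : Equiv.swap j k i ≠ k := fun e => hi (by
          have := congrArg (Equiv.swap j k) e
          simpa using this)
        simp [τ, hi, Function.update_of_ne this]
    rw [← h2]
    exact key _ _ y _ hy (h1.symm ▸ hy) hu
  obtain ⟨k, hk⟩ := Function.ne_iff.mp hxy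
  obtain ⟨c, hc1, hc2⟩ : ∃ c : Fin m, c ≠ x k ∧ c ≠ y k := by
    by_contra h
    push Not at h
    have : (Finset.univ : Finset (Fin m)) ⊆ {x k, y k} := fun c _ => by
      by_cases e : c = x k
      · simp [e]
      · simp [h c e]
    have h2 := (Finset.card_le_card this).trans Finset.card_le_two
    simp at h2; omega
  have h0 : P (Function.update y k c) := by
    let τ : ι → Equiv.Perm (Fin m) := fun i => if i = k then Equiv.swap (y k) c else 1
    have h1 : W τ 1 x = x := by
      funext i
      rw [W_apply]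
      by_cases hi : i = k
      · subst hi; simp [τ, Equiv.swap_apply_of_ne_of_ne hk hc1.symm]
      · simp [τ, hi]
    have h2 : W τ 1 y = Function.update y k c := by
      funext i
      rw [W_apply]
      by_cases hi : i = k
      · subst hi; simp [τ]
      · simp [τ, hi]
    rw [← h2]
    exact key _ _ x _ hx (h1.symm ▸ hx) hy
  have all : ∀ t : Finset ι, P (t.piecewise z y) ∧ ∀ j c', P (Function.update (t.piecewise z y) j c') := by
    intro t
    induction t using Finset.induction_on with
    | empty => simpa using ⟨hy, step y k c hy hc2 h0⟩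
    | insert j t hj ih =>
      rw [Finset.piecewise_insert]
      refine ⟨ih.2 _ _, ?_⟩
      by_cases e : z j = t.piecewise z y j
      · rw [e, Function.update_eq_self]; exact ih.2
      · refine step _ j (t.piecewise z y j) (ih.2 _ _) (by simpa using Ne.symm e) ?_
        simpa using ih.1
  simpa using (all Finset.univ).1

/-- Let K be a finite group isomorphic to a direct product of r ≥ 2 groups all of the same order m ≥ 3. Then K is not a B-group: there is a primitive but not doubly transitive permutation group (on some finite set) containing a regular subgroup isomorphic to K. -/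
theorem result {K : Type*} [Group K] [Finite K] {ι : Type*} [Fintype ι] (F : ι → Type*) [∀ i, Group (F i)]
    (hr : 2 ≤ Fintype.card ι) (m : ℕ) (hm : 3 ≤ m) (hcard : ∀ i, Nat.card (F i) = m) (e : K ≃* (∀ i, F i)) :
    ∃ (n : ℕ) (G R : Subgroup (Equiv.Perm (Fin n))), R ≤ G ∧ Nonempty (↥R ≃* K) ∧
      MulAction.IsPretransitive ↥R (Fin n) ∧ (∀ a : Fin n, MulAction.stabilizer ↥R a = ⊥) ∧
      MulAction.IsPreprimitive ↥G (Fin n) ∧ ¬ MulAction.IsMultiplyPretransitive ↥G (Fin n) 2 := by
  classical
  haveI : ∀ i, Finite (F i) := fun i => Nat.finite_of_card_ne_zero (by rw [hcard]; omega)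
  let b : ∀ i, F i ≃ Fin m := fun i => Finite.equivFinOfCardEq (hcard i)
  let φ := Fintype.equivFin (ι → Fin m)
  let ψ : K ≃ Fin (Fintype.card (ι → Fin m)) := e.toEquiv.trans ((Equiv.piCongrRight b).trans φ)
  let ρ : K →* Equiv.Perm (Fin (Fintype.card (ι → Fin m))) := ψ.permCongrHom.toMonoidHom.comp (MulAction.toPermHom K K)
  have hρ : ∀ k x, ρ k (ψ x) = ψ (k * x) := fun k x => by simp [ρ, Equiv.permCongrHom]
  let G : Subgroup (Equiv.Perm (Fin (Fintype.card (ι → Fin m)))) :=
    { carrier := {σ | ∀ a b, Adj (φ.symm (σ a)) (φ.symm (σ b)) ↔ Adj (φ.symm a) (φ.symm b)}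
      one_mem' := fun a b => Iff.rfl
      mul_mem' := fun {s t} hs ht a b => (hs _ _).trans (ht a b)
      inv_mem' := fun {s} hs a b => by simpa using (hs (s⁻¹ a) (s⁻¹ b)).symm }
  have hW : ∀ τ s, φ.permCongr (W τ s) ∈ G := fun τ s a b => by simpa using W_adj τ s _ _
  have hRG : ρ.range ≤ G := by
    rintro _ ⟨k, rfl⟩
    have : ρ k = φ.permCongr (W (fun i => (b i).permCongr (Equiv.mulLeft (e k i))) 1) := by
      ext a
      obtain ⟨x, rfl⟩ := ψ.surjective a
      rw [hρ]
      congr 1
      simp only [ψ, Equiv.permCongr_apply, Equiv.trans_apply, Equiv.symm_apply_apply]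
      congr 1
      funext i
      simp [W_apply]
    rw [this]; exact hW _ _
  have hinj : Function.Injective ρ := by
    intro k l h
    have := hρ k 1
    rw [h, hρ] at this
    simpa using this.symm
  have htr : MulAction.IsPretransitive ρ.range (Fin (Fintype.card (ι → Fin m))) := ⟨fun a c => by
    obtain ⟨x, rfl⟩ := ψ.surjective a
    obtain ⟨y, rfl⟩ := ψ.surjective c
    exact ⟨⟨ρ (y * x⁻¹), _, rfl⟩, by
      show ρ (y * x⁻¹) (ψ x) = _
      rw [hρ]; simp⟩⟩
  refine ⟨_, G, ρ.range, hRG, ⟨(MonoidHom.ofInjective hinj).symm⟩, htr, ?_, ?_, ?_⟩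
  · intro a
    obtain ⟨x, rfl⟩ := ψ.surjective a
    rw [eq_bot_iff]
    rintro ⟨_, k, rfl⟩ hk
    have h1 : ρ k (ψ x) = ψ x := hk
    rw [hρ] at h1
    have h2 : k = 1 := by simpa using h1
    subst h2
    exact Subtype.ext (map_one ρ)
  · haveI : MulAction.IsPretransitive G (Fin (Fintype.card (ι → Fin m))) := ⟨fun a c => by
      obtain ⟨g, hg⟩ := htr.exists_smul_eq a c
      exact ⟨⟨g.1, hRG g.2⟩, hg⟩⟩
    refine ⟨fun {B} hB => ?_⟩
    by_cases hs : B.Subsingleton
    · exact Or.inl hs
    right
    obtain ⟨x, hx, y, hy, hxy⟩ := Set.not_subsingleton_iff.mp hs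
    rw [Set.eq_univ_iff_forall]
    intro z
    have := block_all hm (fun u => φ u ∈ B) (fun τ s u v h1 h2 h3 => by
      have h4 := hB.smul_eq_of_mem (g := ⟨_, hW τ s⟩) h1 (by
        show φ.permCongr (W τ s) (φ u) ∈ B
        simpa using h2)
      have h5 := Set.smul_mem_smul_set (a := (⟨_, hW τ s⟩ : G)) h3
      rw [h4] at h5
      have h6 : φ.permCongr (W τ s) (φ v) ∈ B := h5
      simpa using h6) (φ.symm x) (φ.symm y) (by simpa using hxy) (by simpa using hx) (by simpa using hy) (φ.symm z)
    simpa using this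
  · intro h2
    rw [MulAction.is_two_pretransitive_iff] at h2
    obtain ⟨i, j, hij⟩ := Fintype.exists_pair_of_one_lt_card (α := ι) hr
    let o : Fin m := ⟨0, by omega⟩
    let l : Fin m := ⟨1, by omega⟩
    have hol : o ≠ l := by simp [o, l]
    obtain ⟨g, h3, h4⟩ := h2 (a := φ fun _ => o) (b := φ (Function.update (fun _ => o) i l)) (c := φ fun _ => o)
      (d := φ fun _ => l) (fun e => hol (by simpa using congrFun (φ.injective e) i))
      (fun e => hol (by simpa using congrFun (φ.injective e) i))
    have h5 := (g.2 (φ fun _ => o) (φ (Function.update (fun _ => o) i l))).mpr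
      ⟨i, by simpa using hol, fun k hk => by simp [hk]⟩
    have h3' : g.1 (φ fun _ => o) = φ fun _ => o := h3
    have h4' : g.1 (φ (Function.update (fun _ => o) i l)) = φ fun _ => l := h4
    rw [h3', h4'] at h5
    obtain ⟨k, -, hk⟩ := h5
    by_cases e : i = k
    · exact hol (by simpa using hk j (fun e' => hij (e.trans e'.symm)))
    · exact hol (by simpa using hk i e)

end Cfsg.Agent.S3560
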