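import Cfsg.Statements.S3573
import Mathlib
import Cfsg.Agent.H7.PS

set_option autoImplicit false
open Cfsg

namespace Cfsg.Agent.S3573

open Cfsg.Agent.H7 MulAction Equiv.Perm Finset
open scoped Pointwise

theorem key {n k r : ℕ} (hr : r.Prime) (hk : k ≤ n) (hn : r ≤ n) :
    (∀ σ : Equiv.Perm (Fin n), orderOf σ = r → ∃ s : Finset (Fin n), s.card = k ∧ s.image σ = s) ↔ k % r ≤ n % r := by
  have := Fact.mk hr
  constructor
  · intro h
    have h4 : (Multiset.replicate (n / r) r).sum = n / r * r := by simp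
    obtain ⟨g, hg⟩ := (exists_with_cycleType_iff (Fin n) (m := Multiset.replicate (n / r) r)).2
      ⟨by simp [Nat.div_mul_le_self], fun a ha => Multiset.eq_of_mem_replicate ha ▸ hr.two_le⟩
    have h5 := pow_prime_eq_one_iff.2 fun c hc => Multiset.eq_of_mem_replicate (hg ▸ hc : c ∈ _)
    obtain ⟨s, rfl, hs⟩ := h g (orderOf_eq_prime h5 fun e => (Nat.div_pos hn hr.pos).ne' (by
      simpa [e] using congrArg Multiset.card hg.symm))
    have h6 := ncard_modEq_of_isPGroup (G := Subgroup.zpowers g) hr (IsPGroup.of_card_dvd_pow (n := 1) (by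
      rw [Nat.card_zpowers, pow_one]; exact orderOf_dvd_of_pow_eq_one h5)) (s : Set (Fin n)) (Set.toFinite _)
      fun u x hx => mem_coe.2 ((Subgroup.zpowers_le.2 (show g ∈ stabilizer _ s from hs) u.2 :
        (u : Equiv.Perm (Fin n)) • s = s) ▸ smul_mem_smul_finset hx)
    have h7 := Set.ncard_le_ncard (s := (s : Set (Fin n)) ∩ fixedPoints (Subgroup.zpowers g) (Fin n))
      (t := (g.supportᶜ : Finset (Fin n))) fun x hx => by simpa using hx.2 ⟨g, Subgroup.mem_zpowers g⟩
    rw [Set.ncard_coe_finset, card_compl, ← sum_cycleType, hg, h4, Fintype.card_fin, mul_comm,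
      ← Nat.mod_def] at h7
    rw [Set.ncard_coe_finset] at h6
    exact h6 ▸ (Nat.mod_le _ _).trans h7
  intro h σ hσ
  have h1 : ∀ c ∈ σ.cycleFactorsFinset, #c.support = r := fun c hc =>
    pow_prime_eq_one_iff.1 (hσ ▸ pow_orderOf_eq_one σ) _ (by rw [cycleType_def]; exact Multiset.mem_map_of_mem _ hc)
  have h2 : #σ.support = #σ.cycleFactorsFinset * r := by
    rw [← sum_cycleType, cycleType_def, ← sum_const_nat h1]; rfl
  have h3 := Fintype.card_fin n ▸ card_le_univ σ.support
  obtain ⟨T, hT, e⟩ := exists_subset_card_eq (min_le_left #σ.cycleFactorsFinset (k / r))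
  obtain ⟨U, hU, e'⟩ := exists_subset_card_eq (s := σ.supportᶜ) (n := k - #T * r) (by
    rw [card_compl, Fintype.card_fin, e, h2]
    rcases min_choice #σ.cycleFactorsFinset (k / r) with e | e <;> rw [e]
    · omega
    · rw [mul_comm, ← Nat.mod_def]
      refine h.trans (Nat.le_sub_of_add_le ?_)
      have := Nat.mul_le_mul_right r ((Nat.le_div_iff_mul_le hr.pos).2 (h2 ▸ h3))
      have := Nat.mod_add_div' n r
      omega)
  have h4 : Disjoint (T.biUnion support) U := disjoint_left.2 fun x hx hx' => by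
    obtain ⟨c, hc, hx⟩ := mem_biUnion.1 hx
    exact mem_compl.1 (hU hx') (mem_cycleFactorsFinset_support_le (hT hc) hx)
  refine ⟨T.biUnion support ∪ U, ?_, eq_of_subset_of_card_le (image_subset_iff.2 fun x hx => ?_)
    (card_image_of_injective _ σ.injective).ge⟩
  · rw [card_union_of_disjoint h4, card_biUnion fun c hc d hd hcd =>
      (cycleFactorsFinset_pairwise_disjoint σ (hT hc) (hT hd) hcd).disjoint_support,
      sum_const_nat fun c hc => h1 c (hT hc), e', Nat.add_sub_cancel']
    exact (Nat.le_div_iff_mul_le hr.pos).1 (e ▸ min_le_right _ _)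
  rcases mem_union.1 hx with hx | hx
  · obtain ⟨c, hc, hx⟩ := mem_biUnion.1 hx
    exact mem_union_left _ (mem_biUnion.2 ⟨c, hc, (mem_cycleFactorsFinset_iff.1 (hT hc)).2 x hx ▸
      apply_mem_support.2 hx⟩)
  · exact mem_union_right _ ((notMem_support.1 (mem_compl.1 (hU hx))).symm ▸ hx)

/-- Let 1 ≤ k with 2k < n and consider the symmetric group of degree n acting on the k-subsets of an n-set. Let r be a prime dividing the number C(n,k) of k-subsets. If r is odd, then every permutation of order r fixes some k-subset if and only if r ≤ k and the remainder of k modulo r is at most the remainder of n modulo r. If r = 2, then every involution fixes some k-subset if and only if k is even or n is odd. -/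
theorem result (n k : ℕ) (hk : 1 ≤ k) (hkn : 2 * k < n) (r : ℕ) (hr : r.Prime) (hrd : r ∣ Nat.choose n k) :
    (r ≠ 2 → ((∀ σ : Equiv.Perm (Fin n), orderOf σ = r → ∃ s : Finset (Fin n), s.card = k ∧ s.image σ = s) ↔
      (r ≤ k ∧ k % r ≤ n % r))) ∧
    (r = 2 → ((∀ σ : Equiv.Perm (Fin n), orderOf σ = 2 → ∃ s : Finset (Fin n), s.card = k ∧ s.image σ = s) ↔
      (Even k ∨ Odd n))) := by
  have := Fact.mk hr
  have h1 : r ≤ n := (hr.dvd_factorial).1 (hrd.trans (Dvd.intro _ ((mul_assoc _ _ _).symm.trans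
    (Nat.choose_mul_factorial_mul_factorial (by omega)))))
  refine ⟨fun _ => (key hr (by omega) h1).trans ⟨fun h => ⟨?_, h⟩, And.right⟩, ?_⟩
  · by_contra! h2
    have h3 := (Nat.ModEq.dvd_iff (Choose.choose_modEq_choose_mod_mul_choose_div_nat (n := n) (k := k) (p := r))
      dvd_rfl).1 hrd
    rw [Nat.div_eq_of_lt h2, Nat.choose_zero_right, mul_one] at h3
    exact absurd ((hr.dvd_factorial).1 (h3.trans (Dvd.intro _ ((mul_assoc _ _ _).symm.trans
      (Nat.choose_mul_factorial_mul_factorial h))))) (Nat.mod_lt _ hr.pos).not_ge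
  · rintro rfl
    rw [key hr (by omega) h1, Nat.even_iff, Nat.odd_iff]
    omega

end Cfsg.Agent.S3573
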