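import Cfsg.Statements.S3599
import Cfsg.Agent.H6.FrP

set_option autoImplicit false
open Cfsg

namespace Cfsg.Agent.S3599

open Cfsg.Agent
open scoped Pointwise commutatorElement

/-- A finite group is critical with respect to a set Ω of natural numbers when its set of element orders is Ω while no proper section H/N (H a subgroup, N normal in H, (H, N) ≠ (whole group, 1)) has Ω as its set of element orders. Let s ≥ 1 and let p(j,0), p(j,1) (j < s) be 2s pairwise distinct primes, and let Ω be the set of all products c(0)·…·c(s−1) with each c(j) ∈ {1, p(j,0), p(j,1)}. Then there are 2^s pairwise non-isomorphic finite groups critical with respect to Ω. -/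
theorem result (s : ℕ) (hs : 1 ≤ s) (p : Fin s → Fin 2 → ℕ)
    (hp : ∀ j i, (p j i).Prime) (hinj : ∀ j i j' i', p j i = p j' i' → j = j' ∧ i = i') :
    ∃ (G : Fin (2 ^ s) → Type) (_ : ∀ a, Group (G a)) (_ : ∀ a, Fintype (G a)),
      (∀ a b, a ≠ b → ¬ Nonempty (G a ≃* G b)) ∧
      ∀ a, Set.range (orderOf : (G a) → ℕ) = {m : ℕ | ∃ c : Fin s → ℕ, (∀ j, c j = 1 ∨ c j = p j 0 ∨ c j = p j 1) ∧ m = ∏ j, c j} ∧
      ∀ (H : Subgroup (G a)) (N : Subgroup ↥H) [N.Normal], (H ≠ ⊤ ∨ N ≠ ⊥) → Set.range (orderOf : (↥H ⧸ N) → ℕ) ≠ {m : ℕ | ∃ c : Fin s → ℕ, (∀ j, c j = 1 ∨ c j = p j 0 ∨ c j = p j 1) ∧ m = ∏ j, c j} := by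
  choose G i1 i2 h1 h2 using fun a : Fin (2 ^ s) => H6.FrP.exists_crit hp hinj (finFunctionFinEquiv.symm a)
  refine ⟨G, i1, fun a => Fintype.ofFinite _, fun a b hab ⟨e⟩ => (h1 a).not_iso hp hinj (h1 b)
    (fun h => hab (finFunctionFinEquiv.symm.injective h)) e, fun a => ⟨(h1 a).1, fun H N _ hne => h2 a H N hne⟩⟩

end Cfsg.Agent.S3599
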