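import Cfsg.Statements.S3619
import Mathlib
import Cfsg.Agent.H7.PS

set_option autoImplicit false
open Cfsg

namespace Cfsg.Agent.S3619

open Cfsg.Agent.H7 Subgroup MulAction
open scoped Pointwise

/-- Let G act faithfully on a finite set in such a way that every non-trivial normal subgroup of G is transitive (G is quasiprimitive). Let Γ be a subset with more than one point and not the whole set, such that the pointwise stabilizer of the complement of Γ acts transitively on Γ (a Jordan set). If that pointwise stabilizer acts primitively on Γ, then G is k-fold transitive where k is one more than the number of points outside Γ (the Jordan set is a trivial one). -/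
theorem result {G Ω : Type*} [Group G] [Finite G] [MulAction G Ω] [FaithfulSMul G Ω] [Finite Ω]
    (hqp : ∀ N : Subgroup G, N.Normal → N ≠ ⊥ → MulAction.IsPretransitive ↥N Ω)
    (Γ : Set Ω) (hΓ1 : 1 < Γ.ncard) (hΓ2 : Γ.ncard < Nat.card Ω)
    (hJ : MulAction.IsPretransitive ↥(fixingSubgroup G Γᶜ) ↥(SubMulAction.ofFixingSubgroup G Γᶜ))
    (hJp : MulAction.IsPreprimitive ↥(fixingSubgroup G Γᶜ) ↥(SubMulAction.ofFixingSubgroup G Γᶜ)) :
    MulAction.IsMultiplyPretransitive G Ω (Nat.card Ω - Γ.ncard + 1) := by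
  obtain ⟨a, ha, b, hb, hab⟩ := (Set.one_lt_ncard (Set.toFinite Γ)).1 hΓ1
  obtain ⟨u, hu, hua⟩ := (fix_trans_iff Γᶜ).1 hJ a b (fun h => h ha) (fun h => h hb)
  have hu1 : u ≠ 1 := fun e => hab (by rw [← hua, e, one_smul])
  have : IsPretransitive G Ω := ⟨fun x y => ((hqp ⊤ inferInstance fun e => hu1 (e.le (mem_top u))).exists_smul_eq
    x y).elim fun g hg => ⟨g, hg⟩⟩
  have hprim : IsPreprimitive G Ω := ⟨fun {B} hB => by_contra fun h => by
    rw [IsTrivialBlock, not_or, Set.not_subsingleton_iff] at h
    obtain ⟨x, hx⟩ := h.1.nonempty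
    have h1 : ∀ g : G, u • g • B = g • B := fun g => by
      by_cases h2 : ∃ y ∈ g • B, y ∉ Γ
      · obtain ⟨y, hy, hy'⟩ := h2
        exact (hB.translate g).smul_eq_of_mem hy ((hu y hy').symm ▸ hy)
      push Not at h2
      rcases fix_prim_block hJp (g • B) (fun y hy hy' => hy' (h2 y hy)) (fun k _ y hy hy' z hz =>
        (hB.translate g).smul_eq_of_mem hy hy' ▸ Set.smul_mem_smul_set hz) with h3 | h3
      · exact (h.1.image (MulAction.injective g)).not_subsingleton h3 |>.elim
      · exact (hB.translate g).smul_eq_of_mem (h3 a fun h => h ha) (hua ▸ h3 b fun h => h hb)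
    have := hqp (toPermHom G (orbit G B)).ker inferInstance fun e => hu1 (e.le (show u ∈ _ from Equiv.ext (by
      rintro ⟨_, g, rfl⟩; exact Subtype.ext (h1 g))))
    refine h.2 (Set.eq_univ_of_forall fun y => ?_)
    obtain ⟨g, rfl⟩ := this.exists_smul_eq x y
    exact (congrArg Subtype.val (Equiv.congr_fun (show toPermHom G (orbit G B) g = 1 from g.2)
      ⟨B, mem_orbit_self B⟩)).le (Set.smul_mem_smul_set hx)⟩
  have := (hprim.isMultiplyPreprimitive (s := Γᶜ) (n := Nat.card Ω - Γ.ncard - 1) (by rw [Set.ncard_compl]; omega)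
    (by omega) hJp).isMultiplyPretransitive
  rwa [show Nat.card Ω - Γ.ncard - 1 + 2 = Nat.card Ω - Γ.ncard + 1 by omega] at this

end Cfsg.Agent.S3619
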