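import Cfsg.Statements.S3627
import Cfsg.Agent.H6.JoB
import Cfsg.Agent.H6.JoM

set_option autoImplicit false
open Cfsg

namespace Cfsg.Agent.S3627

open Cfsg.Agent
open scoped Pointwise commutatorElement

/-- Let J be the first Janko group. Then there are finite groups of arbitrarily large order with exactly the same set of element orders as J × J × J × J. -/
theorem result (N : ℕ) : ∃ (H : Type) (_ : Group H) (_ : Fintype H), N < Fintype.card H ∧
      Set.range (orderOf : H → ℕ) = Set.range (orderOf : ↥Cfsg.Spor.J1 × ↥Cfsg.Spor.J1 × ↥Cfsg.Spor.J1 × ↥Cfsg.Spor.J1 → ℕ) := by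
  exact H6.big_spec (H6.Jo.spJ.congr H6.Jo.iso.some) N

end Cfsg.Agent.S3627
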