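import Cfsg.Statements.S3633
import Cfsg.Agent.GS.Spec

set_option autoImplicit false
open Cfsg

namespace Cfsg.Agent.S3633

open Cfsg.Agent.H1

/-- Let G be a finite group and ρ a set of at least three prime divisors of the order of G that are pairwise non-adjacent in the prime graph (no element of order rs for distinct r, s ∈ ρ). Then at most one prime of ρ divides the order of any given solvable normal subgroup of G; in particular G is not solvable. -/
theorem result {G : Type*} [Group G] [Finite G] (ρ : Finset ℕ) (hρ : 3 ≤ ρ.card) (hc : ((∀ r ∈ ρ, r.Prime ∧ r ∣ Nat.card G) ∧ (∀ r ∈ ρ, ∀ s ∈ ρ, r ≠ s → ¬ ∃ x : G, orderOf x = r * s)))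
    (K : Subgroup G) [K.Normal] (hK : Group.IsSolvable ↥K) :
    (∀ r ∈ ρ, ∀ s ∈ ρ, r ∣ Nat.card ↥K → s ∣ Nat.card ↥K → r = s) ∧ ¬ Group.IsSolvable G := by
  open Subgroup Pointwise commutatorElement Cfsg.Agent.BG Cfsg.Agent.GS in
  open Cfsg.Agent.H2 hiding card_lt_of_lt card_lt_of_ne_top isMulCommutative_of_le isPGroup_zpowers_iff mem_of_pow_mem_of_coprime inf_eq_bot_of_cop exists_maxElem_ge Sec in
  open Cfsg.Agent.H8 (Op Opp Fit SN) in
  open Cfsg.Agent.L (FPF) in focus
    have key : ∀ K : Subgroup G, K.Normal → Group.IsSolvable K → _ := fun K _ hK => three_primes_solv hK ρ hρ hc.1 hc.2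
    refine ⟨fun r hr s hs a b => Finset.card_le_one.1 (key K ‹_› hK) r (Finset.mem_filter.2 ⟨hr, a⟩) s (Finset.mem_filter.2 ⟨hs, b⟩), fun h => ?_⟩
    have := key ⊤ inferInstance inferInstance
    rw [Finset.filter_true_of_mem fun r hr => by simpa using (hc.1 r hr).2] at this
    omega

end Cfsg.Agent.S3633
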