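import Cfsg.Statements.S3639
import Cfsg.Agent.H5.Sz9

set_option autoImplicit false
open Cfsg

namespace Cfsg.Agent.S3639

open H5.Suz Polynomial in
theorem fpf {F : Type*} [Field F] {θ : F →+* F} {G Ω : Type*} [Group G] [MulAction G Ω] (Z : SzG θ G Ω) [CharP F 2]
    [Finite F] [Finite G] [Finite Ω] {g : G} {p : ℕ} (hp : p.Prime) (h2 : p ≠ 2) (hg : orderOf g = p) {v : Fin 4 → F}
    (h : (Z.ρ g).mulVec v = v) : v = 0 := by
  have g1 : g ≠ 1 := fun e => hp.ne_one (by rw [← hg, e, orderOf_one])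
  rcases Z.tri g with ⟨a, ha⟩ | ⟨a, b, hab, ha⟩ | hf
  · exact (h2 ((Nat.prime_dvd_prime_iff_eq hp Nat.prime_two).1 (hp.dvd_of_dvd_pow (n := 2)
      (hg ▸ orderOf_dvd_of_pow_eq_one ha.2)))).elim
  · obtain ⟨x, hx⟩ := H7.exists_conj_St Z.z3 hab ha Z.inf_ne_o
    obtain ⟨k, e⟩ := Z.mem_St.1 hx
    have k1 : (k : F) ≠ 1 := fun h => g1 (by simpa [Units.val_eq_one.1 h] using e)
    have k2 : (k : F) * θ k ≠ 1 := fun h => k1 (Z.nrm_inj (by simpa using h))
    have h3 : (hM θ k).mulVec ((Z.ρ x).mulVec v) = (Z.ρ x).mulVec v := by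
      rw [← Z.ρ_h, ← e, Matrix.mulVec_mulVec, ← map_mul, inv_mul_cancel_right, map_mul, ← Matrix.mulVec_mulVec, h]
    have h4 : (Z.ρ x).mulVec v = 0 := by
      generalize (Z.ρ x).mulVec v = w at h3
      ext i
      have := congrFun h3 i
      fin_cases i <;> simpa [hM, Matrix.mulVec, dotProduct, Fin.sum_univ_four, mul_left_eq_self₀, k1, k2, -mul_inv_rev] using this
    simpa [← map_mul] using congrArg (Z.ρ x⁻¹).mulVec h4
  have hd := hg ▸ (Z.fpf_iff g1).1 hf
  obtain ⟨hi, h4⟩ := irr_of_prime (M := Z.ρ g) hp hd h2 (by rw [← map_pow, ← hg, pow_orderOf_eq_one, map_one])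
    (fun e => g1 (Z.inj (e.trans (map_one _).symm)))
  have key : ∀ P : F[X], (aeval (Z.ρ g) P).mulVec v = P.eval 1 • v := fun P => by
    induction P using Polynomial.induction_on with
    | C a => simp [Algebra.algebraMap_eq_smul_one, Matrix.smul_mulVec]
    | add P Q h h' => simp [Matrix.add_mulVec, h, h', add_smul]
    | monomial n a ih => rw [pow_succ, ← mul_assoc, map_mul, aeval_X, ← Matrix.mulVec_mulVec, h, ih]; simp
  have := key (minpoly F (Z.ρ g))
  rw [minpoly.aeval, Matrix.zero_mulVec, eq_comm, smul_eq_zero] at this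
  exact this.resolve_left fun e => by
    have := natDegree_eq_of_degree_eq_some (n := 1) (degree_eq_one_of_irreducible_of_root hi e)
    omega

open H5.Suz in
theorem aux {F : Type*} [Field F] {θ : F →+* F} {G Ω : Type*} [Group G] [MulAction G Ω] (Z : SzG θ G Ω) [CharP F 2]
    [Finite F] [Finite G] [Finite Ω] (N : ℕ) :
    ∃ (H : Type) (_ : Group H) (_ : Fintype H), N < Fintype.card H ∧ ((∀ r : ℕ, r.Prime → (r ∣ Nat.card G ↔ r ∣ Nat.card H)) ∧
      (∀ r s : ℕ, r.Prime → s.Prime → r ≠ s → ((∃ x : G, orderOf x = r * s) ↔ (∃ y : H, orderOf y = r * s)))) := by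
  let W := Multiplicative (Matrix (Fin 4) (Fin N) F)
  let φ : G →* MulAut W := MonoidHom.mk' (fun g => AddEquiv.toMultiplicative
    { toFun := (Z.ρ g * ·), invFun := (Z.ρ g⁻¹ * ·), left_inv := fun _ => by simp [← Matrix.mul_assoc, ← map_mul]
      right_inv := fun _ => by simp [← Matrix.mul_assoc, ← map_mul], map_add' := Matrix.mul_add _ })
    fun a b => MulEquiv.ext fun w => by simp [W, Matrix.mul_assoc]
  have : Finite (W ⋊[φ] G) := Finite.of_equiv _ SemidirectProduct.equivProd.symm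
  have e := Shrink.mulEquiv.{0} (α := W ⋊[φ] G)
  have hW : Nat.card W = Nat.card F ^ (4 * N) := by
    simp [W, Matrix, Nat.card_congr Multiplicative.toAdd, Nat.card_fun, ← pow_mul, mul_comm]
  have hc : Nat.card (Shrink.{0} (W ⋊[φ] G)) = Nat.card F ^ (4 * N) * Nat.card G := by
    rw [Nat.card_congr e.toEquiv, SemidirectProduct.card, hW]
  have h4 := Z.q_ge
  have sq : ∀ w : W, w * w = 1 := fun w => Multiplicative.toAdd.injective (Matrix.ext fun _ _ => CharTwo.add_self_eq_zero _)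
  refine ⟨Shrink.{0} (W ⋊[φ] G), inferInstance, Fintype.ofFinite _, ?_, fun r hr => ⟨fun h => hc ▸ h.mul_left _, fun h => ?_⟩,
    fun r s hr hs hrs => ⟨fun ⟨x, h⟩ => ⟨e.symm (.inr x), by
      rw [MulEquiv.orderOf_eq, orderOf_injective _ SemidirectProduct.inr_injective, h]⟩, fun ⟨y, h⟩ => ⟨(e y).right, ?_⟩⟩⟩
  · have := Nat.lt_pow_self (n := 4 * N) (show 1 < Nat.card F by omega)
    have := Nat.card_pos (α := G)
    rw [← @Nat.card_eq_fintype_card, hc]
    nlinarith
  · exact (hr.dvd_mul.1 (hc ▸ h)).elim (fun h => Z.cardG ▸ (((hr.dvd_of_dvd_pow h).trans (dvd_pow_self _ two_ne_zero)).mul_right _).mul_right _) id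
  rw [← e.orderOf_eq] at h
  generalize e y = y at h
  have key : ∀ r s : ℕ, r.Prime → s.Prime → r ≠ s → orderOf y = r * s → y.right ^ s ≠ 1 := fun r s hr hs hrs h h1 => by
    obtain ⟨w, hw⟩ : y ^ s ∈ SemidirectProduct.inl.range := by
      rw [SemidirectProduct.range_inl_eq_ker_rightHom]; exact (map_pow _ _ _).trans h1
    have o1 : orderOf (y ^ s) = r := by rw [orderOf_pow_of_dvd hs.ne_zero (h ▸ Dvd.intro_left _ rfl), h, Nat.mul_div_cancel _ hs.pos]
    have o2 : orderOf (y ^ r) = s := by rw [orderOf_pow_of_dvd hr.ne_zero (h ▸ Dvd.intro _ rfl), h, Nat.mul_div_cancel_left _ hr.pos]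
    obtain rfl : r = 2 := (Nat.prime_dvd_prime_iff_eq hr Nat.prime_two).1 (by
      rw [← o1, ← hw, orderOf_dvd_iff_pow_eq_one, pow_two, ← map_mul, sq, map_one])
    have := Fact.mk hs
    have o3 : orderOf (y ^ 2).right = s := orderOf_eq_prime (by
      rw [← SemidirectProduct.rightHom_eq_right, ← map_pow, ← o2, pow_orderOf_eq_one, map_one]) fun e => by
      obtain ⟨v, hv⟩ : y ^ 2 ∈ SemidirectProduct.inl.range := by rw [SemidirectProduct.range_inl_eq_ker_rightHom]; exact e
      exact hrs ((Nat.prime_dvd_prime_iff_eq hs Nat.prime_two).1 (by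
        rw [← o2, ← hv, orderOf_dvd_iff_pow_eq_one, pow_two, ← map_mul, sq, map_one])).symm
    have h2 := congrArg SemidirectProduct.left ((Commute.pow_pow_self y 2 s).eq)
    rw [← hw, SemidirectProduct.mul_left, SemidirectProduct.mul_left, SemidirectProduct.right_inl, map_one, MulAut.one_apply,
      mul_comm, mul_left_inj, SemidirectProduct.left_inl] at h2
    have h3 : w = 1 := Multiplicative.toAdd.injective (Matrix.ext fun i j => congrFun (fpf Z hs hrs.symm o3 (v := fun i => w.toAdd i j)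
      (funext fun i => congrFun₂ (congrArg Multiplicative.toAdd h2) i j)) i)
    rw [← hw, h3, map_one, orderOf_one] at o1
    omega
  refine orderOf_eq_of_pow_and_pow_div_prime (Nat.mul_pos hr.pos hs.pos) (by
    rw [← SemidirectProduct.rightHom_eq_right, ← map_pow, ← h, pow_orderOf_eq_one, map_one]) fun p hp hd => ?_
  rcases hp.dvd_mul.1 hd with hd | hd
  · rw [(Nat.prime_dvd_prime_iff_eq hp hr).1 hd, Nat.mul_div_cancel_left _ hr.pos]
    exact key r s hr hs hrs h
  · rw [(Nat.prime_dvd_prime_iff_eq hp hs).1 hd, Nat.mul_div_cancel _ hs.pos]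
    exact key s r hs hr hrs.symm (mul_comm r s ▸ h)

/-- Let S be the Suzuki group over the field with q = 2^(2m+1) ≥ 8 elements. Then there are finite groups of arbitrarily large order with the same prime graph as S. -/
theorem result {F : Type*} [Field F] [Fintype F] {m : ℕ} (hm : 1 ≤ m) (hF : Fintype.card F = 2 ^ (2 * m + 1)) (N : ℕ) :
    ∃ (H : Type) (_ : Group H) (_ : Fintype H), N < Fintype.card H ∧ ((∀ r : ℕ, r.Prime → (r ∣ Nat.card ↥(Cfsg.Lie.Sz F (2 ^ (m + 1))) ↔ r ∣ Nat.card H)) ∧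
      (∀ r s : ℕ, r.Prime → s.Prime → r ≠ s → ((∃ x : ↥(Cfsg.Lie.Sz F (2 ^ (m + 1))), orderOf x = r * s) ↔ (∃ y : H, orderOf y = r * s)))) := by
  have := H5.Suz.charP hF
  obtain ⟨_, ⟨Z⟩⟩ := (H5.Suz.szO hm hF).exists_lie hF
  exact aux Z N

end Cfsg.Agent.S3639
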