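import Cfsg.Statements.S3663
import Cfsg.Agent.H8.Pg
import Cfsg.Agent.S0280

set_option autoImplicit false
open Cfsg

namespace Cfsg.Agent.S3663


open Function Cfsg.Agent.Rp Cfsg.Agent.GS Matrix Polynomial
open scoped MatrixGroups

/-- the field with sixteen elements, by tables -/
def K := Fin 16

instance : DecidableEq K := inferInstanceAs (DecidableEq (Fin 16))
instance : Fintype K := inferInstanceAs (Fintype (Fin 16))

def dg (T i : ℕ) : K := (⟨T / 16 ^ i % 16, Nat.mod_lt _ (by decide)⟩ : Fin 16)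

def kv (a : K) : ℕ := Fin.val a

instance : Add K := ⟨fun a b => dg (kv a ^^^ kv b) 0⟩
instance : Mul K := ⟨fun a b => dg 0xa5783ce1b4692df05ba48679c23d1fe07ae36bf258c149d0843fd16a2e957bc0386d92c74f1ae5b0c6b1285f394ed7a0e7f6c5d4a3b28190192a7f4cd5e6b380bc5243ad618f9e70428ef93517dbac6063c914be8d27fa509d15ae26fb73c8402147ed8b9afc5630df9b5713eca86420fedcba98765432100000000000000000 (16 * kv a + kv b)⟩
instance : Neg K := ⟨id⟩
instance : Inv K := ⟨fun a => dg 0x834a5c2f67bde910 (kv a)⟩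
instance : Zero K := ⟨dg 0 0⟩
instance : One K := ⟨dg 1 0⟩

instance fK : Field K := Field.ofMinimalAxioms K (by decide +kernel) (by decide +kernel) (by decide +kernel)
  (by decide +kernel) (by decide +kernel) (by decide +kernel) (by decide +kernel) (by decide +kernel)
  (by decide +kernel) ⟨0, 1, by decide +kernel⟩

theorem hK : Fintype.card K = 4 ^ 2 := rfl

def χ (a : K) : ZMod 5 := kv (dg 0x2131244300324100 (kv a))

abbrev I := Fin 5 × ZMod 13

def vec (i : I) : Fin 3 → K := fun t => dg 0x5b1e31b41b615717e14b1d41d619d1471ed1931b91621d51c010a1de1341761741261be1081a01241361f10921291eb17510c1791971351e21c10e715216710f15d1801f014310116b14219b1a101018103914d1b512e16316d13e1d91531251110 (3 * (13 * i.1 + i.2.val) + t)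

abbrev hf (u v : Fin 3 → K) : K := hermForm 3 K 4 u v

def mx (T : ℕ) : Matrix (Fin 3) (Fin 3) K := Matrix.of fun i j => dg T (3 * i + j)

theorem k1 : ∀ i j : I, hf (vec i) (vec j) = 0 ↔ i = j := by decide +kernel

theorem k2 : ∀ i : I, vec i ≠ 0 := by decide +kernel

theorem k3 : ∀ x y z : K, hf ![x, y, z] ![x, y, z] = 0 → ![x, y, z] = 0 ∨
    ∃ i, ![x, y, z] = (if x = 0 then y else x) • vec i := by decide +kernel

theorem k4 : ∀ i : I, ∃ a : K, a ≠ 0 ∧ mx 0x7a3ca83c3 *ᵥ vec i = a • vec (i.1, i.2 + 1) := by decide +kernel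

def σ (r : Fin 5) (j : I) : ZMod 5 := ∑ x : ZMod 13, χ (hf (vec (r, x)) (vec j))

theorem k5 : ∀ r j, σ r j + σ 0 (0, 0) = σ r (0, 0) + σ 0 j := by decide +kernel

theorem k6 : (∀ a b x : K, a ≠ 0 → b ≠ 0 → x ≠ 0 → χ (a * b ^ 4 * x) = χ a - χ b + χ x) ∧
    ∀ a b : K, a ≠ 0 → b ≠ 0 → χ (a * b⁻¹) = χ a - χ b + χ 0 := by decide +kernel

theorem k7 : (mx 0x7a3ca83c3).det = 1 ∧ (∀ i j, ∑ k, mx 0x7a3ca83c3 k i ^ 4 * mx 0x7a3ca83c3 k j = if i = j then 1 else 0) ∧
    mx 0x7a3ca83c3 * mx 0x7a3ca83c3 * mx 0x7a3ca83c3 = mx 0x419f559ef ∧ mx 0x419f559ef * mx 0x419f559ef = mx 0x1694ea9f4 ∧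
    mx 0x1694ea9f4 * mx 0x1694ea9f4 = mx 0x7a2cca2f2 ∧ mx 0x7a2cca2f2 * mx 0x7a3ca83c3 = 1 ∧ mx 0x7a3ca83c3 ≠ 1 := by
  rw [det_fin_three]
  refine ⟨?_, ?_, ?_, ?_, ?_, ?_, ?_⟩ <;> decide +kernel

theorem k8 : ∀ m k : ZMod 13, k ≠ 0 → Bijective fun i : Fin 13 => m + k * ((i : ℕ) : ZMod 13) := by decide +kernel

abbrev G := SU 3 K 4

def ac (g : G) (u : Fin 3 → K) : Fin 3 → K := slToMat 3 K g.1 *ᵥ u

theorem ac_mul (g h : G) (u : Fin 3 → K) : ac (g * h) u = ac g (ac h u) := by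
  simp only [ac, Subgroup.coe_mul, map_mul, mulVec_mulVec]

theorem ac_one (u : Fin 3 → K) : ac 1 u = u := by
  simp only [ac, Subgroup.coe_one, map_one, one_mulVec]

theorem ac_smul (g : G) (a : K) (u : Fin 3 → K) : ac g (a • u) = a • ac g u := mulVec_smul _ _ _

theorem ac_hf (g : G) (u w : Fin 3 → K) : hf (ac g u) (ac g w) = hf u w := g.2 u w

theorem ac_inj (g : G) {u w : Fin 3 → K} : ac g u = ac g w ↔ u = w :=
  ⟨fun h => by rw [← ac_one u, ← ac_one w, ← inv_mul_cancel g, ac_mul, ac_mul, h], fun h => h ▸ rfl⟩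

def c (u w : Fin 3 → K) : ZMod 5 := if hf u w = 0 then ∑ a, if u = a • w then χ a else 0 else χ (hf u w)

theorem c_ac (g : G) (u w : Fin 3 → K) : c (ac g u) (ac g w) = c u w := by
  simp only [c, ac_hf, ← ac_smul, ac_inj]

theorem c_hom {a b : K} (ha : a ≠ 0) (hb : b ≠ 0) (i j : I) :
    c (a • vec i) (b • vec j) = χ a - χ b + χ (hf (vec i) (vec j)) := by
  have e : hf (a • vec i) (b • vec j) = a * b ^ 4 * hf (vec i) (vec j) := by
    simp only [hermForm, Finset.mul_sum, Pi.smul_apply, smul_eq_mul, mul_pow]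
    exact Finset.sum_congr rfl fun _ _ => by ring
  rw [c, e]
  by_cases h : i = j
  · subst h
    rw [(k1 i i).2 rfl, mul_zero, if_pos rfl, Finset.sum_eq_single (a * b⁻¹), if_pos, k6.2 a b ha hb]
    · rw [smul_smul, inv_mul_cancel_right₀ hb]
    · refine fun d _ hd => if_neg fun e => hd ?_
      rw [smul_smul] at e
      rw [smul_left_injective K (k2 i) e, mul_inv_cancel_right₀ hb]
    · simp
  · have := mt (k1 i j).1 h
    rw [if_neg (mul_ne_zero (mul_ne_zero ha (pow_ne_zero _ hb)) this), k6.1 a b _ ha hb this]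

def P (u : Fin 3 → K) : Prop := ∃ (a : K) (i : I), a ≠ 0 ∧ u = a • vec i

theorem P_ac (g : G) (j : I) : P (ac g (vec j)) := by
  have h0 : ac g (vec j) ≠ 0 := fun e => k2 j ((ac_inj g).1 (e.trans (mulVec_zero _).symm))
  have h1 := (ac_hf g _ _).trans ((k1 j j).2 rfl)
  generalize ac g (vec j) = u at *
  have e : u = ![u 0, u 1, u 2] := by ext t; fin_cases t <;> rfl
  rw [e] at h0 h1 ⊢
  obtain ⟨i, hi⟩ := (k3 _ _ _ h1).resolve_left h0
  exact ⟨_, i, fun e => h0 (by rw [hi, e, zero_smul]), hi⟩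

def s0 : G := ⟨⟨mx 0x7a3ca83c3, k7.1⟩, by
  letI := frobStar hK
  refine (herm_iff (q := 4) fun _ => rfl).2 ?_
  ext i j
  exact k7.2.1 i j⟩

theorem s0_ord : orderOf s0 = 13 := by
  haveI : Fact (Nat.Prime 13) := ⟨by norm_num⟩
  obtain ⟨-, -, a, b, d, e, h⟩ := k7
  refine orderOf_eq_prime (Subtype.ext (Subtype.ext ?_)) fun e => h (congrArg (fun g : G => g.1.1) e)
  change mx 0x7a3ca83c3 ^ 13 = 1
  rw [← e, ← d, ← b, ← a]
  simp only [pow_succ, pow_zero, one_mul, mul_assoc]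

theorem s0_pow (n : ℕ) (i : I) {a : K} (ha : a ≠ 0) : ∃ b : K, b ≠ 0 ∧ ac (s0 ^ n) (a • vec i) = b • vec (i.1, i.2 + n) := by
  induction n with
  | zero => exact ⟨a, ha, by simp [ac_one]⟩
  | succ n ih =>
    obtain ⟨b, hb, e⟩ := ih
    obtain ⟨d, hd, e'⟩ := k4 (i.1, i.2 + n)
    refine ⟨b * d, mul_ne_zero hb hd, ?_⟩
    rw [pow_succ', ac_mul, e, ac_smul, ← smul_smul, Nat.cast_succ, ← add_assoc]
    exact congrArg _ e'

theorem key {u u' w w' : Fin 3 → K} (hu : P u) (hu' : P u') (hw : P w) (hw' : P w') {k : ℕ} (hk : (k : ZMod 13) ≠ 0) :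
    ∑ i ∈ Finset.range 13, (c (ac (s0 ^ (k * i)) u) w - c (ac (s0 ^ (k * i)) u) w' - c (ac (s0 ^ (k * i)) u') w +
      c (ac (s0 ^ (k * i)) u') w') = 0 := by
  obtain ⟨a, ⟨r, m⟩, ha, rfl⟩ := hu
  obtain ⟨a', ⟨r', m'⟩, ha', rfl⟩ := hu'
  obtain ⟨b, j, hb, rfl⟩ := hw
  obtain ⟨b', j', hb', rfl⟩ := hw'
  have h1 : ∀ r m j, ∑ i ∈ Finset.range 13, χ (hf (vec (r, m + k * (i : ZMod 13))) (vec j)) = σ r j := fun r m j => by
    rw [Finset.sum_range]
    exact Fintype.sum_bijective _ (k8 m k hk) _ _ fun _ => rfl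
  rw [Finset.sum_congr rfl (g := fun i : ℕ => χ (hf (vec (r, m + k * (i : ZMod 13))) (vec j)) -
    χ (hf (vec (r, m + k * (i : ZMod 13))) (vec j')) - χ (hf (vec (r', m' + k * (i : ZMod 13))) (vec j)) +
    χ (hf (vec (r', m' + k * (i : ZMod 13))) (vec j'))) fun i _ => by
      obtain ⟨d, hd, e⟩ := s0_pow (k * i) (r, m) ha
      obtain ⟨d', hd', e'⟩ := s0_pow (k * i) (r', m') ha'
      rw [e, e', c_hom hd hb, c_hom hd hb', c_hom hd' hb, c_hom hd' hb', Nat.cast_mul]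
      ring]
  simp only [Finset.sum_add_distrib, Finset.sum_sub_distrib, h1]
  linear_combination k5 r j - k5 r j' - k5 r' j + k5 r' j'

theorem hc : Subgroup.center G = ⊥ := Subgroup.card_eq_one.1 (H4.card_center_SU hK (by decide))

noncomputable def eG : PSU 3 K 4 ≃* G := (QuotientGroup.quotientMulEquivOfEq hc).trans QuotientGroup.quotientBot

theorem cardG : Nat.card G = 13 * 4800 := by
  have := S0280.result hK 3 (by decide)
  rw [Nat.card_congr eG.toEquiv] at this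
  simp [Finset.prod_range_succ] at this
  omega

theorem syl_conj {G : Type*} [Group G] [Finite G] {p m : ℕ} [Fact p.Prime] (hG : Nat.card G = p * m) (hm : ¬ p ∣ m)
    {x y : G} (hx : orderOf x = p) (hy : orderOf y = p) : ∃ h : G, ∃ k : ℕ, y = h * x ^ k * h⁻¹ := by
  have f : ∀ z : G, orderOf z = p → ∃ P : Sylow p G, (P : Subgroup G) = Subgroup.zpowers z := fun z hz =>
    ⟨(IsPGroup.of_card (G := Subgroup.zpowers z) (n := 1) (by rw [Nat.card_zpowers, hz, pow_one])).toSylow (by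
      have := (Subgroup.zpowers z).card_mul_index
      rw [Nat.card_zpowers, hz, hG] at this
      rwa [Nat.eq_of_mul_eq_mul_left (Fact.out : p.Prime).pos this]), rfl⟩
  obtain ⟨P, hP⟩ := f x hx
  obtain ⟨Q, hQ⟩ := f y hy
  obtain ⟨g, rfl⟩ := MulAction.exists_smul_eq G P Q
  have := Subgroup.mem_zpowers y
  rw [← hQ, Sylow.coe_subgroup_smul, hP] at this
  obtain ⟨_, h, e⟩ := (Subgroup.mem_smul_pointwise_iff_exists _ _ _).1 this
  obtain ⟨k, rfl⟩ := mem_powers_iff_mem_zpowers.2 h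
  exact ⟨g, k, e.symm⟩

def f (g : G) : ZMod 5 := c (ac g (vec (0, 0))) (vec (0, 0)) - c (ac g (vec (0, 0))) (vec (0, 2)) -
  c (ac g (vec (0, 1))) (vec (0, 0)) + c (ac g (vec (0, 1))) (vec (0, 2))

theorem f_ne : f ≠ 0 := fun e => by
  have := congrFun e 1
  have h := fun i j => c_hom one_ne_zero one_ne_zero i j
  simp only [one_smul] at h
  simp only [f, ac_one, h, Pi.zero_apply] at this
  revert this
  decide +kernel

theorem f_sum (s : G) (hs : orderOf s = 13) (x y : G) : ∑ i ∈ Finset.range (orderOf s), f (x * s ^ i * y) = 0 := by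
  haveI : Fact (Nat.Prime 13) := ⟨by norm_num⟩
  obtain ⟨h, k, rfl⟩ := syl_conj cardG (by norm_num) s0_ord hs
  have hk : (k : ZMod 13) ≠ 0 := fun e => by
    rw [ZMod.natCast_eq_zero_iff, ← s0_ord, orderOf_dvd_iff_pow_eq_one] at e
    simp [e] at hs
  rw [hs, ← key (P_ac (h⁻¹ * y) (0, 0)) (P_ac (h⁻¹ * y) (0, 1)) (P_ac (x * h)⁻¹ (0, 0)) (P_ac (x * h)⁻¹ (0, 2)) hk]
  refine Finset.sum_congr rfl fun i _ => ?_
  have e : ∀ u w, c (ac (x * (h * s0 ^ k * h⁻¹) ^ i * y) u) w = c (ac (s0 ^ (k * i)) (ac (h⁻¹ * y) u)) (ac (x * h)⁻¹ w) :=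
    fun u w => by
      rw [← c_ac (x * h)⁻¹, ← ac_mul, ← ac_mul, conj_pow, ← pow_mul]
      congr 2
      group
  simp only [f, e]

theorem sp {F : Type*} [Field F] [Fintype F] (hF : Fintype.card F = 4 ^ 2) : (∀ m ∈ spec (PSU 3 F 4),
    m ∣ 5 ∨ m ∣ 10 ∨ m ∣ 15 ∨ m ∣ 13 ∨ m ∣ 4) ∧ ∀ m ∈ [10, 15, 13], m ∈ spec (PSU 3 F 4) := by
  haveI : CharP F 2 := charP_of_card_eq_prime_pow (f := 4) hF
  obtain ⟨a, b⟩ := spec_psu3 2 hF
  exact ⟨fun m hm => by simpa using a m hm, fun m hm => b m (by revert m; decide)⟩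

theorem pg {S : Set ℕ} (h0 : ∀ m ∈ S, ∀ n, n ∣ m → n ∈ S) (h1 : ∀ m ∈ [10, 15, 13], m ∈ S) (h2 : ∀ m ∈ S,
    m ∣ 100 ∨ m ∣ 75 ∨ m ∣ 13) : PG S [2, 3, 5, 13] [10, 15] [6, 26, 39, 65] := by
  refine ⟨fun p hp => ⟨fun h => mem_of_dvd_prod (k := 2) hp (by norm_num) ?_, fun h => ?_⟩,
    fun m hm => h1 m (by revert m; decide), fun m hm h => absurd (h2 m h) (by clear h; revert m; decide)⟩
  · rcases h2 p h with h | h | h <;> exact h.trans (by decide)
  · obtain ⟨m, a, b⟩ := (by decide : ∀ p ∈ [2, 3, 5, 13], ∃ m ∈ [10, 15, 13], p ∣ m) p h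
    exact h0 _ (h1 m a) _ b

/-- The prime graph of a finite group has the prime divisors of its order as vertices, two distinct primes p, q being joined when the group has an element of order pq; two groups have the same prime graph when they have the same prime divisors and the same joined pairs. Let F be the field with 16 elements and L = PSU(3,4) realised over F. There are finite groups of arbitrarily large order with the same prime graph as L. -/
theorem result {F : Type*} [Field F] [Fintype F] (hF : Fintype.card F = 16) (N : ℕ) :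
    ∃ (H : Type) (_ : Group H) (_ : Finite H), N < Nat.card H ∧
      ((∀ p : ℕ, p.Prime → (p ∣ Nat.card (Cfsg.PSU 3 F 4) ↔ p ∣ Nat.card H)) ∧
      (∀ p q : ℕ, p.Prime → q.Prime → p ≠ q → ((∃ g : (Cfsg.PSU 3 F 4), orderOf g = p * q) ↔ (∃ g : H, orderOf g = p * q)))) := by
  obtain ⟨L, _, _, M, _, n2, n3, -, l1, -, l3⟩ := exists_fm (G := G) (A := ZMod 5) (l := 5) (by norm_num)
    (by decide) {s | orderOf s = 13} f f_ne f_sum
  have hs := sp hK
  rw [spec_congr eG] at hs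
  refine pg_large (by decide) (pg (fun _ a _ b => mem_spec_of_dvd a b) (sp hF).2 fun m hm => ?_)
    (pg (fun _ a _ b => mem_spec_of_dvd a b) (fun m hm => l1 (hs.2 m hm)) fun m hm => ?_) M n2 n3 N
  · have := (sp hF).1 m hm
    have h : m < 16 := by rcases this with h | h | h | h | h <;> have := Nat.le_of_dvd (by decide) h <;> omega
    clear hm; revert this; revert m; decide
  · obtain ⟨g, hg⟩ := l3 m hm
    have := hs.1 _ ⟨g, rfl⟩
    have h : orderOf g < 16 := by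
      rcases this with h | h | h | h | h <;> have := Nat.le_of_dvd (by decide) h <;> omega
    rcases hg with rfl | ⟨rfl, h1⟩
    · clear hm; generalize orderOf g = n at *; revert this; revert n; decide
    · have h2 : ¬ orderOf g = 13 := by simpa using h1 1 (one_dvd _)
      clear hm h1; generalize orderOf g = n at *; revert this h2; revert n; decide

end Cfsg.Agent.S3663
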