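import Cfsg.Statements.S3669
import Mathlib
import Cfsg.Agent.H7.PS
import Cfsg.Agent.H7.Recog2
import Cfsg.Agent.H1.Misc
import Cfsg.Agent.H1.Frattini
import Cfsg.Agent.S0493
import Cfsg.Agent.H3.Normal

set_option autoImplicit false
open Cfsg

namespace Cfsg.Agent.S3669

open Cfsg.Agent.H7 Cfsg.Agent.H3 Subgroup MulAction

universe u

theorem solv {G : Type u} [Group G] [Finite G] (h : Nat.card G < 60) : Group.IsSolvable G := by
  induction hn : Nat.card G using Nat.strong_induction_on generalizing G with
  | h n ih =>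
  refine H1.isSolvable_of_forall_normal (fun N _ hb ht => ⟨ih _ (hn ▸ H1.card_lt_of_ne_top ht)
    ((H1.card_lt_of_ne_top ht).trans h) rfl, ih _ (hn ▸ H1.card_quotient_lt hb) ((H1.card_quotient_lt hb).trans h) rfl⟩)
    fun hs => ?_
  by_cases hc : IsCyclic G
  · exact Group.isSolvable_of_comm fun a b => hc.commGroup.mul_comm a b
  · exact absurd (S0493.result hc (by omega)) h.ne

theorem five : 5 ∈ degreePrimes (alternatingGroup (Fin 5)) := by
  have : Fact (Nat.Prime 5) := ⟨Nat.prime_five⟩
  have : IsSimpleGroup (alternatingGroup (Fin 5)) := alternatingGroup.isSimpleGroup (by simp)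
  have hc : Nat.card (alternatingGroup (Fin 5)) = 60 := by rw [nat_card_alternatingGroup]; simp [Nat.factorial]
  obtain ⟨P⟩ : Nonempty (Sylow 5 (alternatingGroup (Fin 5))) := inferInstance
  have h1 : Nat.card P = 5 := by
    rw [P.card_eq_multiplicity, hc, show 60 = 5 * 12 by rfl, Nat.factorization_mul (by norm_num) (by norm_num),
      Finsupp.add_apply, Nat.prime_five.factorization_self, Nat.factorization_eq_zero_of_not_dvd (by norm_num)]
    rfl
  have h2 : P.index = 12 := by have := P.card_mul_index; rw [h1, hc] at this; omega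
  have h3 : Nat.card (Sylow 5 (alternatingGroup (Fin 5))) = 6 := by
    have h4 := card_sylow_modEq_one 5 (alternatingGroup (Fin 5))
    have h5 := h2 ▸ P.card_dvd_index
    have h6 : Nat.card (Sylow 5 (alternatingGroup (Fin 5))) ≠ 1 := fun e => by
      have := (Nat.card_eq_one_iff_unique.1 e).1
      rcases P.normal_of_subsingleton.eq_bot_or_eq_top with e | e <;> simp only [e, card_bot, card_top, hc] at h1 <;> omega
    have := Nat.le_of_dvd (by norm_num) h5
    generalize Nat.card (Sylow 5 (alternatingGroup (Fin 5))) = n at *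
    interval_cases n <;> simp_all [Nat.ModEq]
  have : Nontrivial (Sylow 5 (alternatingGroup (Fin 5))) := Finite.one_lt_card_iff_nontrivial.1 (by omega)
  refine ⟨Nat.prime_five, 5, ⟨⟨_, irr_of_two_trans (two_trans_of_stab P fun Q R hQ hR => ?_)⟩,
    charDegree_eq (by simp only [Pi.sub_apply, fixedBy_one_eq_univ, Nat.card_univ, h3]; norm_num)⟩, dvd_rfl⟩
  have h4 : ∀ g : P, g • P = P := fun g => Sylow.smul_eq_iff_mem_normalizer.2 (le_normalizer g.2)
  have h5 : orbit P Q = {P}ᶜ := by
    refine Set.eq_of_subset_of_ncard_le ?_ ?_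
    · rintro _ ⟨g, rfl⟩ e
      exact hQ ((smul_left_cancel_iff g).1 (e.trans (h4 g).symm))
    rw [Set.ncard_compl, Set.ncard_singleton, h3, ← Nat.card_coe_set_eq]
    rcases (Nat.dvd_prime Nat.prime_five).1 (Dvd.intro _ ((card_orbit_mul_card_stabilizer Q).trans h1)) with e | e
    · refine (hQ (Sylow.ext (P.is_maximal' (P.isPGroup'.to_sup_of_normal_right' Q.isPGroup' fun g hg => ?_)
        le_sup_left ▸ (Q.is_maximal' (P.isPGroup'.to_sup_of_normal_right' Q.isPGroup' fun g hg => ?_)
          le_sup_right).symm))).elim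
      all_goals exact Sylow.smul_eq_iff_mem_normalizer.1 (congrArg Subtype.val ((Nat.card_eq_one_iff_unique.1 e).1.elim
        ⟨_, mem_orbit Q (⟨g, hg⟩ : P)⟩ ⟨Q, mem_orbit_self Q⟩))
    · exact e.ge
  obtain ⟨g, hg⟩ := h5.ge hR
  exact ⟨g, h4 g, hg⟩

/-- The character degree graph of a finite group has as vertices the primes dividing some irreducible complex character degree, two distinct primes being joined when their product divides some irreducible character degree; two groups have the same character degree graph when they have the same vertices and the same joined pairs. A finite group of order 60 with the same character degree graph as the alternating group A₅ (whose character degrees are 1, 3, 4, 5, so the graph has vertices 2, 3, 5 and no edges) is isomorphic to A₅. -/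
theorem result {G : Type*} [Group G] [Finite G] (hcard : Nat.card G = 60)
    (hΓ : Cfsg.degreePrimes G = Cfsg.degreePrimes (alternatingGroup (Fin 5)) ∧ Cfsg.degreeGraph G = Cfsg.degreeGraph (alternatingGroup (Fin 5))) : Nonempty (G ≃* alternatingGroup (Fin 5)) := by
  by_cases hs : IsSimpleGroup G
  · exact a5_of_card_60 hcard
  have h1 : Group.IsSolvable G := H1.isSolvable_of_forall_normal (fun N _ hb ht =>
    ⟨solv (hcard ▸ H1.card_lt_of_ne_top ht), solv (hcard ▸ H1.card_quotient_lt hb)⟩) fun h => (hs h).elim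
  have : Fact (Nat.Prime 5) := ⟨Nat.prime_five⟩
  obtain ⟨x, hx⟩ := exists_prime_orderOf_dvd_card' (G := G) 5 (by rw [hcard]; norm_num)
  have h2 : ∀ p, p.Prime → Nat.card (pCore p G) ≤ 5 := fun p hp => by
    have := Fact.mk hp
    obtain ⟨k, hk⟩ := IsPGroup.iff_card.1 (H1.isPGroup_pCore p G)
    have h3 := hcard ▸ hk ▸ card_subgroup_dvd_card (pCore p G)
    rw [hk]
    rcases k with _ | k
    · simp
    have h4 := (isPrimePow_pow_iff k.succ_ne_zero).2 hp.isPrimePow
    have := Nat.le_of_dvd (by norm_num) h3
    generalize p ^ (k + 1) = n at *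
    by_contra! h
    interval_cases n <;> first | omega | exact absurd h4 (by decide +kernel)
  have h3 : x ∈ pCore 5 G := zpowers_le.1 (H1.le_pCore_of_le_fittingSubgroup
    (IsPGroup.of_card (n := 1) (by rw [Nat.card_zpowers, hx, pow_one])) ((le_centralizer_iff.1
      (H1.fittingSubgroup_le_of_forall_pCore fun p hp => le_centralizer_iff.1 (zpowers_le.2 (comm_of_card_le
        Nat.prime_five (hx ▸ pow_orderOf_eq_one x) _ (h2 p hp))))).trans (H1.centralizer_fittingSubgroup_le h1)))
  have h4 : Nat.card (pCore 5 G) = 5 := le_antisymm (h2 5 Nat.prime_five) (Nat.le_of_dvd Nat.card_pos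
    (hx.symm.dvd.trans (Subgroup.orderOf_dvd_natCard _ h3)))
  have := isCyclic_of_prime_card h4
  obtain ⟨-, _, ⟨χ, rfl⟩, h5⟩ := hΓ.1.ge five
  have h6 := h5.trans (χ.2.degree_dvd_index_of_comm (N := pCore 5 G) fun a ha b hb =>
    congrArg Subtype.val (IsCyclic.commGroup.mul_comm (⟨a, ha⟩ : pCore 5 G) ⟨b, hb⟩))
  have := (pCore 5 G).card_mul_index
  rw [h4] at this
  omega

end Cfsg.Agent.S3669
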