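import Cfsg.Statements.S3680
import Mathlib
import Cfsg.Agent.H7.Normal
import Cfsg.Agent.S0721

set_option autoImplicit false
open Cfsg

namespace Cfsg.Agent.S3680

/-- The socle of a finite primitive permutation group. Let a finite group G act faithfully and primitively on a set Ω, and let N be the subgroup generated by the minimal normal subgroups of G. Then either N is an elementary abelian p-group for some prime p and acts regularly on Ω (transitively with trivial point stabilizers), or N is isomorphic to a direct product of m ≥ 1 copies of a non-abelian simple group. -/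
theorem result {G Ω : Type*} [Group G] [Finite G] [MulAction G Ω] [FaithfulSMul G Ω] [Finite Ω]
    (hprim : MulAction.IsPreprimitive G Ω) (N : Subgroup G)
    (hN : N = sSup {V : Subgroup G | V.Normal ∧ V ≠ ⊥ ∧ ∀ M : Subgroup G, M.Normal → M ≤ V → M = ⊥ ∨ M = V}) :
    (∃ p : ℕ, p.Prime ∧ IsMulCommutative N ∧ (∀ x : N, x ^ p = 1) ∧
      MulAction.IsPretransitive N Ω ∧ ∀ ω : Ω, MulAction.stabilizer N ω = ⊥) ∨
    (∃ (T : Type) (_ : Group T) (m : ℕ), 1 ≤ m ∧ IsSimpleGroup T ∧ ¬ IsMulCommutative T ∧ Nonempty (N ≃* (Fin m → T))) := by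
  by_cases hG : (⊤ : Subgroup G) = ⊥
  · have h1 : ∀ x : G, x = 1 := fun x => Subgroup.mem_bot.1 (hG ▸ Subgroup.mem_top x)
    refine Or.inl ⟨2, Nat.prime_two, ⟨⟨fun x y => Subtype.ext (by rw [h1 (x * y : N), h1 (y * x : N)])⟩⟩,
      fun x => Subtype.ext (h1 _), ⟨fun a b => ?_⟩, fun a => eq_bot_iff.2 fun x _ => Subtype.ext (h1 _)⟩
    obtain ⟨g, hg⟩ := MulAction.exists_smul_eq G a b
    exact ⟨1, by rw [← hg, h1 g, one_smul, one_smul]⟩
  haveI : Nonempty Ω := by
    by_contra h
    exact hG (eq_bot_iff.2 fun g _ => H7.eq_one_of_fix (α := Ω) fun x => (h ⟨x⟩).elim)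
  obtain ⟨M, hMn, hM, -, hmin⟩ := H7.exists_min_normal (⊤ : Subgroup G) hG
  have hMt := H7.normal_trans (α := Ω) M hM
  obtain ⟨T, _, m, hT, hm, ⟨e⟩⟩ := S0721.result M hM hmin
  have hTc : IsMulCommutative T → ∀ x ∈ M, ∀ y ∈ M, x * y = y * x := fun h x hx y hy =>
    congrArg Subtype.val (e.injective (a₁ := ⟨x, hx⟩ * ⟨y, hy⟩) (a₂ := ⟨y, hy⟩ * ⟨x, hx⟩) (by
      rw [map_mul, map_mul]; exact funext fun i => h.1.1 _ _))
  by_cases hu : ∀ V : Subgroup G, V.Normal → V ≠ ⊥ →
      (∀ M : Subgroup G, M.Normal → M ≤ V → M = ⊥ ∨ M = V) → V = M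
  · have : N = M := by
      rw [hN]
      exact le_antisymm (sSup_le fun V hV => (hu V hV.1 hV.2.1 hV.2.2).le) (le_sSup ⟨hMn, hM, hmin⟩)
    subst this
    by_cases hc : IsMulCommutative T
    · obtain ⟨p, hp, h⟩ := H7.exists_prime_pow_eq_one_of_min N hM hmin (hTc hc)
      exact Or.inl ⟨p, hp, ⟨⟨fun x y => Subtype.ext (hTc hc x x.2 y y.2)⟩⟩,
        fun x => Subtype.ext (h x x.2), hMt, H7.stabilizer_eq_bot_of_comm (hTc hc) hMt⟩
    · exact Or.inr ⟨T, _, m, hm, hT, hc, ⟨e⟩⟩
  push Not at hu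
  obtain ⟨V, hVn, hV, hVmin, hVM⟩ := hu
  have hVt := H7.normal_trans (α := Ω) V hV
  have hnle : ¬ M ≤ V := fun h => by
    rcases hVmin M hMn h with h | h
    exacts [hM h, hVM h.symm]
  have hc := H7.comm_of_min M V hmin hnle
  obtain ⟨f⟩ := H7.equiv_of_comm hc hMt hVt
  have hNe : N = M ⊔ V := by
    rw [hN]
    refine le_antisymm (sSup_le fun L hL => ?_)
      (sup_le (le_sSup ⟨hMn, hM, hmin⟩) (le_sSup ⟨hVn, hV, hVmin⟩))
    haveI := hL.1
    by_cases h : M ≤ L
    · exact ((hL.2.2 M hMn h).resolve_left hM).ge.trans le_sup_left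
    · exact le_trans (fun x hx => H7.mem_of_comm hc hMt hVt fun y hy =>
        H7.comm_of_min M L hmin h y hy x hx) le_sup_right
  refine Or.inr ⟨T, _, m + m, by omega, hT, fun h => hnle fun x hx =>
    H7.mem_of_comm hc hMt hVt fun y hy => hTc h y hy x hx, ⟨?_⟩⟩
  let φ : M × V →* G := MonoidHom.noncommCoprod M.subtype V.subtype fun x y => hc x x.2 y y.2
  have hinj : Function.Injective φ := by
    refine (MonoidHom.noncommCoprod_injective _ _ _).2 ⟨M.subtype_injective, V.subtype_injective, ?_⟩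
    rw [Subgroup.range_subtype, Subgroup.range_subtype, disjoint_iff]
    exact (hmin (M ⊓ V) inferInstance inf_le_left).resolve_right fun h => hnle (inf_eq_left.1 h)
  have hr : φ.range = N := by
    refine (MonoidHom.noncommCoprod_range _ _ _).trans ?_
    rw [Subgroup.range_subtype, Subgroup.range_subtype, hNe]
  exact ((MulEquiv.subgroupCongr hr).symm.trans (MonoidHom.ofInjective hinj).symm).trans
    ((MulEquiv.prodCongr e (f.symm.trans e)).trans
      ((MulEquiv.mk' (Equiv.sumArrowEquivProdArrow (Fin m) (Fin m) T) fun _ _ => rfl).symm.trans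
        (MulEquiv.arrowCongr finSumFinEquiv (MulEquiv.refl T))))

end Cfsg.Agent.S3680
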