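import Cfsg.Statements.S3684
import Mathlib
import Cfsg.Agent.H7.SylowPrime
import Cfsg.Agent.H2.Invol

set_option autoImplicit false
open Cfsg

namespace Cfsg.Agent.S3684

/-- Let a finite group G act faithfully and primitively on a set Ω, and suppose the stabilizer of a point a has an orbit of length 2. Then the stabilizer of a has order 2 and G is isomorphic to the dihedral group of order 2p for some prime p. -/
theorem result {G Ω : Type*} [Group G] [Finite G] [MulAction G Ω] [FaithfulSMul G Ω] [Finite Ω]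
    (hprim : MulAction.IsPreprimitive G Ω) (a b : Ω) (h2 : Nat.card (MulAction.orbit (MulAction.stabilizer G a) b) = 2) :
    Nat.card (MulAction.stabilizer G a) = 2 ∧ ∃ p : ℕ, p.Prime ∧ Nonempty (G ≃* DihedralGroup p) := by
  open MulAction in
  have hA := H7.card_orbit_mul_card_stabilizer (G := stabilizer G a) b
  rw [h2] at hA
  have hnle : ¬ MulAction.stabilizer G a ≤ MulAction.stabilizer G b := fun h => by
    have : MulAction.orbit (MulAction.stabilizer G a) b = {b} :=
      Set.eq_singleton_iff_unique_mem.2 ⟨MulAction.mem_orbit_self _, by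
        rintro _ ⟨g, rfl⟩; exact h g.2⟩
    rw [this] at h2; simp at h2
  have hab : a ≠ b := by rintro rfl; exact hnle le_rfl
  haveI : Nontrivial Ω := ⟨⟨a, b, hab⟩⟩
  have hco := MulAction.IsPreprimitive.isCoatom_stabilizer_of_isPreprimitive G a
  have hcard := H7.card_stabilizer_eq_of_transitive (G := G) a b
  set A := MulAction.stabilizer G a with hAdef
  set B := MulAction.stabilizer G b with hBdef
  have hnle' : ¬ B ≤ A := fun h => hnle (Subgroup.eq_of_le_of_card_ge h hcard.le).ge
  have hK : Nat.card A = 2 * Nat.card (A ⊓ B : Subgroup G) := by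
    rw [← hA, H7.stabilizer_subgroup_eq, ← Subgroup.inf_subgroupOf_left,
      Nat.card_congr (Subgroup.subgroupOfEquivOfLe inf_le_left).toEquiv]
  have hn : ∀ C : Subgroup G, A ⊓ B ≤ C → Nat.card C = Nat.card A →
      C ≤ Subgroup.normalizer ((A ⊓ B : Subgroup G) : Set G) := fun C hC hc => by
    rw [← Subgroup.normal_subgroupOf_iff_le_normalizer hC]
    apply Subgroup.normal_of_index_eq_two
    have := ((A ⊓ B).subgroupOf C).index_mul_card
    rw [Nat.card_congr (Subgroup.subgroupOfEquivOfLe hC).toEquiv, hc, hK] at this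
    exact Nat.eq_of_mul_eq_mul_right Nat.card_pos this
  have top_of : ∀ C : Subgroup G, A ≤ C → ¬ C ≤ A → C = ⊤ := fun C h1 h2 =>
    hco.2 C (lt_of_le_of_ne h1 fun h => h2 h.ge)
  have hbot : A ⊓ B = ⊥ := H7.eq_bot_of_normal_le_stabilizer (a := a)
    (Subgroup.normalizer_eq_top_iff.1 (top_of _ (hn A inf_le_left rfl) fun h =>
      hnle' ((hn B inf_le_right hcard.symm).trans h))) inf_le_left
  rw [hbot, Subgroup.card_bot, mul_one] at hK
  refine ⟨hK, ?_⟩
  obtain ⟨t, ht, htA⟩ := H7.exists_zpowers_of_card_prime Nat.prime_two hK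
  obtain ⟨s, hs, hsB⟩ := H7.exists_zpowers_of_card_prime Nat.prime_two (hcard ▸ hK : Nat.card B = 2)
  have ht2 : t * t = 1 := by rw [← sq, ← ht, pow_orderOf_eq_one]
  have hs2 : s * s = 1 := by rw [← sq, ← hs, pow_orderOf_eq_one]
  have hsA : s ∉ A := fun h => hnle' (by rw [← hsB]; exact Subgroup.zpowers_le_of_mem h)
  have htA' : t ∈ A := htA ▸ Subgroup.mem_zpowers t
  have hta : t ∉ Subgroup.zpowers (t * s) := by
    rintro ⟨k, hk⟩
    have hc : Commute (t * s) t := by
      have := (Commute.refl (t * s)).zpow_right k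
      rwa [show (t * s) ^ k = t from hk] at this
    have hc' : s * t = t * s := by
      have := hc.eq
      rw [mul_assoc] at this
      exact mul_left_cancel this
    have : Subgroup.centralizer {t} = ⊤ := top_of _ (by
      rw [← htA, Subgroup.zpowers_le]; exact Subgroup.mem_centralizer_singleton_iff.2 rfl)
      fun h => hsA (h (Subgroup.mem_centralizer_singleton_iff.2 hc'))
    have hN : (Subgroup.zpowers t).Normal := ⟨by
      rintro _ ⟨k, rfl⟩ g
      have hg : g ∈ Subgroup.centralizer {t} := this ▸ trivial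
      have : Commute g t := Subgroup.mem_centralizer_singleton_iff.1 hg
      exact ⟨k, by simp [(this.zpow_right k).eq]⟩⟩
    have := H7.eq_bot_of_normal_le_stabilizer (a := a) hN htA.le
    rw [htA] at this
    rw [this, Subgroup.card_bot] at hK
    omega
  have hne : orderOf (t * s) ≠ 1 := fun h => hsA (by
    rw [eq_inv_of_mul_eq_one_right (orderOf_eq_one_iff.1 h)]; exact A.inv_mem htA')
  obtain ⟨p, hp, hpd⟩ := Nat.exists_prime_and_dvd hne
  have ho := orderOf_pow_orderOf_div (orderOf_pos (t * s)).ne' hpd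
  set c := (t * s) ^ (orderOf (t * s) / p) with hc
  have htc : t ∉ Subgroup.zpowers c := fun h =>
    hta (Subgroup.zpowers_le_of_mem (Subgroup.pow_mem _ (Subgroup.mem_zpowers _) _) h)
  have hinv : t * c * t⁻¹ = c⁻¹ := by
    rw [hc, ← conj_pow, ← inv_pow]
    congr 1
    rw [mul_inv_rev, inv_eq_of_mul_eq_one_right ht2, inv_eq_of_mul_eq_one_right hs2, ← mul_assoc, ht2,
      one_mul]
  obtain ⟨e⟩ := H2.closure_equiv_dihedral ho ht2 hinv htc
  have htop : Subgroup.closure ({c, t} : Set G) = ⊤ := top_of _ (by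
    rw [← htA, Subgroup.zpowers_le]; exact Subgroup.subset_closure (by simp)) fun h => by
      have hcA : c ∈ A := h (Subgroup.subset_closure (by simp))
      have := H7.eq_zpowers_of_card_prime Nat.prime_two hK hcA (fun h1 => by
        rw [h1, orderOf_one] at ho; exact hp.ne_one ho.symm)
      exact htc (this ▸ htA')
  exact ⟨p, hp, ⟨(Subgroup.topEquiv.symm.trans (MulEquiv.subgroupCongr htop.symm)).trans e⟩⟩

end Cfsg.Agent.S3684
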