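import Cfsg.Statements.S3696


set_option autoImplicit false
open Cfsg

namespace Cfsg.Agent.S3696

open Subgroup MulAction
open scoped Pointwise commutatorElement
theorem amgm (x m a j : ℕ) (hj : 0 < j) : x ^ a * m ^ j * (a + j) ^ (a + j) ≤ (x + m) ^ (a + j) * (a ^ a * j ^ j) := by
  rcases Nat.eq_zero_or_pos a with rfl | ha
  · simp only [pow_zero, one_mul, zero_add]; gcongr; omega
  have k : (0 : ℝ) < a + j := by positivity
  have h := Real.geom_mean_le_arith_mean2_weighted (w₁ := a / (a + j)) (w₂ := j / (a + j)) (p₁ := x / a) (p₂ := m / j)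
    (by positivity) (by positivity) (by positivity) (by positivity) (by field_simp)
  have h := pow_le_pow_left₀ (by positivity) h (a + j)
  rw [mul_pow, ← Real.rpow_natCast, ← Real.rpow_natCast _ (a + j), ← Real.rpow_mul (by positivity), ← Real.rpow_mul (by positivity),
    Nat.cast_add, div_mul_cancel₀ _ k.ne', div_mul_cancel₀ _ k.ne', Real.rpow_natCast, Real.rpow_natCast,
    show (a / (a + j) * (x / a) + j / (a + j) * (m / j) : ℝ) = (x + m) / (a + j) by field_simp, div_pow, div_pow, div_pow,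
    div_mul_div_comm, div_le_div_iff₀ (by positivity) (by positivity)] at h
  exact_mod_cast h

theorem aux {Ω : Type*} [Fintype Ω] [DecidableEq Ω] {p : ℕ} (hp : p.Prime) (n : ℕ) : ∀ (A E : Subgroup (Equiv.Perm Ω)) (S : Finset Ω) (k : ℕ),
    Nat.card A = n → IsPGroup p A → (∀ x ∈ A, ∀ y ∈ A, x * y = y * x) → (∀ x, x ∈ E ↔ x ∈ A ∧ x ^ p = 1) → Nat.card E = p ^ k →
    (∀ x ∈ A, ∀ w, x w ≠ w → w ∈ S) → Nat.card A * k ^ k ≤ S.card ^ k := by
  induction n using Nat.strong_induction_on with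
  | _ n ih =>
  intro A E S k hn hA hc hE hk hS
  have : Fact p.Prime := ⟨hp⟩
  have hEA : E ≤ A := fun x hx => ((hE x).1 hx).1
  rcases eq_or_ne A ⊥ with rfl | h0
  · rw [le_bot_iff.1 hEA, card_bot] at hk
    rw [(Nat.pow_eq_one.1 hk.symm).resolve_left hp.ne_one]; simp
  obtain ⟨i, hi⟩ := IsPGroup.iff_card.1 hA
  obtain ⟨x, hx⟩ := exists_prime_orderOf_dvd_card' (G := A) p (hi ▸ dvd_pow_self p fun e => h0 (card_eq_one.1 (by rw [hi, e, pow_zero])))
  have xE : x.1 ∈ E := (hE x).2 ⟨x.2, congrArg Subtype.val (hx ▸ pow_orderOf_eq_one x)⟩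
  obtain ⟨w, hw⟩ : ∃ w, x.1 w ≠ w := by
    by_contra! a
    exact hp.ne_one (hx ▸ orderOf_eq_one_iff.2 (Subtype.ext (Equiv.ext a)))
  have c : ∀ B : Subgroup (Equiv.Perm Ω), Nat.card ↥(B ⊓ stabilizer _ w) * (orbit B w).ncard = Nat.card B := fun B => by
    rw [← index_stabilizer, ← card_mul_index (stabilizer B w), inf_comm, ← Nat.card_congr (subgroupOfEquivOfLe inf_le_right).toEquiv, inf_subgroupOf_right]
    rfl
  obtain ⟨a, -, ha⟩ := (Nat.dvd_prime_pow hp).1 (hk ▸ card_dvd_of_le (inf_le_left : E ⊓ stabilizer _ w ≤ E))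
  have d : a < k := (Nat.pow_lt_pow_iff_right hp.one_lt).1 (by
    rw [← ha, ← hk]
    exact lt_of_le_of_ne (card_le_of_le inf_le_left) fun e => hw ((eq_of_le_of_card_ge inf_le_left e.ge).ge xE).2)
  obtain ⟨j, rfl⟩ := Nat.exists_eq_add_of_lt d
  have e : p ^ (j + 1) ≤ (orbit A w).ncard := by
    have := c E
    rw [ha, hk, add_assoc, pow_add] at this
    rw [← Nat.eq_of_mul_eq_mul_left (pow_pos hp.pos _) this]
    exact Set.ncard_le_ncard (by rintro _ ⟨y, rfl⟩; exact ⟨⟨y, hEA y.2⟩, rfl⟩)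
  classical
  have f : (orbit A w).toFinset ⊆ S := by
    intro _ hy
    obtain ⟨y, rfl⟩ := Set.mem_toFinset.1 hy
    refine hS x x.2 _ fun e => hw (y.1.injective ?_)
    exact (DFunLike.congr_fun (hc y y.2 x x.2) w).trans e
  have g := ih _ (hn ▸ lt_of_le_of_ne (card_le_of_le inf_le_left) fun e => hw ((eq_of_le_of_card_ge inf_le_left e.ge).ge x.2).2)
    (A ⊓ stabilizer _ w) (E ⊓ stabilizer _ w) (S \ (orbit A w).toFinset) a rfl hA.to_inf_left (fun x a y b => hc x a.1 y b.1)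
    (fun x => by simp only [mem_inf, hE]; tauto) ha fun y hy v hv => Finset.mem_sdiff.2 ⟨hS y hy.1 v hv, fun e => by
      obtain ⟨z, rfl⟩ := Set.mem_toFinset.1 e
      exact hv ((DFunLike.congr_fun (hc y hy.1 z z.2) w).trans (congrArg z.1 hy.2))⟩
  rw [← c A, ← Finset.card_sdiff_add_card_eq_card f, ← Set.ncard_eq_toFinset_card']
  generalize (orbit A w).ncard = m at e ⊢
  have l : m * (j + 1) ^ (j + 1) ≤ m ^ (j + 1) := by
    rw [pow_succ' m]
    refine Nat.mul_le_mul_left _ ((Nat.pow_le_pow_left (Nat.lt_pow_self hp.one_lt) _).trans ?_)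
    rw [← pow_mul, mul_comm, pow_mul]
    exact Nat.pow_le_pow_left e _
  refine Nat.le_of_mul_le_mul_right ?_ (show 0 < a ^ a * (j + 1) ^ (j + 1) from mul_pos (Nat.pow_self_pos) (by positivity))
  rw [add_assoc]
  refine le_trans ?_ (amgm _ _ _ _ j.succ_pos)
  calc _ = (Nat.card ↥(A ⊓ stabilizer _ w) * a ^ a) * (m * (j + 1) ^ (j + 1)) * (a + (j + 1)) ^ (a + (j + 1)) := by ring
    _ ≤ _ := by gcongr

/-- Let p be a prime, Ω a finite set with n ≥ p elements, and A an abelian p-subgroup of the symmetric group on Ω whose elements of order dividing p number p^k (so k is the rank of A). Then |A| · k^k ≤ n^k, that is, |A| ≤ (n/k)^k. -/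
theorem result {Ω : Type*} [Fintype Ω] [DecidableEq Ω]
    (p : ℕ) (hp : p.Prime) (hn : p ≤ Fintype.card Ω) (A : Subgroup (Equiv.Perm Ω)) (hA : IsPGroup p A) (hab : IsMulCommutative A)
    (k : ℕ) (hk : Nat.card {x : A // x ^ p = 1} = p ^ k) :
    Nat.card A * k ^ k ≤ Fintype.card Ω ^ k := by
  have hc : ∀ x ∈ A, ∀ y ∈ A, x * y = y * x := fun x a y b => congrArg Subtype.val (hab.is_comm.comm ⟨x, a⟩ ⟨y, b⟩)
  let E : Subgroup (Equiv.Perm Ω) := ⟨⟨⟨{x | x ∈ A ∧ x ^ p = 1}, fun {x y} a b => ⟨mul_mem a.1 b.1, by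
    rw [Commute.mul_pow (hc x a.1 y b.1), a.2, b.2, one_mul]⟩⟩, one_mem _, one_pow _⟩, fun {x} a => ⟨inv_mem a.1, by rw [inv_pow, a.2, inv_one]⟩⟩
  exact aux hp _ A E Finset.univ k rfl hA hc (fun _ => Iff.rfl) (hk ▸ Nat.card_congr
    ⟨fun x => ⟨⟨x.1, x.2.1⟩, Subtype.ext x.2.2⟩, fun x => ⟨x.1.1, x.1.2, congrArg Subtype.val x.2⟩, fun _ => rfl, fun _ => rfl⟩)
    fun _ _ _ _ => Finset.mem_univ _

end Cfsg.Agent.S3696
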