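import Cfsg.Statements.S3802
import Cfsg.Agent.H1.Misc
import Cfsg.Agent.H8.Subnormal

set_option autoImplicit false
open Cfsg

namespace Cfsg.Agent.S3802

open Cfsg.Agent.H1

/-- Let G be a finite group, M a maximal subgroup of G and N a subnormal subgroup of G contained in M. Then N is contained in every conjugate of M, that is, N lies in the core of M in G. -/
theorem result {G : Type*} [Group G] [Finite G] (M N : Subgroup G) (hM : IsCoatom M) (hN : N.IsSubnormal) (hNM : N ≤ M) :
    N ≤ Subgroup.normalCore M := by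
  open Subgroup Pointwise commutatorElement in focus
    set S := sSup {L : Subgroup G | H8.SN ⊤ L ∧ L ≤ M}
    have hS : H8.SN ⊤ S := H8.SN.sSup fun A hA => hA.1
    have hSM : S ≤ M := sSup_le fun A hA => hA.2
    have hn : M ≤ normalizer (S : Set G) := fun m hm => mem_normalizer_of_conj_mem (conj_smul_le_iff.1
      (le_sSup ⟨hS.cj_of_mem (le_normalizer (mem_top m)), conj_smul_le_iff.2 fun x hx => mul_mem (mul_mem hm (hSM hx)) (inv_mem hm)⟩))
    have : S.Normal := by
      by_contra hc
      have h0 : ¬ ⊤ ≤ normalizer (S : Set G) := fun h => hc (normal_of_top_le_normalizer h)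
      have e := hn.lt_or_eq.resolve_left fun h => h0 (hM.2 _ h).ge
      obtain ⟨x, -, h1, h2⟩ := hS.exists_cj_le_normalizer h0
      exact h1 (conj_smul_eq_self_iff.2 (mem_normalizer_of_conj_mem (conj_smul_le_iff.1
        (le_sSup ⟨hS.cj_of_mem (le_normalizer (mem_top x)), h2.trans e.ge⟩))))
    exact (le_sSup ⟨H8.SN.of_isSubnormal hN, hNM⟩ : N ≤ S).trans (normal_le_normalCore.2 hSM)

end Cfsg.Agent.S3802
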