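import Cfsg.Statements.S3803
import Mathlib
import Cfsg.Agent.GS.MinAct
import Cfsg.Agent.L.Quat
import Cfsg.Agent.H1.Coprime

set_option autoImplicit false
open Cfsg

namespace Cfsg.Agent.S3803

open Subgroup

theorem ext_card {X : Type*} [Group X] [Finite X] {P E : Subgroup X} {i j m : ℕ} (hP : Nat.card P = 2 ^ m) (h : E ≤ P)
    (hE : Nat.card E = 2 ^ i) (hij : i ≤ j) (hj : j ≤ m) : ∃ R : Subgroup X, E ≤ R ∧ R ≤ P ∧ Nat.card R = 2 ^ j := by
  obtain ⟨K, k1, k2⟩ := Sylow.exists_subgroup_card_pow_prime_le 2 (G := P) (hP ▸ pow_dvd_pow 2 hj) (E.subgroupOf P)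
    ((Nat.card_congr (subgroupOfEquivOfLe h).toEquiv).trans hE) hij
  exact ⟨K.map P.subtype, (map_subgroupOf_eq_of_le h).ge.trans (map_mono k2), map_subtype_le _,
    (card_map_of_injective (subtype_injective P)).trans k1⟩

theorem card_le {X : Type*} [Group X] [Finite X] {P E : Subgroup X} {m : ℕ} (hP : Nat.card P = 2 ^ (m + 1)) (h : E ≤ P)
    (hne : E ≠ P) : ∃ i ≤ m, Nat.card E = 2 ^ i := by
  obtain ⟨i, h1, h2⟩ := (Nat.dvd_prime_pow Nat.prime_two).1 (hP ▸ card_dvd_of_le h)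
  refine ⟨i, Nat.le_of_lt_succ (lt_of_le_of_ne h1 fun e => hne (eq_of_le_of_card_ge h ?_)), h2⟩
  rw [hP, h2, e]

/-- Let P be a 2-subgroup and A a subgroup of odd order of a finite group, with A normalizing P. Let D ≤ P with 1 < |D| < |P|. If every subgroup of P of order |D|, and also every subgroup of P of order 4 in case |D| = 2, is normalized by A, then A centralizes P. -/
theorem result {X : Type*} [Group X] [Finite X] (P A D : Subgroup X) (hP : IsPGroup 2 P) (hA : Odd (Nat.card A))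
    (hAP : A ≤ Subgroup.normalizer (P : Set X)) (hDP : D ≤ P) (hD1 : 1 < Nat.card D) (hD2 : Nat.card D < Nat.card P)
    (hinv : ∀ E : Subgroup X, E ≤ P → (Nat.card E = Nat.card D ∨ (Nat.card D = 2 ∧ Nat.card E = 4)) → A ≤ Subgroup.normalizer (E : Set X)) :
    A ≤ Subgroup.centralizer (P : Set X) := by
  classical
  have hc : (Nat.card A).Coprime 2 := Nat.coprime_two_right.2 hA
  obtain ⟨m, hm⟩ := IsPGroup.iff_card.1 hP
  obtain ⟨k, hk⟩ := IsPGroup.iff_card.1 (hP.to_le hDP)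
  rw [hk] at hD1 hinv
  rw [hk, hm, Nat.pow_lt_pow_iff_right one_lt_two] at hD2
  have k0 : k ≠ 0 := by rintro rfl; simp at hD1
  have cyc : ∀ E ≤ P, IsCyclic E → A ≤ normalizer (E : Set X) → A ≤ centralizer (E : Set X) := fun E h1 h2 h3 a ha =>
    L.mem_centralizer_of_isCyclic_two (hP.to_le h1) h2 (h3 ha) (hc.coprime_dvd_left (A.orderOf_dvd_natCard ha))
  refine GS.le_cent_of_real hP hAP hc fun x hx h4 _ => ?_
  obtain ⟨i, i1, i2⟩ := (Nat.dvd_prime_pow Nat.prime_two).1 (orderOf_dvd_of_pow_eq_one (n := 2 ^ 2) h4)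
  rw [← Nat.card_zpowers] at i2
  have hx' := zpowers_le.2 hx
  suffices ∃ E : Subgroup X, x ∈ E ∧ A ≤ centralizer (E : Set X) by
    obtain ⟨E, e1, e2⟩ := this
    exact le_centralizer_iff.1 e2 e1
  by_cases k1 : k = 1
  · refine ⟨_, mem_zpowers x, cyc _ hx' inferInstance ?_⟩
    subst k1
    interval_cases i
    · rw [card_eq_one.1 i2]
      exact le_normalizer_of_normal
    · exact hinv _ hx' (.inl i2)
    · exact hinv _ hx' (.inr ⟨rfl, i2⟩)
  obtain ⟨E, e1, e2, e3⟩ := ext_card hm hx' i2 (by omega : i ≤ k) hD2.le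
  obtain ⟨R, r1, r2, r3⟩ := ext_card hm e2 e3 k.le_succ hD2
  have hER : E ≠ R := fun e => by
    rw [e, r3] at e3
    exact absurd (Nat.pow_right_injective le_rfl e3) k.succ_ne_self
  by_cases h : ∃ E' ≤ R, Nat.card E' = 2 ^ k ∧ E' ≠ E
  · obtain ⟨E', a1, a2, a3⟩ := h
    have hR : E ⊔ E' = R := by
      by_contra e
      obtain ⟨j, j1, j2⟩ := card_le r3 (sup_le r1 a1) e
      have b : Nat.card ↥(E ⊔ E') ≤ 2 ^ k := j2 ▸ Nat.pow_le_pow_right two_pos j1
      exact a3 ((eq_of_le_of_card_ge le_sup_right (a2 ▸ b)).trans (eq_of_le_of_card_ge le_sup_left (e3 ▸ b)).symm)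
    have hn : A ≤ normalizer (R : Set X) := hR ▸ (le_inf (hinv E e2 (.inl e3)) (hinv E' (a1.trans r2) (.inl a2))).trans
      (normalizer_inf_normalizer_le_normalizer_sup E E')
    refine ⟨R, r1 (e1 (mem_zpowers x)), H1.le_centralizer_of_commutator_le_frattini hn
      ((hc.pow_right _).coprime_dvd_right ((card_subgroup_dvd_card _).trans r3.dvd)) (commutator_le.2 fun r hr a ha => ?_)⟩
    have hb : a * r⁻¹ * a⁻¹ ∈ R := (mem_normalizer_iff.1 (hn ha) _).1 (R.inv_mem hr)
    refine ⟨⟨r, hr⟩ * ⟨_, hb⟩, ?_, by simp [commutatorElement_def, mul_assoc]⟩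
    simp only [frattini, Order.radical, Set.mem_setOf_eq, SetLike.mem_coe, mem_iInf]
    intro M hM
    have t : Nat.card (⊤ : Subgroup R) = 2 ^ (k + 1) := card_top.trans r3
    obtain ⟨j, j1, j2⟩ := card_le t le_top hM.1
    obtain ⟨K, c1, -, c3⟩ := ext_card t le_top j2 j1 k.le_succ
    have c4 : K = M := (hM.le_iff.1 c1).resolve_left fun e => by
      rw [e, t] at c3
      exact absurd (Nat.pow_right_injective le_rfl c3) k.succ_ne_self
    subst c4
    have c5 : K.index = 2 := by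
      have := K.card_mul_index
      rw [c3, r3, pow_succ] at this
      exact Nat.eq_of_mul_eq_mul_left (by positivity) this
    have c6 := mem_normalizer_iff.1 (hinv (K.map R.subtype) ((map_subtype_le _).trans r2)
      (.inl ((card_map_of_injective (subtype_injective R)).trans c3)) ha) r⁻¹
    have c7 : ∀ y : R, y ∈ K ↔ (y : X) ∈ K.map R.subtype := fun y =>
      ⟨fun h => ⟨y, h, rfl⟩, fun ⟨a, h, e⟩ => (Subtype.ext e : a = y) ▸ h⟩
    rw [mul_mem_iff_of_index_two c5, c7, c7, ← c6, inv_mem_iff]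
  · push Not at h
    obtain ⟨r, hr, hrE⟩ := SetLike.exists_of_lt (lt_of_le_of_ne r1 hER)
    have hz : zpowers r = R := by
      by_contra e
      obtain ⟨j, j1, j2⟩ := card_le r3 (zpowers_le.2 hr) e
      obtain ⟨K, c1, c2, c3⟩ := ext_card r3 (zpowers_le.2 hr) j2 j1 k.le_succ
      exact hrE (h K c2 c3 ▸ c1 (mem_zpowers r))
    exact ⟨E, e1 (mem_zpowers x), cyc E e2 (isCyclic_of_le (hz ▸ r1 : E ≤ zpowers r)) (hinv E e2 (.inl e3))⟩

end Cfsg.Agent.S3803
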