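import Cfsg.Statements.S3815
import Cfsg.Agent.H1.Misc

set_option autoImplicit false
open Cfsg

namespace Cfsg.Agent.S3815

open Cfsg.Agent.H1

/-- Let G be a finite group, p a prime and d ∈ G an element of order prime to p. If dg has order prime to p for every element g ∈ G of order prime to p, then d ∈ O_{p'}(G). -/
theorem result {G : Type*} [Group G] [Finite G] {p : ℕ} [Fact p.Prime]
    (d : G) (hd : (orderOf d).Coprime p)
    (h : ∀ g : G, (orderOf g).Coprime p → (orderOf (d * g)).Coprime p) :
    d ∈ Cfsg.pPrimeCore p G := by
  open Subgroup Pointwise commutatorElement in focus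
    let S : Submonoid G := {
      carrier := {d | ∀ g : G, (orderOf g).Coprime p → (orderOf (d * g)).Coprime p}
      mul_mem' := fun {a b} ha hb g hg => mul_assoc a b g ▸ ha _ (hb g hg)
      one_mem' := fun g hg => (one_mul g).symm ▸ hg }
    let D : Subgroup G := { S with
      inv_mem' := fun {x} hx => by
        rw [inv_eq_of_mul_eq_one_left (a := x ^ (orderOf x - 1)) (b := x) (by
          rw [← pow_succ, Nat.sub_add_cancel (orderOf_pos x), pow_orderOf_eq_one])]
        exact S.pow_mem hx _ }
    have o : ∀ g x : G, orderOf (g * x * g⁻¹) = orderOf x := fun g x => (MulAut.conj g).orderOf_eq x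
    refine le_pPrimeCore (N := D) ⟨fun x hx c g hg => ?_⟩ ?_ h
    · have := hx (c⁻¹ * g * c⁻¹⁻¹) (by rwa [o])
      rw [← o c] at this
      convert this using 2; group
    · refine (coprime_iff_forall_prime_ne Fact.out).2 fun q hq hd e => ?_
      obtain ⟨x, hx, ho⟩ := exists_mem_orderOf_eq_prime hq hd
      have := hx 1 (by simp)
      rw [mul_one, ho, e, Nat.coprime_self] at this
      exact hq.ne_one (e.trans this)

end Cfsg.Agent.S3815
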