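import Cfsg.Statements.S3820
import Cfsg.Agent.H1.Misc

set_option autoImplicit false
open Cfsg

namespace Cfsg.Agent.S3820

open Cfsg.Agent.H1

/-- Call a subgroup H of G pronormal if H and gHg⁻¹ are conjugate inside ⟨H, gHg⁻¹⟩ for every g ∈ G. Let S ≤ H ≤ G be subgroups of a finite group with S pronormal in G (for instance S a Sylow subgroup). Then H is pronormal in G if and only if H and gHg⁻¹ are conjugate inside ⟨H, gHg⁻¹⟩ for every g ∈ N_G(S). In particular H is pronormal whenever N_G(S) ≤ H. -/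
theorem result {G : Type*} [Group G] [Finite G] (S H : Subgroup G) (hSH : S ≤ H)
    (hS : Cfsg.IsPronormal S) :
    Cfsg.IsPronormal H ↔
      ∀ g ∈ Subgroup.normalizer (S : Set G), ∃ w ∈ H ⊔ H.map (MulAut.conj g).toMonoidHom,
        H.map (MulAut.conj g).toMonoidHom = H.map (MulAut.conj w).toMonoidHom := by
  open Subgroup Pointwise commutatorElement in focus
    refine ⟨fun h g _ => h g, fun h g => ?_⟩
    obtain ⟨x, hx, e⟩ := hS g
    simp only [← conj_smul_eq_map] at *
    have hx' : x ∈ H ⊔ MulAut.conj g • H := sup_le_sup hSH (conj_smul_mono g hSH) hx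
    obtain ⟨w, hw, e'⟩ := h (x⁻¹ * g) (by rw [← conj_smul_eq_self_iff, ← conj_smul_conj_smul, e, conj_inv_smul_conj_smul])
    refine ⟨x * w, mul_mem hx' ((sup_le le_sup_left ?_ : _ ≤ H ⊔ MulAut.conj g • H) hw), by rw [← conj_smul_conj_smul, ← e', conj_smul_conj_smul, mul_inv_cancel_left]⟩
    rw [← conj_smul_conj_smul]
    exact conj_smul_le_iff.2 fun y hy => mul_mem (mul_mem (inv_mem hx') (mem_sup_right hy)) (inv_mem (inv_mem hx'))

end Cfsg.Agent.S3820
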