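import Cfsg.Statements.S3821
import Cfsg.Agent.H1.Misc

set_option autoImplicit false
open Cfsg

namespace Cfsg.Agent.S3821

open Cfsg.Agent.H1

/-- Let A be a normal subgroup of the finite group G and H a subgroup of A. Then H is pronormal in G (H and gHg⁻¹ conjugate inside ⟨H, gHg⁻¹⟩ for every g ∈ G) if and only if H is pronormal in A and G = A · N_G(H). -/
theorem result {G : Type*} [Group G] [Finite G] (A H : Subgroup G) [A.Normal] (hHA : H ≤ A) :
    Cfsg.IsPronormal H ↔ (Cfsg.IsPronormal (H.subgroupOf A) ∧ A ⊔ Subgroup.normalizer (H : Set G) = ⊤) := by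
  open Subgroup Pointwise commutatorElement in focus
    have hle : ∀ g : G, MulAut.conj g • H ≤ A := fun g => conj_smul_le_iff.2 fun x hx => Normal.conj_mem inferInstance x (hHA hx) g
    constructor
    · intro h
      refine ⟨fun g => ?_, eq_top_iff.2 fun g _ => ?_⟩
      · obtain ⟨x, hx, e⟩ := h g
        simp only [← conj_smul_eq_map] at *
        refine ⟨⟨x, sup_le hHA (hle _) hx⟩, ?_, by rw [← subgroupOf_conj_smul, ← subgroupOf_conj_smul]; exact congrArg (subgroupOf · A) e⟩
        rw [← subgroupOf_conj_smul, ← subgroupOf_sup hHA (hle _)]; exact hx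
      · obtain ⟨x, hx, e⟩ := h g
        simp only [← conj_smul_eq_map] at *
        rw [← mul_inv_cancel_left x g]
        exact mul_mem_sup (sup_le hHA (hle _) hx) (by rw [← conj_smul_eq_self_iff, ← conj_smul_conj_smul, e, conj_inv_smul_conj_smul])
    · rintro ⟨h, hs⟩ g
      obtain ⟨a, ha, n, hn, rfl⟩ := forall_mul_of_sup_eq_top' hs g
      obtain ⟨x, hx, e⟩ := h ⟨a, ha⟩
      simp only [← conj_smul_eq_map] at *
      rw [← subgroupOf_conj_smul] at hx e
      rw [← subgroupOf_sup hHA (hle _)] at hx
      rw [← subgroupOf_conj_smul] at e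
      rw [← conj_smul_conj_smul, conj_smul_eq_self_iff.2 hn]
      exact ⟨x, hx, by rw [← map_subtype_subgroupOf (hle a), ← map_subtype_subgroupOf (hle x)]; exact congrArg _ e⟩

end Cfsg.Agent.S3821
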