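import Cfsg.Statements.S3825
import Cfsg.Agent.H1.PGrp
import Cfsg.Agent.L.Frob2

set_option autoImplicit false
open Cfsg

namespace Cfsg.Agent.S3825

open Cfsg.Agent.H1

/-- Let U be a subgroup of a finite group H and w an involution of H normalizing U and commuting with exactly two elements of U, the identity and y. If V is a non-cyclic elementary abelian 2-subgroup of U containing y which is normal in U and invariant under w, then V is a Sylow 2-subgroup of U, V has order 4, and U/V is abelian. -/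
theorem result {H : Type*} [Group H] [Finite H] (U : Subgroup H) (w : H) (hw : orderOf w = 2)
    (hwU : w ∈ Subgroup.normalizer (U : Set H)) (y : H) (hy : y ≠ 1) (hyU : y ∈ U)
    (hfix : ∀ u ∈ U, w * u * w⁻¹ = u ↔ (u = 1 ∨ u = y))
    (V : Subgroup H) (hVU : V ≤ U) (hVn : (V.subgroupOf U).Normal) (hVw : ∀ v ∈ V, w * v * w⁻¹ ∈ V)
    (hVe : Cfsg.IsElementaryAbelian 2 V) (hVc : ¬ IsCyclic ↥V) (hyV : y ∈ V) :
    ¬ 2 ∣ V.relIndex U ∧ Nat.card ↥V = 4 ∧ ⁅U, U⁆ ≤ V := by
  open Subgroup Pointwise commutatorElement in focus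
    have hUV := (normal_subgroupOf_iff_le_normalizer hVU).1 hVn
    have hwV := mem_normalizer_of_conj_mem hVw
    have hw2 : w * w = 1 := by rw [← sq, ← hw, pow_orderOf_eq_one]
    have hwi : w⁻¹ = w := inv_eq_of_mul_eq_one_left hw2
    haveI := hVe.1
    have h2 : ∀ v ∈ V, v * v = 1 := fun v hv => sq v ▸ hVe.2 v hv
    have hc : ∀ v ∈ V, w * v * w⁻¹ * v⁻¹ = 1 ∨ w * v * w⁻¹ * v⁻¹ = y := fun v hv => (hfix _ (hVU (mul_mem (hVw v hv) (inv_mem hv)))).1 (by
      calc w * (w * v * w⁻¹ * v⁻¹) * w⁻¹ = (w * w) * v * (w * w)⁻¹ * v⁻¹ * (w * v * w⁻¹ * v⁻¹)⁻¹ := by group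
        _ = _ := by rw [hw2, inv_eq_of_mul_eq_one_left (h2 _ (mul_mem (hVw v hv) (inv_mem hv)))]; group)
    have oy : orderOf y = 2 := orderOf_eq_prime (hVe.2 y hyV) hy
    have hle : ∀ K : Subgroup H, (∀ k ∈ K, k = 1 ∨ k = y) → Nat.card K ≤ 2 := fun K h => by
      rw [← oy, ← Nat.card_zpowers]
      exact card_le_of_le fun k hk => (h k hk).elim (fun e => e ▸ one_mem _) fun e => e ▸ mem_zpowers _
    have hV4 : Nat.card V = 4 := by
      have h3 := card_commutator_zpowers_mul hwV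
      have h4 := hle ⁅V, zpowers w⁆ fun c hc' => by
        obtain ⟨v, hv, rfl⟩ := exists_commutator_eq_of_isMulCommutative hwV hc'
        exact hc v hv
      have h5 := hle (V ⊓ centralizer {w}) fun c hc' => (hfix c (hVU hc'.1)).1 (by
        rw [← mem_centralizer_singleton_iff.1 hc'.2, mul_inv_cancel_right])
      have h6 : Nat.card V ≤ 2 ^ 2 := h3 ▸ Nat.mul_le_mul h4 h5
      obtain ⟨k, hk⟩ := IsPGroup.iff_card.1 (IsElementaryAbelian.isPGroup' hVe)
      have h7 := (Nat.pow_le_pow_iff_right one_lt_two).1 (hk ▸ h6)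
      interval_cases k
      · exact absurd (isCyclic_of_card_dvd_prime (p := 2) (by simp [hk])) hVc
      · exact absurd (isCyclic_of_card_dvd_prime (p := 2) (by simp [hk])) hVc
      · exact hk
    obtain ⟨t, ht, hty⟩ : ∃ t ∈ V, w * t * w⁻¹ * t⁻¹ = y := by
      by_contra! h
      have := hle V fun k hk => (hfix k (hVU hk)).1 (mul_inv_eq_one.1 ((hc k hk).resolve_right (h k hk)))
      omega
    have hf : sec V U ⊓ centralizer {secMk V ⟨w, hwV⟩} = ⊥ := eq_bot_iff.2 fun x hx => by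
      obtain ⟨u, hu, huU, rfl⟩ := mem_sec_iff.1 hx.1
      have h3 : u⁻¹ * (w * u * w⁻¹) ∈ V := secMk_eq_one_iff (x := ⟨u, hu⟩⁻¹ * (⟨w, hwV⟩ * ⟨u, hu⟩ * ⟨w, hwV⟩⁻¹)).1 (by
        rw [map_mul, map_mul, map_mul, ← mem_centralizer_singleton_iff.1 hx.2]; simp)
      refine secMk_eq_one_iff.2 ?_
      have hmem : ∀ z ∈ U, w * z * w⁻¹ = z → z ∈ V := fun z hz e => ((hfix z hz).1 e).elim (fun e => e ▸ one_mem _) fun e => e ▸ hyV
      rcases (hfix _ (hVU h3)).1 (by
        calc w * (u⁻¹ * (w * u * w⁻¹)) * w⁻¹ = (u⁻¹ * (w * u * w⁻¹))⁻¹ * u⁻¹ * (w * w) * u * (w * w)⁻¹ := by group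
          _ = _ := by rw [hw2, inv_eq_of_mul_eq_one_left (h2 _ h3)]; group) with e | e
      · exact hmem u huU (inv_mul_eq_one.1 e).symm
      · have := hmem (u * t) (mul_mem huU (hVU ht)) (by
          calc w * (u * t) * w⁻¹ = u * (u⁻¹ * (w * u * w⁻¹)) * (w * t * w⁻¹ * t⁻¹) * t := by group
            _ = _ := by rw [e, hty, mul_assoc u, h2 y hyV, mul_one])
        exact (mul_mem_cancel_right ht).1 this
    have hn : secMk V ⟨w, hwV⟩ ∈ normalizer (sec V U : Set (Sec V)) := sec_le_normalizer (zpowers_le.2 hwU) (secMk_mem_sec (mem_zpowers w) hwV)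
    have hs : secMk V ⟨w, hwV⟩ * secMk V ⟨w, hwV⟩ = 1 := by rw [← map_mul, ← map_one (secMk V)]; congr 1; exact Subtype.ext hw2
    refine ⟨fun hd => ?_, hV4, ?_⟩
    · have := card_modEq_card_centralizer (p := 2) (isPGroup_zpowers_iff.2 ⟨1, by rw [pow_one, sq, hs]⟩) (zpowers_le.2 hn)
      rw [centralizer_zpowers, hf, card_bot, card_sec _ _ hUV] at this
      exact absurd ((this.dvd_iff dvd_rfl).1 hd) (by norm_num)
    · haveI := (L.inverts_of_involution hs hn hf).2
      exact (sec_le_centralizer_iff hUV hUV).1 (le_centralizer _)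

end Cfsg.Agent.S3825
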