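import Cfsg.Statements.S3835
import Cfsg.Agent.H9.Qd

set_option autoImplicit false
open Cfsg

namespace Cfsg.Agent.S3835

open Cfsg.Agent Subgroup Cfsg.Agent.H9
open scoped Pointwise commutatorElement
variable {p : ℕ}

theorem pcomm [hp : Fact p.Prime] {n : ℕ} (hn : n < p ^ 2) {Q : Type*} [Group Q] [Finite Q] (hQ : IsPGroup p Q)
    (φ : Q →* Equiv.Perm (Fin n)) (hφ : Function.Injective φ) (x y : Q) : x * y = y * x := by
  apply hφ
  ext1 i
  letI : MulAction Q (Fin n) := MulAction.compHom _ φ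
  obtain ⟨k, hk⟩ := hQ.index (MulAction.stabilizer Q i)
  have h1 : (MulAction.stabilizer Q i).index ≤ n := by
    rw [MulAction.index_stabilizer]
    have := Set.ncard_le_card (MulAction.orbit Q i)
    rwa [Nat.card_fin] at this
  have h2 : (y * x)⁻¹ * (x * y) ∈ MulAction.stabilizer Q i := by
    rcases k with _ | _ | k
    · rw [pow_zero, index_eq_one] at hk
      rw [hk]; exact mem_top _
    · rw [zero_add, pow_one] at hk
      obtain ⟨m, hm⟩ := IsPGroup.iff_card.1 hQ
      have hm0 : m ≠ 0 := by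
        rintro rfl
        have := (MulAction.stabilizer Q i).index_dvd_card
        rw [hk, hm, pow_zero] at this
        exact hp.out.one_lt.ne' (Nat.dvd_one.1 this)
      haveI : (MulAction.stabilizer Q i).Normal := normal_of_index_eq_minFac_card (by
        rw [hk, hm, hp.out.pow_minFac hm0])
      haveI : IsCyclic (Q ⧸ MulAction.stabilizer Q i) := isCyclic_of_prime_card (p := p) hk
      rw [← QuotientGroup.eq, QuotientGroup.mk_mul, QuotientGroup.mk_mul]
      exact IsCyclic.isMulCommutative.is_comm.comm _ _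
    · exfalso
      have := Nat.pow_le_pow_right hp.out.pos (show 2 ≤ k + 1 + 1 by omega)
      omega
  have h3 : φ ((y * x)⁻¹ * (x * y)) i = i := h2
  rw [map_mul, map_inv, Equiv.Perm.mul_apply, Equiv.Perm.inv_eq_iff_eq] at h3
  exact h3

def UU (t : ZMod p) : SL2 p := ⟨!![1, t; 0, 1], by simp [Matrix.det_fin_two]⟩
def LL (t : ZMod p) : SL2 p := ⟨!![1, 0; t, 1], by simp [Matrix.det_fin_two]⟩

theorem UU_val (t : ZMod p) : (UU t).1 = !![1, t; 0, 1] := rfl
theorem LL_val (t : ZMod p) : (LL t).1 = !![1, 0; t, 1] := rfl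

theorem UU_pow (t : ZMod p) (n : ℕ) : UU t ^ n = UU ((n : ZMod p) * t) := by
  induction n with
  | zero => ext i j; fin_cases i <;> fin_cases j <;> simp [UU_val]
  | succ n ih =>
    rw [pow_succ, ih]
    ext i j; fin_cases i <;> fin_cases j <;> simp [UU_val, Matrix.mul_apply, Fin.sum_univ_two]
    ring

theorem LL_pow (t : ZMod p) (n : ℕ) : LL t ^ n = LL ((n : ZMod p) * t) := by
  induction n with
  | zero => ext i j; fin_cases i <;> fin_cases j <;> simp [LL_val]
  | succ n ih =>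
    rw [pow_succ, ih]
    ext i j; fin_cases i <;> fin_cases j <;> simp [LL_val, Matrix.mul_apply, Fin.sum_univ_two]
    ring

theorem UU_p (t : ZMod p) : UU t ^ p = 1 := by
  rw [UU_pow]; ext i j; fin_cases i <;> fin_cases j <;> simp [UU_val]

theorem LL_p (t : ZMod p) : LL t ^ p = 1 := by
  rw [LL_pow]; ext i j; fin_cases i <;> fin_cases j <;> simp [LL_val]

theorem unit1 {G : Type*} [Group G] (hp : Odd p) (f : G →* ℤˣ) {x : G} (hx : x ^ p = 1) : f x = 1 := by
  have h := congrArg f hx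
  rw [map_pow, map_one] at h
  rcases Int.units_eq_one_or (f x) with h1 | h1
  · exact h1
  · rw [h1, hp.neg_one_pow] at h
    exact absurd h (by decide)

theorem sl2triv [hp : Fact p.Prime] (ho : Odd p) (f : SL2 p →* ℤˣ) (A : SL2 p) : f A = 1 := by
  have key : ∀ A : SL2 p, A.1 1 0 ≠ 0 → f A = 1 := by
    intro A hc
    have hd := A.2
    rw [Matrix.det_fin_two] at hd
    have : A = UU ((A.1 0 0 - 1) / A.1 1 0) * LL (A.1 1 0) * UU ((A.1 1 1 - 1) / A.1 1 0) := by
      ext i j; fin_cases i <;> fin_cases j <;> simp [UU_val, LL_val, Matrix.mul_apply, Fin.sum_univ_two]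
      · field_simp; ring
      · field_simp; linear_combination (-1 : ZMod p) * hd
      · field_simp; ring
    rw [this, map_mul, map_mul, unit1 ho f (UU_p _), unit1 ho f (UU_p _), unit1 ho f (LL_p _)]
    rfl
  by_cases hc : A.1 1 0 = 0
  · have hd := A.2
    rw [Matrix.det_fin_two, hc] at hd
    have h1 := key (LL 1 * A) (by
      simp [LL_val, Matrix.mul_apply, Fin.sum_univ_two, hc]
      intro h
      rw [h] at hd
      simp at hd)
    rwa [map_mul, unit1 ho f (LL_p _), one_mul] at h1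
  · exact key A hc

def io (p : ℕ) : SL2 p →* qd p := MonoidHom.mk' (fun A => qdMk A 0 0) (by
  intro A B; rw [qdMk_mul]; simp)

theorem tr_p (a b : ZMod p) : qdMk 1 a b ^ p = 1 := by
  rw [qdMk_pow]; simp [qdMk_one]

theorem qdtriv [hp : Fact p.Prime] (ho : Odd p) (f : qd p →* ℤˣ) (M : qd p) : f M = 1 := by
  obtain ⟨a, b, h⟩ := exists_qdMk M
  have : M = qdMk 1 a b * io p (qdBlk p M) := by
    conv_lhs => rw [h]
    show _ = qdMk 1 a b * qdMk (qdBlk p M) 0 0
    rw [qdMk_mul]; simp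
  rw [this, map_mul, unit1 ho f (tr_p a b), one_mul]
  exact sl2triv ho (f.comp (io p)) _

def act (p : ℕ) : MulAction (qd p) (ZMod p × ZMod p) where
  smul M v := (M.1.1 0 0 * v.1 + M.1.1 0 1 * v.2 + M.1.1 0 2, M.1.1 1 0 * v.1 + M.1.1 1 1 * v.2 + M.1.1 1 2)
  one_smul v := by
    show (_, _) = v
    ext <;> simp
  mul_smul M N v := by
    obtain ⟨h1, h2, h3⟩ := mem_qd.1 N.2
    show (_, _) = (M.1.1 0 0 * (N.1.1 0 0 * v.1 + N.1.1 0 1 * v.2 + N.1.1 0 2) + M.1.1 0 1 * (N.1.1 1 0 * v.1 + N.1.1 1 1 * v.2 + N.1.1 1 2) + M.1.1 0 2,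
      M.1.1 1 0 * (N.1.1 0 0 * v.1 + N.1.1 0 1 * v.2 + N.1.1 0 2) + M.1.1 1 1 * (N.1.1 1 0 * v.1 + N.1.1 1 1 * v.2 + N.1.1 1 2) + M.1.1 1 2)
    ext <;> simp [Matrix.mul_apply, Fin.sum_univ_three, h1, h2, h3] <;> ring

theorem emb [hp : Fact p.Prime] : ∃ φ : qd p →* Equiv.Perm (ZMod p × ZMod p), Function.Injective φ := by
  letI := act p
  refine ⟨MulAction.toPermHom _ _, ?_⟩
  rw [injective_iff_map_eq_one]
  intro M hM
  have key : ∀ v : ZMod p × ZMod p, (M.1.1 0 0 * v.1 + M.1.1 0 1 * v.2 + M.1.1 0 2, M.1.1 1 0 * v.1 + M.1.1 1 1 * v.2 + M.1.1 1 2) = v :=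
    fun v => DFunLike.congr_fun hM v
  obtain ⟨h1, h2, h3⟩ := mem_qd.1 M.2
  have a := key (0, 0)
  have b := key (1, 0)
  have c := key (0, 1)
  simp only [Prod.mk.injEq, mul_zero, mul_one, zero_add, add_zero] at a b c
  rw [a.1, a.2, add_zero, add_zero] at b c
  apply Subtype.ext
  ext i j
  fin_cases i <;> fin_cases j <;> simp [a.1, a.2, b.1, b.2, c.1, c.2, h1, h2, h3]

theorem notinv [hp : Fact p.Prime] {n : ℕ} (hn : n < p ^ 2) {K : Type*} [Group K] [Finite K]
    (φ : K →* Equiv.Perm (Fin n)) (hφ : Function.Injective φ) (f : K →* qd p) (hf : Function.Surjective f) : False := by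
  have h1 : IsPGroup p (qdBlk p).ker := by
    intro M
    obtain ⟨a, b, h⟩ := mem_qd_ker.1 M.2
    refine ⟨1, Subtype.ext ?_⟩
    simp only [pow_one, SubgroupClass.coe_pow, h]
    exact tr_p a b
  have h2 : IsPGroup p (zpowers (io p (UU 1))) := by
    rintro ⟨_, i, rfl⟩
    refine ⟨1, Subtype.ext ?_⟩
    simp only [pow_one, SubgroupClass.coe_pow]
    rw [← zpow_natCast, ← zpow_mul, mul_comm, zpow_mul, zpow_natCast, ← map_pow, UU_p]
    simp
  obtain ⟨R, hR⟩ := (h2.to_sup_of_normal_right h1).exists_le_sylow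
  obtain ⟨P, rfl⟩ := Sylow.mapSurjective_surjective hf p R
  rw [Sylow.coe_mapSurjective] at hR
  obtain ⟨x, hx, hx'⟩ := hR (le_sup_left (a := zpowers (io p (UU 1))) (mem_zpowers _))
  obtain ⟨y, hy, hy'⟩ := hR (le_sup_right (a := zpowers (io p (UU 1))) (mem_qd_ker.2 ⟨0, 1, rfl⟩))
  have h3 := congrArg Subtype.val (pcomm hn P.2 (φ.comp (P : Subgroup K).subtype) (hφ.comp (subtype_injective _)) ⟨x, hx⟩ ⟨y, hy⟩)
  have h4 := congrArg f h3
  simp only [coe_mul, map_mul, hx', hy'] at h4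
  have h5 : qdMk (UU 1) 0 0 * qdMk 1 0 1 = qdMk 1 0 1 * qdMk (UU (1 : ZMod p)) 0 0 := h4
  rw [qdMk_mul, qdMk_mul] at h5
  have := (qdMk_inj h5).1
  simp [UU_val] at this

/-- Let p be an odd prime and n a natural number. The alternating group of degree n has a subgroup isomorphic to Qd(p) (the natural semidirect product of an elementary abelian group of order p² by SL₂(p)) if and only if n ≥ p²; and if n < p² then Qd(p) is not even involved in it. -/
theorem result {p : ℕ} [Fact p.Prime] (hp : p ≠ 2) (n : ℕ) : ((∃ H : Subgroup (alternatingGroup (Fin n)), Nonempty (↥H ≃* ↥(Cfsg.qd p))) ↔ p ^ 2 ≤ n) ∧ (n < p ^ 2 → ¬ Cfsg.Involves ↥(Cfsg.qd p) ↥(alternatingGroup (Fin n))) := by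
  have ho : Odd p := (Fact.out : p.Prime).odd_of_ne_two hp
  refine ⟨⟨?_, fun hn => ?_⟩, ?_⟩
  · rintro ⟨H, ⟨e⟩⟩
    by_contra hn
    exact notinv (not_le.1 hn) ((alternatingGroup (Fin n)).subtype.comp H.subtype)
      ((subtype_injective _).comp (subtype_injective _)) e.toMonoidHom e.surjective
  · obtain ⟨φ, hφ⟩ := emb (p := p)
    obtain ⟨ι⟩ : Nonempty (ZMod p × ZMod p ↪ Fin n) := by
      apply Function.Embedding.nonempty_of_card_le
      simpa [pow_two] using hn
    let ψ := (Equiv.Perm.viaEmbeddingHom ι).comp φ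
    have hψ : Function.Injective ψ := (Equiv.Perm.viaEmbeddingHom_injective ι).comp hφ
    let χ : qd p →* alternatingGroup (Fin n) := ψ.codRestrict _ (fun M => Equiv.Perm.mem_alternatingGroup.2 (qdtriv ho (Equiv.Perm.sign.comp ψ) M))
    have hχ : Function.Injective χ := fun a b h => hψ (congrArg Subtype.val h)
    exact ⟨χ.range, ⟨(MonoidHom.ofInjective hχ).symm⟩⟩
  · rintro hn ⟨K, R, hR, ⟨e⟩⟩
    exact notinv hn ((alternatingGroup (Fin n)).subtype.comp K.subtype)
      ((subtype_injective _).comp (subtype_injective _)) (e.toMonoidHom.comp (QuotientGroup.mk' _))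
      (e.surjective.comp (QuotientGroup.mk'_surjective _))

end Cfsg.Agent.S3835
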