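import Cfsg.Statements.S3838
import Cfsg.Agent.H8.Misc

set_option autoImplicit false
open Cfsg

namespace Cfsg.Agent.S3838

open Subgroup hiding commutator_def
open Function Cfsg.Agent.Hopf Cfsg.Agent.Reg
open scoped commutatorElement Pointwise

theorem aux {G : Type*} [Group G] [Finite G] {p : ℕ} [Fact p.Prime] {P Q : Subgroup G}
    (hP : H2.SylIn p P ⊤) [Q.Normal] (hN : H2.PNil p (normalizer (P : Set G))) (h1 : ⁅P, P⁆ ≤ Q)
    (h2 : Q ≤ (frattini P).map P.subtype) : H2.PNil p (⊤ : Subgroup G) := by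
  have hQP : Q ≤ P := h2.trans (map_subtype_le _)
  have h3 := hP.map (QuotientGroup.mk' Q)
  rw [map_top_of_surjective _ (QuotientGroup.mk'_surjective Q)] at h3
  have h4 : H2.PNil p (⊤ : Subgroup (G ⧸ Q)) := by
    refine h3.pNil_of_normalizer_le fun x hx => ?_
    obtain ⟨x, rfl⟩ := QuotientGroup.mk'_surjective Q x
    have h5 : x ∈ normalizer (P : Set G) := by
      have := H1.comap_le_normalizer_comap (QuotientGroup.mk' Q) le_rfl hx.2
      rwa [H1.comap_map_mk', sup_eq_left.2 hQP] at this
    obtain ⟨k, hk, u, hu, rfl⟩ := (hP.mono le_normalizer le_top).exists_resOf_mul h5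
    have h6 := hN.resOf_le_centralizer hP.pgrp le_normalizer le_rfl hk
    rintro _ ⟨y, hy, rfl⟩
    rw [← map_mul, ← map_mul, ← mul_assoc, h6 y hy, mul_assoc, mul_assoc, map_mul, map_mul _ k]
    congr 1
    rw [QuotientGroup.mk'_apply, QuotientGroup.mk'_apply, QuotientGroup.eq]
    have := h1 (commutator_mem_commutator (inv_mem hu) (inv_mem hy))
    simpa [commutatorElement_def, mul_assoc] using this
  refine H2.pNil_of_inf_le_frattini hP (le_trans (fun x hx => ?_) h2)
  have h5 := h4.inf_eq_bot h3.pgrp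
  rw [H2.resOf_top, ← H2.map_pResidual _ (QuotientGroup.mk'_surjective Q)] at h5
  rw [← QuotientGroup.eq_one_iff, ← mem_bot, ← h5]
  exact mem_inf.2 ⟨mem_map_of_mem _ hx.1, mem_map_of_mem _ hx.2⟩

/-- Let G be a finite group with Sylow p-subgroup P such that N_G(P) has a normal p-complement. Then N_G(Q) has a normal p-complement for every subgroup Q with [P, P] ≤ Q ≤ Φ(P). -/
theorem result {G : Type*} [Group G] [Finite G] {p : ℕ} [Fact p.Prime] (P : Sylow p G) (hN : Cfsg.HasNormalPComplement p ↥(Subgroup.normalizer ((P : Subgroup G) : Set G))) (Q : Subgroup G) (h1 : (commutator ↥(P : Subgroup G)).map (P : Subgroup G).subtype ≤ Q) (h2 : Q ≤ (frattini ↥(P : Subgroup G)).map (P : Subgroup G).subtype) : Cfsg.HasNormalPComplement p ↥(Subgroup.normalizer (Q : Set G)) := by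
  rw [H2.hasNPC_iff] at hN
  rw [H2.hasNPC_iff_top]
  rw [map_subtype_commutator] at h1
  have hQP : Q ≤ P := h2.trans (map_subtype_le _)
  have hPK : (P : Subgroup G) ≤ normalizer (Q : Set G) := fun g hg =>
    H1.mem_normalizer_of_conj_mem fun x hx => by
      have := mul_mem (h1 (commutator_mem_commutator hg (hQP hx))) hx
      simpa [commutatorElement_def] using this
  obtain ⟨K, hK⟩ : ∃ K, K = normalizer (Q : Set G) := ⟨_, rfl⟩
  have hQK : Q ≤ K := hK ▸ le_normalizer
  haveI : (Q.subgroupOf K).Normal := (normal_subgroupOf_iff_le_normalizer hQK).2 hK.le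
  rw [← hK] at hPK ⊢
  refine aux (P := (P : Subgroup G).subgroupOf K) (Q := Q.subgroupOf K) ?_ ?_ ?_ ?_
  · rw [← subgroupOf_self K, H2.sylIn_subgroupOf_iff le_rfl hPK]
    exact H2.sylIn_of_le P hPK
  · rw [← subgroupOf_normalizer_eq hPK, ← H2.pNil_map_iff K.subtype K.subtype_injective]
    exact hN.mono (map_le_iff_le_comap.2 le_rfl)
  · rw [← map_le_map_iff_of_injective K.subtype_injective, map_commutator,
      H1.map_subtype_subgroupOf hPK, H1.map_subtype_subgroupOf hQK]
    exact h1
  · rw [← map_le_map_iff_of_injective K.subtype_injective,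
      H1.map_map_frattini (H1.isPGroup_subgroupOf P.2), H1.map_subtype_subgroupOf hPK,
      H1.map_subtype_subgroupOf hQK]
    exact h2

end Cfsg.Agent.S3838
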