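import Cfsg.Statements.S3839
import Cfsg.Agent.H8.Misc

set_option autoImplicit false
open Cfsg

namespace Cfsg.Agent.S3839

open Subgroup hiding commutator_def
open Function Cfsg.Agent.Hopf Cfsg.Agent.Reg
open scoped commutatorElement Pointwise


/-- A Frobenius normal p-complement criterion relative to a strongly closed subgroup. Let G be a finite group, S a Sylow p-subgroup and D a subgroup of S strongly closed in S with respect to G. Then G has a normal p-complement if and only if N_G(U) has a normal p-complement for every subgroup U of D with C_D(U) ≤ U. -/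
theorem result {G : Type*} [Group G] [Finite G] {p : ℕ} [Fact p.Prime] (S : Sylow p G) (D : Subgroup G) (hD : Cfsg.IsStronglyClosed D (S : Subgroup G)) : Cfsg.HasNormalPComplement p G ↔ ∀ U : Subgroup G, U ≤ D → D ⊓ Subgroup.centralizer (U : Set G) ≤ U → Cfsg.HasNormalPComplement p ↥(Subgroup.normalizer (U : Set G)) := by
  rw [H2.hasNPC_iff_top]
  refine ⟨fun h U _ _ => H2.hasNPC_iff.2 (h.mono le_top), fun h => ?_⟩
  simp only [H2.hasNPC_iff] at h
  have hS := H2.sylIn_top S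
  have hW : ∀ U ≤ (S : Subgroup G), normalizer (U : Set G) ≤ normalizer ((U ⊓ D : Subgroup G) : Set G) :=
    fun U hU g hg => H1.mem_normalizer_of_conj_mem fun x hx =>
      mem_inf.2 ⟨H1.conj_mem_of_mem_normalizer hg hx.1,
        hD.2 x hx.2 g (hU (H1.conj_mem_of_mem_normalizer hg hx.1))⟩
  have hSD : (S : Subgroup G) ≤ normalizer (D : Set G) := by
    have := le_normalizer.trans (hW S le_rfl)
    rwa [inf_eq_right.2 hD.1] at this
  refine hS.pNil_of_ess (fun g hg hc => ?_) fun U hU => ?_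
  · have h1 := hW S le_rfl hg.2
    rw [inf_eq_right.2 hD.1] at h1
    exact (h D le_rfl inf_le_left).mem_centralizer S.2 hSD h1 hg.2 hc
  have hUS := hU.lt.le
  have hUp : IsPGroup p U := S.2.to_le hUS
  obtain ⟨W, hWd⟩ : ∃ W, W = U ⊓ D := ⟨_, rfl⟩
  have hW1 := hW U hUS
  rw [← hWd] at hW1
  have hWU : W ≤ U := hWd ▸ inf_le_left
  refine hU.not_resOf_le hS (((h W (hWd ▸ inf_le_right) ?_).mono
    (inf_le_right.trans hW1)).resOf_le_centralizer hUp (le_inf le_top le_normalizer) inf_le_right)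
  let Y : Subgroup G :=
    { carrier := {x | x ∈ normalizer (U : Set G) ∧ x ∈ centralizer (W : Set G) ∧
        ∀ u ∈ U, x * u * x⁻¹ * u⁻¹ ∈ W}
      one_mem' := ⟨one_mem _, one_mem _, fun u _ => by simp⟩
      mul_mem' := by
        rintro x y ⟨h1, h2, h3⟩ ⟨h4, h5, h6⟩
        refine ⟨mul_mem h1 h4, mul_mem h2 h5, fun u hu => ?_⟩
        have e : x * y * u * (x * y)⁻¹ * u⁻¹ =
          x * (y * u * y⁻¹ * u⁻¹) * x⁻¹ * (x * u * x⁻¹ * u⁻¹) := by group
        rw [e]
        exact mul_mem (H1.conj_mem_of_mem_normalizer (hW1 h1) (h6 u hu)) (h3 u hu)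
      inv_mem' := by
        rintro x ⟨h1, h2, h3⟩
        refine ⟨inv_mem h1, inv_mem h2, fun u hu => ?_⟩
        have e : x⁻¹ * u * x⁻¹⁻¹ * u⁻¹ = x⁻¹ * (x * u * x⁻¹ * u⁻¹)⁻¹ * x := by group
        rw [e]
        exact H1.inv_conj_mem_of_mem_normalizer (hW1 h1) (inv_mem (h3 u hu)) }
  have hY : (S : Subgroup G) ⊓ Y ≤ U := by
    refine hU.inf_le (fun x hx => mem_inf.2 ⟨mem_top x, hx.1⟩) (fun g hg => ?_) ?_
    · refine H1.mem_normalizer_of_conj_mem fun x hx => ⟨mul_mem (mul_mem hg.2 hx.1) (inv_mem hg.2),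
        H1.conj_mem_of_mem_normalizer (H1.normalizer_le_normalizer_centralizer W (hW1 hg.2)) hx.2.1,
        fun u hu => ?_⟩
      have e : g * x * g⁻¹ * u * (g * x * g⁻¹)⁻¹ * u⁻¹ =
        g * (x * (g⁻¹ * u * g) * x⁻¹ * (g⁻¹ * u * g)⁻¹) * g⁻¹ := by group
      rw [e]
      exact H1.conj_mem_of_mem_normalizer (hW1 hg.2)
        (hx.2.2 _ (H1.inv_conj_mem_of_mem_normalizer hg.2 hu))
    · rw [H2.resOf_le_iff]
      intro y hy hc
      refine H1.le_centralizer_of_chain (A := zpowers y) (N := W) ?_ ?_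
        (zpowers_le_of_mem hy.2.1) (mem_zpowers y)
      · exact (H1.coprime_card_of_isPGroup (hUp.to_le hWU) (by rwa [Nat.card_zpowers])).symm
      · rw [commutator_comm, commutator_le]
        intro z hz u hu
        exact (zpowers_le_of_mem (H := Y) hy hz).2.2 u hu
  by_contra hc
  obtain ⟨C, hC⟩ : ∃ C, C = D ⊓ centralizer (W : Set G) := ⟨_, rfl⟩
  rw [← hC] at hc
  have hCD : C ≤ D := hC ▸ inf_le_left
  have hUC : U ≤ normalizer (C : Set G) := hC ▸ H1.le_normalizer_inf (hUS.trans hSD)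
    (H1.le_normalizer_centralizer (le_normalizer.trans hW1))
  have hlt : U < U ⊔ C := lt_of_le_of_ne le_sup_left fun e =>
    hc (hWd ▸ le_inf (e ▸ le_sup_right) hCD)
  obtain ⟨x, hx, hxn, hxU⟩ := H2.exists_mem_normalizer_not_mem
    (S.2.to_le (sup_le hUS (hCD.trans hD.1))) hlt
  obtain ⟨u, hu, c, hc', rfl⟩ := (H1.mem_sup_left_norm hUC).1 hx
  have hcn : c ∈ normalizer (U : Set G) := (mul_mem_cancel_left (le_normalizer hu)).1 hxn
  refine hxU (mul_mem hu (hY (mem_inf.2 ⟨hD.1 (hCD hc'), hcn, (hC ▸ hc' : c ∈ D ⊓ _).2,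
    fun v hv => ?_⟩)))
  rw [hWd]
  refine mem_inf.2 ⟨mul_mem (H1.conj_mem_of_mem_normalizer hcn hv) (inv_mem hv), ?_⟩
  have := mul_mem (hCD hc') (H1.conj_mem_of_mem_normalizer (hSD (hUS hv)) (inv_mem (hCD hc')))
  simpa [mul_assoc] using this

end Cfsg.Agent.S3839
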