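import Cfsg.Statements.S3858
import Cfsg.Agent.GS.Basic

set_option autoImplicit false
open Cfsg

namespace Cfsg.Agent.S3858

open Cfsg.Agent.H1

section
open Subgroup Pointwise commutatorElement Cfsg.Agent.BG Cfsg.Agent.GS
open Cfsg.Agent.H2 hiding card_lt_of_lt card_lt_of_ne_top isMulCommutative_of_le isPGroup_zpowers_iff mem_of_pow_mem_of_coprime inf_eq_bot_of_cop exists_maxElem_ge Sec
open Cfsg.Agent.H8 (Op Opp Fit SN)
open Cfsg.Agent.L (FPF)
universe u

theorem norm_ne_top {G : Type u} [Group G] [Finite G] (T : Subgroup G) [T.Normal] (hT : IsSimpleGroup T)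
    (hna : ¬ IsMulCommutative T) {r : ℕ} [Fact r.Prime] (R : Sylow r G) (hR0 : (R : Subgroup G) ⊓ T ≠ ⊥) :
    𝒩 ((R : Subgroup G) ⊓ T) ≠ ⊤ := by
  intro e
  have hn : ((R : Subgroup G) ⊓ T).Normal := normal_of_top_le_normalizer e.ge
  rcases hT.eq_bot_or_eq_top_of_normal (((R : Subgroup G) ⊓ T).subgroupOf T) inferInstance with h | h
  · exact hR0 (by rw [← map_subtype_subgroupOf (inf_le_right : (R : Subgroup G) ⊓ T ≤ T), h, Subgroup.map_bot])
  · have h2 : T ≤ R := (subgroupOf_eq_top.1 h).trans inf_le_left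
    have := isSolvable_of_isPGroup (isPGroup_of_le R.isPGroup' h2)
    exact hna ⟨⟨IsSimpleGroup.comm_iff_isSolvable.2 this⟩⟩

end

/-- Let G be a finite group with a normal non-abelian simple subgroup T whose centralizer is trivial (G almost simple with socle T), r a prime and R a Sylow r-subgroup of G meeting T nontrivially. Then R lies in exactly one maximal subgroup of G if and only if G has exactly one conjugacy class of maximal subgroups whose index is prime to r. -/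
theorem result {G : Type*} [Group G] [Finite G] (T : Subgroup G) [T.Normal] (hT : IsSimpleGroup T) (hna : ¬ IsMulCommutative T)
    (hC : Subgroup.centralizer (T : Set G) = ⊥) {r : ℕ} [Fact r.Prime] (R : Sylow r G) (hR0 : (R : Subgroup G) ⊓ T ≠ ⊥) :
    (∃! M : Subgroup G, IsCoatom M ∧ (R : Subgroup G) ≤ M) ↔
      ((∃ M : Subgroup G, IsCoatom M ∧ ¬ r ∣ M.index) ∧
        ∀ M₁ M₂ : Subgroup G, IsCoatom M₁ → ¬ r ∣ M₁.index → IsCoatom M₂ → ¬ r ∣ M₂.index → ∃ g : G, M₂ = M₁.map (MulAut.conj g).toMonoidHom) := by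
  open Subgroup Pointwise commutatorElement Cfsg.Agent.BG Cfsg.Agent.GS in
  open Cfsg.Agent.H2 hiding card_lt_of_lt card_lt_of_ne_top isMulCommutative_of_le isPGroup_zpowers_iff mem_of_pow_mem_of_coprime inf_eq_bot_of_cop exists_maxElem_ge Sec in
  open Cfsg.Agent.H8 (Op Opp Fit SN) in
  open Cfsg.Agent.L (FPF) in focus
    have key : ∀ M : Subgroup G, ¬ r ∣ M.index → ∃ g, g ⋆ (R : Subgroup G) ≤ M := by
      intro M hM
      obtain ⟨P, hP⟩ := exists_sylIn r M
      have h2 : SylIn r P ⊤ := hP.trans_of_not_dvd le_top (by rwa [relIndex_top_right])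
      obtain ⟨g, -, hg⟩ := (sylIn_top R).exists_cj_eq h2
      exact ⟨g, hg ▸ hP.le⟩
    have nd : ∀ M : Subgroup G, (R : Subgroup G) ≤ M → ¬ r ∣ M.index := fun M hM => by
      have := (sylIn_top R).not_dvd_relIndex_of_le hM
      rwa [relIndex_top_right] at this
    constructor
    · rintro ⟨M, ⟨h1, h2⟩, h3⟩
      refine ⟨⟨M, h1, nd M h2⟩, fun M₁ M₂ a1 a2 b1 b2 => ?_⟩
      obtain ⟨g, hg⟩ := key M₁ a2
      obtain ⟨k, hk⟩ := key M₂ b2
      have e1 := h3 _ ⟨isCoatom_cj a1 g⁻¹, cj_le_iff.1 hg⟩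
      have e2 := h3 _ ⟨isCoatom_cj b1 k⁻¹, cj_le_iff.1 hk⟩
      refine ⟨k * g⁻¹, ?_⟩
      change M₂ = (k * g⁻¹) ⋆ M₁
      rw [cj_mul, e1, ← e2, cj_cj_inv]
    · rintro ⟨-, h⟩
      obtain ⟨M, h1, h2⟩ := exists_coatom_ge (norm_ne_top T hT hna R hR0)
      have h3 : 𝒩 (R : Subgroup G) ≤ M := (le_normalizer_inf le_rfl (le_norm_of_normal _ _)).trans h2
      have h4 := le_normalizer.trans h3
      refine ⟨M, ⟨h1, h4⟩, fun L ⟨l1, l2⟩ => ?_⟩
      obtain ⟨g, hg⟩ := h M L h1 (nd M h4) l1 (nd L l2)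
      change L = g ⋆ M at hg
      rw [hg] at l2 ⊢
      obtain ⟨m, hm, e⟩ := (sylIn_of_le R h4).exists_cj_eq (((sylIn_top R).cj_of_mem (mem_top g⁻¹)).mono (le_cj_iff.1 l2) le_top)
      have h5 : g * m ∈ M := h3 (mem_normalizer_iff_cj.2 (by rw [cj_mul, e, cj_cj_inv]))
      exact cj_eq_of_mem ((mul_mem_cancel_right hm).1 h5)

end Cfsg.Agent.S3858
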