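import Cfsg.Statements.S3859
import Cfsg.Agent.GS.Basic
import Cfsg.Agent.S3858

set_option autoImplicit false
open Cfsg

namespace Cfsg.Agent.S3859

open Cfsg.Agent.H1

/-- Let G be a finite group with a normal non-abelian simple subgroup T whose centralizer is trivial (G almost simple with socle T), r a prime and R a Sylow r-subgroup of G meeting T nontrivially. If R lies in exactly one maximal subgroup of G, then G/T is an r-group. -/
theorem result {G : Type*} [Group G] [Finite G] (T : Subgroup G) [T.Normal] (hT : IsSimpleGroup T) (hna : ¬ IsMulCommutative T)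
    (hC : Subgroup.centralizer (T : Set G) = ⊥) {r : ℕ} [Fact r.Prime] (R : Sylow r G) (hR0 : (R : Subgroup G) ⊓ T ≠ ⊥)
    (huniq : ∃! M : Subgroup G, IsCoatom M ∧ (R : Subgroup G) ≤ M) : IsPGroup r (G ⧸ T) := by
  open Subgroup Pointwise commutatorElement Cfsg.Agent.BG Cfsg.Agent.GS in
  open Cfsg.Agent.H2 hiding card_lt_of_lt card_lt_of_ne_top isMulCommutative_of_le isPGroup_zpowers_iff mem_of_pow_mem_of_coprime inf_eq_bot_of_cop exists_maxElem_ge Sec in
  open Cfsg.Agent.H8 (Op Opp Fit SN) in
  open Cfsg.Agent.L (FPF) in focus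
    obtain ⟨M, ⟨h1, h2⟩, h3⟩ := huniq
    have key : ∀ H : Subgroup G, (R : Subgroup G) ≤ H → H ≠ ⊤ → H ≤ M := fun H a b => by
      obtain ⟨L, l1, l2⟩ := exists_coatom_ge b
      exact h3 L ⟨l1, a.trans l2⟩ ▸ l2
    have h4 := key _ (le_normalizer_inf le_normalizer (le_norm_of_normal _ _)) (S3858.norm_ne_top T hT hna R hR0)
    have h5 : (R : Subgroup G) ⊔ T = ⊤ := by
      by_contra e
      have h6 := key _ le_sup_left e
      have h7 := (sylow_inf_normal R T).frattini_sup le_top (le_norm_of_normal _ _)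
      exact h1.1 (eq_top_iff.2 (h7.ge.trans (sup_le (le_sup_right.trans h6) (inf_le_right.trans h4))))
    rw [← isPGroup_top_iff, ← map_mk'_eq_top_iff.2 h5]
    exact R.isPGroup'.map _

end Cfsg.Agent.S3859
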