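import Cfsg.Statements.S3862
import Cfsg.Agent.GS.MinAct

set_option autoImplicit false
open Cfsg

namespace Cfsg.Agent.S3862

open Cfsg.Agent.H1

/-- If every 2-element of the finite group G that is conjugate to its inverse lies in the centre of G, then G has a normal 2-complement. -/
theorem result {G : Type*} [Group G] [Finite G] (h : ∀ x : G, (∃ j : ℕ, orderOf x = 2 ^ j) → IsConj x x⁻¹ → x ∈ Subgroup.center G) : Cfsg.HasNormalPComplement 2 G := by
  open Subgroup Pointwise commutatorElement Cfsg.Agent.BG Cfsg.Agent.GS in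
  open Cfsg.Agent.H2 hiding card_lt_of_lt card_lt_of_ne_top isMulCommutative_of_le isPGroup_zpowers_iff mem_of_pow_mem_of_coprime inf_eq_bot_of_cop exists_maxElem_ge Sec in
  open Cfsg.Agent.H8 (Op Opp Fit SN) in
  open Cfsg.Agent.L (FPF) in focus
    rw [hasNPC_iff_top]
    refine pNil_of_forall_centralizer fun U _ hU _ g hg hc => ?_
    refine zpowers_le.1 (le_cent_of_real hU (zpowers_le.2 hg.2) (by rwa [Nat.card_zpowers]) fun x hx _ ⟨y, _, hy⟩ => ?_)
    exact center_le_cent _ (h x (orderOf_eq_pow_of_mem hU hx) (isConj_iff.2 ⟨y, hy⟩))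

end Cfsg.Agent.S3862
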