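import Cfsg.Statements.S3864
import Mathlib
import Cfsg.Agent.H2.MCF

set_option autoImplicit false
open Cfsg

namespace Cfsg.Agent.S3864

open Cfsg.Agent.H2 Cfsg.Agent.L Subgroup

/-- Let G be a finite group whose Sylow 2-subgroups are dihedral of order 2 ^ n with n ≥ 3, and count the conjugacy classes of involutions of G. Then exactly one of the following holds: there is one class of involutions and no normal subgroup of index 2; there are two classes of involutions, a normal subgroup of index 2 and none of index 4; there are three classes of involutions and G has a normal 2-complement. -/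
theorem result {G : Type*} [Group G] [Finite G] (P : Sylow 2 G) (n : ℕ) (hn : 3 ≤ n) (hdih : Nonempty (↥(P : Subgroup G) ≃* DihedralGroup (2 ^ (n - 1)))) : (Nat.card {C : ConjClasses G // ∃ g : G, ConjClasses.mk g = C ∧ orderOf g = 2} = 1 ∧ ∀ N : Subgroup G, N.Normal → N.index ≠ 2) ∨ (Nat.card {C : ConjClasses G // ∃ g : G, ConjClasses.mk g = C ∧ orderOf g = 2} = 2 ∧ (∃ N : Subgroup G, N.Normal ∧ N.index = 2) ∧ ∀ N : Subgroup G, N.Normal → N.index ≠ 4) ∨ (Nat.card {C : ConjClasses G // ∃ g : G, ConjClasses.mk g = C ∧ orderOf g = 2} = 3 ∧ Cfsg.HasNormalPComplement 2 G) := by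
  obtain ⟨k, x, y, h, hy, -⟩ := exists_mc_of_dihedral P.2 hdih.some
    (lt_of_lt_of_le (by norm_num : 2 < 2 ^ 2) (Nat.pow_le_pow_right (by norm_num) (by omega)))
  have hS := sylIn_top P
  have hyx : y * x * (y * x) = 1 := by rw [h.yx_sq, hy, one_mul]
  have o1 : orderOf y = 2 := ord2_of hy fun e => h.nmem (e ▸ one_mem _)
  have o2 : orderOf (y * x) = 2 := ord2_of hyx fun e => h.yx_not_mem (e ▸ one_mem _)
  have h4 : (pResidual 2 G).index = 2 → ∀ N : Subgroup G, N.Normal → N.index ≠ 4 := by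
    intro h1 N _ h2
    have := index_dvd_of_le (pResidual_le_of_index (p := 2) (k := 2) h2)
    rw [h1, h2] at this; omega
  simp only [and_comm (a := ConjClasses.mk _ = _)]
  by_cases ha : Act P x y <;> by_cases hb : Act P x (y * x)
  · exact Or.inl ⟨card_classes_eq_one h.ord_z fun _ => h.isConj_of_act hS ha hb,
      fun N _ => pResidual_two_eq_top_iff.1 (h.res_eq_top hS ha hb) N⟩
  · refine Or.inr (Or.inl ⟨card_classes_eq_two h.ord_z o2 (h.swap.not_isConj_A hS hb MC.z_mem_A)
      fun t ht => ?_, ⟨_, inferInstance, h.index_res hS ha hb⟩, h4 (h.index_res hS ha hb)⟩)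
    rcases h.invol_cases hS ht with e | ⟨-, e⟩ | ⟨-, e⟩
    exacts [Or.inl e, Or.inl ((h.isConj_z ha hy).trans e), Or.inr e]
  · have h5 := h.swap.index_res hS hb (mt act_swap.1 ha)
    refine Or.inr (Or.inl ⟨card_classes_eq_two h.ord_z o1 (h.not_isConj_A hS ha MC.z_mem_A)
      fun t ht => ?_, ⟨_, inferInstance, h5⟩, h4 h5⟩)
    rcases h.invol_cases hS ht with e | ⟨-, e⟩ | ⟨-, e⟩
    exacts [Or.inl e, Or.inr e, Or.inl ((h.swap.isConj_z hb hyx).trans e)]
  · refine Or.inr (Or.inr ⟨card_classes_eq_three h.ord_z o1 o2 (h.not_isConj_A hS ha MC.z_mem_A)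
      (h.swap.not_isConj_A hS hb MC.z_mem_A) (h.not_isConj_yx hS ha) fun t ht => ?_,
      hasNPC_iff_top.2 (h.pNil hS ha hb)⟩)
    rcases h.invol_cases hS ht with e | ⟨-, e⟩ | ⟨-, e⟩
    exacts [Or.inl e, Or.inr (Or.inl e), Or.inr (Or.inr e)]

end Cfsg.Agent.S3864
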