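import Cfsg.Statements.S3867
import Cfsg.Agent.H2.Syl
import Cfsg.Agent.L.Cores

set_option autoImplicit false
open Cfsg

namespace Cfsg.Agent.S3867

open Cfsg.Agent Cfsg.Agent.H2 Subgroup
open scoped Pointwise commutatorElement

/-- Let M and N be nontrivial normal subgroups of the finite group G with M ⊓ N trivial, and let p be a prime. Writing n(X) for the number of Sylow p-subgroups of a group X, one has n(G) · n(G/MN) = n(G/M) · n(G/N). -/
theorem result {G : Type*} [Group G] [Finite G] (p : ℕ) [Fact p.Prime] (M N : Subgroup G) [M.Normal] [N.Normal] (hM : M ≠ ⊥) (hN : N ≠ ⊥) (hMN : M ⊓ N = ⊥) : Nat.card (Sylow p G) * Nat.card (Sylow p (G ⧸ (M ⊔ N))) = Nat.card (Sylow p (G ⧸ M)) * Nat.card (Sylow p (G ⧸ N)) := by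
  obtain ⟨P⟩ : Nonempty (Sylow p G) := inferInstance
  have key : ∀ (K : Subgroup G) [K.Normal], Nat.card (Sylow p (G ⧸ K)) * (Nat.card (normalizer (P.1 : Set G)) * Nat.card K) =
      Nat.card G * Nat.card ↥(normalizer (P.1 : Set G) ⊓ K) := fun K _ => by
    have hq := QuotientGroup.mk'_surjective K
    have a : normalizer ((P.1 ⊔ K : Subgroup G) : Set G) = normalizer (P.1 : Set G) ⊔ K := by
      refine le_antisymm (fun g hg => ?_) (sup_le ((le_inf le_rfl le_normalizer_of_normal).trans (normalizer_inf_normalizer_le_normalizer_sup _ _))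
        (le_sup_right.trans le_normalizer))
      obtain ⟨n, a, b⟩ := (sylIn_of_le P le_sup_left).frattini' hg
      simpa using mul_mem (mem_sup_left b : _ ∈ _ ⊔ K) (sup_le_sup_right le_normalizer K a)
    rw [Sylow.card_eq_index_normalizer (P.mapSurjective hq), ← index_comap_of_surjective _ hq, ← L.card_sup_mul_card_inf le_normalizer_of_normal,
      ← mul_assoc, mul_comm (index _), ← a, ← card_mul_index (normalizer ((P.1 ⊔ K : Subgroup G) : Set G))]
    congr 3
    refine (comap_normalizer_eq_of_surjective _ hq).trans ?_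
    rw [Sylow.coe_mapSurjective, comap_map_eq, QuotientGroup.ker_mk']
  have dec : ∀ (M N : Subgroup G) [M.Normal] [N.Normal], M ⊓ N = ⊥ → ∀ m ∈ M, ∀ n ∈ N, m * n ∈ normalizer (P.1 : Set G) →
      m ∈ normalizer (P.1 : Set G) := fun M N _ _ h m hm n hn a => mem_normalizer_fintype fun x hx => by
    have b : IsPGroup p ↥(M ⊓ (P.1 ⊔ N)) := fun u => by
      obtain ⟨y, hy, z, hz, e⟩ := mem_sup_of_normal_right.1 u.2.2
      obtain ⟨k, hk⟩ := P.2 ⟨y, hy⟩
      refine ⟨k, Subtype.ext (h.le ⟨pow_mem u.2.1 _, (QuotientGroup.eq_one_iff _).1 ?_⟩)⟩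
      rw [SubmonoidClass.coe_pow, ← e, QuotientGroup.mk_pow, QuotientGroup.mk_mul, (QuotientGroup.eq_one_iff z).2 hz, mul_one,
        ← QuotientGroup.mk_pow, show y ^ p ^ k = 1 from congrArg Subtype.val hk, QuotientGroup.mk_one]
    have c := P.is_maximal' (IsPGroup.to_sup_of_normal_right' P.2 b ((le_inf le_normalizer_of_normal (le_sup_left.trans le_normalizer)).trans
      inf_normalizer_le_normalizer_inf)) le_sup_left
    have d : m * x * m⁻¹ * x⁻¹ ∈ M ⊓ (P.1 ⊔ N) := ⟨by simpa [mul_assoc] using mul_mem hm (‹M.Normal›.conj_mem _ (inv_mem hm) x), by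
      refine mul_mem ?_ ((P.1 ⊔ N).inv_mem (mem_sup_left hx))
      have := mul_mem (normalizer_inf_normalizer_le_normalizer_sup P.1 N ⟨a, le_normalizer_of_normal (mem_top _)⟩)
        (le_normalizer (mem_sup_right (inv_mem hn)))
      rw [mul_inv_cancel_right] at this
      exact (mem_normalizer_iff.1 this x).1 (mem_sup_left hx)⟩
    have := P.1.mul_mem (c.le (mem_sup_right d)) hx
    rwa [inv_mul_cancel_right] at this
  have h : Nat.card ↥(normalizer (P.1 : Set G) ⊓ (M ⊔ N)) = Nat.card ↥(normalizer (P.1 : Set G) ⊓ M) * Nat.card ↥(normalizer (P.1 : Set G) ⊓ N) := by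
    have := L.card_sup_mul_card_inf (H := normalizer (P.1 : Set G) ⊓ M) (N := normalizer (P.1 : Set G) ⊓ N)
      (inf_le_left.trans ((le_inf le_normalizer le_normalizer_of_normal).trans inf_normalizer_le_normalizer_inf))
    rw [← inf_inf_distrib_left, hMN, inf_bot_eq, card_bot, mul_one] at this
    rw [← this]
    congr 2
    refine congrArg (fun H : Subgroup G => (H : Set G)) (le_antisymm (fun x hx => ?_) le_inf_sup)
    obtain ⟨m, hm, n, hn, rfl⟩ := mem_sup_of_normal_right.1 hx.2
    have a := dec M N hMN m hm n hn hx.1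
    exact mul_mem_sup ⟨a, hm⟩ ⟨by simpa using mul_mem (inv_mem a) hx.1, hn⟩
  have a := key M
  have b := key N
  have c := key (M ⊔ N)
  have d := L.card_sup_mul_card_inf (H := M) (N := N) le_normalizer_of_normal
  have e := (normalizer (P.1 : Set G)).index_mul_card
  rw [hMN, card_bot, mul_one] at d
  rw [← show _ = (normalizer (P.1 : Set G)).index from Sylow.card_eq_index_normalizer P] at e
  rw [h, d] at c
  refine Nat.eq_of_mul_eq_mul_right (m := Nat.card (normalizer (P.1 : Set G)) * Nat.card M * (Nat.card (normalizer (P.1 : Set G)) * Nat.card N))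
    (mul_pos (mul_pos Nat.card_pos Nat.card_pos) (mul_pos Nat.card_pos Nat.card_pos)) ?_
  rw [mul_mul_mul_comm _ _ (_ * _), mul_mul_mul_comm (Nat.card (Sylow p (G ⧸ M))), a, b, mul_mul_mul_comm (Nat.card G), mul_assoc (Nat.card G), ← c, ← e]
  ring

end Cfsg.Agent.S3867
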