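import Cfsg.Statements.S3878
import Cfsg.Agent.H3.Mackey
import Cfsg.Agent.H1.Frattini

set_option autoImplicit false
open Cfsg

namespace Cfsg.Agent.S3878

open Cfsg.Agent Subgroup
open scoped Pointwise commutatorElement
theorem fixl {p q : ℕ} (hp : p.Prime) (hq : q.Prime) (hpq : p ≠ q) (K : Subgroup (Equiv.Perm (Fin q)))
    (hK : IsPGroup p K) (c : Equiv.Perm (Fin q)) (hc : orderOf c = q)
    (hn : ∀ k ∈ K, c⁻¹ * k * c ∈ K) : K = ⊥ := by
  haveI := Fact.mk hp
  obtain ⟨x, hx⟩ := hK.nonempty_fixed_point_of_prime_not_dvd_card (Fin q) (by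
    rw [Nat.card_fin]; intro h; exact hpq ((Nat.prime_dvd_prime_iff_eq hp hq).1 h))
  have hcyc : c.IsCycle := Equiv.Perm.isCycle_of_prime_order'' (by simpa using hq) (by simpa using hc)
  have hs : c.support = Finset.univ := by
    apply Finset.eq_univ_of_card
    rw [← hcyc.orderOf, hc]; simp
  have hm : ∀ y, c y ≠ y := fun y => Equiv.Perm.mem_support.1 (hs ▸ Finset.mem_univ y)
  have key : ∀ i : ℕ, ∀ k ∈ K, k ((c ^ i) x) = (c ^ i) x := by
    intro i
    induction i with
    | zero => intro k hk; simpa using hx ⟨k, hk⟩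
    | succ i ih =>
      intro k hk
      have := ih _ (hn k hk)
      rw [pow_succ', Equiv.Perm.mul_apply]
      simp only [Equiv.Perm.mul_apply] at this
      have h2 := congrArg c this
      simpa using h2
  rw [eq_bot_iff]
  intro k hk
  rw [mem_bot]
  ext y
  obtain ⟨i, hi⟩ := hcyc.exists_pow_eq (hm x) (hm y)
  rw [← hi, key i k hk]; rfl

theorem caseA (π : Set ℕ) {r : ℕ} (hr : r.Prime) (h5 : 5 ≤ r) (hrπ : r ∉ π)
    (hlt : ∀ s, s.Prime → s < r → s ∈ π) : ¬ IsEPiGroup π (Equiv.Perm (Fin (r + 1))) := by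
  rintro ⟨H, h1, h2⟩
  have hc : Nat.card (Equiv.Perm (Fin (r + 1))) = (r + 1).factorial := by
    rw [Nat.card_perm, Nat.card_fin]
  have hd : H.index ∣ (r + 1).factorial := hc ▸ H.index_dvd_card
  have hnp : ¬ (r + 1).Prime := by
    intro h
    have := hr.eq_two_or_odd
    have := h.eq_two_or_odd
    omega
  have hu : ∀ {d}, Nat.Prime d → d ∣ H.index → d = r := by
    intro d hd' hdd
    have hle := (hd'.dvd_factorial).1 (hdd.trans hd)
    by_contra hne
    have : d ≠ r + 1 := fun h => hnp (h ▸ hd')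
    exact h2 d hd' (hlt d hd' (by omega)) hdd
  have hpow := Nat.eq_prime_pow_of_unique_prime_dvd H.index_ne_zero_of_finite hu
  generalize H.index.primeFactorsList.length = k at hpow
  have hle : H.index ≤ r := by
    rcases k with _ | _ | k
    · rw [hpow]; simp; omega
    · rw [hpow]; simp
    · exfalso
      obtain ⟨m, rfl⟩ : ∃ m, r = m + 1 := ⟨r - 1, by omega⟩
      have h3 : (m + 1) * (m + 1) ∣ (m + 1 + 1).factorial := by
        refine Dvd.dvd.trans ?_ hd
        rw [hpow, pow_succ, pow_succ, mul_assoc]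
        exact Dvd.intro_left _ rfl
      rw [Nat.factorial_succ, Nat.factorial_succ, mul_left_comm] at h3
      have h4 := Nat.dvd_of_mul_dvd_mul_left (by omega) h3
      rcases (Nat.Prime.dvd_mul hr).1 h4 with h | h
      · have := (Nat.dvd_add_right (dvd_refl (m + 1))).1 h
        have := Nat.le_of_dvd one_pos this
        omega
      · have := (hr.dvd_factorial).1 h
        omega
  by_cases hb : H.normalCore = ⊥
  · have h6 : Nat.card (Equiv.Perm (Fin (r + 1))) ≤ Nat.card (Equiv.Perm (Equiv.Perm (Fin (r + 1)) ⧸ H)) := by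
      apply Nat.card_le_card_of_injective (MulAction.toPermHom (Equiv.Perm (Fin (r + 1))) (Equiv.Perm (Fin (r + 1)) ⧸ H))
      rw [← MonoidHom.ker_eq_bot_iff, ← normalCore_eq_ker, hb]
    rw [hc, Nat.card_perm] at h6
    have h7 : (Nat.card (Equiv.Perm (Fin (r + 1)) ⧸ H)).factorial ≤ r.factorial := Nat.factorial_le hle
    have h8 : r.factorial < (r + 1).factorial := (Nat.factorial_lt (by omega)).2 (by omega)
    omega
  · have h9 := Equiv.Perm.alternatingGroup_le_of_normal (α := Fin (r + 1)) (by rw [Nat.card_fin]; omega)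
      (N := H.normalCore) ((nontrivial_iff_ne_bot _).2 hb)
    have h10 : H.index ∣ (alternatingGroup (Fin (r + 1))).index := index_dvd_of_le (h9.trans H.normalCore_le)
    haveI : Nontrivial (Fin (r + 1)) := Fin.nontrivial_iff_two_le.2 (by omega)
    rw [alternatingGroup.index_eq_two] at h10
    apply hrπ
    apply h1 r hr
    have h11 : r ∣ Nat.card H * H.index := by
      rw [H.card_mul_index, hc]; exact (hr.dvd_factorial).2 (by omega)
    rcases (Nat.Prime.dvd_mul hr).1 h11 with h | h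
    · exact h
    · have := Nat.le_of_dvd two_pos (h.trans h10)
      omega

theorem caseB (π : Set ℕ) {p q : ℕ} (hp : p.Prime) (hq : q.Prime) (hpq : p + 2 ≤ q) (hpπ : p ∈ π) (hqπ : q ∈ π)
    (hlt : ∀ s, s.Prime → s ∈ π → s ≤ q → s = p ∨ s = q) : ¬ IsEPiGroup π (Equiv.Perm (Fin q)) := by
  rintro ⟨H, h1, h2⟩
  haveI := Fact.mk hp
  haveI := Fact.mk hq
  have hc : Nat.card (Equiv.Perm (Fin q)) = q.factorial := by
    rw [Nat.card_perm, Nat.card_fin]
  have hHd : Nat.card H ∣ q.factorial := hc ▸ H.card_subgroup_dvd_card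
  have hpr : ∀ r : ℕ, r.Prime → r ∣ Nat.card H → r = p ∨ r = q := fun r hr h =>
    hlt r hr (h1 r hr h) ((hr.dvd_factorial).1 (h.trans hHd))
  have hs : Group.IsSolvable H := H3.burnside_pq hp hq hpr
  have hqH : q ∣ Nat.card H := by
    have h11 : q ∣ Nat.card H * H.index := by
      rw [H.card_mul_index, hc]; exact (hq.dvd_factorial).2 le_rfl
    exact ((Nat.Prime.dvd_mul hq).1 h11).resolve_right (h2 q hq hqπ)
  obtain ⟨c, hc0⟩ := exists_prime_orderOf_dvd_card' q hqH
  have hnt : (⊤ : Subgroup H) ≠ ⊥ := by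
    intro h
    have : c = 1 := mem_bot.1 (h ▸ mem_top c)
    rw [this, orderOf_one] at hc0
    exact hq.one_lt.ne hc0
  obtain ⟨N, r, hN, hN1, -, hr, hNr⟩ := H1.exists_normal_isPGroup_of_isSolvable (⊤ : Subgroup H) hnt inferInstance
  haveI := Fact.mk hr
  obtain ⟨k, hk⟩ := IsPGroup.iff_card.1 hNr
  have hk0 : k ≠ 0 := by
    rintro rfl
    exact hN1 (card_eq_one.1 (by simpa using hk))
  have hrN : r ∣ Nat.card N := hk ▸ dvd_pow_self r hk0
  rcases hpr r hr (hrN.trans N.card_subgroup_dvd_card) with rfl | rfl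
  · apply hN1
    have := fixl hp hq (by omega) (N.map H.subtype) (hNr.map _) (c : Equiv.Perm (Fin q))
      (by rw [orderOf_coe, hc0]) (by
        rintro _ ⟨n, hn, rfl⟩
        refine ⟨c⁻¹ * n * c, ?_, by simp⟩
        simpa using hN.conj_mem n hn c⁻¹)
    exact (map_eq_bot_iff_of_injective _ H.subtype_injective).1 this
  · obtain ⟨m, rfl⟩ : ∃ m, r = m + 2 := ⟨r - 2, by omega⟩
    have hk1 : k = 1 := by
      by_contra hne
      obtain ⟨j, rfl⟩ : ∃ j, k = j + 2 := ⟨k - 2, by omega⟩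
      have h3 : (m + 2) * (m + 2) ∣ (m + 2).factorial := by
        refine Dvd.dvd.trans ?_ (N.card_subgroup_dvd_card.trans hHd)
        rw [hk, pow_succ, pow_succ, mul_assoc]
        exact Dvd.intro_left _ rfl
      rw [Nat.factorial_succ] at h3
      have h4 := Nat.dvd_of_mul_dvd_mul_left (by omega) h3
      have := (hr.dvd_factorial).1 h4
      omega
    rw [hk1, pow_one] at hk
    haveI : IsCyclic N := isCyclic_of_prime_card hk
    obtain ⟨d, hd⟩ := exists_prime_orderOf_dvd_card' (G := N) (m + 2) hrN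
    obtain ⟨P⟩ := (inferInstance : Nonempty (Sylow p H))
    have hinj : Function.Injective ((MulAut.conjNormal (H := N)).comp (P : Subgroup H).subtype) := by
      rw [← MonoidHom.ker_eq_bot_iff, eq_bot_iff]
      intro x hx
      rw [MonoidHom.mem_ker] at hx
      have hx1 : (x : H) * (d : H) * (x : H)⁻¹ = d := by
        have := congrArg (fun f : MulAut N => ((f d : N) : H)) hx
        simpa using this
      have hx2 : ((d : H) : Equiv.Perm (Fin (m + 2)))⁻¹ * ((x : H) : Equiv.Perm (Fin (m + 2))) * ((d : H) : Equiv.Perm (Fin (m + 2))) = ((x : H) : Equiv.Perm (Fin (m + 2))) := by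
        have h5 : (d : H)⁻¹ * (x : H) * (d : H) = x := by
          calc (d : H)⁻¹ * (x : H) * (d : H) = (d : H)⁻¹ * ((x : H) * (d : H) * (x : H)⁻¹) * x := by group
            _ = x := by rw [hx1]; group
        exact_mod_cast congrArg Subtype.val h5
      have hzp : IsPGroup p (zpowers ((x : H) : Equiv.Perm (Fin (m + 2)))) := by
        have h6 : zpowers ((x : H) : Equiv.Perm (Fin (m + 2))) ≤ (P : Subgroup H).map H.subtype := by
          rw [zpowers_le]; exact ⟨x, x.2, rfl⟩
        exact (P.2.map H.subtype).to_le h6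
      have := fixl hp hq (by omega) _ hzp ((d : H) : Equiv.Perm (Fin (m + 2)))
        (by rw [orderOf_coe, orderOf_coe, hd]) (by
          rintro _ ⟨i, rfl⟩
          refine ⟨i, ?_⟩
          simp only
          conv_lhs => rw [← hx2]
          simpa using (conj_zpow (a := ((d : H) : Equiv.Perm (Fin (m + 2)))⁻¹) (b := ((x : H) : Equiv.Perm (Fin (m + 2)))) (i := i)))
      rw [zpowers_eq_bot] at this
      rw [mem_bot]
      exact Subtype.ext (Subtype.ext this)
    have h7 := card_dvd_of_injective _ hinj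
    rw [IsCyclic.card_mulAut, hk, Nat.totient_prime hq] at h7
    have h8 : p * Nat.card (P : Subgroup H) ∣ (m + 2).factorial := by
      rw [Nat.factorial_succ, Nat.factorial_succ, mul_comm p]
      exact Dvd.dvd.mul_left (mul_dvd_mul h7 ((hp.dvd_factorial).2 (by omega))) _
    rw [← hc, ← H.card_mul_index, ← (P : Subgroup H).card_mul_index, mul_comm p, mul_assoc] at h8
    have h9 := Nat.dvd_of_mul_dvd_mul_left Nat.card_pos h8
    rcases (Nat.Prime.dvd_mul hp).1 h9 with h | h
    · exact P.not_dvd_index h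
    · exact h2 p hp hpπ h

theorem DtoE (π : Set ℕ) (G : Type) [Group G] [Finite G] (h : IsDPiGroup π G) : IsEPiGroup π G := by
  obtain ⟨H, -, hH⟩ := Finite.exists_le_maximal (p := IsPiSubgroup π) (a := (⊥ : Subgroup G)) (by
    intro p hp h; simp at h; exact absurd h hp.one_lt.ne')
  refine ⟨H, hH.1, ?_⟩
  intro p hp hπ hd
  haveI := Fact.mk hp
  obtain ⟨P⟩ := (inferInstance : Nonempty (Sylow p G))
  obtain ⟨K, hPK, hK⟩ := Finite.exists_le_maximal (p := IsPiSubgroup π) (a := (P : Subgroup G)) (by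
    intro s hs h
    obtain ⟨k, hk⟩ := IsPGroup.iff_card.1 P.2
    rw [hk] at h
    rwa [(Nat.prime_dvd_prime_iff_eq hs hp).1 (hs.dvd_of_dvd_pow h)])
  obtain ⟨g, rfl⟩ := h H K hH hK
  have := index_dvd_of_le hPK
  have h2 : (H.map (MulAut.conj g).toMonoidHom).index = H.index := index_map_equiv H (MulAut.conj g)
  rw [h2] at this
  exact P.not_dvd_index (hd.trans this)

theorem conv (π : Set ℕ) (h : (∀ p q : ℕ, p.Prime → q.Prime → p ∈ π → q ∈ π → p = q) ∨ ∀ p : ℕ, p.Prime → p ∈ π)
    (G : Type) [Group G] [Finite G] : IsDPiGroup π G := by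
  intro H K hH hK
  rcases h with h | h
  · by_cases hp : ∃ p, p.Prime ∧ p ∈ π
    · obtain ⟨p, hp, hpπ⟩ := hp
      haveI := Fact.mk hp
      have e : ∀ L : Subgroup G, IsPiSubgroup π L ↔ IsPGroup p L := by
        intro L
        rw [IsPGroup.iff_card]
        constructor
        · intro hL
          exact ⟨_, Nat.eq_prime_pow_of_unique_prime_dvd Nat.card_pos.ne' fun {d} hd hdd =>
            h d p hd hp (hL d hd hdd) hpπ⟩
        · rintro ⟨k, hk⟩ s hs hd
          rw [hk] at hd
          rwa [(Nat.prime_dvd_prime_iff_eq hs hp).1 (hs.dvd_of_dvd_pow hd)]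
      obtain ⟨P, hP⟩ := ((e H).1 hH.1).exists_le_sylow
      obtain ⟨Q, hQ⟩ := ((e K).1 hK.1).exists_le_sylow
      have h1 : H = P := le_antisymm hP (hH.2 ((e _).2 P.2) hP)
      have h2 : K = Q := le_antisymm hQ (hK.2 ((e _).2 Q.2) hQ)
      obtain ⟨g, hg⟩ := MulAction.exists_smul_eq G P Q
      refine ⟨g, ?_⟩
      rw [h1, h2, ← hg]
      rfl
    · have e : ∀ L : Subgroup G, IsPiSubgroup π L → L = ⊥ := by
        intro L hL
        by_contra hne
        obtain ⟨p, hp', hd⟩ := Nat.exists_prime_and_dvd (fun h => hne (card_eq_one.1 h))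
        exact hp ⟨p, hp', hL p hp' hd⟩
      refine ⟨1, ?_⟩
      rw [e H hH.1, e K hK.1, Subgroup.map_bot]
  · have e : ∀ L : Subgroup G, Maximal (IsPiSubgroup π) L → L = ⊤ := fun L hL =>
      top_le_iff.1 (hL.2 (fun p hp _ => h p hp) le_top)
    refine ⟨1, ?_⟩
    rw [e H hH, e K hK, map_top_of_surjective _ (MulAut.conj (1 : G)).surjective]

theorem main (π : Set ℕ) (h : ∀ (G : Type) [Group G] [Finite G], Cfsg.IsEPiGroup π G) :
    (∀ p q : ℕ, p.Prime → q.Prime → p ∈ π → q ∈ π → p = q) ∨ ∀ p : ℕ, p.Prime → p ∈ π := by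
  classical
  by_contra hc
  push Not at hc
  obtain ⟨⟨a, b, ha, hb, haπ, hbπ, hab⟩, r0, hr0⟩ := hc
  have e1 : ∃ p, p.Prime ∧ p ∈ π := ⟨a, ha, haπ⟩
  have hp := Nat.find_spec e1
  have hpm : ∀ s, s.Prime → s ∈ π → Nat.find e1 ≤ s := fun s h1 h2 => Nat.find_min' e1 ⟨h1, h2⟩
  generalize Nat.find e1 = p at hp hpm
  have e2 : ∃ q, q.Prime ∧ q ∈ π ∧ q ≠ p := by
    by_cases h : a = p
    · exact ⟨b, hb, hbπ, fun h' => hab (h.trans h'.symm)⟩
    · exact ⟨a, ha, haπ, h⟩
  have hq := Nat.find_spec e2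
  have hqm : ∀ s, s.Prime → s ∈ π → s ≠ p → Nat.find e2 ≤ s := fun s h1 h2 h3 => Nat.find_min' e2 ⟨h1, h2, h3⟩
  generalize Nat.find e2 = q at hq hqm
  have hpq := hpm q hq.1 hq.2.1
  by_cases h2 : p + 2 ≤ q
  · refine caseB π hp.1 hq.1 h2 hp.2 hq.2.1 ?_ (h _)
    intro s h1 h3 h4
    by_cases h5 : s = p
    · exact Or.inl h5
    · exact Or.inr (le_antisymm h4 (hqm s h1 h3 h5))
  · have h3 := hp.1.eq_two_or_odd
    have h4 := hq.1.eq_two_or_odd
    have h5 := hq.2.2
    have h6 := hp.1.two_le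
    obtain rfl : p = 2 := by omega
    obtain rfl : q = 3 := by omega
    have e3 : ∃ r, r.Prime ∧ r ∉ π := ⟨r0, hr0⟩
    have hr := Nat.find_spec e3
    have hrm : ∀ s, s.Prime → s < Nat.find e3 → s ∈ π := fun s h1 h2 => by
      by_contra h3
      exact Nat.find_min e3 h2 ⟨h1, h3⟩
    generalize Nat.find e3 = r at hr hrm
    refine caseA π hr.1 ?_ hr.2 hrm (h _)
    have h7 : r ≠ 2 := fun h => hr.2 (h ▸ hp.2)
    have h8 : r ≠ 3 := fun h => hr.2 (h ▸ hq.2.1)
    have h9 := hr.1.eq_two_or_odd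
    have h10 := hr.1.two_le
    omega

/-- For a set of primes π the following are equivalent: every finite group has a Hall π-subgroup; in every finite group the maximal π-subgroups are pairwise conjugate; π contains at most one prime or contains every prime. -/
theorem result (π : Set ℕ) :
    ((∀ (G : Type) [Group G] [Finite G], Cfsg.IsEPiGroup π G) ↔
      ((∀ p q : ℕ, p.Prime → q.Prime → p ∈ π → q ∈ π → p = q) ∨ ∀ p : ℕ, p.Prime → p ∈ π)) ∧
    ((∀ (G : Type) [Group G] [Finite G], Cfsg.IsDPiGroup π G) ↔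
      ((∀ p q : ℕ, p.Prime → q.Prime → p ∈ π → q ∈ π → p = q) ∨ ∀ p : ℕ, p.Prime → p ∈ π)) := by
  exact ⟨⟨main π, fun h G _ _ => DtoE π G (conv π h G)⟩,
    ⟨fun h => main π fun G _ _ => DtoE π G (h G), fun h G _ _ => conv π h G⟩⟩

end Cfsg.Agent.S3878
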