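import Cfsg.Statements.S3881
import Cfsg.Agent.H8.Meta

set_option autoImplicit false
open Cfsg

namespace Cfsg.Agent.S3881

open Subgroup hiding commutator_def
open Function Cfsg.Agent.Hopf Cfsg.Agent.Reg
open scoped commutatorElement


/-- Let p be an odd prime and G a finite metacyclic p-group (G has a cyclic normal subgroup with cyclic quotient). Suppose G is non-abelian with |G'| = p^n. Then for 1 ≤ i ≤ n the number of elements of G whose conjugacy class has exactly p^i elements is |Z(G)| · (p^(2i) − p^(2i−2)). -/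
theorem result {G : Type*} [Group G] [Finite G] {p : ℕ} [Fact p.Prime] (hp : p ≠ 2) (hG : IsPGroup p G) (hmc : Cfsg.IsMetacyclic G) (n : ℕ) (hn : n ≠ 0) (hGn : Nat.card ↥(commutator G) = p ^ n) (i : ℕ) (hi : 1 ≤ i) (hin : i ≤ n) :
    Nat.card {g : G // (Subgroup.centralizer ({g} : Set G)).index = p ^ i} =
      Nat.card ↥(Subgroup.center G) * (p ^ (2 * i) - p ^ (2 * i - 2)) := by
  obtain ⟨i, rfl⟩ : ∃ j, i = j + 1 := ⟨i - 1, by omega⟩
  obtain ⟨A, h1, -, h2⟩ := meta_Om hp hG hmc (s := n - (i + 1)) (t := i + 1) hGn (by omega)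
  obtain ⟨B, h3, -, h4⟩ := meta_Om hp hG hmc (s := n - i) (t := i) hGn (by omega)
  have h := meta_r1 hp hG hmc
  have e : ∀ k (W : Subgroup (G ⧸ center G)), (∀ x, x ∈ W ↔ x ^ p ^ k = 1) → ∀ g : G,
      g ∈ W.comap (QuotientGroup.mk' _) ↔ (centralizer ({g} : Set G)).index ≤ p ^ k := fun k W hW g => by
    rw [h.index_cent (meta_der hmc), mem_comap, hW, ← map_pow, QuotientGroup.mk'_apply, QuotientGroup.eq_one_iff]
  have h5 : {g : G | (centralizer ({g} : Set G)).index = p ^ (i + 1)} =
      (A.comap (QuotientGroup.mk' _) : Set G) \ B.comap (QuotientGroup.mk' _) := by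
    ext g
    obtain ⟨k, hk⟩ := hG.index (centralizer ({g} : Set G))
    simp only [Set.mem_setOf_eq, Set.mem_diff, SetLike.mem_coe, e _ A h1, e _ B h3, hk,
      Nat.pow_le_pow_iff_right (Fact.out : p.Prime).one_lt, Nat.pow_right_inj (Fact.out : p.Prime).one_lt]
    omega
  change Set.ncard {g : G | (centralizer ({g} : Set G)).index = p ^ (i + 1)} = _
  rw [h5, Set.ncard_diff (fun g hg => (e _ A h1 g).2 (((e _ B h3 g).1 hg).trans
    (Nat.pow_le_pow_right (Fact.out : p.Prime).pos (Nat.le_succ i))))]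
  change Nat.card (A.comap (QuotientGroup.mk' _)) - Nat.card (B.comap (QuotientGroup.mk' _)) = _
  rw [H1.card_comap_mk', H1.card_comap_mk', h2, h4, Nat.mul_sub, show 2 * (i + 1) - 2 = 2 * i by omega]

end Cfsg.Agent.S3881
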