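import Cfsg.Statements.S3883
import Cfsg.Agent.H8.Meta

set_option autoImplicit false
open Cfsg

namespace Cfsg.Agent.S3883

open Subgroup hiding commutator_def
open Function Cfsg.Agent.Hopf Cfsg.Agent.Reg
open scoped commutatorElement


/-- Let p be an odd prime and G a finite metacyclic p-group (G has a cyclic normal subgroup with cyclic quotient). Suppose G is non-abelian. Then an element g of G lies outside the Frattini subgroup if and only if its centralizer C_G(g) is abelian. -/
theorem result {G : Type*} [Group G] [Finite G] {p : ℕ} [Fact p.Prime] (hp : p ≠ 2) (hG : IsPGroup p G) (hmc : Cfsg.IsMetacyclic G) (hna : ¬ IsMulCommutative G) (g : G) :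
    g ∉ frattini G ↔ IsMulCommutative ↥(Subgroup.centralizer ({g} : Set G)) := by
  have hp' : p.Prime := Fact.out
  obtain ⟨n, hn⟩ := IsPGroup.iff_card.1 (hG.to_subgroup (_root_.commutator G))
  obtain ⟨n, rfl⟩ : ∃ m, n = m + 1 := Nat.exists_eq_succ_of_ne_zero (by
    rintro rfl; exact hna (comm_iff_der.2 (card_eq_one.1 hn)))
  have h1 : frattini G = Pw (p ^ 1) ⊤ := by
    rw [pow_one]
    exact le_antisymm (H1.frattini_le_of_elementary hp' (meta_der_le hG hmc) fun x => pow_mem_Pw (mem_top x))
      (Pw_le_iff.2 fun x _ => H1.pow_mem_frattini hG x)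
  rw [h1, meta_mem_Pw hp hG hmc (t := n) hn (by omega), meta_comm_iff hp hG hmc]
  obtain ⟨a, ha⟩ := hG.index (centralizer ({g} : Set G))
  obtain ⟨b, hb⟩ := hG.index (_root_.commutator G)
  obtain ⟨c, hc⟩ := IsPGroup.iff_card.1 (hG.to_subgroup (centralizer ({g} : Set G)))
  have h2 := (centralizer ({g} : Set G)).card_mul_index
  rw [← (_root_.commutator G).card_mul_index, ha, hb, hc, hn, ← pow_add, ← pow_add, Nat.pow_right_inj hp'.one_lt] at h2
  rw [ha, hb, hc, Nat.pow_le_pow_iff_right hp'.one_lt, Nat.pow_le_pow_iff_right hp'.one_lt]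
  omega

end Cfsg.Agent.S3883
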