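import Cfsg.Statements.S3897
import Cfsg.Agent.C3.Kp

set_option autoImplicit false
open Cfsg

namespace Cfsg.Agent.S3897

open H2 C3 Subgroup

/-- Let p be an odd prime and G a finite group with Sylow p-subgroup P, and write k_p(G) for the number of conjugacy classes of G consisting of p-elements (elements of p-power order, the identity included). Then k_p(G) > (p + 1)|P|/(2p) if and only if G has a normal p-complement and P is abelian. -/
theorem result {G : Type*} [Group G] [Finite G] {p : ℕ} [Fact p.Prime] (hp : p ≠ 2) (P : Sylow p G) :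
    (p + 1) * Nat.card ↥(P : Subgroup G) < 2 * p * Nat.card {c : ConjClasses G // ∀ x ∈ c.carrier, ∃ k : ℕ, orderOf x = p ^ k} ↔
      Cfsg.HasNormalPComplement p G ∧ IsMulCommutative ↥(P : Subgroup G) := by
  have hS := sylIn_top P
  rw [kp_eq_carrier Fact.out, hasNPC_iff_top]
  refine ⟨fun h => ?_, fun ⟨h1, h2⟩ => ?_⟩
  · have h1 := normalizer_le_of_kp hS h
    exact ⟨hS.pNil_of_normalizer_le (inf_le_right.trans h1), ⟨⟨fun x y => Subtype.ext
      (mem_centralizer_iff.1 (h1 (le_normalizer y.2)) x x.2)⟩⟩⟩
  · rw [kp_eq_of_pNil hS h1, card_classes_of_comm fun x y => h2.is_comm.comm x y]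
    have := (Fact.out : p.Prime).two_le
    exact Nat.mul_lt_mul_of_pos_right (by omega) Nat.card_pos

end Cfsg.Agent.S3897
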