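import Cfsg.Statements.S3898
import Cfsg.Agent.C3.Kp

set_option autoImplicit false
open Cfsg

namespace Cfsg.Agent.S3898

open H2 C3 Subgroup

/-- Let π be a finite set of primes containing 2 and G a finite group. Write k_π(G) for the number of conjugacy classes of G consisting of π-elements (elements all of whose order's prime divisors lie in π) and |G|_π for the π-part of the order of G. If k_π(G) > |G|_π/2, then G has a normal π-complement (a normal subgroup of order prime to π whose index is a π-number) and an abelian Hall subgroup for the set of odd primes in π. -/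
theorem result {G : Type*} [Group G] [Finite G] (π : Finset ℕ) (hπ : ∀ r ∈ π, r.Prime) (h2 : 2 ∈ π)
    (hk : π.prod (fun r => r ^ (Nat.card G).factorization r) < 2 * Nat.card {c : ConjClasses G // ∀ x ∈ c.carrier, ∀ r : ℕ, r.Prime → r ∣ orderOf x → r ∈ π}) :
    (∃ N : Subgroup G, N.Normal ∧ (∀ r : ℕ, r.Prime → r ∣ Nat.card ↥N → r ∉ π) ∧ ∀ r : ℕ, r.Prime → r ∣ N.index → r ∈ π) ∧ ∃ H : Subgroup G, Cfsg.IsPiHall ((↑π : Set ℕ) \ {2}) H ∧ IsMulCommutative ↥H := by
  classical
  have hk' : 1 * π.prod (fun r => r ^ (Nat.card G).factorization r) < 2 * GS.kpi π G := by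
    rw [← kpi_eq_carrier, one_mul]; exact hk
  have k0 : ∀ q ∈ π, ∃ S : Subgroup G, SylIn q S ⊤ ∧ Nat.card S < 2 * GS.kpi {q} G := by
    intro q hq
    have := Fact.mk (hπ q hq)
    obtain ⟨S, hS⟩ := exists_sylIn q (⊤ : Subgroup G)
    have h1 := kpi_le_keep hπ (Finset.singleton_subset_iff.2 hq) hk'
    rw [Finset.prod_singleton, Finset.coe_singleton, ← card_top (G := G), ← hS.card_eq_pow, one_mul] at h1
    exact ⟨S, hS, h1⟩
  obtain ⟨T, hT, hT'⟩ := k0 2 h2
  have k2 := pNil_two_of_kp hT hT'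
  have key : ∀ q ∈ π, PNil q (⊤ : Subgroup G) := by
    intro q hq
    rcases eq_or_ne q 2 with rfl | hne
    · exact k2
    have := Fact.mk (hπ q hq)
    obtain ⟨S, hS, hS'⟩ := k0 q hq
    have h1 := kpi_le_keep hπ (ρ := {2, q}) (by intro x hx; simp at hx; rcases hx with rfl | rfl <;> assumption) hk'
    rw [Finset.prod_pair hne.symm, one_mul, Finset.coe_pair] at h1
    exact pNil_odd_of_kpi hne k2 hS hS' h1
  obtain ⟨N, h3, h4, h5, -⟩ := exists_pi_complement π hπ key
  refine ⟨⟨N, h3, h4, h5⟩, ?_⟩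
  rw [← Finset.coe_erase]
  refine exists_comm_hall _ (fun r hr => hπ r (Finset.mem_of_mem_erase hr))
    (fun r hr => key r (Finset.mem_of_mem_erase hr)) fun q hq => ?_
  have := Fact.mk (hπ q (Finset.mem_of_mem_erase hq))
  obtain ⟨S, hS, hS'⟩ := k0 q (Finset.mem_of_mem_erase hq)
  exact ⟨S, hS, comm_of_kp (Finset.ne_of_mem_erase hq) hS hS'⟩

end Cfsg.Agent.S3898
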