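import Cfsg.Statements.S3899
import Cfsg.Agent.C3.Kp

set_option autoImplicit false
open Cfsg

namespace Cfsg.Agent.S3899

open H2 C3 Subgroup

/-- Let π be a finite non-empty set of odd primes with smallest member p and G a finite group. Write k_π(G) for the number of conjugacy classes of G consisting of π-elements (elements all of whose order's prime divisors lie in π) and |G|_π for the π-part of the order of G. If k_π(G) > (p + 1)|G|_π/(2p), then G has a normal π-complement (a normal subgroup of order prime to π whose index is a π-number) and an abelian Hall π-subgroup. -/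
theorem result {G : Type*} [Group G] [Finite G] (π : Finset ℕ) (hπ : ∀ r ∈ π, r.Prime) (h2 : 2 ∉ π) (p : ℕ) (hp : p ∈ π)
    (hmin : ∀ r ∈ π, p ≤ r) (hk : (p + 1) * π.prod (fun r => r ^ (Nat.card G).factorization r) < 2 * p * Nat.card {c : ConjClasses G // ∀ x ∈ c.carrier, ∀ r : ℕ, r.Prime → r ∣ orderOf x → r ∈ π}) :
    (∃ N : Subgroup G, N.Normal ∧ (∀ r : ℕ, r.Prime → r ∣ Nat.card ↥N → r ∉ π) ∧ ∀ r : ℕ, r.Prime → r ∣ N.index → r ∈ π) ∧ ∃ H : Subgroup G, Cfsg.IsPiHall (↑π : Set ℕ) H ∧ IsMulCommutative ↥H := by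
  have hk' : (p + 1) * π.prod (fun r => r ^ (Nat.card G).factorization r) < 2 * p * GS.kpi π G := by
    rw [← kpi_eq_carrier]; exact hk
  have key : ∀ q ∈ π, PNil q (⊤ : Subgroup G) ∧ ∃ S : Subgroup G, SylIn q S ⊤ ∧ S ≤ centralizer (S : Set G) := by
    intro q hq
    have := Fact.mk (hπ q hq)
    obtain ⟨S, hS⟩ := exists_sylIn q (⊤ : Subgroup G)
    have h1 := kpi_le_keep hπ (Finset.singleton_subset_iff.2 hq) hk'
    rw [Finset.prod_singleton, Finset.coe_singleton, ← card_top (G := G), ← hS.card_eq_pow] at h1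
    have h3 := hmin q hq
    have h4 := (hπ p hp).pos
    have h5 := normalizer_le_of_kp hS (by
      refine Nat.lt_of_mul_lt_mul_left (a := p) ?_
      have h6 : p * (q + 1) ≤ q * (p + 1) := by nlinarith
      calc p * ((q + 1) * Nat.card S) ≤ q * ((p + 1) * Nat.card S) := by
            rw [← mul_assoc, ← mul_assoc]; exact Nat.mul_le_mul_right _ h6
        _ < q * (2 * p * GS.kpi {q} G) := Nat.mul_lt_mul_of_pos_left h1 (by omega)
        _ = _ := by ring)
    exact ⟨hS.pNil_of_normalizer_le (inf_le_right.trans h5), S, hS, le_normalizer.trans h5⟩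
  obtain ⟨N, h3, h4, h5, -⟩ := exists_pi_complement π hπ fun q hq => (key q hq).1
  exact ⟨⟨N, h3, h4, h5⟩, exists_comm_hall π hπ (fun q hq => (key q hq).1) fun q hq => (key q hq).2⟩

end Cfsg.Agent.S3899
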