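import Cfsg.Statements.S3908
import Cfsg.Agent.H8.Misc
import Cfsg.Agent.L.PCyc2

set_option autoImplicit false
open Cfsg

namespace Cfsg.Agent.S3908

open Subgroup hiding commutator_def
open Function Cfsg.Agent.Hopf Cfsg.Agent.Reg
open scoped commutatorElement Pointwise

theorem aux {G : Type*} [Group G] [Finite G] (hB : ∀ A B : Subgroup G, IsMulCommutative ↥A → IsMulCommutative ↥B → Nat.card ↥A = Nat.card ↥B → ∃ g : G, B = A.map (MulAut.conj g).toMonoidHom) {p : ℕ} [hp : Fact p.Prime] (P : Sylow p G) :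
    (∀ x ∈ (P : Subgroup G), x ^ p = 1) ∨ IsCyclic (P : Subgroup G) ∨
      (p = 2 ∧ ∃ n : ℕ, 1 ≤ n ∧ Nonempty ((P : Subgroup G) ≃* QuaternionGroup (2 ^ n))) := by
  have hp := hp.out
  rw [or_iff_not_imp_left]
  intro h
  push Not at h
  obtain ⟨x, hx, hx1⟩ := h
  refine L.isCyclic_or_quaternion_of_rank_one P.2 fun E hE hE2 => ?_
  obtain ⟨k, hk⟩ := H2.orderOf_eq_pow_of_mem P.2 hx
  have h2 : 2 ≤ k := by
    by_contra hc
    refine hx1 (orderOf_dvd_iff_pow_eq_one.1 ?_)
    rw [hk]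
    simpa using pow_dvd_pow p (show k ≤ 1 by omega)
  have h3 : orderOf (x ^ p ^ (k - 2)) = p ^ 2 := by
    rw [orderOf_pow, hk, Nat.gcd_eq_right (pow_dvd_pow p (by omega)), Nat.pow_div (by omega) hp.pos]
    congr 1; omega
  haveI := hE.1
  obtain ⟨g, hg⟩ := hB (E.map (P : Subgroup G).subtype) (zpowers (x ^ p ^ (k - 2)))
    inferInstance inferInstance (by rw [H1.card_map_subtype, hE2, Nat.card_zpowers, h3])
  have := mem_zpowers (x ^ p ^ (k - 2))
  rw [hg] at this
  obtain ⟨_, ⟨b, hb, rfl⟩, e⟩ := this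
  have h4 : (x ^ p ^ (k - 2)) ^ p = 1 := by
    rw [← e, ← map_pow, ← map_pow, hE.2 b hb, map_one, map_one]
  have := Nat.le_of_dvd hp.pos (orderOf_dvd_of_pow_eq_one h4)
  rw [h3] at this
  nlinarith [hp.one_lt]

/-- Let G be a finite group in which any two abelian subgroups of the same order are conjugate. Then a Sylow 2-subgroup of G is cyclic, elementary abelian or generalized quaternion, and for an odd prime p a Sylow p-subgroup of G is cyclic or has exponent dividing p. -/
theorem result {G : Type*} [Group G] [Finite G] (hB : ∀ A B : Subgroup G, IsMulCommutative ↥A → IsMulCommutative ↥B → Nat.card ↥A = Nat.card ↥B → ∃ g : G, B = A.map (MulAut.conj g).toMonoidHom) :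
    (∀ P : Sylow 2 G, IsCyclic ↥(P : Subgroup G) ∨ Cfsg.IsElementaryAbelian 2 (P : Subgroup G) ∨ ∃ k : ℕ, Nonempty (↥(P : Subgroup G) ≃* QuaternionGroup (2 ^ k))) ∧
    ∀ (p : ℕ) [Fact p.Prime], p ≠ 2 → ∀ P : Sylow p G, IsCyclic ↥(P : Subgroup G) ∨ ∀ x ∈ (P : Subgroup G), x ^ p = 1 := by
  refine ⟨fun P => ?_, fun p _ hp P => ?_⟩
  · rcases aux hB P with h | h | ⟨-, n, -, h⟩
    · refine Or.inr (Or.inl ⟨H1.isMulCommutative_of_forall fun x hx y hy => ?_, h⟩)
      have h1 := h _ (mul_mem hx hy)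
      have h2 := h x hx
      have h3 := h y hy
      rw [sq] at h1 h2 h3
      calc x * y = x * (x * y * (x * y)) * y := by rw [h1, mul_one]
        _ = (x * x) * y * x * (y * y) := by group
        _ = y * x := by rw [h2, h3]; simp
    · exact Or.inl h
    · exact Or.inr (Or.inr ⟨n, h⟩)
  · rcases aux hB P with h | h | ⟨h, -⟩
    · exact Or.inr h
    · exact Or.inl h
    · exact absurd h hp

end Cfsg.Agent.S3908
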