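import Cfsg.Statements.S3909
import Cfsg.Agent.H8.Misc

set_option autoImplicit false
open Cfsg

namespace Cfsg.Agent.S3909

open Subgroup hiding commutator_def
open Function Cfsg.Agent.Hopf Cfsg.Agent.Reg
open scoped commutatorElement Pointwise


/-- Let G be a finite group in which any two abelian subgroups of the same order are conjugate. Let M be a normal subgroup of G. If M contains an element of the same order as a ∈ G, then a ∈ M; and if M is elementary abelian of order p^t with p prime and t ≥ 2, then M is the unique Sylow p-subgroup of G. -/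
theorem result {G : Type*} [Group G] [Finite G] (hB : ∀ A B : Subgroup G, IsMulCommutative ↥A → IsMulCommutative ↥B → Nat.card ↥A = Nat.card ↥B → ∃ g : G, B = A.map (MulAut.conj g).toMonoidHom) (M : Subgroup G) [M.Normal] :
    (∀ a : G, (∃ m ∈ M, orderOf m = orderOf a) → a ∈ M) ∧
    ∀ (p t : ℕ) [Fact p.Prime], 2 ≤ t → Nat.card ↥M = p ^ t → Cfsg.IsElementaryAbelian p M → ∀ P : Sylow p G, (P : Subgroup G) = M := by
  have h1 : ∀ a : G, (∃ m ∈ M, orderOf m = orderOf a) → a ∈ M := by
    rintro a ⟨m, hm, e⟩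
    obtain ⟨g, hg⟩ := hB (zpowers m) (zpowers a) inferInstance inferInstance (by simp [e])
    have : a ∈ zpowers a := mem_zpowers a
    rw [hg] at this
    exact H2.cj_le_of_le (g := g) (K := ⊤) le_top (mem_top g) this |> fun _ => by
      obtain ⟨b, hb, rfl⟩ := this
      exact ‹M.Normal›.conj_mem _ (zpowers_le_of_mem hm hb) g
  refine ⟨h1, fun p t _ ht hM hE P => ?_⟩
  have hp : p.Prime := Fact.out
  refine le_antisymm (fun x hx => ?_) ((IsPGroup.of_card hM).le_sylow_of_normal P)
  obtain ⟨k, hk⟩ := H2.orderOf_eq_pow_of_mem P.2 hx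
  by_cases h2 : k ≤ 1
  · refine h1 x ?_
    interval_cases k
    · exact ⟨1, one_mem _, by simpa using hk.symm⟩
    · obtain ⟨m, hm, e⟩ := H1.exists_mem_orderOf_eq_prime hp
        (hM ▸ dvd_pow_self p (by omega) : p ∣ Nat.card M)
      exact ⟨m, hm, by rw [e, hk, pow_one]⟩
  · exfalso
    obtain ⟨E, hE2⟩ := Sylow.exists_subgroup_card_pow_prime (G := M) p (n := 2)
      (hM ▸ pow_dvd_pow p ht)
    have h3 : orderOf (x ^ p ^ (k - 2)) = p ^ 2 := by
      rw [orderOf_pow, hk, Nat.gcd_eq_right (pow_dvd_pow p (by omega)), Nat.pow_div (by omega) hp.pos]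
      congr 1; omega
    haveI := hE.1
    obtain ⟨g, hg⟩ := hB (E.map M.subtype) (zpowers (x ^ p ^ (k - 2)))
      (H1.isMulCommutative_of_le (map_subtype_le E)) inferInstance
      (by rw [H1.card_map_subtype, hE2, Nat.card_zpowers, h3])
    have := mem_zpowers (x ^ p ^ (k - 2))
    rw [hg] at this
    obtain ⟨b, hb, e⟩ := this
    have h4 : (x ^ p ^ (k - 2)) ^ p = 1 := by
      rw [← e, ← map_pow, hE.2 b (map_subtype_le E hb), map_one]
    have := Nat.le_of_dvd hp.pos (orderOf_dvd_of_pow_eq_one h4)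
    rw [h3] at this
    nlinarith [hp.one_lt]

end Cfsg.Agent.S3909
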