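import Cfsg.Statements.S3910
import Cfsg.Agent.H8.Ito
import Cfsg.Agent.L.PCyc2

set_option autoImplicit false
open Cfsg

namespace Cfsg.Agent.S3910

open Subgroup hiding commutator_def
open Function Cfsg.Agent.Hopf Cfsg.Agent.Reg
open scoped commutatorElement Pointwise


/-- A finite nilpotent group in which any two abelian subgroups of the same order are conjugate is cyclic. -/
theorem result {G : Type*} [Group G] [Finite G] (hB : ∀ A B : Subgroup G, IsMulCommutative ↥A → IsMulCommutative ↥B → Nat.card ↥A = Nat.card ↥B → ∃ g : G, B = A.map (MulAut.conj g).toMonoidHom) (hnil : Group.IsNilpotent G) : IsCyclic G := by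
  haveI : IsZGroup G := by
    constructor
    intro p hp P
    haveI := Fact.mk hp
    -- subgroups of equal order in P which are abelian, one of them normal in G, coincide
    have key : ∀ A B : Subgroup G, IsMulCommutative A → IsMulCommutative B → A.Normal →
        Nat.card A = Nat.card B → B = A := by
      intro A B hA hB' hn h
      obtain ⟨g, rfl⟩ := hB A B hA hB' h
      exact hn.conj_smul_eq_self g
    have hnorm : ∀ A : Subgroup (P : Subgroup G), A.Normal → (A.map (P : Subgroup G).subtype).Normal := by
      intro A hA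
      rw [← normalizer_eq_top_iff, eq_top_iff, ← H2.pResidual_sup_sylow P, sup_le_iff]
      refine ⟨?_, H1.le_normalizer_map_subtype_of_normal _ A⟩
      refine le_trans ?_ (centralizer_le_normalizer _)
      rw [H2.pResidual_le_iff]
      rintro g hg _ ⟨u, -, rfl⟩
      obtain ⟨k, hk⟩ := P.isPGroup' u
      exact H1.commute_of_isNilpotent_of_coprime (K := ⊤) inferInstance (mem_top _) (mem_top _)
        (cop_of_pow (congrArg Subtype.val hk) hg)
    have key2 : ∀ A B : Subgroup (P : Subgroup G), IsMulCommutative A → IsMulCommutative B → A.Normal →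
        Nat.card A = Nat.card B → B = A := by
      intro A B hA hB' hn h
      apply map_injective (subtype_injective _)
      refine key _ _ inferInstance inferInstance (hnorm A hn) ?_
      rw [card_map_of_injective (subtype_injective _), card_map_of_injective (subtype_injective _), h]
    have hcomm : ∀ A : Subgroup (P : Subgroup G), Nat.card A = p → IsMulCommutative A := fun A hA => by
      haveI := isCyclic_of_prime_card hA; infer_instance
    rcases L.isCyclic_or_quaternion_of_unique P.isPGroup' (fun H K hH hK => by
      haveI : Nontrivial (P : Subgroup G) := by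
        by_contra h
        rw [not_nontrivial_iff_subsingleton] at h
        rw [Subsingleton.elim H ⊥, card_bot] at hH
        exact hp.one_lt.ne hH
      haveI := P.isPGroup'.center_nontrivial
      obtain ⟨z, hz⟩ := exists_prime_orderOf_dvd_card' (G := center (P : Subgroup G)) p (by
        obtain ⟨k, hk⟩ := IsPGroup.iff_card.1 (P.isPGroup'.to_subgroup (center _))
        rw [hk]
        refine dvd_pow_self p ?_
        rintro rfl
        exact Finite.one_lt_card.ne' (hk.trans (pow_zero p)))
      have h1 : Nat.card (zpowers z.1) = p := by rw [Nat.card_zpowers, Subgroup.orderOf_coe, hz]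
      have h2 : (zpowers z.1).Normal := ⟨fun u hu g => by
        rw [mem_center_iff.1 (zpowers_le.2 z.2 hu) g]; simpa using hu⟩
      rw [key2 _ H (hcomm _ h1) (hcomm _ hH) h2 (h1.trans hH.symm),
        key2 _ K (hcomm _ h1) (hcomm _ hK) h2 (h1.trans hK.symm)]) with h | ⟨rfl, n, hn, ⟨e⟩⟩
    · exact h
    · exfalso
      obtain ⟨k, rfl⟩ : ∃ k, n = k + 1 := ⟨n - 1, by omega⟩
      haveI : NeZero (2 ^ (k + 1)) := ⟨by positivity⟩
      have key3 : ∀ A B : Subgroup (QuaternionGroup (2 ^ (k + 1))), IsMulCommutative A →
          IsMulCommutative B → A.Normal → Nat.card A = Nat.card B → B = A := by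
        intro A B hA hB' hn h
        apply map_injective (f := e.symm.toMonoidHom) e.symm.injective
        refine key2 _ _ inferInstance inferInstance (hn.map _ e.symm.surjective) ?_
        rw [card_map_of_injective e.symm.injective, card_map_of_injective e.symm.injective, h]
      have h1 : orderOf (QuaternionGroup.a ((2 ^ k : ℕ) : ZMod (2 * 2 ^ (k + 1)))) = 4 := by
        rw [QuaternionGroup.orderOf_a, ZMod.val_natCast, Nat.mod_eq_of_lt (by
          have := Nat.two_pow_pos k; omega), Nat.gcd_eq_right ⟨4, by ring⟩,
          (by ring : 2 * 2 ^ (k + 1) = 4 * 2 ^ k), Nat.mul_div_cancel _ (Nat.two_pow_pos k)]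
      have h2 := key3 (zpowers (QuaternionGroup.a ((2 ^ k : ℕ) : ZMod (2 * 2 ^ (k + 1)))))
        (zpowers (QuaternionGroup.xa 0)) inferInstance inferInstance (by
          constructor
          rintro _ ⟨j, rfl⟩ g
          rw [← conj_zpow]
          apply zpow_mem
          rcases g with i | i
          · have : QuaternionGroup.a i * QuaternionGroup.a ((2 ^ k : ℕ) : ZMod (2 * 2 ^ (k + 1))) *
                (QuaternionGroup.a i)⁻¹ = QuaternionGroup.a ((2 ^ k : ℕ) : ZMod (2 * 2 ^ (k + 1))) := by
              rw [mul_inv_eq_iff_eq_mul, QuaternionGroup.a_mul_a, QuaternionGroup.a_mul_a, add_comm i]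
            rw [this]; exact mem_zpowers _
          · have : QuaternionGroup.xa i * QuaternionGroup.a ((2 ^ k : ℕ) : ZMod (2 * 2 ^ (k + 1))) *
                (QuaternionGroup.xa i)⁻¹ =
                (QuaternionGroup.a ((2 ^ k : ℕ) : ZMod (2 * 2 ^ (k + 1))))⁻¹ := by
              rw [mul_inv_eq_iff_eq_mul, eq_inv_mul_iff_mul_eq]; simp
            rw [this]; exact inv_mem (mem_zpowers _))
        (by rw [Nat.card_zpowers, Nat.card_zpowers, h1, QuaternionGroup.orderOf_xa])
      have h3 := mem_zpowers (QuaternionGroup.xa (0 : ZMod (2 * 2 ^ (k + 1))))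
      rw [h2, ← mem_powers_iff_mem_zpowers] at h3
      obtain ⟨j, hj⟩ := h3
      have h4 : ∀ (j : ℕ) (c : ZMod (2 * 2 ^ (k + 1))), ∃ d, QuaternionGroup.a c ^ j = QuaternionGroup.a d := by
        intro j c
        induction j with
        | zero => exact ⟨0, rfl⟩
        | succ j ih => obtain ⟨d, hd⟩ := ih; exact ⟨d + c, by rw [pow_succ (QuaternionGroup.a c), hd]; rfl⟩
      obtain ⟨d, hd⟩ := h4 j ((2 ^ k : ℕ) : ZMod (2 * 2 ^ (k + 1)))
      exact absurd (hd.symm.trans hj) (by simp)
  infer_instance

end Cfsg.Agent.S3910
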