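import Cfsg.Statements.S3917
import Cfsg.Agent.L.PGroup
import Cfsg.Agent.BG.Basic

set_option autoImplicit false
open Cfsg

namespace Cfsg.Agent.S3917

open Cfsg.Agent Cfsg.Agent.H2 Subgroup
open scoped Pointwise commutatorElement

/-- Say that a group has self-centralizing non-cyclic subgroups when every non-cyclic subgroup H satisfies C_G(H) ≤ H. A finite abelian group with self-centralizing non-cyclic subgroups is cyclic or elementary abelian of order p² for a prime p. -/
theorem result {G : Type*} [CommGroup G] [Finite G] (hX : (∀ H : Subgroup G, ¬ IsCyclic ↥H → Subgroup.centralizer (H : Set G) ≤ H)) :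
    IsCyclic G ∨ ∃ p : ℕ, p.Prime ∧ Nat.card G = p ^ 2 ∧ Monoid.exponent G = p := by
  rw [or_iff_not_imp_left]
  intro h
  have : ¬ IsZGroup G := fun _ => h inferInstance
  rw [isZGroup_iff] at this
  push Not at this
  obtain ⟨p, hp, P, a⟩ := this
  have : Fact p.Prime := ⟨hp⟩
  obtain ⟨E, -, b, c⟩ := L.exists_elementary_sq_le P.2 a
  obtain rfl : E = ⊤ := top_le_iff.1 fun x _ => hX E (BG.not_isCyclic_of_elem b c.ge) fun y _ => mul_comm y x
  have := (not_subsingleton_iff_nontrivial (α := G)).1 fun _ => h inferInstance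
  exact ⟨p, hp, card_top.symm.trans c, (Monoid.exponent_eq_prime_iff hp).2 fun g hg => orderOf_eq_prime (b.2 g trivial) hg⟩

end Cfsg.Agent.S3917
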