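import Cfsg.Statements.S3918
import Cfsg.Agent.L.PCyc
import Cfsg.Agent.BG.Basic
import Cfsg.Agent.H1.PGrp

set_option autoImplicit false
open Cfsg

namespace Cfsg.Agent.S3918

open Cfsg.Agent Cfsg.Agent.H2 Subgroup
open scoped Pointwise commutatorElement

/-- Say that a group has self-centralizing non-cyclic subgroups when every non-cyclic subgroup H satisfies C_G(H) ≤ H. For an odd prime p, a finite non-abelian p-group has self-centralizing non-cyclic subgroups if and only if it has order p³. -/
theorem result {G : Type*} [Group G] [Finite G] {p : ℕ} [Fact p.Prime] (hp : p ≠ 2) (hG : IsPGroup p G) (hna : ¬ IsMulCommutative G) :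
    (∀ H : Subgroup G, ¬ IsCyclic ↥H → Subgroup.centralizer (H : Set G) ≤ H) ↔ Nat.card G = p ^ 3 := by
  have hp' : p.Prime := Fact.out
  obtain ⟨k, hk⟩ := IsPGroup.iff_card.1 hG
  have h3 : 3 ≤ k := by
    by_contra! a
    interval_cases k
    · have := (Nat.card_eq_one_iff_unique.1 hk).1
      exact hna ⟨⟨fun _ _ => Subsingleton.elim _ _⟩⟩
    · have := isCyclic_of_prime_card (hk.trans (pow_one p))
      exact hna inferInstance
    exact hna (IsPGroup.isMulCommutative_of_card_eq_prime_sq hk)
  constructor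
  · intro h
    obtain ⟨E, _, a, b⟩ := L.exists_normal_elementary_sq_of_odd hp hG fun _ => hna inferInstance
    have c := (index_dvd_of_le (h E (BG.not_isCyclic_of_elem a b.ge))).trans (H1.index_centralizer_dvd_of_card_dvd_sq hG E b.dvd)
    have d := mul_dvd_mul_left (Nat.card E) c
    rw [E.card_mul_index, b, ← pow_succ, hk, Nat.pow_dvd_pow_iff_le_right hp'.one_lt] at d
    rw [hk, le_antisymm d h3]
  intro h H a x hx
  obtain ⟨j, b, c⟩ := (Nat.dvd_prime_pow hp').1 (h ▸ H.card_subgroup_dvd_card)
  interval_cases j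
  · exact (a (isCyclic_of_card_dvd_prime (p := p) (by simp [c]))).elim
  · exact (a (isCyclic_of_card_dvd_prime (p := p) (by simp [c]))).elim
  · by_contra d
    have e := IsPGroup.isMulCommutative_of_card_eq_prime_sq c
    obtain ⟨i, f, g⟩ := (Nat.dvd_prime_pow hp').1 (h ▸ (H ⊔ zpowers x).card_subgroup_dvd_card)
    have l : Nat.card H < Nat.card ↥(H ⊔ zpowers x) := lt_of_not_ge fun l =>
      d ((eq_of_le_of_card_ge le_sup_left l).ge (mem_sup_right (mem_zpowers x)))
    rw [c, g, Nat.pow_lt_pow_iff_right hp'.one_lt] at l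
    have m : H ⊔ zpowers x = ⊤ := eq_top_of_card_eq _ (by rw [g, h, show i = 3 by omega])
    have n : ∀ y ∈ H, ⊤ ≤ centralizer {y} := fun y hy => m ▸ sup_le (fun z hz => mem_centralizer_singleton_iff.2
      (congrArg Subtype.val (e.is_comm.comm ⟨z, hz⟩ ⟨y, hy⟩))) (zpowers_le.2 (mem_centralizer_singleton_iff.2 (hx y hy).symm))
    refine hna ⟨⟨fun y z => mem_centralizer_singleton_iff.1 ((m ▸ sup_le (fun u hu => mem_centralizer_singleton_iff.2
      (mem_centralizer_singleton_iff.1 (n u hu (mem_top z))).symm) (zpowers_le.2 (mem_centralizer_singleton_iff.2 ?_)) : ⊤ ≤ centralizer {z}) (mem_top y))⟩⟩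
    exact (mem_centralizer_singleton_iff.1 ((m ▸ sup_le (fun u hu => mem_centralizer_singleton_iff.2 (hx u hu))
      (zpowers_le.2 (mem_centralizer_singleton_iff.2 rfl)) : ⊤ ≤ centralizer {x}) (mem_top z))).symm
  exact (eq_top_of_card_eq H (c.trans h.symm)).ge trivial

end Cfsg.Agent.S3918
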