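import Cfsg.Statements.S3919
import Cfsg.Agent.L.MaxClass
import Cfsg.Agent.S0112

set_option autoImplicit false
open Cfsg

namespace Cfsg.Agent.S3919

open Cfsg.Agent

/-- Say that a group has self-centralizing non-cyclic subgroups when every non-cyclic subgroup H satisfies C_G(H) ≤ H. A finite non-abelian 2-group G of order 2^n has self-centralizing non-cyclic subgroups if and only if G has nilpotency class n − 1 (that is, G is dihedral, semidihedral or generalized quaternion). -/
theorem result {G : Type*} [Group G] [Finite G] (hna : ¬ IsMulCommutative G) (n : ℕ) (hG : Nat.card G = 2 ^ n) :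
    (∀ H : Subgroup G, ¬ IsCyclic ↥H → Subgroup.centralizer (H : Set G) ≤ H) ↔ (⊤ : Subgroup G).lowerCentralSeries (n - 2) ≠ ⊥ := by
  have hP : IsPGroup 2 G := .of_card hG
  have := hP.isNilpotent
  have hn : 3 ≤ n := by
    by_contra h3
    apply hna
    by_cases h2 : n = 2
    · exact IsPGroup.isMulCommutative_of_card_eq_prime_sq (p := 2) (h2 ▸ hG)
    · have : IsCyclic G := isCyclic_of_card_dvd_prime (p := 2) (by
        rw [hG]; exact (pow_dvd_pow 2 (by omega)).trans (pow_one 2).dvd)
      infer_instance
  have hiff : (⊤ : Subgroup G).lowerCentralSeries (n - 2) ≠ ⊥ ↔ Group.nilpotencyClass G = n - 1 := by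
    rw [Ne, Subgroup.lowerCentralSeries_eq_bot_iff_nilpotencyClass_le]
    have := L.nilpotencyClass_le_of_card 2 n G hG (by omega)
    omega
  rw [hiff]
  constructor
  · intro h
    by_cases hE : ∃ E : Subgroup G, Cfsg.IsElementaryAbelian 2 E ∧ ¬ IsCyclic E
    · obtain ⟨E, h1, h2⟩ := hE
      have := h1.1
      obtain ⟨F, -, h3, h4⟩ := L.exists_elementary_sq_le (L.IsElementaryAbelian.isPGroup h1) h2
      have := h3.1
      exact S0112.result n hG F h4 (le_antisymm (h F (L.not_isCyclic_of_elementary Nat.prime_two h3.2 (by omega)))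
        (Subgroup.le_centralizer F))
    · push Not at hE
      rcases L.structure_of_normal_elementary_cyclic hP (fun A _ hA => hE A hA) with
        h | ⟨-, n', a, b, h3, hc, ha, hi, hb, hcases⟩
      · exact (hna inferInstance).elim
      obtain rfl : n = n' := Nat.pow_right_injective le_rfl (hG.symm.trans hc)
      rcases hcases with h1 | h1 | h1
      · exact L.nilpotencyClass_eq_of_index_two (r := -1) (by omega) hG hi (h1.2.2.trans (zpow_neg_one a).symm) (by norm_num)
      · exact L.nilpotencyClass_eq_of_index_two (r := -1) (by omega) hG hi (h1.2.trans (zpow_neg_one a).symm) (by norm_num)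
      · refine L.nilpotencyClass_eq_of_index_two (by omega) hG hi (h1.2.2.trans (zpow_natCast a _).symm) ?_
        obtain ⟨m, rfl⟩ : ∃ m, n = m + 4 := ⟨n - 4, by omega⟩
        rw [Nat.cast_sub Nat.one_le_two_pow]
        exact ⟨2 ^ m, by push_cast; ring⟩
  · intro hc H hH
    obtain ⟨a, ha, hb⟩ := L.exists_index_two_act_of_index_commutator hn hG (L.index_commutator_of_maxClass hn hG hc)
    have hHa : ¬ H ≤ Subgroup.zpowers a := fun h => hH (Subgroup.isCyclic_of_le h)
    obtain ⟨b, hbH, hb1⟩ := SetLike.not_le_iff_exists.mp hHa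
    obtain ⟨r, hr, h4⟩ := hb b hb1
    have h1 := L.card_centralizer_le_four hG ha hr h4
    have h2 : Subgroup.centralizer {b} ≤ H := by
      have hHP := hP.to_subgroup H
      have := hHP.isNilpotent
      have hH0 : H ≠ ⊥ := fun h => hH (h ▸ inferInstance)
      by_cases hbZ : b ∈ Subgroup.centralizer (H : Set G)
      · have h3 : H ≤ Subgroup.centralizer {b} := fun x hx => Subgroup.mem_centralizer_singleton_iff.mpr (hbZ x hx)
        refine (Subgroup.eq_of_le_of_card_ge h3 (h1.trans ?_)).ge
        obtain ⟨k, hk⟩ := IsPGroup.iff_card.mp hHP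
        rw [hk]
        refine Nat.pow_le_pow_right (by norm_num) ?_
        by_contra h
        exact hH (isCyclic_of_card_dvd_prime (p := 2) (by
          rw [hk]; exact (pow_dvd_pow 2 (by omega)).trans (pow_one 2).dvd))
      · have h3 := L.inf_centralizer_ne_bot_of_isNilpotent (le_refl H) Subgroup.le_normalizer hH0
        have h5 : H ⊓ Subgroup.centralizer (H : Set G) < H ⊓ Subgroup.centralizer {b} :=
          lt_of_le_of_ne (inf_le_inf_left _ (Subgroup.centralizer_le (Set.singleton_subset_iff.mpr hbH)))
            fun h => hbZ (h.ge ⟨hbH, Subgroup.mem_centralizer_singleton_iff.mpr rfl⟩).2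
        have h6 := L.mul_card_le_of_lt (hP.to_subgroup _) h5
        have h7 := (Subgroup.one_lt_card_iff_ne_bot _).mpr h3
        exact (Subgroup.eq_of_le_of_card_ge (inf_le_right : H ⊓ Subgroup.centralizer {b} ≤ _) (by omega)).ge.trans
          inf_le_left
    exact (Subgroup.centralizer_le (Set.singleton_subset_iff.mpr hbH)).trans h2

end Cfsg.Agent.S3919
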