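import Cfsg.Statements.S3920


set_option autoImplicit false
open Cfsg

namespace Cfsg.Agent.S3920

open Subgroup DihedralGroup
open scoped Pointwise commutatorElement

/-- Say that a group has self-centralizing non-cyclic subgroups when every non-cyclic subgroup H satisfies C_G(H) ≤ H. For n ≥ 3, the dihedral group of order 2n has self-centralizing non-cyclic subgroups if and only if n is odd or a power of 2. -/
theorem result (n : ℕ) (hn : 3 ≤ n) : (∀ H : Subgroup (DihedralGroup n), ¬ IsCyclic ↥H → Subgroup.centralizer (H : Set (DihedralGroup n)) ≤ H) ↔ (Odd n ∨ ∃ k : ℕ, n = 2 ^ k) := by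
  have : NeZero n := ⟨by omega⟩
  constructor
  · intro h
    by_contra! a
    obtain ⟨k, m, hm, e⟩ := Nat.exists_eq_two_pow_mul_odd (n := n) (by omega)
    obtain ⟨t, ht⟩ := Nat.not_odd_iff_even.1 a.1
    let H : Subgroup (DihedralGroup n) := Subgroup.ofDiv {x | (m : ZMod n) * x.casesOn id id = 0} ⟨1, mul_zero _⟩ (by
      rintro (i | i) a (j | j) b <;> simp only [Set.mem_setOf_eq, id, inv_r, inv_sr, r_mul_r, r_mul_sr, sr_mul_r, sr_mul_sr] at a b ⊢ <;>
        simp [mul_add, mul_sub, a, b])
    have tt : (t : ZMod n) + t = 0 := by rw [← Nat.cast_add, ← ht, ZMod.natCast_self]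
    have c : (m : ZMod n) * t = 0 := h H (fun c => ?_) (x := r t) ?_
    · obtain ⟨u, rfl⟩ := hm
      have d : (t : ZMod n) = 0 := by push_cast at c; linear_combination c - u * tt
      have := Nat.le_of_dvd (by omega) ((ZMod.natCast_eq_zero_iff _ _).1 d)
      omega
    · have := congrArg Subtype.val (mul_comm' (⟨r (2 ^ k : ℕ), show (m : ZMod n) * (2 ^ k : ℕ) = 0 by
        rw [← Nat.cast_mul, mul_comm, ← e, ZMod.natCast_self]⟩ : H) ⟨sr 0, mul_zero _⟩)
      change r _ * sr _ = sr _ * r _ at this
      rw [r_mul_sr, sr_mul_r, sr.injEq] at this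
      have d : ((2 ^ k * 2 : ℕ) : ZMod n) = 0 := by rw [Nat.cast_mul]; push_cast at this ⊢; linear_combination -this
      rw [ZMod.natCast_eq_zero_iff] at d
      have f := Nat.dvd_of_mul_dvd_mul_left (by positivity) (e.symm.dvd.trans d)
      rcases (Nat.dvd_prime Nat.prime_two).1 f with rfl | rfl
      · exact a.2 k (e.trans (mul_one _))
      exact absurd hm (by decide)
    rintro (i | i) -
    · simp [add_comm]
    rw [r_mul_sr, sr_mul_r, sr.injEq]; linear_combination tt
  intro h H a g hg
  have nz : ∀ j : ZMod n, -j = j → r j ∈ H ∨ ∀ k, r k ∈ H → k = 0 := fun j hj => or_iff_not_imp_right.2 fun b => by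
    push Not at b
    obtain ⟨k, b, c⟩ := b
    rcases (ZMod.neg_eq_self_iff j).1 hj with rfl | d
    · exact one_mem H
    rcases h with h | ⟨e, h⟩
    · exact absurd h (by rw [← d]; simp)
    obtain ⟨f, -, l⟩ := (Nat.dvd_prime_pow Nat.prime_two).1 ((addOrderOf_dvd_card (x := k)).trans ((ZMod.card n).trans h).dvd)
    obtain ⟨f, rfl⟩ := Nat.exists_eq_succ_of_ne_zero (n := f) fun e => c (AddMonoid.addOrderOf_eq_one_iff.1 (by rw [l, e, pow_zero]))
    have m := addOrderOf_nsmul_eq_zero k
    rw [l, pow_succ, mul_two, add_nsmul] at m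
    rcases (ZMod.neg_eq_self_iff (2 ^ f • k)).1 (neg_eq_of_add_eq_zero_left m) with u | u
    · have := Nat.le_of_dvd (by positivity) (addOrderOf_dvd_of_nsmul_eq_zero u)
      rw [l, pow_succ] at this
      have : 0 < 2 ^ f := by positivity
      omega
    have := pow_mem b (2 ^ f)
    rwa [r_pow, mul_comm, ← nsmul_eq_mul, ZMod.val_injective n (show (2 ^ f • k).val = j.val by omega)] at this
  obtain ⟨i, hi⟩ : ∃ i, sr i ∈ H := by
    by_contra! b
    refine a (isCyclic_of_le (H' := zpowers (r 1)) ?_)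
    rintro (j | j) c
    · exact ⟨(j.val : ℕ), by simp⟩
    exact (b j c).elim
  have nz' : ∀ j : ZMod n, -j = j → r j ∈ H := fun j hj => (nz j hj).resolve_right fun b => a (isCyclic_of_le (H' := zpowers (sr i)) (by
    rintro (k | k) c
    · rw [b k c]; exact one_mem _
    rw [sub_eq_zero.1 (b _ (mul_mem hi c))]; exact mem_zpowers _))
  have b := hg _ hi
  rcases g with j | j
  · rw [r_mul_sr, sr_mul_r, sr.injEq] at b
    exact nz' j (by linear_combination -b)
  rw [sr_mul_sr, sr_mul_sr, r.injEq] at b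
  simpa using mul_mem hi (nz' (j - i) (by linear_combination -b))

end Cfsg.Agent.S3920
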