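import Cfsg.Statements.S3937
import Cfsg.Agent.H8.Reg
import Cfsg.Agent.H8.Subnormal

set_option autoImplicit false
open Cfsg

namespace Cfsg.Agent.S3937

open Subgroup hiding commutator_def
open Function Cfsg.Agent.Hopf Cfsg.Agent.Reg
open scoped commutatorElement

theorem fold_eq {G : Type*} [Group G] (g : G) (n : ℕ) (x : G) :
    (List.replicate n g).foldl (fun a b => a * b * a⁻¹ * b⁻¹) x = (fun a => ⁅a, g⁆)^[n] x := by
  induction n generalizing x with
  | zero => rfl
  | succ n ih => rw [List.replicate_succ, List.foldl_cons, ih]; rfl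

theorem of_nil {G : Type*} [Group G] {K : Subgroup G} (hK : Group.IsNilpotent K) {g x : G} (hg : g ∈ K) (hx : x ∈ K) :
    ∃ n, (fun a => ⁅a, g⁆)^[n] x = 1 := by
  obtain ⟨n, hn⟩ := (Subgroup.isNilpotent_iff_lowerCentralSeries K).1 hK
  refine ⟨n, mem_bot.1 (hn ▸ ?_)⟩
  clear hn
  induction n with
  | zero => exact hx
  | succ n ih => rw [iterate_succ_apply']; exact commutator_mem_commutator ih hg

theorem baer {G : Type*} [Group G] [Finite G] (g : G) (h : ∀ x, ∃ n, (fun a => ⁅a, g⁆)^[n] x = 1) :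
    g ∈ fittingSubgroup G := by
  revert g
  refine sub_ind (P := fun G _ _ => ∀ g : G, (∀ x, ∃ n, (fun a => ⁅a, g⁆)^[n] x = 1) → g ∈ fittingSubgroup G)
    (fun G _ _ ih g h => ?_) G
  replace ih : ∀ K : Subgroup G, K ≠ ⊤ → ∀ hg : g ∈ K, (⟨g, hg⟩ : K) ∈ fittingSubgroup K := fun K hK hg =>
    ih K hK ⟨g, hg⟩ fun x => by
      obtain ⟨n, hn⟩ := h x
      refine ⟨n, Subtype.ext (Eq.trans ?_ hn)⟩
      exact (Function.Semiconj.iterate_right (f := Subtype.val) (ga := fun a => ⁅a, (⟨g, hg⟩ : K)⁆)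
        (gb := fun a => ⁅a, g⁆) (fun _ => rfl) n).eq x
  by_contra hg
  have h1 : ¬ H8.SN ⊤ (zpowers g) := fun h1 =>
    hg (H1.le_fittingSubgroup_of_isSubnormal h1.isSubnormal (H1.isNilpotent_of_isMulCommutative inferInstance) (mem_zpowers g))
  obtain ⟨M, hM, h2⟩ := H8.zipper le_top h1 fun H hH hH' => by
    have h3 : zpowers g ≤ (fittingSubgroup H).map H.subtype :=
      zpowers_le.2 ⟨_, ih H hH'.ne (hH (mem_zpowers g)), rfl⟩
    exact (H8.SN.of_norm (map_subtype_le _) (le_normalizer.trans (H1.normalizer_le_normalizer_map_fittingSubgroup H))).trans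
      (H8.sn_of_nilpotent (H1.isNilpotent_map_fittingSubgroup H) h3)
  have hgM : g ∈ M := h2 _ le_rfl (lt_top_iff_ne_top.2 fun e => h1 (by rw [e]; exact H8.SN.of_normal ⊤)) (mem_zpowers g)
  by_cases hN : normalizer (M : Set G) = ⊤
  · have := normalizer_eq_top_iff.1 hN
    exact hg (H1.map_fittingSubgroup_le_fittingSubgroup M ⟨_, ih M hM.ne hgM, rfl⟩)
  have h3 := h2 _ (zpowers_le.2 (le_normalizer hgM)) (lt_top_iff_ne_top.2 hN)
  obtain ⟨x, -, hx⟩ := SetLike.exists_of_lt hM
  obtain ⟨n, hn⟩ := h x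
  have : ∀ n, (fun a => ⁅a, g⁆)^[n] x ∉ M := fun n => by
    induction n with
    | zero => exact hx
    | succ n ih =>
      rw [iterate_succ_apply']
      generalize (fun a => ⁅a, g⁆)^[n] x = y at ih ⊢
      intro hy
      have h4 : H8.cj M y⁻¹ ≤ M := h2 _ (zpowers_le.2 (H8.mem_cj.2 (by simpa [commutatorElement_def] using mul_mem hy hgM)))
        (lt_top_iff_ne_top.2 fun e => hM.ne (by rwa [H8.cj_eq_iff, H8.cj_eq_of_normal] at e))
      have h5 := eq_of_le_of_card_ge h4 (card_map_of_injective (MulAut.conj y⁻¹).injective).ge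
      exact ih (inv_mem_iff.1 (h3 (H8.mem_normalizer_iff_cj.2 h5)))
  exact this n (hn ▸ one_mem _)

/-- Baer's characterization of the Fitting subgroup: in a finite group G, an element g lies in the Fitting subgroup if and only if g is a left Engel element, that is, for every x there is n with [x, g, g, …, g] = 1 (n entries g, [a, b] = aba⁻¹b⁻¹). -/
theorem result {G : Type*} [Group G] [Finite G] (g : G) :
    g ∈ Cfsg.fittingSubgroup G ↔ ∀ x : G, ∃ n : ℕ, (List.replicate n g).foldl (fun a b => a * b * a⁻¹ * b⁻¹) x = 1 := by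
  simp only [fold_eq]
  refine ⟨fun h x => ?_, baer g⟩
  obtain ⟨n, hn⟩ := of_nil (K := fittingSubgroup G) inferInstance h (x := ⁅x, g⁆)
    (mul_mem (Normal.conj_mem inferInstance g h x) (inv_mem h))
  exact ⟨n + 1, hn⟩

end Cfsg.Agent.S3937
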