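import Cfsg.Statements.S3939
import Cfsg.Agent.S3937
import Cfsg.Agent.H8.Meta

set_option autoImplicit false
open Cfsg

namespace Cfsg.Agent.S3939

open Subgroup hiding commutator_def
open Function Cfsg.Agent.Hopf Cfsg.Agent.Reg
open scoped commutatorElement

theorem aux {G : Type*} [Group G] [Finite G] (hZ : center G = ⊥) {g : G}
    (h : ∀ x : G, Group.IsNilpotent (closure ({x, g} : Set G))) : g = 1 := by
  by_contra h1
  obtain ⟨p, hp, hd⟩ := Nat.exists_prime_and_dvd (mt orderOf_eq_one_iff.1 h1)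
  have := Fact.mk hp
  obtain ⟨y, hy⟩ := exists_prime_orderOf_dvd_card' (G := zpowers g) p (by rwa [Nat.card_zpowers])
  have hm : ∀ x, (y : G) ∈ closure ({x, g} : Set G) := fun x =>
    zpowers_le.2 (Subgroup.subset_closure (by simp)) y.2
  have hx : ∀ x, x ∈ closure ({x, g} : Set G) := fun x => Subgroup.subset_closure (by simp)
  have h2 := S3937.baer (y : G) fun x => S3937.of_nil (h x) (hm x) (hx x)
  have hy' : orderOf (y : G) = p := by rw [orderOf_coe, hy]
  have h3 : zpowers (y : G) ≤ pCore p G := H1.le_pCore_of_le_fittingSubgroup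
    (IsPGroup.of_card (n := 1) (by rw [Nat.card_zpowers, hy', pow_one])) (zpowers_le.2 h2)
  obtain ⟨C, hC⟩ : ∃ C, C = centralizer {x : G | (orderOf x).Coprime p} := ⟨_, rfl⟩
  have : C.Normal := ⟨fun c hc g => hC ▸ fun x hx => by
    have := (hC ▸ hc) (g⁻¹ * x * g⁻¹⁻¹) (by
      rw [Set.mem_setOf_eq, show orderOf (g⁻¹ * x * g⁻¹⁻¹) = orderOf x from (MulAut.conj g⁻¹).orderOf_eq x]; exact hx)
    calc x * (g * c * g⁻¹) = g * (g⁻¹ * x * g⁻¹⁻¹ * c) * g⁻¹ := by group
      _ = _ := by rw [this]; group⟩
  have h4 : (y : G) ∈ C := hC ▸ fun x hx' => H1.commute_of_isNilpotent_of_coprime (h x) (hx x) (hm x) (hy' ▸ hx')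
  obtain ⟨P⟩ : Nonempty (Sylow p G) := inferInstance
  have h5 := H1.inf_centralizer_ne_bot_of_isPGroup (X := pCore p G ⊓ C) (Y := P)
    ((H1.isPGroup_pCore p G).to_le inf_le_left) P.2 le_normalizer_of_normal (fun e => by
      have : (y : G) ∈ pCore p G ⊓ C := ⟨h3 (mem_zpowers _), h4⟩
      rw [e, mem_bot] at this
      rw [this, orderOf_one] at hy'
      exact hp.one_lt.ne hy')
  refine h5 (eq_bot_iff.2 fun z hz => hZ ▸ ?_)
  have : centralizer ({z} : Set G) = ⊤ := H1.eq_top_of_forall_sylow_le fun q hq => by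
    have := Fact.mk hq
    by_cases hqp : q = p
    · subst hqp
      exact ⟨P, fun x hx => mem_centralizer_singleton_iff.2 (hz.2 x hx)⟩
    · obtain ⟨Q⟩ : Nonempty (Sylow q G) := inferInstance
      refine ⟨Q, fun x hx => mem_centralizer_singleton_iff.2 ((hC ▸ hz.1.2) x ?_)⟩
      obtain ⟨k, hk⟩ := IsPGroup.iff_orderOf.1 Q.2 ⟨x, hx⟩
      rw [orderOf_mk] at hk
      rw [Set.mem_setOf_eq, hk]
      exact ((Nat.coprime_primes hq hp).2 hqp).pow_left k
  exact mem_center_iff.2 fun x => mem_centralizer_singleton_iff.1 (this ▸ mem_top x)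

theorem aux2 (n : ℕ) : ∀ {G : Type*} [Group G] {g : G}, g ∈ Subgroup.upperCentralSeries G n → ∀ x : G,
    Group.IsNilpotent (closure ({x, g} : Set G)) := by
  induction n with
  | zero =>
    intro G _ g hg x
    rw [mem_bot.1 hg, ← sup_zp, zpowers_one_eq_bot, sup_bot_eq]; exact H1.isNilpotent_of_isMulCommutative inferInstance
  | succ n ih =>
    intro G _ g hg x
    rw [← Subgroup.comap_upperCentralSeries_quotient_center] at hg
    have := ih hg (QuotientGroup.mk' _ x)
    rw [← Set.image_pair, ← MonoidHom.map_closure] at this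
    refine Subgroup.isNilpotent_of_ker_le_center ((QuotientGroup.mk' (center G)).subgroupMap _) fun y hy => ?_
    have : (y : G) ∈ center G := (QuotientGroup.eq_one_iff _).1 (congrArg Subtype.val hy)
    exact mem_center_iff.2 fun z => Subtype.ext (mem_center_iff.1 this z)

/-- In a finite group G the set of elements g such that the subgroup generated by g and x is nilpotent for every x ∈ G is exactly the hypercenter of G (the last term of the upper central series). -/
theorem result {G : Type*} [Group G] [Finite G] (g : G) :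
    (∀ x : G, Group.IsNilpotent ↥(Subgroup.closure ({x, g} : Set G))) ↔ g ∈ ⨆ n : ℕ, Subgroup.upperCentralSeries G n := by
  rw [mem_iSup_of_directed (Subgroup.upperCentralSeries_mono G).directed_le]
  refine ⟨fun h => ?_, fun ⟨n, hn⟩ => aux2 n hn⟩
  induction hn : Nat.card G using Nat.strong_induction_on generalizing G with | _ n ih => ?_
  by_cases hZ : center G = ⊥
  · exact ⟨0, aux hZ h ▸ one_mem _⟩
  obtain ⟨n, hn⟩ := ih _ (hn ▸ H1.card_quotient_lt hZ) (QuotientGroup.mk' (center G) g) (fun x => by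
    obtain ⟨x, rfl⟩ := QuotientGroup.mk'_surjective _ x
    have := h x
    rw [← Set.image_pair, ← MonoidHom.map_closure]
    exact nilpotent_of_surjective _ ((QuotientGroup.mk' (center G)).subgroupMap_surjective _)) rfl
  exact ⟨n + 1, by rwa [← Subgroup.comap_upperCentralSeries_quotient_center]⟩

end Cfsg.Agent.S3939
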