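import Cfsg.Statements.S3941


set_option autoImplicit false
open Cfsg

namespace Cfsg.Agent.S3941

open Subgroup Equiv
open scoped Pointwise commutatorElement

/-- Let n ≥ 5 and p an odd prime with p ≤ n, and suppose that every proper subgroup of the alternating group of degree n whose order is divisible by p has a normal Sylow p-subgroup. Then n = p. -/
theorem result (n p : ℕ) (hn : 5 ≤ n) [Fact p.Prime] (hp : p ≠ 2) (hpn : p ≤ n)
    (h : ∀ H : Subgroup ↥(alternatingGroup (Fin n)), H ≠ ⊤ → p ∣ Nat.card ↥H → Cfsg.IsPClosed p ↥H) : n = p := by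
  have hp' : p.Prime := Fact.out
  by_contra hne
  obtain ⟨m, rfl⟩ : ∃ m, n = m + 1 := ⟨n - 1, by omega⟩
  have c : ∀ k, 2 ≤ k → 2 * Nat.card (alternatingGroup (Fin k)) = k.factorial := fun k hk => by
    have : Nontrivial (Fin k) := Fin.nontrivial_iff_two_le.2 hk
    rw [Nat.card_eq_fintype_card, two_mul_card_alternatingGroup, Fintype.card_perm, Fintype.card_fin]
  let f : alternatingGroup (Fin m) →* alternatingGroup (Fin (m + 1)) :=
    ((Perm.extendDomainHom (finSuccAboveEquiv 0)).comp (alternatingGroup _).subtype).codRestrict _ fun x => by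
      simpa [Perm.mem_alternatingGroup] using Perm.mem_alternatingGroup.1 x.2
  have hf : Function.Injective f := fun x y e => Subtype.ext (Perm.extendDomainHom_injective _ (congrArg Subtype.val e))
  have c1 := c m (by omega)
  have d : p ∣ Nat.card (alternatingGroup (Fin m)) := ((Nat.coprime_primes hp' Nat.prime_two).2 hp).dvd_of_dvd_mul_left
    (c1 ▸ hp'.dvd_factorial.2 (by omega))
  have e := Nat.card_congr (MonoidHom.ofInjective hf).toEquiv
  obtain ⟨P⟩ : Nonempty (Sylow p (alternatingGroup (Fin m))) := inferInstance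
  have a := (h f.range (fun a => by
    have c2 := c (m + 1) (by omega)
    rw [a, card_top] at e
    rw [← e, c1, Nat.factorial_succ] at c2
    have := m.factorial_pos
    nlinarith) (e ▸ d) (P.mapSurjective f.rangeRestrict_surjective)).comap f.rangeRestrict
  rw [Sylow.coe_mapSurjective, comap_map_eq_self_of_injective (MonoidHom.rangeRestrict_injective_iff.2 hf)] at a
  rcases (show 4 ≤ m by omega).eq_or_lt with rfl | b
  · obtain rfl : p = 3 := by
      have := hp'.two_le
      interval_cases p <;> simp_all (config := {decide := true})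
    have i := P.1.card_mul_index
    rw [Sylow.card_eq_multiplicity, show Nat.card (alternatingGroup (Fin 4)) = 12 by simp [Nat.factorial] at c1; simpa using by omega,
      show 3 ^ (Nat.factorization 12) 3 = 3 by decide +kernel] at i
    obtain ⟨x, y, u, v, w, z⟩ : ∃ x y : alternatingGroup (Fin 4), x ^ 4 = x ∧ y ^ 4 = y ∧ (x * y) ^ 2 = 1 ∧ x * y ≠ 1 := by decide +kernel
    have j : ∀ x, x ^ 4 ∈ P.1 := fun x => by have := P.1.pow_index_mem x; rwa [show P.1.index = 4 by omega] at this
    obtain ⟨k, hk⟩ := P.2 ⟨_, mul_mem (u ▸ j x) (v ▸ j y)⟩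
    exact z (orderOf_eq_one_iff.1 (Nat.eq_one_of_dvd_coprimes (Nat.Coprime.pow_right k (by norm_num) : Nat.Coprime 2 (3 ^ k)) (orderOf_dvd_of_pow_eq_one w)
      (orderOf_dvd_of_pow_eq_one (congrArg Subtype.val hk))))
  have := alternatingGroup.isSimpleGroup (α := Fin m) (by rw [Nat.card_fin]; exact b)
  rcases a.eq_bot_or_eq_top with i | i
  · exact P.not_dvd_index (by rwa [i, index_bot])
  obtain ⟨k, hk⟩ := IsPGroup.iff_card.1 P.2
  rw [i, card_top] at hk
  have j : 2 * 2 ∣ 2 * p ^ k := hk ▸ c1 ▸ Nat.dvd_factorial four_pos b.le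
  exact hp ((Nat.prime_dvd_prime_iff_eq Nat.prime_two hp').1 (Nat.prime_two.dvd_of_dvd_pow (Nat.dvd_of_mul_dvd_mul_left two_pos j))).symm

end Cfsg.Agent.S3941
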