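import Cfsg.Statements.S3946
import Cfsg.Agent.GS.Kegel

set_option autoImplicit false
open Cfsg

namespace Cfsg.Agent.S3946

open Cfsg.Agent.H1

/-- Call an automorphism α of order n of a group G splitting when x · α(x) · α²(x) ⋯ α^(n−1)(x) = 1 for every x ∈ G. A finite group admitting a splitting automorphism of prime order is nilpotent (this contains the case of a fixed-point-free automorphism of prime order). -/
theorem result {G : Type*} [Group G] [Finite G] (α : MulAut G) (hp : (orderOf α).Prime)
    (hsplit : ∀ x : G, (((List.range (orderOf α)).map (fun i : ℕ => (α ^ i) x)).prod = 1)) : Group.IsNilpotent G := by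
  open Subgroup Pointwise commutatorElement Cfsg.Agent.BG Cfsg.Agent.GS in
  open Cfsg.Agent.H2 hiding card_lt_of_lt card_lt_of_ne_top isMulCommutative_of_le isPGroup_zpowers_iff mem_of_pow_mem_of_coprime inf_eq_bot_of_cop exists_maxElem_ge Sec in
  open Cfsg.Agent.H8 (Op Opp Fit SN) in
  open Cfsg.Agent.L (FPF) in focus
    have := Fact.mk hp
    let φ := MonoidHom.id (MulAut G)
    have e : (⊤ : Subgroup G) ≃* sl φ ⊤ := equivMapOfInjective _ _ SemidirectProduct.inl_injective
    have := kegel (p := orderOf α) (K := sl φ ⊤) (x := SemidirectProduct.inr α) (mem_norm_of_normal _ _) (by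
      rintro _ ⟨k, -, rfl⟩
      have : ∀ n, (SemidirectProduct.inl k * SemidirectProduct.inr α : G ⋊[φ] MulAut G) ^ n =
          SemidirectProduct.inl ((List.range n).map (fun i : ℕ => (α ^ i) k)).prod * SemidirectProduct.inr (α ^ n) := fun n => by
        induction n with
        | zero => simp
        | succ n ih =>
          rw [pow_succ, ih, List.range_succ, List.map_append, List.prod_append, map_mul, pow_succ, map_mul, List.map_singleton,
            List.prod_singleton, show (α ^ n) k = φ (α ^ n) k from rfl, ← inr_conj_inl]; group
      rw [this, hsplit, pow_orderOf_eq_one]; simp)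
    exact nil_top_iff.1 (Group.nilpotent_of_mulEquiv e.symm)

end Cfsg.Agent.S3946
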