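import Cfsg.Statements.S3949
import Cfsg.Agent.H8.Reg

set_option autoImplicit false
open Cfsg

namespace Cfsg.Agent.S3949

open Subgroup hiding commutator_def
open Function Cfsg.Agent.Hopf Cfsg.Agent.Reg
open scoped commutatorElement


/-- Let G be a finite group and α an automorphism of G of order 2 such that the elements g·α(g)⁻¹ generate G. Let j be a positive integer such that 2^j divides the order of no element inverted by α. Then the set of values of the j-th iterate of the map c ↦ c·α(c)⁻¹ is exactly the set of elements of odd order inverted by α. -/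
theorem result {G : Type*} [Group G] [Finite G] (α : MulAut G) (hα : orderOf α = 2) (hG : Subgroup.closure (Set.range (fun c : G => c * (α c)⁻¹)) = ⊤)
    (j : ℕ) (hj : ∀ g : G, α g = g⁻¹ → ¬ 2 ^ j ∣ orderOf g) :
    Set.range ((fun c : G => c * (α c)⁻¹)^[j]) = {g : G | Odd (orderOf g) ∧ α g = g⁻¹} := by
  have h2 : ∀ x, α (α x) = x := fun x => by
    have := pow_orderOf_eq_one α
    rw [hα, pow_two] at this
    exact DFunLike.congr_fun this x
  have h3 : ∀ (k : ℕ) (g : G), α g = g⁻¹ → (fun c : G => c * (α c)⁻¹)^[k] g = g ^ 2 ^ k := fun k g hg => by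
    induction k with
    | zero => simp
    | succ k ih => rw [iterate_succ_apply', ih, map_pow, hg, inv_pow, inv_inv, pow_succ, pow_mul, pow_two]
  obtain ⟨j, rfl⟩ : ∃ k, j = k + 1 := Nat.exists_eq_succ_of_ne_zero (by rintro rfl; exact hj 1 (by simp) (by simp))
  ext g
  constructor
  · rintro ⟨c, rfl⟩
    have h4 : α (c * (α c)⁻¹) = (c * (α c)⁻¹)⁻¹ := by simp [h2]
    rw [iterate_succ_apply, h3 _ _ h4]
    refine ⟨?_, by rw [map_pow, h4, inv_pow]⟩
    have h5 := hj _ h4
    generalize c * (α c)⁻¹ = y at h5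
    obtain ⟨k, m, hm, e⟩ := Nat.exists_eq_two_pow_mul_odd (orderOf_pos y).ne'
    have hk : k ≤ j := by
      by_contra hk
      exact h5 (e ▸ (pow_dvd_pow 2 (by omega)).mul_right m)
    refine hm.of_dvd_nat (orderOf_dvd_of_pow_eq_one ?_)
    rw [← pow_mul, ← orderOf_dvd_iff_pow_eq_one, e]
    exact Nat.mul_dvd_mul_right (pow_dvd_pow 2 hk) m
  · rintro ⟨h4, h5⟩
    obtain ⟨m, hm⟩ := exists_pow_eq_self_of_coprime (x := g) (n := 2 ^ (j + 1)) (Nat.Coprime.pow_left _ h4.coprime_two_left)
    refine ⟨g ^ m, ?_⟩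
    rw [h3 _ _ (by rw [map_pow, h5, inv_pow]), ← pow_mul, mul_comm, pow_mul, hm]

end Cfsg.Agent.S3949
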