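import Cfsg.Statements.S3972
import Mathlib
import Cfsg.Agent.S3559

set_option autoImplicit false
open Cfsg

namespace Cfsg.Agent.S3972

open Cfsg.Agent.H7 Subgroup MulAction Finset

open scoped Pointwise

theorem per {G X : Type*} [Group G] [MulAction G X] {g : G} {p m k : ℕ} (hp : p.Prime) (hg : orderOf g = p ^ m)
    {x : X} (h : g ^ k • x = x) (h1 : g ^ k ≠ 1) : g ^ p ^ (m - 1) • x = x := by
  obtain ⟨i, i1, i2⟩ := (Nat.dvd_prime_pow hp).1 (hg ▸ period_dvd_orderOf g x)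
  rw [pow_smul_eq_iff_period_dvd, i2] at h ⊢
  refine pow_dvd_pow p (Nat.le_sub_one_of_lt (lt_of_le_of_ne i1 fun e => h1 ?_))
  rw [← orderOf_dvd_iff_pow_eq_one, hg, ← e]
  exact h

theorem big {G Ω : Type*} [Group G] [Finite G] [MulAction G Ω] [Finite Ω] [IsPreprimitive G Ω] {C : Subgroup G}
    [IsCyclic C] [IsPretransitive C Ω] [Fintype C] {a y : Ω} {p : ℕ} [hp : Fact p.Prime]
    (hC : ∀ a : Ω, stabilizer C a = ⊥) (hd : p ∣ Nat.card C) (hx : ∃ c : C, c ^ p ≠ 1) (hy : y ≠ a) (T : Finset C)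
    (hT : ∀ s, s ∈ T ↔ ∃ g : G, g • a = a ∧ g • y = s • a) : Fintype.card C ≤ 2 * #T := by
  classical
  have hc : ∀ s t : C, s * t = t * s := IsCyclic.commGroup.mul_comm
  have hr : ∀ (s t : C) (u : Ω), s • u = t • u → s = t := fun s t u h =>
    Subtype.ext (eq_of_smul_eq_of_reg (hC u) s.2 t.2 h)
  have co : ∀ t ∈ T, t ^ p ≠ 1 → ∀ e : C, e ^ p = 1 → t * e ∈ T := fun t ht h e he =>
    (hT _).2 (S3559.coset hC hd ((hT t).1 ht) h he)
  obtain ⟨w, hw, hwp⟩ : ∃ w ∈ T, w ^ p ≠ 1 := by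
    by_contra! h
    have h4 := univ_of_closed (G := G) hy (B := {u | ∃ e : C, e ^ p = 1 ∧ e • a = u}) ⟨1, by simp⟩ (by
      rintro g ⟨e, he, hg⟩
      obtain ⟨s, hs⟩ := exists_smul_eq C a (((e : G)⁻¹ * g) • y)
      refine ⟨e * s, ?_, ?_⟩
      · rw [Commute.mul_pow (hc e s), he, h s ((hT s).2 ⟨_, by rw [mul_smul, ← hg]; exact inv_smul_smul e a, hs.symm⟩),
          one_mul]
      · rw [mul_smul, hs, mul_smul]
        exact smul_inv_smul e _)
    obtain ⟨c, hc⟩ := hx
    obtain ⟨e, he, h5⟩ := h4.ge (Set.mem_univ (c • a))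
    exact hc (hr _ _ _ h5 ▸ he)
  set W := {t ∈ T | t ^ p ≠ 1} with hW
  have a1 : #T ≤ 2 * #W := by
    have := card_filter_add_card_filter_not (s := T) fun t => t ^ p ≠ 1
    have b : #{t ∈ T | ¬ t ^ p ≠ 1} ≤ #W := card_le_card_of_injOn (fun e => w * e) (fun e he => by
      have he' : e ^ p = 1 := not_not.1 (mem_filter.1 he).2
      exact mem_filter.2 ⟨co w hw hwp e he', by rwa [Commute.mul_pow (hc w e), he', mul_one]⟩)
      fun _ _ _ _ => mul_left_cancel
    rw [← this, two_mul]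
    exact Nat.add_le_add_left b _
  have a2 : ∀ c : C, #W ≤ #{t ∈ T | c * t ∈ T} := fun c => by
    obtain ⟨e, he, g, g1, g2⟩ : ∃ e : C, e ^ p = 1 ∧ ∃ g : G, g • a = a ∧ g • c⁻¹ • a = e • a := by
      by_cases h : c⁻¹ • a = a
      · exact ⟨1, one_pow _, 1, one_smul _ _, by simp [h]⟩
      · exact S3559.meet hC hd h
    choose f hf using fun s : C => exists_smul_eq C a (g⁻¹ • s • a)
    refine card_le_card_of_injOn f (fun s hs => ?_) fun s _ s' _ h =>
      hr _ _ a (MulAction.injective g⁻¹ ((hf s).symm.trans (h ▸ hf s')))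
    obtain ⟨s1, s2⟩ := mem_filter.1 hs
    obtain ⟨k, k1, k2⟩ := (hT s).1 s1
    obtain ⟨l, l1, l2⟩ := (hT _).1 (co s s1 s2 e⁻¹ (by rw [inv_pow, he, inv_one]))
    refine mem_filter.2 ⟨(hT _).2 ⟨g⁻¹ * k, by rw [mul_smul, k1, inv_smul_eq_iff, g1], by rw [mul_smul, k2, hf]⟩,
      (hT _).2 ⟨c * g⁻¹ * e * l, ?_, ?_⟩⟩
    · rw [mul_smul, mul_smul, mul_smul, l1, show (e : G) • a = g • c⁻¹ • a from g2.symm, inv_smul_smul]
      exact smul_inv_smul c a
    · rw [mul_smul, mul_smul, mul_smul, l2, mul_smul c, hf, hc, mul_smul,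
        show (e : G) • e⁻¹ • s • a = s • a from smul_inv_smul e _]
      rfl
  have a3 : ∑ c : C, #{t ∈ T | c * t ∈ T} = #T * #T := by
    simp only [card_filter]
    rw [sum_comm, ← smul_eq_mul, ← sum_const]
    refine sum_congr rfl fun t _ => ?_
    rw [← card_filter]
    exact card_bij (fun c _ => c * t) (fun c hc => (mem_filter.1 hc).2) (fun _ _ _ _ => mul_right_cancel)
      fun b hb => ⟨b * t⁻¹, by simpa using hb, by simp⟩
  have a4 : Fintype.card C * #W ≤ #T * #T := by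
    rw [← a3, ← card_univ, ← smul_eq_mul]
    exact card_nsmul_le_sum _ _ _ fun c _ => a2 c
  have a5 : 0 < #W := card_pos.2 ⟨w, mem_filter.2 ⟨hw, hwp⟩⟩
  refine Nat.le_of_mul_le_mul_right (a4.trans ?_) a5
  nlinarith

/-- Let `p` be a prime, `m ≥ 2`, and `G` a transitive but not doubly transitive permutation group on `p ^ m` points containing a permutation of order `p ^ m` (necessarily a full cycle). Then `G` is imprimitive, and the normal closure in `G` of the `p ^ (m - 1)`-th power of that permutation is an intransitive normal subgroup. -/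
theorem result {Ω : Type*} [Fintype Ω] [DecidableEq Ω] (p m : ℕ) (hp : p.Prime) (hm : 2 ≤ m) (hΩ : Fintype.card Ω = p ^ m) (G : Subgroup (Equiv.Perm Ω)) (htr : MulAction.IsPretransitive G Ω) (h2 : ¬ MulAction.IsMultiplyPretransitive G Ω 2) (g : G) (hg : orderOf g = p ^ m) : ¬ MulAction.IsPreprimitive G Ω ∧ ¬ MulAction.IsPretransitive (Subgroup.normalClosure ({g ^ (p ^ (m - 1))} : Set G)) Ω := by
  classical
  haveI := Fact.mk hp
  have hz : g ^ p ^ (m - 1) ≠ 1 := fun e => by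
    rw [← orderOf_dvd_iff_pow_eq_one, hg, Nat.pow_dvd_pow_iff_le_right hp.one_lt] at e
    omega
  obtain ⟨a, ha⟩ : ∃ a : Ω, g ^ p ^ (m - 1) • a ≠ a := by
    by_contra! h
    exact hz (Subtype.ext (Equiv.ext h))
  have hnat : ∀ c : zpowers g, ∃ k : ℕ, g ^ k = c := fun c => (mem_powers_iff_mem_zpowers.2 c.2 :)
  have h0 : ∀ c : zpowers g, c • a = a → c = 1 := fun c hc => by
    obtain ⟨k, hk⟩ := hnat c
    by_contra e
    exact ha (per hp hg (k := k) (hk ▸ hc) (hk ▸ fun e' => e (Subtype.ext e')))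
  have hcard : Nat.card (zpowers g) = p ^ m := (Nat.card_zpowers g).trans hg
  have hsur : Function.Surjective fun c : zpowers g => c • a := (Function.Injective.bijective_of_nat_card_le
    (fun c d h => by
      have : (d⁻¹ * c) • a = a := by rw [mul_smul, inv_smul_eq_iff]; exact h
      exact (inv_mul_eq_one.1 (h0 _ this)).symm) (by rw [hcard, Nat.card_eq_fintype_card, hΩ])).2
  haveI : IsPretransitive (zpowers g) Ω := ⟨fun u v => by
    obtain ⟨c, rfl⟩ := hsur u
    obtain ⟨d, rfl⟩ := hsur v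
    exact ⟨d * c⁻¹, by simp [mul_smul]⟩⟩
  have hC : ∀ b : Ω, stabilizer (zpowers g) b = ⊥ := fun b => eq_bot_iff.2 fun c hc => by
    obtain ⟨d, rfl⟩ := hsur b
    have : (d⁻¹ * c * d) • a = a := by rw [mul_smul, mul_smul, inv_smul_eq_iff]; exact hc
    exact mem_bot.2 (by rw [← mul_inv_cancel_left d c, ← mul_inv_cancel_right (d⁻¹ * c) d, h0 _ this]; simp)
  have h1 : ¬ IsPreprimitive G Ω := fun hpr => h2 (two_trans_of_stab a fun y z hy hz => by
    by_contra! h
    haveI := Fintype.ofFinite (zpowers g)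
    have hd : p ∣ Nat.card (zpowers g) := hcard ▸ dvd_pow_self p (by omega)
    have hx : ∃ c : zpowers g, c ^ p ≠ 1 := ⟨⟨g, mem_zpowers g⟩, fun e => by
      have := orderOf_dvd_of_pow_eq_one (congrArg Subtype.val e : g ^ p = 1)
      rw [hg] at this
      have := (Nat.pow_dvd_pow_iff_le_right hp.one_lt).1 (this.trans (pow_one p).symm.dvd)
      omega⟩
    have b1 := big hC hd hx hy {s | ∃ g : G, g • a = a ∧ g • y = s • a} fun s => by simp
    have b2 := big hC hd hx hz {s | ∃ g : G, g • a = a ∧ g • z = s • a} fun s => by simp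
    have b3 : ∀ y ≠ a, (1 : zpowers g) ∉ ({s | ∃ g : G, g • a = a ∧ g • y = s • a} : Finset (zpowers g)) :=
      fun y hy e => by
        obtain ⟨k, k1, k2⟩ := (mem_filter.1 e).2
        exact hy (MulAction.injective k (k2.trans ((one_smul _ _).trans k1.symm)))
    have b4 := card_lt_univ_of_notMem (x := 1) (notMem_union.2 ⟨b3 y hy, b3 z hz⟩)
    rw [card_union_of_disjoint (disjoint_left.2 fun s s1 s2 => ?_)] at b4
    · omega
    obtain ⟨k, k1, k2⟩ := (mem_filter.1 s1).2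
    obtain ⟨l, l1, l2⟩ := (mem_filter.1 s2).2
    exact h (l⁻¹ * k) (by rw [mul_smul, k1, inv_smul_eq_iff, l1]) (by rw [mul_smul, k2, inv_smul_eq_iff, l2]))
  refine ⟨h1, fun ht => h1 { isTrivialBlock_of_isBlock := fun {B} hB => ?_ }⟩
  refine or_iff_not_imp_left.2 fun hs => ?_
  obtain ⟨u, hu, v, hv, huv⟩ := Set.not_subsingleton_iff.1 hs
  have hle : normalClosure {g ^ p ^ (m - 1)} ≤ (stabilizer G B).normalCore := normalClosure_le_normal (by
    rintro _ rfl x
    obtain ⟨c, hc⟩ := exists_smul_eq (zpowers g) (x⁻¹ • u) (x⁻¹ • v)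
    obtain ⟨k, hk⟩ := hnat c
    have e : g ^ k • x⁻¹ • u = x⁻¹ • v := hk ▸ hc
    have := per hp hg ((hB.translate x⁻¹).smul_eq_of_mem (Set.smul_mem_smul_set hu) (e ▸ Set.smul_mem_smul_set hv))
      fun e' => huv (MulAction.injective x⁻¹ (by simpa [e'] using e))
    rw [mem_stabilizer_iff, mul_smul, mul_smul, this, smul_inv_smul])
  refine Set.eq_univ_of_forall fun w => ?_
  obtain ⟨n, rfl⟩ := ht.exists_smul_eq u w
  exact (mem_stabilizer_iff.1 (normalCore_le _ (hle n.2))).le (Set.smul_mem_smul_set hu)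

end Cfsg.Agent.S3972
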