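import Cfsg.Statements.S3982
import Cfsg.Agent.GS.Lem1

set_option autoImplicit false
open Cfsg

namespace Cfsg.Agent.S3982

open Cfsg.Agent.H1

/-- Let p be an odd prime and G a finite group of even order divisible by p in which the centralizer of every non-identity p-element has odd order. If some nontrivial p-subgroup of G has a normalizer of even order, then the normalizer of every Sylow p-subgroup of G has even order. -/
theorem result {G : Type*} [Group G] [Finite G] (p : ℕ) [Fact p.Prime] (hp2 : p ≠ 2) (hpG : p ∣ Nat.card G) (h2G : 2 ∣ Nat.card G) (hC : ∀ g : G, g ≠ 1 → (∃ k : ℕ, orderOf g = p ^ k) → Odd (Nat.card ↥(Subgroup.centralizer ({g} : Set G)))) (Q : Subgroup G) (hQ : IsPGroup p ↥Q) (hQ1 : Q ≠ ⊥) (hev : Even (Nat.card ↥(Subgroup.normalizer (Q : Set G)))) (P : Sylow p G) : Even (Nat.card ↥(Subgroup.normalizer ((P : Subgroup G) : Set G))) := by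
  open Subgroup Pointwise commutatorElement Cfsg.Agent.BG Cfsg.Agent.GS in
  open Cfsg.Agent.H2 hiding card_lt_of_lt card_lt_of_ne_top isMulCommutative_of_le isPGroup_zpowers_iff mem_of_pow_mem_of_coprime inf_eq_bot_of_cop exists_maxElem_ge Sec in
  open Cfsg.Agent.H8 (Op Opp Fit SN) in
  open Cfsg.Agent.L (FPF) in focus
    obtain ⟨y, hyQ, hy⟩ := exists_ord2_mem_of_even hev
    have hy2 := ord2_mul_self hy
    obtain ⟨R, hQR, ⟨hR, hyR⟩, hmax⟩ := exists_maximal_ge (fun R => IsPGroup p R ∧ y ∈ 𝒩 R) ⟨hQ, hyQ⟩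
    have np : ∀ z : G, orderOf z = 2 → ∀ X ≤ 𝒞₁ z, IsPGroup p X → X = ⊥ := fun z hz X h1 h2 => by
      by_contra e
      obtain ⟨x, hx, x1⟩ := exists_ne_one e
      exact odd_card_iff.1 (hC x x1 (orderOf_eq_pow_of_mem h2 hx)) z (mem_cent1_comm.1 (h1 hx)) hz
    have hR1 := ne_bot_mono hQ1 hQR
    obtain ⟨-, hc⟩ := L.inverts_of_involution hy2 hyR (np y hy _ inf_le_right (isPGroup_of_le hR inf_le_left))
    have ho : Odd ♯(𝒞 R) := odd_card_iff.2 fun t ht e => hR1 (np t e R (le_cent1_iff.2 ht) hR)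
    obtain ⟨S, hS, h1, h2⟩ := exists_inv_sylIn_ge (A := zpowers y) (zpowers_le.2 (normalizer_le_normalizer_centralizer R hyR))
      (by rw [Nat.card_zpowers, hy]; exact Nat.coprime_two_left.2 ho) (Or.inl (isSolvable_zpowers y)) (le_cent_self hc) hR
      (zpowers_le.2 hyR)
    obtain rfl := hmax S ⟨hS.pgrp, h2 (mem_zpowers y)⟩ h1
    have inv : ∀ g ∈ 𝒩 S, ∀ s ∈ S, (g * y * g⁻¹) * s * (g * y * g⁻¹)⁻¹ = s⁻¹ := fun g hg =>
      (L.inverts_of_involution (ord2_mul_self ((orderOf_conj' g y).trans hy)) (mul_mem (mul_mem hg hyR) (inv_mem hg))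
        (np _ ((orderOf_conj' g y).trans hy) _ inf_le_right (isPGroup_of_le hR inf_le_left))).1
    have h3 : ∀ g ∈ 𝒩 S, ∃ c ∈ 𝒞 S, ∃ x ∈ 𝒩 S ⊓ 𝒞₁ y, g = c * x := by
      intro g hg
      have h4 : y * (g * y * g⁻¹) ∈ 𝒞 S := fun s hs => by
        have a := inv g hg s hs
        have b := inv 1 (one_mem _) s⁻¹ (inv_mem hs)
        rw [one_mul, inv_one, mul_one, inv_inv, ← a] at b
        calc _ = y * (g * y * g⁻¹ * s * (g * y * g⁻¹)⁻¹) * y⁻¹ * (y * (g * y * g⁻¹)) := by rw [b]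
          _ = _ := by group
      obtain ⟨k, hk⟩ := conj_of_odd hy2 (ord2_mul_self ((orderOf_conj' g y).trans hy))
        (Odd.of_dvd_nat ho (orderOf_dvd_card_of_mem h4))
      refine ⟨_, pow_mem h4 k, ((y * (g * y * g⁻¹)) ^ k)⁻¹ * g,
        ⟨mul_mem ((𝒩 S).inv_mem (cent_le_norm S (pow_mem h4 k))) hg, mem_centralizer_singleton_conj.2 ?_⟩, by group⟩
      generalize (y * (g * y * g⁻¹)) ^ k = c at hk
      calc _ = c⁻¹ * (g * y * g⁻¹) * c := by group
        _ = y := by rw [← hk]; group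
    have h5 := (forall_mul_iff_relIndex_eq inf_le_left (cent_le_norm S)).1 (forall_mul_symm h3)
    have h6 : ¬ p ∣ ♯(𝒩 S ⊓ 𝒞₁ y : Subgroup G) := fun e => by
      obtain ⟨X, a, b⟩ := exists_card_eq_prime Fact.out e
      exact ne_bot_of_card_eq b (np y hy X (a.trans inf_le_right) (isPGroup_of_card_eq b))
    have h7 : SylIn p S ⊤ := sylIn_of_sylIn_normalizer (by
      rw [top_inf_eq]
      exact hS.trans_of_not_dvd (cent_le_norm S) fun e => h6 ((h5 ▸ e).trans (BL.relIndex_dvd_card' _ _)))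
    obtain ⟨g, -, hg⟩ := h7.exists_cj_eq (sylIn_top P)
    rw [← hg, ← cj_normalizer, card_cj]
    exact even_card_of_ord2_mem hyR hy

end Cfsg.Agent.S3982
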