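import Cfsg.Statements.S3983
import Cfsg.Agent.GS.Lem1

set_option autoImplicit false
open scoped Pointwise
open Cfsg

namespace Cfsg.Agent.S3983

open Cfsg.Agent.H1

section
open Subgroup Pointwise commutatorElement Cfsg.Agent.BG Cfsg.Agent.GS
open Cfsg.Agent.H2 hiding card_lt_of_lt card_lt_of_ne_top isMulCommutative_of_le isPGroup_zpowers_iff mem_of_pow_mem_of_coprime inf_eq_bot_of_cop exists_maxElem_ge Sec
open Cfsg.Agent.H8 (Op Opp Fit SN)
open Cfsg.Agent.L (FPF)
universe u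

theorem ti_all {G : Type u} [Group G] [Finite G] {p : ℕ} [Fact p.Prime] (P : Sylow p G)
    (hTI : ∀ g : G, g ∉ 𝒩 (P : Subgroup G) → (P : Subgroup G) ⊓ (MulAut.conj g • (P : Subgroup G)) = ⊥)
    {S T : Subgroup G} (hS : SylIn p S ⊤) (hT : SylIn p T ⊤) (h : S ⊓ T ≠ ⊥) : S = T := by
  obtain ⟨g, -, rfl⟩ := (sylIn_top P).exists_cj_eq hS
  obtain ⟨k, -, rfl⟩ := (sylIn_top P).exists_cj_eq hT
  by_contra e
  refine h ((cj_eq_bot_iff (g := g⁻¹)).1 ?_)
  rw [cj_inf, cj_inv_cj, ← cj_mul]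
  refine hTI _ fun h1 => e ?_
  rw [← cj_cj_inv g (k ⋆ _), ← cj_mul g⁻¹, cj_eq_of_mem_normalizer h1]

end

/-- Let P be a Sylow p-subgroup of the finite group G that meets each conjugate g P g⁻¹ with g outside N_G(P) trivially, and let U be a subgroup of G of order divisible by p. Then a Sylow p-subgroup Q of U has the same property inside U: Q meets each conjugate u Q u⁻¹ with u ∈ U outside N_U(Q) trivially. -/
theorem result {G : Type*} [Group G] [Finite G] (p : ℕ) [Fact p.Prime] (P : Sylow p G) (hTI : ∀ g : G, g ∉ Subgroup.normalizer ((P : Subgroup G) : Set G) → (P : Subgroup G) ⊓ (MulAut.conj g • (P : Subgroup G)) = ⊥) (U : Subgroup G) (hU : p ∣ Nat.card ↥U) (Q : Sylow p ↥U) : ∀ u : ↥U, u ∉ Subgroup.normalizer ((Q : Subgroup ↥U) : Set ↥U) → (Q : Subgroup ↥U) ⊓ (MulAut.conj u • (Q : Subgroup ↥U)) = ⊥ := by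
  open Subgroup Pointwise commutatorElement Cfsg.Agent.BG Cfsg.Agent.GS in
  open Cfsg.Agent.H2 hiding card_lt_of_lt card_lt_of_ne_top isMulCommutative_of_le isPGroup_zpowers_iff mem_of_pow_mem_of_coprime inf_eq_bot_of_cop exists_maxElem_ge Sec in
  open Cfsg.Agent.H8 (Op Opp Fit SN) in
  open Cfsg.Agent.L (FPF) in focus
    intro u hu
    by_contra e
    have h1 := sylIn_map_subtype Q
    obtain ⟨S, hS, h2⟩ := exists_sylIn_ge h1.pgrp le_top
    have h3 : S ⊓ U = (Q : Subgroup U).map U.subtype :=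
      h1.max _ inf_le_right (isPGroup_of_le hS.pgrp inf_le_left) (le_inf h2 h1.le)
    have h4 : S = (u : G) ⋆ S := by
      refine ti_all P hTI hS (hS.cj_of_mem (mem_top _)) fun e2 => e ?_
      rw [← map_eq_bot_iff_of_injective _ U.subtype_injective, eq_bot_iff, ← e2]
      refine (map_inf_le _ _ _).trans (inf_le_inf h2 ?_)
      exact (map_cj U.subtype u _).le.trans (cj_mono _ h2)
    refine hu (mem_normalizer_iff_cj.2 (map_injective U.subtype_injective ?_))
    rw [map_cj, ← h3, cj_inf]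
    exact congrArg₂ _ h4.symm (cj_eq_of_mem u.2)

end Cfsg.Agent.S3983
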