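import Cfsg.Statements.S3984
import Cfsg.Agent.GS.Lem1
import Cfsg.Agent.S3983

set_option autoImplicit false
open scoped Pointwise
open Cfsg

namespace Cfsg.Agent.S3984

open Cfsg.Agent.H1

/-- Let P be a Sylow p-subgroup of the finite group G that meets each conjugate g P g⁻¹ with g outside N_G(P) trivially, and let N be a normal subgroup of G of order prime to p. Then every Sylow p-subgroup Q of G ⧸ N meets each conjugate x Q x⁻¹ with x outside its normalizer trivially. -/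
theorem result {G : Type*} [Group G] [Finite G] (p : ℕ) [Fact p.Prime] (P : Sylow p G) (hTI : ∀ g : G, g ∉ Subgroup.normalizer ((P : Subgroup G) : Set G) → (P : Subgroup G) ⊓ (MulAut.conj g • (P : Subgroup G)) = ⊥) (N : Subgroup G) [N.Normal] (hN : (Nat.card ↥N).Coprime p) (Q : Sylow p (G ⧸ N)) : ∀ x : G ⧸ N, x ∉ Subgroup.normalizer ((Q : Subgroup (G ⧸ N)) : Set (G ⧸ N)) → (Q : Subgroup (G ⧸ N)) ⊓ (MulAut.conj x • (Q : Subgroup (G ⧸ N))) = ⊥ := by
  open Subgroup Pointwise commutatorElement Cfsg.Agent.BG Cfsg.Agent.GS in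
  open Cfsg.Agent.H2 hiding card_lt_of_lt card_lt_of_ne_top isMulCommutative_of_le isPGroup_zpowers_iff mem_of_pow_mem_of_coprime inf_eq_bot_of_cop exists_maxElem_ge Sec in
  open Cfsg.Agent.H8 (Op Opp Fit SN) in
  open Cfsg.Agent.L (FPF) in focus
    intro x hx
    by_contra e
    obtain ⟨z, ⟨z1, z2⟩, z3⟩ := exists_ne_one e
    obtain ⟨w, hw, rfl⟩ := exists_lift_pelt N (orderOf_eq_pow_of_mem Q.isPGroup' z1)
    obtain ⟨S, a1, a2, a3⟩ := exists_lift_sylow N (sylIn_top Q) (pgroup_zpowers_iff.2 hw) (zpowers_le.2 z1)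
    obtain ⟨T, b1, b2, b3⟩ := exists_lift_sylow N ((sylIn_top Q).cj_of_mem (mem_top x)) (pgroup_zpowers_iff.2 hw) (zpowers_le.2 z2)
    obtain rfl := S3983.ti_all P hTI a1 b1 (ne_bot_of_mem ⟨a2 (mem_zpowers w), b2 (mem_zpowers w)⟩ fun e => z3 (by rw [e, map_one]))
    exact hx (mem_normalizer_iff_cj.2 (b3.symm.trans a3))

end Cfsg.Agent.S3984
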