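import Cfsg.Statements.S3985
import Cfsg.Agent.GS.Lem1

set_option autoImplicit false
open scoped Pointwise
open Cfsg

namespace Cfsg.Agent.S3985

open Cfsg.Agent.H1

/-- Let P be a cyclic Sylow p-subgroup of the finite group G. Then P meets each conjugate g P g⁻¹ with g outside N_G(P) trivially if and only if P is weakly self-centralizing: C_G(x) = C_G(P) for every non-identity x ∈ P. -/
theorem result {G : Type*} [Group G] [Finite G] (p : ℕ) [Fact p.Prime] (P : Sylow p G) (hcyc : IsCyclic ↥(P : Subgroup G)) : (∀ g : G, g ∉ Subgroup.normalizer ((P : Subgroup G) : Set G) → (P : Subgroup G) ⊓ (MulAut.conj g • (P : Subgroup G)) = ⊥) ↔ ∀ x : G, x ∈ (P : Subgroup G) → x ≠ 1 → Subgroup.centralizer ({x} : Set G) = Subgroup.centralizer ((P : Subgroup G) : Set G) := by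
  open Subgroup Pointwise commutatorElement Cfsg.Agent.BG Cfsg.Agent.GS in
  open Cfsg.Agent.H2 hiding card_lt_of_lt card_lt_of_ne_top isMulCommutative_of_le isPGroup_zpowers_iff mem_of_pow_mem_of_coprime inf_eq_bot_of_cop exists_maxElem_ge Sec in
  open Cfsg.Agent.H8 (Op Opp Fit SN) in
  open Cfsg.Agent.L (FPF) in focus
    constructor
    · intro h x hx h1
      refine le_antisymm ?_ (cent1_le_cent hx)
      have h2 : 𝒞₁ x ≤ 𝒩 (P : Subgroup G) := fun g hg => by
        by_contra e
        refine ne_bot_of_mem (X := P ⊓ g ⋆ (P : Subgroup G)) ⟨hx, ?_⟩ h1 (h g e)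
        rw [← conj_eq_of_mem_cent1 hg]; exact conj_mem_cj g hx
      refine le_of_forall_isPGroup_le fun q hq R h3 h4 => ?_
      have := Fact.mk hq
      by_cases e : q = p
      · subst e
        exact ((sylIn_top P).le_of_le_normalizer h4 le_top (h3.trans h2)).trans (le_cent_self (comm_of_cyclic hcyc))
      · exact le_cent_of_cyclic_pgroup hcyc P.isPGroup' (h3.trans h2) (coprime_pgroups h4 P.isPGroup' e)
          (ne_bot_of_mem ⟨hx, le_cent1_iff.1 h3⟩ h1)
    · intro h g hg
      by_contra e
      obtain ⟨x, ⟨x1, x2⟩, x3⟩ := exists_ne_one e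
      have h1 : g ⋆ (P : Subgroup G) ≤ 𝒞₁ x := le_cent1_of_comm (comm_cj (comm_of_cyclic hcyc) g) x2
      rw [h x x1 x3] at h1
      exact hg (mem_normalizer_of_cj_le ((sylIn_top P).le_of_le_normalizer (isPGroup_cj g P.isPGroup') le_top
        (h1.trans (cent_le_norm _))))

end Cfsg.Agent.S3985
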