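import Cfsg.Statements.S3986
import Cfsg.Agent.GS.Lem1

set_option autoImplicit false
open Cfsg

namespace Cfsg.Agent.S3986

open Cfsg.Agent.H1

section
open Subgroup Pointwise commutatorElement Cfsg.Agent.BG Cfsg.Agent.GS
open Cfsg.Agent.H2 hiding card_lt_of_lt card_lt_of_ne_top isMulCommutative_of_le isPGroup_zpowers_iff mem_of_pow_mem_of_coprime inf_eq_bot_of_cop exists_maxElem_ge Sec
open Cfsg.Agent.H8 (Op Opp Fit SN)
open Cfsg.Agent.L (FPF)
universe u

theorem dp_iff {G : Type u} [Group G] [Finite G] (p : ℕ) [Fact p.Prime] :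
    (∃ (P : Sylow p G) (K : Subgroup G), (P : Subgroup G).Normal ∧ K.Normal ∧ (P : Subgroup G) ⊓ K = ⊥ ∧
      (P : Subgroup G) ⊔ K = ⊤) ↔ ∀ x y : G, (∃ a : ℕ, orderOf x = p ^ a) → (orderOf y).Coprime p → x * y = y * x := by
  constructor
  · rintro ⟨P, K, h1, h2, h3, h4⟩ x y hx hy
    have h5 : y ∈ K := by
      refine mem_of_coprime_index ?_
      rw [← relIndex_top_right, ← h4, relIndex_sup_right]
      exact ((coprime_card_of_isPGroup P.isPGroup' hy).coprime_dvd_left (BL.relIndex_dvd_card' _ _)).symm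
    exact (le_centralizer_of_normal_of_disjoint h3 ((SylIn.normal_iff (sylIn_top P)).1 h1 x hx) y h5).symm
  · intro h
    obtain ⟨P⟩ : Nonempty (Sylow p G) := inferInstance
    obtain ⟨h1, h2⟩ := dp_of_cent (sylIn_top P) fun y _ hy x hx => h x y (orderOf_eq_pow_of_mem P.isPGroup' hx) hy
    exact ⟨P, Opp p ⊤, normal_iff_top_le.2 h1, normal_iff_top_le.2 (H8.le_normalizer_Opp _ _),
      disjoint_of_isPGroup_of_coprime P.isPGroup' (H8.Opp_coprime _ _), by rw [sup_comm, PNil_Opp_sup h2 (sylIn_top P)]⟩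

end

/-- Let p be a prime and G a finite group. Then some Sylow p-subgroup of G is a direct factor of G (it is normal and has a normal complement) if and only if every element of p-power order commutes with every element whose order is a power of a prime other than p. -/
theorem result {G : Type*} [Group G] [Finite G] (p : ℕ) [Fact p.Prime] : (∃ (P : Sylow p G) (K : Subgroup G), (P : Subgroup G).Normal ∧ K.Normal ∧ (P : Subgroup G) ⊓ K = ⊥ ∧ (P : Subgroup G) ⊔ K = ⊤) ↔ ∀ x y : G, (∃ a : ℕ, orderOf x = p ^ a) → (∃ q b : ℕ, q.Prime ∧ q ≠ p ∧ orderOf y = q ^ b) → x * y = y * x := by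
  open Subgroup Pointwise commutatorElement Cfsg.Agent.BG Cfsg.Agent.GS in
  open Cfsg.Agent.H2 hiding card_lt_of_lt card_lt_of_ne_top isMulCommutative_of_le isPGroup_zpowers_iff mem_of_pow_mem_of_coprime inf_eq_bot_of_cop exists_maxElem_ge Sec in
  open Cfsg.Agent.H8 (Op Opp Fit SN) in
  open Cfsg.Agent.L (FPF) in focus
    rw [dp_iff]
    refine ⟨fun h x y hx ⟨q, b, h1, h2, h3⟩ => h x y hx (h3 ▸ ((Nat.coprime_primes h1 Fact.out).2 h2).pow_left b),
      fun h x y hx hy => mem_cent1.1 (mem_cent_of_forall_qelt hy fun q h1 h2 z _ ⟨b, hb⟩ => mem_cent1.2 (h x z hx ⟨q, b, h1, h2, hb⟩))⟩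

end Cfsg.Agent.S3986
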