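import Cfsg.Statements.S3987
import Cfsg.Agent.GS.Lem1
import Cfsg.Agent.S3986

set_option autoImplicit false
open Cfsg

namespace Cfsg.Agent.S3987

open Cfsg.Agent.H1

/-- Let p be a prime and G a finite group. Then some Sylow p-subgroup of G is a direct factor of G (normal with a normal complement) if and only if for every element x of p-power order and every element y whose order is a power of a prime other than p, the conjugacy class of x y has as many elements as the product of the sizes of the classes of x and of y. -/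
theorem result {G : Type*} [Group G] [Finite G] (p : ℕ) [Fact p.Prime] : (∃ (P : Sylow p G) (K : Subgroup G), (P : Subgroup G).Normal ∧ K.Normal ∧ (P : Subgroup G) ⊓ K = ⊥ ∧ (P : Subgroup G) ⊔ K = ⊤) ↔ ∀ x y : G, (∃ a : ℕ, orderOf x = p ^ a) → (∃ q b : ℕ, q.Prime ∧ q ≠ p ∧ orderOf y = q ^ b) → (Subgroup.centralizer ({x * y} : Set G)).index = (Subgroup.centralizer ({x} : Set G)).index * (Subgroup.centralizer ({y} : Set G)).index := by
  open Subgroup Pointwise commutatorElement Cfsg.Agent.BG Cfsg.Agent.GS in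
  open Cfsg.Agent.H2 hiding card_lt_of_lt card_lt_of_ne_top isMulCommutative_of_le isPGroup_zpowers_iff mem_of_pow_mem_of_coprime inf_eq_bot_of_cop exists_maxElem_ge Sec in
  open Cfsg.Agent.H8 (Op Opp Fit SN) in
  open Cfsg.Agent.L (FPF) in focus
    constructor
    · intro h x y hx ⟨q, b, h1, h2, h3⟩
      have hy : (orderOf y).Coprime p := h3 ▸ ((Nat.coprime_primes h1 Fact.out).2 h2).pow_left b
      have h4 := (S3986.dp_iff p).1 h
      obtain ⟨a, ha⟩ := hx
      rw [cent1_mul_of_coprime (h4 x y ⟨a, ha⟩ hy) (ha ▸ (hy.symm.pow_left a))]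
      refine index_inf_of_coprime (PiN.coprime (π := {p}) (fun r hr hd => ?_) ((piN_compl_iff' Fact.out).2 ?_))
      · by_contra e
        have := Fact.mk hr
        obtain ⟨R, hR⟩ := exists_sylIn r (⊤ : Subgroup G)
        exact not_dvd_index_of_sylIn hR (fun z hz => mem_cent1.2 (h4 x z ⟨a, ha⟩
          (H8.orderOf_coprime_of_mem (coprime_primes_pgroup hR.pgrp e) hz))) hd
      · obtain ⟨R, hR⟩ := exists_sylIn p (⊤ : Subgroup G)
        exact not_dvd_index_of_sylIn hR fun z hz => mem_cent1.2 (h4 z y (orderOf_eq_pow_of_mem hR.pgrp hz) hy).symm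
    · intro h
      refine (S3986.result p).2 fun x y hx hy => ?_
      have h1 := h x y hx hy
      rw [← card_isConj_eq_index, ← card_isConj_eq_index, ← card_isConj_eq_index, ← Nat.card_prod] at h1
      have h2 : ∀ w : {w // IsConj (x * y) w}, ∃ v : {a // IsConj x a} × {b // IsConj y b}, v.1.1 * v.2.1 = w := by
        rintro ⟨w, hw⟩
        obtain ⟨c, rfl⟩ := isConj_iff.1 hw
        exact ⟨⟨⟨c * x * c⁻¹, isConj_iff.2 ⟨c, rfl⟩⟩, ⟨c * y * c⁻¹, isConj_iff.2 ⟨c, rfl⟩⟩⟩, by simp only; group⟩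
      choose f hf using h2
      have h3 : Function.Injective f := fun a b e => Subtype.ext (by rw [← hf a, ← hf b, e])
      have h4 := (h3.bijective_of_nat_card_le h1.ge).2
      obtain ⟨a, ha⟩ := h4 ⟨⟨x, IsConj.refl x⟩, ⟨y, IsConj.refl y⟩⟩
      obtain ⟨b, hb⟩ := h4 ⟨⟨y⁻¹ * x * y⁻¹⁻¹, isConj_iff.2 ⟨_, rfl⟩⟩, ⟨(x * y)⁻¹ * y * (x * y)⁻¹⁻¹, isConj_iff.2 ⟨_, rfl⟩⟩⟩
      have h5 : a = b := Subtype.ext (by rw [← hf a, ← hf b, ha, hb]; simp only; group)
      have h6 := congrArg (fun v => v.1.1) (ha.symm.trans (h5 ▸ hb))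
      simp only at h6
      calc x * y = y * (y⁻¹ * x * y⁻¹⁻¹) := by group
        _ = _ := by rw [← h6]

end Cfsg.Agent.S3987
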