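import Cfsg.Statements.S4013
import Cfsg.Agent.GS.Lem1

set_option autoImplicit false
open Cfsg

namespace Cfsg.Agent.S4013

open Cfsg.Agent.H1

/-- Let G be a finite p-group (p prime) and N < M normal subgroups of G such that for some g ∈ M ∖ N the conjugacy class of g is exactly M ∖ N. Then p = 2 and N has index 2 in M. -/
theorem result {G : Type*} [Group G] [Finite G] (p : ℕ) [Fact p.Prime] (hG : IsPGroup p G) (N M : Subgroup G) [N.Normal] [M.Normal] (hNM : N < M) (g : G) (hgM : g ∈ M) (hgN : g ∉ N) (hcl : {h : G | IsConj g h} = (M : Set G) \ (N : Set G)) : p = 2 ∧ N.relIndex M = 2 := by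
  open Subgroup Pointwise commutatorElement Cfsg.Agent.BG Cfsg.Agent.GS in
  open Cfsg.Agent.H2 hiding card_lt_of_lt card_lt_of_ne_top isMulCommutative_of_le isPGroup_zpowers_iff mem_of_pow_mem_of_coprime inf_eq_bot_of_cop exists_maxElem_ge Sec in
  open Cfsg.Agent.H8 (Op Opp Fit SN) in
  open Cfsg.Agent.L (FPF) in focus
    have h1 := ncard_isConj g
    have h2 := Set.ncard_sdiff_add_ncard_of_subset (s := (N : Set G)) (t := (M : Set G)) hNM.le
    rw [← hcl, h1, ncard_coe, ncard_coe, ← card_mul_relIndex hNM.le] at h2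
    obtain ⟨a, ha⟩ := hG.index (𝒞₁ g)
    obtain ⟨b, hb⟩ := exists_relIndex_eq_pow (hG.to_subgroup M) N
    have hb0 : b ≠ 0 := fun e => hNM.not_ge (relIndex_eq_one.1 (by rw [hb, e, pow_zero]))
    have h3 : N.relIndex M - 1 ∣ p ^ a := ⟨♯N, by rw [← ha, Nat.sub_mul, mul_comm]; omega⟩
    obtain ⟨i, -, hi⟩ := (Nat.dvd_prime_pow Fact.out).1 h3
    have hp : 2 ≤ p := (Fact.out : p.Prime).two_le
    have h4 : p ≤ p ^ b := Nat.le_self_pow hb0 p
    have h5 : i = 0 := by
      by_contra e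
      have h6 : p ∣ p ^ b - (p ^ b - 1) := Nat.dvd_sub (dvd_pow_self p hb0) (by rw [← hb, hi]; exact dvd_pow_self p e)
      rw [show p ^ b - (p ^ b - 1) = 1 by omega] at h6
      exact (Fact.out : p.Prime).not_dvd_one h6
    rw [h5, pow_zero] at hi
    omega

end Cfsg.Agent.S4013
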