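import Cfsg.Statements.S4022
import Cfsg.Agent.H1.Hall
import Cfsg.Agent.H1.Frattini

set_option autoImplicit false
open Cfsg

namespace Cfsg.Agent.S4022

open Cfsg.Agent Subgroup
open scoped Pointwise commutatorElement
universe u
variable {G : Type u} [Group G]

def DD (G : Type u) [Group G] : Prop := ∀ p : ℕ, p.Prime → ∀ H K : Subgroup G, IsPGroup p H → IsPGroup p K →
  Nat.card H = Nat.card K → ∃ g : G, K = MulAut.conj g • H

theorem cardq [Finite G] {N A : Subgroup G} [N.Normal] (h : (Nat.card N).Coprime (Nat.card A)) :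
    Nat.card (A.map (QuotientGroup.mk' N)) = Nat.card A := by
  rw [← relIndex_ker, QuotientGroup.ker_mk', ← inf_relIndex_right, inf_eq_bot_of_coprime h, relIndex_bot_left]

theorem cardc [Finite G] {N : Subgroup G} [N.Normal] (A : Subgroup (G ⧸ N)) :
    Nat.card (A.comap (QuotientGroup.mk' N)) * A.index = Nat.card G := by
  rw [← index_comap_of_surjective A (QuotientGroup.mk'_surjective N), card_mul_index]

theorem cardc' [Finite G] {N : Subgroup G} [N.Normal] {A B : Subgroup (G ⧸ N)} (h : Nat.card A = Nat.card B) :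
    Nat.card (A.comap (QuotientGroup.mk' N)) = Nat.card (B.comap (QuotientGroup.mk' N)) := by
  have h1 : A.index = B.index := Nat.eq_of_mul_eq_mul_left (Nat.card_pos (α := A)) (by
    rw [card_mul_index, h, card_mul_index])
  exact Nat.eq_of_mul_eq_mul_right (Nat.pos_of_ne_zero (index_ne_zero_of_finite (H := A))) (by rw [cardc, h1, cardc])

theorem mapc {N : Subgroup G} [N.Normal] (A : Subgroup G) (g : G) :
    (MulAut.conj g • A).map (QuotientGroup.mk' N) = MulAut.conj (g : G ⧸ N) • A.map (QuotientGroup.mk' N) := by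
  change (A.map (MulAut.conj g).toMonoidHom).map _ = (A.map _).map (MulAut.conj (g : G ⧸ N)).toMonoidHom
  rw [map_map, map_map]; congr 1

theorem liftq [Finite G] {N : Subgroup G} [N.Normal] {q : ℕ} [Fact q.Prime] {A : Subgroup (G ⧸ N)} (hA : IsPGroup q A) :
    ∃ B : Subgroup G, IsPGroup q B ∧ B.map (QuotientGroup.mk' N) = A := by
  obtain ⟨S⟩ := (inferInstance : Nonempty (Sylow q (A.comap (QuotientGroup.mk' N))))
  have hs := MonoidHom.subgroupComap_surjective_of_surjective (QuotientGroup.mk' N) A (QuotientGroup.mk'_surjective N)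
  have h1 := (S.mapSurjective hs).3 (hA.to_subgroup ⊤) le_top
  refine ⟨(S : Subgroup (A.comap (QuotientGroup.mk' N))).map (A.comap (QuotientGroup.mk' N)).subtype, S.2.map _, le_antisymm ?_ fun a ha => ?_⟩
  · rintro _ ⟨_, ⟨x, -, rfl⟩, rfl⟩
    exact x.2
  · have h2 : (⟨a, ha⟩ : A) ∈ (S : Subgroup _).map ((QuotientGroup.mk' N).subgroupComap A) := by
      rw [← Sylow.coe_mapSurjective hs, ← h1]; trivial
    obtain ⟨x, hx, hxa⟩ := h2
    exact ⟨x, ⟨x, hx, rfl⟩, congrArg Subtype.val hxa⟩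

theorem pcop [Finite G] {p q : ℕ} (hp : p.Prime) (hq : q.Prime) (h : p ≠ q) {A B : Subgroup G} (hA : IsPGroup p A)
    (hB : IsPGroup q B) : (Nat.card A).Coprime (Nat.card B) := by
  haveI := Fact.mk hp
  haveI := Fact.mk hq
  exact IsPGroup.coprime_card_of_ne p q h A B hA hB

theorem DD.quo [Finite G] (h : DD G) {p : ℕ} (hp : p.Prime) {N : Subgroup G} [N.Normal] (hN : IsPGroup p N) : DD (G ⧸ N) := by
  intro q hq A B hA hB hc
  haveI := Fact.mk hq
  by_cases hpq : p = q
  · subst hpq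
    have hk : IsPGroup p (QuotientGroup.mk' N).ker := by rw [QuotientGroup.ker_mk']; exact hN
    obtain ⟨g, hg⟩ := h p hp _ _ (hA.comap_of_ker_isPGroup _ hk) (hB.comap_of_ker_isPGroup _ hk) (cardc' hc)
    refine ⟨g, ?_⟩
    rw [← map_comap_eq_self_of_surjective (QuotientGroup.mk'_surjective N) B, hg, mapc,
      map_comap_eq_self_of_surjective (QuotientGroup.mk'_surjective N)]
  · obtain ⟨A, hA', rfl⟩ := liftq hA
    obtain ⟨B, hB', rfl⟩ := liftq hB
    rw [cardq (pcop hp hq hpq hN hA'), cardq (pcop hp hq hpq hN hB')] at hc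
    obtain ⟨g, rfl⟩ := h q hq A B hA' hB' hc
    exact ⟨g, mapc A g⟩

theorem eq_of_cyc [Finite G] [IsCyclic G] {H K : Subgroup G} (h : Nat.card H = Nat.card K) : H = K := by
  classical
  haveI := Fintype.ofFinite G
  have key : ∀ A : Subgroup G, (A : Set G) = {x | x ^ Nat.card A = 1} := by
    intro A
    apply Set.eq_of_subset_of_ncard_le
    · intro x hx
      exact congrArg Subtype.val (pow_card_eq_one' (x := (⟨x, hx⟩ : A)))
    · have := IsCyclic.card_pow_eq_one_le (α := G) (n := Nat.card A) Nat.card_pos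
      rw [← Set.ncard_coe_finset, Finset.coe_filter_univ] at this
      exact this
    · exact Set.toFinite _
  exact SetLike.coe_injective (by rw [key H, key K, h])

theorem dd_of_cyc [Finite G] (h : ∀ p : ℕ, p.Prime → ∀ P : Sylow p G, IsCyclic P) : DD G := by
  intro p hp A B hA hB hc
  haveI := Fact.mk hp
  obtain ⟨P, hP⟩ := hA.exists_le_sylow
  obtain ⟨Q, hQ⟩ := hB.exists_le_sylow
  obtain ⟨g, rfl⟩ := MulAction.exists_smul_eq G P Q
  refine ⟨g, ?_⟩
  haveI : IsCyclic ((g • P : Sylow p G) : Subgroup G) := h p hp (g • P)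
  have h1 : MulAut.conj g • A ≤ ((g • P : Sylow p G) : Subgroup G) := by
    rw [Sylow.coe_subgroup_smul]; exact pointwise_smul_le_pointwise_smul_iff.2 hP
  have h2 : Nat.card (MulAut.conj g • A : Subgroup G) = Nat.card A := card_map_of_injective (MulAut.conj g).injective
  have h3 : B.subgroupOf ((g • P : Sylow p G) : Subgroup G) = (MulAut.conj g • A).subgroupOf _ :=
    eq_of_cyc (by rw [Nat.card_congr (subgroupOfEquivOfLe hQ).toEquiv, Nat.card_congr (subgroupOfEquivOfLe h1).toEquiv, h2, hc])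
  rw [← inf_eq_left.2 hQ, ← inf_eq_left.2 h1, ← subgroupOf_map_subtype, ← subgroupOf_map_subtype, h3]

theorem cconj (A : Subgroup G) (g : G) : Nat.card (MulAut.conj g • A : Subgroup G) = Nat.card A :=
  card_map_of_injective (MulAut.conj g).injective

theorem nconj {N : Subgroup G} [hN : N.Normal] (g : G) : MulAut.conj g • N = N := hN.conj_smul_eq_self g N

theorem dec [Finite G] {p : ℕ} [hp : Fact p.Prime] {N H H1 : Subgroup G} [N.Normal] (hN : IsPGroup p N) (hi : ¬ p ∣ N.index)
    (h1 : IsPiHallOf {p}ᶜ H1 H) : (H ⊓ N) ⊔ H1 = H ∧ Nat.card H = Nat.card ↥(H ⊓ N) * Nat.card H1 := by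
  have a1 : ¬ p ∣ (H ⊓ N).relIndex H := by
    rw [inf_comm, inf_relIndex_right]; exact fun h => hi (h.trans (relIndex_dvd_index_of_normal N H))
  have a2 : (H ⊓ N) ⊔ H1 = H := by
    apply le_antisymm (sup_le inf_le_left h1.1)
    rw [← relIndex_eq_one]
    by_contra hne
    obtain ⟨s, hs, hd⟩ := Nat.exists_prime_and_dvd hne
    by_cases hsp : s = p
    · exact a1 (hsp ▸ hd.trans (relIndex_dvd_of_le_left H le_sup_left))
    · exact h1.2.2 s hs hsp (hd.trans (relIndex_dvd_of_le_left H le_sup_right))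
  refine ⟨a2, ?_⟩
  have a3 : (Nat.card ↥(H ⊓ N)).Coprime (Nat.card H1) := by
    obtain ⟨k, hk⟩ := IsPGroup.iff_card.1 (hN.to_inf_right (H := H))
    rw [hk]
    exact ((Nat.Prime.coprime_iff_not_dvd hp.out).2 fun h => h1.2.1 p hp.out h rfl).pow_left k
  apply Nat.dvd_antisymm
  · have a4 := Cfsg.Agent.H1.card_sup_dvd (A := H1) (K := H ⊓ N) (fun x hx =>
      mem_normalizer_fintype fun y hy => ⟨H.mul_mem (H.mul_mem (h1.1 hx) hy.1) (H.inv_mem (h1.1 hx)), ‹N.Normal›.conj_mem y hy.2 x⟩)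
    rwa [sup_comm, a2, mul_comm] at a4
  · exact a3.mul_dvd_of_dvd_of_dvd (card_dvd_of_le inf_le_left) (card_dvd_of_le h1.1)

theorem main (n : ℕ) : ∀ (G : Type u) [Group G] [Finite G], Nat.card G = n → Group.IsSolvable G → DD G →
    ∀ r : ℕ, (∀ p : ℕ, p.Prime → p ≠ r → ∀ P : Sylow p G, IsCyclic P) →
    ∀ H K : Subgroup G, Nat.card H = Nat.card K → ∃ g : G, K = MulAut.conj g • H := by
  induction n using Nat.strong_induction_on with
  | _ n ih =>
  intro G _ _ hn hs hD r hcyc H K hHK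
  by_cases ht : (⊤ : Subgroup G) = ⊥
  · exact ⟨1, by rw [map_one, one_smul, le_bot_iff.1 (ht ▸ le_top : H ≤ ⊥), le_bot_iff.1 (ht ▸ le_top : K ≤ ⊥)]⟩
  obtain ⟨N, p, hNn, hN1, -, hp, hE, -⟩ := H1.exists_minimal_normal_elementary (⊤ : Subgroup G) ht inferInstance
  haveI := Fact.mk hp
  have hN : IsPGroup p N := fun x => ⟨1, Subtype.ext (by simpa using hE.2 x x.2)⟩
  obtain ⟨k, hk⟩ := IsPGroup.iff_card.1 hN
  have huq : ∀ W : Subgroup G, Nat.card W = p ^ k → W = N := fun W hW => by
    obtain ⟨g, hg⟩ := hD p hp N W hN (IsPGroup.of_card hW) (hk.trans hW.symm)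
    rw [hg, nconj]
  have hlt : Nat.card (G ⧸ N) < n := by
    have h1 := N.card_mul_index
    have h2 : 1 < Nat.card N := (one_lt_card_iff_ne_bot N).2 hN1
    have h3 : 0 < N.index := Nat.pos_of_ne_zero index_ne_zero_of_finite
    change N.index < _
    nlinarith
  have IQ := ih _ hlt (G ⧸ N) rfl inferInstance (hD.quo hp hN) r (fun q hq hqr P => by
    haveI := Fact.mk hq
    obtain ⟨P, rfl⟩ := Sylow.mapSurjective_surjective (QuotientGroup.mk'_surjective N) q P
    haveI : IsCyclic (P : Subgroup G) := hcyc q hq hqr P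
    exact isCyclic_of_surjective _ (MonoidHom.subgroupMap_surjective (QuotientGroup.mk' N) (P : Subgroup G)))
  have hsup : ∀ A : Subgroup G, (A.map (QuotientGroup.mk' N)).comap (QuotientGroup.mk' N) = A ⊔ N := fun A => by
    rw [comap_map_eq, QuotientGroup.ker_mk']
  rcases k with _ | _ | k
  · exact absurd (card_eq_one.1 (by simpa using hk)) hN1
  · by_cases hd : p ∣ Nat.card H
    · have hle : ∀ A : Subgroup G, p ∣ Nat.card A → N ≤ A := fun A hA => by
        obtain ⟨x, hx⟩ := exists_prime_orderOf_dvd_card' (G := A) p hA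
        rw [← huq (zpowers (x : G)) (by rw [Nat.card_zpowers, orderOf_coe, hx]; simp)]
        exact zpowers_le.2 x.2
      have hc : ∀ A : Subgroup G, N ≤ A → Nat.card (A.map (QuotientGroup.mk' N)) * Nat.card N = Nat.card A := fun A hA => by
        rw [← relIndex_ker, QuotientGroup.ker_mk', mul_comm, ← Nat.card_congr (subgroupOfEquivOfLe hA).toEquiv]
        exact card_mul_index _
      obtain ⟨g, hg⟩ := IQ (H.map (QuotientGroup.mk' N)) (K.map (QuotientGroup.mk' N))
        (Nat.eq_of_mul_eq_mul_right (Nat.card_pos (α := N)) (by rw [hc H (hle H hd), hc K (hle K (hHK ▸ hd)), hHK]))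
      obtain ⟨g, rfl⟩ := QuotientGroup.mk_surjective g
      rw [← mapc] at hg
      have h1 := congrArg (comap (QuotientGroup.mk' N)) hg
      rw [hsup, hsup, sup_eq_left.2 (hle K (hHK ▸ hd)), sup_eq_left.2 (hle _ (by rw [cconj]; exact hd))] at h1
      exact ⟨g, h1⟩
    · have hc : (Nat.card N).Coprime (Nat.card H) := by
        rw [hk]; exact ((Nat.Prime.coprime_iff_not_dvd hp).2 hd).pow_left _
      obtain ⟨g, hg⟩ := IQ (H.map (QuotientGroup.mk' N)) (K.map (QuotientGroup.mk' N)) (by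
        rw [cardq hc, cardq (hHK ▸ hc), hHK])
      obtain ⟨g, rfl⟩ := QuotientGroup.mk_surjective g
      rw [← mapc] at hg
      have h1 := congrArg (comap (QuotientGroup.mk' N)) hg
      rw [hsup, hsup] at h1
      have h2 : IsPiHallOf {p}ᶜ K (K ⊔ N) := by
        refine ⟨le_sup_left, fun s _ h hs => hd (hHK ▸ hs ▸ h), fun s hs hsp h => hsp ?_⟩
        have a4 := H1.card_sup_dvd (A := K) (K := N) (by rw [normalizer_eq_top]; exact le_top)
        rw [← card_mul_index (K.subgroupOf (K ⊔ N)), Nat.card_congr (subgroupOfEquivOfLe le_sup_left).toEquiv, hk] at a4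
        exact (Nat.prime_dvd_prime_iff_eq hs hp).1 (hs.dvd_of_dvd_pow (h.trans (Nat.dvd_of_mul_dvd_mul_left Nat.card_pos a4)))
      obtain ⟨t, -, ht⟩ := H1.hallOf_conj_le inferInstance h2 (U := MulAut.conj g • H) (h1 ▸ le_sup_left)
        (fun s _ h hs => hd (by rw [cconj] at h; exact hs ▸ h))
      refine ⟨t * g, ?_⟩
      rw [map_mul, mul_smul]
      exact (eq_of_le_of_card_ge ht (by rw [cconj, cconj, hHK])).symm
  · have hpr : p = r := by
      by_contra hne
      obtain ⟨P, hP⟩ := hN.exists_le_sylow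
      haveI : IsCyclic (P : Subgroup G) := hcyc p hp hne P
      haveI : IsCyclic N := isCyclic_of_le hP
      have h1 : Monoid.exponent N ∣ p := Monoid.exponent_dvd_of_forall_pow_eq_one fun x => Subtype.ext (hE.2 x x.2)
      rw [IsCyclic.exponent_eq_card, hk] at h1
      have h2 := Nat.le_of_dvd hp.pos h1
      have h3 := Nat.pow_lt_pow_right hp.one_lt (show 1 < k + 1 + 1 by omega)
      rw [pow_one] at h3
      omega
    have hi : ¬ p ∣ N.index := by
      intro hd
      obtain ⟨q, hq⟩ := exists_prime_orderOf_dvd_card' (G := G ⧸ N) p hd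
      obtain ⟨g, rfl⟩ := QuotientGroup.mk_surjective q
      have h1 : g ^ p ∈ N := by rw [← QuotientGroup.eq_one_iff, QuotientGroup.mk_pow, ← hq, pow_orderOf_eq_one]
      have h2 : orderOf g ∣ p ^ 2 := orderOf_dvd_of_pow_eq_one (by rw [pow_two, pow_mul]; exact hE.2 _ h1)
      obtain ⟨j, hj, hj'⟩ := (Nat.dvd_prime_pow hp).1 h2
      obtain ⟨W, hW, hgW⟩ := Sylow.exists_subgroup_card_pow_prime_le p (hk ▸ N.card_subgroup_dvd_card) (zpowers g)
        (by rw [Nat.card_zpowers, hj']) (by omega)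
      rw [huq W hW] at hgW
      rw [(QuotientGroup.eq_one_iff g).2 (hgW (mem_zpowers g)), orderOf_one] at hq
      exact hp.one_lt.ne hq
    obtain ⟨H1, hH1⟩ := Cfsg.Agent.H1.exists_hallOf {p}ᶜ (K := H) inferInstance
    obtain ⟨K1, hK1⟩ := Cfsg.Agent.H1.exists_hallOf {p}ᶜ (K := K) inferInstance
    obtain ⟨a1, a2⟩ := dec hN hi hH1
    obtain ⟨b1, b2⟩ := dec hN hi hK1
    obtain ⟨i, hi1⟩ := IsPGroup.iff_card.1 (hN.to_inf_right (H := H))
    obtain ⟨j, hj1⟩ := IsPGroup.iff_card.1 (hN.to_inf_right (H := K))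
    have c1 : ¬ p ∣ Nat.card H1 := fun h => hH1.2.1 p hp h rfl
    have c2 : ¬ p ∣ Nat.card K1 := fun h => hK1.2.1 p hp h rfl
    have e1 : Nat.card ↥(H ⊓ N) = Nat.card ↥(K ⊓ N) := by
      apply Nat.dvd_antisymm
      · refine Nat.Coprime.dvd_of_dvd_mul_right (k := _) (n := Nat.card K1) (hi1 ▸ ((Nat.Prime.coprime_iff_not_dvd hp).2 c2).pow_left i) ?_
        rw [← b2, ← hHK, a2]; exact Dvd.intro _ rfl
      · refine Nat.Coprime.dvd_of_dvd_mul_right (k := _) (n := Nat.card H1) (hj1 ▸ ((Nat.Prime.coprime_iff_not_dvd hp).2 c1).pow_left j) ?_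
        rw [← a2, hHK, b2]; exact Dvd.intro _ rfl
    have e2 : Nat.card H1 = Nat.card K1 := Nat.eq_of_mul_eq_mul_left (Nat.card_pos (α := ↥(H ⊓ N))) (by
      rw [← a2, hHK, b2, e1])
    obtain ⟨g, hg⟩ := hD p hp _ _ (hN.to_inf_right (H := H)) (hN.to_inf_right (H := K)) e1
    have hnn : ∀ A : Subgroup G, A ≤ normalizer ((A ⊓ N : Subgroup G) : Set G) := fun A x hx =>
      mem_normalizer_fintype fun y hy => ⟨A.mul_mem (A.mul_mem hx hy.1) (A.inv_mem hx), hNn.conj_mem y hy.2 x⟩
    have hT1 : MulAut.conj g • H1 ≤ normalizer ((K ⊓ N : Subgroup G) : Set G) := by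
      rw [hg, smul_inf, nconj (N := N)]
      exact (pointwise_smul_le_pointwise_smul_iff.2 hH1.1).trans (hnn _)
    obtain ⟨L, hL, hKL⟩ := Cfsg.Agent.H1.exists_hallOf_ge {p}ᶜ (K := normalizer ((K ⊓ N : Subgroup G) : Set G)) inferInstance
      (hK1.1.trans (hnn K)) hK1.2.1
    obtain ⟨t, ht, htL⟩ := Cfsg.Agent.H1.hallOf_conj_le inferInstance hL hT1 (fun s hs h => hH1.2.1 s hs (by rwa [cconj] at h))
    have hLp : ¬ p ∣ Nat.card L := fun h => hL.2.1 p hp h rfl
    have hLc : ∀ q : ℕ, q.Prime → ∀ P : Sylow q L, IsCyclic P := by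
      intro q hq P
      haveI := Fact.mk hq
      by_cases hqp : q = p
      · subst hqp
        obtain ⟨m, hm⟩ := IsPGroup.iff_card.1 P.2
        have : m = 0 := by
          by_contra h0
          exact hLp ((dvd_pow_self q h0).trans (hm ▸ (P : Subgroup L).card_subgroup_dvd_card))
        haveI : Subsingleton (P : Subgroup L) := (Nat.card_eq_one_iff_unique.1 (by rw [hm, this, pow_zero])).1
        exact (inferInstance : IsCyclic (P : Subgroup L))
      · obtain ⟨Q, hQ⟩ := (P.2.map L.subtype).exists_le_sylow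
        haveI : IsCyclic (Q : Subgroup G) := hcyc q hq (hpr ▸ hqp) Q
        haveI := isCyclic_of_le hQ
        exact isCyclic_of_surjective _ ((P : Subgroup L).equivMapOfInjective _ L.subtype_injective).symm.surjective
    have hLlt : Nat.card L < n := by
      refine lt_of_le_of_ne (hn ▸ L.card_le_card_group) fun h => hLp ?_
      rw [h, ← hn]
      exact (dvd_pow_self p (by omega)).trans (hk ▸ N.card_subgroup_dvd_card)
    obtain ⟨l, hl⟩ := ih _ hLlt L rfl inferInstance (dd_of_cyc hLc) r (fun q hq _ => hLc q hq)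
      ((MulAut.conj t • MulAut.conj g • H1).subgroupOf L) (K1.subgroupOf L) (by
        rw [Nat.card_congr (subgroupOfEquivOfLe htL).toEquiv, Nat.card_congr (subgroupOfEquivOfLe hKL).toEquiv, cconj, cconj, e2])
    have h5 : K1 = MulAut.conj (l : G) • MulAut.conj t • MulAut.conj g • H1 := by
      symm
      apply eq_of_le_of_card_ge _ (by rw [cconj, cconj, cconj, e2])
      rintro _ ⟨y, hy, rfl⟩
      have : (l * ⟨y, htL hy⟩ * l⁻¹ : L) ∈ K1.subgroupOf L := by
        rw [hl]; exact ⟨⟨y, htL hy⟩, hy, rfl⟩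
      exact this
    have h6 : ∀ x ∈ normalizer ((K ⊓ N : Subgroup G) : Set G), MulAut.conj x • (K ⊓ N) = K ⊓ N := by
      intro x hx
      apply eq_of_le_of_card_ge _ (cconj _ _).ge
      rintro _ ⟨y, hy, rfl⟩
      exact (mem_normalizer_iff.1 hx y).1 hy
    refine ⟨l * t * g, ?_⟩
    rw [map_mul, map_mul, mul_smul, mul_smul, ← a1, smul_sup, smul_sup, smul_sup, ← hg, h6 t ht, h6 l (hL.1 l.2), ← h5, b1]

/-- Let G be a finite solvable group in which, for every prime p, any two p-subgroups of the same order are conjugate, and suppose the Sylow p-subgroups of G are cyclic for all primes p with at most one exception. Then any two subgroups of G of the same order are conjugate. -/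
theorem result {G : Type*} [Group G] [Finite G]
    [Group.IsSolvable G] (hD : ∀ p : ℕ, p.Prime → ∀ H K : Subgroup G, IsPGroup p H → IsPGroup p K → Nat.card H = Nat.card K →
      ∃ g : G, K = H.map (MulAut.conj g).toMonoidHom)
    (r : ℕ) (hcyc : ∀ p : ℕ, p.Prime → p ≠ r → ∀ P : Sylow p G, IsCyclic P) :
    ∀ H K : Subgroup G, Nat.card H = Nat.card K → ∃ g : G, K = H.map (MulAut.conj g).toMonoidHom := by
  exact main _ G rfl inferInstance hD r hcyc

end Cfsg.Agent.S4022
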