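import Cfsg.Statements.S4023
import Cfsg.Agent.L.PCyc2
import Cfsg.Agent.L.PGroup
import Cfsg.Agent.H1.PGrp
import Cfsg.Agent.H1.Basic

set_option autoImplicit false
open Cfsg

namespace Cfsg.Agent.S4023

open Cfsg.Agent Subgroup
open scoped Pointwise commutatorElement
theorem core {Q : Type*} [Group Q] [Finite Q] {p : ℕ} [hp : Fact p.Prime] (hQ : IsPGroup p Q)
    (hiso : ∀ A B : Subgroup Q, Nat.card A = Nat.card B → Nonempty (A ≃* B)) :
    IsCyclic Q ∨ (IsMulCommutative Q ∧ ∀ x : Q, x ^ p = 1) ∨ (p = 2 ∧ Nonempty (Q ≃* QuaternionGroup 2)) ∨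
      (p ≠ 2 ∧ ¬ IsMulCommutative Q ∧ Nat.card Q = p ^ 3 ∧ Monoid.exponent Q = p) := by
  by_cases hE : ∀ E : Subgroup Q, IsElementaryAbelian p E → Nat.card E ≠ p ^ 2
  · rcases L.isCyclic_or_quaternion_of_rank_one hQ hE with h | ⟨rfl, n, hn, ⟨e⟩⟩
    · exact Or.inl h
    rcases n with _ | _ | m
    · omega
    · exact Or.inr (Or.inr (Or.inl ⟨rfl, ⟨e⟩⟩))
    exfalso
    have h1 : orderOf (e.symm (QuaternionGroup.a 1 ^ 2 ^ m)) = 2 ^ 3 := by
      rw [MulEquiv.orderOf_eq, orderOf_pow_of_dvd (by positivity) (by rw [QuaternionGroup.orderOf_a_one]; exact ⟨8, by ring⟩),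
        QuaternionGroup.orderOf_a_one]
      exact Nat.div_eq_of_eq_mul_right (by positivity) (by ring)
    obtain ⟨W, hW, hyW⟩ := Sylow.exists_subgroup_card_pow_prime_le 2 (n := 2) (m := 3) (by rw [← h1]; exact _root_.orderOf_dvd_natCard _)
      (zpowers (e.symm (QuaternionGroup.xa 0))) (by rw [Nat.card_zpowers, MulEquiv.orderOf_eq, QuaternionGroup.orderOf_xa]; rfl) (by norm_num)
    obtain ⟨φ⟩ := hiso (zpowers (e.symm (QuaternionGroup.a 1 ^ 2 ^ m))) W (by rw [Nat.card_zpowers, h1, hW])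
    haveI : IsCyclic W := isCyclic_of_surjective φ φ.surjective
    obtain ⟨w, hw⟩ := IsCyclic.exists_generator (α := W)
    have h2 : orderOf (e w) = 2 ^ 3 := by rw [MulEquiv.orderOf_eq, orderOf_coe, orderOf_eq_card_of_forall_mem_zpowers hw, hW]
    obtain ⟨k, hk⟩ := mem_powers_iff_mem_zpowers.2 (hw ⟨_, hyW (mem_zpowers _)⟩)
    have h3 : e w ^ k = QuaternionGroup.xa 0 := by
      have := congrArg (fun t : W => e t) hk
      simpa using this
    generalize e w = u at h2 h3
    rcases u with i | i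
    · have : ∀ k : ℕ, ∃ j, (QuaternionGroup.a i : QuaternionGroup (2 ^ (m + 1 + 1))) ^ k = QuaternionGroup.a j := by
        intro k
        induction k with
        | zero => exact ⟨0, rfl⟩
        | succ k ih => obtain ⟨j, hj⟩ := ih; exact ⟨j + i, by rw [pow_succ (QuaternionGroup.a i), hj]; rfl⟩
      obtain ⟨j, hj⟩ := this k
      rw [hj] at h3
      cases h3
    · rw [QuaternionGroup.orderOf_xa] at h2
      norm_num at h2
  push Not at hE
  obtain ⟨E, hE, hE2⟩ := hE
  have hx : ∀ x : Q, x ^ p = 1 := by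
    intro x
    obtain ⟨k, hk⟩ := IsPGroup.iff_orderOf.1 hQ x
    rcases k with _ | _ | k
    · exact orderOf_dvd_iff_pow_eq_one.1 (by rw [hk]; simp)
    · exact orderOf_dvd_iff_pow_eq_one.1 (by rw [hk]; simp)
    exfalso
    have h1 : orderOf (x ^ p ^ k) = p ^ 2 := by
      rw [orderOf_pow_of_dvd (pow_ne_zero _ hp.out.ne_zero) (by rw [hk]; exact ⟨p ^ 2, by ring⟩), hk]
      exact Nat.div_eq_of_eq_mul_right (pow_pos hp.out.pos _) (by ring)
    obtain ⟨φ⟩ := hiso (zpowers (x ^ p ^ k)) E (by rw [Nat.card_zpowers, h1, hE2])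
    have h2 : (φ ⟨_, mem_zpowers _⟩) ^ p = 1 := Subtype.ext (hE.2 _ (φ ⟨_, mem_zpowers _⟩).2)
    have h3 := Nat.le_of_dvd hp.out.pos (orderOf_dvd_of_pow_eq_one h2)
    rw [MulEquiv.orderOf_eq, orderOf_mk, h1] at h3
    nlinarith [hp.out.two_le]
  by_cases hc : IsMulCommutative Q
  · exact Or.inr (Or.inl ⟨hc, hx⟩)
  right; right; right
  have hzc : ∀ x : Q, Nat.card (zpowers x) ∣ p := fun x => by
    rw [Nat.card_zpowers]; exact orderOf_dvd_of_pow_eq_one (hx x)
  haveI : Nontrivial Q := by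
    by_contra h
    rw [not_nontrivial_iff_subsingleton] at h
    exact hc ⟨⟨fun a b => Subsingleton.elim _ _⟩⟩
  refine ⟨?_, hc, ?_, (Monoid.exponent_eq_prime_iff hp.out).2 fun g hg => orderOf_eq_prime (hx g) hg⟩
  · rintro rfl
    refine hc ⟨⟨fun a b => ?_⟩⟩
    have h1 : ∀ x : Q, x⁻¹ = x := fun x => inv_eq_of_mul_eq_one_right (by rw [← pow_two, hx])
    rw [← h1 (a * b), mul_inv_rev, h1, h1]
  obtain ⟨n, hn⟩ := IsPGroup.iff_card.1 hQ
  have h2 : 2 ≤ n := (Nat.pow_dvd_pow_iff_le_right hp.out.one_lt).1 (hE2 ▸ hn ▸ E.card_subgroup_dvd_card)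
  have h3 : n ≠ 2 := by rintro rfl; exact hc (IsPGroup.isMulCommutative_of_card_eq_prime_sq hn)
  by_cases h4 : n = 3
  · rw [hn, h4]
  exfalso
  obtain ⟨N, hNn, -, hN⟩ := L.exists_normal_card_pow hQ ⊤ 2 (by rw [card_top, hn]; exact pow_dvd_pow p h2)
  have hNc := IsPGroup.isMulCommutative_of_card_eq_prime_sq hN
  have h5 := H1.relIndex_centralizer_dvd_of_card_dvd_sq (P := ⊤) (hQ.to_subgroup ⊤) hN.dvd (by rw [normalizer_eq_top])
  rw [relIndex_top_right] at h5
  obtain ⟨w, hw, hwN⟩ : ∃ w ∈ centralizer (N : Set Q), w ∉ N := by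
    by_contra h
    push Not at h
    have h6 := (index_dvd_of_le h).trans h5
    have h7 := N.card_mul_index
    have h8 : p ^ n ∣ p ^ 3 := by rw [← hn, ← h7, hN, pow_succ p 2]; exact mul_dvd_mul_left _ h6
    have := (Nat.pow_dvd_pow_iff_le_right hp.out.one_lt).1 h8
    omega
  have hA : Nat.card ↥(zpowers w ⊔ N) = p ^ 3 := by
    have h6 := (H1.card_sup_dvd (A := zpowers w) (K := N) (by rw [normalizer_eq_top]; exact le_top)).trans
      (mul_dvd_mul (hzc w) hN.dvd)
    rw [← pow_succ'] at h6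
    obtain ⟨j, hj, hj'⟩ := (Nat.dvd_prime_pow hp.out).1 h6
    by_cases h7 : j = 3
    · rw [hj', h7]
    · exact absurd ((eq_of_le_of_card_ge (le_sup_right : N ≤ zpowers w ⊔ N) (by
        rw [hj', hN]; exact Nat.pow_le_pow_right hp.out.pos (by omega))).symm ▸ (le_sup_left : zpowers w ≤ zpowers w ⊔ N) (mem_zpowers w)) hwN
  have hAc : ∀ a ∈ zpowers w ⊔ N, ∀ b ∈ zpowers w ⊔ N, a * b = b * a := by
    have k1 : zpowers w ⊔ N ≤ centralizer (N : Set Q) := sup_le (zpowers_le.2 hw) (le_centralizer N)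
    have k2 : zpowers w ⊔ N ≤ centralizer ({w} : Set Q) := sup_le (zpowers_le.2 (mem_centralizer_singleton_iff.2 rfl))
      fun x hx => mem_centralizer_singleton_iff.2 (hw x hx)
    intro a ha b hb
    have : zpowers w ⊔ N ≤ centralizer ({b} : Set Q) := sup_le
      (zpowers_le.2 (mem_centralizer_singleton_iff.2 (mem_centralizer_singleton_iff.1 (k2 hb)).symm))
      fun x hx => mem_centralizer_singleton_iff.2 (k1 hb x hx)
    exact mem_centralizer_singleton_iff.1 (this ha)
  haveI : Nontrivial (Q ⧸ center Q) := QuotientGroup.nontrivial_iff.2 fun h =>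
    hc ⟨⟨fun a b => mem_center_iff.1 (h ▸ mem_top b) a⟩⟩
  obtain ⟨⟨x, hx1⟩, hx2⟩ := ne_bot_iff_exists_ne_one.1 ((nontrivial_iff_ne_bot _).1 (hQ.to_quotient (center Q)).center_nontrivial)
  obtain ⟨x, rfl⟩ := QuotientGroup.mk_surjective x
  apply hx2
  refine Subtype.ext ((QuotientGroup.eq_one_iff x).2 (mem_center_iff.2 fun y => ?_))
  have hcz : y * x * y⁻¹ * x⁻¹ ∈ center Q := by
    rw [← QuotientGroup.eq_one_iff]
    simp only [QuotientGroup.mk_mul, QuotientGroup.mk_inv]
    rw [mem_center_iff.1 hx1 (y : Q ⧸ center Q)]; group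
  generalize hc' : y * x * y⁻¹ * x⁻¹ = c at hcz
  have hcc : ∀ g : Q, g * c * g⁻¹ = c := fun g => by rw [mem_center_iff.1 hcz g]; group
  have u1 := (H1.card_sup_dvd (A := zpowers x) (K := zpowers c) (zpowers_le.2 (mem_normalizer_fintype fun t ht =>
    (zpowers_le.2 (show c ∈ (zpowers c).comap (MulAut.conj x).toMonoidHom from by
      change x * c * x⁻¹ ∈ zpowers c; rw [hcc]; exact mem_zpowers c)) ht))).trans (mul_dvd_mul (hzc x) (hzc c))
  have u2 := (H1.card_sup_dvd (A := zpowers y) (K := zpowers x ⊔ zpowers c) (zpowers_le.2 (mem_normalizer_fintype fun t ht =>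
    (show zpowers x ⊔ zpowers c ≤ (zpowers x ⊔ zpowers c).comap (MulAut.conj y).toMonoidHom from sup_le (zpowers_le.2 (by
      change y * x * y⁻¹ ∈ zpowers x ⊔ zpowers c
      have : y * x * y⁻¹ = c * x := by rw [← hc']; group
      rw [this]
      exact mul_mem (mem_sup_right (mem_zpowers c)) (mem_sup_left (mem_zpowers x)))) (zpowers_le.2 (by
      change y * c * y⁻¹ ∈ zpowers x ⊔ zpowers c; rw [hcc]; exact mem_sup_right (mem_zpowers c)))) ht))).trans (mul_dvd_mul (hzc y) u1)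
  rw [← pow_two, ← pow_succ'] at u2
  obtain ⟨j, hj, hj'⟩ := (Nat.dvd_prime_pow hp.out).1 u2
  obtain ⟨W, hW, hle⟩ := Sylow.exists_subgroup_card_pow_prime_le p (m := 3) (by rw [hn]; exact pow_dvd_pow p (by omega)) _ hj' hj
  obtain ⟨φ⟩ := hiso W _ (hW.trans hA.symm)
  have := φ.injective (a₁ := ⟨y, hle (mem_sup_left (mem_zpowers y))⟩ * ⟨x, hle (mem_sup_right (mem_sup_left (mem_zpowers x)))⟩)
    (a₂ := ⟨x, hle (mem_sup_right (mem_sup_left (mem_zpowers x)))⟩ * ⟨y, hle (mem_sup_left (mem_zpowers y))⟩) (by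
    rw [map_mul, map_mul]; exact Subtype.ext (hAc _ (φ _).2 _ (φ _).2))
  exact congrArg Subtype.val this

/-- Let p be a prime and G a finite group in which any two p-subgroups of the same order are conjugate, with Sylow p-subgroup P. Then P is cyclic, or elementary abelian, or p = 2 and P is a quaternion group of order 8, or p is odd and P is non-abelian of order p³ and exponent p. -/
theorem result {G : Type*} [Group G] [Finite G]
    {p : ℕ} [Fact p.Prime] (hC : ∀ H K : Subgroup G, IsPGroup p H → IsPGroup p K → Nat.card H = Nat.card K →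
      ∃ g : G, K = H.map (MulAut.conj g).toMonoidHom) (P : Sylow p G) :
    IsCyclic P ∨ Cfsg.IsElementaryAbelian p (P : Subgroup G) ∨
      (p = 2 ∧ Nonempty ((P : Subgroup G) ≃* QuaternionGroup 2)) ∨
      (p ≠ 2 ∧ ¬ IsMulCommutative P ∧ Nat.card P = p ^ 3 ∧ Monoid.exponent P = p) := by
  rcases core (Q := (P : Subgroup G)) P.2 (fun A B h => by
    obtain ⟨g, hg⟩ := hC (A.map (P : Subgroup G).subtype) (B.map (P : Subgroup G).subtype)
      ((P.2.to_subgroup A).map _) ((P.2.to_subgroup B).map _)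
      (by rw [card_map_of_injective (subtype_injective _), card_map_of_injective (subtype_injective _), h])
    exact ⟨((A.equivMapOfInjective _ (subtype_injective _)).trans
      (((A.map (P : Subgroup G).subtype).equivMapOfInjective _ (MulAut.conj g).injective).trans
        (MulEquiv.subgroupCongr hg.symm))).trans (B.equivMapOfInjective _ (subtype_injective _)).symm⟩) with h | h | h | h
  · exact Or.inl h
  · exact Or.inr (Or.inl ⟨h.1, fun a ha => congrArg Subtype.val (h.2 ⟨a, ha⟩)⟩)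
  · exact Or.inr (Or.inr (Or.inl h))
  · exact Or.inr (Or.inr (Or.inr h))

end Cfsg.Agent.S4023
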