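import Cfsg.Statements.S4024
import Cfsg.Agent.S4022
import Cfsg.Agent.L.PCyc2

set_option autoImplicit false
open Cfsg

namespace Cfsg.Agent.S4024

open Cfsg.Agent Subgroup Cfsg.Agent.S4022
open scoped Pointwise commutatorElement

/-- Let p be an odd prime and G a finite group in which any two p-subgroups of the same order are conjugate, with Sylow p-subgroup P. If H is a normal p-solvable subgroup of G whose order is divisible by p, then P is abelian, and either P ≤ H or P is cyclic. -/
theorem result {G : Type*} [Group G] [Finite G]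
    {p : ℕ} [Fact p.Prime] (hp : p ≠ 2) (hC : ∀ H K : Subgroup G, IsPGroup p H → IsPGroup p K → Nat.card H = Nat.card K →
      ∃ g : G, K = H.map (MulAut.conj g).toMonoidHom) (P : Sylow p G)
    (H : Subgroup G) [H.Normal] (hsolv : Cfsg.IsPSolvable p H) (hdiv : p ∣ Nat.card H) :
    IsMulCommutative P ∧ ((P : Subgroup G) ≤ H ∨ IsCyclic P) := by
  have hp' := (Fact.out : p.Prime)
  have hc0 := H1.coprime_pPrimeCore p H
  obtain ⟨M, hMn, hM, hMk⟩ := H1.IsPSolvable.exists_step hp' hsolv (pPrimeCore p H) (fun ht => by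
    rw [ht, card_top] at hc0
    exact (Nat.Prime.coprime_iff_not_dvd hp').1 hc0.symm hdiv)
  obtain ⟨k, hk⟩ := hMk.resolve_right fun hc => hM.not_ge (H1.le_pPrimeCore hMn (by
    rw [← card_mul_index ((pPrimeCore p H).subgroupOf M), Nat.card_congr (subgroupOfEquivOfLe hM.le).toEquiv]
    exact Nat.Coprime.mul_left hc0 hc))
  set K := pPrimeCore p G ⊓ H with hK
  haveI : K.Normal := inferInstance
  have hKc : (Nat.card K).Coprime p := Nat.Coprime.coprime_dvd_left (card_dvd_of_le inf_le_left) (H1.coprime_pPrimeCore p G)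
  have hKe : (pPrimeCore p H).map H.subtype = K := by
    apply le_antisymm (le_inf (H1.map_pPrimeCore_le_pPrimeCore p H) (map_subtype_le _))
    exact H1.le_map_pPrimeCore inf_le_right (by rw [normalizer_eq_top]; exact le_top) hKc
  have hcp : ∀ A : Subgroup G, IsPGroup p A → (Nat.card K).Coprime (Nat.card A) := fun A hA => by
    obtain ⟨j, hj⟩ := IsPGroup.iff_card.1 hA
    rw [hj]; exact hKc.pow_right j
  have hD : ∀ A B : Subgroup (G ⧸ K), IsPGroup p A → IsPGroup p B → Nat.card A = Nat.card B → ∃ g : G ⧸ K, B = MulAut.conj g • A := by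
    intro A B hA hB hc
    obtain ⟨A, hA', rfl⟩ := liftq hA
    obtain ⟨B, hB', rfl⟩ := liftq hB
    rw [cardq (hcp A hA'), cardq (hcp B hB')] at hc
    obtain ⟨g, rfl⟩ := hC A B hA' hB' hc
    exact ⟨g, mapc A g⟩
  set f := QuotientGroup.mk' K with hf
  haveI hHn : (H.map f).Normal := ‹H.Normal›.map _ (QuotientGroup.mk'_surjective K)
  have hMc : Nat.card ((M.map H.subtype).map f) = p ^ k := by
    rw [← relIndex_ker, QuotientGroup.ker_mk', ← hKe, relIndex_map_map_of_injective _ _ H.subtype_injective, hk]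
  have hMX : (M.map H.subtype).map f ≤ pCore p (G ⧸ K) ⊓ H.map f := by
    refine le_inf ?_ (map_mono (map_subtype_le _))
    have h1 : (M.map (f.subgroupMap H)) ≤ pCore p (H.map f) := H1.le_pCore (hMn.map _ (MonoidHom.subgroupMap_surjective f H)) (by
      refine IsPGroup.of_injective (IsPGroup.of_card hMc) (((H.map f).subtype.comp (M.map (f.subgroupMap H)).subtype).codRestrict _ ?_) ?_
      · rintro ⟨_, x, hx, rfl⟩
        exact ⟨x, ⟨x, hx, rfl⟩, rfl⟩
      · intro a b h
        have h' := congrArg Subtype.val h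
        exact Subtype.ext (Subtype.ext h'))
    rintro _ ⟨_, ⟨x, hx, rfl⟩, rfl⟩
    exact H1.map_pCore_le_pCore p (H.map f) ⟨_, h1 ⟨x, hx, rfl⟩, rfl⟩
  have hX1 : pCore p (G ⧸ K) ⊓ H.map f ≠ ⊥ := by
    intro hb
    rw [le_bot_iff.1 (hMX.trans hb.le), card_bot] at hMc
    exact hM.not_ge (relIndex_eq_one.1 (hk.trans hMc.symm))
  have hXp : IsPGroup p ↥(pCore p (G ⧸ K) ⊓ H.map f) := (H1.isPGroup_pCore p _).to_inf_left
  obtain ⟨N, q, hNn, hN1, hNX, hq, hE, -⟩ := H1.exists_minimal_normal_elementary _ hX1 (by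
    haveI := hXp.isNilpotent; infer_instance)
  have hN : IsPGroup p N := hXp.to_le hNX
  obtain ⟨k, hk⟩ := IsPGroup.iff_card.1 hN
  have hEp : ∀ x ∈ N, x ^ p = 1 := by
    obtain rfl : q = p := by
      obtain ⟨x, hx⟩ := ne_bot_iff_exists_ne_one.1 hN1
      haveI := Fact.mk hq
      have h1 : orderOf x = q := orderOf_eq_prime (Subtype.ext (hE.2 x x.2)) hx
      exact (Nat.prime_dvd_prime_iff_eq hq hp').1 (hq.dvd_of_dvd_pow (hk ▸ h1 ▸ orderOf_dvd_natCard x))
    exact hE.2
  have huq : ∀ W : Subgroup (G ⧸ K), Nat.card W = p ^ k → W = N := fun W hW => by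
    obtain ⟨g, hg⟩ := hD N W hN (IsPGroup.of_card hW) (hk.trans hW.symm)
    rw [hg, nconj]
  have hinj : Function.Injective (f.comp (P : Subgroup G).subtype) := by
    rw [injective_iff_map_eq_one]
    intro x hx
    have h1 : (x : G) ∈ K ⊓ (P : Subgroup G) := ⟨(QuotientGroup.eq_one_iff _).1 hx, x.2⟩
    rw [inf_eq_bot_of_coprime (hcp _ P.2)] at h1
    exact Subtype.ext h1
  rcases k with _ | _ | k
  · exact absurd (card_eq_one.1 (by simpa using hk)) hN1
  · have hcy : IsCyclic (P : Subgroup G) := by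
      refine (L.isCyclic_or_quaternion_of_unique P.2 fun A B hA hB => ?_).resolve_right fun h => hp h.1
      apply map_injective hinj
      rw [huq (A.map _) (by rw [card_map_of_injective hinj, hA]; simp), huq (B.map _) (by rw [card_map_of_injective hinj, hB]; simp)]
    exact ⟨hcy.isMulCommutative, Or.inr hcy⟩
  · have hPN : ∀ x ∈ (P : Subgroup G), f x ∈ N := by
      have key : ∀ y : G ⧸ K, y ^ p ∈ N → y ∈ N := by
        intro g h1
        have h2 : orderOf g ∣ p ^ 2 := orderOf_dvd_of_pow_eq_one (by rw [pow_two, pow_mul]; exact hEp _ h1)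
        obtain ⟨j, hj, hj'⟩ := (Nat.dvd_prime_pow hp').1 h2
        obtain ⟨W, hW, hgW⟩ := Sylow.exists_subgroup_card_pow_prime_le p (hk ▸ N.card_subgroup_dvd_card) (zpowers g)
          (by rw [Nat.card_zpowers, hj']) (by omega)
        rw [huq W hW] at hgW
        exact hgW (mem_zpowers g)
      have key2 : ∀ (j : ℕ) (y : G ⧸ K), y ^ p ^ j ∈ N → y ∈ N := by
        intro j
        induction j with
        | zero => intro y hy; simpa using hy
        | succ j ih => intro y hy; exact ih y (key _ (by rwa [← pow_mul, ← pow_succ]))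
      intro x hx
      obtain ⟨j, hj⟩ := P.2 ⟨x, hx⟩
      have h1 : x ^ p ^ j = 1 := congrArg Subtype.val hj
      exact key2 j _ (by rw [← map_pow, h1, map_one]; exact N.one_mem)
    refine ⟨⟨⟨fun a b => hinj ?_⟩⟩, Or.inl fun x hx => ?_⟩
    · rw [map_mul, map_mul]
      exact congrArg Subtype.val (hE.1.is_comm.comm (⟨_, hPN a a.2⟩ : N) ⟨_, hPN b b.2⟩)
    · have h1 : x ∈ (H.map f).comap f := (hNX (hPN x hx)).2
      rwa [comap_map_eq, QuotientGroup.ker_mk', sup_eq_left.2 inf_le_right] at h1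

end Cfsg.Agent.S4024
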