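import Cfsg.Statements.S4028
import Cfsg.Agent.GS.Lem1

set_option autoImplicit false
open Cfsg

namespace Cfsg.Agent.S4028

open Cfsg.Agent.H1

/-- Let G be a finite group with Sylow 2-subgroup P. Then N_G(⟨x⟩) = C_G(x) holds for every 2-element x of G if and only if N_P(⟨y⟩) = C_P(y) holds for every y ∈ P (computed inside P). -/
theorem result {G : Type*} [Group G] [Finite G] (P : Sylow 2 G) :
    (∀ x : G, (∀ r : ℕ, r.Prime → r ∣ orderOf x → r = 2) →
      Subgroup.normalizer ((Subgroup.zpowers x : Subgroup G) : Set G) ≤ Subgroup.centralizer {x}) ↔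
    (∀ y : ↥(P : Subgroup G), Subgroup.normalizer ((Subgroup.zpowers y : Subgroup ↥(P : Subgroup G)) : Set ↥(P : Subgroup G)) ≤
        Subgroup.centralizer {y}) := by
  open Subgroup Pointwise commutatorElement Cfsg.Agent.BG Cfsg.Agent.GS in
  open Cfsg.Agent.H2 hiding card_lt_of_lt card_lt_of_ne_top isMulCommutative_of_le isPGroup_zpowers_iff mem_of_pow_mem_of_coprime inf_eq_bot_of_cop exists_maxElem_ge Sec in
  open Cfsg.Agent.H8 (Op Opp Fit SN) in
  open Cfsg.Agent.L (FPF) in focus
    constructor
    · intro h y g hg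
      have h1 : (g : G) ∈ 𝒩 (zpowers (y : G)) := by
        have := map_le_normalizer_map (P : Subgroup G).subtype (le_refl (𝒩 (zpowers y))) (mem_map_of_mem _ hg)
        rwa [MonoidHom.map_zpowers] at this
      exact mem_cent1.2 (Subtype.ext (mem_cent1.1 (h y (piE_singleton_iff.2 (orderOf_eq_pow_of_mem P.isPGroup' y.2)) h1)))
    · intro h x hx
      have hx' : IsPGroup 2 (zpowers x) := pgroup_zpowers_iff.2 (piE_singleton_iff.1 hx)
      refine le_of_forall_isPGroup_le fun q hq R h3 h4 => ?_
      have := Fact.mk hq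
      by_cases e : q = 2
      · subst e
        obtain ⟨g, hg⟩ := exists_cj_le_sylow P (isPGroup_sup h4 hx' h3)
        intro r hr
        have h5 : g * r * g⁻¹ ∈ (P : Subgroup G) := hg (conj_mem_cj g (mem_sup_left hr))
        have h6 : g * x * g⁻¹ ∈ (P : Subgroup G) := hg (conj_mem_cj g (mem_sup_right (mem_zpowers x)))
        have h7 : g * r * g⁻¹ ∈ 𝒩 (zpowers (g * x * g⁻¹)) := by
          rw [← cj_zpowers, ← cj_normalizer]; exact conj_mem_cj g (h3 hr)
        have h8 := h ⟨_, h6⟩ (x := ⟨_, h5⟩) (mem_normalizer_of_conj_mem fun z hz => by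
          rw [← mem_map_iff_mem (P : Subgroup G).subtype_injective, MonoidHom.map_zpowers] at hz ⊢
          exact conj_mem_of_mem_normalizer h7 hz)
        have h9 := congrArg Subtype.val (mem_cent1.1 h8)
        refine mem_cent1.2 ((MulAut.conj g).injective ?_)
        simpa using h9
      · by_cases h1 : x = 1
        · subst h1; exact fun r _ => mem_cent1.2 (by simp)
        obtain ⟨V, v1, v2⟩ := exists_card_eq_of_pgroup hx' (zpowers_ne_bot.2 h1)
        rw [← BL.cent_zpowers]
        refine le_cent_of_cyclic_pgroup inferInstance hx' h3 (coprime_pgroups h4 hx' e)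
          (ne_bot_mono (ne_bot_of_card_eq v2) (le_inf v1 (le_cent_comm.1 fun r hr => ?_)))
        simpa using pow_sub_one_mem_centralizer Nat.prime_two v2 (norm_le_norm_of_cyclic inferInstance v1 (h3 hr))

end Cfsg.Agent.S4028
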