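import Cfsg.Statements.S4029
import Cfsg.Agent.H9.TJ
import Cfsg.Agent.H2.Count
import Cfsg.Agent.L.Frattini

set_option autoImplicit false
open Cfsg

namespace Cfsg.Agent.S4029

open Cfsg.Agent Cfsg.Agent.H9

/-- Let P be a finite 2-group in which N_P(⟨y⟩) = C_P(y) for every y ∈ P. If s is the number of conjugacy classes of involutions of P, then #(P/Φ(P)) ≤ s + 1; in particular the subgroup generated by the involutions of P has order at least #(P/Φ(P)). -/
theorem result {P : Type*} [Group P] [Finite P] (hP : IsPGroup 2 P)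
    (hirr : ∀ y : P, Subgroup.normalizer ((Subgroup.zpowers y : Subgroup P) : Set P) ≤ Subgroup.centralizer {y}) :
    Nat.card (P ⧸ frattini P) ≤ Nat.card {c : ConjClasses P // ∃ y : P, ConjClasses.mk y = c ∧ orderOf y = 2} + 1 ∧
    Nat.card (P ⧸ frattini P) ≤ Nat.card (Subgroup.closure {y : P | orderOf y = 2}) := by
  classical
  haveI := Fintype.ofFinite P
  let I : Finset P := Finset.univ.filter fun y => y * y = 1
  let C : Finset (ConjClasses P) := I.image ConjClasses.mk
  have hC : C.card ≤ Nat.card {c : ConjClasses P // ∃ y : P, ConjClasses.mk y = c ∧ orderOf y = 2} + 1 := by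
    haveI := Fintype.ofFinite (ConjClasses P)
    rw [Nat.card_eq_fintype_card, Fintype.card_subtype]
    refine le_trans (Finset.card_le_card (t := insert (ConjClasses.mk 1) _) fun c hc => ?_) (Finset.card_insert_le _ _)
    obtain ⟨y, hy, rfl⟩ := Finset.mem_image.mp hc
    by_cases h1 : y = 1
    · rw [h1]; exact Finset.mem_insert_self _ _
    · exact Finset.mem_insert_of_mem (Finset.mem_filter.mpr ⟨Finset.mem_univ _, y, rfl,
        orderOf_eq_prime (by rw [pow_two]; exact (Finset.mem_filter.mp hy).2) h1⟩)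
  have hC2 : C.card ≤ Nat.card (Subgroup.closure {y : P | orderOf y = 2}) := by
    refine Finset.card_image_le.trans ?_
    rw [Nat.card_eq_fintype_card, Fintype.card_subtype]
    refine Finset.card_le_card fun y hy => Finset.mem_filter.mpr ⟨Finset.mem_univ _, ?_⟩
    by_cases h1 : y = 1
    · rw [h1]; exact one_mem _
    · exact Subgroup.subset_closure (orderOf_eq_prime (by rw [pow_two]; exact (Finset.mem_filter.mp hy).2) h1)
  suffices h : Nat.card (P ⧸ frattini P) ≤ C.card from ⟨h.trans hC, h.trans hC2⟩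
  have h1 : ∑ y ∈ I, Nat.card (Subgroup.centralizer ({y} : Set P)) = C.card * Nat.card P := by
    rw [← Finset.sum_fiberwise_of_maps_to (g := ConjClasses.mk) (t := C) fun y hy => Finset.mem_image_of_mem _ hy,
      ← smul_eq_mul, ← Finset.sum_const]
    refine Finset.sum_congr rfl fun c hc => ?_
    obtain ⟨x, hx, rfl⟩ := Finset.mem_image.mp hc
    rw [← H2.card_isConj_mul x, Nat.card_eq_fintype_card (α := {y // IsConj x y}), Fintype.card_subtype,
      ← smul_eq_mul, ← Finset.sum_const]
    refine Finset.sum_congr ?_ fun y hy => ?_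
    · ext y
      simp only [Finset.mem_filter, Finset.mem_univ, true_and, I, ConjClasses.mk_eq_mk_iff_isConj]
      refine ⟨fun h => h.2.symm, fun h => ⟨?_, h.symm⟩⟩
      obtain ⟨g, rfl⟩ := isConj_iff.mp h
      rw [conj_mul, (Finset.mem_filter.mp hx).2]; group
    · obtain ⟨g, rfl⟩ := isConj_iff.mp (Finset.mem_filter.mp hy).2
      exact H2.card_centralizer_conj g x
  let Φ : Finset P := Finset.univ.filter fun y => y ∈ frattini P
  let r : P → ℕ := fun z => (Finset.univ.filter fun a => a * a = z).card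
  have hsq : ∀ a : P, a * a ∈ Φ := fun a =>
    Finset.mem_filter.mpr ⟨Finset.mem_univ _, by rw [← pow_two]; exact L.pow_mem_frattini hP a⟩
  have h2 : ∑ z ∈ Φ, r z = Nat.card P := by
    rw [Nat.card_eq_fintype_card, ← Finset.card_univ]
    exact (Finset.card_eq_sum_card_fiberwise (f := fun a => a * a) fun a _ => hsq a).symm
  have h3 : ∑ z ∈ Φ, r z ^ 2 ≤ ∑ y ∈ I, Nat.card (Subgroup.centralizer ({y} : Set P)) := by
    have e1 : ∑ z ∈ Φ, r z ^ 2 = (Φ.sigma fun z => (Finset.univ.filter fun a : P => a * a = z) ×ˢ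
        (Finset.univ.filter fun a : P => a * a = z)).card := by
      rw [Finset.card_sigma]; simp only [Finset.card_product, r, pow_two]
    have e2 : ∑ y ∈ I, Nat.card (Subgroup.centralizer ({y} : Set P)) =
        (I.sigma fun y => Finset.univ.filter fun g : P => g ∈ Subgroup.centralizer ({y} : Set P)).card := by
      rw [Finset.card_sigma]; simp only [Nat.card_eq_fintype_card, Fintype.card_subtype]
    rw [e1, e2]
    refine Finset.card_le_card_of_injOn (fun x => ⟨x.2.1⁻¹ * x.2.2, x.2.1⟩) ?_ ?_
    · rintro ⟨z, a, b⟩ hx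
      simp only [Finset.coe_sigma, Set.mem_sigma_iff, Finset.mem_coe, Finset.mem_product, Finset.mem_filter,
        Finset.mem_univ, true_and, I] at hx ⊢
      have hab : a * a = b * b := hx.2.1.trans hx.2.2.symm
      have e : a * (a⁻¹ * b) * a⁻¹ = (a⁻¹ * b)⁻¹ := by
        calc a * (a⁻¹ * b) * a⁻¹ = b⁻¹ * (b * b) * a⁻¹ := by group
          _ = _ := by rw [← hab]; group
      have hn : a ∈ Subgroup.centralizer {a⁻¹ * b} := by
        refine hirr _ (Subgroup.mem_normalizer_fintype ?_)
        rintro _ ⟨k, rfl⟩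
        exact ⟨-k, by simp only; rw [← conj_zpow, e, inv_zpow']⟩
      refine ⟨?_, hn⟩
      rw [Subgroup.mem_centralizer_singleton_iff.mp hn, mul_inv_cancel_right] at e
      exact mul_eq_one_iff_eq_inv.mpr e
    · rintro ⟨z, a, b⟩ hx ⟨z', a', b'⟩ hx' h
      simp only [Finset.coe_sigma, Set.mem_sigma_iff, Finset.mem_coe, Finset.mem_product, Finset.mem_filter,
        Finset.mem_univ, true_and, Sigma.mk.injEq, heq_eq_eq] at hx hx' h ⊢
      obtain ⟨h4, rfl⟩ := h
      rw [mul_left_cancel h4]
      exact ⟨hx.2.1.symm.trans hx'.2.1, rfl⟩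
  have h4 := sq_sum_le_card_mul_sum_sq (s := Φ) (f := r)
  have h5 : Φ.card = Nat.card (frattini P) := by rw [Nat.card_eq_fintype_card, Fintype.card_subtype]
  rw [h2, h5] at h4
  have h6 := (h4.trans (Nat.mul_le_mul_left _ h3))
  rw [h1, pow_two, ← mul_assoc] at h6
  have h7 := Nat.le_of_mul_le_mul_right h6 Nat.card_pos
  rw [Subgroup.card_eq_card_quotient_mul_card_subgroup (frattini P), mul_comm] at h7
  exact Nat.le_of_mul_le_mul_left h7 Nat.card_pos

end Cfsg.Agent.S4029
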