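import Cfsg.Statements.S4034
import Cfsg.Agent.GS.Lem4

set_option autoImplicit false
open Cfsg

namespace Cfsg.Agent.S4034

open Cfsg.Agent.H1

/-- Let G be a finite group and p a prime. Every conjugacy class of p-regular elements of G (elements of order prime to p) has p-power size if and only if G has an abelian p-complement, i.e. an abelian subgroup of order prime to p and p-power index. -/
theorem result {G : Type*} [Group G] [Finite G] {p : ℕ} (hp : p.Prime) :
    (∀ x : G, (orderOf x).Coprime p → ∃ k : ℕ, (ConjClasses.mk x).carrier.ncard = p ^ k) ↔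
    (∃ H : Subgroup G, IsMulCommutative H ∧ ¬ p ∣ Nat.card H ∧ ∃ k : ℕ, H.index = p ^ k) := by
  open Subgroup Pointwise commutatorElement Cfsg.Agent.BG Cfsg.Agent.GS in
  open Cfsg.Agent.H2 hiding card_lt_of_lt card_lt_of_ne_top isMulCommutative_of_le isPGroup_zpowers_iff mem_of_pow_mem_of_coprime inf_eq_bot_of_cop exists_maxElem_ge Sec in
  open Cfsg.Agent.H8 (Op Opp Fit SN) in
  open Cfsg.Agent.L (FPF) in focus
    have := Fact.mk hp
    simp only [class_ncard]
    refine ⟨fun h => ?_, fun ⟨H, h1, h2, k, h3⟩ x hx => ?_⟩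
    · have hs : Group.IsSolvable G := by
        refine solv_ind (fun G _ _ => ∀ x : G, (orderOf x).Coprime p → ∃ k, (𝒞₁ x).index = p ^ k) (fun G _ _ N _ h => ⟨fun x hx => ?_,
          fun x hx => ?_⟩) (fun G _ _ _ h hc => ?_) h
        · obtain ⟨k, hk⟩ := h x (by simpa using hx)
          exact ((Nat.dvd_prime_pow hp).1 (hk ▸ index_cent1_sub_dvd x)).imp fun _ h => h.2
        · obtain ⟨y, hy, rfl⟩ := exists_lift_piE' _ ((piN_compl_iff hp).2 hx)
          obtain ⟨k, hk⟩ := h y ((piN_compl_iff hp).1 hy)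
          exact ((Nat.dvd_prime_pow hp).1 (hk ▸ index_cent1_quot_dvd (N := N) y)).imp fun _ h => h.2
        · obtain ⟨x, h1, h2⟩ := exists_pprime_elt (simple_not_pgroup (p := p) hc)
          obtain ⟨k, hk⟩ := h x ((Nat.coprime_primes h1 hp).2 h2)
          exact simple_class_ne_pow hc hp (fun e => by simp [e] at h1; exact Nat.not_prime_one h1) hk
      obtain ⟨H, hH⟩ := exists_hall {p}ᶜ hs
      have h1 := (isPiHall_compl_iff hp).1 hH
      exact ⟨H, comm_hall_of_class hs h hH, (Nat.Prime.coprime_iff_not_dvd hp).1 h1.1.symm, h1.2⟩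
    have hH := (isPiHall_compl_iff hp).2 ⟨((Nat.Prime.coprime_iff_not_dvd hp).2 h2).symm, k, h3⟩
    have key : ∀ (G : Type _) [Group G] {H : Subgroup G} [Finite G], IsPiHall {p}ᶜ H → IsMulCommutative H → ∀ x ∈ H, ∃ k, (𝒞₁ x).index = p ^ k :=
      fun G _ H _ hH h1 x hx => by
        obtain ⟨k, hk⟩ := ((isPiHall_compl_iff hp).1 hH).2
        exact ((Nat.dvd_prime_pow hp).1 (hk ▸ index_dvd_of_le (le_cent1_of_comm h1 hx))).imp fun _ h => h.2
    have hs : Group.IsSolvable G := by
      refine solv_ind (fun G _ _ => ∃ H : Subgroup G, IsPiHall {p}ᶜ H ∧ IsMulCommutative H) (fun G _ _ N _ ⟨H, hH, h1⟩ => ⟨⟨_,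
        (isPiHallOf_iff inf_le_right).1 (isPiHallOf_inf_normal (isPiHallOf_top.2 hH) le_top le_normalizer_of_normal), ?_⟩,
        _, isPiHall_map hH (QuotientGroup.mk'_surjective N), inferInstance⟩) (fun G _ _ _ ⟨H, hH, h1⟩ hc => ?_) ⟨H, hH, h1⟩
      · have := comm_of_le h1 (inf_le_left : H ⊓ N ≤ H)
        infer_instance
      · by_cases h2 : H = ⊥
        · obtain ⟨k, hk⟩ := ((isPiHall_compl_iff hp).1 hH).2
          exact simple_not_pgroup hc (IsPGroup.of_card (by rw [← hk, h2, index_bot]))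
        · obtain ⟨x, hx, h3⟩ := exists_ne_one h2
          obtain ⟨k, hk⟩ := key G hH h1 x hx
          exact simple_class_ne_pow hc hp h3 hk
    obtain ⟨g, hg⟩ := hall_conj_le hs hH (piG_zpowers_iff.2 ((piN_compl_iff hp).2 hx))
    rw [← index_cent1_conj g]
    exact key G hH h1 _ (hg (conj_mem_cj g (mem_zpowers x)))

end Cfsg.Agent.S4034
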