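import Cfsg.Statements.S4035
import Cfsg.Agent.GS.Lem1

set_option autoImplicit false
open Cfsg

namespace Cfsg.Agent.S4035

open Cfsg.Agent.H1

/-- Let G be a finite group and p a prime such that p divides the size of no conjugacy class of p-regular elements (elements of order prime to p). Then G is the internal direct product of a Sylow p-subgroup P and a normal subgroup H of order prime to p: P is normal, P ⊓ H = 1 and PH = G. -/
theorem result {G : Type*} [Group G] [Finite G] {p : ℕ} [Fact p.Prime]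
    (h : ∀ x : G, (orderOf x).Coprime p → ¬ p ∣ (ConjClasses.mk x).carrier.ncard) (P : Sylow p G) :
    (P : Subgroup G).Normal ∧ ∃ H : Subgroup G, H.Normal ∧ ¬ p ∣ Nat.card H ∧
      (P : Subgroup G) ⊓ H = ⊥ ∧ (P : Subgroup G) ⊔ H = ⊤ := by
  open Subgroup Pointwise commutatorElement Cfsg.Agent.BG Cfsg.Agent.GS in
  open Cfsg.Agent.H2 hiding card_lt_of_lt card_lt_of_ne_top isMulCommutative_of_le isPGroup_zpowers_iff mem_of_pow_mem_of_coprime inf_eq_bot_of_cop exists_maxElem_ge Sec in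
  open Cfsg.Agent.H8 (Op Opp Fit SN) in
  open Cfsg.Agent.L (FPF) in focus
    have h1 : ∀ x : G, (orderOf x).Coprime p → ∀ U ≤ 𝒞₁ x, IsPGroup p U → ∃ S, SylIn p S ⊤ ∧ U ≤ S ∧ x ∈ 𝒞 S :=
      fun x hx U h2 h3 => by
        obtain ⟨S, hS, h4⟩ := exists_sylIn_ge h3 h2
        exact ⟨S, sylIn_top_of_index hS (class_ncard x ▸ h x hx), h4, le_cent1_iff.1 hS.le⟩
    have h2 : 𝒩 (P : Subgroup G) = ⊤ := eq_top_of_forall_cj fun g => by
      obtain ⟨a, ha, b, hb, e, h3, h4⟩ := exists_p_parts (p := p) g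
      obtain ⟨S, hS, h5, h6⟩ := h1 b h4 (zpowers a) (zpowers_le.2 (mem_cent1.2 (commute_of_mem_zpowers hb ha)))
        (pgroup_zpowers_iff.2 h3)
      obtain ⟨c, -, hc⟩ := (sylIn_top P).exists_cj_eq hS
      exact ⟨c, by rw [cj_normalizer, hc, e]; exact mul_mem (le_normalizer (h5 (mem_zpowers a))) (cent_le_norm S h6)⟩
    obtain ⟨-, h3⟩ := dp_of_cent (sylIn_top P) fun y _ hy => by
      obtain ⟨S, hS, -, h6⟩ := h1 y hy ⊥ bot_le IsPGroup.of_bot
      exact centralizer_anti (hS.normal_le P.isPGroup' le_top (h2 ▸ le_top)) h6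
    exact ⟨normal_iff_top_le.2 h2.ge, Opp p ⊤, normal_iff_top_le.2 (H8.le_normalizer_Opp _ _),
      (Nat.Prime.coprime_iff_not_dvd Fact.out).1 (H8.Opp_coprime p ⊤).symm,
      disjoint_of_isPGroup_of_coprime P.isPGroup' (H8.Opp_coprime _ _), by rw [sup_comm, PNil_Opp_sup h3 (sylIn_top P)]⟩

end Cfsg.Agent.S4035
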