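import Cfsg.Statements.S4036
import Cfsg.Agent.GS.Lem1

set_option autoImplicit false
open Cfsg

namespace Cfsg.Agent.S4036

open Cfsg.Agent.H1

/-- Let P be a finite abelian p-group and K a group of automorphisms of P (a subgroup of Aut P) whose order is divisible by p. If all non-identity elements of K have the same fixed-point subgroup on P, then K has no non-trivial normal subgroup of order prime to p. -/
theorem result {P : Type*} [CommGroup P] [Finite P] {p : ℕ}
    [Fact p.Prime] (hP : IsPGroup p P) (K : Subgroup (MulAut P)) (hK : p ∣ Nat.card K)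
    (hfix : ∀ x y : MulAut P, x ∈ K → y ∈ K → x ≠ 1 → y ≠ 1 → ∀ v : P, x v = v ↔ y v = v) :
    ∀ N : Subgroup ↥K, N.Normal → ¬ p ∣ Nat.card N → N = ⊥ := by
  open Subgroup Pointwise commutatorElement Cfsg.Agent.BG Cfsg.Agent.GS in
  open Cfsg.Agent.H2 hiding card_lt_of_lt card_lt_of_ne_top isMulCommutative_of_le isPGroup_zpowers_iff mem_of_pow_mem_of_coprime inf_eq_bot_of_cop exists_maxElem_ge Sec in
  open Cfsg.Agent.H8 (Op Opp Fit SN) in
  open Cfsg.Agent.L (FPF) in focus
    intro N hN hd
    by_contra e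
    obtain ⟨n, hn, n1⟩ := exists_ne_one e
    obtain ⟨x, hx, hxp⟩ := exists_mem_orderOf_eq_prime Fact.out hK
    have x1 : x ≠ 1 := fun e => (Fact.out : p.Prime).ne_one (by rw [← hxp, e, orderOf_one])
    let φ := MonoidHom.id (MulAut P)
    have hV : IsMulCommutative (sl φ ⊤) := isMulCommutative_sl.2 inferInstance
    have hVp : IsPGroup p (sl φ ⊤) := isPGroup_sl_top hP
    have hc : (♯(sr φ (N.map K.subtype))).Coprime ♯(sl φ ⊤) :=
      coprime_card_of_pgroup (by rw [card_sr, card_map_subtype]; exact ((Nat.Prime.coprime_iff_not_dvd Fact.out).2 hd).symm) hVp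
    have h1 := commutator_inf_centralizer_eq_bot (le_normalizer_sl_top _) hc
    have h2 : ⁅sl φ ⊤, sr φ (N.map K.subtype)⁆ = ⊥ := by
      by_contra h3
      have h4 := commutator_le_left' (le_normalizer_sl_top (sr φ (N.map K.subtype)))
      refine inf_centralizer_ne_bot_of_isPGroup (isPGroup_of_le hVp h4) (Y := sr φ (zpowers x))
        (isPGroup_of_card_eq (by rw [card_sr, Nat.card_zpowers, hxp])) (le_normalizer_commutator (le_normalizer_sl_top _)
          (map_le_normalizer_map _ ((zpowers_le.2 hx).trans (le_norm_map_subtype N)))) h3 ?_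
      rw [eq_bot_iff, ← h1]
      refine fun v hv => ⟨hv.1, ?_⟩
      obtain ⟨w, -, rfl⟩ := h4 hv.1
      refine inl_mem_centralizer_sr.2 fun a ha => ?_
      by_cases a1 : a = 1
      · simp [a1]
      · exact (hfix x a hx (map_subtype_le _ ha) x1 a1 w).1 (inl_mem_centralizer_sr.1 hv.2 x (mem_zpowers x))
    have h3 := sr_le_centralizer_sl.1 (le_cent_comm.1 (le_cent_iff_comm.2 h2)) n (mem_map_of_mem _ hn)
    exact n1 (Subtype.ext (MulEquiv.ext fun v => h3 v (mem_top v)))

end Cfsg.Agent.S4036
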