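import Cfsg.Statements.S4038
import Cfsg.Agent.GS.MaxNil

set_option autoImplicit false
open Cfsg

namespace Cfsg.Agent.S4038

open Cfsg.Agent.H1

/-- Let A and G be finite groups of coprime orders with A acting on G by automorphisms. Suppose G has a proper A-invariant subgroup M, maximal among proper A-invariant subgroups, which is nilpotent and whose Sylow 2-subgroups have nilpotency class at most 2. Then G is solvable. -/
theorem result {G A : Type*} [Group G] [Finite G]
    [Group A] [Finite A] (φ : A →* MulAut G) (hcop : (Nat.card A).Coprime (Nat.card G))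
    (M : Subgroup G) (hMtop : M ≠ ⊤) (hMinv : ∀ a : A, ∀ m : G, m ∈ M → φ a m ∈ M)
    (hMmax : ∀ H : Subgroup G, M ≤ H → H ≠ ⊤ → (∀ a : A, ∀ h : G, h ∈ H → φ a h ∈ H) → H = M)
    (hnil : Group.IsNilpotent M) (h2 : ∀ S : Sylow 2 ↥M, Group.nilpotencyClass ↥(S : Subgroup ↥M) ≤ 2) :
    Group.IsSolvable G := by
  open Subgroup Pointwise commutatorElement Cfsg.Agent.BG Cfsg.Agent.GS in
  open Cfsg.Agent.H2 hiding card_lt_of_lt card_lt_of_ne_top isMulCommutative_of_le isPGroup_zpowers_iff mem_of_pow_mem_of_coprime inf_eq_bot_of_cop exists_maxElem_ge Sec in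
  open Cfsg.Agent.H8 (Op Opp Fit SN) in
  open Cfsg.Agent.L (FPF) in focus
    obtain ⟨S⟩ : Nonempty (Sylow 2 M) := inferInstance
    have hS := sylIn_map_subtype S
    have h3 : Group.IsNilpotent (S : Subgroup M) := S.2.isNilpotent
    have h4 := le_cent_iff_comm.1 ((class_le_two_iff' h3).1 (h2 S))
    refine solv_of_sl_top (φ := φ) (solv_of_max_nil (A := sr φ ⊤) (M := sl φ M) (le_normalizer_sl_top _) (by rwa [card_sl_top, card_sr_top])
      (lt_of_le_of_ne (sl_le_sl.2 le_top) (mt sl_inj.1 hMtop)) (sr_le_normalizer_sl fun a _ => hMinv a) (fun H e1 e2 e3 => ?_)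
      (nil_sl.2 hnil) (hS.map_inj _ SemidirectProduct.inl_injective) ?_)
    · obtain ⟨H, rfl⟩ := exists_sl e2.le
      rw [hMmax H (sl_le_sl.1 e1) (fun e => e2.ne (e ▸ rfl)) fun a h hh => apply_mem_of_le_normalizer e3 (mem_top a) hh]
    · rw [← map_commutator, ← map_commutator, ← map_commutator, ← map_commutator, h4, Subgroup.map_bot, Subgroup.map_bot]

end Cfsg.Agent.S4038
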