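import Cfsg.Statements.S4039
import Cfsg.Agent.GS.MaxNil

set_option autoImplicit false
open Cfsg

namespace Cfsg.Agent.S4039

open Cfsg.Agent.H1

/-- A finite group possessing a maximal subgroup that is nilpotent of class at most 2 is solvable. -/
theorem result {G : Type*} [Group G] [Finite G]
    (M : Subgroup G) (hmax : IsCoatom M) (hnil : Group.IsNilpotent M) (hcl : Group.nilpotencyClass ↥M ≤ 2) :
    Group.IsSolvable G := by
  open Subgroup Pointwise commutatorElement Cfsg.Agent.BG Cfsg.Agent.GS in
  open Cfsg.Agent.H2 hiding card_lt_of_lt card_lt_of_ne_top isMulCommutative_of_le isPGroup_zpowers_iff mem_of_pow_mem_of_coprime inf_eq_bot_of_cop exists_maxElem_ge Sec in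
  open Cfsg.Agent.H8 (Op Opp Fit SN) in
  open Cfsg.Agent.L (FPF) in focus
    obtain ⟨S, hS⟩ := exists_sylIn 2 M
    exact solv_of_coatom_nil hmax hnil hS (le_cent_iff_comm.1 ((commutator_mono hS.le hS.le).trans
      (((class_le_two_iff' hnil).1 hcl).trans (centralizer_anti hS.le))))

end Cfsg.Agent.S4039
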