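import Cfsg.Statements.S4043
import Cfsg.Agent.H8.Misc
import Cfsg.Agent.GS.Odd

set_option autoImplicit false
open Cfsg

namespace Cfsg.Agent.S4043

open Subgroup hiding commutator_def
open Function Cfsg.Agent.Hopf Cfsg.Agent.Reg
open scoped commutatorElement Pointwise

theorem aux {G : Type*} [Group G] [Finite G] {p : ℕ} [Fact p.Prime] {N : Subgroup G} [N.Normal]
    (hN : IsPGroup p N) {A : Subgroup G} (hA : A.IsComplement' N) (hAp : H2.PNil p A)
    (hC : ∀ n : G, n ∈ N → (∀ a : G, a ∈ A → a * n * a⁻¹ = n) → n = 1) :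
    normalizer (H2.resOf p A : Set G) = A := by
  obtain ⟨K, hK⟩ : ∃ K, K = H2.resOf p A := ⟨_, rfl⟩
  have hAK : A ≤ normalizer (K : Set G) := hK ▸ H2.le_normalizer_resOf p A
  have hKA : K ≤ A := hK ▸ H2.resOf_le p A
  rw [← hK]
  have h1 : N ⊓ normalizer (K : Set G) = ⊥ := by
    by_contra hne
    obtain ⟨P, hP⟩ := H2.exists_sylIn p A
    obtain ⟨U, hU⟩ : ∃ U, U = N ⊓ normalizer (K : Set G) := ⟨_, rfl⟩
    rw [← hU] at hne
    have hUp : IsPGroup p U := hU ▸ hN.to_inf_left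
    have hAU : A ≤ normalizer (U : Set G) :=
      hU ▸ H1.le_normalizer_inf le_normalizer_of_normal (hAK.trans le_normalizer)
    have h2 := H1.card_modEq_card_centralizer hP.pgrp (hP.le.trans hAU)
    have h3 : U ⊓ centralizer (P : Set G) ≠ ⊥ := by
      intro e
      rw [e, card_bot] at h2
      have := (Nat.modEq_zero_iff_dvd.2 (H1.dvd_card_of_isPGroup_of_ne_bot hUp hne)).symm.trans h2
      exact (Fact.out : p.Prime).one_lt.ne' (Nat.dvd_one.1 (Nat.modEq_zero_iff_dvd.1 this.symm))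
    have h4 : U ≤ centralizer (K : Set G) := by
      rw [← commutator_eq_bot_iff_le_centralizer, eq_bot_iff, ← hA.disjoint.eq_bot, commutator_le]
      intro u hu k hk
      rw [hU] at hu
      rw [commutatorElement_def]
      refine mem_inf.2 ⟨hKA (mul_mem (H1.conj_mem_of_mem_normalizer hu.2 hk) (inv_mem hk)), ?_⟩
      have := mul_mem hu.1 (‹N.Normal›.conj_mem _ (inv_mem hu.1) k)
      simpa [mul_assoc] using this
    obtain ⟨⟨n, hn⟩, hn1⟩ := ne_bot_iff_exists_ne_one.1 h3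
    refine hn1 (Subtype.ext (hC n (hU ▸ hn.1 : n ∈ N ⊓ normalizer (K : Set G)).1 fun a ha => ?_))
    have h5 : n ∈ centralizer (A : Set G) := by
      rw [← hP.resOf_sup, H1.centralizer_sup, ← hK]
      exact mem_inf.2 ⟨h4 hn.1, hn.2⟩
    rw [h5 a ha, mul_inv_cancel_right]
  have h2 := H1.sup_inf_assoc_norm (A := A) (K := N) le_normalizer_of_normal hAK
  rwa [hA.sup_eq_top, top_inf_eq, h1, sup_bot_eq] at h2

theorem res_sup {G : Type*} [Group G] [Finite G] {p : ℕ} [Fact p.Prime] {N : Subgroup G} [N.Normal]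
    {A : Subgroup G} (hA : A.IsComplement' N) :
    H2.resOf p A ⊔ N = (pResidual p (G ⧸ N)).comap (QuotientGroup.mk' N) := by
  rw [← H1.comap_map_mk', H2.map_resOf, H1.map_mk'_eq_top_iff.2 hA.sup_eq_top, H2.resOf_top]

/-- Let G be a finite group that is the semidirect product of a normal p-subgroup N by a subgroup A, and also of N by a subgroup A₁, where p is a prime and A and A₁ both have normal p-complements. If C_N(A) = C_N(A₁) = 1, then A₁ is conjugate to A by an element of N. -/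
theorem result {G : Type*} [Group G] [Finite G] {p : ℕ}
    [Fact p.Prime] (N : Subgroup G) [N.Normal] (hN : IsPGroup p N) (A A₁ : Subgroup G)
    (hA : A.IsComplement' N) (hA₁ : A₁.IsComplement' N)
    (hAp : Cfsg.HasNormalPComplement p A) (hA₁p : Cfsg.HasNormalPComplement p A₁)
    (hC : ∀ n : G, n ∈ N → (∀ a : G, a ∈ A → a * n * a⁻¹ = n) → n = 1)
    (hC₁ : ∀ n : G, n ∈ N → (∀ a : G, a ∈ A₁ → a * n * a⁻¹ = n) → n = 1) :
    ∃ n : G, n ∈ N ∧ A₁ = A.map (MulAut.conj n).toMonoidHom := by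
  rw [H2.hasNPC_iff] at hAp hA₁p
  have h1 := H2.pNil_iff_card.1 hAp
  have h2 := H2.pNil_iff_card.1 hA₁p
  have h3 : H2.resOf p A₁ ⊔ N = H2.resOf p A ⊔ N := by rw [res_sup hA, res_sup hA₁]
  have hd : ∀ {B : Subgroup G}, (Nat.card B).Coprime p → B ⊓ N = ⊥ := fun h =>
    (disjoint_of_coprime_natCard (H1.coprime_card_of_isPGroup hN h).symm).eq_bot
  obtain ⟨c, hc, h4⟩ := GS.conj_le_cop (A := H2.resOf p A₁) (K := N) (B := H2.resOf p A)
    le_normalizer_of_normal (hd h2) (h3 ▸ le_sup_left) (H1.coprime_card_of_isPGroup hN h1).symm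
  have h5 : MulAut.conj c • H2.resOf p A = H2.resOf p A₁ := by
    refine eq_of_le_of_card_ge h4 (le_of_eq ?_)
    have e1 := H1.card_sup_of_disjoint (K := N) le_normalizer_of_normal (hd h1)
    have e2 := H1.card_sup_of_disjoint (K := N) le_normalizer_of_normal (hd h2)
    rw [h3, e1] at e2
    rw [H1.card_conj_smul, Nat.eq_of_mul_eq_mul_right Nat.card_pos e2]
  refine ⟨c, hc, ?_⟩
  rw [← aux hN hA₁ hA₁p hC₁, ← h5, H1.normalizer_conj_smul, aux hN hA hAp hC]
  rfl

end Cfsg.Agent.S4043
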