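import Cfsg.Statements.S4051
import Cfsg.Agent.H8.Misc
import Cfsg.Agent.GS.Odd
import Cfsg.Agent.S4050

set_option autoImplicit false
open Cfsg

namespace Cfsg.Agent.S4051

open Subgroup hiding commutator_def
open Function Cfsg.Agent.Hopf Cfsg.Agent.Reg
open scoped commutatorElement Pointwise


/-- Let π be a set of primes and G a finite group such that N_G(H)/C_G(H) is a π'-group for every nontrivial π'-subgroup H of G. If K is a normal subgroup of G such that the π-elements of K form a subgroup and the π-elements of G/K form a subgroup, then the π-elements of G form a subgroup. -/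
theorem result {G : Type*} [Group G] [Finite G] (π : Set ℕ)
    (hπ : ∀ p ∈ π, p.Prime) (hhom : (∀ H : Subgroup G, H ≠ ⊥ → (∀ p : ℕ, p.Prime → p ∣ Nat.card ↥H → p ∉ π) →
        ∀ p : ℕ, p.Prime → p ∣ (Subgroup.centralizer (H : Set G)).relIndex (Subgroup.normalizer (H : Set G)) → p ∉ π))
    (K : Subgroup G) [K.Normal]
    (hK : ∃ L : Subgroup ↥K, ∀ x : ↥K, x ∈ L ↔ ∀ p : ℕ, p.Prime → p ∣ orderOf x → p ∈ π)
    (hQ : ∃ L : Subgroup (G ⧸ K), ∀ x : G ⧸ K, x ∈ L ↔ ∀ p : ℕ, p.Prime → p ∣ orderOf x → p ∈ π) :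
    (∃ K : Subgroup G, ∀ x : G, x ∈ K ↔ ∀ p : ℕ, p.Prime → p ∣ orderOf x → p ∈ π) := by
  rw [S4050.closed_iff] at hK hQ ⊢
  obtain ⟨L, _, hL⟩ := hK
  obtain ⟨M, _, hM⟩ := hQ
  refine S4050.aux π _ G rfl ?_ (S4050.hom_of hhom)
  have h1 : GS.PiSep π (G ⧸ K) :=
    GS.piSep_ext (N := M) (Or.inl hM.1) (GS.piSep_of_pi (Or.inr fun p hp h h' => hM.2 p hp h' h))
  have h2 := H1.isPiHallOf_map_subtype hL
  haveI : (L.map K.subtype).Normal := H1.normal_of_top_le_normalizer (le_trans le_normalizer_of_normal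
    (H1.normalizer_le_of_normal_hallOf h2 (H1.le_normalizer_map_subtype_of_normal K L)))
  refine GS.piSep_ext (N := L.map K.subtype) (Or.inl h2.2.1)
    (GS.piSep_ext (N := K.map (QuotientGroup.mk' (L.map K.subtype))) (Or.inr fun p hp h h' => ?_) ?_)
  · rw [H1.card_map_mk'] at h
    exact h2.2.2 p hp h' h
  · exact h1.of_surjective (f := (QuotientGroup.quotientQuotientEquivQuotient _ K
      (map_subtype_le L)).symm.toMonoidHom) (MulEquiv.surjective _)

end Cfsg.Agent.S4051
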