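import Cfsg.Statements.S4056
import Cfsg.Agent.GS.Lem1

set_option autoImplicit false
open Cfsg

namespace Cfsg.Agent.S4056

open Cfsg.Agent.H1

/-- In a finite 2-group of nilpotency class at most 2 and exponent dividing 4, the Frattini subgroup lies in the centre and is elementary abelian. -/
theorem result {P : Type*} [Group P] [Finite P] (hP : IsPGroup 2 P)
    (hcl : Group.nilpotencyClass P ≤ 2) (hexp : Monoid.exponent P ∣ 4) :
    frattini P ≤ Subgroup.center P ∧ Cfsg.IsElementaryAbelian 2 (frattini P) := by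
  open Subgroup Pointwise commutatorElement Cfsg.Agent.BG Cfsg.Agent.GS in
  open Cfsg.Agent.H2 hiding card_lt_of_lt card_lt_of_ne_top isMulCommutative_of_le isPGroup_zpowers_iff mem_of_pow_mem_of_coprime inf_eq_bot_of_cop exists_maxElem_ge Sec in
  open Cfsg.Agent.H8 (Op Opp Fit SN) in
  open Cfsg.Agent.L (FPF) in focus
    have := hP.isNilpotent
    have h1 := class_le_two_iff.1 hcl
    have h4 : ∀ x : P, x ^ 4 = 1 := fun x => Monoid.exponent_dvd_iff_forall_pow_eq_one.1 hexp x
    have hc : ∀ x y : P, ⁅x, y⁆ ∈ center P := fun x y => h1 (commutator_mem_commutator (mem_top x) (mem_top y))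
    have h2 : ∀ x y : P, ⁅x, y⁆ ^ 2 = 1 := fun x y => by
      have h3 := L.mul_pow_of_central_commutator (x := y⁻¹) (y := x⁻¹) (z := ⁅x, y⁆) (by simp only [commutatorElement_def]; group)
        (mem_center_iff.1 (hc x y) _) (mem_center_iff.1 (hc x y) _) 4
      rw [h4, h4, h4, one_mul, one_mul, show Nat.choose 4 2 = 4 + 2 by rfl, pow_add, h4, one_mul] at h3
      exact h3.symm
    have h3 : frattini P ≤ omegaOne 2 (center P) := by
      refine frattini_le_of_elementary Nat.prime_two (commutator_le.2 fun a _ b _ => mem_omegaOne (hc a b) (h2 a b))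
        fun x => mem_omegaOne (mem_center_iff.2 fun y => ?_) (by rw [← pow_mul, h4])
      rw [eq_comm, ← commutatorElement_eq_one_iff_mul_comm, commElt_pow_left (mem_center_iff.1 (hc x y) x), h2]
    exact ⟨h3.trans (omegaOne_le _ _), BL.elem_of_le (omegaOne_elem_of_comm inferInstance) h3⟩

end Cfsg.Agent.S4056
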