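import Cfsg.Statements.S4058
import Cfsg.Agent.H3.FS
import Cfsg.Agent.H3.Kernel
import Cfsg.Agent.H1.Frattini

set_option autoImplicit false
open Cfsg

namespace Cfsg.Agent.S4058

open Cfsg.Agent.H3 ComplexConjugate

theorem dvd_sum_orb {L X : Type*} [Group L] [MulAction L X] [Fintype X] (f : X → ℤ) (m : ℤ)
    (hf : ∀ (l : L) x, f (l • x) = f x) (h : ∀ x, m ∣ ((MulAction.stabilizer L x).index : ℤ) * f x) : m ∣ ∑ x, f x := by
  classical
  rw [← Finset.sum_fiberwise Finset.univ (fun x => (Quotient.mk'' x : MulAction.orbitRel.Quotient L X))]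
  refine Finset.dvd_sum fun q _ => ?_
  obtain ⟨x, rfl⟩ := Quotient.exists_rep q
  rw [Finset.sum_congr rfl (g := fun _ => f x), Finset.sum_const, nsmul_eq_mul]
  · refine (h x).trans (dvd_of_eq ?_)
    congr 2; symm
    rw [MulAction.index_stabilizer, ← Set.ncard_coe_finset]
    congr 1; ext y
    simp only [Finset.coe_filter, Finset.mem_univ, true_and, Set.mem_setOf_eq]
    exact Quotient.eq''.trans MulAction.orbitRel_apply
  · intro y hy
    obtain ⟨l, rfl⟩ : y ∈ MulAction.orbit L x := MulAction.orbitRel_apply.1 (Quotient.exact (Finset.mem_filter.1 hy).2)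
    exact hf l x

@[reducible] noncomputable def act {G : Type*} [Group G] [Finite G] (N : Subgroup G) [N.Normal] :
    MulAction ((G ⧸ N) →* ℂˣ) (IrrCharacter G) where
  smul l χ := ⟨fun g => χ.1 g * (l.comp (QuotientGroup.mk' N)) g, χ.2.mul_linear _⟩
  one_smul χ := Subtype.ext (funext fun g => mul_one _)
  mul_smul a b χ := Subtype.ext (funext fun g => by
    change χ.1 g * ((a g * b g : ℂˣ) : ℂ) = χ.1 g * (b g : ℂˣ) * (a g : ℂˣ)
    rw [Units.val_mul]; ring)

theorem stab_le {G : Type*} [Group G] [Fintype G] (χ : IrrCharacter G) (S : Finset (G →* ℂˣ))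
    (hS : ∀ l ∈ S, (fun g => χ.1 g * l g) = χ.1) : S.card ≤ charDegree χ.1 ^ 2 := by
  classical
  have hθ : IsCharacter G (χ.1 * fun g => conj (χ.1 g)) := χ.2.isCharacter.mul χ.2.isCharacter.conj
  choose n hn using fun ψ : IrrCharacter G => hθ.exists_nat_inner ψ.2.isCharacter
  have e := hθ.isClassFunction.apply_eq_sum_irr 1
  have e2 : charDegree χ.1 ^ 2 = ∑ ψ : IrrCharacter G, n ψ * charDegree ψ.1 := by
    apply Nat.cast_injective (R := ℂ)
    push_cast
    simp only [hn, Pi.mul_apply, χ.2.isCharacter.conj_apply_one] at e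
    rw [χ.2.cast_charDegree, sq, e]
    exact Finset.sum_congr rfl fun ψ _ => by rw [ψ.2.cast_charDegree]
  let ι : (G →* ℂˣ) → IrrCharacter G := fun l => ⟨fun g => l g, isIrrCharacter_linear l⟩
  have hι : Function.Injective ι := fun a b h => linear_injective (congrArg Subtype.val h)
  rw [e2, ← Finset.card_image_of_injective S hι, Finset.card_eq_sum_ones]
  refine le_trans (Finset.sum_le_sum fun ψ hψ => ?_) (Finset.sum_le_sum_of_subset (Finset.subset_univ _))
  obtain ⟨l, hl, rfl⟩ := Finset.mem_image.1 hψ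
  have : n (ι l) = 1 := by
    apply Nat.cast_injective (R := ℂ)
    rw [← hn, classInner_mul_left, Nat.cast_one, ← χ.2.inner_self]
    congr 1; ext g
    simp only [ι, Complex.conj_conj]
    rw [mul_comm]; exact congrFun (hS l hl) g
  rw [this, one_mul]; exact (ι l).2.charDegree_pos

/-- Let G be a finite 2-group with #(G/Φ(G)) ≥ 2^(2k+1). Then the number of elements x of G with x² = 1 is divisible by 2^(k+1). -/
theorem result {G : Type*} [Group G] [Finite G] (hG : IsPGroup 2 G) (k : ℕ)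
    (hgen : 2 ^ (2 * k + 1) ≤ Nat.card (G ⧸ frattini G)) :
    2 ^ (k + 1) ∣ Nat.card {x : G // x ^ 2 = 1} := by
  classical
  haveI := Fintype.ofFinite G
  haveI : Fact (Nat.Prime 2) := ⟨Nat.prime_two⟩
  letI := act (frattini G)
  have hsm : ∀ (l : (G ⧸ frattini G) →* ℂˣ) (χ : IrrCharacter G) g, (l • χ).1 g = χ.1 g * l g := fun _ _ _ => rfl
  have hε : ∀ χ : IrrCharacter G, ∃ ε : ℤ, fsInd χ.1 = ε := fun χ => by
    rcases χ.2.fsInd_cases with h | h | h
    exacts [⟨0, by simp [h]⟩, ⟨1, by simp [h]⟩, ⟨-1, by simp [h]⟩]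
  choose ε hε using hε
  have key : ((Nat.card {x : G // x ^ 2 = 1} : ℕ) : ℤ) = ∑ χ : IrrCharacter G, ε χ * charDegree χ.1 := by
    apply Int.cast_injective (α := ℂ)
    simp only [sq]
    push_cast
    rw [card_sq_root_eq_sum]
    exact Finset.sum_congr rfl fun χ _ => by rw [χ.2.isCharacter.conj_apply_one, hε, χ.2.cast_charDegree]
  rw [← Int.natCast_dvd_natCast, key]
  have hcomm : commutator (G ⧸ frattini G) = ⊥ := by
    have := map_commutator_eq G (QuotientGroup.mk' (frattini G))
    rw [MonoidHom.range_eq_top.2 (QuotientGroup.mk'_surjective _)] at this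
    rw [commutator_def, ← this, Subgroup.map_eq_bot_iff, QuotientGroup.ker_mk']
    exact H1.commutator_le_frattini hG
  have hL : Nat.card ((G ⧸ frattini G) →* ℂˣ) = Nat.card (G ⧸ frattini G) := by
    rw [card_linear, hcomm, Subgroup.index_bot]
  obtain ⟨d, hd⟩ := (hG.to_quotient (frattini G)).exists_card_eq
  haveI : Finite ((G ⧸ frattini G) →* ℂˣ) := Nat.finite_of_card_ne_zero (by rw [hL]; exact Nat.card_pos.ne')
  refine dvd_sum_orb (L := (G ⧸ frattini G) →* ℂˣ) _ _ (fun l χ => ?_) (fun χ => ?_)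
  · have h1 : ε (l • χ) = ε χ := by
      apply Int.cast_injective (α := ℂ)
      rw [← hε, ← hε, fsInd, fsInd]
      congr 1
      refine Finset.sum_congr rfl fun s _ => ?_
      rw [hsm, ← sq, (QuotientGroup.eq_one_iff _).2 (H1.pow_mem_frattini hG s), map_one, Units.val_one, mul_one]
    have h2 : charDegree (l • χ).1 = charDegree χ.1 := by
      apply charDegree_eq; rw [hsm, χ.2.cast_charDegree]; simp
    rw [h1, h2]
  · obtain ⟨a, -, ha⟩ := (Nat.dvd_prime_pow Nat.prime_two).1 ((hG.exists_card_eq.choose_spec) ▸ χ.2.degree_dvd_card)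
    have hm := (MulAction.stabilizer ((G ⧸ frattini G) →* ℂˣ) χ).card_mul_index
    rw [hL, hd] at hm
    obtain ⟨s, hs, hs'⟩ := (Nat.dvd_prime_pow Nat.prime_two).1 (Dvd.intro _ hm)
    obtain ⟨t, ht, ht'⟩ := (Nat.dvd_prime_pow Nat.prime_two).1 (Dvd.intro_left _ hm)
    have hst : s + t = d := by rw [hs', ht', ← pow_add] at hm; exact Nat.pow_right_injective le_rfl hm
    haveI := Fintype.ofFinite (MulAction.stabilizer ((G ⧸ frattini G) →* ℂˣ) χ)
    have hle := stab_le χ (Finset.univ.image fun l : MulAction.stabilizer ((G ⧸ frattini G) →* ℂˣ) χ => l.1.comp (QuotientGroup.mk' _)) (by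
      intro l hl
      obtain ⟨l, -, rfl⟩ := Finset.mem_image.1 hl
      exact congrArg Subtype.val l.2)
    rw [Finset.card_image_of_injective _ (fun a b h => Subtype.ext (QuotientGroup.monoidHom_ext _ h)), Finset.card_univ,
      ← Nat.card_eq_fintype_card, hs', ha, ← pow_mul] at hle
    have h3 := (Nat.pow_le_pow_iff_right (by norm_num)).1 hle
    have h4 := (Nat.pow_le_pow_iff_right (by norm_num)).1 (hd ▸ hgen)
    rw [ht', ha, mul_left_comm]
    refine Dvd.dvd.mul_left ?_ _
    rw [← Nat.cast_mul, ← pow_add, Int.natCast_dvd_natCast]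
    exact pow_dvd_pow 2 (by omega)

end Cfsg.Agent.S4058
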