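import Cfsg.Statements.S4065
import Cfsg.Agent.H4.Dick9

set_option autoImplicit false
open Cfsg

namespace Cfsg.Agent.S4065

/-- Let F be a finite field with 2ⁿ elements, n ≥ 2. In PSL₂(F) the centralizer of every element meets each of its conjugates by elements outside its normalizer trivially. -/
theorem result (n : ℕ) (hn : 2 ≤ n)
    (x : Matrix.ProjectiveSpecialLinearGroup (Fin 2) (GaloisField 2 n)) :
    Cfsg.IsTISubset (Subgroup.centralizer ({x} : Set (Matrix.ProjectiveSpecialLinearGroup (Fin 2) (GaloisField 2 n))) :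
      Set (Matrix.ProjectiveSpecialLinearGroup (Fin 2) (GaloisField 2 n))) := by
  open Cfsg.Agent.H4 in
  intro g hg a ha ha'
  by_contra a1
  refine hg ?_
  let D := dactS (GaloisField 2 n) 2
  by_cases x1 : x = 1
  · rw [x1, Subgroup.centralizer_eq_top_iff_subset.2 (by simp), Subgroup.normalizer_eq_top]; trivial
  obtain ⟨z, hz⟩ := D.fix x
  by_cases x2 : x ^ 2 = 1
  · rw [D.centralizer_U x1 ⟨hz, x2⟩] at ha ha' ⊢
    rw [D.normalizer_U fun e => x1 (Subgroup.mem_bot.1 (e ▸ ⟨hz, x2⟩))]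
    exact inv_mem_iff.1 (D.fix_of_conj_U (g := g⁻¹) a1 ha (by rw [inv_inv]; exact ha'.1))
  · obtain ⟨w, hw, hw'⟩ := D.two hz x2
    rw [D.centralizer_T hw.symm x2 hz hw'] at ha ha' ⊢
    exact D.PS_le_normalizer hw.symm (fun k hk => hk) (inv_mem_iff.1
      (D.mem_PS_of_conj (g := g⁻¹) a1 hw.symm ha.1 ha.2 (by rw [inv_inv]; exact ha'.1) (by rw [inv_inv]; exact ha'.2)))

end Cfsg.Agent.S4065
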