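import Cfsg.Statements.S4066
import Cfsg.Agent.GS.Lem1

set_option autoImplicit false
open Cfsg

namespace Cfsg.Agent.S4066

open Cfsg.Agent.H1

/-- Let G be a finite group in which the centralizer of every element meets each of its conjugates by elements outside its normalizer trivially. Then any two distinct Sylow p-subgroups of G, for any prime p, intersect trivially. -/
theorem result {G : Type*} [Group G] [Finite G] (hTI : ∀ x : G, Cfsg.IsTISubset (Subgroup.centralizer ({x} : Set G) : Set G))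
    {p : ℕ} [Fact p.Prime] (P Q : Sylow p G) (hPQ : P ≠ Q) : (P : Subgroup G) ⊓ (Q : Subgroup G) = ⊥ := by
  open Subgroup Pointwise commutatorElement Cfsg.Agent.BG Cfsg.Agent.GS in
  open Cfsg.Agent.H2 hiding card_lt_of_lt card_lt_of_ne_top isMulCommutative_of_le isPGroup_zpowers_iff mem_of_pow_mem_of_coprime inf_eq_bot_of_cop exists_maxElem_ge Sec in
  open Cfsg.Agent.H8 (Op Opp Fit SN) in
  open Cfsg.Agent.L (FPF) in focus
    by_contra e
    have key : ∀ w y g : G, w ≠ 1 → w ∈ 𝒞₁ y → g * w * g⁻¹ ∈ 𝒞₁ y → g ∈ 𝒩 (𝒞₁ y) := fun w y g h1 h2 h3 => by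
      by_contra h4; exact h1 (hTI y g h4 w h2 h3)
    obtain ⟨x, ⟨x1, x2⟩, x3⟩ := exists_ne_one e
    obtain ⟨z, ⟨z1, z2⟩, z3⟩ := exists_ne_one (zc_ne_bot (isNilpotent_of_pgroup P.isPGroup') (ne_bot_of_mem x1 x3))
    have h1 : Group.IsNilpotent (𝒞₁ z) := nil_of_commute_conj fun y hy g hg =>
      conj_mem_of_mem_normalizer (key z y g z3 (mem_cent1_comm.1 hy) (by rw [conj_eq_of_mem_cent1 hg]; exact mem_cent1_comm.1 hy))
        (self_mem_cent1 y)
    obtain ⟨g, hg⟩ := sylow_exists_cj_eq Q P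
    have h2 : (P : Subgroup G) ≤ 𝒞₁ z := le_cent1_iff.2 z2
    have h3 := sylIn_norm_of_nil (sylIn_of_le P h2) h1 (key x z g x3 (h2 x1) (h2 (hg ▸ conj_mem_cj g x2)))
    exact hPQ (Sylow.ext (cj_inj.1 ((cj_eq_of_mem_normalizer h3).trans hg.symm)))

end Cfsg.Agent.S4066
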