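import Cfsg.Statements.S4071
import Cfsg.Agent.H9.TJ
import Cfsg.Agent.L.Frattini
import Cfsg.Agent.L.Cores
import Cfsg.Agent.L.Fitting
import Cfsg.Agent.H2.Syl

set_option autoImplicit false
open Cfsg

namespace Cfsg.Agent.S4071

open Cfsg.Agent Cfsg.Agent.H9
open Cfsg.Agent Cfsg.Agent.H9 Subgroup
open scoped commutatorElement

theorem bez {G : Type*} [Group G] (x : G) {i j : ℤ} (h : IsCoprime i j) (K : Subgroup G) (hi : x ^ i ∈ K) (hj : x ^ j ∈ K) :
    x ∈ K := by
  obtain ⟨u, v, e⟩ := h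
  have := mul_mem (zpow_mem hi u) (zpow_mem hj v)
  rwa [← zpow_mul, ← zpow_mul, ← zpow_add, mul_comm i, mul_comm j, e, zpow_one] at this

/-- Let G be a finite solvable non-nilpotent group. Every non-abelian subgroup of G is self-normalizing if and only if G is a semidirect product ⟨x⟩ ⋉ A in which ⟨x⟩ is a p-group for some prime p, A is a normal abelian subgroup of order prime to p, x^p is central in G, and x acts fixed-point-freely on A (no non-identity element of A commutes with x). -/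
theorem result {G : Type*} [Group G] [Finite G]
    [Group.IsSolvable G] (hnn : ¬ Group.IsNilpotent G) :
    (∀ H : Subgroup G, ¬ IsMulCommutative H → Subgroup.normalizer (H : Set G) = H) ↔
    ∃ (x : G) (A : Subgroup G) (p : ℕ), p.Prime ∧ A.Normal ∧ IsMulCommutative A ∧ (∃ k : ℕ, orderOf x = p ^ k) ∧
      ¬ p ∣ Nat.card A ∧ (Subgroup.zpowers x).IsComplement' A ∧ x ^ p ∈ Subgroup.center G ∧
      ∀ a : G, a ∈ A → a ≠ 1 → x * a * x⁻¹ ≠ a := by
  constructor
  · intro h
    haveI : Nontrivial G := by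
      by_contra h1
      rw [not_nontrivial_iff_subsingleton] at h1
      exact hnn inferInstance
    have hab : ∀ H : Subgroup G, H ≠ ⊤ → commutator G ≤ H → IsMulCommutative H := fun H h1 h2 => by
      by_contra h3
      haveI := L.normal_of_commutator_le h2
      exact h1 ((h H h3).symm.trans (normalizer_eq_top H))
    have hD := (Group.IsSolvable.commutator_lt_top_of_nontrivial G).ne
    obtain ⟨M, hM, hDM⟩ := L.exists_coatom_of_ne_top hD
    haveI := L.normal_of_commutator_le hDM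
    haveI hMc := hab M hM.1 hDM
    haveI hDc := hab _ hD le_rfl
    have hp := L.index_prime_of_isCoatom_normal hM
    haveI := Fact.mk hp
    obtain ⟨y, -, hy⟩ := SetLike.exists_of_lt hM.lt_top
    obtain ⟨k, m, hm, e⟩ := Nat.exists_eq_pow_mul_and_not_dvd (orderOf_pos y).ne' M.index hp.ne_one
    have hx1 : y ^ m ∉ M := fun h1 => hy (bez y (Nat.isCoprime_iff_coprime.mpr ((Nat.Prime.coprime_iff_not_dvd hp).mpr hm)) M
      (by rw [zpow_natCast]; exact M.pow_index_mem y) (by rw [zpow_natCast]; exact h1))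
    have hx2 : orderOf (y ^ m) = M.index ^ k := by
      have hm0 : m ≠ 0 := by rintro rfl; exact hm (dvd_zero _)
      rw [orderOf_pow_of_dvd hm0 (e ▸ Dvd.intro_left _ rfl), e, Nat.mul_div_cancel _ (Nat.pos_of_ne_zero hm0)]
    generalize y ^ m = x at hx1 hx2
    have htop : commutator G ⊔ zpowers x = ⊤ := by
      by_contra h1
      haveI := hab _ h1 le_sup_left
      haveI := L.normal_of_commutator_le (le_sup_left : commutator G ≤ commutator G ⊔ zpowers x)
      refine hnn (L.fitting_eq_top_iff.mp (hM.2 _ (lt_of_le_of_ne (L.le_fitting (L.isNilpotent_of_isMulCommutative M)) fun e => hx1 ?_)))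
      rw [e]
      exact L.le_fitting (L.isNilpotent_of_isMulCommutative ↥(commutator G ⊔ zpowers x)) (mem_sup_right (mem_zpowers x))
    have hall : ∀ K : Subgroup G, commutator G ≤ K → x ∈ K → ∀ g, g ∈ K := fun K h1 h2 g =>
      (sup_le h1 (zpowers_le.mpr h2)) (htop ▸ mem_top g)
    have hc : ∀ {a b : G}, a ∈ commutator G → b ∈ commutator G → a * b = b * a := fun ha hb =>
      L.mul_comm_of_isMulCommutative ha hb
    let φ : commutator G →* commutator G := MonoidHom.mk' (fun a => ⟨⁅x, a.1⁆, commutator_mem_commutator (mem_top _) (mem_top _)⟩)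
      fun a b => Subtype.ext (by
        show ⁅x, a.1 * b.1⁆ = ⁅x, a.1⁆ * ⁅x, b.1⁆
        have := hc a.2 (commutator_mem_commutator (mem_top x) (mem_top b.1))
        calc _ = ⁅x, a.1⁆ * (a.1 * ⁅x, b.1⁆) * a.1⁻¹ := by simp only [commutatorElement_def]; group
          _ = _ := by rw [this]; group)
    let I := φ.range.map (commutator G).subtype
    have hI : ∀ a ∈ commutator G, ⁅x, a⁆ ∈ I := fun a ha => ⟨_, ⟨⟨a, ha⟩, rfl⟩, rfl⟩
    haveI : I.Normal := L.normal_of_le_normalizer_top fun g _ => hall _ (fun d hd => L.mem_normalizer_of_forall fun z hz => by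
        rw [hc hd (map_subtype_le _ hz), mul_inv_cancel_right]; exact hz)
      (L.mem_normalizer_of_forall (by
        rintro _ ⟨_, ⟨a, rfl⟩, rfl⟩
        convert hI _ ((inferInstance : (commutator G).Normal).conj_mem _ a.2 x) using 1
        show x * ⁅x, a.1⁆ * x⁻¹ = _
        simp only [commutatorElement_def]; group)) g
    let f := QuotientGroup.mk' I
    have hq : ∀ u v : G, u ∈ (centralizer {f v}).comap f ↔ ⁅u, v⁆ ∈ I := fun u v => by
      rw [mem_comap, mem_centralizer_singleton_iff, ← commutatorElement_eq_one_iff_mul_comm, ← map_commutatorElement]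
      exact QuotientGroup.eq_one_iff _
    have hsw : ∀ u v : G, ⁅u, v⁆ ∈ I → ⁅v, u⁆ ∈ I := fun u v h => by rw [← commutatorElement_inv]; exact inv_mem h
    have hDI : commutator G ≤ I := commutator_le.mpr fun u _ v _ => (hq u v).mp (hall _
      (fun d hd => (hq d v).mpr (hsw _ _ ((hq v d).mp (hall _ (fun d' hd' => (hq d' d).mpr (by
        rw [commutatorElement_eq_one_iff_mul_comm.mpr (hc hd' hd)]; exact one_mem _)) ((hq x d).mpr (hI d hd)) v))))
      ((hq x v).mpr (hsw _ _ ((hq v x).mp (hall _ (fun d hd => (hq d x).mpr (hsw _ _ (hI d hd))) ((hq x x).mpr (by simp)) v)))) u)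
    have hφ : Function.Injective φ := Finite.injective_iff_surjective.mpr fun a => by
      obtain ⟨_, ⟨b, rfl⟩, hb⟩ := hDI a.2
      exact ⟨b, Subtype.ext hb⟩
    have hf : ∀ a ∈ commutator G, a ≠ 1 → x * a * x⁻¹ ≠ a := fun a ha h1 h2 =>
      h1 (congrArg Subtype.val ((injective_iff_map_eq_one φ).mp hφ ⟨a, ha⟩ (Subtype.ext (by
        show ⁅x, a⁆ = 1
        rw [commutatorElement_def, h2, mul_inv_cancel]))))
    have hxp := H2.isPGroup_zpowers_of_orderOf hx2
    have hnd : ¬ M.index ∣ Nat.card (commutator G) := fun hd => by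
      obtain ⟨S, hS⟩ := hxp.exists_le_sylow
      haveI := S.isPGroup'.isNilpotent
      have h1 := L.inf_centralizer_ne_bot_of_isNilpotent (H := S) (N := (S : Subgroup G) ⊓ commutator G) inf_le_left
        (L.le_normalizer_inf le_normalizer le_normalizer_of_normal) ((H2.sylow_inf_normal S _).ne_bot hd)
      obtain ⟨⟨a, ha⟩, ha1⟩ := ne_bot_iff_exists_ne_one.mp h1
      exact hf a ha.1.2 (fun e => ha1 (Subtype.ext e)) (by rw [ha.2 x (hS (mem_zpowers x)), mul_inv_cancel_right])
    refine ⟨x, commutator G, M.index, hp, inferInstance, hDc, ⟨k, hx2⟩, hnd, (L.isComplement'_of_inf_sup ?_ htop).symm, ?_, hf⟩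
    · refine inf_eq_bot_of_coprime ?_
      rw [Nat.card_zpowers, hx2]
      exact (((Nat.Prime.coprime_iff_not_dvd hp).mpr hnd).symm).pow_right k
    · refine mem_center_iff.mpr fun g => mem_centralizer_singleton_iff.mp (hall _ (fun d hd => mem_centralizer_singleton_iff.mpr
        (L.mul_comm_of_isMulCommutative (hDM hd) (M.pow_index_mem x))) (mem_centralizer_singleton_iff.mpr (Commute.self_pow x _)) g)
  · rintro ⟨x, A, p, hp, hA, hAc, ⟨k, hk⟩, -, hcomp, hxp, hf⟩ H hH
    have hdec : ∀ g : G, ∃ i : ℤ, ∃ a ∈ A, x ^ i * a = g := fun g => by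
      obtain ⟨⟨⟨_, i, rfl⟩, a⟩, e⟩ := hcomp.2 g
      exact ⟨i, a.1, a.2, e⟩
    have hc : ∀ {a b : G}, a ∈ A → b ∈ A → a * b = b * a := fun ha hb => L.mul_comm_of_isMulCommutative ha hb
    obtain ⟨i, a, ha, hh, hi⟩ : ∃ i : ℤ, ∃ a ∈ A, x ^ i * a ∈ H ∧ ¬ (p : ℤ) ∣ i := by
      by_contra h
      push Not at h
      refine hH (L.isMulCommutative_of_forall fun u hu v hv => ?_)
      obtain ⟨i, a, ha, rfl⟩ := hdec u
      obtain ⟨j, b, hb, rfl⟩ := hdec v
      obtain ⟨i, rfl⟩ := h i a ha hu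
      obtain ⟨j, rfl⟩ := h j b hb hv
      rw [zpow_mul, zpow_mul, zpow_natCast]
      have h1 := mem_center_iff.mp (zpow_mem hxp i)
      have h2 := mem_center_iff.mp (zpow_mem hxp j)
      calc _ = (x ^ p) ^ i * (a * (x ^ p) ^ j) * b := by simp only [mul_assoc]
        _ = ((x ^ p) ^ i * (x ^ p) ^ j) * (a * b) := by rw [h2 a]; simp only [mul_assoc]
        _ = (x ^ p) ^ j * ((x ^ p) ^ i * b) * a := by rw [h2, hc ha hb]; simp only [mul_assoc]
        _ = _ := by rw [← h1 b]; simp only [mul_assoc]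
    have hcop : IsCoprime (p : ℤ) i := (Nat.prime_iff_prime_int.mp hp).irreducible.coprime_iff_not_dvd.mpr hi
    have hfx : ∀ u ∈ A, x ^ i * a * u * (x ^ i * a)⁻¹ = u → u = 1 := fun u hu e => by
      by_contra h1
      refine hf u hu h1 (mul_inv_eq_iff_eq_mul.mpr (mem_centralizer_singleton_iff.mp (bez x hcop _ ?_ ?_)))
      · rw [zpow_natCast]; exact mem_centralizer_singleton_iff.mpr (mem_center_iff.mp hxp u).symm
      · rw [mul_inv_eq_iff_eq_mul, mul_assoc, hc ha hu, ← mul_assoc, ← mul_assoc] at e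
        exact mem_centralizer_singleton_iff.mpr (mul_right_cancel e)
    have hx : QuotientGroup.mk' A x ∈ zpowers (QuotientGroup.mk' A (x ^ i * a)) := by
      refine bez _ (hcop.pow_left (m := k)) _ ?_ ?_
      · rw [← Nat.cast_pow, zpow_natCast, ← map_pow, ← hk, pow_orderOf_eq_one, map_one]; exact one_mem _
      · rw [map_mul, show QuotientGroup.mk' A a = 1 from (QuotientGroup.eq_one_iff a).mpr ha, mul_one, map_zpow]
        exact mem_zpowers _
    generalize x ^ i * a = h at hh hfx hx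
    have hinj : ∀ b ∈ A, ∀ c ∈ A, h * b * h⁻¹ * b⁻¹ = h * c * h⁻¹ * c⁻¹ → b = c := fun b hb c hc e => by
      refine (inv_mul_eq_one.mp (hfx _ (mul_mem (inv_mem hc) hb) ?_)).symm
      calc _ = c⁻¹ * (h * c * h⁻¹ * c⁻¹)⁻¹ * (h * b * h⁻¹ * b⁻¹) * b := by group
        _ = _ := by rw [e]; group
    refine le_antisymm (fun g hg => ?_) le_normalizer
    obtain ⟨m, hm⟩ : QuotientGroup.mk' A g ∈ zpowers (QuotientGroup.mk' A h) := by
      obtain ⟨j, b, hb, rfl⟩ := hdec g
      rw [map_mul, show QuotientGroup.mk' A b = 1 from (QuotientGroup.eq_one_iff b).mpr hb, mul_one, map_zpow]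
      exact zpow_mem hx j
    have h1 : (h ^ m)⁻¹ * g ∈ A := by
      rw [← QuotientGroup.eq]
      exact (map_zpow (QuotientGroup.mk' A) h m).trans hm
    have h2 : (h ^ m)⁻¹ * g ∈ normalizer (H : Set G) := mul_mem (inv_mem (le_normalizer (zpow_mem hh m))) hg
    refine (mul_mem_cancel_left (inv_mem (zpow_mem hh m))).mp ?_
    generalize (h ^ m)⁻¹ * g = c at h1 h2
    let ψ : ↥(H ⊓ A) → ↥(H ⊓ A) := fun b => ⟨h * b.1 * h⁻¹ * b.1⁻¹, H.mul_mem (H.mul_mem (H.mul_mem hh b.2.1) (H.inv_mem hh)) (H.inv_mem b.2.1),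
      A.mul_mem (hA.conj_mem _ b.2.2 h) (A.inv_mem b.2.2)⟩
    have hψ : Function.Injective ψ := fun b b' e => Subtype.ext (hinj _ b.2.2 _ b'.2.2 (congrArg Subtype.val e))
    obtain ⟨b, hb⟩ := Finite.injective_iff_surjective.mp hψ ⟨h * c * h⁻¹ * c⁻¹, mem_inf.mpr ⟨by
      have := mul_mem hh (L.conj_mem_of_mem_normalizer h2 (inv_mem hh))
      simpa only [mul_assoc] using this, mul_mem (hA.conj_mem _ h1 h) (inv_mem h1)⟩⟩
    rw [← hinj _ b.2.2 _ h1 (congrArg Subtype.val hb)]
    exact b.2.1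

end Cfsg.Agent.S4071
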