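import Cfsg.Statements.S4072
import Cfsg.Agent.GS.Lem3

set_option autoImplicit false
open Cfsg

namespace Cfsg.Agent.S4072

open Cfsg.Agent.H1

/-- A finite group in which every non-abelian subgroup is self-normalizing is solvable or simple. -/
theorem result {G : Type*} [Group G] [Finite G] (hS : ∀ H : Subgroup G, ¬ IsMulCommutative H → Subgroup.normalizer (H : Set G) = H) :
    Group.IsSolvable G ∨ IsSimpleGroup G := by
  open Subgroup Pointwise commutatorElement Cfsg.Agent.BG Cfsg.Agent.GS in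
  open Cfsg.Agent.H2 hiding card_lt_of_lt card_lt_of_ne_top isMulCommutative_of_le isPGroup_zpowers_iff mem_of_pow_mem_of_coprime inf_eq_bot_of_cop exists_maxElem_ge Sec in
  open Cfsg.Agent.H8 (Op Opp Fit SN) in
  open Cfsg.Agent.L (FPF) in focus
    refine or_iff_not_imp_left.2 fun hs => by_contra fun hn => ?_
    have : Nontrivial G := not_subsingleton_iff_nontrivial.1 fun _ => hs inferInstance
    have h1 : ∀ N : Subgroup G, N.Normal → N ≠ ⊤ → IsMulCommutative N := fun N a b =>
      by_contra fun e => b ((hS N e).symm.trans (normalizer_eq_top N))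
    have h2 : ⁅(⊤ : Subgroup G), (⊤ : Subgroup G)⁆ = ⊤ := by_contra fun e => hs (isSolvable_top_iff.1
      (isSolvable_of_commutator (isSolvable_of_isMulCommutative (h1 _ inferInstance e))))
    obtain ⟨M, m1, m2, m3⟩ : ∃ M : Subgroup G, M.Normal ∧ M ≠ ⊥ ∧ M ≠ ⊤ := by
      by_contra! e
      exact hn ⟨fun N hN => or_iff_not_imp_left.2 (e N hN)⟩
    obtain ⟨N, n0, ⟨n1, n2⟩, n3⟩ := exists_maximal_ge (fun N : Subgroup G => N.Normal ∧ N ≠ ⊤) (N := M) ⟨m1, m3⟩
    have := nontrivial_quotient_of_ne_top n2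
    have : IsSimpleGroup (G ⧸ N) := ⟨fun K hK => or_iff_not_imp_right.2 fun e => by
      rw [← map_comap_mk' N K, map_mk'_eq_bot_iff]
      exact (n3 _ ⟨inferInstance, fun c => e (by rw [← map_comap_mk' N K, c, map_top_of_surjective _ (QuotientGroup.mk'_surjective N)])⟩
        (le_comap_mk'' N K)).le⟩
    have h3 : ∀ (p : ℕ) [Fact p.Prime] (K : Subgroup G), N ≤ K → ¬ IsMulCommutative K → IsPGroup p (K.map (QuotientGroup.mk' N)) →
        IsMulCommutative (K.map (QuotientGroup.mk' N)) → False := fun p _ K a b c d => by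
      refine hs (isSolvable_of_normal_of_quotient N (isSolvable_of_isMulCommutative (h1 N n1 n2)) (isSolvable_of_isPGroup
        (pgroup_of_simple_selfnorm c (fun e => b (comm_of_le (h1 N n1 n2) (map_mk'_eq_bot_iff.1 e))) d fun x hx => ?_)))
      obtain ⟨x, rfl⟩ := QuotientGroup.mk'_surjective N x
      have := comap_le_normalizer_comap (QuotientGroup.mk' N) (le_refl (𝒩 (K.map (QuotientGroup.mk' N)))) hx
      rw [comap_map_mk', sup_eq_left.2 a, hS K b] at this
      exact mem_map_of_mem _ this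
    by_cases hc : 𝒞 N = ⊤
    · obtain ⟨Z, z1, z2⟩ := exists_card_prime (ne_bot_mono m2 n0)
      have := Fact.mk z2
      obtain ⟨P, hP, h4⟩ := exists_sylIn_ge (isPGroup_of_card_eq (X := Z) rfl) le_top
      have h5 : Z ≤ ⁅P, P⁆ := fun z hz => hP.mem_commutator_of_center (h4 hz) (h2.symm ▸ mem_top z)
        (le_cent_comm.1 hc.ge (z1 hz))
      have h6 : ¬ IsMulCommutative P := fun e => ne_bot_of_card_prime z2 (eq_bot_mono (comm_iff_der.1 e) h5)
      have h7 := card_der_of_min hP.pgrp h6 fun U hU => by_contra fun e =>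
        (lt_inf_normalizer hP.pgrp hU).not_ge (inf_le_right.trans (hS U e).le)
      refine h3 _ P (hS P h6 ▸ (le_cent_comm.1 (le_top.trans hc.ge)).trans (cent_le_norm P)) h6 (hP.pgrp.map _) ?_
      rw [comm_iff_der, ← map_commutator, map_mk'_eq_bot_iff, ← BL.eq_of_le_of_card h5 h7.le]
      exact z1
    · obtain ⟨X, -, x2⟩ := exists_card_prime (top_ne_bot (α := Subgroup (G ⧸ N)))
      have := Fact.mk x2
      refine h3 (♯X) (X.comap (QuotientGroup.mk' N)) (le_comap_mk'' N X) (fun e => ne_bot_of_card_prime x2 ?_)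
        (by rw [map_comap_mk']; exact isPGroup_of_card_eq rfl) (by rw [map_comap_mk']; exact comm_of_cyclic (isCyclic_of_card_prime x2))
      rw [← map_comap_mk' N X, map_mk'_eq_bot_iff]
      exact (le_cent_of_comm e le_rfl (le_comap_mk'' N X)).trans (n3 _ ⟨inferInstance, hc⟩ (le_cent_self (h1 N n1 n2))).le

end Cfsg.Agent.S4072
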