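import Cfsg.Statements.S4074


set_option autoImplicit false
open Cfsg

namespace Cfsg.Agent.S4074

open Subgroup DihedralGroup
open scoped Pointwise commutatorElement

/-- For n > 2, every non-abelian subgroup of the dihedral group of order 2n is self-normalizing if and only if n = 4 or n is odd. -/
theorem result (n : ℕ) (hn : 2 < n) :
    (∀ H : Subgroup (DihedralGroup n), ¬ IsMulCommutative H → Subgroup.normalizer (H : Set (DihedralGroup n)) = H) ↔
    (n = 4 ∨ Odd n) := by
  constructor
  · intro h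
    by_contra! a
    have b : 2 ∣ n := even_iff_two_dvd.1 (Nat.not_odd_iff_even.1 a.2)
    let φ : DihedralGroup n →* Multiplicative (ZMod 2) := MonoidHom.mk' (fun x => .ofAdd (ZMod.castHom b (ZMod 2) (x.casesOn id id))) (by
      rintro (i | i) (j | j) <;> simp only [r_mul_r, r_mul_sr, sr_mul_r, sr_mul_sr, id, map_add, map_sub, ← ofAdd_add, CharTwo.sub_eq_add, add_comm])
    have c := h φ.ker fun c => by
      have := congrArg Subtype.val (c.is_comm.comm ⟨r 2, show Multiplicative.ofAdd (ZMod.castHom b (ZMod 2) 2) = 1 by rw [map_ofNat]; rfl⟩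
        ⟨sr 0, show Multiplicative.ofAdd (ZMod.castHom b (ZMod 2) 0) = 1 by rw [map_zero]; rfl⟩)
      change r _ * sr _ = sr _ * r _ at this
      rw [r_mul_sr, sr_mul_r, sr.injEq] at this
      have d : ((4 : ℕ) : ZMod n) = 0 := by push_cast; linear_combination -this
      rw [ZMod.natCast_eq_zero_iff] at d
      have := Nat.le_of_dvd four_pos d
      interval_cases n <;> omega
    have d : Multiplicative.ofAdd (ZMod.castHom b (ZMod 2) 1) = 1 := c.le (le_normalizer_of_normal (mem_top (r 1)))
    rw [map_one] at d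
    exact absurd d (by decide)
  intro h H a
  have : ∃ x ∈ H, ∃ y ∈ H, x * y ≠ y * x := by
    by_contra! b
    exact a ⟨⟨fun x y => Subtype.ext (b x x.2 y y.2)⟩⟩
  obtain ⟨x, hx, y, hy, b⟩ := this
  refine le_antisymm (fun g hg => ?_) le_normalizer
  rcases h with rfl | h
  · obtain ⟨i, -, j, -, k, -, rfl⟩ := (by decide +kernel : ∀ x y : DihedralGroup 4, x * y ≠ y * x → ∀ g, ∃ i < 4, ∃ j < 4, ∃ k < 4,
      x ^ i * y ^ j * (x * y) ^ k = g) x y b g
    exact mul_mem (mul_mem (pow_mem hx i) (pow_mem hy j)) (pow_mem (mul_mem hx hy) k)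
  obtain ⟨i, hi⟩ : ∃ i, sr i ∈ H := by
    rcases x with i | i
    · rcases y with j | j
      · simp [add_comm] at b
      exact ⟨j, hy⟩
    exact ⟨i, hx⟩
  have c : ∀ k, r k ∈ normalizer (H : Set (DihedralGroup n)) → r k ∈ H := fun k hk => by
    have : NeZero n := ⟨by omega⟩
    obtain ⟨u, hu⟩ := ((ZMod.isUnit_iff_coprime 2 n).2 h.coprime_two_left).exists_right_inv
    have := pow_mem (mul_mem ((mem_normalizer_iff.1 hk _).1 hi) hi) u.val
    rw [inv_r, r_mul_sr, sr_mul_r, sr_mul_sr, r_pow, ZMod.natCast_zmod_val] at this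
    convert this using 2
    push_cast at hu
    linear_combination -k * hu
  rcases g with k | k
  · exact c k hg
  simpa using mul_mem hi (c _ (mul_mem (le_normalizer hi) hg))

end Cfsg.Agent.S4074
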