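import Cfsg.Statements.S4075
import Cfsg.Agent.GS.Lem1

set_option autoImplicit false
open Cfsg

namespace Cfsg.Agent.S4075

open Cfsg.Agent.H1

/-- Let G be a finite nilpotent group. Every non-abelian subgroup of G is self-normalizing if and only if G is abelian or G is a minimal non-abelian p-group for some prime p (non-abelian of prime-power order with every proper subgroup abelian). -/
theorem result {G : Type*} [Group G] [Finite G]
    [Group.IsNilpotent G] :
    (∀ H : Subgroup G, ¬ IsMulCommutative H → Subgroup.normalizer (H : Set G) = H) ↔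
    (IsMulCommutative G ∨ (IsPrimePow (Nat.card G) ∧ ¬ IsMulCommutative G ∧ ∀ H : Subgroup G, H ≠ ⊤ → IsMulCommutative H)) := by
  open Subgroup Pointwise commutatorElement Cfsg.Agent.BG Cfsg.Agent.GS in
  open Cfsg.Agent.H2 hiding card_lt_of_lt card_lt_of_ne_top isMulCommutative_of_le isPGroup_zpowers_iff mem_of_pow_mem_of_coprime inf_eq_bot_of_cop exists_maxElem_ge Sec in
  open Cfsg.Agent.H8 (Op Opp Fit SN) in
  open Cfsg.Agent.L (FPF) in focus
    constructor
    · intro h
      by_cases hc : IsMulCommutative G
      · exact Or.inl hc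
      have h1 : ∀ H : Subgroup G, H ≠ ⊤ → IsMulCommutative H := fun H hH => by
        by_contra e
        exact hH (eq_of_isNilpotent_of_normalizer_le (nil_top_iff.2 inferInstance) le_top (inf_le_right.trans (h H e).le))
      refine Or.inr ⟨?_, hc, h1⟩
      have h2 : (⊤ : Subgroup G) ≠ ⊥ := fun e => hc (comm_top_iff.1 (e ▸ inferInstance))
      obtain ⟨p, hp, hd⟩ := exists_prime_dvd_card h2
      have := Fact.mk hp
      have h3 : IsPGroup p G := by
        by_contra e
        refine hc (comm_top_iff.1 ?_)
        rw [← H8.Op_sup_Opp_of_nilpotent (nil_top_iff.2 inferInstance) p]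
        refine comm_sup_of_cent (h1 _ fun e2 => e (isPGroup_top_iff.1 (e2 ▸ H8.Op_isPGroup p ⊤))) (h1 _ fun e2 => ?_)
          (Opp_le_cent_Op ⊤)
        exact (Nat.Prime.coprime_iff_not_dvd hp).1 (H8.Opp_coprime p ⊤).symm (by rwa [e2])
      obtain ⟨k, hk⟩ := IsPGroup.iff_card.1 h3
      rw [card_top, hk] at hd
      exact hk ▸ hp.isPrimePow.pow (fun e => hp.not_dvd_one (by rwa [e, pow_zero] at hd))
    · rintro (h | ⟨-, -, h⟩) H hH
      · exact absurd (comm_of_le (comm_top_iff.2 h) le_top) hH
      · obtain rfl : H = ⊤ := by by_contra e; exact hH (h H e)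
        exact eq_top_iff.2 le_normalizer

end Cfsg.Agent.S4075
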