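import Cfsg.Statements.S4080


set_option autoImplicit false
open Cfsg

namespace Cfsg.Agent.S4080

open Cfsg.Agent Subgroup
open scoped Pointwise commutatorElement
theorem key {L : Type*} [AddCommGroup L] [Finite L] {p : ℕ} (hp' : p.Prime) (hp : 3 < p) (hc : Nat.card L = p ^ 2 * p ^ 2)
    (h2 : ∀ v : L, p • p • v = 0) (h3 : ∀ v : L, p • v = 0 → ∃ w, p • w = v) (N : Module.End ℤ L) (h1 : (N + 1) ^ p = 1) (w : L) :
    N (p • w) = 0 := by
  have h4 : ∀ v, (N ^ p) (p • v) = 0 := fun v => by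
    obtain ⟨r, hr⟩ := (Commute.one_right N).exists_add_pow_prime_eq hp'
    rw [h1, one_pow, add_assoc, add_comm 1, ← add_assoc, right_eq_add, mul_one, mul_assoc] at hr
    have := DFunLike.congr_fun hr (p • v)
    rwa [LinearMap.add_apply, Module.End.mul_apply, Module.End.natCast_apply, map_nsmul (N * r), h2, add_zero] at this
  have h5 : ∀ v, N (N (p • v)) = 0 := fun v => by
    let W : ℕ → AddSubgroup L := fun k => (N ^ k * (p : Module.End ℤ L)).toAddMonoidHom.range
    have w1 : ∀ k, W (k + 1) = (W k).map N.toAddMonoidHom := fun k => by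
      simp only [W]; rw [AddMonoidHom.map_range, pow_succ', mul_assoc]; rfl
    have w2 : ∀ k, W (k + 1) ≤ W k := fun k => by
      rintro _ ⟨v, rfl⟩
      exact ⟨N v, by simp [pow_succ]⟩
    have w3 : ∀ k, W (k + 1) = W k → W k = ⊥ := fun k e => by
      have : ∀ j, W (k + j) = W k := fun j => by
        induction j with
        | zero => rfl
        | succ j ih => rw [← add_assoc, w1, ih, ← w1 k, e]
      rw [← this p, eq_bot_iff]
      rintro _ ⟨v, rfl⟩
      change (N ^ (k + p)) (p • v) = 0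
      rw [pow_add, Module.End.mul_apply, h4, map_zero]
    have w4 : ∀ k j, Nat.card (W k) ∣ p ^ (j + 1) → Nat.card (W (k + 1)) ∣ p ^ j := fun k j h => by
      by_cases e : W (k + 1) = W k
      · rw [e, w3 k e, AddSubgroup.card_bot]; exact one_dvd _
      obtain ⟨i, b, c⟩ := (Nat.dvd_prime_pow hp').1 ((AddSubgroup.card_dvd_of_le (w2 k)).trans h)
      refine c ▸ pow_dvd_pow p (Nat.le_of_lt_succ (lt_of_le_of_ne b fun d => e (AddSubgroup.eq_of_le_of_card_ge (w2 k) ?_)))
      rw [c, d]; exact Nat.le_of_dvd (pow_pos hp'.pos _) h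
    have w5 : Nat.card (W 0) ∣ p ^ (1 + 1) := by
      have a := (N ^ 0 * (p : Module.End ℤ L)).toAddMonoidHom.ker.card_mul_index
      rw [AddSubgroup.index_ker, show (N ^ 0 * (p : Module.End ℤ L)).toAddMonoidHom.ker = W 0 from le_antisymm
        (fun v hv => by simpa [W] using h3 v (by simpa using hv)) (by rintro _ ⟨v, rfl⟩; simpa using h2 v), hc] at a
      exact (Nat.mul_self_inj.1 a).dvd
    have := (AddSubgroup.card_eq_one.1 (Nat.dvd_one.1 (w4 _ 0 (w4 _ 1 w5)))).le ⟨v, rfl⟩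
    simpa [pow_succ] using this
  have h6 : N ^ 2 * p = 0 := LinearMap.ext fun v => by simpa [pow_succ] using h5 v
  have h7 : N ^ 4 = 0 := LinearMap.ext fun v => by
    obtain ⟨w, hw⟩ := h3 (N (N v)) (by simpa using h5 v)
    simpa [pow_succ, ← hw] using h5 w
  obtain ⟨k, hk⟩ : ∃ k, p = k + 1 := ⟨p - 1, by omega⟩
  rw [(Commute.one_right N).add_pow, Finset.sum_range_succ', show Finset.range p = Finset.range (k + 1) by rw [hk], Finset.sum_range_succ',
    Finset.sum_eq_zero fun i hi => ?_] at h1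
  · simpa using DFunLike.congr_fun h1 w
  rcases (show i + 1 + 1 ≤ p by have := Finset.mem_range.1 hi; omega).eq_or_lt with e | e
  · rw [pow_eq_zero_of_le (by omega) h7, zero_mul, zero_mul]
  obtain ⟨j, hj⟩ := hp'.dvd_choose_self (by omega) e
  rw [hj, one_pow, mul_one, Nat.cast_mul, add_assoc, pow_add, mul_assoc, ← mul_assoc (N ^ (1 + 1)), h6, zero_mul, mul_zero]

/-- Let p > 3 be a prime and L the direct product of two cyclic groups of order p². Every automorphism of L of order p fixes every element of order p of L. -/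
theorem result {p : ℕ} [Fact p.Prime] (hp : 3 < p)
    (a : MulAut (Multiplicative (ZMod (p ^ 2) × ZMod (p ^ 2)))) (ha : orderOf a = p)
    (x : Multiplicative (ZMod (p ^ 2) × ZMod (p ^ 2))) (hx : orderOf x = p) : a x = x := by
  have hp' : p.Prime := Fact.out
  have : NeZero (p ^ 2) := ⟨pow_ne_zero _ hp'.ne_zero⟩
  let f : MulAut (Multiplicative (ZMod (p ^ 2) × ZMod (p ^ 2))) →* Module.End ℤ (ZMod (p ^ 2) × ZMod (p ^ 2)) :=
    ⟨⟨fun a => (AddMonoidHom.mk' (fun v => (a (.ofAdd v)).toAdd) (by simp)).toIntLinearMap, rfl⟩, fun _ _ => rfl⟩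
  have h3 : ∀ v : ZMod (p ^ 2) × ZMod (p ^ 2), p • v = 0 → ∃ w, p • w = v := by
    have : ∀ v : ZMod (p ^ 2), p • v = 0 → ∃ w, p • w = v := fun v hv => by
      rw [← ZMod.natCast_zmod_val v, nsmul_eq_mul, ← Nat.cast_mul, ZMod.natCast_eq_zero_iff] at hv
      obtain ⟨w, hw⟩ := Nat.dvd_of_mul_dvd_mul_left hp'.pos ((pow_two p).symm.dvd.trans hv)
      exact ⟨w, by rw [← ZMod.natCast_zmod_val v, hw, nsmul_eq_mul, Nat.cast_mul]⟩
    intro v hv
    obtain ⟨x, hx⟩ := this v.1 (congrArg Prod.fst hv)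
    obtain ⟨y, hy⟩ := this v.2 (congrArg Prod.snd hv)
    exact ⟨(x, y), Prod.ext hx hy⟩
  obtain ⟨w, hw⟩ := h3 x.toAdd (congrArg Multiplicative.toAdd (orderOf_dvd_iff_pow_eq_one.1 hx.dvd))
  have := key hp' hp (by rw [Nat.card_prod, Nat.card_zmod]) (fun v => by
    rw [← mul_smul, ← pow_two, ← Nat.cast_smul_eq_nsmul (ZMod (p ^ 2)), ZMod.natCast_self, zero_smul]) h3 (f a - 1)
    (by rw [sub_add_cancel, ← map_pow, orderOf_dvd_iff_pow_eq_one.1 ha.dvd, map_one]) w
  rw [hw] at this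
  exact Multiplicative.toAdd.injective (sub_eq_zero.1 this)

end Cfsg.Agent.S4080
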