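import Cfsg.Statements.S4081
import Cfsg.Agent.C3.OR2

set_option autoImplicit false
open Cfsg

namespace Cfsg.Agent.S4081

/-- Let G be a finite group whose order is not a prime power. Then the automorphism group of G has exactly three orbits on G if and only if there are distinct primes p, q with #G = pⁿ·q (n ≥ 1) such that G has a normal elementary abelian Sylow p-subgroup P, p is a primitive root modulo q (the multiplicative order of p mod q is q − 1), and every element of order q of G acts on P without non-identity fixed points. -/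
theorem result {G : Type*} [Group G] [Finite G] (hnpp : ¬ IsPrimePow (Nat.card G)) (hnt : Nat.card G ≠ 1) :
    Nat.card (MulAction.orbitRel.Quotient (MulAut G) G) = 3 ↔
    ∃ (p q n : ℕ) (_ : Fact p.Prime) (_ : Fact q.Prime), p ≠ q ∧ 1 ≤ n ∧ Nat.card G = p ^ n * q ∧
      (∀ P : Sylow p G, (P : Subgroup G).Normal ∧ Cfsg.IsElementaryAbelian p (P : Subgroup G)) ∧
      orderOf (p : ZMod q) = q - 1 ∧
      ∀ x y : G, orderOf x = q → orderOf y = p → x * y * x⁻¹ ≠ y := by
  refine ⟨fun h => ?_, ?_⟩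
  · obtain ⟨r, hr, hr'⟩ := Nat.exists_prime_and_dvd hnt
    obtain ⟨s, hs, hs', hrs⟩ : ∃ s, s.Prime ∧ s ∣ Nat.card G ∧ r ≠ s := by
      by_contra hc
      push Not at hc
      exact hnpp (isPrimePow_iff_unique_prime_dvd.2 ⟨r, ⟨hr, hr'⟩, fun s hs => (hc s hs.1 hs.2).symm⟩)
    have := Fact.mk hr
    have := Fact.mk hs
    obtain ⟨a, ha⟩ := exists_prime_orderOf_dvd_card' r hr'
    obtain ⟨b, hb⟩ := exists_prime_orderOf_dvd_card' s hs'
    have tri := (C3.OR.three_iff hrs ha hb).1 h
    have h1 : ∀ l : ℕ, l.Prime → l ∣ Nat.card G → l = r ∨ l = s := fun l hl hl' => by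
      have := Fact.mk hl
      obtain ⟨g, hg⟩ := exists_prime_orderOf_dvd_card' l hl'
      rcases tri g with rfl | ⟨φ, rfl⟩ | ⟨φ, rfl⟩
      · exact absurd (hg.symm.trans orderOf_one) hl.ne_one
      · exact .inl (by rw [← hg, φ.orderOf_eq, ha])
      · exact .inr (by rw [← hg, φ.orderOf_eq, hb])
    have := H3.burnside_pq hr hs h1
    have : Nontrivial G := Finite.one_lt_card_iff_nontrivial.1
      (lt_of_le_of_ne Nat.card_pos hnt.symm)
    obtain ⟨N, l, h2, h3, -, hl, h4⟩ := H1.exists_normal_isPGroup_of_isSolvable (⊤ : Subgroup G)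
      top_ne_bot inferInstance
    have h5 : pCore l G ≠ ⊥ := fun e => h3 (H1.eq_bot_of_pCore_eq_bot e h2 h4)
    have := Fact.mk hl
    rcases h1 l hl ((h4.card_eq_or_dvd.resolve_left (by rwa [Subgroup.card_eq_one])).trans
      N.card_subgroup_dvd_card) with rfl | rfl
    · obtain ⟨n, h6⟩ := C3.OR.fwd hrs ha hb tri h5
      exact ⟨_, _, n, inferInstance, inferInstance, hrs, h6⟩
    · obtain ⟨n, h6⟩ := C3.OR.fwd hrs.symm hb ha (fun g => by rw [or_comm (a := ∃ _, _)]; exact tri g) h5
      exact ⟨_, _, n, inferInstance, inferInstance, hrs.symm, h6⟩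
  · rintro ⟨p, q, n, _, _, hpq, h⟩
    obtain ⟨a, b, ha, hb, tri⟩ := C3.OR.bwd hpq ⟨n, h⟩
    exact (C3.OR.three_iff hpq ha hb).2 tri

end Cfsg.Agent.S4081
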