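import Cfsg.Statements.S4084
import Cfsg.Agent.GS.Lem1

set_option autoImplicit false
open Cfsg

namespace Cfsg.Agent.S4084

open Cfsg.Agent.H1

section
open Subgroup Pointwise commutatorElement Cfsg.Agent.BG Cfsg.Agent.GS
open Cfsg.Agent.H2 hiding card_lt_of_lt card_lt_of_ne_top isMulCommutative_of_le isPGroup_zpowers_iff mem_of_pow_mem_of_coprime inf_eq_bot_of_cop exists_maxElem_ge Sec
open Cfsg.Agent.H8 (Op Opp Fit SN)
open Cfsg.Agent.L (FPF)
universe u

theorem aux {G H : Type*} [Group G] [Finite G] [Group H] [Finite H] (e : G ≃ H)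
    (he : ∀ x y : G, Commute x y ↔ Commute (e x) (e y)) {p q : ℕ} (hp : p.Prime) (hq : q.Prime) (hpq : p ≠ q)
    (g : G) (hg : orderOf g = p * q) : ∃ h : H, orderOf h = p * q := by
  obtain ⟨A, h1, -, h2, h3⟩ := exists_max_comm_ge (comm_zpowers g) le_top
  rw [top_inf_eq] at h3
  have h4 : ∀ x, e x ∈ centralizer (e '' A) ↔ x ∈ A := fun x => by
    rw [← h3, mem_centralizer_iff, mem_centralizer_iff, h3]
    exact ⟨fun h a ha => (he a x).2 (h _ ⟨a, ha, rfl⟩), by rintro h _ ⟨a, ha, rfl⟩; exact (he a x).1 (h a ha)⟩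
  have h5 : ♯A = ♯(centralizer (e '' A)) := Nat.card_congr (e.subtypeEquiv fun x => (h4 x).symm)
  have h6 : p * q ∣ ♯(centralizer (e '' A)) := by rw [← h5, ← hg]; exact orderOf_dvd_card_of_mem (h1 (mem_zpowers g))
  obtain ⟨a, ha, a1⟩ := exists_mem_orderOf_eq_prime hp ((dvd_mul_right p q).trans h6)
  obtain ⟨b, hb, b1⟩ := exists_mem_orderOf_eq_prime hq ((dvd_mul_left q p).trans h6)
  obtain ⟨a, rfl⟩ := e.surjective a
  have h7 : Commute (e a) b := hb _ ⟨a, (h4 a).1 ha, rfl⟩
  exact ⟨e a * b, by rw [h7.orderOf_mul_eq_mul_orderOf_of_coprime (by rw [a1, b1]; exact (Nat.coprime_primes hp hq).2 hpq), a1, b1]⟩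

end

/-- Let G and H be finite groups whose commuting graphs are isomorphic: there is a bijection e : G → H with x, y commuting exactly when e(x), e(y) commute. Then G and H have the same prime graph: for distinct primes p, q, G has an element of order pq if and only if H does (and #G = #H, so the prime divisors agree). -/
theorem result {G H : Type*} [Group G] [Finite G] [Group H] [Finite H] (e : G ≃ H)
    (he : ∀ x y : G, Commute x y ↔ Commute (e x) (e y))
    {p q : ℕ} (hp : p.Prime) (hq : q.Prime) (hpq : p ≠ q) :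
    (∃ g : G, orderOf g = p * q) ↔ (∃ h : H, orderOf h = p * q) := by
  open Subgroup Pointwise commutatorElement Cfsg.Agent.BG Cfsg.Agent.GS in
  open Cfsg.Agent.H2 hiding card_lt_of_lt card_lt_of_ne_top isMulCommutative_of_le isPGroup_zpowers_iff mem_of_pow_mem_of_coprime inf_eq_bot_of_cop exists_maxElem_ge Sec in
  open Cfsg.Agent.H8 (Op Opp Fit SN) in
  open Cfsg.Agent.L (FPF) in focus
    exact ⟨fun ⟨g, hg⟩ => aux e he hp hq hpq g hg,
      fun ⟨g, hg⟩ => aux e.symm (fun x y => by rw [he, e.apply_symm_apply, e.apply_symm_apply]) hp hq hpq g hg⟩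

end Cfsg.Agent.S4084
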