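import Cfsg.Statements.S4086
import Cfsg.Agent.GS.Lem1

set_option autoImplicit false
open Cfsg

namespace Cfsg.Agent.S4086

open Cfsg.Agent.H1

/-- For a finite group G the following are equivalent: every non-identity element has prime-power order; whenever two elements generate a cyclic subgroup, one of them is a power of the other (the enhanced power graph of G coincides with its power graph). -/
theorem result {G : Type*} [Group G] [Finite G] :
    (∀ g : G, g ≠ 1 → IsPrimePow (orderOf g)) ↔
    (∀ x y : G, IsCyclic ↥(Subgroup.closure ({x, y} : Set G)) → (x ∈ Subgroup.zpowers y ∨ y ∈ Subgroup.zpowers x)) := by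
  open Subgroup Pointwise commutatorElement Cfsg.Agent.BG Cfsg.Agent.GS in
  open Cfsg.Agent.H2 hiding card_lt_of_lt card_lt_of_ne_top isMulCommutative_of_le isPGroup_zpowers_iff mem_of_pow_mem_of_coprime inf_eq_bot_of_cop exists_maxElem_ge Sec in
  open Cfsg.Agent.H8 (Op Opp Fit SN) in
  open Cfsg.Agent.L (FPF) in focus
    constructor
    · intro h x y hc
      obtain ⟨c, hc⟩ := exists_zpowers_eq (closure ({x, y} : Set G))
      have hx : x ∈ zpowers c := hc ▸ subset_closure (by simp)
      have hy : y ∈ zpowers c := hc ▸ subset_closure (by simp)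
      by_cases e : c = 1
      · subst e; rw [zpowers_one_eq_bot, mem_bot] at hx; exact Or.inl (hx ▸ one_mem _)
      obtain ⟨p, k, hp, -, hk⟩ := (isPrimePow_nat_iff _).1 (h c e)
      have := Fact.mk hp
      exact (BL.le_or_le_of_cyclic_pgroup inferInstance (pgroup_zpowers_iff.2 ⟨k, hk.symm⟩) (zpowers_le.2 hx)
        (zpowers_le.2 hy)).imp zpowers_le.1 zpowers_le.1
    · intro h g hg
      obtain ⟨p, hp, hd⟩ := exists_prime_dvd_orderOf hg
      have := Fact.mk hp
      obtain ⟨a, ha, b, hb, e, ⟨k, hk⟩, h2⟩ := exists_p_parts (p := p) g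
      rcases h a b (BG.isCyclic_of_le inferInstance ((closure_le _).2 (Set.pair_subset ha hb))) with h3 | h3
      · rw [eq_one_of_mem_pgroup_of_coprime (pgroup_zpowers_iff.2 ⟨k, hk⟩) (mem_zpowers a)
          (h2.coprime_dvd_left (orderOf_dvd_of_mem_zpowers h3)), one_mul] at e
        exact absurd (e ▸ hd) ((Nat.Prime.coprime_iff_not_dvd hp).1 h2.symm)
      · rw [eq_one_of_mem_pgroup_of_coprime (pgroup_zpowers_iff.2 ⟨k, hk⟩) h3 h2, mul_one] at e
        rw [e, hk] at hd ⊢
        exact hp.isPrimePow.pow (fun e => hp.not_dvd_one (by rwa [e, pow_zero] at hd))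

end Cfsg.Agent.S4086
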