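import Cfsg.Statements.S4089
import Cfsg.Agent.GS.Lem1

set_option autoImplicit false
open Cfsg

namespace Cfsg.Agent.S4089

open Cfsg.Agent.H1

section
open Subgroup Pointwise commutatorElement Cfsg.Agent.BG Cfsg.Agent.GS
open Cfsg.Agent.H2 hiding card_lt_of_lt card_lt_of_ne_top isMulCommutative_of_le isPGroup_zpowers_iff mem_of_pow_mem_of_coprime inf_eq_bot_of_cop exists_maxElem_ge Sec
open Cfsg.Agent.H8 (Op Opp Fit SN)
open Cfsg.Agent.L (FPF)
universe u

theorem aux {G : Type*} [Group G] [Finite G] {p : ℕ} [Fact p.Prime] {H : Subgroup G} (hH : IsPGroup p H) (g : G) :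
    (H.subgroupOf (H ⊔ zpowers g)).IsSubnormal ↔ ∃ R : Subgroup G, H ≤ R ∧ Op p (𝒩 R) = R ∧ g ∈ 𝒩 R := by
  constructor
  · intro h
    obtain ⟨R, h1, ⟨h2, h3⟩, h4⟩ := exists_maximal_ge (fun R : Subgroup G => IsPGroup p R ∧ g ∈ 𝒩 R) (N := Op p (H ⊔ zpowers g))
      ⟨H8.Op_isPGroup _ _, H8.le_normalizer_Op _ _ (mem_sup_right (mem_zpowers g))⟩
    exact ⟨R, (H8.le_Op_of_sn (H8.sn_iff.2 ⟨le_sup_left, h⟩) hH).trans h1, h4 _
      ⟨H8.Op_isPGroup _ _, H8.le_normalizer_Op _ _ h3⟩ (H8.le_Op le_normalizer le_rfl h2), h3⟩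
  · rintro ⟨R, h1, h2, h3⟩
    exact (((H8.SN.of_norm le_normalizer le_rfl).trans (H8.sn_of_isPGroup (h2 ▸ H8.Op_isPGroup p _) h1)).of_le
      le_sup_left (sup_le (h1.trans le_normalizer) (zpowers_le.2 h3))).subgroupOf

end

/-- Let G be a finite group, p a prime and H a p-subgroup of G. Then the set of elements g of G such that H is subnormal in the subgroup generated by H and g is the union of the normalizers N_G(R) over the subgroups R of G containing H with R = O_p(N_G(R)); and this set does not change when H is replaced by the intersection of all Sylow p-subgroups of G containing H. -/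
theorem result {G : Type*} [Group G] [Finite G] (p : ℕ) [Fact p.Prime]
    (H : Subgroup G) (hH : IsPGroup p H) :
    {g : G | ((H).subgroupOf (H ⊔ Subgroup.zpowers g)).IsSubnormal} =
      {g : G | ∃ R : Subgroup G, H ≤ R ∧ (Cfsg.pCore p (Subgroup.normalizer (R : Set G))).map (Subgroup.normalizer (R : Set G)).subtype = R ∧ g ∈ Subgroup.normalizer (R : Set G)} ∧
    ∀ g : G, (((H).subgroupOf (H ⊔ Subgroup.zpowers g)).IsSubnormal ↔
      (((sInf {K : Subgroup G | ∃ Q : Sylow p G, H ≤ (Q : Subgroup G) ∧ K = (Q : Subgroup G)})).subgroupOf ((sInf {K : Subgroup G | ∃ Q : Sylow p G, H ≤ (Q : Subgroup G) ∧ K = (Q : Subgroup G)}) ⊔ Subgroup.zpowers g)).IsSubnormal) := by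
  open Subgroup Pointwise commutatorElement Cfsg.Agent.BG Cfsg.Agent.GS in
  open Cfsg.Agent.H2 hiding card_lt_of_lt card_lt_of_ne_top isMulCommutative_of_le isPGroup_zpowers_iff mem_of_pow_mem_of_coprime inf_eq_bot_of_cop exists_maxElem_ge Sec in
  open Cfsg.Agent.H8 (Op Opp Fit SN) in
  open Cfsg.Agent.L (FPF) in focus
    refine ⟨Set.ext (aux hH), fun g => ?_⟩
    set I := sInf {K : Subgroup G | ∃ Q : Sylow p G, H ≤ (Q : Subgroup G) ∧ K = (Q : Subgroup G)}
    have h0 : ∀ Q : Sylow p G, H ≤ Q → I ≤ Q := fun Q h => sInf_le ⟨Q, h, rfl⟩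
    have h1 : IsPGroup p I := (hH.exists_le_sylow).elim fun Q h => isPGroup_of_le Q.isPGroup' (h0 Q h)
    rw [aux hH, aux h1]
    refine exists_congr fun R => and_congr_left fun ⟨h2, _⟩ => ⟨fun h => ?_, (le_sInf fun K ⟨Q, a, b⟩ => b ▸ a : H ≤ I).trans⟩
    have h3 : IsPGroup p R := h2 ▸ H8.Op_isPGroup p _
    let J := sInf {K : Subgroup G | ∃ Q : Sylow p G, R ≤ (Q : Subgroup G) ∧ K = (Q : Subgroup G)}
    have h4 : ∀ Q : Sylow p G, R ≤ Q → J ≤ Q := fun Q h => sInf_le ⟨Q, h, rfl⟩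
    have h5 : IsPGroup p J := (h3.exists_le_sylow).elim fun Q h => isPGroup_of_le Q.isPGroup' (h4 Q h)
    refine (le_sInf fun K ⟨Q, a, b⟩ => b ▸ h0 Q (h.trans a) : I ≤ J).trans (by_contra fun e => ?_)
    refine (lt_inf_normalizer h5 ((le_sInf fun K ⟨Q, a, b⟩ => b ▸ a : R ≤ J).lt_of_not_ge e)).not_ge ?_
    refine (H8.le_Op inf_le_right (le_normalizer_inf (fun n hn => mem_normalizer_of_cj_le (le_sInf ?_)) le_normalizer)
      (isPGroup_of_le h5 inf_le_left)).trans h2.le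
    rintro _ ⟨Q, a, rfl⟩
    refine cj_le_iff.2 (h4 (n⁻¹ • Q) ?_)
    rw [coe_smul_sylow, ← cj_le_iff, cj_eq_of_mem_normalizer hn]; exact a

end Cfsg.Agent.S4089
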