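import Cfsg.Statements.S4092
import Cfsg.Agent.H8.Reg
import Cfsg.Agent.H1.Basic
import Cfsg.Agent.H2.Syl

set_option autoImplicit false
open Cfsg

namespace Cfsg.Agent.S4092

open Subgroup hiding commutator_def
open Function Cfsg.Agent.Hopf Cfsg.Agent.Reg
open scoped commutatorElement Pointwise


/-- Let G be a finite group, p a prime and P a Sylow p-subgroup of G that is not normal in G. Then G has at least p·#P elements of p-power order (the identity included). -/
theorem result {G : Type*} [Group G] [Finite G] (p : ℕ) [Fact p.Prime]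
    (P : Sylow p G) (hP : ¬ (P : Subgroup G).Normal) :
    p * Nat.card (P : Subgroup G) ≤ Nat.card {g : G // ∃ k : ℕ, orderOf g = p ^ k} := by
  classical
  have hp : p.Prime := Fact.out
  haveI := Fintype.ofFinite G
  haveI := Fintype.ofFinite (Sylow p G)
  have hex : ∃ Q : Sylow p G, Q ≠ P := by
    by_contra hc
    push Not at hc
    haveI : Unique (Sylow p G) := ⟨⟨P⟩, hc⟩
    exact hP inferInstance
  obtain ⟨Q0, hQ0⟩ := hex
  obtain ⟨⟨Q, R⟩, hQR, hmax⟩ := Finset.exists_max_image
    (Finset.univ.filter fun x : Sylow p G × Sylow p G => x.1 ≠ x.2)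
    (fun x => Nat.card ↥((x.1 : Subgroup G) ⊓ x.2)) ⟨(Q0, P), by simpa using hQ0⟩
  simp only [Finset.mem_filter, Finset.mem_univ, true_and] at hQR hmax
  obtain ⟨D, hD⟩ : ∃ D, D = (Q : Subgroup G) ⊓ R := ⟨_, rfl⟩
  rw [← hD] at hmax
  have hDp : IsPGroup p D := hD ▸ Q.isPGroup'.to_inf_left
  have hint : ∀ A B : Sylow p G, A ≠ B → D ≤ A → D ≤ B → (A : Subgroup G) ⊓ B = D := by
    intro A B hAB hA hB
    exact (eq_of_le_of_card_ge (le_inf hA hB) (hmax (A, B) hAB)).symm
  let T : Finset (Sylow p G) := Finset.univ.filter fun A => D ≤ A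
  have hT1 : T.card ≡ 1 [MOD p] := by
    have h1 := hDp.card_modEq_card_fixedPoints (Sylow p G)
    have h2 : Nat.card (MulAction.fixedPoints D (Sylow p G)) = T.card := by
      rw [Nat.card_coe_set_eq, Set.ncard_eq_toFinset_card']
      congr 1
      ext A
      simp only [Set.mem_toFinset, T, Finset.mem_filter, Finset.mem_univ, true_and]
      exact hDp.sylow_mem_fixedPoints_iff
    rw [h2] at h1
    exact h1.symm.trans (card_sylow_modEq_one p G)
  have hT2 : 2 ≤ T.card := by
    refine Finset.one_lt_card.2 ⟨Q, ?_, R, ?_, hQR⟩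
    · simp [T, hD]
    · simp [T, hD]
  have hT3 : p + 1 ≤ T.card := by
    have := (Nat.modEq_iff_dvd' (by omega)).1 hT1.symm
    have := Nat.le_of_dvd (by omega) this
    omega
  have hcard : ∀ A : Sylow p G, Nat.card (A : Subgroup G) = Nat.card (P : Subgroup G) :=
    fun A => Nat.card_congr (Sylow.equiv A P).toEquiv
  have hDQ : D < Q := by
    refine lt_of_le_of_ne (hD ▸ inf_le_left) fun e => hQR ?_
    have : (Q : Subgroup G) ≤ R := e ▸ hD ▸ inf_le_right
    exact Sylow.ext (Q.3 R.2 this).symm
  have hDc : p * Nat.card D ≤ Nat.card (P : Subgroup G) := by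
    rw [← hcard Q, ← H1.card_mul_relIndex hDQ.le, mul_comm]
    refine Nat.mul_le_mul_left _ (Nat.le_of_dvd (Nat.pos_of_ne_zero (by
      exact FiniteIndex.index_ne_zero)) ?_)
    obtain ⟨k, hk⟩ := Q.isPGroup'.index (D.subgroupOf Q)
    rw [relIndex, hk]
    refine dvd_pow_self p ?_
    rintro rfl
    rw [pow_zero, index_eq_one, subgroupOf_eq_top] at hk
    exact hDQ.not_ge hk
  let f : Sylow p G → Finset G := fun A => Finset.univ.filter fun g => g ∈ (A : Subgroup G) ∧ g ∉ D
  let d : Finset G := Finset.univ.filter fun g => g ∈ D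
  have hh : ∀ H : Subgroup G, (Finset.univ.filter fun g => g ∈ H).card = Nat.card H := by
    intro H
    rw [Nat.card_eq_fintype_card, Fintype.card_subtype]
  have hd : d.card = Nat.card D := hh D
  have hf : ∀ A ∈ T, (f A).card + Nat.card D = Nat.card (P : Subgroup G) := by
    intro A hA
    rw [← hd, ← hcard A, ← Finset.card_union_of_disjoint (by
      rw [Finset.disjoint_left]; intro g h1 h2; simp [f, d] at h1 h2; exact h1.2 h2), ← hh]
    congr 1
    ext g
    simp only [f, d, T, Finset.mem_union, Finset.mem_filter, Finset.mem_univ, true_and] at hA ⊢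
    constructor
    · rintro (h | h)
      · exact h.1
      · exact hA h
    · intro h
      by_cases h' : g ∈ D
      · exact Or.inr h'
      · exact Or.inl ⟨h, h'⟩
  have hdis : (T : Set (Sylow p G)).PairwiseDisjoint f := by
    intro A hA B hB hAB
    rw [Function.onFun, Finset.disjoint_left]
    intro g h1 h2
    simp only [f, T, Finset.coe_filter, Finset.mem_filter, Finset.mem_univ, true_and,
      Set.mem_setOf_eq] at h1 h2 hA hB
    exact h1.2 (hint A B hAB hA hB ▸ mem_inf.2 ⟨h1.1, h2.1⟩)
  have h1 := Finset.card_biUnion hdis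
  have h2 : (T.biUnion f ∪ d).card ≤ Nat.card {g : G // ∃ k : ℕ, orderOf g = p ^ k} := by
    rw [Nat.card_eq_fintype_card, Fintype.card_subtype]
    refine Finset.card_le_card fun g hg => ?_
    simp only [Finset.mem_union, Finset.mem_biUnion, f, d, Finset.mem_filter, Finset.mem_univ,
      true_and] at hg ⊢
    rcases hg with ⟨A, -, hA, -⟩ | hg
    · exact H2.orderOf_eq_pow_of_mem A.2 hA
    · exact H2.orderOf_eq_pow_of_mem hDp hg
  rw [Finset.card_union_of_disjoint (by
    rw [Finset.disjoint_left]; intro g h1 h2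
    simp only [Finset.mem_biUnion, f, d, Finset.mem_filter, Finset.mem_univ, true_and] at h1 h2
    obtain ⟨A, -, -, h⟩ := h1
    exact h h2), h1, hd] at h2
  have h3 : ∑ u ∈ T, (f u).card = T.card * (Nat.card (P : Subgroup G) - Nat.card D) := by
    rw [Finset.sum_congr rfl (g := fun _ => Nat.card (P : Subgroup G) - Nat.card D)]
    · simp
    · intro A hA
      have := hf A hA
      omega
  rw [h3] at h2
  refine le_trans ?_ h2
  have h4 : Nat.card D ≤ Nat.card (P : Subgroup G) :=
    le_trans (Nat.le_mul_of_pos_left _ hp.pos) hDc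
  obtain ⟨c, hc⟩ := Nat.exists_eq_add_of_le h4
  rw [hc] at hDc ⊢
  rw [Nat.add_sub_cancel_left]
  nlinarith

end Cfsg.Agent.S4092
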