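import Cfsg.Statements.S4093
import Cfsg.Agent.H8.Reg
import Cfsg.Agent.H1.Basic
import Cfsg.Agent.H2.Syl
import Cfsg.Agent.H2.PNil
import Cfsg.Agent.H8.Misc

set_option autoImplicit false
open scoped BigOperators
open Cfsg

namespace Cfsg.Agent.S4093

open Subgroup hiding commutator_def
open Function Cfsg.Agent.Hopf Cfsg.Agent.Reg
open scoped commutatorElement Pointwise


/-- Let G be a finite group with a normal subgroup N complementing a Sylow p-subgroup P (a normal p-complement). Then the number of elements of G of p-power order equals the sum over x ∈ P of the index of C_N(x) in N. -/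
theorem result {G : Type*} [Group G] [Finite G] (p : ℕ) [Fact p.Prime]
    (P : Sylow p G) (N : Subgroup G) [N.Normal] (hNP : N.IsComplement' (P : Subgroup G)) :
    Nat.card {g : G // ∃ k : ℕ, orderOf g = p ^ k} =
      ∑ᶠ x : (P : Subgroup G), Nat.card N / Nat.card ↥(N ⊓ Subgroup.centralizer ({(x : G)} : Set G)) := by
  classical
  haveI := Fintype.ofFinite G
  have hp : p.Prime := Fact.out
  let A : Finset G := Finset.univ.filter fun g => ∃ k : ℕ, orderOf g = p ^ k
  have hA : Nat.card {g : G // ∃ k : ℕ, orderOf g = p ^ k} = A.card := by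
    rw [Nat.card_eq_fintype_card, Fintype.card_subtype]
  have hdis : N ⊓ (P : Subgroup G) = ⊥ := hNP.disjoint.eq_bot
  have hex : ∀ g : G, ∃ x : (P : Subgroup G), g * (x : G)⁻¹ ∈ N := by
    intro g
    obtain ⟨⟨n, x⟩, e⟩ := hNP.2 g
    exact ⟨x, by rw [← e]; simp⟩
  choose r hr using hex
  have huniq : ∀ (g : G) (x : (P : Subgroup G)), g * (x : G)⁻¹ ∈ N → r g = x := by
    intro g x hx
    have h1 : (r g : G) * (x : G)⁻¹ ∈ N ⊓ (P : Subgroup G) := by
      refine mem_inf.2 ⟨?_, mul_mem (r g).2 (inv_mem x.2)⟩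
      have := mul_mem (inv_mem (hr g)) hx
      simpa [mul_assoc] using this
    rw [hdis, mem_bot, mul_inv_eq_one] at h1
    exact Subtype.ext h1
  rw [hA, finsum_eq_sum_of_fintype,
    Finset.card_eq_sum_card_fiberwise (f := r) (t := Finset.univ) (fun _ _ => by simp)]
  refine Finset.sum_congr rfl fun x _ => ?_
  have hx : IsPGroup p (zpowers (x : G)) := P.2.to_le (zpowers_le_of_mem x.2)
  have hcop : ¬ p ∣ Nat.card N := by
    rw [← hNP.index_eq_card]; exact P.not_dvd_index
  have hsyl : H2.SylIn p (zpowers (x : G)) (zpowers (x : G) ⊔ N) := by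
    refine H2.sylIn_of_not_dvd le_sup_left hx fun h => hcop ?_
    have h1 := H1.card_mul_relIndex (le_sup_left : zpowers (x : G) ≤ zpowers (x : G) ⊔ N)
    rw [H1.card_sup_of_disjoint le_normalizer_of_normal (by
      rw [eq_bot_iff, ← hdis]
      exact le_inf inf_le_right (inf_le_left.trans (zpowers_le_of_mem x.2)))] at h1
    rw [← Nat.eq_of_mul_eq_mul_left Nat.card_pos h1]
    exact h
  rw [← relIndex_eq_div, ← ncard_cj, ← Set.ncard_coe_finset]
  congr 1
  ext g
  simp only [A, Finset.coe_filter, Finset.mem_filter, Finset.mem_univ, true_and, Set.mem_setOf_eq]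
  constructor
  · rintro ⟨⟨k, hk⟩, rfl⟩
    have h1 : g ∈ zpowers (r g : G) ⊔ N := by
      have : g = g * (r g : G)⁻¹ * r g := by simp
      rw [this]
      exact mul_mem (mem_sup_right (hr g)) (mem_sup_left (by simpa using mem_zpowers _))
    obtain ⟨h, hh, h2⟩ := hsyl.exists_conj_mem h1 hk
    obtain ⟨y, hy, n, hn, rfl⟩ := (H1.mem_sup_left_norm le_normalizer_of_normal).1 hh
    have h3 : n * g * n⁻¹ ∈ zpowers (r g : G) := by
      have := mul_mem (mul_mem (inv_mem hy) h2) hy
      simpa [mul_assoc] using this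
    have h4 : n * g * n⁻¹ ∈ (P : Subgroup G) := zpowers_le_of_mem (r g).2 h3
    have h5 := huniq g ⟨_, h4⟩ (by
      have := mul_mem (‹N.Normal›.conj_mem _ hn g) (inv_mem hn)
      have e : g * (n * g * n⁻¹)⁻¹ = g * n * g⁻¹ * n⁻¹ := by group
      rw [e]; exact this)
    refine ⟨n⁻¹, inv_mem hn, ?_⟩
    conv_lhs => rw [h5]
    group
  · rintro ⟨n, hn, rfl⟩
    refine ⟨?_, huniq _ _ ?_⟩
    · obtain ⟨k, hk⟩ := H2.orderOf_eq_pow_of_mem P.2 x.2
      exact ⟨k, by rw [← hk]; exact (MulAut.conj n).orderOf_eq _⟩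
    · have := mul_mem hn (‹N.Normal›.conj_mem _ (inv_mem hn) x)
      simpa [mul_assoc] using this

end Cfsg.Agent.S4093
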