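import Cfsg.Statements.S4106
import Cfsg.Agent.GS.Cls

set_option autoImplicit false
open Cfsg

namespace Cfsg.Agent.S4106

open Cfsg.Agent.H1

/-- Let G be a finite group, π a set of primes and m the π-part of the order of G. Then the number of conjugacy classes of G consisting of π-elements (elements whose order is divisible only by primes in π) is at most m. -/
theorem result {G : Type*} [Group G] [Finite G]
    (π : Set ℕ) (hπ : ∀ q ∈ π, q.Prime)
    (m : ℕ) (hm : m ∣ Nat.card G) (hmπ : ∀ q : ℕ, q.Prime → q ∣ m → q ∈ π)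
    (hm' : ∀ q ∈ π, ¬ q ∣ Nat.card G / m) :
    Nat.card {C : ConjClasses G // ∀ q : ℕ, q.Prime → (∃ g : G, ConjClasses.mk g = C ∧ q ∣ orderOf g) → q ∈ π} ≤ m := by
  open Subgroup Pointwise commutatorElement Cfsg.Agent.BG Cfsg.Agent.GS in
  open Cfsg.Agent.H2 hiding card_lt_of_lt card_lt_of_ne_top isMulCommutative_of_le isPGroup_zpowers_iff mem_of_pow_mem_of_coprime inf_eq_bot_of_cop exists_maxElem_ge Sec in
  open Cfsg.Agent.H8 (Op Opp Fit SN) in
  open Cfsg.Agent.L (FPF) in focus
    obtain ⟨t, ht⟩ := hm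
    have h0 : 0 < m := Nat.pos_of_ne_zero fun e => Nat.card_pos.ne' (by rw [ht, e, zero_mul])
    rw [ht, Nat.mul_div_cancel_left _ h0] at hm'
    refine (kpi_mono fun q hq h1 h2 => ?_).trans (kpi_le m t ht.symm
      (Nat.coprime_of_dvd fun q hq h1 => hm' q (hmπ q hq h1)))
    exact ((Nat.Prime.dvd_mul hq).1 (ht ▸ h1)).resolve_right (hm' q h2)

end Cfsg.Agent.S4106
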