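import Cfsg.Statements.S4107
import Cfsg.Agent.GS.Lem1

set_option autoImplicit false
open Cfsg

namespace Cfsg.Agent.S4107

open Cfsg.Agent.H1

/-- Let G be a finite group and N a proper non-trivial normal subgroup such that for every x outside N all elements of the coset xN have the same order as x. Then N ≤ F(G) or F(G) ≤ N, where F(G) is the Fitting subgroup; and if N is properly contained in F(G) then F(G) has prime-power order. -/
theorem result {G : Type*} [Group G] [Finite G] (N : Subgroup G) [N.Normal] (hN1 : N ≠ ⊥) (hN2 : N ≠ ⊤)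
    (heq : ∀ x : G, x ∉ N → ∀ n ∈ N, orderOf (x * n) = orderOf x) :
    (N ≤ Cfsg.fittingSubgroup G ∨ Cfsg.fittingSubgroup G ≤ N) ∧
    (N < Cfsg.fittingSubgroup G → IsPrimePow (Nat.card (Cfsg.fittingSubgroup G))) := by
  open Subgroup Pointwise commutatorElement Cfsg.Agent.BG Cfsg.Agent.GS in
  open Cfsg.Agent.H2 hiding card_lt_of_lt card_lt_of_ne_top isMulCommutative_of_le isPGroup_zpowers_iff mem_of_pow_mem_of_coprime inf_eq_bot_of_cop exists_maxElem_ge Sec in
  open Cfsg.Agent.H8 (Op Opp Fit SN) in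
  open Cfsg.Agent.L (FPF) in focus
    have h1 : ¬ fittingSubgroup G ≤ N → ∃ p : ℕ, p.Prime ∧ IsPGroup p N := fun h => by
      obtain ⟨p, hp, h2⟩ : ∃ p : ℕ, p.Prime ∧ ¬ pCore p G ≤ N := by
        by_contra! e; exact h (fittingSubgroup_le_of_forall_pCore e)
      have := Fact.mk hp
      obtain ⟨x, x1, x2⟩ := exists_of_not_le h2
      obtain ⟨k, hk⟩ := orderOf_eq_pow_of_mem (isPGroup_pCore p G) x1
      refine ⟨p, hp, isPGroup_iff_forall.2 fun n hn => ?_⟩
      have h3 : ((x * n) ^ p ^ k : G ⧸ pCore p G) = 1 := by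
        rw [← QuotientGroup.mk_mul, ← QuotientGroup.mk_pow, ← hk, ← heq x x2 n hn, pow_orderOf_eq_one, QuotientGroup.mk_one]
      rw [(QuotientGroup.eq_one_iff x).2 x1, one_mul, ← QuotientGroup.mk_pow, QuotientGroup.eq_one_iff] at h3
      obtain ⟨j, hj⟩ := isPGroup_iff_forall.1 (isPGroup_pCore p G) _ h3
      exact ⟨k + j, by rw [pow_add, pow_mul, hj]⟩
    refine ⟨or_iff_not_imp_right.2 fun h => ?_, fun h => ?_⟩
    · obtain ⟨p, hp, h2⟩ := h1 h
      have := Fact.mk hp
      exact le_fittingSubgroup ‹_› h2.isNilpotent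
    obtain ⟨p, hp, h2⟩ := h1 h.not_ge
    have := Fact.mk hp
    obtain ⟨k, hk⟩ := IsPGroup.iff_card.1 (isPGroup_iff_forall_prime (G := fittingSubgroup G) (p := p) |>.2 fun q hq hd =>
      by_contra fun e => by
        obtain ⟨y, y1, y2⟩ := exists_mem_orderOf_eq_prime hq hd
        obtain ⟨n, n1, n2⟩ := exists_mem_orderOf_eq_prime hp (dvd_card_of_isPGroup_of_ne_bot h2 hN1)
        have h3 : (orderOf y).Coprime (orderOf n) := by rw [y2, n2]; exact (Nat.coprime_primes hq hp).2 e
        have h4 := heq y (fun c => hq.one_lt.ne (by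
          rw [← y2, eq_one_of_mem_pgroup_of_coprime h2 c (n2 ▸ h3), orderOf_one])) n n1
        rw [(show Commute y n from commute_of_isNilpotent_of_coprime inferInstance y1 (h.le n1) h3).orderOf_mul_eq_mul_orderOf_of_coprime h3,
          mul_eq_left₀ (orderOf_pos y).ne', n2] at h4
        exact hp.one_lt.ne' h4)
    rw [hk]
    exact hp.isPrimePow.pow fun e => ne_bot_mono hN1 h.le (card_eq_one.1 (by rw [hk, e, pow_zero]))

end Cfsg.Agent.S4107
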