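import Cfsg.Statements.S4108
import Cfsg.Agent.GS.Lem2

set_option autoImplicit false
open Cfsg

namespace Cfsg.Agent.S4108

open Cfsg.Agent.H1

/-- Let G be a finite group, p a prime and N a proper non-trivial normal p-subgroup such that for every x outside N all elements of the coset xN have the same order as x. Then every non-trivial subgroup H of G of order prime to p acts fixed-point-freely on N: NH is a Frobenius group with complement H and kernel N. -/
theorem result {G : Type*} [Group G] [Finite G] (N : Subgroup G) [N.Normal] (hN1 : N ≠ ⊥) (hN2 : N ≠ ⊤)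
    (heq : ∀ x : G, x ∉ N → ∀ n ∈ N, orderOf (x * n) = orderOf x)
    (p : ℕ) [Fact p.Prime] (hNp : IsPGroup p N) :
    ∀ H : Subgroup G, H ≠ ⊥ → (Nat.card H).Coprime p →
      Cfsg.IsFrobeniusComplement (H.subgroupOf (N ⊔ H)) ∧ Cfsg.frobeniusKernel (H.subgroupOf (N ⊔ H)) = (N.subgroupOf (N ⊔ H) : Set ↥(N ⊔ H)) := by
  open Subgroup Pointwise commutatorElement Cfsg.Agent.BG Cfsg.Agent.GS in
  open Cfsg.Agent.H2 hiding card_lt_of_lt card_lt_of_ne_top isMulCommutative_of_le isPGroup_zpowers_iff mem_of_pow_mem_of_coprime inf_eq_bot_of_cop exists_maxElem_ge Sec in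
  open Cfsg.Agent.H8 (Op Opp Fit SN) in
  open Cfsg.Agent.L (FPF) in focus
    intro H hH hc
    refine frobenius_subgroupOf (L.FPF.of_forall fun x hx h1 k hk e => ?_) (le_norm_of_normal _ _) hN1 hH
    have h2 : (orderOf x).Coprime p := hc.coprime_dvd_left (orderOf_dvd_card_of_mem hx)
    obtain ⟨j, hj⟩ := orderOf_eq_pow_of_mem hNp hk
    have h3 := heq x (fun h => h1 (eq_one_of_mem_pgroup_of_coprime hNp h h2)) k hk
    rw [(show Commute x k from e).orderOf_mul_eq_mul_orderOf_of_coprime (hj ▸ h2.pow_right j)] at h3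
    exact orderOf_eq_one_iff.1 ((mul_eq_left₀ (orderOf_pos x).ne').1 h3)

end Cfsg.Agent.S4108
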