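import Cfsg.Statements.S4112
import Cfsg.Agent.GS.Lem2

set_option autoImplicit false
open Cfsg

namespace Cfsg.Agent.S4112

open Cfsg.Agent.H1

/-- Let G be a finite group and M ≤ N non-trivial proper normal subgroups such that for every g outside N the conjugacy class of g is a union of cosets of M (equivalently gm is conjugate to g for every m ∈ M). Then (1) and (2) below are equivalent, and they imply (3): (1) every g outside N acts fixed-point-freely on M, that is C_G(x) ≤ N for every x ∈ M, x ≠ 1; (2) the index of N in G is coprime to the order of M; (3) there is a subgroup H of G with HN = G and H ∩ M = 1. -/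
theorem result {G : Type*} [Group G] [Finite G] (N M : Subgroup G) [N.Normal] [M.Normal] (hMN : M ≤ N) (hM1 : M ≠ ⊥) (hN2 : N ≠ ⊤)
    (hcam : ∀ g : G, g ∉ N → ∀ m ∈ M, ∃ x : G, x * g * x⁻¹ = g * m) :
    ((∀ x ∈ M, x ≠ 1 → Subgroup.centralizer ({x} : Set G) ≤ N) ↔ N.index.Coprime (Nat.card M)) ∧
    ((∀ x ∈ M, x ≠ 1 → Subgroup.centralizer ({x} : Set G) ≤ N) → ∃ H : Subgroup G, H ⊔ N = ⊤ ∧ H ⊓ M = ⊥) := by
  open Subgroup Pointwise commutatorElement Cfsg.Agent.BG Cfsg.Agent.GS in
  open Cfsg.Agent.H2 hiding card_lt_of_lt card_lt_of_ne_top isMulCommutative_of_le isPGroup_zpowers_iff mem_of_pow_mem_of_coprime inf_eq_bot_of_cop exists_maxElem_ge Sec in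
  open Cfsg.Agent.H8 (Op Opp Fit SN) in
  open Cfsg.Agent.L (FPF) in focus
    have h1 : (∀ x ∈ M, x ≠ 1 → 𝒞₁ x ≤ N) → N.index.Coprime ♯M := fun h => by
      refine Nat.coprime_of_dvd fun p hp h1 h2 => ?_
      have := Fact.mk hp
      obtain ⟨P, hP⟩ := exists_sylIn p (⊤ : Subgroup G)
      obtain ⟨z, z1, -, z2, z3⟩ := exists_mem_sylow_center M h2 hP
      exact not_dvd_index_of_sylIn hP (z3.trans (h z z1 fun e => hp.one_lt.ne (by rw [← z2, e, orderOf_one]))) h1
    refine ⟨⟨h1, fun h x hx h2 g hg => mem_of_forall_pelt fun q hq y hy ⟨k, hk⟩ => by_contra fun h3 => h2 ?_⟩, fun h => ?_⟩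
    · have h4 : q ∣ N.index := by_contra fun e =>
        h3 (mem_of_coprime_index (hk ▸ ((Nat.Prime.coprime_iff_not_dvd hq).2 e).pow_left k))
      have h5 : (orderOf y).Coprime (orderOf x) :=
        hk ▸ ((h.coprime_dvd_left h4).coprime_dvd_right (orderOf_dvd_card_of_mem hx)).pow_left k
      obtain ⟨c, hc⟩ := hcam y h3 x hx
      have h6 := orderOf_conj' c y
      rw [hc, (commute_of_mem_cent1 (zpowers_le.2 hg hy)).symm.orderOf_mul_eq_mul_orderOf_of_coprime h5] at h6
      exact orderOf_eq_one_iff.1 ((mul_eq_left₀ (orderOf_pos y).ne').1 h6)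
    · obtain ⟨H, h2, -, h3⟩ := exists_min_supplement_top N
      exact ⟨H, h2, BG.inf_eq_bot_of_cop (Nat.coprime_of_dvd fun p hp a b =>
        hp.one_lt.ne' (Nat.eq_one_of_dvd_coprimes (h1 h) (h3 p hp a) b))⟩

end Cfsg.Agent.S4112
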