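import Cfsg.Statements.S4115
import Cfsg.Agent.H8.Misc
import Cfsg.Agent.H3.TI
import Cfsg.Agent.S0039
import Cfsg.Agent.L.Frob
import Cfsg.Agent.GS.Odd

set_option autoImplicit false
universe u
open Cfsg

namespace Cfsg.Agent.S4115

open Subgroup hiding commutator_def
open Function Cfsg.Agent.Hopf Cfsg.Agent.Reg
open scoped commutatorElement Pointwise

theorem frob_of_fpf {X : Type*} [Group X] [Finite X] {K C : Subgroup X} (h : L.FPF K C)
    (hn : C ≤ normalizer (K : Set X)) (hK : K ≠ ⊥) (hC : C ≠ ⊥) :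
    IsFrobeniusComplement (C.subgroupOf (C ⊔ K)) := by
  haveI : (K.subgroupOf (C ⊔ K)).Normal :=
    (normal_subgroupOf_iff_le_normalizer le_sup_right).2 (H1.sup_le_normalizer hn)
  refine (S0039.result (K.subgroupOf (C ⊔ K)) _ (H1.isComplement'_of_inf_eq_bot_of_sup_eq_top ?_ ?_)
    ?_ ?_).2 (h.subgroupOf _)
  · exact (h.subgroupOf _).inf_eq_bot
  · rw [← subgroupOf_sup le_sup_right le_sup_left, sup_comm, subgroupOf_self]
  · rwa [Ne, subgroupOf_eq_bot, disjoint_iff, inf_eq_left.2 le_sup_right]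
  · rwa [Ne, subgroupOf_eq_bot, disjoint_iff, inf_eq_left.2 le_sup_left]

/-- Let G be a finite group and H a subgroup that meets each of its conjugates by elements outside N_G(H) trivially and whose order is coprime to its index in N_G(H). Then H has a normal complement in N_G(H) if and only if H has a normal complement in G. Moreover, if H is not normal in G and has a normal complement in N_G(H), then H is isomorphic to a Frobenius complement of some finite Frobenius group. -/
theorem result {G : Type u} [Group G] [Finite G] (H : Subgroup G)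
    (hTI : Cfsg.IsTISubset (H : Set G)) (hHall : (Nat.card H).Coprime (H.subgroupOf (Subgroup.normalizer (H : Set G))).index) :
    ((∃ K : Subgroup (Subgroup.normalizer (H : Set G)), K.Normal ∧ K.IsComplement' (H.subgroupOf (Subgroup.normalizer (H : Set G)))) ↔
      (∃ N : Subgroup G, N.Normal ∧ N.IsComplement' H)) ∧
    (¬ H.Normal → (∃ K : Subgroup (Subgroup.normalizer (H : Set G)), K.Normal ∧ K.IsComplement' (H.subgroupOf (Subgroup.normalizer (H : Set G)))) →
      ∃ (F : Type u) (_ : Group F) (_ : Finite F) (C : Subgroup F), Cfsg.IsFrobeniusComplement C ∧ Nonempty (H ≃* C)) := by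
  obtain ⟨T, hT⟩ : ∃ T, T = normalizer (H : Set G) := ⟨_, rfl⟩
  have hHT : H ≤ T := hT ▸ le_normalizer
  have hTI' : ∀ g, g ∉ T → ∀ x ∈ H, g * x * g⁻¹ ∈ H → x = 1 := hT ▸ hTI
  have hTn : T ≤ normalizer (H : Set G) := hT.le
  rw [← hT] at hHall ⊢
  have hmem : ∀ y ∈ T, ∀ q : ℕ, q.Prime → q ∣ Nat.card H → orderOf y = q → y ∈ H := by
    intro y hy q hq hd e
    refine H1.le_of_coprime_relIndex (zpowers_le_of_mem hy) hTn ?_ (mem_zpowers y)
    rw [Nat.card_zpowers, e]
    exact hHall.coprime_dvd_left hd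
  have h1 : (∃ K : Subgroup T, K.Normal ∧ K.IsComplement' (H.subgroupOf T)) →
      ∃ N : Subgroup G, N.Normal ∧ N.IsComplement' H := by
    rintro ⟨K, _, hK⟩
    obtain ⟨N, _, h1, h2, -⟩ := H3.exists_normal_of_TI (H := T) (K := K.map T.subtype)
      (map_subtype_le K) (fun h hh k hk =>
        H1.conj_mem_of_mem_normalizer (H1.le_normalizer_map_subtype_of_normal T K hh) hk)
      fun g hg h hh h2 => by
        refine H1.le_of_coprime_relIndex (zpowers_le_of_mem h2)
          (H1.le_normalizer_map_subtype_of_normal T K) ?_ (mem_zpowers _)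
        rw [Nat.card_zpowers, H1.relIndex_map_subtype, hK.symm.index_eq_card,
          H1.card_subgroupOf hHT, show orderOf (g * h * g⁻¹) = orderOf h from
            (MulAut.conj g).orderOf_eq h, Nat.coprime_iff_gcd_eq_one]
        by_contra hc
        obtain ⟨q, hq, hd⟩ := Nat.exists_prime_and_dvd hc
        have h3 := orderOf_pow_orderOf_div (orderOf_pos h).ne' (hd.trans (Nat.gcd_dvd_left _ _))
        have h4 := hd.trans (Nat.gcd_dvd_right _ _)
        have h5 := hTI' g hg _ (hmem _ (pow_mem hh _) q hq h4 h3)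
          (hmem _ (by rw [← conj_pow]; exact pow_mem h2 _) q hq h4
            (((MulAut.conj g).orderOf_eq _).trans h3))
        rw [h5, orderOf_one] at h3
        exact hq.one_lt.ne h3
    refine ⟨N, ‹_›, H1.isComplement'_of_inf_eq_bot_of_sup_eq_top ?_ ?_⟩
    · rw [← inf_eq_right.2 hHT, ← inf_assoc, h1, ← H1.map_subtype_subgroupOf hHT,
        ← Subgroup.map_inf_eq _ _ _ T.subtype_injective, hK.disjoint.eq_bot, Subgroup.map_bot]
    · rw [eq_top_iff, ← h2]
      refine sup_le le_sup_left ?_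
      conv_lhs => rw [← T.range_subtype, MonoidHom.range_eq_map, ← hK.sup_eq_top, Subgroup.map_sup,
        H1.map_subtype_subgroupOf hHT, ← h1]
      exact sup_le_sup_right inf_le_left H
  refine ⟨⟨h1, ?_⟩, fun hnn h => ?_⟩
  · rintro ⟨N, _, hN⟩
    refine ⟨N.subgroupOf T, inferInstance, H1.isComplement'_of_inf_eq_bot_of_sup_eq_top ?_ ?_⟩
    · rw [subgroupOf, subgroupOf, ← comap_inf, hN.disjoint.eq_bot]; simp
    · have := H1.sup_inf_assoc_norm (A := H) (K := N) le_normalizer_of_normal hHT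
      rw [sup_comm, hN.sup_eq_top, top_inf_eq] at this
      rw [← inf_subgroupOf_right N T, ← subgroupOf_sup inf_le_right hHT, sup_comm, ← this,
        subgroupOf_self]
  obtain ⟨N, _, hN⟩ := h1 h
  have hcop : (Nat.card H).Coprime (Nat.card N) := by
    rw [← hN.index_eq_card, Nat.coprime_iff_gcd_eq_one]
    by_contra hc
    obtain ⟨q, hq, hd⟩ := Nat.exists_prime_and_dvd hc
    haveI := Fact.mk hq
    have h4 := hd.trans (Nat.gcd_dvd_left _ _)
    obtain ⟨Q, hQ⟩ := H2.exists_sylIn q H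
    have h5 := hQ.trans_of_not_dvd hHT
      fun h' => hq.one_lt.ne' (Nat.eq_one_of_dvd_coprimes hHall h4 h')
    have h6 : normalizer (Q : Set G) ≤ T := fun g hg => by
      by_contra hc
      obtain ⟨⟨x, hx⟩, hx1⟩ := ne_bot_iff_exists_ne_one.1 (hQ.ne_bot h4)
      exact hx1 (Subtype.ext (hTI' g hc x (hQ.le hx) (hQ.le (H1.conj_mem_of_mem_normalizer hg hx))))
    have h7 : H2.SylIn q Q ⊤ := H2.sylIn_of_sylIn_normalizer
      (h5.mono (le_inf le_top le_normalizer) (inf_le_right.trans h6))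
    refine h7.not_dvd_relIndex_of_le hQ.le ?_
    rw [relIndex_top_right]
    exact hd.trans (Nat.gcd_dvd_right _ _)
  have hC : ∀ h ∈ H, h ≠ 1 → N ⊓ centralizer {h} ≤ centralizer (H : Set G) := by
    intro h hh h1 n hn
    have h2 : n ∈ T := by
      by_contra hc
      refine h1 (hTI' n hc h hh ?_)
      rw [mem_centralizer_singleton_iff.1 hn.2, mul_inv_cancel_right]; exact hh
    intro y hy
    have h3 : n * y * n⁻¹ * y⁻¹ ∈ N ⊓ H := mem_inf.2 ⟨by
      have := mul_mem hn.1 (‹N.Normal›.conj_mem _ (inv_mem hn.1) y)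
      simpa [mul_assoc] using this,
      mul_mem (H1.conj_mem_of_mem_normalizer (hTn h2) hy) (inv_mem hy)⟩
    rw [hN.disjoint.eq_bot, mem_bot, mul_inv_eq_one, mul_inv_eq_iff_eq_mul] at h3
    exact h3.symm
  obtain ⟨q, hq, Q, hQN, hQq, hHQ, hQC⟩ : ∃ q : ℕ, q.Prime ∧ ∃ Q ≤ N, IsPGroup q Q ∧
      H ≤ normalizer (Q : Set G) ∧ ¬ Q ≤ centralizer (H : Set G) := by
    by_contra hc
    push Not at hc
    have : N ⊓ centralizer (H : Set G) = N := by
      refine H2.eq_of_forall_not_dvd_relIndex inf_le_left fun q hq hd => ?_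
      haveI := Fact.mk hq
      obtain ⟨Q, hQ, hHQ⟩ := H1.exists_invariant_isSylowIn (A := H) (K := N)
        le_normalizer_of_normal hcop (GS.solv_or_solv' hcop) q
      exact hQ.2.2 (hd.trans (relIndex_dvd_of_le_left _ (le_inf hQ.1 (hc q hq Q hQ.1 hQ.2.1 hHQ))))
    refine hnn (H1.normal_of_top_le_normalizer ?_)
    rw [← hN.sup_eq_top]
    exact sup_le (H1.le_normalizer_of_le_centralizer (this ▸ inf_le_right)) le_normalizer
  haveI := Fact.mk hq
  have hcQ := hcop.coprime_dvd_right (card_dvd_of_le hQN)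
  obtain ⟨R, hR⟩ : ∃ R, R = ⁅Q, H⁆ := ⟨_, rfl⟩
  have hRQ : R ≤ Q := by
    rw [hR, commutator_comm, commutator_le]
    intro h hh x hx
    rw [commutatorElement_def]
    exact mul_mem (H1.conj_mem_of_mem_normalizer (hHQ hh) hx) (inv_mem hx)
  have hRR : ⁅R, H⁆ = R :=
    hR ▸ H1.commutator_commutator_eq hHQ hcQ (Or.inr (H1.isSolvable_of_isPGroup hQq))
  have hR1 : R ≠ ⊥ := fun e => hQC (commutator_eq_bot_iff_le_centralizer.1 (hR ▸ e))
  have hHR : H ≤ normalizer (R : Set G) := hR ▸ normalizer_commutator_ge_right _ _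
  have hRs := H1.isSolvable_of_isPGroup (hQq.to_le hRQ)
  have hcR := hcQ.coprime_dvd_right (card_dvd_of_le hRQ)
  obtain ⟨M, hM⟩ : ∃ M, M = ⁅R, R⁆ := ⟨_, rfl⟩
  have hMR : M < R := hM ▸ H1.commutator_lt_self hRs hR1
  have hHM : H ≤ normalizer (M : Set G) := hM ▸ H1.le_normalizer_commutator hHR hHR
  have hRM : R ≤ normalizer (M : Set G) := hM ▸ normalizer_commutator_ge_left _ _
  haveI := H1.isMulCommutative_sec hRM hM.ge
  have hcard : Nat.card (H1.sec M H) = Nat.card H := by
    have := H1.card_inf_mul_relIndex M H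
    rwa [(disjoint_of_coprime_natCard (hcR.coprime_dvd_right (card_dvd_of_le hMR.le)).symm).eq_bot,
      card_bot, one_mul, ← H1.card_sec M H hHM] at this
  have h2 := H1.commutator_inf_centralizer_eq_bot (A := H1.sec M H) (V := H1.sec M R)
    (H1.sec_le_normalizer hHR) (hcard ▸ hcR.coprime_dvd_right (H1.card_sec_dvd M R hRM))
  rw [← H1.sec_commutator hRM hHM, hRR] at h2
  have hH1 : H ≠ ⊥ := by rintro rfl; exact hnn inferInstance
  have hf : L.FPF (H1.sec M R) (H1.sec M H) := by
    intro x hx hx1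
    obtain ⟨h, hhM, hh, rfl⟩ := H1.mem_sec_iff.1 hx
    have hh1 : h ≠ 1 := by rintro rfl; exact hx1 (map_one _)
    have hz : zpowers h ≤ H := zpowers_le_of_mem hh
    rw [← H1.centralizer_zpowers, ← H1.sec_zpowers, ← H1.sec_inf_centralizer (hz.trans hHM) hRM
      (hz.trans hHR) ((hcR.coprime_dvd_left (card_dvd_of_le hz)).coprime_dvd_right
        (card_dvd_of_le inf_le_left)) (Or.inl (H1.isSolvable_zpowers h)), eq_bot_iff, ← h2]
    refine le_inf (H1.sec_mono inf_le_left) ?_
    rw [H1.sec_le_centralizer_iff (inf_le_left.trans hRM) hHM,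
      commutator_eq_bot_iff_le_centralizer.2]
    · exact bot_le
    · rw [H1.centralizer_zpowers]
      exact (inf_le_inf_right _ (hRQ.trans hQN)).trans (hC h hh hh1)
  refine ⟨_, _, inferInstance, _, frob_of_fpf hf (H1.sec_le_normalizer hHR)
    (fun e => hMR.not_ge ((H1.sec_eq_bot_iff hRM).1 e))
    (fun e => hH1 (card_eq_one.1 (by rw [← hcard, e, card_bot]))), ⟨?_⟩⟩
  refine MulEquiv.trans ?_ (subgroupOfEquivOfLe le_sup_left).symm
  refine MulEquiv.ofBijective (((H1.secMk M).comp (inclusion hHM)).codRestrict _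
    fun x => H1.secMk_mem_sec x.2 _) ?_
  rw [Nat.bijective_iff_surjective_and_card]
  refine ⟨fun ⟨y, hy⟩ => ?_, hcard.symm⟩
  obtain ⟨h, hhM, hh, rfl⟩ := H1.mem_sec_iff.1 hy
  exact ⟨⟨h, hh⟩, rfl⟩

end Cfsg.Agent.S4115
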