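import Cfsg.Statements.S4116
import Cfsg.Agent.H8.Misc
import Cfsg.Agent.S0034
import Cfsg.Agent.S0038

set_option autoImplicit false
open Cfsg

namespace Cfsg.Agent.S4116

open Subgroup hiding commutator_def
open Function Cfsg.Agent.Hopf Cfsg.Agent.Reg
open scoped commutatorElement Pointwise

theorem hall_syl {G : Type*} [Group G] [Finite G] {H : Subgroup G}
    (hHall : (Nat.card H).Coprime H.index) {q : ℕ} [hq : Fact q.Prime] (h : q ∣ Nat.card H) {y : G}
    {k : ℕ} (hy : orderOf y = q ^ k) : ∃ g : G, g * y * g⁻¹ ∈ H := by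
  obtain ⟨P, hP⟩ := H2.exists_sylIn q H
  have h1 := hP.trans_of_not_dvd le_top (by
    rw [relIndex_top_right]
    exact fun h' => hq.out.one_lt.ne' (Nat.eq_one_of_dvd_coprimes hHall h h'))
  obtain ⟨g, -, hg⟩ := h1.exists_conj_mem (mem_top y) hy
  exact ⟨g, hP.le hg⟩

/-- Let G be a finite group with a subgroup H whose order is coprime to its index (a Hall subgroup) and which meets each of its conjugates by elements outside N_G(H) trivially. Then every subgroup of G whose order is divisible only by primes dividing the order of H lies in a conjugate of H. -/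
theorem result {G : Type*} [Group G] [Finite G] (H : Subgroup G)
    (hHall : (Nat.card H).Coprime H.index) (hTI : Cfsg.IsTISubset (H : Set G))
    (K : Subgroup G) (hK : ∀ q : ℕ, q.Prime → q ∣ Nat.card K → q ∣ Nat.card H) :
    ∃ g : G, K ≤ H.map (MulAut.conj g).toMonoidHom := by
  have hcop : ∀ x ∈ K, (orderOf x).Coprime H.index := fun x hx =>
    H1.coprime_of_pi (π := {q | q ∣ Nat.card H})
      (fun q hq h => hK q hq (h.trans (H1.orderOf_dvd_card_of_mem hx)))
      fun q hq h h' => hq.one_lt.ne' (Nat.eq_one_of_dvd_coprimes hHall h h')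
  have h1 : ∀ x ∈ K, ∀ g : G, ∀ y ∈ H2.cj g H, y ≠ 1 → x * y * x⁻¹ ∈ H2.cj g H → x ∈ H2.cj g H := by
    intro x hx g y hy hy1 h
    rw [H2.mem_cj] at hy h ⊢
    have h2 : g⁻¹ * x * g ∈ normalizer (H : Set G) := by
      by_contra hc
      have := hTI _ hc _ hy (by simpa [mul_assoc] using h)
      exact hy1 (by simpa using conj_eq_one_iff.1 (show g⁻¹ * y * g⁻¹⁻¹ = 1 by simpa using this))
    refine H1.le_of_coprime_relIndex (zpowers_le_of_mem h2) le_rfl ?_ (mem_zpowers _)
    rw [Nat.card_zpowers, show orderOf (g⁻¹ * x * g) = orderOf x by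
      simpa using (MulAut.conj g⁻¹).orderOf_eq x]
    exact (hcop x hx).coprime_dvd_right (relIndex_dvd_index_of_le le_normalizer)
  have h2 : ∀ x ∈ K, x ≠ 1 → ∃ g : G, x ∈ H2.cj g H := by
    intro x hx hx1
    obtain ⟨q, hq, hd⟩ := Nat.exists_prime_and_dvd (mt orderOf_eq_one_iff.1 hx1)
    haveI := Fact.mk hq
    have h3 := orderOf_pow_orderOf_div (orderOf_pos x).ne' hd
    obtain ⟨g, hg⟩ := hall_syl hHall (hK q hq (hd.trans (H1.orderOf_dvd_card_of_mem hx)))
      (k := 1) (h3.trans (pow_one q).symm)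
    refine ⟨g⁻¹, h1 x hx _ (x ^ (orderOf x / q)) (by rw [H2.mem_cj, inv_inv]; exact hg) (fun e => ?_) ?_⟩
    · rw [e, orderOf_one] at h3
      exact hq.one_lt.ne h3
    · rw [show x * x ^ (orderOf x / q) * x⁻¹ = x ^ (orderOf x / q) by group, H2.mem_cj, inv_inv]
      exact hg
  by_contra hc
  push Not at hc
  have h3 : ∀ g : G, ∀ x : K, x ≠ 1 → (x : G) ∈ H2.cj g H →
      IsFrobeniusComplement ((H2.cj g H).subgroupOf K) := by
    intro g x hx1 hx
    refine ⟨fun e => hx1 (by rw [← mem_bot, ← e]; exact hx), fun e => hc g (subgroupOf_eq_top.1 e),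
      fun k hk => eq_bot_iff.2 fun y hy => ?_⟩
    by_contra hy1
    refine hk (inv_mem_iff.1 (h1 _ (k⁻¹).2 g y hy.1 (fun e => hy1 (Subtype.ext e)) ?_))
    have := H1.mem_conj_smul.1 hy.2
    rw [mem_subgroupOf] at this
    simpa using this
  have hK1 : K ≠ ⊥ := fun e => hc 1 (e ▸ bot_le)
  obtain ⟨x, hx1⟩ := ne_bot_iff_exists_ne_one.1 hK1
  obtain ⟨g, hg⟩ := h2 x x.2 fun e => hx1 (Subtype.ext e)
  have h4 := h3 g x hx1 hg
  have h5 := (S0034.result _ h4).1
  have h6 : 1 < Nat.card (frobeniusKernel ((H2.cj g H).subgroupOf K)) :=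
    h5 ▸ one_lt_index_of_ne_top h4.2.1
  haveI := Finite.one_lt_card_iff_nontrivial.1 h6
  obtain ⟨⟨y, hy⟩, hy1⟩ := exists_ne (⟨1, Or.inl rfl⟩ : frobeniusKernel ((H2.cj g H).subgroupOf K))
  have hy2 : y ≠ 1 := fun e => hy1 (Subtype.ext e)
  obtain ⟨g', hg'⟩ := h2 y y.2 fun e => hy2 (Subtype.ext e)
  obtain ⟨k, hk⟩ := S0038.result _ _ (h3 g' y hy2 hg') h4
  exact hy.resolve_left hy2 k (hk ▸ hg')

end Cfsg.Agent.S4116
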