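import Cfsg.Statements.S4117
import Cfsg.Agent.H8.Act

set_option autoImplicit false
open Cfsg

namespace Cfsg.Agent.S4117

open Subgroup hiding commutator_def
open Function Cfsg.Agent.Hopf Cfsg.Agent.Reg
open scoped commutatorElement Pointwise


/-- Let A be a finite group acting on the finite group G by automorphisms with the orders of A and G coprime, and suppose every Sylow subgroup of G is cyclic. Then the fixed-point subgroup C_G(A) is a Hall subgroup of G (its order is coprime to its index), the subgroup [G, A] generated by the elements g⁻¹·a(g) is cyclic and normal with [G, A] ∩ C_G(A) = 1 and [G, A]·C_G(A) = G. -/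
theorem result {G A : Type*} [Group G] [Finite G] [Group A] [Finite A]
    [MulDistribMulAction A G] (hcop : (Nat.card A).Coprime (Nat.card G))
    (hcyc : ∀ (p : ℕ) [Fact p.Prime] (P : Sylow p G), IsCyclic (P : Subgroup G)) :
    (Nat.card (MulAction.fixedPoints A G : Set G)).Coprime (Nat.card G / Nat.card (MulAction.fixedPoints A G : Set G)) ∧
    IsCyclic (Subgroup.closure {y : G | ∃ (a : A) (g : G), y = g⁻¹ * a • g}) ∧
    (Subgroup.closure {y : G | ∃ (a : A) (g : G), y = g⁻¹ * a • g}).Normal ∧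
    (Subgroup.closure {y : G | ∃ (a : A) (g : G), y = g⁻¹ * a • g} : Set G) ∩ MulAction.fixedPoints A G = {1} ∧
    Subgroup.closure {y : G | ∃ (a : A) (g : G), y = g⁻¹ * a • g} ⊔ Subgroup.closure (MulAction.fixedPoints A G) = ⊤ := by
  haveI : IsZGroup G := ⟨fun p hp P => @hcyc p ⟨hp⟩ P⟩
  obtain ⟨L, _, _, i, j, hi, hj, hn, h⟩ := exists_amb G A
  obtain ⟨D, hD⟩ : ∃ D, D = closure {y : G | ∃ (a : A) (g : G), y = g⁻¹ * a • g} := ⟨_, rfl⟩
  have hD1 := amb_comm h
  rw [← hD] at hD1 ⊢
  obtain ⟨C, hC⟩ : ∃ C, C = (centralizer ((j.range : Subgroup L) : Set L)).comap i := ⟨_, rfl⟩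
  have hC1 : MulAction.fixedPoints A G = C := by
    ext g
    rw [hC, SetLike.mem_coe, mem_comap, amb_fix hi h]; rfl
  have hC2 : C.map i = i.range ⊓ centralizer ((j.range : Subgroup L) : Set L) := by
    rw [hC, map_comap_eq]
  rw [hC1, closure_eq]
  have hc : (Nat.card j.range).Coprime (Nat.card i.range) := by
    rwa [card_range_inj hi, card_range_inj hj]
  haveI : IsZGroup i.range := IsZGroup.of_surjective i.rangeRestrict_surjective
  have hBK : j.range ≤ normalizer (i.range : Set L) := le_normalizer_of_normal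
  have hDK : ⁅i.range, j.range⁆ ≤ i.range := commutator_le_left _ _
  have h1 : IsCyclic ↥⁅i.range, j.range⁆ := by
    have h2 := comm_le_cent_cyc (H2.Zgroup_der1_cyclic (X := i.range) inferInstance)
    have h3 : ⁅i.range, j.range⁆ ≤ centralizer ((⁅i.range, i.range⁆ : Subgroup L) : Set L) :=
      (commutator_mono le_normalizer_of_normal le_normalizer_of_normal).trans h2
    haveI := H8.nilpotent_of_comm3 (H := ⁅i.range, j.range⁆) (by
      rw [commutator_eq_bot_iff_le_centralizer, le_centralizer_iff]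
      exact h3.trans (H1.centralizer_anti (commutator_mono hDK hDK)))
    haveI : IsZGroup ↥⁅i.range, j.range⁆ := IsZGroup.of_injective (inclusion_injective hDK)
    infer_instance
  have h2 : IsCyclic D := isCyclic_of_map hi (hD1 ▸ h1)
  have h3 : D.Normal := ⟨fun n hn g => by
    rw [← mem_map_iff_mem hi, hD1] at hn ⊢
    rw [map_mul, map_mul, map_inv]
    exact H1.conj_mem_of_mem_normalizer (normalizer_commutator_ge_left _ _ ⟨g, rfl⟩) hn⟩
  have h4 : D ⊓ C = ⊥ := by
    have h5 := H1.commutator_commutator_eq hBK hc (Or.inr inferInstance)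
    have h6 := H1.commutator_inf_centralizer_eq_bot (A := j.range) (V := ⁅i.range, j.range⁆)
      (normalizer_commutator_ge_right _ _) (hc.coprime_dvd_right (card_dvd_of_le hDK))
    rw [h5] at h6
    rw [← map_eq_bot_iff_of_injective _ hi, Subgroup.map_inf_eq _ _ _ hi, hD1, hC2, eq_bot_iff, ← h6]
    exact inf_le_inf_left _ inf_le_right
  have h5 : D ⊔ C = ⊤ := by
    apply map_injective hi
    rw [Subgroup.map_sup, hD1, hC2, H1.commutator_sup_centralizer hBK hc (Or.inr inferInstance),
      MonoidHom.range_eq_map]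
  refine ⟨?_, h2, h3, by rw [← coe_inf, h4, coe_bot], h5⟩
  have h6 := H1.card_sup_of_disjoint (A := C) (K := D) le_normalizer_of_normal (inf_comm D C ▸ h4)
  rw [sup_comm, h5, card_top] at h6
  change (Nat.card C).Coprime (Nat.card G / Nat.card C)
  rw [h6, Nat.mul_div_cancel_left _ Nat.card_pos, Nat.coprime_iff_gcd_eq_one]
  by_contra hc'
  obtain ⟨p, hp, hd⟩ := Nat.exists_prime_and_dvd hc'
  haveI := Fact.mk hp
  obtain ⟨x, hx, hx1⟩ := H1.exists_mem_orderOf_eq_prime hp (hd.trans (Nat.gcd_dvd_left _ _))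
  obtain ⟨y, hy, hy1⟩ := H1.exists_mem_orderOf_eq_prime hp (hd.trans (Nat.gcd_dvd_right _ _))
  obtain ⟨P, hP⟩ := (H2.isPGroup_zpowers_of_orderOf (k := 1) (by simpa using hx1)).exists_le_sylow
  haveI := H1.normal_of_le_of_isCyclic (zpowers_le_of_mem hy)
  have h7 := eq_of_le_cyc (hcyc p P) hP ((H2.isPGroup_zpowers_of_orderOf (k := 1)
    (by simpa using hy1)).le_sylow_of_normal P) (by simp [hx1, hy1])
  have h8 : x ∈ D ⊓ C := mem_inf.2 ⟨zpowers_le_of_mem hy (h7 ▸ mem_zpowers x), hx⟩
  rw [h4, mem_bot] at h8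
  rw [h8, orderOf_one] at hx1
  exact hp.one_lt.ne hx1

end Cfsg.Agent.S4117
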