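import Cfsg.Statements.S4126
import Cfsg.Agent.GS.Lem2

set_option autoImplicit false
open Cfsg

namespace Cfsg.Agent.S4126

open Cfsg.Agent.H1

/-- Let G be a finite group and p a prime. Suppose every element of order p, and when p = 2 also every element of order 4, has a conjugacy class of p-power size. Then G has a normal p-complement. -/
theorem result {G : Type*} [Group G] [Finite G] (p : ℕ) [Fact p.Prime]
    (h : ∀ x : G, (orderOf x = p ∨ (p = 2 ∧ orderOf x = 4)) → ∃ a : ℕ, (Subgroup.centralizer ({x} : Set G)).index = p ^ a) :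
    Cfsg.HasNormalPComplement p G := by
  open Subgroup Pointwise commutatorElement Cfsg.Agent.BG Cfsg.Agent.GS in
  open Cfsg.Agent.H2 hiding card_lt_of_lt card_lt_of_ne_top isMulCommutative_of_le isPGroup_zpowers_iff mem_of_pow_mem_of_coprime inf_eq_bot_of_cop exists_maxElem_ge Sec in
  open Cfsg.Agent.H8 (Op Opp Fit SN) in
  open Cfsg.Agent.L (FPF) in focus
    have hp : p.Prime := Fact.out
    have h1 : ∀ x : G, (p ≠ 2 → x ^ p = 1) → x ^ (p * p) = 1 → ∃ a, (𝒞₁ x).index = p ^ a := fun x a b => by
      by_cases e : x = 1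
      · exact ⟨0, by rw [e, mem_center_iff_cent1.1 (one_mem _), index_top, pow_zero]⟩
      by_cases e' : x ^ p = 1
      · exact h x (Or.inl (orderOf_eq_prime e' e))
      obtain rfl : p = 2 := by_contra fun c => e' (a c)
      exact h x (Or.inr ⟨rfl, orderOf_eq_prime_pow (n := 1) (p := 2) e' b⟩)
    obtain ⟨P, hP⟩ := exists_sylIn p (⊤ : Subgroup G)
    have h2 : ∀ (n : ℕ) (V : Subgroup G), V.Normal → ♯V = n → IsPGroup p V → ∀ A : Subgroup G, (♯A).Coprime p → A ≤ 𝒞 V := by
      intro n
      induction n using Nat.strong_induction_on with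
      | _ n ih =>
      intro V _ hn hV A hA
      let s : Set G := {x | x ∈ V ∧ (p ≠ 2 → x ^ p = 1) ∧ x ^ (p * p) = 1}
      have h3 : normalClosure s ≤ V := normalClosure_le_normal fun x hx => hx.1
      refine coprime_faithful_small hV (le_norm_of_normal _ _) hA fun x a b c =>
        le_cent_comm.1 ?_ (subset_normalClosure (s := s) ⟨a, b, c⟩)
      by_cases e : normalClosure s = ⊥
      · rw [e, centralizer_bot_eq]; exact le_top
      have h4 : ⁅(⊤ : Subgroup G), normalClosure s⁆ ≤ ⁅normalClosure s, P⁆.normalCore := commutator_normalClosure_le fun g hg =>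
        commutator_le.2 fun y _ z ⟨k, hk⟩ c => by
          have h5 : c * z * c⁻¹ ∈ s := ⟨‹V.Normal›.conj_mem _ (hk ▸ zpow_mem hg.1 k) c, fun d => by
            rw [conj_pow, ← hk, ← zpow_natCast, ← zpow_mul, mul_comm k, zpow_mul, zpow_natCast, hg.2.1 d]; simp, by
            rw [conj_pow, ← hk, ← zpow_natCast, ← zpow_mul, mul_comm k, zpow_mul, zpow_natCast, hg.2.2]; simp⟩
          obtain ⟨j, hj⟩ := h1 _ h5.2.1 h5.2.2
          obtain ⟨u, hu, d, hd, h6⟩ := forall_mul_of_index_pow hP hj (c * y * c⁻¹)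
          rw [conjugate_commutatorElement, h6, commutator_comm, show ⁅u * d, c * z * c⁻¹⁆ =
            u * (d * (c * z * c⁻¹) * d⁻¹) * u⁻¹ * (c * z * c⁻¹)⁻¹ by group, conj_eq_of_mem_cent1 hd]
          exact commutator_mem_commutator hu (subset_normalClosure h5)
      have h5 := (h4.trans (normalCore_le _)).trans_lt (commutator_lt_of_isPGroup (isPGroup_of_le hV h3) hP.pgrp
        (le_norm_of_normal _ _) e)
      exact le_centralizer_of_chain (coprime_of_pgroup (isPGroup_of_le hV (h5.le.trans h3)) hA).symm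
        ((commutator_comm _ _).trans_le (commutator_mono le_top le_rfl))
        (ih _ (hn ▸ card_lt_of_lt (h5.trans_le h3)) _ inferInstance rfl (isPGroup_of_le hV (h5.le.trans h3)) A hA)
    refine hasNPC_iff_top.2 (by_contra fun e => ?_)
    obtain ⟨U, R, q, hq, hqp, -, u1, -, r1, -, r2, r3⟩ := exists_of_not_pNil e
    have := Fact.mk hq
    refine r3 (coprime_faithful_small u1 r2 (coprime_primes_pgroup r1 hqp) fun x a b c => ?_)
    obtain ⟨j, hj⟩ := h1 x b c
    exact le_cent_comm.1 (h2 _ _ inferInstance rfl (isPGroup_pCore p G) R (coprime_primes_pgroup r1 hqp))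
      (mem_pCore_of_index_pow (orderOf_eq_pow_of_mem u1 a) hj)

end Cfsg.Agent.S4126
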