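import Cfsg.Statements.S4127
import Cfsg.Agent.GS.Lem3

set_option autoImplicit false
open Cfsg

namespace Cfsg.Agent.S4127

open Cfsg.Agent.H1

/-- Let G be a finite group, p a prime and p^a the largest power of p dividing the size of any conjugacy class of G. If some element of p-power order has a conjugacy class of size exactly p^a, then G has a normal p-complement. -/
theorem result {G : Type*} [Group G] [Finite G] (p : ℕ) [Fact p.Prime]
    (a : ℕ) (hmax : ∀ y : G, ¬ p ^ (a + 1) ∣ (Subgroup.centralizer ({y} : Set G)).index)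
    (hx : ∃ x : G, (∃ k : ℕ, orderOf x = p ^ k) ∧ (Subgroup.centralizer ({x} : Set G)).index = p ^ a) :
    Cfsg.HasNormalPComplement p G := by
  open Subgroup Pointwise commutatorElement Cfsg.Agent.BG Cfsg.Agent.GS in
  open Cfsg.Agent.H2 hiding card_lt_of_lt card_lt_of_ne_top isMulCommutative_of_le isPGroup_zpowers_iff mem_of_pow_mem_of_coprime inf_eq_bot_of_cop exists_maxElem_ge Sec in
  open Cfsg.Agent.H8 (Op Opp Fit SN) in
  open Cfsg.Agent.L (FPF) in focus
    obtain ⟨x, ⟨k, hk⟩, hx⟩ := hx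
    obtain ⟨S, hS⟩ := exists_sylIn p (𝒞₁ x)
    obtain ⟨h1, h2⟩ := dp_of_class hS fun y hy hc hd => hmax (x * y) (by
      rw [index_cent1_mul (commute_of_mem_cent1 hy) (hk ▸ hc.symm.pow_left k), hx, pow_succ']
      exact Nat.mul_dvd_mul_right hd _)
    have h3 := mem_pCore_of_index_pow ⟨k, hk⟩ hx
    have h4 : Opp p (𝒞₁ x) ≤ 𝒞 (pCore p G) := p_times_q (pgroup_zpowers_iff.2 ⟨k, hk⟩) (H8.Opp_coprime _ _) (isPGroup_pCore p G)
      (le_cent_comm.1 (BL.cent_zpowers x ▸ H8.Opp_le _ _)) (le_norm_of_normal _ _) (le_norm_of_normal _ _)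
      ((hS.le_of_le_normalizer (isPGroup_of_le (isPGroup_pCore p G) inf_le_left) (BL.cent_zpowers x ▸ inf_le_right)
        ((BL.cent_zpowers x ▸ inf_le_right : _ ≤ 𝒞₁ x).trans h1)).trans (le_cent_of_norm_of_coprime
          (hS.le.trans (H8.le_normalizer_Opp _ _)) ((H8.Opp_le _ _).trans h1) (coprime_of_pgroup hS.pgrp (H8.Opp_coprime _ _))))
    obtain ⟨P, hP, h5⟩ := exists_sylIn_ge hS.pgrp le_top
    refine hasNPC_iff_top.2 (pNil_of_normal (H8.le_normalizer_Opp_of p (le_norm_of_normal ⊤ (𝒞 (pCore p G))))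
      (H8.Opp_coprime _ _) hP.pgrp le_top fun g _ => ?_)
    obtain ⟨u, hu, c, hc, rfl⟩ := forall_mul_of_index_pow hP hx g
    refine mul_mem (mem_sup_right hu) (sup_le_sup (H8.le_Opp h4 ((cent1_le_cent h3).trans (H8.le_normalizer_Opp _ _))
      (H8.Opp_coprime _ _)) h5 ?_)
    rwa [PNil_Opp_sup h2 hS]

end Cfsg.Agent.S4127
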