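import Cfsg.Statements.S4167
import Cfsg.Agent.GS.Lem4
import Cfsg.Agent.PF.FT

set_option autoImplicit false
open Cfsg

namespace Cfsg.Agent.S4167

open Cfsg.Agent.H1

/-- Let G be a finite group in which no conjugacy class has size divisible by 4. Then G is solvable. -/
theorem result {G : Type*} [Group G] [Finite G]
    (h : ∀ x : G, ¬ 4 ∣ (Subgroup.centralizer ({x} : Set G)).index) : Group.IsSolvable G := by
  open Subgroup Pointwise commutatorElement Cfsg.Agent.BG Cfsg.Agent.GS in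
  open Cfsg.Agent.H2 hiding card_lt_of_lt card_lt_of_ne_top isMulCommutative_of_le isPGroup_zpowers_iff mem_of_pow_mem_of_coprime inf_eq_bot_of_cop exists_maxElem_ge Sec in
  open Cfsg.Agent.H8 (Op Opp Fit SN) in
  open Cfsg.Agent.L (FPF) in focus
    refine solv_ind (fun G _ _ => ∀ x : G, ¬ 4 ∣ (𝒞₁ x).index) (fun G _ _ N _ h => ⟨fun x hd => h x (hd.trans (index_cent1_sub_dvd x)),
      fun x => QuotientGroup.induction_on x fun x hd => h x (hd.trans (index_cent1_quot_dvd x))⟩) (fun G _ _ _ h hc => ?_) h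
    have h2 : 2 ∣ Nat.card G := by
      by_contra h2
      have := odd_order (Nat.odd_iff.2 (Nat.two_dvd_ne_zero.1 h2))
      exact H8.not_solvable_top_of_simple hc inferInstance
    obtain ⟨z, hz⟩ := exists_prime_orderOf_dvd_card' 2 h2
    refine H8.centralizer_ne_top_of_simple hc (x := z) (fun e => by simp [e] at hz) (eq_top_of_forall_cj fun x => ?_)
    obtain ⟨T, hT⟩ := exists_sylIn 2 (𝒞₁ x)
    obtain ⟨P, hP, h3⟩ := exists_sylIn_ge hT.pgrp le_top
    obtain ⟨c, -, hc'⟩ := hP.exists_conj_mem (mem_top z) (k := 1) (by simpa)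
    suffices ∃ g, g * z * g⁻¹ ∈ T by
      obtain ⟨g, hg⟩ := this
      exact ⟨g, by rw [cj_centralizer_singleton]; exact mem_cent1.2 (mem_cent1.1 (hT.le hg)).symm⟩
    obtain ⟨k, hk⟩ := (IsPGroup.iff_card.1 hP.pgrp)
    obtain ⟨j, -, hj⟩ := (Nat.dvd_prime_pow Nat.prime_two).1 (hk ▸ relIndex_dvd_card T P)
    have h4 : 2 ^ j ∣ (𝒞₁ x).index := (Nat.Coprime.pow_left j ((Nat.Prime.coprime_iff_not_dvd Nat.prime_two).2
      hT.not_dvd_relIndex)).dvd_of_dvd_mul_left (by rw [relIndex_mul_index hT.le, ← hj]; exact relIndex_dvd_index_of_le h3)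
    match j with
    | 0 => exact ⟨c, relIndex_eq_one.1 hj hc'⟩
    | 1 =>
      obtain ⟨g, hg⟩ := exists_conj_mem_of_no_index_two (simple_no_index_two hc)
        (Nat.odd_iff.2 (Nat.two_dvd_ne_zero.1 (not_dvd_index_of_sylIn hP le_rfl))) hj
        ((MulEquiv.orderOf_eq (MulAut.conj c) z).trans hz) hc'
      exact ⟨g * c, by simpa [mul_assoc] using hg⟩
    | j + 2 => exact (h x ((Dvd.intro_left (2 ^ j) (by ring)).trans h4)).elim

end Cfsg.Agent.S4167
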