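import Cfsg.Statements.S4130
import Cfsg.Agent.GS.SqF
import Cfsg.Agent.S4167

set_option autoImplicit false
open Cfsg

namespace Cfsg.Agent.S4130

open Cfsg.Agent.H1

/-- Let G be a finite group all of whose conjugacy class sizes are square-free. Then G is supersolvable, G/F(G) and the derived subgroup G′ are cyclic of square-free order (F(G) the Fitting subgroup, which is normal), F(G) has nilpotency class at most 2, and G is metabelian. -/
theorem result {G : Type*} [Group G] [Finite G]
    (h : ∀ x : G, Squarefree (Subgroup.centralizer ({x} : Set G)).index) :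
    Cfsg.IsSupersolvable G ∧ (Cfsg.fittingSubgroup G).Normal ∧
    (∀ _h : (Cfsg.fittingSubgroup G).Normal, IsCyclic (G ⧸ Cfsg.fittingSubgroup G) ∧ Squarefree (Cfsg.fittingSubgroup G).index) ∧
    IsCyclic (commutator G) ∧ Squarefree (Nat.card (commutator G)) ∧
    Subgroup.upperCentralSeries ↥(Cfsg.fittingSubgroup G) 2 = ⊤ ∧ commutator ↥(commutator G) = ⊥ := by
  open Subgroup Pointwise commutatorElement Cfsg.Agent.BG Cfsg.Agent.GS in
  open Cfsg.Agent.H2 hiding card_lt_of_lt card_lt_of_ne_top isMulCommutative_of_le isPGroup_zpowers_iff mem_of_pow_mem_of_coprime inf_eq_bot_of_cop exists_maxElem_ge Sec in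
  open Cfsg.Agent.H8 (Op Opp Fit SN) in
  open Cfsg.Agent.L (FPF) in focus
    have h0 : ∀ p : ℕ, p.Prime → ∀ x : G, ¬ p ^ 2 ∣ (𝒞₁ x).index := fun p hp x => by
      rw [sq]; exact Nat.squarefree_iff_prime_squarefree.1 (h x) p hp
    have hs := S4167.result (h0 2 Nat.prime_two)
    have h1 := super_of_sqfree hs fun p _ hp _ x _ => h0 p hp x
    have h2 := IsSupersolvable.isNilpotent_commutator h1
    have h3 : Squarefree (♯(_root_.commutator G)) := Nat.squarefree_iff_prime_squarefree.2 fun p hp hd => by
      have := Fact.mk hp
      have : (Opp p (_root_.commutator G)).Normal := normal_iff_top_le.2 (le_normalizer_of_normal.trans (H8.normalizer_le_Opp p _))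
      have e : _root_.commutator (G ⧸ Opp p (_root_.commutator G)) = (_root_.commutator G).map (QuotientGroup.mk' _) := by
        rw [_root_.map_commutator_eq, MonoidHom.range_eq_top.2 (QuotientGroup.mk'_surjective _)]; rfl
      have h4 := card_commutator_dvd_of_pgroup (G := G ⧸ Opp p (_root_.commutator G)) (p := p) inferInstance (by
        refine isPGroup_of_le ((H8.Op_isPGroup p (_root_.commutator G)).map (QuotientGroup.mk' _)) (e.le.trans ?_)
        exact map_mk'_le_map_mk'_iff.2 (H8.Op_sup_Opp_of_nilpotent h2 p).ge) fun x => QuotientGroup.induction_on x fun x hd => h0 p hp x (hd.trans (index_cent1_quot_dvd x))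
      rw [e, card_map_mk'] at h4
      rw [← card_mul_relIndex (H8.Opp_le p (_root_.commutator G))] at hd
      have := ((H8.Opp_coprime p _).symm.mul_left (H8.Opp_coprime p _).symm).dvd_of_dvd_mul_left hd
      exact hp.one_lt.not_ge (by simpa [hp.pos] using Nat.le_of_dvd hp.pos (this.trans h4))
    have := IsZGroup.of_squarefree h3
    have h4 : IsCyclic (_root_.commutator G) := inferInstance
    have h5 : _root_.commutator G ≤ fittingSubgroup G := le_fittingSubgroup inferInstance h2
    have h6 : fittingSubgroup G = 𝒞 (_root_.commutator G) := by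
      refine le_antisymm (le_cent_comm.1 (H8.le_of_nilpotent_of_Op_le h2 fun q hq => ?_)) (le_fittingSubgroup inferInstance
        (nil_of_commute_conj fun x hx g _ => ?_))
      · have := Fact.mk hq
        have h6 := H8.Op_le q (_root_.commutator G)
        have := normal_of_le_of_isCyclic h6
        obtain ⟨k, hk⟩ := IsPGroup.iff_card.1 (H8.Op_isPGroup q (_root_.commutator G))
        rcases (hk ▸ h3.squarefree_of_dvd (card_dvd_of_le h6)).eq_zero_or_one_of_pow_of_not_isUnit hq.prime.not_isUnit with rfl | rfl
        · rw [card_eq_one.1 hk]; exact bot_le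
        have h9 : (♯(Op q (_root_.commutator G))).Prime := by rwa [hk, pow_one]
        exact le_of_inf_ne_bot h9 (inf_centralizer_ne_bot_of_isNilpotent inferInstance (h6.trans h5) le_rfl
          le_normalizer_of_normal (ne_bot_of_card_prime h9))
      · rw [show g * x * g⁻¹ = ⁅g, x⁆ * x by simp [commutatorElement_def]]
        exact mul_mem (le_cent1_iff.2 hx (commutator_mem_commutator (mem_top g) (mem_top x))) (GS.self_mem_cent1 x)
    obtain ⟨z, hz⟩ := (Subgroup.isCyclic_iff_exists_zpowers_eq_top _).1 h4
    have h7 : Squarefree (fittingSubgroup G).index := by rw [h6, ← hz, centralizer_zpowers]; exact h z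
    refine ⟨h1, inferInstance, fun _ => ⟨?_, h7⟩, h4, h3, ?_, ?_⟩
    · have := IsZGroup.of_squarefree (G := G ⧸ fittingSubgroup G) h7
      have := (Normal.quotient_commutative_iff_commutator_le (N := fittingSubgroup G)).2 h5
      have := nil_top_iff.1 (nil_of_commute_conj (H := (⊤ : Subgroup (G ⧸ fittingSubgroup G))) fun x _ g _ => mem_cent1.2 (mul_comm' _ _))
      infer_instance
    · exact Subgroup.upperCentralSeries_eq_top_iff_nilpotencyClass_le.2 ((class_le_two_iff' inferInstance).2
        ((commutator_mono le_top le_top).trans (le_cent_comm.1 h6.le)))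
    · exact _root_.commutator_eq_bot _

end Cfsg.Agent.S4130
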