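import Cfsg.Statements.S4139
import Cfsg.Agent.H8.Ito
import Cfsg.Agent.H1.Carter

set_option autoImplicit false
open Cfsg

namespace Cfsg.Agent.S4139

open Subgroup hiding commutator_def
open Function Cfsg.Agent.Hopf Cfsg.Agent.Reg
open scoped commutatorElement Pointwise

theorem key {G : Type*} [Group G] [Finite G] (p : ℕ) [hp : Fact p.Prime] :
    ∃ D : Subgroup G, D.Normal ∧ IsPGroup p D ∧
      (∀ Q : Subgroup G, IsPGroup p Q → Q ≤ centralizer (Cfsg.pResidual p G : Set G) → Q ≤ D) ∧
      ∃ t, {x : G | ∃ k, (centralizer ({x} : Set G)).index = p ^ k}.ncard = t * Nat.card D ∧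
        ¬ p ∣ t := by
  classical
  obtain ⟨K, hK⟩ : ∃ K, K = Cfsg.pResidual p G := ⟨_, rfl⟩
  haveI hKn : K.Normal := hK ▸ inferInstance
  rw [← hK]
  obtain ⟨C, hC⟩ : ∃ C, C = centralizer (K : Set G) := ⟨_, rfl⟩
  haveI hCn : C.Normal := hC ▸ inferInstance
  rw [← hC]
  -- the p-elements of C form a subgroup
  have hmul : ∀ a ∈ C, ∀ b ∈ C, ∀ k l : ℕ, a ^ p ^ k = 1 → b ^ p ^ l = 1 →
      ∃ m, (a * b) ^ p ^ m = 1 := by
    intro a ha b hb k l e e'
    have hQ : IsPGroup p (closure {a, b} : Subgroup G) := by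
      have hle : closure {a, b} ≤ C := by
        rw [closure_le]; rintro _ (rfl | rfl) <;> assumption
      have hN : H2.resOf p (closure {a, b} : Subgroup G) ≤ centralizer (closure {a, b} : Subgroup G) := by
        intro u hu v hv
        have h1 : u ∈ K := hK ▸ H2.resOf_top (G := G) p ▸ H2.resOf_mono le_top hu
        exact ((hC ▸ hle hv : v ∈ centralizer (K : Set G)) u h1).symm
      obtain ⟨S, hS⟩ := H2.exists_sylIn p (closure {a, b} : Subgroup G)
      have hn : closure {a, b} ≤ normalizer (S : Set G) := by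
        rw [← hS.resOf_sup]
        exact sup_le (hN.trans ((centralizer_le hS.le).trans (centralizer_le_normalizer _)))
          le_normalizer
      have hin : ∀ u ∈ closure ({a, b} : Set G), ∀ j, u ^ p ^ j = 1 → u ∈ S := by
        intro u hu j ej
        have h1 : IsPGroup p (zpowers u) := by
          rw [IsPGroup.iff_card, Nat.card_zpowers]
          obtain ⟨i, -, h⟩ := (Nat.dvd_prime_pow hp.out).1 (orderOf_dvd_of_pow_eq_one ej)
          exact ⟨i, h⟩
        have h2 := hS.max (S ⊔ zpowers u) (sup_le hS.le (zpowers_le.2 hu))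
          (IsPGroup.to_sup_of_normal_left' hS.pgrp h1 ((zpowers_le.2 hu).trans hn)) le_sup_left
        rw [← h2]; exact mem_sup_right (mem_zpowers u)
      refine hS.pgrp.to_le ?_
      rw [closure_le]
      rintro _ (rfl | rfl)
      · exact hin _ (subset_closure (by simp)) k e
      · exact hin _ (subset_closure (by simp)) l e'
    obtain ⟨m, hm⟩ := hQ ⟨a * b, mul_mem (subset_closure (by simp)) (subset_closure (by simp))⟩
    exact ⟨m, congrArg Subtype.val hm⟩
  let D : Subgroup G :=
    { carrier := {h | h ∈ C ∧ ∃ k, h ^ p ^ k = 1}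
      one_mem' := ⟨one_mem _, 0, one_pow _⟩
      inv_mem' := fun ⟨h, k, e⟩ => ⟨inv_mem h, k, by rw [inv_pow, e, inv_one]⟩
      mul_mem' := fun ⟨ha, k, e⟩ ⟨hb, l, e'⟩ => ⟨mul_mem ha hb, hmul _ ha _ hb k l e e'⟩ }
  have hD : IsPGroup p D := fun g => by
    obtain ⟨k, e⟩ := g.2.2
    exact ⟨k, Subtype.ext e⟩
  haveI hDn : D.Normal := ⟨fun u ⟨hu, k, e⟩ g => ⟨hCn.conj_mem u hu g, k, by rw [conj_pow, e]; group⟩⟩
  have hDmax : ∀ Q : Subgroup G, IsPGroup p Q → Q ≤ C → Q ≤ D := fun Q hQ hle u hu => by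
    obtain ⟨k, e⟩ := hQ ⟨u, hu⟩
    exact ⟨hle hu, k, congrArg Subtype.val e⟩
  refine ⟨D, hDn, hD, hDmax, ?_⟩
  obtain ⟨S, hS⟩ : ∃ S : Set G, S = {x : G | ∃ k, (centralizer ({x} : Set G)).index = p ^ k} :=
    ⟨_, rfl⟩
  rw [← hS]
  obtain ⟨e, he⟩ := H2.index_pResidual p G
  rw [← hK] at he
  have hS1 : ∀ x, x ∈ S ↔ ∃ k, (centralizer ({x} : Set G)).relIndex K = p ^ k := by
    intro x
    rw [hS]
    constructor
    · rintro ⟨k, hk⟩
      have h1 := H1.relIndex_dvd_index_of_normal_right (centralizer ({x} : Set G)) K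
      rw [hk] at h1
      obtain ⟨i, -, h⟩ := (Nat.dvd_prime_pow hp.out).1 h1
      exact ⟨i, h⟩
    · rintro ⟨k, hk⟩
      have h1 : (centralizer ({x} : Set G) ⊓ K).index = p ^ (k + e) := by
        rw [pow_add, ← hk, ← he, ← inf_relIndex_right]
        exact (relIndex_mul_index inf_le_right).symm
      have h2 : (centralizer ({x} : Set G)).index ∣ p ^ (k + e) := by
        rw [← h1]; exact index_dvd_of_le inf_le_left
      obtain ⟨i, -, h⟩ := (Nat.dvd_prime_pow hp.out).1 h2
      exact ⟨i, h⟩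
  have hS2 : ∀ x ∈ S, ∀ d ∈ D, x * d ∈ S := by
    intro x hx d hd
    rw [hS1] at hx ⊢
    rw [← inf_relIndex_right] at hx ⊢
    suffices e : centralizer ({x * d} : Set G) ⊓ K = centralizer ({x} : Set G) ⊓ K by
      rw [e]; exact hx
    ext u
    simp only [mem_inf, mem_centralizer_singleton_iff]
    refine and_congr_left fun hu => ?_
    have := (hC ▸ hd.1 : d ∈ centralizer (K : Set G)) u hu
    rw [← mul_assoc, mul_assoc x d u, ← this, ← mul_assoc, mul_left_inj]
  obtain ⟨π, hπ⟩ : ∃ π, π = QuotientGroup.mk' D := ⟨_, rfl⟩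
  have hker : π.ker = D := hπ ▸ QuotientGroup.ker_mk' D
  have hpre : ∀ X : Set G, (∀ x ∈ X, ∀ d ∈ D, x * d ∈ X) → X.ncard = (π '' X).ncard * Nat.card D := by
    intro X hX
    have e1 : X = (QuotientGroup.mk : G → G ⧸ D) ⁻¹' (π '' X) := by
      ext u
      constructor
      · intro hu; exact ⟨u, hu, hπ ▸ rfl⟩
      · rintro ⟨v, hv, e⟩
        rw [hπ] at e
        have := hX v hv _ (QuotientGroup.eq.1 e)
        simpa using this
    rw [← Nat.card_coe_set_eq, ← Nat.card_coe_set_eq, mul_comm, ← Nat.card_prod]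
    conv_lhs => rw [e1]
    exact Nat.card_congr (QuotientGroup.preimageMkEquivSubgroupProdSet D _)
  refine ⟨(π '' S).ncard, hpre S hS2, ?_⟩
  have hCS : (C : Set G) ⊆ S := by
    intro c hc
    rw [hS1]
    exact ⟨0, relIndex_eq_one.2 fun u hu => mem_centralizer_singleton_iff.2
      ((hC ▸ hc : c ∈ centralizer (K : Set G)) u hu)⟩
  have h1 := Set.ncard_diff_add_ncard_of_subset (Set.image_mono (f := π) hCS)
  have h2 : p ∣ (π '' S \ π '' C).ncard := by
    apply dvd_ncard_of_conj (K.map π)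
    · rintro _ ⟨t, ht, rfl⟩ _ ⟨⟨x, hx, rfl⟩, hx'⟩
      refine ⟨⟨t * x * t⁻¹, ?_, by simp⟩, ?_⟩
      · rw [hS] at hx ⊢
        obtain ⟨k, hk⟩ := hx
        exact ⟨k, by rw [idx_conj, hk]⟩
      · rintro ⟨c, hc, e⟩
        exact hx' ⟨t⁻¹ * c * t⁻¹⁻¹, hCn.conj_mem c hc _, by simp [e, mul_assoc]⟩
    · rintro _ ⟨⟨x, hx, rfl⟩, hx'⟩
      obtain ⟨k, hk⟩ := (hS1 x).1 hx
      have h3 : (centralizer ({π x} : Set _)).relIndex (K.map π) ∣ p ^ k := by
        rw [← hk, ← relIndex_comap]
        apply relIndex_dvd_of_le_left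
        intro u hu
        rw [mem_comap, mem_centralizer_singleton_iff, ← map_mul, ← map_mul,
          mem_centralizer_singleton_iff.1 hu]
      obtain ⟨i, -, h4⟩ := (Nat.dvd_prime_pow hp.out).1 h3
      rw [h4]
      refine dvd_pow_self p ?_
      rintro rfl
      apply hx'
      refine ⟨x, ?_, rfl⟩
      have h5 := relIndex_eq_one.1 (h4.trans (pow_zero p))
      have h6 : ∀ u ∈ K, u * x * u⁻¹ * x⁻¹ ∈ D := by
        intro u hu
        rw [← hker, MonoidHom.mem_ker]
        have := mem_centralizer_singleton_iff.1 (h5 (mem_map_of_mem π hu))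
        simp [this]
      rw [hC]
      have h7 : K ≤ centralizer ({x} : Set G) := by
        rw [hK, H2.pResidual_le_iff]
        intro u hu
        have huK : u ∈ K := hK ▸ H2.mem_pResidual hu
        obtain ⟨hc, j, hj⟩ := h6 u huK
        have hcm : Commute (u * x * u⁻¹ * x⁻¹) u :=
          ((hC ▸ hc : _ ∈ centralizer (K : Set G)) u huK).symm
        have e1 : x * u * x⁻¹ = (u * x * u⁻¹ * x⁻¹)⁻¹ * u := by
          group
        have e2 : (u * x * u⁻¹ * x⁻¹)⁻¹ ^ orderOf u = 1 := by
          have : (x * u * x⁻¹) ^ orderOf u = 1 := by rw [conj_pow, pow_orderOf_eq_one]; group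
          rw [e1, hcm.inv_left.mul_pow, pow_orderOf_eq_one, mul_one] at this
          exact this
        rw [inv_pow, inv_eq_one] at e2
        have e3 : u * x * u⁻¹ * x⁻¹ = 1 := by
          rw [← orderOf_eq_one_iff]
          exact Nat.Coprime.eq_one_of_dvd (cop_of_pow hj hu) (orderOf_dvd_of_pow_eq_one e2)
        rw [mem_centralizer_singleton_iff]
        calc u * x = (u * x * u⁻¹ * x⁻¹) * (x * u) := by group
          _ = _ := by rw [e3, one_mul]
      intro u hu
      exact mem_centralizer_singleton_iff.1 (h7 hu)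
  intro h3
  have h4 : p ∣ (π '' C).ncard := (Nat.dvd_add_right h2).1 (h1 ▸ h3)
  have h5 : p ∣ D.relIndex C := by
    rw [← hker, relIndex_ker]
    exact h4
  obtain ⟨y, hy, hy', hk⟩ := exists_pelt_of_dvd D C hp.out h5
  exact hy' ⟨hy, hk⟩

theorem cnt {G : Type*} [Group G] [Finite G] (k : ℕ) :
    {x : G | (centralizer ({x} : Set G)).index = k}.ncard =
      Nat.card {C : ConjClasses G // Nat.card C.carrier = k} * k := by
  classical
  have h1 : ∀ x : G, Nat.card (ConjClasses.mk x).carrier = (centralizer ({x} : Set G)).index := by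
    intro x
    rw [← relIndex_top_right, ← ncard_cj, ← Nat.card_coe_set_eq]
    congr 2
    ext v
    rw [ConjClasses.mem_carrier_iff_mk_eq, ConjClasses.mk_eq_mk_iff_isConj, isConj_comm, isConj_iff]
    simp
  haveI := Fintype.ofFinite G
  haveI := Fintype.ofFinite {C : ConjClasses G // Nat.card C.carrier = k}
  let e : {x : G | (centralizer ({x} : Set G)).index = k} ≃
      Σ C : {C : ConjClasses G // Nat.card C.carrier = k}, C.1.carrier :=
    { toFun := fun x => ⟨⟨ConjClasses.mk x.1, (h1 x.1).trans x.2⟩, ⟨x.1, ConjClasses.mem_carrier_mk⟩⟩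
      invFun := fun z => ⟨z.2.1, by
        have := ConjClasses.mem_carrier_iff_mk_eq.1 z.2.2
        show (centralizer ({z.2.1} : Set G)).index = k
        rw [← h1, this]; exact z.1.2⟩
      left_inv := fun x => rfl
      right_inv := by
        rintro ⟨⟨C, hC⟩, x, hx⟩
        obtain rfl := ConjClasses.mem_carrier_iff_mk_eq.1 hx
        rfl }
  rw [← Nat.card_coe_set_eq, Nat.card_congr e, Nat.card_sigma,
    Finset.sum_congr rfl (fun C _ => C.2), Finset.sum_const, Finset.card_univ, smul_eq_mul,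
    Nat.card_eq_fintype_card]

theorem cnt2 {G H : Type*} [Group G] [Finite G] [Group H] [Finite H]
    (h : ∀ k, {x : G | (centralizer ({x} : Set G)).index = k}.ncard =
      {x : H | (centralizer ({x} : Set H)).index = k}.ncard) (T : Set ℕ) :
    {x : G | (centralizer ({x} : Set G)).index ∈ T}.ncard =
      {x : H | (centralizer ({x} : Set H)).index ∈ T}.ncard := by
  have e : ∀ k, {x : G // (centralizer ({x} : Set G)).index = k} ≃
      {x : H // (centralizer ({x} : Set H)).index = k} := fun k =>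
    (Finite.card_eq.1 (h k)).some
  let f : G ≃ H := Equiv.ofFiberEquiv e
  have hf : ∀ x, (centralizer ({f x} : Set H)).index = (centralizer ({x} : Set G)).index :=
    fun x => Equiv.ofFiberEquiv_map e x
  apply Set.ncard_congr (fun x _ => f x)
  · intro x hx; show _ ∈ T; rw [hf]; exact hx
  · intro x y _ _ e; exact f.injective e
  · intro y hy
    refine ⟨f.symm y, ?_, by simp⟩
    show _ ∈ T
    rw [← hf, Equiv.apply_symm_apply]; exact hy

/-- Let G and H be finite groups such that for every natural number k, G and H have the same number of conjugacy classes of size k. If H is nilpotent then G is nilpotent. -/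
theorem result {G H : Type*} [Group G] [Finite G] [Group H] [Finite H]
    (hH : Group.IsNilpotent H)
    (h : ∀ k : ℕ, Nat.card {C : ConjClasses G // Nat.card C.carrier = k} = Nat.card {C : ConjClasses H // Nat.card C.carrier = k}) :
    Group.IsNilpotent G := by
  have h1 := cnt2 (G := G) (H := H) (fun k => by rw [cnt, cnt, h])
  have hc : Nat.card G = Nat.card H := by simpa using h1 Set.univ
  refine (Group.isNilpotent_of_finite_tfae (G := G).out 0 3).2 ?_
  intro p hp P
  obtain ⟨D, hDn, hD, -, t, ht, hpt⟩ := key (G := G) p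
  obtain ⟨D', -, -, hD', t', ht', -⟩ := key (G := H) p
  obtain ⟨Q⟩ : Nonempty (Sylow p H) := inferInstance
  have hQ : (Q : Subgroup H) ≤ D' := by
    refine hD' Q Q.isPGroup' ?_
    rw [le_centralizer_iff, H2.pResidual_le_iff]
    intro g hg u hu
    obtain ⟨k, hk⟩ := Q.isPGroup' ⟨u, hu⟩
    exact H1.commute_of_isNilpotent_of_coprime (K := ⊤) inferInstance (mem_top _) (mem_top _)
      (cop_of_pow (congrArg Subtype.val hk) hg)
  have h2 := h1 {m | ∃ k, m = p ^ k}
  have h3 : Nat.card P ∣ t * Nat.card D := by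
    rw [← ht, P.card_eq_multiplicity, hc, ← Q.card_eq_multiplicity]
    refine (card_dvd_of_le hQ).trans ?_
    exact (Dvd.intro_left _ ht'.symm).trans (dvd_of_eq h2.symm)
  have h4 : Nat.card P ∣ Nat.card D := by
    refine Nat.Coprime.dvd_of_dvd_mul_left ?_ h3
    rw [P.card_eq_multiplicity]
    exact Nat.Coprime.pow_left _ ((Nat.Prime.coprime_iff_not_dvd hp.out).2 hpt)
  obtain ⟨R, hR⟩ := hD.exists_le_sylow
  have h5 : D = R := eq_of_le_of_card_ge hR (by
    rw [R.card_eq_multiplicity, ← P.card_eq_multiplicity]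
    exact Nat.le_of_dvd Nat.card_pos h4)
  have hRn : (R : Subgroup G).Normal := h5 ▸ hDn
  haveI := Sylow.unique_of_normal R hRn
  rw [Subsingleton.elim P R]; exact hRn

end Cfsg.Agent.S4139
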