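import Cfsg.Statements.S4145
import Cfsg.Agent.GS.Lem3

set_option autoImplicit false
open Cfsg

namespace Cfsg.Agent.S4145

open Cfsg.Agent.H1

/-- Let G be a finite group with a cyclic Sylow p-subgroup and H a normal subgroup such that p divides both the order of H and the index of H. Then H has a normal p-complement and G is p-solvable. -/
theorem result {G : Type*} [Group G] [Finite G] (p : ℕ) [Fact p.Prime]
    (P : Sylow p G) (hP : IsCyclic (P : Subgroup G)) (H : Subgroup G) [H.Normal] (h1 : p ∣ Nat.card H) (h2 : p ∣ H.index) :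
    Cfsg.HasNormalPComplement p H ∧ Cfsg.IsPSolvable p G := by
  open Subgroup Pointwise commutatorElement Cfsg.Agent.BG Cfsg.Agent.GS in
  open Cfsg.Agent.H2 hiding card_lt_of_lt card_lt_of_ne_top isMulCommutative_of_le isPGroup_zpowers_iff mem_of_pow_mem_of_coprime inf_eq_bot_of_cop exists_maxElem_ge Sec in
  open Cfsg.Agent.H8 (Op Opp Fit SN) in
  open Cfsg.Agent.L (FPF) in focus
    have hS := sylIn_top P
    generalize (P : Subgroup G) = S at hS hP
    have h3 : PNil p H := (pNil_of_comm_of_cent (hS.mono le_sup_right le_top) (comm_of_cyclic hP) fun y ⟨y1, y2⟩ hc => by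
      have y3 : y ∈ H := resOf_le_of_sup (le_norm_of_normal _ H) hS.pgrp le_sup_right le_rfl (mem_resOf y1 hc)
      refine le_cent_of_cyclic_of_lt hP hS.pgrp (zpowers_le.2 y2)
        (coprime_of_pgroup hS.pgrp (by rwa [Nat.card_zpowers])).symm (fun e => not_dvd_index_of_sylIn hS ?_ h2) (mem_zpowers y)
      exact e.ge.trans ((commutator_mono le_rfl (zpowers_le.2 y3)).trans (commutator_le_right S H))).mono le_sup_left
    refine ⟨hasNPC_iff.2 h3, ?_⟩
    have h4 := hS.inf_normal' (le_norm_of_normal ⊤ H) le_top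
    have h5 : S ≤ 𝒞 (S ⊓ H) := le_cent_of_comm (comm_of_cyclic hP) le_rfl inf_le_left
    have h6 : PNil p (𝒞 (S ⊓ H)) := pNil_of_comm_of_cent (hS.mono h5 le_top) (comm_of_cyclic hP) fun y ⟨y1, y2⟩ hc =>
      le_cent_of_cyclic_pgroup hP hS.pgrp (zpowers_le.2 y2) (coprime_of_pgroup hS.pgrp (by rwa [Nat.card_zpowers])).symm
        (ne_bot_mono (h4.ne_bot h1) (le_inf inf_le_left (le_cent_comm.1 (zpowers_le.2 y1)))) (mem_zpowers y)
    have h7 : (Opp p H).Normal := normal_iff_top_le.2 (H8.le_normalizer_Opp_of p (le_norm_of_normal _ _))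
    have : (Opp p H ⊔ 𝒞 (S ⊓ H)).Normal := normal_of_sup_le (h4.frattini_sup le_top (le_norm_of_normal _ _))
      (le_norm_of_le ((PNil_Opp_sup h3 h4).ge.trans (sup_le_sup_left (inf_le_left.trans h5) _)))
      (le_normalizer_sup (le_norm_of_normal _ _) (le_normalizer_centralizer inf_le_right))
    exact pSolv_of_normal_pNil (Opp p H ⊔ 𝒞 (S ⊓ H)) (pNil_sup (H8.Opp_coprime _ _) h6 (le_norm_of_normal _ _)) (H9.pSolv_of_card (Or.inr
      ((Nat.Prime.coprime_iff_not_dvd Fact.out).2 (not_dvd_index_of_sylIn hS (h5.trans le_sup_right))).symm))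

end Cfsg.Agent.S4145
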