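import Cfsg.Statements.S4153
import Cfsg.Agent.H8.Reg
import Cfsg.Agent.H1.Basic
import Cfsg.Agent.H2.Syl
import Cfsg.Agent.H2.PNil

set_option autoImplicit false
open Cfsg

namespace Cfsg.Agent.S4153

open Subgroup hiding commutator_def
open Function Cfsg.Agent.Hopf Cfsg.Agent.Reg
open scoped commutatorElement Pointwise

theorem ord_iff {G : Type*} [Group G] {p : ℕ} [hp : Fact p.Prime] {g : G} :
    (∃ k : ℕ, orderOf g = p ^ k) ↔ ∃ k : ℕ, g ^ p ^ k = 1 := by
  constructor
  · rintro ⟨k, hk⟩; exact ⟨k, hk ▸ pow_orderOf_eq_one g⟩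
  · rintro ⟨k, hk⟩
    obtain ⟨j, -, hj⟩ := (Nat.dvd_prime_pow hp.out).1 (orderOf_dvd_of_pow_eq_one hk)
    exact ⟨j, hj⟩

/-- Let G be a finite group, p a prime, N a normal subgroup, P a Sylow p-subgroup of G and P̄ a Sylow p-subgroup of G/N. Count the elements of p-power order, the identity included. Then (number of such elements of G/N)/#P̄ ≤ (number of such elements of G)/#P, stated as a cross-multiplied inequality, with equality when N is central. -/
theorem result {G : Type*} [Group G] [Finite G] (p : ℕ) [Fact p.Prime] (N : Subgroup G) [N.Normal]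
    (P : Sylow p G) (Pbar : Sylow p (G ⧸ N)) :
    Nat.card {g : (G ⧸ N) // ∃ k : ℕ, orderOf g = p ^ k} * Nat.card (P : Subgroup G) ≤ Nat.card {g : G // ∃ k : ℕ, orderOf g = p ^ k} * Nat.card (Pbar : Subgroup (G ⧸ N)) ∧
    (N ≤ Subgroup.center G → Nat.card {g : (G ⧸ N) // ∃ k : ℕ, orderOf g = p ^ k} * Nat.card (P : Subgroup G) = Nat.card {g : G // ∃ k : ℕ, orderOf g = p ^ k} * Nat.card (Pbar : Subgroup (G ⧸ N))) := by
  classical
  haveI := Fintype.ofFinite G
  haveI := Fintype.ofFinite (G ⧸ N)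
  let f := QuotientGroup.mk' N
  have hh : ∀ H : Subgroup G, (Finset.univ.filter fun g => g ∈ H).card = Nat.card H := by
    intro H
    rw [Nat.card_eq_fintype_card, Fintype.card_subtype]
  have hP : Nat.card (P : Subgroup G) =
      Nat.card ↥((P : Subgroup G) ⊓ N) * Nat.card (Pbar : Subgroup (G ⧸ N)) := by
    have h1 := (H2.sylIn_top P).map f
    rw [map_top_of_surjective _ (QuotientGroup.mk'_surjective N)] at h1
    rw [← h1.card_eq (H2.sylIn_top Pbar), H1.card_map_mk', inf_comm, H1.card_inf_mul_relIndex]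
  let A : Finset G := Finset.univ.filter fun g => ∃ k : ℕ, orderOf g = p ^ k
  let B : Finset (G ⧸ N) := Finset.univ.filter fun g => ∃ k : ℕ, orderOf g = p ^ k
  have hA : Nat.card {g : G // ∃ k : ℕ, orderOf g = p ^ k} = A.card := by
    rw [Nat.card_eq_fintype_card, Fintype.card_subtype]
  have hB : Nat.card {g : G ⧸ N // ∃ k : ℕ, orderOf g = p ^ k} = B.card := by
    rw [Nat.card_eq_fintype_card, Fintype.card_subtype]
  have hsum : A.card = ∑ b ∈ B, (A.filter fun a => f a = b).card := by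
    refine Finset.card_eq_sum_card_fiberwise fun a ha => ?_
    simp only [A, B, Finset.coe_filter, Finset.mem_univ, true_and, Set.mem_setOf_eq, ord_iff] at ha ⊢
    obtain ⟨k, hk⟩ := ha
    exact ⟨k, by rw [← map_pow, hk, map_one]⟩
  obtain ⟨c, hc⟩ : ∃ c, c = Nat.card ↥((P : Subgroup G) ⊓ N) := ⟨_, rfl⟩
  have hlift : ∀ b ∈ B, ∃ g : G, f g = b ∧ ∃ k, g ^ p ^ k = 1 := by
    intro b hb
    simp only [B, Finset.mem_filter, Finset.mem_univ, true_and, ord_iff] at hb
    obtain ⟨k, hk⟩ := hb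
    obtain ⟨g, rfl⟩ := QuotientGroup.mk'_surjective N b
    obtain ⟨n, h1, h2⟩ := H2.exists_lift_ppow (QuotientGroup.mk' N) g hk
    exact ⟨_, h1, h2⟩
  have hge : ∀ b ∈ B, c ≤ (A.filter fun a => f a = b).card := by
    intro b hb
    obtain ⟨g, rfl, hg⟩ := hlift b hb
    obtain ⟨S, hS, hgS⟩ := H2.exists_sylIn_ge (H := ⊤) (H2.isPGroup_zpowers_iff.2 hg) le_top
    have h1 := hS.inf_normal' (N := N) le_normalizer_of_normal le_top
    rw [hc, ← h1.card_eq (H2.sylow_inf_normal P N), ← hh]
    refine Finset.card_le_card_of_injOn (fun n => g * n) (fun n hn => ?_)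
      (fun a _ b _ e => mul_left_cancel e)
    simp only [A, Finset.coe_filter, Finset.mem_filter, Finset.mem_univ, true_and,
      Set.mem_setOf_eq] at hn ⊢
    refine ⟨H2.orderOf_eq_pow_of_mem hS.pgrp (mul_mem (hgS (mem_zpowers g)) hn.1), ?_⟩
    rw [map_mul, (QuotientGroup.eq_one_iff n).2 hn.2 |> (fun h : ((n : G) : G ⧸ N) = 1 => show f n = 1 from h), mul_one]
  have hle : N ≤ center G → ∀ b ∈ B, (A.filter fun a => f a = b).card ≤ c := by
    intro hN b hb
    obtain ⟨g, rfl, k, hg⟩ := hlift b hb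
    rw [hc, ← hh]
    refine Finset.card_le_card_of_injOn (fun n => g⁻¹ * n) (fun n hn => ?_)
      (fun a _ b _ e => mul_left_cancel e)
    simp only [A, Finset.coe_filter, Finset.mem_filter, Finset.mem_univ, true_and,
      Set.mem_setOf_eq, ord_iff] at hn ⊢
    obtain ⟨⟨j, hj⟩, hn⟩ := hn
    have h1 : g⁻¹ * n ∈ N := QuotientGroup.eq.1 hn.symm
    have h2 : Commute g⁻¹ n := by
      have := mem_center_iff.1 (hN h1) g
      have e : g * n = n * g := by
        calc g * n = g * (g * (g⁻¹ * n)) := by group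
          _ = g * (g⁻¹ * n * g) := by rw [this]
          _ = n * g := by group
      exact (show Commute g n from e).inv_left
    refine (H2.sylow_inf_normal P N).mem_of_mem_normalizer h1 (k := k + j) ?_ ?_
    · rw [h2.mul_pow, inv_pow, pow_add, pow_mul, hg, mul_comm (p ^ k), pow_mul, hj]; simp
    · refine H1.mem_normalizer_of_conj_mem fun x hx => ?_
      rw [← mem_center_iff.1 (hN h1) x, mul_inv_cancel_right]
      exact hx
  rw [hA, hB, hP, ← hc, ← mul_assoc]
  have h1 : B.card * c ≤ A.card := by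
    rw [hsum]
    simpa using Finset.card_nsmul_le_sum B _ c hge
  refine ⟨Nat.mul_le_mul_right _ h1, fun hN => ?_⟩
  have h2 : A.card ≤ B.card * c := by
    rw [hsum]
    simpa using Finset.sum_le_card_nsmul B _ c (hle hN)
  rw [le_antisymm h1 h2]

end Cfsg.Agent.S4153
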