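import Cfsg.Statements.S4154
import Cfsg.Agent.GS.Lem1

set_option autoImplicit false
open Cfsg

namespace Cfsg.Agent.S4154

open Cfsg.Agent.H1

/-- Let G be a finite group and α an automorphism of G such that every element of G is the product of an element fixed by α and an element of the form g⁻¹α(g). If N is a normal α-invariant subgroup, then the automorphism ᾱ induced on G/N has the same property, and every coset fixed by ᾱ contains an element fixed by α (so the fixed points of ᾱ are the images of the fixed points of α). -/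
theorem result {G : Type*} [Group G] [Finite G] (α : MulAut G)
    (hccp : ∀ x : G, ∃ c g : G, α c = c ∧ x = c * (g⁻¹ * α g))
    (N : Subgroup G) [N.Normal] (hN : ∀ n ∈ N, α n ∈ N) :
    (∀ x : G, ∃ c g : G, c⁻¹ * α c ∈ N ∧ x⁻¹ * (c * (g⁻¹ * α g)) ∈ N) ∧
    (∀ x : G, x⁻¹ * α x ∈ N → ∃ c : G, α c = c ∧ c⁻¹ * x ∈ N) := by
  open Subgroup Pointwise commutatorElement Cfsg.Agent.BG Cfsg.Agent.GS in
  open Cfsg.Agent.H2 hiding card_lt_of_lt card_lt_of_ne_top isMulCommutative_of_le isPGroup_zpowers_iff mem_of_pow_mem_of_coprime inf_eq_bot_of_cop exists_maxElem_ge Sec in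
  open Cfsg.Agent.H8 (Op Opp Fit SN) in
  open Cfsg.Agent.L (FPF) in focus
    refine ⟨fun x => ?_, fun x hx => ?_⟩
    · obtain ⟨c, g, h1, h2⟩ := hccp x
      exact ⟨c, g, by rw [h1, inv_mul_cancel]; exact one_mem _, by rw [← h2, inv_mul_cancel]; exact one_mem _⟩
    let β : G ⧸ N →* G ⧸ N := QuotientGroup.map N N α.toMonoidHom hN
    have hβ : ∀ g : G, β g = (α g : G) := fun g => rfl
    let C : Subgroup (G ⧸ N) := β.eqLocus (MonoidHom.id _)
    let f : C × ((G ⧸ N) ⧸ C) → G ⧸ N := fun z => z.1 * Quotient.liftOn' z.2 (fun g => g * (β g)⁻¹) fun a b h => by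
      have h1 : β (a⁻¹ * b) = a⁻¹ * b := QuotientGroup.leftRel_apply.1 h
      rw [map_mul, map_inv] at h1
      calc a * (β a)⁻¹ = a * ((β a)⁻¹ * β b) * (β b)⁻¹ := by group
        _ = b * (β b)⁻¹ := by rw [h1]; group
    have h1 : ∀ c g : G, (h : α c = c) → f (⟨c, show β c = c by rw [hβ, h]⟩, ((g⁻¹ : G) : G ⧸ N)) = (c * (g⁻¹ * α g) : G) :=
      fun c g h => by
        show (c : G ⧸ N) * (((g⁻¹ : G) : G ⧸ N) * (β (g⁻¹ : G))⁻¹) = _
        rw [hβ, map_inv]; simp
    have h2 : Function.Bijective f := (Nat.bijective_iff_surjective_and_card f).2 ⟨fun y => by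
      obtain ⟨y, rfl⟩ := QuotientGroup.mk_surjective y
      obtain ⟨c, g, h3, rfl⟩ := hccp y
      exact ⟨_, h1 c g h3⟩, by rw [Nat.card_prod, mul_comm]; exact (card_eq_card_quotient_mul_card_subgroup C).symm⟩
    obtain ⟨c, g, h3, h4⟩ := hccp x
    refine ⟨c, h3, QuotientGroup.eq.1 ?_⟩
    have h5 : f (⟨x, show β x = x from (QuotientGroup.eq.2 hx).symm⟩, (1 : G ⧸ N)) = x := by
      show (x : G ⧸ N) * (1 * (β 1)⁻¹) = _
      simp
    exact congrArg (fun z => (z.1 : G ⧸ N)) (h2.1 ((h1 c g h3).trans (by rw [h5, ← h4])))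

end Cfsg.Agent.S4154
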