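import Cfsg.Statements.S4155
import Cfsg.Agent.H9.TwoFr
import Cfsg.Agent.L.Frob2

set_option autoImplicit false
open Cfsg

namespace Cfsg.Agent.S4155

open Cfsg.Agent Cfsg.Agent.H9

/-- Let G be a finite group and N a proper non-trivial normal nilpotent subgroup whose order is not a prime power, such that for every x outside N all elements of the coset xN have the same order as x. Then N is the Fitting subgroup of G, and for every prime q every Sylow q-subgroup of G/N is cyclic or generalized quaternion. -/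
theorem result {G : Type*} [Group G] [Finite G] (N : Subgroup G) [N.Normal] (hN1 : N ≠ ⊥) (hN2 : N ≠ ⊤)
    (heq : ∀ x : G, x ∉ N → ∀ n ∈ N, orderOf (x * n) = orderOf x)
    (hnil : Group.IsNilpotent N) (hnpp : ¬ IsPrimePow (Nat.card N)) :
    N = Cfsg.fittingSubgroup G ∧
    ∀ (q : ℕ) [Fact q.Prime] (Q : Sylow q (G ⧸ N)), IsCyclic (Q : Subgroup (G ⧸ N)) ∨ ∃ n : ℕ, Nonempty ((Q : Subgroup (G ⧸ N)) ≃* QuaternionGroup (2 ^ n)) := by
  have hK : ∀ x ∉ N, ∀ n ∈ N, x * n = n * x → (orderOf x).Coprime (orderOf n) → n = 1 := by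
    intro x hx n hn hc hco
    have := heq x hx n hn
    rw [Commute.orderOf_mul_eq_mul_orderOf_of_coprime hc hco] at this
    exact orderOf_eq_one_iff.mp (Nat.eq_of_mul_eq_mul_left (orderOf_pos x) (this.trans (mul_one _).symm))
  have hS : ∀ q : ℕ, q.Prime → ∃ s : ℕ, s.Prime ∧ s ≠ q ∧ ∃ n ∈ N, orderOf n = s := by
    intro q hq
    by_contra h
    push Not at h
    have h1 := Nat.eq_prime_pow_of_unique_prime_dvd (n := Nat.card N) (p := q) Nat.card_pos.ne' fun {d} hd hdvd => by
      by_contra hne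
      obtain ⟨n, hn, ho⟩ := TF.exists_order_prime hd hdvd
      exact h d hd hne n hn ho
    apply hnpp
    refine (isPrimePow_nat_iff _).mpr ⟨q, _, hq, Nat.pos_of_ne_zero fun h0 => hN1 ?_, h1.symm⟩
    rw [h0, pow_zero] at h1
    exact Subgroup.card_eq_one.mp h1
  have hpo : ∀ {q : ℕ} {P : Subgroup G}, q.Prime → IsPGroup q P → ∀ x ∈ P, ∃ k, orderOf x = q ^ k := by
    intro q P hq hP x hx
    haveI := Fact.mk hq
    obtain ⟨k, hk⟩ := IsPGroup.iff_orderOf.mp hP ⟨x, hx⟩
    exact ⟨k, (Subgroup.orderOf_coe (⟨x, hx⟩ : P)).trans hk⟩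
  refine ⟨le_antisymm (L.le_fitting hnil) (L.le_of_forall_isPGroup_le fun p hp P hP hPp x hx => ?_), fun q hq Q0 => ?_⟩
  · by_contra hxN
    obtain ⟨s, hs, hsp, n, hn, ho⟩ := hS p hp
    obtain ⟨k, hk⟩ := hpo hp hPp x hx
    have hco : (orderOf x).Coprime (orderOf n) := by
      rw [hk, ho]; exact ((Nat.coprime_primes hp hs).mpr hsp.symm).pow_left k
    exact TF.ne_one_of_order hs ho (hK x hxN n hn
      (L.commute_of_isNilpotent_of_coprime (hP hx) (L.le_fitting hnil hn) hco) hco)
  · obtain ⟨Q, rfl⟩ := Sylow.mapSurjective_surjective (QuotientGroup.mk'_surjective N) q Q0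
    obtain ⟨s, hs, hsq, n, hn, ho⟩ := hS q hq.out
    have hcore : ∀ {r : ℕ}, r.Prime → ∀ x ∈ N, (∃ k, orderOf x = r ^ k) → x ∈ (pCore r N).map N.subtype := by
      rintro r hr x hx ⟨k, hk⟩
      haveI := Fact.mk hr
      refine ⟨⟨x, hx⟩, L.le_pCore_of_isNilpotent hr (P := Subgroup.zpowers ⟨x, hx⟩) ?_ (Subgroup.mem_zpowers _), rfl⟩
      exact IsPGroup.of_card (n := k) (by rw [Nat.card_zpowers, ← hk, ← Subgroup.orderOf_coe])
    let M : Subgroup G := (pCore q N).map N.subtype
    let K : Subgroup G := (pCore s N).map N.subtype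
    haveI : M.Normal := L.normal_map_subtype_of_char _
    haveI hKn : K.Normal := L.normal_map_subtype_of_char _
    have hMN : M ≤ N := Subgroup.map_subtype_le _
    have hKN : K ≤ N := Subgroup.map_subtype_le _
    let f := QuotientGroup.mk' M
    haveI : (K.map f).Normal := hKn.map f (QuotientGroup.mk'_surjective M)
    have hf : L.FPF (K.map f) ((Q : Subgroup G).map f) := by
      rintro _ ⟨x, hx, rfl⟩ hx1
      have hxN : x ∉ N := fun h => hx1 ((QuotientGroup.eq_one_iff x).mpr (hcore hq.out x h (hpo hq.out Q.isPGroup' x hx)))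
      refine L.map_inf_centralizer_eq_bot f (Subgroup.le_normalizer_of_normal (Subgroup.mem_top x)) ?_
      rw [eq_bot_iff]
      rintro k ⟨hk, hc⟩
      obtain ⟨a, ha⟩ := hpo hq.out Q.isPGroup' x hx
      obtain ⟨b, hb⟩ := hpo hs (L.pCoreMap_isPGroup s N) k hk
      exact hK x hxN k (hKN hk) (Subgroup.mem_centralizer_singleton_iff.mp hc).symm
        (by rw [ha, hb]; exact Nat.coprime_pow_primes _ _ hq.out hs hsq.symm)
    have hne : K.map f ≠ ⊥ := by
      intro h
      have h1 : f n ∈ K.map f := Subgroup.mem_map_of_mem f (hcore hs n hn ⟨1, by rw [ho, pow_one]⟩)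
      rw [h, Subgroup.mem_bot] at h1
      obtain ⟨a, ha⟩ := hpo hq.out (L.pCoreMap_isPGroup q N) n ((QuotientGroup.eq_one_iff n).mp h1)
      exact hsq ((Nat.prime_dvd_prime_iff_eq hs hq.out).mp (hs.dvd_of_dvd_pow (n := a) (by rw [← ha, ho])))
    have hker : (f.subgroupMap (Q : Subgroup G)).ker = ((QuotientGroup.mk' N).subgroupMap (Q : Subgroup G)).ker := by
      ext x
      simp only [MonoidHom.mem_ker, Subtype.ext_iff]
      exact ⟨fun h => (QuotientGroup.eq_one_iff x.1).mpr (hMN ((QuotientGroup.eq_one_iff x.1).mp h)),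
        fun h => (QuotientGroup.eq_one_iff x.1).mpr
          (hcore hq.out x.1 ((QuotientGroup.eq_one_iff x.1).mp h) (hpo hq.out Q.isPGroup' x.1 x.2))⟩
    let e : ((Q : Subgroup G).map f) ≃* ((Q : Subgroup G).map (QuotientGroup.mk' N)) :=
      (QuotientGroup.quotientKerEquivOfSurjective _ (MonoidHom.subgroupMap_surjective _ _)).symm.trans
        ((QuotientGroup.quotientMulEquivOfEq hker).trans
          (QuotientGroup.quotientKerEquivOfSurjective _ (MonoidHom.subgroupMap_surjective _ _)))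
    rcases hf.isCyclic_or_quaternion Subgroup.le_normalizer_of_normal hne (Q.isPGroup'.map f) with h | ⟨-, m, -, ⟨e'⟩⟩
    · exact .inl (isCyclic_of_surjective e e.surjective)
    · exact .inr ⟨m, ⟨e.symm.trans e'⟩⟩

end Cfsg.Agent.S4155
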