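import Cfsg.Statements.S4156


set_option autoImplicit false
open Cfsg

namespace Cfsg.Agent.S4156

open Subgroup Equiv
open scoped Pointwise commutatorElement

/-- Let n ≥ 5 and F a finite field. Then the projective special linear group PSL_n(F) contains a subgroup isomorphic to the alternating group of degree n + 1. -/
theorem result (n : ℕ) (hn : 5 ≤ n) (F : Type*) [Field F] [Finite F] :
    ∃ f : alternatingGroup (Fin (n + 1)) →* Matrix.ProjectiveSpecialLinearGroup (Fin n) F, Function.Injective f := by
  obtain ⟨n, rfl⟩ : ∃ m, n = m + 5 := ⟨n - 5, by omega⟩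
  have := alternatingGroup.isSimpleGroup (α := Fin (n + 5 + 1)) (by simp)
  let ρ : Perm (Fin (n + 5 + 1)) →* Module.End F (Fin (n + 5) → F) :=
    { toFun := fun s => { toFun := fun v i => (Fin.cons 0 v : _ → F) (s⁻¹ i.succ) - (Fin.cons 0 v : _ → F) (s⁻¹ 0)
                          map_add' := fun v w => funext fun i => by
                            rw [show (Fin.cons 0 (v + w) : _ → F) = Fin.cons 0 v + Fin.cons 0 w from funext fun j => j.cases (by simp) (by simp)]
                            simp only [Pi.add_apply]; ring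
                          map_smul' := fun c v => funext fun i => by
                            rw [show (Fin.cons 0 (c • v) : _ → F) = c • Fin.cons 0 v from funext fun j => j.cases (by simp) (by simp)]
                            simp [mul_sub] }
      map_one' := LinearMap.ext fun v => funext fun i => by simp
      map_mul' := fun s t => LinearMap.ext fun v => funext fun i => by
        have : ∀ w : Fin (n + 5 + 1) → F, (Fin.cons 0 fun i => w i.succ - w 0 : _ → F) = fun j => w j - w 0 :=
          fun w => funext fun j => j.cases (by simp) (by simp)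
        simp only [Module.End.mul_apply, LinearMap.coe_mk, AddHom.coe_mk, this fun j => (Fin.cons 0 v : _ → F) (t⁻¹ j), mul_inv_rev, Perm.mul_apply]
        ring }
  let μ : alternatingGroup (Fin (n + 5 + 1)) →* Matrix (Fin (n + 5)) (Fin (n + 5)) F :=
    ((LinearMap.toMatrixAlgEquiv' : _ ≃ₐ[F] _).toMonoidHom.comp ρ).comp (alternatingGroup _).subtype
  have pf : commutator (alternatingGroup (Fin (n + 5 + 1))) = ⊤ := commutator_alternatingGroup_eq_top (by simp)
  have ab : ∀ {M : Type _} [Group M] (f : alternatingGroup (Fin (n + 5 + 1)) →* M), (∀ x y, f x * f y = f y * f x) → ∀ x, f x = 1 :=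
    fun f h x => (pf ▸ commutator_le.2 fun x _ y _ => by
      rw [MonoidHom.mem_ker, map_commutatorElement, commutatorElement_eq_one_iff_mul_comm, h] : ⊤ ≤ f.ker) (mem_top x)
  let f : alternatingGroup (Fin (n + 5 + 1)) →* Matrix.SpecialLinearGroup (Fin (n + 5)) F :=
    { toFun := fun x => ⟨μ x, congrArg Units.val (ab (Matrix.detMonoidHom.comp μ).toHomUnits (fun _ _ => mul_comm _ _) x)⟩
      map_one' := Subtype.ext (map_one μ)
      map_mul' := fun x y => Subtype.ext (map_mul μ x y) }
  refine ⟨(QuotientGroup.mk' _).comp f, (MonoidHom.ker_eq_bot_iff _).1 ((MonoidHom.normal_ker _).eq_bot_or_eq_top.resolve_right fun a => ?_)⟩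
  obtain ⟨i, j, k, l, ij, kl, ik, il, jk, jl⟩ : ∃ i j k l : Fin (n + 5), i ≠ j ∧ k ≠ l ∧ i ≠ k ∧ i ≠ l ∧ j ≠ k ∧ j ≠ l :=
    ⟨⟨0, by omega⟩, ⟨1, by omega⟩, ⟨2, by omega⟩, ⟨3, by omega⟩, by simp⟩
  have b := ab f (fun x y => mem_center_iff.1 ((QuotientGroup.eq_one_iff (f y)).1 (a.ge (mem_top y))) _)
    ⟨swap i.succ j.succ * swap k.succ l.succ, by simp [Perm.mem_alternatingGroup, ij, kl]⟩
  have c : ρ (swap i.succ j.succ * swap k.succ l.succ) = 1 := LinearMap.toMatrixAlgEquiv'.injective ((congrArg Subtype.val b).trans (map_one _).symm)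
  have d := congrFun (DFunLike.congr_fun c (Pi.single i 1)) i
  simp [ρ, - Perm.coe_inv, mul_inv_rev, swap_apply_def, ij, ij.symm, jk, jl, (Fin.succ_ne_zero _).symm] at d

end Cfsg.Agent.S4156
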