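import Cfsg.Statements.S4160
import Cfsg.Agent.GS.Lem3

set_option autoImplicit false
open Cfsg

namespace Cfsg.Agent.S4160

open Cfsg.Agent.H1

/-- Let G be a finite group and p ≠ q primes each dividing the size of some conjugacy class of G, such that no conjugacy class size is divisible by pq. Then G has a normal p-complement or a normal q-complement. -/
theorem result {G : Type*} [Group G] [Finite G] (p q : ℕ) (hp : p.Prime) (hq : q.Prime) (hpq : p ≠ q)
    (hp' : ∃ x : G, p ∣ (Subgroup.centralizer ({x} : Set G)).index) (hq' : ∃ x : G, q ∣ (Subgroup.centralizer ({x} : Set G)).index) (h : ∀ x : G, ¬ p * q ∣ (Subgroup.centralizer ({x} : Set G)).index) :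
    Cfsg.HasNormalPComplement p G ∨ Cfsg.HasNormalPComplement q G := by
  open Subgroup Pointwise commutatorElement Cfsg.Agent.BG Cfsg.Agent.GS in
  open Cfsg.Agent.H2 hiding card_lt_of_lt card_lt_of_ne_top isMulCommutative_of_le isPGroup_zpowers_iff mem_of_pow_mem_of_coprime inf_eq_bot_of_cop exists_maxElem_ge Sec in
  open Cfsg.Agent.H8 (Op Opp Fit SN) in
  open Cfsg.Agent.L (FPF) in focus
    have := Fact.mk hp
    have := Fact.mk hq
    obtain ⟨P, hP⟩ := exists_sylIn p (⊤ : Subgroup G)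
    obtain ⟨Q, hQ⟩ := exists_sylIn q (⊤ : Subgroup G)
    by_contra! e
    have h1 : ∀ X : Subgroup G, ¬ ⊤ ⊓ 𝒩 X ≤ 𝒞 X → 2 * ({x | ∃ g, x ∈ g ⋆ 𝒞 X} \ {1}).ncard + 2 ≤ ♯G := fun X hX => by
      have a := ncard_cover_le (normalizer_le_normalizer_centralizer X)
      have b := two_mul_card_le_of_lt ((cent_le_norm X).lt_of_not_ge (by rwa [top_inf_eq] at hX))
      have c := (𝒩 X).index_mul_card
      have d := Nat.pos_of_ne_zero (index_ne_zero_of_finite (H := 𝒩 X))
      obtain ⟨k, hk⟩ := Nat.exists_eq_succ_of_ne_zero (Nat.card_pos (α := 𝒞 X)).ne'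
      rw [hk, Nat.succ_sub_one] at a
      rw [hk] at b
      nlinarith
    have h2 := h1 P fun c => e.1 (hasNPC_iff_top.2 (hP.pNil_of_normalizer_le c))
    have h3 := h1 Q fun c => e.2 (hasNPC_iff_top.2 (hQ.pNil_of_normalizer_le c))
    have h4 := ncard_sharp (⊤ : Subgroup G)
    have h5 := (Set.ncard_le_ncard (s := ((⊤ : Subgroup G) : Set G) \ {1}) fun x hx => by
      by_cases c : p ∣ (𝒞₁ x).index
      · obtain ⟨g, -, hg⟩ := exists_mem_cj_cent hQ (x := x) fun d => h x
          (((Nat.coprime_primes hp hq).2 hpq).mul_dvd_of_dvd_of_dvd c (by rwa [relIndex_top_right] at d))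
        exact Or.inr ⟨⟨g, hg⟩, hx.2⟩
      · obtain ⟨g, -, hg⟩ := exists_mem_cj_cent hP (x := x) (by rwa [relIndex_top_right])
        exact Or.inl ⟨⟨g, hg⟩, hx.2⟩).trans (Set.ncard_union_le ({x | ∃ g, x ∈ g ⋆ 𝒞 P} \ {1}) ({x | ∃ g, x ∈ g ⋆ 𝒞 Q} \ {1}))
    rw [card_top] at h4
    omega

end Cfsg.Agent.S4160
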