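import Cfsg.Statements.S4168
import Cfsg.Agent.GS.Lem1

set_option autoImplicit false
open Cfsg

namespace Cfsg.Agent.S4168

open Cfsg.Agent.H1

/-- Let L be a finite quasisimple group (perfect with L/Z(L) simple). Then every prime dividing the order of the centre Z(L) also divides the order of L/Z(L). -/
theorem result {L : Type*} [Group L] [Finite L] (hL : Cfsg.IsQuasisimple L)
    (p : ℕ) (hp : p.Prime) (hdiv : p ∣ Nat.card (Subgroup.center L)) : p ∣ (Subgroup.center L).index := by
  open Subgroup Pointwise commutatorElement Cfsg.Agent.BG Cfsg.Agent.GS in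
  open Cfsg.Agent.H2 hiding card_lt_of_lt card_lt_of_ne_top isMulCommutative_of_le isPGroup_zpowers_iff mem_of_pow_mem_of_coprime inf_eq_bot_of_cop exists_maxElem_ge Sec in
  open Cfsg.Agent.H8 (Op Opp Fit SN) in
  open Cfsg.Agent.L (FPF) in focus
    refine (prime_dvd_index_frattini hp (hdiv.trans (card_subgroup_dvd_card _))).trans (index_dvd_of_le ?_)
    refine le_frattini_of_forall_sup fun K hK => top_le_iff.1 ?_
    have : K.Normal := normal_of_sup_le hK le_normalizer (le_normalizer_of_le_centralizer (center_le_cent K))
    exact hL.1.commutator_eq_top ▸ H8.commutator_le_of_sup_center hK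

end Cfsg.Agent.S4168
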