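import Cfsg.Statements.S4169
import Cfsg.Agent.H8.Mann

set_option autoImplicit false
open Cfsg

namespace Cfsg.Agent.S4169

open Subgroup hiding commutator_def upperCentralSeries
open Function Cfsg.Agent.Hopf Cfsg.Agent.Reg
open scoped commutatorElement Pointwise


/-- Let P be a finite p-group whose conjugacy classes have exactly two sizes (1 and one other value). Then P has nilpotency class at most 3. -/
theorem result {P : Type*} [Group P] [Finite P] {p : ℕ} [Fact p.Prime] (hP : IsPGroup p P)
    (m : ℕ) (hm : 1 < m) (h : ∀ x : P, (Subgroup.centralizer ({x} : Set P)).index = 1 ∨ (Subgroup.centralizer ({x} : Set P)).index = m) :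
    upperCentralSeries P 3 = ⊤ := by
  haveI := hP.isNilpotent
  obtain ⟨A, hAn, hA, -, hCA⟩ := Cfsg.Agent.L.exists_scn_ge (⊥ : Subgroup P)
  have hab : ∀ a ∈ A, ∀ b ∈ A, a * b = b * a := fun a ha b hb =>
    congrArg Subtype.val (hA.is_comm.comm ⟨a, ha⟩ ⟨b, hb⟩)
  have h' : ∀ x ∈ (⊤ : Subgroup P), ∀ a ∈ A, a * x * a⁻¹ * x⁻¹ ∈ center P := fun x _ a ha =>
    mann_cen A hab m (fun x hx => by rcases h x with h | h <;> omega) x (h x) a ha
  show Subgroup.upperCentralSeries P 3 = ⊤
  rw [eq_top_iff]
  intro x _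
  rw [Subgroup.mem_upperCentralSeries_succ_iff]
  intro y
  rw [Subgroup.mem_upperCentralSeries_succ_iff]
  intro z
  rw [Subgroup.upperCentralSeries_one]
  exact cls3 A hCA.le _ h' (mem_top x) (mem_top y) (mem_top z)

end Cfsg.Agent.S4169
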