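import Cfsg.Statements.S4176
import Mathlib
import Cfsg.Agent.H2.HHG
import Cfsg.Agent.H1.Carter
import Cfsg.Agent.H1.Products

set_option autoImplicit false
open Cfsg

namespace Cfsg.Agent.S4176

open Cfsg.Agent.H2 Cfsg.Agent.BG Subgroup Module QuotientGroup

universe u v w

theorem card_orb {k V H : Type*} [Field k] [AddCommGroup V] [Module k V] [Group H] (ρ : Representation k H V) (a : V) :
    Nat.card {u : V | ∃ h : H, ρ h a = u} = (stabV ρ a).index := by
  letI : MulAction H V := { smul := fun h v => ρ h v, one_smul := fun v => by show ρ 1 v = v; simp,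
                            mul_smul := fun g h v => rep_mul_apply ρ g h v }
  exact (Nat.card_congr (MulAction.orbitEquivQuotientStabilizer H a) :)

theorem pr_apply_rep {k V H : Type*} [Field k] [AddCommGroup V] [Module k V] [Group H] [Finite H]
    (ρ : Representation k H V) (N : Subgroup H) {g : H} (hg : g ∈ 𝒩 N) (v : V) :
    pr ρ N 1 (ρ g v) = ρ g (pr ρ N 1 v) := by
  have := pr_conj ρ ⟨g, hg⟩ 1 v
  rwa [cjw_triv] at this

theorem fix_of_coprime {k V H : Type*} [Field k] [AddCommGroup V] [Module k V] [Group H] [Finite H]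
    {ρ : Representation k H V} {a b : V} (hs : Submodule.span k {u : V | ∃ h : H, ρ h a = u} = ⊤) {N : Subgroup H}
    [N.Normal] (hN : (♯N : k) ≠ 0) (hc : (stabV ρ a).index.Coprime (stabV ρ b).index) : b ∈ fixS ρ N := by
  letI := Fintype.ofFinite N
  have h0 := natCast_ne_zero_of_dvd (card_dvd_of_le (inf_le_right : stabV ρ b ⊓ N ≤ N)) hN
  have h1 : ∀ n ∈ N, ∀ v, pr ρ (stabV ρ b ⊓ N) 1 (ρ n v) = pr ρ (stabV ρ b ⊓ N) 1 v := fun n hn v => by
    refine LinearMap.eqOn_span' (f := pr ρ (stabV ρ b ⊓ N) 1 ∘ₗ ρ n) ?_ (hs.ge (Submodule.mem_top (x := v)))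
    rintro _ ⟨h, rfl⟩
    have h2 : (stabV ρ (ρ h a)).index = (stabV ρ a).index := by
      rw [← card_orb, ← card_orb]
      congr 2
      ext u
      exact ⟨fun ⟨g, hg⟩ => ⟨g * h, by rwa [rep_mul_apply]⟩,
        fun ⟨g, hg⟩ => ⟨g * h⁻¹, by rwa [rep_mul_apply, rep_inv_apply]⟩⟩
    obtain ⟨x, hx, y, hy, rfl⟩ := H1.forall_mul_of_coprime_relIndex (H := stabV ρ b ⊓ N) (K := stabV ρ (ρ h a) ⊓ N)
      inf_le_right inf_le_right (by
        rw [inf_relIndex_right, inf_relIndex_right]
        exact ((h2 ▸ hc.symm).coprime_dvd_left (H1.relIndex_dvd_index_of_normal_right _ N)).coprime_dvd_right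
          (H1.relIndex_dvd_index_of_normal_right _ N)) n hn
    rw [LinearMap.comp_apply, rep_mul_apply, show ρ y (ρ h a) = ρ h a from hy.1, pr_apply_rep ρ _ (le_normalizer hx)]
    exact (wt_one ρ _).le (pr_mem_wt ρ _ 1 _) x hx
  have h2 := (wt_one ρ N).le (pr_mem_wt ρ N 1 b)
  have h3 := pr_of_mem (ρ := ρ) (μ := 1) h0 ((wt_one ρ _).ge (fixS_anti ρ inf_le_right h2))
  rw [pr_apply ρ N, map_smul, map_sum, Finset.sum_congr rfl (g := fun _ => b) fun n _ => by
    rw [map_smul, h1 n n.2, pr_of_mem h0 ((wt_one ρ _).ge (mem_fixS_iff_le.2 inf_le_left))]; simp,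
    Finset.sum_const, Finset.card_univ, ← Nat.card_eq_fintype_card, ← Nat.cast_smul_eq_nsmul k, smul_smul,
    inv_mul_cancel₀ hN, one_smul, ← pr_apply] at h3
  rwa [h3]

theorem main {k : Type w} [Field k] (p : ℕ) [hp : Fact p.Prime] [CharP k p] (n : ℕ) : ∀ (H : Type u) [Group H] [Finite H]
    (V : Type v) [AddCommGroup V] [Module k V] (ρ : Representation k H V) (a : V), ♯H = n → IsPSolvable p H →
    (∃ P : Sylow p H, (P : Subgroup H) ≤ stabV ρ a) → Submodule.span k {u : V | ∃ h : H, ρ h a = u} = ⊤ →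
    finrank k ρ.invariants ≤ 1 ∧ ∀ b, (stabV ρ a).index.Coprime (stabV ρ b).index → ∀ h, ρ h b = b := by
  induction n using Nat.strong_induction_on with
  | _ n ih =>
  intro H _ _ V _ _ ρ a hn hs ⟨P, hP⟩ hspan
  rcases subsingleton_or_nontrivial H with h0 | h0
  · refine ⟨finrank_le_one ⟨a, fun g => by simp [Subsingleton.elim g 1]⟩ fun w => ?_,
      fun b _ h => by simp [Subsingleton.elim h 1]⟩
    obtain ⟨c, hc⟩ := Submodule.mem_span_singleton.1 (Submodule.span_mono (t := {a})
      (by rintro _ ⟨h, rfl⟩; simp [Subsingleton.elim h 1]) (hspan.ge (Submodule.mem_top (x := w.1))))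
    exact ⟨c, Subtype.ext hc⟩
  obtain ⟨N, _, h1, e, h2, h3, h4, h5⟩ : ∃ (N : Subgroup H) (_ : N.Normal), N ≠ ⊥ ∧ ∃ e : V →ₗ[k] V,
      (∀ g v, e (ρ g v) = ρ g (e v)) ∧ (∀ v, e v ∈ fixS ρ N) ∧ (∀ v ∈ fixS ρ N, e v = v) ∧
      ∀ b, (stabV ρ a).index.Coprime (stabV ρ b).index → b ∈ fixS ρ N := by
    by_cases h1 : pCore p H = ⊥
    · have h2 : (♯(pPrimeCore p H) : k) ≠ 0 := natCast_card_ne_zero (by rw [← H8.Opp_top]; exact H8.Opp_coprime p _)
      refine ⟨pPrimeCore p H, inferInstance, fun e => ?_, pr ρ _ 1,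
        fun g => pr_apply_rep ρ _ (le_normalizer_of_normal (mem_top g)), fun v => (wt_one ρ _).le (pr_mem_wt ρ _ 1 v),
        fun v hv => pr_of_mem h2 ((wt_one ρ _).ge hv), fun b => fix_of_coprime hspan h2⟩
      have := FM.centralizer_pPrimeCore_le hs h1
      rw [e, centralizer_bot_eq] at this
      exact bot_ne_top (le_antisymm le_top this)
    · have h2 : ∀ v, v ∈ fixS ρ (pCore p H) := fun v => (Submodule.span_le.2 (by
        rintro _ ⟨h, rfl⟩
        exact rep_mem_fixS (le_normalizer_of_normal (mem_top h))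
          (mem_fixS_iff_le.2 ((H1.pCore_le_sylow P).trans hP))) : _ ≤ fixS ρ _) (hspan.ge Submodule.mem_top)
      exact ⟨_, inferInstance, h1, LinearMap.id, fun _ _ => rfl, h2, fun _ _ => rfl, fun b _ => h2 b⟩
  let σ : Representation k (H ⧸ N) (fixS ρ N) := QuotientGroup.lift N (ρ.subrepresentation _ fun g v hv =>
    rep_mem_fixS (le_normalizer_of_normal (mem_top g)) hv) fun g hg => LinearMap.ext fun v => Subtype.ext (v.2 g hg)
  have h6 : ∀ v, (stabV σ ⟨e v, h3 v⟩).index ∣ (stabV ρ v).index := fun v =>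
    (index_dvd_of_le (by
      rintro _ ⟨g, hg, rfl⟩
      exact Subtype.ext ((h2 g v).symm.trans (congrArg e hg)))).trans (index_map_dvd _ (mk'_surjective N))
  obtain ⟨k1, k2⟩ := ih _ (hn ▸ H1.card_quotient_lt h1) (H ⧸ N) _ σ ⟨e a, h3 a⟩ rfl (H9.pSolv_map _ (mk'_surjective N) hs)
    ⟨P.mapSurjective (mk'_surjective N), by
      rintro _ ⟨g, hg, rfl⟩
      exact Subtype.ext ((h2 g a).symm.trans (congrArg e (hP hg)))⟩ (eq_top_iff.2 fun v _ => by
      have := Submodule.mem_map_of_mem (f := e.codRestrict _ h3) (hspan.ge (Submodule.mem_top (x := v.1)))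
      rw [Submodule.map_span, show e.codRestrict _ h3 v = v from Subtype.ext (h4 v v.2)] at this
      refine Submodule.span_mono ?_ this
      rintro _ ⟨_, ⟨g, rfl⟩, rfl⟩
      exact ⟨g, Subtype.ext (h2 g a).symm⟩)
  refine ⟨le_trans (le_of_eq (LinearEquiv.finrank_eq ?_)) k1, fun b hb g => ?_⟩
  · exact
      { toFun := fun v => ⟨⟨v, fun g _ => v.2 g⟩, fun g => by
          obtain ⟨g, rfl⟩ := mk_surjective g
          exact Subtype.ext (v.2 g)⟩
        invFun := fun v => ⟨v.1, fun g => congrArg Subtype.val (v.2 g)⟩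
        map_add' := fun _ _ => rfl, map_smul' := fun _ _ => rfl, left_inv := fun _ => rfl, right_inv := fun _ => rfl }
  · have := congrArg Subtype.val (k2 ⟨e b, h3 b⟩ ((hb.coprime_dvd_left (h6 a)).coprime_dvd_right (h6 b)) g)
    rwa [← h4 b (h5 b hb)]

/-- Let k be a field of prime characteristic p, H a finite p-soluble group and ρ a k-linear representation of H on V. Let a be a vector that is fixed by some Sylow p-subgroup of H and whose H-orbit spans V. Then the space of H-fixed vectors has dimension at most 1, and every vector b whose H-orbit has size coprime to the size of the orbit of a is fixed by H. -/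
theorem result {k V H : Type*} [Field k] (p : ℕ) [Fact p.Prime] [CharP k p] [AddCommGroup V] [Module k V]
    [Group H] [Finite H] (hsol : Cfsg.IsPSolvable p H) (ρ : Representation k H V) (a : V)
    (hfix : ∃ P : Sylow p H, ∀ x : H, x ∈ (P : Subgroup H) → ρ x a = a)
    (hspan : Submodule.span k {u : V | ∃ h : H, ρ h a = u} = ⊤) :
    Module.finrank k ρ.invariants ≤ 1 ∧
    ∀ b : V, (Nat.card {u : V | ∃ h : H, ρ h a = u}).Coprime (Nat.card {u : V | ∃ h : H, ρ h b = u}) → ∀ h : H, ρ h b = b := by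
  simp only [card_orb]
  exact main p _ H V ρ a rfl hsol hfix hspan

end Cfsg.Agent.S4176
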