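import Cfsg.Statements.S4177
import Cfsg.Agent.GS.Lem1

set_option autoImplicit false
open Cfsg

namespace Cfsg.Agent.S4177

open Cfsg.Agent.H1

section
open Subgroup Pointwise commutatorElement Cfsg.Agent.BG Cfsg.Agent.GS
open Cfsg.Agent.H2 hiding card_lt_of_lt card_lt_of_ne_top isMulCommutative_of_le isPGroup_zpowers_iff mem_of_pow_mem_of_coprime inf_eq_bot_of_cop exists_maxElem_ge Sec
open Cfsg.Agent.H8 (Op Opp Fit SN)
open Cfsg.Agent.L (FPF)
universe u

theorem aux {k V H : Type*} [Field k] [AddCommGroup V] [Module k V] [Group H] [Fintype H]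
    (hchar : ¬ ringChar k ∣ Nat.card H) (ρ : Representation k H V) (a : V)
    (hspan : Submodule.span k {u : V | ∃ h : H, ρ h a = u} = ⊤) (B : Subgroup H)
    (hB : ∀ h, ∃ b ∈ B, ρ h a = ρ b a) (v : V) (hv : ∀ b ∈ B, ρ b v = v) :
    v ∈ Submodule.span k {∑ h : H, ρ h a} := by
  have := Fintype.ofFinite B
  have h1 : ((Fintype.card H : ℕ) : k) ≠ 0 := fun e => hchar (by rwa [Nat.card_eq_fintype_card, ← ringChar.spec])
  have h2 : ((Fintype.card B : ℕ) : k) ≠ 0 := fun e => hchar
    (((ringChar.spec k _).1 e).trans (Nat.card_eq_fintype_card (α := B) ▸ card_subgroup_dvd_card B))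
  let E : V →ₗ[k] V := ∑ b : B, ρ b
  have e1 : ∀ v, E v = ∑ b : B, ρ b v := fun v => by simp [E]
  have e2 : ∀ v, (∀ b ∈ B, ρ b v = v) → E v = (Fintype.card B : k) • v := fun v hv => by
    rw [e1, Finset.sum_congr rfl fun (b : B) _ => hv b b.2]; simp [Nat.cast_smul_eq_nsmul]
  have e3 : ∀ h, E (ρ h a) = E a := fun h => by
    obtain ⟨b, hb, e⟩ := hB h
    rw [e, e1, e1]
    exact Fintype.sum_equiv (Equiv.mulRight (⟨b, hb⟩ : B)) _ _ fun c => by simp
  have e4 : (Fintype.card H : k) • E a = (Fintype.card B : k) • ∑ h : H, ρ h a := by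
    rw [← e2 _ fun b _ => by
      rw [map_sum]; exact Fintype.sum_equiv (Equiv.mulLeft b) _ _ fun c => by simp]
    simp [map_sum, e3, Nat.cast_smul_eq_nsmul]
  have e5 : E v ∈ Submodule.span k {∑ h : H, ρ h a} := by
    have : Submodule.span k {u : V | ∃ h : H, ρ h a = u} ≤ (Submodule.span k {∑ h : H, ρ h a}).comap E :=
      Submodule.span_le.2 fun u ⟨h, hu⟩ => by
        rw [SetLike.mem_coe, Submodule.mem_comap, ← hu, e3, ← Submodule.smul_mem_iff _ h1, e4]
        exact Submodule.smul_mem _ _ (Submodule.mem_span_singleton_self _)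
    exact this (hspan ▸ Submodule.mem_top)
  rwa [e2 v hv, Submodule.smul_mem_iff _ h2] at e5

end

/-- Let k be a field whose characteristic does not divide the order of the finite group H (for instance a field of characteristic zero), and ρ a k-linear representation of H on V. Let a be a vector whose H-orbit spans V. Then the space of H-fixed vectors has dimension at most 1, and every vector b whose H-orbit has size coprime to the size of the orbit of a is fixed by H. -/
theorem result {k V H : Type*} [Field k] [AddCommGroup V] [Module k V] [Group H] [Finite H]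
    (hchar : ¬ ringChar k ∣ Nat.card H) (ρ : Representation k H V) (a : V)
    (hspan : Submodule.span k {u : V | ∃ h : H, ρ h a = u} = ⊤) :
    Module.finrank k ρ.invariants ≤ 1 ∧
    ∀ b : V, (Nat.card {u : V | ∃ h : H, ρ h a = u}).Coprime (Nat.card {u : V | ∃ h : H, ρ h b = u}) → ∀ h : H, ρ h b = b := by
  open Subgroup Pointwise commutatorElement Cfsg.Agent.BG Cfsg.Agent.GS in
  open Cfsg.Agent.H2 hiding card_lt_of_lt card_lt_of_ne_top isMulCommutative_of_le isPGroup_zpowers_iff mem_of_pow_mem_of_coprime inf_eq_bot_of_cop exists_maxElem_ge Sec in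
  open Cfsg.Agent.H8 (Op Opp Fit SN) in
  open Cfsg.Agent.L (FPF) in focus
    have := Fintype.ofFinite H
    refine ⟨(Submodule.finrank_mono (s := ρ.invariants) (t := Submodule.span k {∑ h : H, ρ h a}) fun v hv =>
      aux hchar ρ a hspan ⊤ (fun h => ⟨h, mem_top h, rfl⟩) v fun b _ => hv b).trans ((finrank_span_le_card _).trans (by simp)),
      fun b hb h => ?_⟩
    letI : MulAction H V := MulAction.compHom V (ρ : H →* Module.End k V)
    have h1 : ∀ v : V, (MulAction.stabilizer H v).index = Nat.card {u : V | ∃ h : H, ρ h v = u} :=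
      fun v => MulAction.index_stabilizer H v
    rw [← h1, ← h1] at hb
    obtain ⟨c, hc⟩ := Submodule.mem_span_singleton.1 (aux hchar ρ a hspan (MulAction.stabilizer H b) (fun g => by
      obtain ⟨x, hx, y, hy, rfl⟩ := forall_mul_of_coprime_index hb.symm g
      exact ⟨x, hx, by rw [map_mul, Module.End.mul_apply, show ρ y a = a from hy]⟩) b fun _ e => e)
    rw [← hc, map_smul, map_sum]
    congr 1
    exact Fintype.sum_equiv (Equiv.mulLeft h) _ _ fun c => by simp

end Cfsg.Agent.S4177
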