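import Cfsg.Statements.S4178
import Cfsg.Agent.H9.TJ

set_option autoImplicit false
open Cfsg

namespace Cfsg.Agent.S4178

open Cfsg.Agent Cfsg.Agent.H9
theorem idx_le {H X : Type*} [Group H] [MulAction H X] [Finite X] (R : Subgroup H) (S : Set X) (x : X)
    (h1 : ∀ h : H, h • x ∈ S) (h2 : ∀ h : H, h • x = x → h ∈ R) : R.index ≤ Nat.card S := by
  have e := MulAction.index_stabilizer H x
  have h3 : (MulAction.orbit H x).ncard ≤ S.ncard := Set.ncard_le_ncard (by rintro _ ⟨h, rfl⟩; exact h1 h)
  rw [Nat.card_coe_set_eq]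
  refine le_trans (Nat.le_of_dvd ?_ (Subgroup.index_dvd_of_le (show MulAction.stabilizer H x ≤ R from h2))) (e ▸ h3)
  rw [e]
  exact (Set.ncard_pos).mpr (MulAction.nonempty_orbit x)

theorem card_ne {X : Type*} [Zero X] [Finite X] : Nat.card {x : X | x ≠ 0} = Nat.card X - 1 := by
  rw [Nat.card_coe_set_eq, show {x : X | x ≠ 0} = Set.univ \ {0} by ext; simp, Set.ncard_diff_singleton_of_mem (Set.mem_univ _),
    Set.ncard_univ]

/-- Let F be a finite field with q elements, V a non-zero finite-dimensional F-space of dimension d, H a group of invertible linear maps of V, and R the subgroup of H generated by the elements of H that fix some non-zero vector (have eigenvalue 1). Then the index of R in H is at most q^d − 1; and if H leaves invariant some proper non-zero subspace, the index is at most q^(d/2) − 1. -/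
theorem result {F V : Type*} [Field F] [Fintype F] [AddCommGroup V] [Module F V] [FiniteDimensional F V] [Nontrivial V]
    (H : Subgroup (V ≃ₗ[F] V)) :
    (Subgroup.closure {h : ↥H | ∃ v : V, v ≠ 0 ∧ (h : V ≃ₗ[F] V) v = v}).index ≤ Fintype.card F ^ Module.finrank F V - 1 ∧
    ((∃ W : Submodule F V, W ≠ ⊥ ∧ W ≠ ⊤ ∧ ∀ h ∈ H, ∀ w ∈ W, h w ∈ W) →
      ((Subgroup.closure {h : ↥H | ∃ v : V, v ≠ 0 ∧ (h : V ≃ₗ[F] V) v = v}).index : ℝ) ≤ Real.sqrt ((Fintype.card F : ℝ) ^ Module.finrank F V) - 1) := by
  haveI : Finite V := Module.finite_of_finite F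
  set R := Subgroup.closure {h : ↥H | ∃ v : V, v ≠ 0 ∧ (h : V ≃ₗ[F] V) v = v} with hR
  constructor
  · obtain ⟨v, hv⟩ := exists_ne (0 : V)
    have := idx_le R {x : V | x ≠ 0} v (fun h => (map_ne_zero_iff _ h.1.injective).mpr hv)
      fun h hh => Subgroup.subset_closure ⟨v, hv, hh⟩
    rwa [card_ne, Module.natCard_eq_pow_finrank (K := F), Nat.card_eq_fintype_card] at this
  rintro ⟨W, h1, h2, h3⟩
  have a1 : R.index + 1 ≤ Nat.card W := by
    obtain ⟨v, hv, hv0⟩ := Submodule.exists_mem_ne_zero_of_ne_bot h1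
    have := idx_le R (Subtype.val '' {x : W | x ≠ 0}) v
      (fun h => ⟨⟨_, h3 h.1 h.2 v hv⟩, fun e => (map_ne_zero_iff _ h.1.injective).mpr hv0 (congrArg Subtype.val e), rfl⟩)
      fun h hh => Subgroup.subset_closure ⟨v, hv0, hh⟩
    rw [Nat.card_image_of_injective Subtype.val_injective, card_ne] at this
    have := Nat.card_pos (α := W)
    omega
  haveI : Finite (V ⧸ W) := Finite.of_surjective _ W.mkQ_surjective
  have a2 : R.index + 1 ≤ Nat.card (V ⧸ W) := by
    letI : MulAction H (V ⧸ W) :=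
      { smul := fun h x => W.mapQ W (h.1 : V →ₗ[F] V) (fun w hw => h3 h.1 h.2 w hw) x
        one_smul := fun x => by obtain ⟨v, rfl⟩ := W.mkQ_surjective x; rfl
        mul_smul := fun a b x => by obtain ⟨v, rfl⟩ := W.mkQ_surjective x; rfl }
    have hs : ∀ (h : H) (v : V), h • W.mkQ v = W.mkQ (h.1 v) := fun _ _ => rfl
    obtain ⟨v, hv⟩ : ∃ v, v ∉ W := by
      by_contra h
      push Not at h
      exact h2 (Submodule.eq_top_iff'.mpr h)
    have := idx_le R {x : V ⧸ W | x ≠ 0} (W.mkQ v) (fun h e => hv (by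
        rw [hs, Submodule.mkQ_apply, Submodule.Quotient.mk_eq_zero] at e
        simpa using h3 _ (H.inv_mem h.2) _ e))
      fun h hh => Subgroup.subset_closure (by
        rw [hs, Submodule.mkQ_apply, Submodule.mkQ_apply, Submodule.Quotient.eq] at hh
        by_contra hn
        let f : V →ₗ[F] V := (h.1 : V →ₗ[F] V) - LinearMap.id
        have hf : Function.Injective f := (injective_iff_map_eq_zero f).mpr fun x hx => by
          by_contra hx0
          exact hn ⟨x, hx0, sub_eq_zero.mp hx⟩
        let g : W →ₗ[F] W := f.restrict fun w hw => W.sub_mem (h3 h.1 h.2 w hw) hw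
        have hg : Function.Injective g := fun a b e => Subtype.ext (hf (congrArg Subtype.val e))
        obtain ⟨w, hw⟩ := Finite.surjective_of_injective hg ⟨_, hh⟩
        exact hv (hf (a₁ := w.1) (a₂ := v) (congrArg Subtype.val hw) ▸ w.2))
    rw [card_ne] at this
    have := Nat.card_pos (α := V ⧸ W)
    omega
  have a3 : (R.index + 1) ^ 2 ≤ Fintype.card F ^ Module.finrank F V := by
    rw [← Nat.card_eq_fintype_card, ← Module.natCard_eq_pow_finrank, Submodule.card_eq_card_quotient_mul_card W, pow_two]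
    exact Nat.mul_le_mul a1 a2
  rw [le_sub_iff_add_le]
  exact Real.le_sqrt_of_sq_le (by exact_mod_cast a3)

end Cfsg.Agent.S4178
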