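import Cfsg.Statements.S4186
import Cfsg.Agent.GS.Lem1

set_option autoImplicit false
open Cfsg

namespace Cfsg.Agent.S4186

open Cfsg.Agent.H1

/-- Let T and X be subgroups of a group with T a finite 2-group normalizing X but not centralizing it. Then some element of T inverts some non-identity element of X under conjugation. -/
theorem result {G : Type*} [Group G] (T X : Subgroup G) [Finite ↥T] (hT : IsPGroup 2 ↥T) (hTN : T ≤ Subgroup.normalizer (X : Set G)) (hTC : ¬ T ≤ Subgroup.centralizer (X : Set G)) : ∃ t ∈ T, ∃ x ∈ X, x ≠ 1 ∧ t * x * t⁻¹ = x⁻¹ := by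
  open Subgroup Pointwise commutatorElement Cfsg.Agent.BG Cfsg.Agent.GS in
  open Cfsg.Agent.H2 hiding card_lt_of_lt card_lt_of_ne_top isMulCommutative_of_le isPGroup_zpowers_iff mem_of_pow_mem_of_coprime inf_eq_bot_of_cop exists_maxElem_ge Sec in
  open Cfsg.Agent.H8 (Op Opp Fit SN) in
  open Cfsg.Agent.L (FPF) in focus
    classical
    obtain ⟨s, hs, h1⟩ := exists_of_not_le hTC
    obtain ⟨k, hk⟩ := isPGroup_iff_forall.1 hT s hs
    have h2 : ∃ k, s ^ 2 ^ k ∈ 𝒞 X := ⟨k, hk ▸ one_mem _⟩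
    obtain ⟨j, hj⟩ := Nat.exists_eq_succ_of_ne_zero (n := Nat.find h2) fun e => h1 (by simpa [e] using Nat.find_spec h2)
    have h3 := Nat.find_spec h2
    have h4 := Nat.find_min h2 (hj ▸ j.lt_succ_self)
    rw [hj, pow_succ, pow_mul, sq] at h3
    have h5 := pow_mem hs (2 ^ j)
    generalize s ^ 2 ^ j = t at h3 h4 h5
    rw [mem_centralizer_iff] at h3 h4
    push Not at h4
    obtain ⟨y, hy, h4⟩ := h4
    refine ⟨t, h5, y⁻¹ * (t * y * t⁻¹), mul_mem (inv_mem hy) (conj_mem_of_mem_normalizer (hTN h5) hy), fun e => h4 ?_, ?_⟩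
    · calc y * t = y * (y⁻¹ * (t * y * t⁻¹)) * t := by rw [e, mul_one]
        _ = t * y := by group
    · calc _ = t * y⁻¹ * t⁻¹ * (t * t * y) * (t * t)⁻¹ := by group
        _ = _ := by rw [← h3 y hy]; group

end Cfsg.Agent.S4186
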