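import Cfsg.Statements.S4189
import Cfsg.Agent.H8.Misc
import Cfsg.Agent.H2.MC2

set_option autoImplicit false
open Cfsg

namespace Cfsg.Agent.S4189

open Subgroup hiding commutator_def
open Function Cfsg.Agent.Hopf Cfsg.Agent.Reg
open scoped commutatorElement Pointwise

theorem aux {G : Type*} [Group G] [Finite G] {a : G} {m : ℕ} (ha : orderOf a = 2 ^ (m + 1))
    (hG : Nat.card G = 2 * 2 ^ (m + 1)) (h : ∀ x, x ∉ zpowers a → orderOf x ≠ 2 ^ (m + 1)) :
    IsPGroup 2 (MulAut G) := by
  have hi : (zpowers a).index = 2 := by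
    have := (zpowers a).card_mul_index
    rw [Nat.card_zpowers, ha, hG, mul_comm] at this
    exact Nat.eq_of_mul_eq_mul_right (by positivity) this
  intro φ
  have h1 : φ a ∈ zpowers a := by
    by_contra hc
    exact h _ hc (by rw [← ha]; exact φ.orderOf_eq a)
  obtain ⟨r, hr⟩ := (mem_powers_iff_mem_zpowers.2 h1)
  simp only at hr
  have hc : r.Coprime (2 ^ (m + 1)) := by
    have h2 : orderOf (a ^ r) = orderOf a := by rw [hr]; exact φ.orderOf_eq a
    rw [orderOf_pow, Nat.div_eq_self] at h2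
    rcases h2 with h2 | h2
    · exact absurd h2 (orderOf_pos a).ne'
    · exact ha ▸ Nat.Coprime.symm h2
  have h2 : ∀ n, (φ ^ n) a = a ^ r ^ n := by
    intro n
    induction n with
    | zero => simp
    | succ n ih => rw [pow_succ', MulAut.mul_apply, ih, map_pow, ← hr, ← pow_mul, pow_succ']
  have h3 : (φ ^ 2 ^ m) a = a := by
    rw [h2]
    conv_rhs => rw [← pow_one a]
    rw [pow_eq_pow_iff_modEq, ha]
    have := Nat.ModEq.pow_totient hc
    rwa [Nat.totient_prime_pow_succ Nat.prime_two, Nat.add_one_sub_one, mul_one] at this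
  obtain ⟨ψ, hψ⟩ : ∃ ψ, ψ = φ ^ 2 ^ m := ⟨_, rfl⟩
  rw [← hψ] at h3
  have h4 : ∀ x ∈ zpowers a, ψ x = x := by
    rintro _ ⟨k, rfl⟩
    simp [h3]
  refine ⟨m + (m + 1), ?_⟩
  rw [pow_add, pow_mul, ← hψ]
  have h5 : ∀ x, ψ x * x⁻¹ ∈ zpowers a := by
    intro x
    rw [mul_mem_iff_of_index_two hi, inv_mem_iff]
    constructor
    · intro hx
      have := h4 _ hx
      rw [← ψ.injective this]; exact hx
    · intro hx
      rw [h4 _ hx]; exact hx
  ext x
  have h6 : ∀ n, (ψ ^ n) x = (ψ x * x⁻¹) ^ n * x := by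
    intro n
    induction n with
    | zero => simp
    | succ n ih =>
      rw [pow_succ', MulAut.mul_apply, ih, map_mul, h4 _ (pow_mem (h5 x) n), pow_succ]
      group
  rw [h6, ← ha, ← Nat.card_zpowers, H1.pow_card_eq_one_of_mem (h5 x)]
  simp

/-- Let P be a finite non-abelian 2-group whose commutator subgroup has index 4 and whose automorphism group is not a 2-group (some automorphism has order that is not a power of 2). Then P is isomorphic to the quaternion group of order 8. -/
theorem result {P : Type*} [Group P] [Finite P] (hP : IsPGroup 2 P) (hna : ¬ IsMulCommutative P) (h4 : (commutator P).index = 4) (haut : ¬ IsPGroup 2 (MulAut P)) : Nonempty (P ≃* QuaternionGroup 2) := by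
  have h8 : Nat.card P ≠ 4 := fun e =>
    hna (IsPGroup.isMulCommutative_of_card_eq_prime_sq (p := 2) e)
  rcases H2.dsq_of_index hP h4 h8 with ⟨k, ⟨e⟩⟩ | ⟨k, hk, a, b, ha, hb, hab⟩ | ⟨k, ⟨e⟩⟩
  · refine absurd (IsPGroup.of_equiv ?_ (MulAut.congr e).symm) haut
    refine aux (a := DihedralGroup.r 1) (m := k + 1) DihedralGroup.orderOf_r_one
      DihedralGroup.nat_card ?_
    rintro (i | i) hx
    · refine absurd ⟨i.val, ?_⟩ hx
      simp
    · rw [DihedralGroup.orderOf_sr]
      have : 2 ^ 1 < 2 ^ (k + 1 + 1) := Nat.pow_lt_pow_right (by norm_num) (by omega)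
      omega
  · refine absurd (aux (a := a) (m := k + 2) ha (by rw [hk]; ring) ?_) haut
    have hi : (zpowers a).index = 2 := by
      have := (zpowers a).card_mul_index
      rw [Nat.card_zpowers, ha, hk, pow_succ 2 (k + 3)] at this
      exact Nat.eq_of_mul_eq_mul_left (by positivity) this
    have h0 : 4 ≤ 2 ^ (k + 2) := by
      have : 2 ^ 2 ≤ 2 ^ (k + 2) := Nat.pow_le_pow_right (by norm_num) (by omega)
      omega
    have hb' : b ∉ zpowers a := by
      rintro ⟨j, rfl⟩
      have h1 : a ^ 1 = a ^ (2 ^ (k + 2) - 1) := by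
        rw [← hab]; simp only; group
      rw [pow_eq_pow_iff_modEq, ha, Nat.modEq_iff_dvd' (by omega), pow_succ] at h1
      have := Nat.le_of_dvd (by omega) h1
      omega
    intro x hx h1
    obtain ⟨j, hj⟩ := mem_powers_iff_mem_zpowers.2
      ((mul_mem_iff_of_index_two hi (a := x) (b := b⁻¹)).2 (by simp [hx, hb']))
    simp only at hj
    have hx2 : x = a ^ j * b := by rw [hj]; simp
    have hbb : b * b = 1 := by rw [← sq, ← hb, pow_orderOf_eq_one]
    have h2 : x ^ 2 = a ^ (2 ^ (k + 2) * j) := by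
      have e : x ^ 2 = a ^ j * (b * a * b⁻¹) ^ j * (b * b) := by
        rw [hx2, conj_pow, sq]; group
      rw [e, hbb, mul_one, hab, ← pow_mul, ← pow_add]
      congr 1
      obtain ⟨c, hc⟩ : ∃ c, 2 ^ (k + 2) = c + 1 := ⟨2 ^ (k + 2) - 1, by omega⟩
      rw [hc]; simp; ring
    have h3 : x ^ 4 = 1 := by
      rw [show 4 = 2 * 2 from rfl, pow_mul, h2, ← pow_mul, mul_right_comm, ← pow_succ, ← ha,
        pow_mul, pow_orderOf_eq_one, one_pow]
    have := Nat.le_of_dvd (by norm_num) (orderOf_dvd_of_pow_eq_one h3)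
    rw [h1, pow_succ] at this
    omega
  · rcases k with _ | k
    · exact ⟨e⟩
    refine absurd (IsPGroup.of_equiv ?_ (MulAut.congr e).symm) haut
    refine aux (a := QuaternionGroup.a 1) (m := k + 2)
      (by rw [QuaternionGroup.orderOf_a_one]; ring)
      (by rw [Nat.card_eq_fintype_card, QuaternionGroup.card]; ring) ?_
    rintro (i | i) hx
    · refine absurd ⟨i.val, ?_⟩ hx
      simp only [zpow_natCast, QuaternionGroup.a_one_pow, ZMod.natCast_zmod_val]
    · rw [QuaternionGroup.orderOf_xa]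
      have : 2 ^ 2 < 2 ^ (k + 2 + 1) := Nat.pow_lt_pow_right (by norm_num) (by omega)
      omega

end Cfsg.Agent.S4189
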