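import Cfsg.Statements.S4193
import Cfsg.Agent.C3.Real

set_option autoImplicit false
open Cfsg

namespace Cfsg.Agent.S4193

open Subgroup H2 C3 BG

/-- Let G be a finite group in which the conjugacy classes of all non-central real elements (elements conjugate to their inverses) have sizes with the same 2-part, and suppose G has a Sylow 2-subgroup S such that every element of S that is conjugate in S to its inverse lies in the centre of S. Then G is solvable and the subgroup generated by the 2-elements of G (the smallest normal subgroup of odd index) has a normal 2-complement. -/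
theorem result {G : Type*} [Group G] [Finite G] (a : ℕ) (h : ∀ x : G, IsConj x x⁻¹ → x ∉ Subgroup.center G → ((Subgroup.centralizer ({x} : Set G)).index).factorization 2 = a) (S : Sylow 2 G) (hS : ∀ s : ↥(S : Subgroup G), IsConj s s⁻¹ → s ∈ Subgroup.center ↥(S : Subgroup G)) : Group.IsSolvable G ∧ Cfsg.HasNormalPComplement 2 ↥(Subgroup.closure {g : G | ∃ k : ℕ, orderOf g = 2 ^ k}) := by
  have := Fact.mk Nat.prime_two
  have b : ∀ x ∈ (S : Subgroup G), ∀ y ∈ (S : Subgroup G), y * x * y⁻¹ = x⁻¹ → (S : Subgroup G) ≤ 𝒞₁ x :=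
    fun x c y d e g f => mem_centralizer_singleton_iff.2 (congrArg Subtype.val (mem_center_iff.1
      (hS ⟨x, c⟩ (isConj_iff.2 ⟨⟨y, d⟩, Subtype.ext e⟩)) ⟨g, f⟩))
  rw [hasNPC_iff]
  by_cases c : ∀ x : G, x * x = 1 → x ∈ center G
  · have d : PNil 2 (⊤ : Subgroup G) := by_contra fun d => by
      obtain ⟨U, x, q, -, -, -, -, -, e⟩ := GS.exists_minAct_of_not_pNil d
      obtain ⟨g, f⟩ := exists_cj_le_sylow S e.pgrp
      refine e.nt (GS.le_cent_of_real e.pgrp e.normA e.cop fun y i _ ⟨z, j, k⟩ =>
        GS.center_le_cent _ (c y ?_))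
      have := mem_centralizer_singleton_iff.1 (b _ (f (conj_mem_cj g i)) _ (f (conj_mem_cj g j))
        (by rw [show (g * y * g⁻¹)⁻¹ = g * y⁻¹ * g⁻¹ from conj_inv, ← k]; group) (f (conj_mem_cj g j)))
      rw [conj_mul, conj_mul, mul_left_inj, mul_right_inj] at this
      rw [this, mul_inv_cancel_right] at k
      exact mul_eq_one_iff_eq_inv.2 k
    exact ⟨solv_of_pNil_two d, d.mono le_top⟩
  push Not at c
  obtain ⟨x, c, d⟩ := c
  obtain ⟨k, e⟩ := (GS.orderOf_eq_pow_iff (p := 2)).2 ⟨1, (sq x).trans c⟩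
  obtain ⟨g, f⟩ := exists_conj_mem_sylow S e
  have i := h x (by rw [inv_eq_of_mul_eq_one_right c]) d
  rw [← GS.index_cent1_conj g, Nat.factorization_eq_zero_of_not_dvd (GS.not_dvd_index_of_sylIn
    (sylIn_top S) (b _ f 1 (one_mem _) (by simp [inv_eq_of_mul_eq_one_right c, mul_assoc])))] at i
  have j := odd_index_of_no_real (G := G) fun y j l => eq_one_of_odd j (by_contra fun m =>
    (Nat.prime_two.factorization_pos_of_dvd index_ne_zero_of_finite (even_index_of_real l m)).ne'
      ((h y l fun n => m (mul_self_of_real_central l n)).trans i.symm))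
  refine ⟨solv_of_odd_index (H1.isSolvable_of_isPGroup (H1.isPGroup_pCore 2 G)) j, pNil_of_isPGroup
    ((H1.isPGroup_pCore 2 G).to_le ((closure_le _).2 fun y ⟨l, m⟩ => H1.mem_of_coprime_index ?_))⟩
  rw [m]; exact j.coprime_two_left.pow_left l

end Cfsg.Agent.S4193
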