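import Cfsg.Statements.S4194
import Cfsg.Agent.C3.CamHer

set_option autoImplicit false
open Cfsg

namespace Cfsg.Agent.S4194

open H2 C3 Subgroup

/-- A finite group G has commutative Sylow 2-subgroups if and only if every 2-element of G (element of order a power of 2) is 2-central, that is, its centralizer contains a Sylow 2-subgroup of G. -/
theorem result {G : Type*} [Group G] [Finite G] (P : Sylow 2 G) :
    IsMulCommutative (P : Subgroup G) ↔ ∀ x : G, (∃ k : ℕ, orderOf x = 2 ^ k) → (∃ Q : Sylow 2 G, (Q : Subgroup G) ≤ Subgroup.centralizer ({x} : Set G)) := by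
  constructor
  · rintro h x ⟨k, hk⟩
    obtain ⟨g, hg⟩ := exists_cj_le_sylow P (isPGroup_zpowers_of_orderOf hk)
    refine ⟨g⁻¹ • P, fun y hy => mem_centralizer_singleton_iff.2 ?_⟩
    rw [coe_smul_sylow, mem_cj, inv_inv] at hy
    exact (Commute.conj_iff g).1 (congrArg Subtype.val (h.is_comm.comm ⟨_, hy⟩ ⟨_, hg (conj_mem_cj g (mem_zpowers x))⟩))
  · intro h
    have h1 : AllCen G := fun x j hj => h x (((Nat.dvd_prime_pow Nat.prime_two).1 (orderOf_dvd_of_pow_eq_one hj)).imp
      fun _ h => h.2)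
    exact ⟨⟨fun a b => Subtype.ext (h1.abelian P a.2 b.2)⟩⟩

end Cfsg.Agent.S4194
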