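import Cfsg.Statements.S4234
import Mathlib
import Cfsg.Agent.H4.Dick9

set_option autoImplicit false
open Cfsg

namespace Cfsg.Agent.S4234

open Cfsg.Agent.H4 Subgroup Matrix
open scoped MatrixGroups

theorem core {F : Type*} [Field F] [Fintype F] (hF : Fintype.card F = 13) {H : Subgroup PGL(2, F)}
    (hL : H ≤ LL F) (h0 : H ≠ ⊥) (h1 : H ≠ LL F) :
    ∃ M, M ⋖ LL F ∧ M ≤ normalizer (H : Set PGL(2, F)) := by
  obtain ⟨p, _, _⟩ := exists_char F
  have hq : (Fintype.card F).Prime := by rw [hF]; norm_num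
  obtain rfl : p = 13 := by rw [← char_eq_card p hq, hF]
  have hodd : Odd (Fintype.card F) := by rw [hF]; decide
  have h2 : (2 : F) ≠ 0 := odd_card_iff.1 hodd
  have hi : (LL F).index = 2 := index_LL_odd hodd
  have hc : Nat.card (LL F) = 1092 := by
    have := two_mul_card_LL hodd
    rw [hF] at this; omega
  have hd : Nat.card H ∣ 1092 := hc ▸ card_dvd_of_le hL
  set D := dact F 13
  have tor : ∀ x y : Pt F, TP x y → Nat.card ↥(St (LL F) x ⊓ St (LL F) y) = 6 ∨
      Nat.card ↥(St (LL F) x ⊓ St (LL F) y) = 7 := fun x y h => by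
    rcases h.card_torus (p := 13) (le_refl (LL F)) with ⟨-, -, e⟩ | ⟨-, -, e⟩ <;> rw [hi, hF] at e <;> omega
  have cov : ∀ x y : Pt F, TP x y → LL F ⊓ PS _ x y ⋖ LL F := fun x y h =>
    h.covBy_six le_rfl (by omega) (by have := tor x y h; omega)
  obtain ⟨⟨g, hg⟩, g1⟩ := ne_bot_iff_exists_ne_one.1 h0
  have g1 : g ≠ 1 := fun e => g1 (Subtype.ext e)
  have pair : ∀ x y : Pt F, x ≠ y → (∀ k ∈ H, k • x = x ∧ k • y = y) →
      ∃ M, M ⋖ LL F ∧ M ≤ normalizer (H : Set PGL(2, F)) := fun x y hxy h =>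
    ⟨_, cov x y (tp_of_fix g1 hxy (h g hg).1 (h g hg).2), inf_le_right.trans (D.PS_le_normalizer hxy h)⟩
  have cyc : IsCyclic H → Nat.card H ≤ 4 → ∃ M, M ⋖ LL F ∧ M ≤ normalizer (H : Set PGL(2, F)) := by
    rintro ⟨⟨c, hc⟩, hgen⟩ h4
    have hgen' : ∀ k ∈ H, k ∈ zpowers c := fun k hk => by
      obtain ⟨n, hn⟩ := hgen ⟨k, hk⟩
      exact ⟨n, congrArg Subtype.val hn⟩
    have c1 : c ≠ 1 := by
      rintro rfl
      exact g1 (by simpa using hgen' g hg)
    have : c ^ 13 ≠ 1 := fun h => by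
      have := Nat.le_of_dvd Nat.card_pos (orderOf_eq_prime h c1 ▸ H.orderOf_dvd_natCard hc)
      omega
    obtain ⟨x, y, ht, hx, hy⟩ := exists_tp_of this
    refine pair x y ht.1 fun k hk => ⟨?_, ?_⟩
    · exact (zpowers_le.2 (show c ∈ MulAction.stabilizer _ x from hx)) (hgen' k hk)
    · exact (zpowers_le.2 (show c ∈ MulAction.stabilizer _ y from hy)) (hgen' k hk)
  have a4 : ∀ M : Subgroup PGL(2, F), (M ≃* alternatingGroup (Fin 4)) → M ⋖ LL F := fun M e =>
    A4_covBy hq (by omega) (by omega) (by rw [hF]; norm_num) e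
  rcases dickson 13 H with ⟨x, hx, h⟩ | ⟨x, y, htp, h⟩ | ⟨-, ⟨⟨h⟩⟩ | ⟨⟨h⟩⟩ | ⟨⟨h⟩⟩⟩ | ⟨h, -⟩ | ⟨K, k, h⟩
  · by_cases hU : D.Up H x = ⊥
    · obtain ⟨y, hxy, hy, -⟩ := D.exists_partner hU (St_ne_bot_of hg g1 (h g hg))
      exact pair x y hxy fun k hk => ⟨h k hk, (hy ⟨hk, h k hk⟩).2⟩
    · have hUH : D.U x ≤ H := by
        have hle : D.Up H x ≤ D.U x := inf_le_right
        have hcU : Nat.card (D.U x) = 13 := (card_U_rat hx).trans hF
        have h3 : Nat.card (D.Up H x) ∣ 13 := (card_dvd_of_le hle).trans (dvd_of_eq hcU)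
        have h4 := two_le_card_of_ne_bot hU
        have h5 : Nat.card (D.Up H x) = 13 :=
          ((Nat.dvd_prime (by norm_num)).1 h3).resolve_left (by omega)
        rw [← eq_of_le_of_card_ge hle (by omega)]
        exact inf_le_left
      refine ⟨_, St_covBy le_rfl hx, fun m hm => mem_normalizer_fintype fun k hk => ?_⟩
      have : m * k * m⁻¹ * k⁻¹ ∈ D.U x := ⟨by
        have h1 : m • x = x := hm.2
        have h2 := h k hk
        rw [mul_smul, mul_smul, mul_smul, inv_smul_eq_iff.2 h2.symm, inv_smul_eq_iff.2 h1.symm, h2, h1],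
        D.comm hm.2 (h k hk)⟩
      simpa using mul_mem (hUH this) hk
  · have hM : H ≤ LL F ⊓ PS _ x y := le_inf hL h
    have hcM := htp.card_normalizer (le_refl (LL F))
    have hm := (H.subgroupOf (LL F ⊓ PS _ x y)).card_mul_index
    rw [Nat.card_congr (subgroupOfEquivOfLe hM).toEquiv, hcM] at hm
    have ht := tor x y htp
    have h2' := two_le_card_of_ne_bot h0
    by_cases hi2 : (H.subgroupOf (LL F ⊓ PS _ x y)).index ≤ 2
    · refine ⟨_, cov x y htp, (normal_subgroupOf_iff_le_normalizer hM).1 ?_⟩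
      have : (H.subgroupOf (LL F ⊓ PS _ x y)).index ≠ 0 := index_ne_zero_of_finite
      rcases (by omega : (H.subgroupOf (LL F ⊓ PS _ x y)).index = 1 ∨
        (H.subgroupOf (LL F ⊓ PS _ x y)).index = 2) with e | e
      · rw [index_eq_one.1 e]; infer_instance
      · exact normal_of_index_eq_two e
    · have h4 : Nat.card H ≤ 4 := by
        by_contra h5
        have : 5 * 3 ≤ Nat.card H * (H.subgroupOf (LL F ⊓ PS _ x y)).index :=
          Nat.mul_le_mul (by omega) (by omega)
        omega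
      by_cases hcy : IsCyclic H
      · exact cyc hcy h4
      · rcases (by omega : Nat.card H = 2 ∨ Nat.card H = 3 ∨ Nat.card H = 4) with e | e | e
        · exact (hcy (isCyclic_of_prime_card e)).elim
        · exact (hcy (isCyclic_of_prime_card e)).elim
        · obtain ⟨a, b, kp, rfl⟩ := exists_KP (isKleinFour_of_card e hcy)
          obtain ⟨e⟩ := kp.normalizer_equiv h2 (hL (left_mem_V4 _ _)) (hL (right_mem_V4 _ _))
          obtain ⟨A, hA, ⟨e'⟩⟩ := exists_A4_le e
          exact ⟨A, a4 A e', hA⟩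
  · exact ⟨H, a4 H h, le_normalizer⟩
  · rw [card_of_S4 h] at hd; omega
  · rw [card_of_A5 h] at hd; omega
  · omega
  · exact (h1 (le_antisymm hL (h.LL_le (surj_of_prime _ hq)))).elim

/-- normalisers of non-normal subgroups are maximal -/
def P (G : Type*) [Group G] : Prop := ∀ H : Subgroup G, ¬ H.Normal → IsCoatom (normalizer (H : Set G))

theorem P_psl {F : Type*} [Field F] [Fintype F] (hF : Fintype.card F = 13) : P PSL(2, F) := by
  intro H hH
  obtain ⟨M, hM, h⟩ := core hF (im_le H) (fun e => hH (by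
      rw [map_eq_bot_iff_of_injective _ Matrix.ProjectiveSpecialLinearGroup.toPGL_injective] at e
      rw [e]; infer_instance))
    (fun e => hH (by rw [← im_top, im_inj] at e; rw [e]; infer_instance))
  rw [isCoatom_iff_im]
  have h1 : M ≤ im (normalizer (H : Set PSL(2, F))) := by rw [im_normalizer]; exact le_inf hM.le h
  rcases hM.eq_or_eq h1 (im_le _) with e | e
  · rwa [e]
  · rw [← im_top, im_inj, normalizer_eq_top_iff] at e
    exact (hH e).elim

theorem P.lift {G G' : Type*} [Group G] [Group G'] (f : G →* G') (hf : Function.Surjective f) (h : P G')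
    (h' : ∀ H : Subgroup G, (normalizer ((H.map f : Subgroup G') : Set G')).comap f ≤ normalizer (H : Set G)) :
    P G := by
  intro H hH
  have e : normalizer (H : Set G) = (normalizer ((H.map f : Subgroup G') : Set G')).comap f :=
    le_antisymm (map_le_iff_le_comap.1 (le_normalizer_map f)) (h' H)
  rw [e]
  refine isCoatom_comap_of_surjective hf (h _ fun hn => hH ?_)
  rw [← normalizer_eq_top_iff, e, normalizer_eq_top_iff.2 hn, comap_top]

theorem P.congr {G G' : Type*} [Group G] [Group G'] [Finite G] (e : G ≃* G') (h : P G') : P G := by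
  refine h.lift e.toMonoidHom e.surjective fun H g hg => mem_normalizer_fintype fun k hk => ?_
  have := (mem_normalizer_iff.1 hg (e k)).1 (mem_map_of_mem _ hk)
  obtain ⟨k', hk', h1⟩ := this
  have : k' = g * k * g⁻¹ := e.injective (by simpa using h1)
  exact this ▸ hk'

theorem P_sl {F : Type*} [Field F] [Fintype F] (hF : Fintype.card F = 13) : P SL(2, F) := by
  have h2 : (2 : F) ≠ 0 := odd_card_iff.1 (by rw [hF]; decide)
  refine (P_psl hF).lift (QuotientGroup.mk' _) (QuotientGroup.mk'_surjective _) fun H g hg =>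
    mem_normalizer_fintype fun k hk => ?_
  have := (mem_normalizer_iff.1 hg (QuotientGroup.mk' _ k)).1 (mem_map_of_mem _ hk)
  obtain ⟨k', hk', h1⟩ := this
  rw [← map_inv, ← map_mul, ← map_mul, QuotientGroup.mk'_eq_mk'] at h1
  obtain ⟨z, hz, h1⟩ := h1
  rcases mem_center_SL2.1 hz with rfl | rfl
  · rw [← h1, mul_one]; exact hk'
  · by_cases hn : (-1 : SL(2, F)) ∈ H
    · rw [← h1]; exact mul_mem hk' hn
    · exfalso
      have hodd : Odd (Nat.card H) := by
        by_contra h
        obtain ⟨u, hu⟩ := exists_prime_orderOf_dvd_card' (G := H) 2 (even_iff_two_dvd.1 (Nat.not_odd_iff_even.1 h))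
        rw [← Subgroup.orderOf_coe] at hu
        exact hn (eq_neg_one_of_orderOf h2 hu ▸ u.2)
      have hp : ∀ u ∈ H, u ^ Nat.card H = 1 := fun u hu =>
        orderOf_dvd_iff_pow_eq_one.1 (H.orderOf_dvd_natCard hu)
      have h3 := congrArg (· ^ Nat.card H) h1
      simp only [conj_pow, hp k hk, mul_neg, mul_one, hodd.neg_pow, hp k' hk', mul_inv_cancel] at h3
      exact neg_one_ne_one_SL h2 h3

/-- Let K be isomorphic to PSL(2, 13) or to SL(2, 13) and let S be a finite abelian group of order coprime to the order of K. Then in the direct product K × S every subgroup that is not normal has a normalizer that is a maximal subgroup. -/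
theorem result {K S : Type*} [Group K] [CommGroup S] [Finite K] [Finite S]
    (hK : Nonempty (K ≃* Matrix.ProjectiveSpecialLinearGroup (Fin 2) (ZMod 13)) ∨
      Nonempty (K ≃* Matrix.SpecialLinearGroup (Fin 2) (ZMod 13)))
    (hKS : (Nat.card K).Coprime (Nat.card S)) (H : Subgroup (K × S)) (hH : ¬ H.Normal) :
    IsCoatom (Subgroup.normalizer (H : Set (K × S))) := by
  have hP : P K := by
    rcases hK with ⟨⟨e⟩⟩ | ⟨⟨e⟩⟩
    · haveI : Fact (Nat.Prime 13) := ⟨by norm_num⟩
      exact (P_psl (F := ZMod 13) (by simp)).congr e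
    · haveI : Fact (Nat.Prime 13) := ⟨by norm_num⟩
      exact (P_sl (F := ZMod 13) (by simp)).congr e
  refine hP.lift (MonoidHom.fst K S) Prod.fst_surjective (fun H g hg => mem_normalizer_fintype fun k hk => ?_) H hH
  obtain ⟨n, hn1, hn2⟩ := Nat.chineseRemainder hKS 1 0
  have key : ∀ u ∈ H, ((u.1, 1) : K × S) ∈ H := fun u hu => by
    have : u ^ n = (u.1, 1) := by
      ext
      · rw [Prod.pow_fst, ← pow_mod_natCard, hn1, pow_mod_natCard, pow_one]
      · rw [Prod.pow_snd, ← pow_mod_natCard, hn2, pow_mod_natCard, pow_zero]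
    exact this ▸ pow_mem hu n
  obtain ⟨k', hk', h1⟩ := (mem_normalizer_iff.1 hg k.1).1 (mem_map_of_mem _ hk)
  have := mul_mem (mul_mem (key k' hk') (inv_mem (key k hk))) hk
  have e : g * k * g⁻¹ = (k'.1, 1) * (k.1, 1)⁻¹ * k := by
    ext
    · simp at h1; simp [h1]
    · simp [mul_comm]
  rw [e]; exact this

end Cfsg.Agent.S4234
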