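import Cfsg.Statements.S4238
import Cfsg.Agent.H8.Misc
import Cfsg.Agent.H2.BG1

set_option autoImplicit false
open Cfsg

namespace Cfsg.Agent.S4238

open Subgroup hiding commutator_def
open Function Cfsg.Agent.Hopf Cfsg.Agent.Reg
open scoped commutatorElement Pointwise

theorem fin {K : Type*} [Group K] [Finite K] {p q : ℕ} [hp : Fact p.Prime] [hq : Fact q.Prime]
    (hpq : q ≠ p) {V R : Subgroup K} [V.Normal] (hV : IsPGroup p V) (hV1 : V ≠ ⊥)
    (hR : IsPGroup q R) (hc : IsCyclic R) (h : R ⊔ V = ⊤) (hC : V ⊓ centralizer (R : Set K) = ⊥)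
    (k : K) : orderOf k ≠ Monoid.exponent K := by
  intro hk
  obtain ⟨r, hr⟩ := (isCyclic_iff_exists_zpowers_eq_top).1 hc
  have h0 := H1.card_sup_of_disjoint (A := R) (K := V) le_normalizer_of_normal
    (IsPGroup.disjoint_of_ne q p hpq _ _ hR hV).eq_bot
  rw [h, card_top] at h0
  have h1 : R.index = Nat.card V := Nat.eq_of_mul_eq_mul_left Nat.card_pos (by rw [card_mul_index, h0])
  have h2 : V.index = Nat.card R :=
    Nat.eq_of_mul_eq_mul_left Nat.card_pos (by rw [card_mul_index, h0, mul_comm])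
  have hS : H2.SylIn q R ⊤ := H2.sylIn_of_not_dvd le_top hR (by
    rw [relIndex_top_right, h1]
    exact fun h => hpq (H1.isPGroup_iff_forall_prime.1 hV q hq.out h))
  have h3 : Nat.card R ∣ orderOf k := by
    rw [hk, ← card_top, ← hr, Nat.card_zpowers, ← orderOf_coe]
    exact Monoid.order_dvd_exponent _
  obtain ⟨v, -, hv⟩ := H1.exists_mem_orderOf_eq_prime hp.out (H1.dvd_card_of_isPGroup_of_ne_bot hV hV1)
  have h4 : p ∣ orderOf k := by rw [hk, ← hv]; exact Monoid.order_dvd_exponent _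
  have h5 := orderOf_pow_orderOf_div (orderOf_pos k).ne' h3
  have h6 := orderOf_pow_orderOf_div (orderOf_pos k).ne' h4
  obtain ⟨m, hm⟩ := IsPGroup.iff_card.1 hR
  obtain ⟨g, -, hg⟩ := (hS.of_card_le (H2.isPGroup_zpowers_of_orderOf (h5.trans hm)) le_top
    (by rw [Nat.card_zpowers, h5])).exists_cj_eq hS
  have h7 : k ^ (orderOf k / p) ∈ V := H1.mem_of_coprime_index (by
    rw [h6, h2, hm]; exact ((Nat.coprime_primes hp.out hq.out).2 hpq.symm).pow_right m)
  have h8 : g * k ^ (orderOf k / p) * g⁻¹ ∈ V ⊓ centralizer (R : Set K) := by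
    refine mem_inf.2 ⟨‹V.Normal›.conj_mem _ h7 g, ?_⟩
    rw [← hg, ← H2.cj_centralizer, H2.conj_mem_cj_iff, H1.centralizer_zpowers,
      mem_centralizer_singleton_iff]
    exact Commute.pow_pow_self k _ _
  rw [hC, mem_bot, conj_eq_one_iff] at h8
  rw [h8, orderOf_one] at h6
  exact hp.out.one_lt.ne h6

/-- Let G be a finite group and p a prime. Then G has a normal p-complement if and only if every section K = H/N of G (N a normal subgroup of a subgroup H) whose largest normal subgroup of order prime to p is trivial contains an element whose order equals the exponent of K. -/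
theorem result {G : Type*} [Group G] [Finite G] (p : ℕ) [Fact p.Prime] :
    Cfsg.HasNormalPComplement p G ↔
      ∀ (H : Subgroup G) (N : Subgroup H) [N.Normal], Cfsg.pPrimeCore p (H ⧸ N) = ⊥ →
        ∃ k : H ⧸ N, orderOf k = Monoid.exponent (H ⧸ N) := by
  have hp : p.Prime := Fact.out
  rw [H2.hasNPC_iff_top]
  constructor
  · intro h H N _ hO
    have h1 := (H2.pNil_top_subtype_iff.2 (h.mono (le_top : H ≤ ⊤))).map (QuotientGroup.mk' N)
    rw [map_top_of_surjective _ (QuotientGroup.mk'_surjective N)] at h1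
    have h2 := H2.pNil_iff_card.1 h1
    rw [H2.resOf_top] at h2
    have h3 := H1.eq_bot_of_pPrimeCore_eq_bot hO inferInstance h2
    obtain ⟨k, hk⟩ := H2.index_pResidual p (H ⧸ N)
    rw [h3, index_bot] at hk
    obtain ⟨j, -, hj⟩ := (Nat.dvd_prime_pow hp).1 (hk ▸ Group.exponent_dvd_nat_card (G := H ⧸ N))
    obtain ⟨g, hg⟩ := Nat.Prime.exists_orderOf_eq_pow_factorization_exponent (H ⧸ N) hp
    exact ⟨g, by rw [hg, hj, hp.factorization_pow, Finsupp.single_eq_same]⟩
  intro h
  have h' : ∀ (H : Subgroup G) (K : Type _) [Group K] [Finite K] (φ : H →* K), Surjective φ →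
      Cfsg.pPrimeCore p K = ⊥ → ∃ k : K, orderOf k = Monoid.exponent K := by
    intro H K _ _ φ hφ hO
    let e := QuotientGroup.quotientKerEquivOfSurjective φ hφ
    obtain ⟨k, hk⟩ := h H φ.ker (by rw [← H1.map_pPrimeCore_equiv e.symm, hO, Subgroup.map_bot])
    exact ⟨e k, by rw [e.orderOf_eq, hk, Monoid.exponent_eq_of_mulEquiv e]⟩
  by_contra hc
  obtain ⟨Q, H, q, hq, hqp, -, hQ, -, hH, hcyc, hHQ, hQC⟩ := H2.exists_of_not_pNil hc
  haveI := Fact.mk hq
  rw [le_centralizer_iff] at hQC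
  have hcQ := IsPGroup.coprime_card_of_ne q p hqp _ _ hH hQ
  obtain ⟨R, hR⟩ : ∃ R, R = ⁅Q, H⁆ := ⟨_, rfl⟩
  have hRQ : R ≤ Q := by
    rw [hR, commutator_comm, commutator_le]
    intro h hh x hx
    rw [commutatorElement_def]
    exact mul_mem (H1.conj_mem_of_mem_normalizer (hHQ hh) hx) (inv_mem hx)
  have hRR : ⁅R, H⁆ = R :=
    hR ▸ H1.commutator_commutator_eq hHQ hcQ (Or.inr (H1.isSolvable_of_isPGroup hQ))
  have hR1 : R ≠ ⊥ := fun e => hQC (commutator_eq_bot_iff_le_centralizer.1 (hR ▸ e))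
  have hHR : H ≤ normalizer (R : Set G) := hR ▸ normalizer_commutator_ge_right _ _
  have hRp := hQ.to_le hRQ
  have hRs := H1.isSolvable_of_isPGroup hRp
  obtain ⟨M, hM⟩ : ∃ M, M = ⁅R, R⁆ := ⟨_, rfl⟩
  have hMR : M < R := hM ▸ H1.commutator_lt_self hRs hR1
  have hHM : H ≤ normalizer (M : Set G) := hM ▸ H1.le_normalizer_commutator hHR hHR
  have hRM : R ≤ normalizer (M : Set G) := hM ▸ normalizer_commutator_ge_left _ _
  obtain ⟨X, hX⟩ : ∃ X, X = H ⊔ R := ⟨_, rfl⟩
  have hHX : H ≤ X := hX ▸ le_sup_left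
  have hRX : R ≤ X := hX ▸ le_sup_right
  haveI : (M.subgroupOf X).Normal :=
    (normal_subgroupOf_iff_le_normalizer (hMR.le.trans hRX)).2 (hX ▸ sup_le hHM hRM)
  haveI : (R.subgroupOf X).Normal :=
    (normal_subgroupOf_iff_le_normalizer hRX).2 (hX ▸ H1.sup_le_normalizer hHR)
  let φ := (QuotientGroup.mk' (Cfsg.pPrimeCore p (X ⧸ M.subgroupOf X))).comp
    (QuotientGroup.mk' (M.subgroupOf X))
  have hφ : Surjective φ := (QuotientGroup.mk'_surjective _).comp (QuotientGroup.mk'_surjective _)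
  obtain ⟨k, hk⟩ := h' X _ φ hφ (H1.pPrimeCore_quotient_eq_bot _ rfl)
  haveI : ((R.subgroupOf X).map φ).Normal := Normal.map ‹_› φ hφ
  have hV := (H1.isPGroup_subgroupOf (K := X) hRp).map φ
  have hW := (H1.isPGroup_subgroupOf (K := X) hH).map φ
  have e1 : ∀ {A B : Subgroup G}, A ≤ X → B ≤ X →
      ⁅A.subgroupOf X, B.subgroupOf X⁆ = (⁅A, B⁆ : Subgroup G).subgroupOf X := fun hA hB => by
    apply map_injective X.subtype_injective
    rw [map_commutator, H1.map_subtype_subgroupOf hA, H1.map_subtype_subgroupOf hB,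
      H1.map_subtype_subgroupOf ((commutator_mono hA hB).trans (commutator_le_self X))]
  haveI : IsMulCommutative ((R.subgroupOf X).map φ) := by
    rw [← le_centralizer_iff_isMulCommutative, ← commutator_eq_bot_iff_le_centralizer,
      ← map_commutator, e1 hRX hRX, ← hM, ← map_map, H1.map_mk'_eq_bot_iff.2 le_rfl, Subgroup.map_bot]
  refine fin hqp hV (fun e => hMR.not_ge ?_) hW (H2.isCyclic_map φ
    (isCyclic_of_surjective _ (subgroupOfEquivOfLe hHX).symm.surjective)) ?_ ?_ k hk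
  · rw [← map_map, H1.map_mk'_eq_bot_iff] at e
    have h1 := H1.eq_bot_of_isPGroup_of_not_dvd
      ((H1.isPGroup_subgroupOf (K := X) hRp).map (QuotientGroup.mk' (M.subgroupOf X)))
      fun h => H1.not_dvd_card_pPrimeCore p _ (h.trans (card_dvd_of_le e))
    rw [H1.map_mk'_eq_bot_iff] at h1
    exact fun x hx => h1 (show (⟨x, hRX hx⟩ : X) ∈ R.subgroupOf X from hx)
  · rw [← Subgroup.map_sup, ← subgroupOf_sup hHX hRX, ← hX, subgroupOf_self, map_top_of_surjective _ hφ]
  · have := H1.commutator_inf_centralizer_eq_bot (A := (H.subgroupOf X).map φ)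
      (V := (R.subgroupOf X).map φ) le_normalizer_of_normal
      (IsPGroup.coprime_card_of_ne q p hqp _ _ hW hV)
    rwa [← map_commutator, e1 hRX hHX, hRR] at this

end Cfsg.Agent.S4238
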