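import Cfsg.Statements.S4240
import Cfsg.Agent.C3.Kegel
import Cfsg.Agent.GS.Odd
import Cfsg.Agent.H2.Hol

set_option autoImplicit false
open Cfsg

namespace Cfsg.Agent.S4240

open Subgroup H2 C3 BG SemidirectProduct

/-- Let a finite group A act by automorphisms on a finite group G of order coprime to that of A. Suppose every maximal A-invariant proper subgroup of G is nilpotent while G is not. Then G is solvable, the order of G has the form p^a·q^b for two distinct primes p and q, and G has a normal A-invariant Sylow subgroup for some prime dividing its order. -/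
theorem result {A G : Type*} [Group A] [Group G] [Finite A] [Finite G] [MulDistribMulAction A G]
    (hcop : (Nat.card A).Coprime (Nat.card G))
    (hmax : ∀ H : Subgroup G, H ≠ ⊤ → (∀ a : A, ∀ x ∈ H, a • x ∈ H) →
      (∀ K : Subgroup G, H < K → (∀ a : A, ∀ x ∈ K, a • x ∈ K) → K = ⊤) → Group.IsNilpotent H)
    (hG : ¬ Group.IsNilpotent G) :
    Group.IsSolvable G ∧
      (∃ p q a b : ℕ, p.Prime ∧ q.Prime ∧ p ≠ q ∧ Nat.card G = p ^ a * q ^ b) ∧
      ∃ (p : ℕ) (P : Sylow p G), p.Prime ∧ p ∣ Nat.card G ∧ (P : Subgroup G).Normal ∧ (∀ a : A, ∀ x ∈ (P : Subgroup G), a • x ∈ (P : Subgroup G)) := by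
  have a : ∀ H : Subgroup G, H ≠ ⊤ → (∀ a : A, ∀ x ∈ H, a • x ∈ H) → Group.IsNilpotent H := fun H h1 h2 => by
    obtain ⟨M, b, ⟨c, d⟩, e⟩ := H1.exists_maximal_ge
      (fun M : Subgroup G => M ≠ ⊤ ∧ ∀ a : A, ∀ x ∈ M, a • x ∈ M) ⟨h1, h2⟩
    exact H1.isNilpotent_of_le b (hmax M c d fun K f g => by_contra fun i => f.ne' (e K ⟨i, g⟩ f.le))
  let φ := MulDistribMulAction.toMulAut A G
  have b : ∀ p : ℕ, p.Prime → ∃ P, SylIn p P ⊤ ∧ ∀ a : A, ∀ x ∈ P, a • x ∈ P := fun p hp => by
    have := Fact.mk hp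
    obtain ⟨P, c, d⟩ := H1.exists_invariant_isSylowIn (le_normalizer_sl_top (sr φ ⊤))
      (by rwa [card_sr_top, card_sl_top]) (GS.solv_or_solv' (by rwa [card_sr_top, card_sl_top])) p
    obtain ⟨P, rfl⟩ := exists_sl c.1
    refine ⟨P, sylIn_of_not_dvd le_top (isPGroup_sl.1 c.2.1) ?_, fun a x =>
      apply_mem_of_le_normalizer d (mem_top a)⟩
    have := c.2.2
    rwa [relIndex_map_map_of_injective _ _ inl_injective] at this
  have c : Group.IsSolvable G := H1.isSolvable_of_equiv (slTopEquiv φ).symm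
    (solv_of_local _ fun p hp _ => by
      have := Fact.mk hp
      obtain ⟨P, c, d⟩ := b p hp
      refine ⟨_, c.map inl, fun K e f => pNil_of_isNilpotent ?_⟩
      obtain ⟨L, g⟩ := exists_sl (X := K ⊓ sl φ ⊤) inf_le_right
      rw [← g]
      exact H1.isNilpotent_map _ (a L (fun i => f (by rw [i] at g; exact g.le.trans inf_le_left))
        fun a x => apply_mem_of_le_normalizer (B := ⊤) (g ▸ H1.le_normalizer_inf
          (((sr_le_normalizer_sl fun a _ => d a).trans e).trans le_normalizer)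
          (le_normalizer_sl_top _)) (mem_top a)))
  have : Nontrivial G := not_subsingleton_iff_nontrivial.1 fun _ => hG inferInstance
  obtain ⟨p, hp, d⟩ : ∃ p : ℕ, p.Prime ∧ pResidual p G ≠ ⊤ := by
    have : Nontrivial (Abelianization G) := QuotientGroup.nontrivial_iff.2
      (IsSolvable.commutator_lt_top_of_nontrivial G).ne
    obtain ⟨p, hp, d⟩ := Nat.exists_prime_and_dvd (Finite.one_lt_card (α := Abelianization G)).ne'
    have := Fact.mk hp
    refine ⟨p, hp, fun e => hp.coprime_iff_not_dvd.1 ?_ d⟩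
    have f := pNil_iff_card.1 (pNil_of_isNilpotent (H := (⊤ : Subgroup (Abelianization G))) (p := p)
      inferInstance)
    rw [resOf_top, ← map_pResidual Abelianization.of QuotientGroup.mk_surjective, e,
      map_top_of_surjective _ QuotientGroup.mk_surjective, card_top] at f
    exact f.symm
  have := Fact.mk hp
  have e := a _ d fun a x hx => (characteristic_iff_le_comap.1 inferInstance (φ a)) hx
  have f : ∀ q : ℕ, q.Prime → q ≠ p → ∀ Q : Subgroup G, SylIn q Q ⊤ → Q.Normal := fun q hq f Q g => by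
    have := Fact.mk hq
    have i : ∀ x : G, (∃ k, orderOf x = q ^ k) → x ∈ pResidual p G := fun x ⟨k, i⟩ =>
      mem_pResidual (i ▸ ((Nat.coprime_primes hq hp).2 f).pow_left k)
    have j : Q ≤ pResidual p G := fun x hx => i x (orderOf_eq_pow_of_mem g.pgrp hx)
    refine (GS.SylIn.normal_iff g).2 fun x k => (g.mono j le_top).mem_of_mem_normalizer (i x k)
      (GS.orderOf_eq_pow_iff.1 k).choose_spec ?_
    exact H1.IsSylowIn.normalizer_le_of_isNilpotent (sylIn_iff.1 (g.mono j le_top)) e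
      (le_normalizer (i x k))
  obtain ⟨P, g, i⟩ := b p hp
  obtain ⟨q, hq, j, Q, k, l, m⟩ : ∃ q : ℕ, q.Prime ∧ q ≠ p ∧ ∃ Q, SylIn q Q ⊤ ∧
      (∀ a : A, ∀ x ∈ Q, a • x ∈ Q) ∧ Q ⊔ P = ⊤ := by
    by_contra! j
    refine hG (GS.nil_top_iff.1 (GS.nil_of_forall_sylIn fun q hq => ?_))
    by_cases k : q = p
    · subst k
      refine ⟨P, g, (H1.eq_top_of_forall_sylow_le fun r hr => ?_).ge⟩
      have := Fact.mk hr
      obtain ⟨Q, n, o⟩ := b r hr
      by_cases m : r = q
      · subst m; exact ⟨g.toSylowTop, le_normalizer⟩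
      have := f r hr m Q n
      refine ⟨n.toSylowTop, (le_sup_left.trans le_normalizer).trans
        (H1.IsSylowIn.normalizer_le_of_isNilpotent (sylIn_iff.1 (g.mono le_sup_right le_top))
        (a _ (j r hr m Q n o) fun s x t => ?_))⟩
      obtain ⟨y, u, z, v, rfl⟩ := (H1.mem_sup_right_norm (K := Q) le_normalizer_of_normal).1 t
      rw [smul_mul']
      exact mul_mem_sup (o s y u) (i s z v)
    obtain ⟨Q, l, -⟩ := b q hq
    exact ⟨Q, l, have := f q hq k Q l; le_normalizer_of_normal⟩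
  have := Fact.mk hq
  have := f q hq j Q k
  have n := H1.card_sup_of_disjoint (A := P) (K := Q) le_normalizer_of_normal
    (IsPGroup.disjoint_of_ne p q j.symm _ _ g.pgrp k.pgrp).eq_bot
  rw [sup_comm, m, card_top] at n
  refine ⟨c, ⟨p, q, _, _, hp, hq, j.symm, by rw [← g.card_eq_pow, ← k.card_eq_pow, n]⟩, q,
    k.toSylowTop, hq, by_contra fun o => ?_, this, l⟩
  rw [k.eq_bot_iff.2 (by rwa [card_top]), bot_sup_eq] at m
  exact hG (GS.nil_top_iff.1 (m ▸ g.pgrp.isNilpotent))

end Cfsg.Agent.S4240
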