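import Cfsg.Statements.S4242
import Cfsg.Agent.H8.Misc

set_option autoImplicit false
open Cfsg

namespace Cfsg.Agent.S4242

open Subgroup hiding commutator_def
open Function Cfsg.Agent.Hopf Cfsg.Agent.Reg
open scoped commutatorElement Pointwise


/-- Let G be a finite group and p a prime dividing its order. Every maximal subgroup of G of order divisible by p is nilpotent if and only if G is nilpotent, or G is a minimal non-nilpotent group, or G is the internal direct product of a normal subgroup of order p and a normal minimal non-nilpotent subgroup of order prime to p. -/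
theorem result {G : Type*} [Group G] [Finite G] (p : ℕ) (hp : p.Prime) (hpG : p ∣ Nat.card G) :
    (∀ M : Subgroup G, IsCoatom M → p ∣ Nat.card M → Group.IsNilpotent M) ↔
      (Group.IsNilpotent G ∨ Cfsg.IsMinimalNonNilpotent G ∨
        ∃ Z K : Subgroup G, Z.Normal ∧ K.Normal ∧ Z ⊓ K = ⊥ ∧ Z ⊔ K = ⊤ ∧ Nat.card Z = p ∧
          Cfsg.IsMinimalNonNilpotent K ∧ ¬ p ∣ Nat.card K) := by
  haveI := Fact.mk hp
  constructor
  · intro h
    have h' : ∀ H : Subgroup G, H ≠ ⊤ → p ∣ Nat.card H → Group.IsNilpotent H := by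
      intro H hH hd
      obtain ⟨M, hM, hle⟩ := H1.exists_coatom_ge hH
      exact H1.isNilpotent_of_le hle (h M hM (hd.trans (card_dvd_of_le hle)))
    by_cases h1 : Group.IsNilpotent G
    · exact Or.inl h1
    by_cases h2 : Cfsg.IsMinimalNonNilpotent G
    · exact Or.inr (Or.inl h2)
    refine Or.inr (Or.inr ?_)
    obtain ⟨M, hM, hMn⟩ : ∃ M : Subgroup G, IsCoatom M ∧ ¬ Group.IsNilpotent M := by
      by_contra hc
      push Not at hc
      refine h2 ⟨h1, fun H hH => ?_⟩
      obtain ⟨M, hM, hle⟩ := H1.exists_coatom_ge hH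
      exact H1.isNilpotent_of_le hle (hc M hM)
    have hpM : ¬ p ∣ Nat.card M := fun hd => hMn (h M hM hd)
    have hcM : (Nat.card M).Coprime p := (hp.coprime_iff_not_dvd.2 hpM).symm
    obtain ⟨P, hP, hP1, hPQ⟩ : ∃ P : Subgroup G, IsPGroup p P ∧ P ≠ ⊥ ∧ ∀ q : ℕ, q.Prime →
        ∃ Q, H2.SylIn q Q M ∧ Nat.card ↥(P ⊔ Q) ∣ Nat.card P * Nat.card Q := by
      by_cases hO : Cfsg.pCore p G = ⊥
      · have h3 : H2.PNil p (⊤ : Subgroup G) := H2.pNil_of_forall_normalizer fun U _ hU hU1 => by
          rw [top_inf_eq]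
          refine H2.pNil_of_isNilpotent (h' _ (fun e => hU1 ?_)
            ((H1.dvd_card_of_isPGroup_of_ne_bot hU hU1).trans (card_dvd_of_le le_normalizer)))
          rw [eq_bot_iff, ← hO]
          exact H1.le_pCore (H1.normal_of_top_le_normalizer e.ge) hU
        let P : Sylow p G := default
        have h4 := h3.isComplement' P
        obtain ⟨k, hk⟩ := H2.index_pResidual p G
        have h5 : M = pResidual p G := by
          refine (hM.le_iff.1 (H1.le_of_coprime_index (hk ▸ hcM.pow_right k))).resolve_left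
            (fun e => ?_) |>.symm
          have h6 := H2.pNil_iff_card.1 h3
          rw [H2.resOf_top, e, card_top] at h6
          exact hp.coprime_iff_not_dvd.1 h6.symm hpG
        haveI : M.Normal := h5 ▸ inferInstance
        refine ⟨P, P.2, P.ne_bot_of_dvd_card hpG, fun q hq => ?_⟩
        haveI := Fact.mk hq
        obtain ⟨Q, hQ, hPQ⟩ := H1.exists_invariant_isSylowIn (A := P) (K := M)
          le_normalizer_of_normal (H1.coprime_card_of_isPGroup P.2 hcM)
          (Or.inl (H1.isSolvable_of_isPGroup P.2)) q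
        exact ⟨Q, H2.sylIn_iff.2 hQ, H1.card_sup_dvd hPQ⟩
      · refine ⟨_, H1.isPGroup_pCore p G, hO, fun q hq => ?_⟩
        obtain ⟨Q, hQ⟩ := H2.exists_sylIn q M
        exact ⟨Q, hQ, by rw [sup_comm, mul_comm]; exact H1.card_sup_dvd le_normalizer_of_normal⟩
    have hpP := H1.dvd_card_of_isPGroup_of_ne_bot hP hP1
    have hcP := H1.coprime_card_of_isPGroup hP hcM
    have h3 : M ≤ centralizer (P : Set G) := by
      have : M ⊓ centralizer (P : Set G) = M := by
        refine H2.eq_of_forall_not_dvd_relIndex inf_le_left fun q hq hd => ?_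
        haveI := Fact.mk hq
        obtain ⟨Q, hQ, h4⟩ := hPQ q hq
        refine hQ.not_dvd_relIndex (hd.trans (relIndex_dvd_of_le_left _ (le_inf hQ.le ?_)))
        refine H1.le_centralizer_of_isNilpotent_of_coprime (h' (P ⊔ Q) (fun e => hMn ?_)
          (hpP.trans (card_dvd_of_le le_sup_left))) le_sup_right le_sup_left
          (hcP.symm.coprime_dvd_left (card_dvd_of_le hQ.le))
        rw [e, card_top] at h4
        have h5 := hcP.symm.dvd_of_dvd_mul_left ((card_subgroup_dvd_card M).trans h4)
        rw [← eq_of_le_of_card_ge hQ.le (Nat.le_of_dvd Nat.card_pos h5)]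
        exact hQ.pgrp.isNilpotent
      exact this ▸ inf_le_right
    have h4 : P ⊔ M = ⊤ := hM.2 _ (lt_of_le_of_ne le_sup_right fun e =>
      hpM (hpP.trans (card_dvd_of_le (e ▸ le_sup_left))))
    have h5 : P ⊓ M = ⊥ := (disjoint_of_coprime_natCard hcP).eq_bot
    haveI : M.Normal := H1.normal_of_top_le_normalizer
      (h4 ▸ sup_le (H1.le_normalizer_of_centralizer_ge h3) le_normalizer)
    have h6 := H1.card_sup_of_disjoint (A := P) (K := M) le_normalizer_of_normal h5
    rw [h4, card_top, ← card_mul_index M, mul_comm] at h6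
    have h7 := H1.index_prime_of_isCoatom_of_normal hM
    rw [Nat.eq_of_mul_eq_mul_right Nat.card_pos h6] at h7
    refine ⟨P, M, H1.normal_of_top_le_normalizer
      (h4 ▸ sup_le le_normalizer (H1.le_normalizer_of_le_centralizer h3)), ‹_›, h5, h4,
      ((Nat.prime_dvd_prime_iff_eq hp h7).1 hpP).symm, ⟨hMn, fun H hH => ?_⟩, hpM⟩
    rw [← H1.isNilpotent_map_subtype_iff]
    refine H1.isNilpotent_of_le le_sup_right (h' (P ⊔ H.map M.subtype) (fun e => hH ?_)
      (hpP.trans (card_dvd_of_le le_sup_left)))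
    have := H1.sup_inf_assoc_norm' (A := P) (K := H.map M.subtype) (X := M)
      (H1.le_normalizer_of_centralizer_ge ((map_subtype_le H).trans h3)) (map_subtype_le H)
    rw [e, top_inf_eq, h5, bot_sup_eq] at this
    rw [← H1.subgroupOf_map_subtype' H, ← this, subgroupOf_self]
  · rintro (h | h | ⟨Z, K, _, _, h1, h2, h3, h4, h5⟩) M hM hd
    · infer_instance
    · exact h.2 M hM.1
    obtain ⟨x, hx, hx1⟩ := H1.exists_mem_orderOf_eq_prime hp hd
    have h6 := H1.card_sup_of_disjoint (A := Z) (K := K) le_normalizer_of_normal h1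
    rw [h2, card_top, ← card_mul_index Z] at h6
    have h7 : x ∈ Z := H1.mem_of_coprime_index (by
      rw [Nat.eq_of_mul_eq_mul_left Nat.card_pos h6, hx1]; exact hp.coprime_iff_not_dvd.2 h5)
    have h8 : Z ≤ M := by
      rw [← H1.eq_of_le_of_card_prime (h3 ▸ hp) (zpowers_le_of_mem h7) (fun e => by
        rw [zpowers_eq_bot.1 e, orderOf_one] at hx1; exact hp.one_lt.ne hx1)]
      exact zpowers_le_of_mem hx
    have h9 := H1.sup_inf_assoc_norm (A := Z) (K := K) le_normalizer_of_normal h8
    rw [h2, top_inf_eq] at h9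
    have h10 : Group.IsNilpotent ↥(K ⊓ M) := by
      have := h4.2 (M.subgroupOf K) fun e => hM.1 (top_le_iff.1 (h2 ▸ sup_le h8 (subgroupOf_eq_top.1 e)))
      rwa [← H1.isNilpotent_map_subtype_iff, subgroupOf_map_subtype, inf_comm] at this
    rw [h9]
    refine H1.isNilpotent_sup (H1.le_normalizer_inf le_normalizer_of_normal (h8.trans le_normalizer))
      le_normalizer_of_normal (IsPGroup.of_card (p := p) (n := 1) (by simpa using h3)).isNilpotent h10

end Cfsg.Agent.S4242
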