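import Cfsg.Statements.S4249
import Cfsg.Agent.C3.Kegel
import Cfsg.Agent.GS.Lem4

set_option autoImplicit false
open Cfsg

namespace Cfsg.Agent.S4249

open Subgroup H2 C3 BG

/-- Let G be a finite group and p a prime such that G is not a p-group, and suppose the Hughes subgroup H_p(G), generated by all elements g with g^p ≠ 1, is a proper subgroup. Then H_p(G) is nilpotent and has index p in G. -/
theorem result {G : Type*} [Group G] [Finite G] (p : ℕ) (hp : p.Prime) (hG : ¬ IsPGroup p G)
    (hH : Subgroup.closure {g : G | g ^ p ≠ 1} ≠ ⊤) :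
    Group.IsNilpotent (Subgroup.closure {g : G | g ^ p ≠ 1}) ∧ (Subgroup.closure {g : G | g ^ p ≠ 1}).index = p := by
  have := Fact.mk hp
  have : (closure {g : G | g ^ p ≠ 1}).Normal := ⟨fun x hx g => by
    refine closure_induction (fun y a => subset_closure fun b => a ?_) (by simp) (fun y z _ _ a b => ?_)
      (fun y _ a => ?_) hx
    · simpa [conj_pow] using b
    · simpa [mul_assoc] using mul_mem a b
    · simpa [mul_assoc] using inv_mem a⟩
  have a : ∀ g, g ^ p ≠ 1 → g ∈ closure {g : G | g ^ p ≠ 1} := fun g h => subset_closure h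
  generalize closure {g : G | g ^ p ≠ 1} = H at *
  have b : ∀ g ∉ H, g ^ p = 1 := fun g h => by_contra fun c => h (a g c)
  obtain ⟨N, _, c, d⟩ := exists_index_prime_of_quotient (p := p) (N := H) (fun x => by
    obtain ⟨x, rfl⟩ := QuotientGroup.mk_surjective x
    refine ⟨1, ?_⟩
    rw [pow_one, ← QuotientGroup.mk_pow, QuotientGroup.eq_one_iff]
    by_cases h : x ∈ H
    exacts [pow_mem h _, b x h ▸ one_mem _]) hH
  have e := kegel hp (N := N) (fun e => hp.one_lt.ne (by rw [← d, e, index_top])) fun g h => b g fun i => h (c i)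
  refine ⟨H1.isNilpotent_of_le c e, le_antisymm c (fun x hx => by_contra fun f => ?_) ▸ d⟩
  obtain ⟨y, g, i⟩ := GS.exists_pprime_elt hG
  have j : (orderOf y).Coprime p := (Nat.coprime_primes g hp).2 i
  have k : y ^ p ≠ 1 := fun k => i ((Nat.prime_dvd_prime_iff_eq g hp).1 (orderOf_dvd_of_pow_eq_one k))
  have l : Commute x y := H1.commute_of_isNilpotent_of_coprime e hx (c (a y k))
    (j.symm.coprime_dvd_left (orderOf_dvd_of_pow_eq_one (b x f)))
  exact f ((mul_mem_cancel_right (a y k)).1 (a _ (by rwa [l.mul_pow, b x f, one_mul])))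

end Cfsg.Agent.S4249
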