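import Cfsg.Statements.S4250
import Mathlib
import Cfsg.Agent.H2.Tame

set_option autoImplicit false
open Cfsg

namespace Cfsg.Agent.S4250

open Cfsg.Agent.H2 Subgroup
open scoped commutatorElement

/-- Let P be a Sylow p-subgroup of a finite group G. Call an intersection H = P ∩ Q with a Sylow p-subgroup Q tame when N_P(H) and N_Q(H) are Sylow p-subgroups of N_G(H). Then P ∩ G′ is generated by [P, N_G(P)] together with the commutator subgroups [P ∩ Q, ⟨x⟩] for all tame intersections P ∩ Q and all p-elements x of N_G(P ∩ Q). -/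
theorem result {G : Type*} [Group G] [Finite G] (p : ℕ) [Fact p.Prime] (P : Sylow p G) :
    (P : Subgroup G) ⊓ commutator G =
      ⁅(P : Subgroup G), Subgroup.normalizer ((P : Subgroup G) : Set G)⁆ ⊔
        ⨆ (Q : Sylow p G) (_ : (¬ p ∣ ((P : Subgroup G) ⊓ Subgroup.normalizer (((P : Subgroup G) ⊓ (Q : Subgroup G) : Subgroup G) : Set G)).relIndex (Subgroup.normalizer (((P : Subgroup G) ⊓ (Q : Subgroup G) : Subgroup G) : Set G)) ∧ ¬ p ∣ ((Q : Subgroup G) ⊓ Subgroup.normalizer (((P : Subgroup G) ⊓ (Q : Subgroup G) : Subgroup G) : Set G)).relIndex (Subgroup.normalizer (((P : Subgroup G) ⊓ (Q : Subgroup G) : Subgroup G) : Set G))))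
          (x : G) (_ : x ∈ Subgroup.normalizer (((P : Subgroup G) ⊓ (Q : Subgroup G) : Subgroup G) : Set G) ∧ ∃ k : ℕ, orderOf x = p ^ k),
          ⁅(P : Subgroup G) ⊓ (Q : Subgroup G), Subgroup.zpowers x⁆ := by
  have key : ∀ U N : Subgroup G, U ≤ P → N ≤ normalizer (U : Set G) →
      ⁅U, N⁆ ≤ (P : Subgroup G) ⊓ commutator G := fun U N h1 h2 =>
    le_inf ((H8.commutator_le_left_of_norm h2).trans h1) (commutator_mono le_top le_top)
  refine le_antisymm ?_ (sup_le (key _ _ le_rfl le_rfl) (iSup_le fun Q => iSup_le fun _ =>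
    iSup_le fun x => iSup_le fun hx => key _ _ inf_le_left (zpowers_le.2 hx.1)))
  refine (sylIn_top P).inf_commutator_le fun x hx u _ hu => ?_
  refine alperin_tame (sylIn_top P) fusProp_transfer (fun y hy a ha => ?_)
    (fun U hU ht y hy ho a ha => ?_) (mem_top u) (zpowers_le.2 hx)
    (by rw [cj_zpowers]; exact zpowers_le.2 hu) x (mem_zpowers x)
  · refine mem_sup_left ?_
    rw [Subgroup.commutator_comm]
    exact commutator_mem_commutator hy.2 ha
  · obtain ⟨Q, rfl, h2⟩ := (tame_top_iff P).1 ht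
    refine mem_sup_right (mem_iSup_of_mem Q (mem_iSup_of_mem h2 (mem_iSup_of_mem y
      (mem_iSup_of_mem ⟨hy.2, ho⟩ ?_))))
    rw [Subgroup.commutator_comm]
    exact commutator_mem_commutator (mem_zpowers y) ha

end Cfsg.Agent.S4250
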