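import Cfsg.Statements.S4251
import Mathlib
import Cfsg.Agent.H2.Tame

set_option autoImplicit false
open Cfsg

namespace Cfsg.Agent.S4251

open Cfsg.Agent.H2 Subgroup

/-- Let P be a Sylow p-subgroup of a finite group G. Call an intersection H = P ∩ Q with a Sylow p-subgroup Q tame when N_P(H) and N_Q(H) are Sylow p-subgroups of N_G(H). If N_G(H)/C_G(H) is a p-group for every nontrivial tame intersection H = P ∩ Q, then G has a normal p-complement. -/
theorem result {G : Type*} [Group G] [Finite G] (p : ℕ) [Fact p.Prime] (P : Sylow p G)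
    (h : ∀ Q : Sylow p G, (P : Subgroup G) ⊓ (Q : Subgroup G) ≠ ⊥ → (¬ p ∣ ((P : Subgroup G) ⊓ Subgroup.normalizer (((P : Subgroup G) ⊓ (Q : Subgroup G) : Subgroup G) : Set G)).relIndex (Subgroup.normalizer (((P : Subgroup G) ⊓ (Q : Subgroup G) : Subgroup G) : Set G)) ∧ ¬ p ∣ ((Q : Subgroup G) ⊓ Subgroup.normalizer (((P : Subgroup G) ⊓ (Q : Subgroup G) : Subgroup G) : Set G)).relIndex (Subgroup.normalizer (((P : Subgroup G) ⊓ (Q : Subgroup G) : Subgroup G) : Set G))) →
      IsPGroup p (Subgroup.normalizer (((P : Subgroup G) ⊓ (Q : Subgroup G) : Subgroup G) : Set G) ⧸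
        (Subgroup.centralizer (((P : Subgroup G) ⊓ (Q : Subgroup G) : Subgroup G) : Set G)).subgroupOf
          (Subgroup.normalizer (((P : Subgroup G) ⊓ (Q : Subgroup G) : Subgroup G) : Set G)))) :
    Cfsg.HasNormalPComplement p G := by
  have key : ∀ U : Subgroup G, U ≠ ⊥ → Tame p P ⊤ U →
      resOf p (normalizer (U : Set G)) ≤ centralizer (U : Set G) := by
    intro U h1 ht
    obtain ⟨Q, rfl, h2⟩ := (tame_top_iff P).1 ht
    rw [← pResidual_map_subtype, H8.map_subtype_le_iff]
    exact pResidual_le_of_quotient (h Q h1 h2)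
  rw [hasNPC_iff_top]
  refine (sylIn_top P).pNil_of_ess (fun g hg ho => ?_) fun U hU => hU.not_resOf_le (sylIn_top P) ?_
  · by_cases h0 : (P : Subgroup G) = ⊥
    · rw [h0]; intro x hx; rw [mem_bot.1 hx]; simp
    · exact key _ h0 (sylIn_top P).tame_self (mem_resOf hg.2 ho)
  · rw [top_inf_eq]
    exact key _ (hU.ne_bot (sylIn_top P)) (hU.tame (sylIn_top P))

end Cfsg.Agent.S4251
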