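import Cfsg.Statements.S4252
import Mathlib
import Cfsg.Agent.H7.Basic

set_option autoImplicit false
open Cfsg

namespace Cfsg.Agent.S4252

open MulAction Subgroup Pointwise

/-- Let a finite group G act on a finite set Ω with more than one point, transitively but not regularly, so that no non-identity element of G fixes two distinct points. Then the stabilizer H of any point is a Frobenius complement in G (nontrivial, proper, meeting its other conjugates trivially), and the Frobenius kernel of G with respect to H (the identity together with the elements lying in no conjugate of H) is exactly the set consisting of the identity and the elements fixing no point. -/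
theorem result {G Ω : Type*} [Group G] [Finite G] [Fintype Ω] [MulAction G Ω] (hΩ : 1 < Fintype.card Ω)
    (htrans : ∀ α β : Ω, ∃ g : G, g • α = β) (hnreg : ∃ g : G, g ≠ 1 ∧ ∃ α : Ω, g • α = α)
    (hfix : ∀ g : G, g ≠ 1 → ∀ α β : Ω, g • α = α → g • β = β → α = β) (α : Ω) :
    Cfsg.IsFrobeniusComplement (MulAction.stabilizer G α) ∧
      Cfsg.frobeniusKernel (MulAction.stabilizer G α) = {g : G | g = 1 ∨ ∀ ω : Ω, g • ω ≠ ω} := by
  have key : ∀ g x : G, x ∈ MulAut.conj g • stabilizer G α ↔ x • g • α = g • α := fun g x => by
    rw [mem_pointwise_smul_iff_inv_smul_mem, mem_stabilizer_iff]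
    simp [mul_smul, inv_smul_eq_iff]
  refine ⟨⟨fun e => ?_, fun e => ?_, fun g hg => eq_bot_iff.2 fun x hx => ?_⟩, ?_⟩
  · obtain ⟨g, g1, β, hβ⟩ := hnreg
    obtain ⟨k, rfl⟩ := htrans α β
    have := (key k g).2 hβ
    rw [e, smul_bot] at this
    exact g1 this
  · obtain ⟨β, hβ⟩ := Fintype.exists_ne_of_one_lt_card hΩ α
    obtain ⟨k, rfl⟩ := htrans α β
    exact hβ (e.ge (mem_top k))
  · by_contra x1
    exact hg (hfix x x1 _ _ ((key g x).1 hx.2) hx.1)
  · ext x
    refine or_congr_right ⟨fun h ω e => ?_, fun h g e => h _ ((key g x).1 e)⟩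
    obtain ⟨k, rfl⟩ := htrans α ω
    exact h k ((key k x).2 e)

end Cfsg.Agent.S4252
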