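import Cfsg.Statements.S4253
import Cfsg.Agent.GS.Lem2

set_option autoImplicit false
open Cfsg

namespace Cfsg.Agent.S4253

open Cfsg.Agent.H1

/-- Let H be a Frobenius complement in a finite group G (a nontrivial proper subgroup meeting each conjugate gHg⁻¹ with g outside H trivially). Then in the action of G on the left cosets of H by left multiplication, no non-identity element of G fixes two distinct cosets. -/
theorem result {G : Type*} [Group G] [Finite G] (H : Subgroup G) (hH : Cfsg.IsFrobeniusComplement H)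
    (g : G) (hg : g ≠ 1) (a b : G ⧸ H) (ha : g • a = a) (hb : g • b = b) : a = b := by
  open Subgroup Pointwise commutatorElement Cfsg.Agent.BG Cfsg.Agent.GS in
  open Cfsg.Agent.H2 hiding card_lt_of_lt card_lt_of_ne_top isMulCommutative_of_le isPGroup_zpowers_iff mem_of_pow_mem_of_coprime inf_eq_bot_of_cop exists_maxElem_ge Sec in
  open Cfsg.Agent.H8 (Op Opp Fit SN) in
  open Cfsg.Agent.L (FPF) in focus
    obtain ⟨a, rfl⟩ := QuotientGroup.mk_surjective a
    obtain ⟨b, rfl⟩ := QuotientGroup.mk_surjective b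
    have h1 : a⁻¹ * (g * a) ∈ H := QuotientGroup.eq.1 ha.symm
    have h2 : b⁻¹ * (g * b) ∈ H := QuotientGroup.eq.1 hb.symm
    refine QuotientGroup.eq.2 (L.mem_of_conj_mem_of_frobenius hH h2 (fun e => hg ?_) ?_)
    · calc g = b * (b⁻¹ * (g * b)) * b⁻¹ := by group
        _ = 1 := by rw [e]; group
    · rwa [show a⁻¹ * b * (b⁻¹ * (g * b)) * (a⁻¹ * b)⁻¹ = a⁻¹ * (g * a) by group]

end Cfsg.Agent.S4253
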