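import Cfsg.Statements.S4261
import Cfsg.Agent.GS.Lem2

set_option autoImplicit false
open Cfsg

namespace Cfsg.Agent.S4261

open Cfsg.Agent.H1

/-- Let M be a maximal subgroup of a finite solvable group G such that x^[G : M] lies in M for every x in G. Then M is normal in G. -/
theorem result {G : Type*} [Group G] [Finite G] (hG : Group.IsSolvable G) (M : Subgroup G) (hM : IsCoatom M)
    (hexp : ∀ x : G, x ^ M.index ∈ M) : M.Normal := by
  open Subgroup Pointwise commutatorElement Cfsg.Agent.BG Cfsg.Agent.GS in
  open Cfsg.Agent.H2 hiding card_lt_of_lt card_lt_of_ne_top isMulCommutative_of_le isPGroup_zpowers_iff mem_of_pow_mem_of_coprime inf_eq_bot_of_cop exists_maxElem_ge Sec in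
  open Cfsg.Agent.H8 (Op Opp Fit SN) in
  open Cfsg.Agent.L (FPF) in focus
    obtain ⟨p, k, hp, hk⟩ := exists_index_eq_pow_of_coatom hG hM
    have := Fact.mk hp
    have h1 : pResidual p G ≤ M := pResidual_le_iff.2 fun g hg =>
      H1.mem_of_pow_mem_of_coprime (hexp g) (hk ▸ hg.symm.pow_left k)
    have := normal_of_isCoatom_of_isNilpotent (isPGroup_quotient_pResidual p G).isNilpotent (isCoatom_map_mk' h1 hM)
    have h2 := comap_map_mk' M (pResidual p G)
    rw [sup_eq_left.2 h1] at h2
    exact h2 ▸ inferInstance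

end Cfsg.Agent.S4261
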