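import Cfsg.Statements.S4263
import Cfsg.Agent.GS.Cnt

set_option autoImplicit false
open Cfsg

namespace Cfsg.Agent.S4263

open Cfsg.Agent.H1

/-- Let G be a finite group. An element x lies in the Fitting subgroup F(G) if and only if, for every subgroup H of G, the power x^[G : H] lies in H. -/
theorem result {G : Type*} [Group G] [Finite G] (x : G) :
    x ∈ Cfsg.fittingSubgroup G ↔ ∀ H : Subgroup G, x ^ H.index ∈ H := by
  open Subgroup Pointwise commutatorElement Cfsg.Agent.BG Cfsg.Agent.GS in
  open Cfsg.Agent.H2 hiding card_lt_of_lt card_lt_of_ne_top isMulCommutative_of_le isPGroup_zpowers_iff mem_of_pow_mem_of_coprime inf_eq_bot_of_cop exists_maxElem_ge Sec in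
  open Cfsg.Agent.H8 (Op Opp Fit SN) in
  open Cfsg.Agent.L (FPF) in focus
    refine ⟨fun hx H => ?_, fun h => mem_of_forall_pelt fun p hp y hy hk => ?_⟩
    · obtain ⟨k, hk⟩ := relIndex_dvd_of_sn (SN.of_normal (fittingSubgroup G)) H
      rw [← relIndex_top_right, hk, pow_mul, ← inf_relIndex_right]
      exact pow_mem (pow_relIndex_mem_of_sn (H8.sn_of_nilpotent inferInstance inf_le_right) hx).1 k
    · have := Fact.mk hp
      refine pCore_le_fittingSubgroup p ?_
      rw [H1.pCore_eq_iInf_sylow, mem_iInf]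
      intro P
      obtain ⟨i, rfl⟩ := mem_zpowers_iff.1 hy
      obtain ⟨k, hk⟩ := hk
      refine H1.mem_of_pow_mem_of_coprime (n := (P : Subgroup G).index) ?_ ?_
      · rw [← zpow_natCast, ← zpow_mul, mul_comm, zpow_mul, zpow_natCast]; exact zpow_mem (h P) i
      · rw [hk]; exact (Nat.Coprime.pow_left k ((Nat.Prime.coprime_iff_not_dvd hp).2 P.not_dvd_index)).symm

end Cfsg.Agent.S4263
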