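import Cfsg.Statements.S4269
import Cfsg.Agent.H8.Reg
import Cfsg.Agent.H1.Basic
import Cfsg.Agent.H2.Syl

set_option autoImplicit false
open Cfsg

namespace Cfsg.Agent.S4269

open Subgroup hiding commutator_def
open Function Cfsg.Agent.Hopf Cfsg.Agent.Reg
open scoped commutatorElement Pointwise


/-- Let G be a finite group, V an abelian normal subgroup and H a subgroup with HV = G. Then H is pronormal in G (H and gHg⁻¹ are conjugate inside the subgroup they generate, for every g) if and only if every H-invariant subgroup U of V satisfies U = N_U(H)·[H, U], that is, U is the join of U ∩ N_G(H) and the commutator subgroup [H, U]. -/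
theorem result {G : Type*} [Group G] [Finite G]
    (V : Subgroup G) [V.Normal] (hV : IsMulCommutative ↥V) (H : Subgroup G) (hHV : H ⊔ V = ⊤) :
    Cfsg.IsPronormal H ↔
      ∀ U : Subgroup G, U ≤ V → (∀ h ∈ H, U.map (MulAut.conj h).toMonoidHom = U) →
        U = (U ⊓ Subgroup.normalizer (H : Set G)) ⊔ ⁅H, U⁆ := by
  haveI := hV
  have hc : ∀ x ∈ V, ∀ y ∈ V, x * y = y * x := fun x hx y hy => H1.mul_comm_of_mem hx hy
  constructor
  · intro hP U hU hinv
    have hHU : H ≤ normalizer (U : Set G) := fun h hh => H2.mem_normalizer_iff_cj.2 (hinv h hh)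
    have hcU : ⁅H, U⁆ ≤ U := by
      rw [commutator_le]
      intro h hh u hu
      rw [commutatorElement_def]
      exact mul_mem (H1.conj_mem_of_mem_normalizer (hHU hh) hu) (inv_mem hu)
    refine le_antisymm (fun u hu => ?_) (sup_le inf_le_left hcU)
    obtain ⟨x, hx, e⟩ := hP u
    have hn : H ≤ normalizer ((⁅H, U⁆ : Subgroup G) : Set G) :=
      H1.le_normalizer_commutator le_normalizer hHU
    have h1 : H ⊔ H.map (MulAut.conj u).toMonoidHom ≤ H ⊔ ⁅H, U⁆ := by
      refine sup_le le_sup_left ?_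
      rintro _ ⟨h, hh, rfl⟩
      have : (MulAut.conj u).toMonoidHom h = ⁅h, u⁆⁻¹ * h := by
        simp [commutatorElement_def, mul_assoc]
      rw [this]
      exact mul_mem (inv_mem (mem_sup_right (commutator_mem_commutator hh hu))) (mem_sup_left hh)
    obtain ⟨w, hw, h, hh, rfl⟩ := (H1.mem_sup_left_norm' hn).1 (h1 hx)
    have e2 : H2.cj u H = H2.cj w H := by
      have : H2.cj (w * h) H = H2.cj w H := by rw [H2.cj_mul, H2.cj_eq_of_mem hh]
      rw [← this]; exact e
    have h2 : w⁻¹ * u ∈ normalizer (H : Set G) := by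
      rw [H2.mem_normalizer_iff_cj, H2.cj_mul, e2, H2.cj_inv_cj]
    have : u = w * (w⁻¹ * u) := by group
    rw [this]
    exact mul_mem (mem_sup_right hw)
      (mem_sup_left (mem_inf.2 ⟨mul_mem (inv_mem (hcU hw)) hu, h2⟩))
  · intro hU g
    have hg : g ∈ H ⊔ V := hHV ▸ mem_top g
    obtain ⟨v, hv, h, hh, rfl⟩ := (H1.mem_sup_left_norm' le_normalizer_of_normal).1 hg
    have e1 : H2.cj (v * h) H = H2.cj v H := by rw [H2.cj_mul, H2.cj_eq_of_mem hh]
    change ∃ x ∈ H ⊔ H2.cj (v * h) H, H2.cj (v * h) H = H2.cj x H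
    rw [e1]
    obtain ⟨L, hL⟩ : ∃ L, L = H ⊔ H2.cj v H := ⟨_, rfl⟩
    rw [← hL]
    have hHL : H ≤ L := hL ▸ le_sup_left
    let U : Subgroup G :=
      { carrier := {u | u ∈ V ∧ ∀ h ∈ H, ⁅h, u⁆ ∈ L}
        one_mem' := ⟨one_mem _, fun h _ => by simp⟩
        mul_mem' := by
          rintro a b ⟨ha, ha'⟩ ⟨hb, hb'⟩
          refine ⟨mul_mem ha hb, fun h hh => ?_⟩
          have h1 : ⁅h, b⁆ ∈ V := by
            rw [commutatorElement_def]
            exact mul_mem (‹V.Normal›.conj_mem b hb h) (inv_mem hb)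
          have e : ⁅h, a * b⁆ = ⁅h, a⁆ * (a * ⁅h, b⁆ * a⁻¹) := by
            simp only [commutatorElement_def]; group
          rw [e, hc a ha _ h1, mul_inv_cancel_right]
          exact mul_mem (ha' h hh) (hb' h hh)
        inv_mem' := by
          rintro a ⟨ha, ha'⟩
          refine ⟨inv_mem ha, fun h hh => ?_⟩
          have h1 : ⁅h, a⁆⁻¹ ∈ V := by
            rw [commutatorElement_def]
            exact inv_mem (mul_mem (‹V.Normal›.conj_mem a ha h) (inv_mem ha))
          have e : ⁅h, a⁻¹⁆ = a⁻¹ * ⁅h, a⁆⁻¹ * a := by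
            simp only [commutatorElement_def]; group
          rw [e, hc _ (inv_mem ha) _ h1, inv_mul_cancel_right]
          exact inv_mem (ha' h hh) }
    have hUV : U ≤ V := fun u hu => hu.1
    have hvU : v ∈ U := by
      refine ⟨hv, fun h hh => ?_⟩
      have e : ⁅h, v⁆ = h * (v * h⁻¹ * v⁻¹) := by simp only [commutatorElement_def]; group
      rw [e, hL]
      exact mul_mem (mem_sup_left hh) (mem_sup_right (H2.conj_mem_cj v (inv_mem hh)))
    have hinv : ∀ h ∈ H, U.map (MulAut.conj h).toMonoidHom = U := by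
      intro h hh
      refine H2.mem_normalizer_iff_cj.1 (H1.mem_normalizer_of_conj_mem fun u hu => ?_)
      refine ⟨‹V.Normal›.conj_mem u hu.1 h, fun k hk => ?_⟩
      have e : ⁅k, h * u * h⁻¹⁆ = h * ⁅h⁻¹ * k * h, u⁆ * h⁻¹ := by
        simp only [commutatorElement_def]; group
      rw [e]
      exact mul_mem (mul_mem (hHL hh) (hu.2 _ (mul_mem (mul_mem (inv_mem hh) hk) hh)))
        (inv_mem (hHL hh))
    have hcL : ⁅H, U⁆ ≤ L := by
      rw [commutator_le]
      intro h hh u hu
      exact hu.2 h hh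
    have hcV : ⁅H, U⁆ ≤ V := by
      rw [commutator_le]
      intro h hh u hu
      rw [commutatorElement_def]
      exact mul_mem (‹V.Normal›.conj_mem u hu.1 h) (inv_mem hu.1)
    have h3 := hU U hUV hinv
    rw [h3] at hvU
    have hn : U ⊓ normalizer (H : Set G) ≤ normalizer ((⁅H, U⁆ : Subgroup G) : Set G) := by
      intro a ha
      refine H1.mem_normalizer_of_conj_mem fun x hx => ?_
      rw [hc a (hUV ha.1) x (hcV hx), mul_inv_cancel_right]
      exact hx
    obtain ⟨w, hw, n, hn', rfl⟩ := (H1.mem_sup_left_norm' hn).1 hvU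
    exact ⟨w, hcL hw, by rw [H2.cj_mul, H2.cj_eq_of_mem_normalizer hn'.2]⟩

end Cfsg.Agent.S4269
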