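import Cfsg.Statements.S4270
import Cfsg.Agent.H9.TJ
import Cfsg.Agent.H2.Syl

set_option autoImplicit false
open Cfsg

namespace Cfsg.Agent.S4270

open Cfsg.Agent Cfsg.Agent.H9
open Cfsg.Agent Cfsg.Agent.H2 Subgroup

theorem map_cj {X Y : Type*} [Group X] [Group Y] (f : X →* Y) (g : X) (H : Subgroup X) :
    (cj g H).map f = cj (f g) (H.map f) := by
  rw [cj, cj, map_map, map_map]; congr 1; ext x; simp

theorem pr_map {X Y : Type*} [Group X] [Group Y] (f : X →* Y) (hf : Function.Surjective f) {H : Subgroup X}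
    (h : IsPronormal H) : IsPronormal (H.map f) := fun g => by
  obtain ⟨g, rfl⟩ := hf g
  obtain ⟨x, hx, e⟩ := h g
  refine ⟨f x, ?_, ?_⟩
  · show f x ∈ H.map f ⊔ cj (f g) (H.map f)
    rw [← map_cj, ← Subgroup.map_sup]; exact mem_map_of_mem f hx
  · show cj (f g) (H.map f) = cj (f x) (H.map f)
    rw [← map_cj, ← map_cj]; exact congrArg _ e

theorem pr_lift {X Y : Type*} [Group X] [Group Y] (f : X →* Y) {H : Subgroup X}
    (h : IsPronormal (H.map f)) (g : X) : ∃ y ∈ H ⊔ cj g H, (cj g H).map f = (cj y H).map f := by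
  obtain ⟨x, hx, e⟩ := h (f g)
  change x ∈ H.map f ⊔ cj (f g) (H.map f) at hx
  rw [← map_cj, ← Subgroup.map_sup] at hx
  obtain ⟨y, hy, rfl⟩ := hx
  exact ⟨y, hy, by rw [map_cj, map_cj]; exact e⟩

theorem pr_of_map {X Y : Type*} [Group X] [Group Y] (f : X →* Y) {H : Subgroup X} (hk : f.ker ≤ H)
    (h : IsPronormal (H.map f)) : IsPronormal H := fun g => by
  obtain ⟨y, hy, e⟩ := pr_lift f h g
  refine ⟨y, hy, ?_⟩
  have h1 : ∀ g, f.ker ≤ cj g H := fun g => (cj_eq_of_normal g f.ker).symm.le.trans (cj_mono g hk)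
  exact map_injective_of_ker_le f (h1 g) (h1 y) e

theorem pr_sub {G : Type*} [Group G] {H K : Subgroup G} (hHK : H ≤ K) :
    IsPronormal (H.subgroupOf K) ↔ ∀ g ∈ K, ∃ x ∈ H ⊔ cj g H, cj g H = cj x H := by
  have e0 : (H.subgroupOf K).map K.subtype = H := map_subgroupOf_eq_of_le hHK
  refine ⟨fun h g hg => ?_, fun h g => ?_⟩
  · obtain ⟨x, hx, e⟩ := h ⟨g, hg⟩
    have h1 := mem_map_of_mem K.subtype hx
    have h2 := congrArg (map K.subtype) e
    rw [Subgroup.map_sup, map_cj, e0] at h1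
    rw [map_cj, map_cj, e0] at h2
    exact ⟨x.1, h1, h2⟩
  · obtain ⟨x, hx, e⟩ := h g.1 g.2
    rw [← e0] at hx e
    have hx' : x ∈ (H.subgroupOf K ⊔ cj g (H.subgroupOf K)).map K.subtype := by
      rw [Subgroup.map_sup, map_cj]; exact hx
    obtain ⟨y, hy, rfl⟩ := hx'
    refine ⟨y, hy, map_injective K.subtype_injective ?_⟩
    rw [map_cj, map_cj]; exact e

theorem key {G : Type*} [Group G] [Finite G] {p : ℕ} [Fact p.Prime] (A : Subgroup G) [A.Normal]
    (hA : (∀ K : Subgroup ↥A, (∃ P : Sylow p ↥A, (P : Subgroup ↥A) ≤ K) → Cfsg.IsPronormal K))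
    (T : Subgroup G) (hT : SylIn p T A) [(T.subgroupOf (Subgroup.normalizer (T : Set G))).Normal]
    (h1 : ∀ K : Subgroup (↥(Subgroup.normalizer (T : Set G)) ⧸ T.subgroupOf (Subgroup.normalizer (T : Set G))), (∃ P : Sylow p (↥(Subgroup.normalizer (T : Set G)) ⧸ T.subgroupOf (Subgroup.normalizer (T : Set G))), (P : Subgroup (↥(Subgroup.normalizer (T : Set G)) ⧸ T.subgroupOf (Subgroup.normalizer (T : Set G)))) ≤ K) → Cfsg.IsPronormal K)
    (K : Subgroup G) (S : Sylow p G) (hS : (S : Subgroup G) ≤ K) (hST : (S : Subgroup G) ⊓ A = T) (a : G) (ha : a ∈ A) :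
    ∃ x ∈ K ⊔ cj a K, cj a K = cj x K := by
  have hTD : T ≤ K ⊓ A := hST ▸ inf_le_inf_right A hS
  have hKD : K ≤ normalizer ((K ⊓ A : Subgroup G) : Set G) := fun k hk => mem_normalizer_iff_cj.mpr (by
    rw [cj_inf, cj_eq_of_mem hk, cj_eq_of_normal])
  have hSN : (S : Subgroup G) ≤ normalizer (T : Set G) := fun k hk => mem_normalizer_iff_cj.mpr (by
    rw [← hST, cj_inf, cj_eq_of_mem hk, cj_eq_of_normal])
  obtain ⟨P, hP⟩ := hT.exists_sylow
  obtain ⟨y, hy, e1⟩ := (pr_sub inf_le_right).mp (hA ((K ⊓ A).subgroupOf A) ⟨P, hP ▸ comap_mono hTD⟩) a ha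
  have hyL : y ∈ K ⊔ cj a K := (sup_le_sup inf_le_left (cj_mono a inf_le_left)) hy
  have hc : y⁻¹ * a ∈ normalizer ((K ⊓ A : Subgroup G) : Set G) := by
    rw [mem_normalizer_iff_cj, cj_mul, e1, cj_inv_cj]
  have hTD' := hT.mono hTD inf_le_right
  obtain ⟨h, hh, hn⟩ := hTD'.frattini' hc
  have hnD := mul_mem hc (inv_mem (le_normalizer hh))
  have e2 : cj (y⁻¹ * a * h⁻¹) K = cj y⁻¹ (cj a K) := by rw [cj_mul, cj_eq_of_mem (inv_mem hh.1), cj_mul]
  generalize y⁻¹ * a * h⁻¹ = n at hn hnD e2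
  obtain ⟨S', hS'⟩ := (sylIn_of_le S hSN).exists_sylow
  have hM := pr_of_map (QuotientGroup.mk' (T.subgroupOf (normalizer (T : Set G))))
    (H := (K ⊓ normalizer (T : Set G)).subgroupOf (normalizer (T : Set G)))
    (by rw [QuotientGroup.ker_mk']; exact comap_mono (le_inf (hTD.trans inf_le_left) le_normalizer))
    (h1 _ ⟨S'.mapSurjective (QuotientGroup.mk'_surjective _), map_mono (hS' ▸ comap_mono (le_inf hS hSN))⟩)
  obtain ⟨x, hx, e3⟩ := (pr_sub inf_le_right).mp hM n hn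
  have hxD : x ∈ normalizer ((K ⊓ A : Subgroup G) : Set G) :=
    (sup_le (inf_le_left.trans hKD) (cj_le_of_le (inf_le_left.trans hKD) hnD)) hx
  have e4 := hTD'.frattini_sup inf_le_left hKD
  have e5 : cj n K = cj x K := by
    rw [← e4, cj_sup, cj_sup, e3, cj_eq_of_mem_normalizer hnD, cj_eq_of_mem_normalizer hxD]
  refine ⟨y * x, mul_mem hyL ((sup_le (inf_le_left.trans le_sup_left) ((cj_mono n inf_le_left).trans ?_)) hx), ?_⟩
  · rw [e2]; exact cj_le_of_le le_sup_right (inv_mem hyL)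
  · rw [cj_mul, ← e5, e2, cj_cj_inv]

/-- Let p be a prime and G a finite group with a normal subgroup A such that, both in A and in G/A, every subgroup containing a Sylow p-subgroup of that group is pronormal in that group. Let T be a Sylow p-subgroup of A. Then every subgroup of G containing a Sylow p-subgroup of G is pronormal in G if and only if (i) every subgroup of N_G(T)/T containing a Sylow p-subgroup of N_G(T)/T is pronormal there, and (ii) for every subgroup H of G containing a Sylow p-subgroup of G, the image of N_G(H) in G/A is the full normalizer of the image of H. (Pronormal: H and gHg⁻¹ are conjugate inside the subgroup they generate, for every g.) -/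
theorem result {G : Type*} [Group G] [Finite G] {p : ℕ} [Fact p.Prime]
    (A : Subgroup G) [A.Normal] (hA : (∀ K : Subgroup ↥A, (∃ P : Sylow p ↥A, (P : Subgroup ↥A) ≤ K) → Cfsg.IsPronormal K)) (hQ : (∀ K : Subgroup (G ⧸ A), (∃ P : Sylow p (G ⧸ A), (P : Subgroup (G ⧸ A)) ≤ K) → Cfsg.IsPronormal K))
    (T : Subgroup G) (hT : ∃ P : Sylow p ↥A, (P : Subgroup ↥A).map A.subtype = T) [(T.subgroupOf (Subgroup.normalizer (T : Set G))).Normal] :
    (∀ K : Subgroup G, (∃ P : Sylow p G, (P : Subgroup G) ≤ K) → Cfsg.IsPronormal K) ↔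
      ((∀ K : Subgroup (↥(Subgroup.normalizer (T : Set G)) ⧸ T.subgroupOf (Subgroup.normalizer (T : Set G))), (∃ P : Sylow p (↥(Subgroup.normalizer (T : Set G)) ⧸ T.subgroupOf (Subgroup.normalizer (T : Set G))), (P : Subgroup (↥(Subgroup.normalizer (T : Set G)) ⧸ T.subgroupOf (Subgroup.normalizer (T : Set G)))) ≤ K) → Cfsg.IsPronormal K) ∧
        ∀ K : Subgroup G, (∃ P : Sylow p G, (P : Subgroup G) ≤ K) →
          (Subgroup.normalizer (K : Set G)).map (QuotientGroup.mk' A) = Subgroup.normalizer ((K.map (QuotientGroup.mk' A) : Subgroup (G ⧸ A)) : Set (G ⧸ A))) := by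
  have hT' : SylIn p T A := by
    obtain ⟨P, rfl⟩ := hT
    exact sylIn_map_subtype P
  refine ⟨fun h => ⟨fun K ⟨P, hP⟩ => ?_, fun K hK => le_antisymm ?_ ?_⟩, fun ⟨h1, h2⟩ K ⟨S, hS⟩ => ?_⟩
  · obtain ⟨P', rfl⟩ := Sylow.mapSurjective_surjective (QuotientGroup.mk'_surjective (T.subgroupOf (normalizer (T : Set G)))) p P
    obtain ⟨S, hS⟩ := hT'.pgrp.exists_le_sylow
    have hST : (S : Subgroup G) ⊓ A = T := hT'.max _ inf_le_right (S.isPGroup'.to_le inf_le_left) (le_inf hS hT'.le)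
    have hSN : (S : Subgroup G) ≤ normalizer (T : Set G) := fun k hk => mem_normalizer_iff_cj.mpr (by
      rw [← hST, cj_inf, cj_eq_of_mem hk, cj_eq_of_normal])
    have h3 := sylIn_map_subtype P'
    obtain ⟨S', hS'⟩ := ((sylIn_top S).of_card_le h3.pgrp le_top ((sylIn_of_le S hSN).card_eq h3).le).exists_sylow_top
    have h4 := h ((K.comap (QuotientGroup.mk' _)).map (normalizer (T : Set G)).subtype) ⟨S', hS' ▸ map_mono (map_le_iff_le_comap.mp hP)⟩
    have h5 := (pr_sub (map_subtype_le _)).mpr fun g _ => h4 g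
    rw [subgroupOf, comap_map_eq_self_of_injective (subtype_injective _)] at h5
    have h6 := pr_map _ (QuotientGroup.mk'_surjective (T.subgroupOf (normalizer (T : Set G)))) h5
    rwa [map_comap_eq_self_of_surjective (QuotientGroup.mk'_surjective _)] at h6
  · exact le_normalizer_map _
  · intro g hg
    obtain ⟨g, rfl⟩ := QuotientGroup.mk'_surjective A g
    obtain ⟨y, hy, e⟩ := h K hK g
    rw [mem_normalizer_iff_cj, ← map_cj] at hg
    have h3 := mem_map_of_mem (QuotientGroup.mk' A) hy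
    rw [Subgroup.map_sup, hg, sup_idem] at h3
    have h4 : y⁻¹ * g ∈ normalizer (K : Set G) := by
      rw [mem_normalizer_iff_cj, cj_mul]; exact cj_eq_iff.mpr (by rw [inv_inv]; exact e)
    have h5 := mul_mem (map_mono le_normalizer h3) (mem_map_of_mem (QuotientGroup.mk' A) h4)
    rwa [← map_mul, mul_inv_cancel_left] at h5
  · obtain ⟨b, hb, e0⟩ := (sylow_inf_normal S A).exists_cj_eq hT'
    have hk : ∀ a ∈ A, ∃ x ∈ K ⊔ cj a K, cj a K = cj x K := fun a ha => by
      obtain ⟨x, hx, e⟩ := key A hA T hT' h1 (cj b K) (b • S) (by rw [coe_smul_sylow]; exact cj_mono b hS)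
        (by rw [coe_smul_sylow, ← e0, cj_inf, cj_eq_of_normal b A]) (b * a * b⁻¹) (mul_mem (mul_mem hb ha) (inv_mem hb))
      rw [← cj_mul, inv_mul_cancel_right, cj_mul] at hx e
      rw [← cj_sup, mem_cj] at hx
      exact ⟨_, hx, by rw [cj_mul, cj_mul, ← e, cj_inv_cj]⟩
    intro g
    obtain ⟨y, hy, e⟩ := pr_lift (QuotientGroup.mk' A) (hQ _ ⟨S.mapSurjective (QuotientGroup.mk'_surjective A), map_mono hS⟩) g
    have h3 : QuotientGroup.mk' A (y⁻¹ * g) ∈ (normalizer (K : Set G)).map (QuotientGroup.mk' A) := by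
      rw [h2 K ⟨S, hS⟩, mem_normalizer_iff_cj, map_mul, cj_mul, ← map_cj _ g, e, map_cj, map_inv, cj_inv_cj]
    obtain ⟨n, hn, e1⟩ := h3
    have ha : y⁻¹ * g * n⁻¹ ∈ A := by
      rw [← QuotientGroup.ker_mk' A, MonoidHom.mem_ker, map_mul, ← e1, map_inv, mul_inv_cancel]
    obtain ⟨x, hx, e2⟩ := hk _ ha
    rw [cj_mul, cj_eq_of_mem_normalizer (inv_mem hn), cj_mul] at hx e2
    refine ⟨y * x, mul_mem hy ((sup_le le_sup_left (cj_le_of_le le_sup_right (inv_mem hy))) hx), ?_⟩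
    show cj g K = cj (y * x) K
    rw [cj_mul, ← e2, cj_cj_inv]

end Cfsg.Agent.S4270
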