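import Cfsg.Statements.S4271
import Cfsg.Agent.H9.TJ
import Cfsg.Agent.H2.Syl
import Cfsg.Agent.S4270

set_option autoImplicit false
open Cfsg

namespace Cfsg.Agent.S4271

open Cfsg.Agent Cfsg.Agent.H9
open Cfsg.Agent Cfsg.Agent.H2 Subgroup

/-- Let p be a prime and G a finite group with a normal subgroup A such that every subgroup of A containing a Sylow p-subgroup of A is pronormal in A, and the Sylow p-subgroups of G/A are self-normalizing. Let T be a Sylow p-subgroup of A. Then every subgroup of G containing a Sylow p-subgroup of G is pronormal in G if and only if every subgroup of N_G(T)/T containing a Sylow p-subgroup of N_G(T)/T is pronormal in N_G(T)/T. (Pronormal: H and gHg⁻¹ are conjugate inside the subgroup they generate, for every g.) -/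
theorem result {G : Type*} [Group G] [Finite G] {p : ℕ} [Fact p.Prime]
    (A : Subgroup G) [A.Normal] (hA : (∀ K : Subgroup ↥A, (∃ P : Sylow p ↥A, (P : Subgroup ↥A) ≤ K) → Cfsg.IsPronormal K))
    (hQ : ∀ P : Sylow p (G ⧸ A), Subgroup.normalizer ((P : Subgroup (G ⧸ A)) : Set (G ⧸ A)) = P)
    (T : Subgroup G) (hT : ∃ P : Sylow p ↥A, (P : Subgroup ↥A).map A.subtype = T) [(T.subgroupOf (Subgroup.normalizer (T : Set G))).Normal] :
    (∀ K : Subgroup G, (∃ P : Sylow p G, (P : Subgroup G) ≤ K) → Cfsg.IsPronormal K) ↔ (∀ K : Subgroup (↥(Subgroup.normalizer (T : Set G)) ⧸ T.subgroupOf (Subgroup.normalizer (T : Set G))), (∃ P : Sylow p (↥(Subgroup.normalizer (T : Set G)) ⧸ T.subgroupOf (Subgroup.normalizer (T : Set G))), (P : Subgroup (↥(Subgroup.normalizer (T : Set G)) ⧸ T.subgroupOf (Subgroup.normalizer (T : Set G)))) ≤ K) → Cfsg.IsPronormal K) := by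
  rw [S4270.result A hA (fun K ⟨P, hP⟩ g => ?_) T hT]
  · refine ⟨fun h => h.1, fun h => ⟨h, fun K ⟨S, hS⟩ => le_antisymm (le_normalizer_map _) fun g hg => ?_⟩⟩
    obtain ⟨n, hn, h1⟩ := (sylIn_of_le (S.mapSurjective (QuotientGroup.mk'_surjective A)) (map_mono hS)).frattini hg
    rw [hQ] at h1
    have h2 := mul_mem hn (map_mono hS h1)
    rw [mul_inv_cancel_left] at h2
    exact map_mono le_normalizer h2
  · obtain ⟨y, hy, e⟩ := (sylIn_of_le P (hP.trans (le_sup_left : K ≤ K ⊔ cj g K))).exists_cj_eq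
      (sylIn_of_le (g • P) (by rw [coe_smul_sylow]; exact (cj_mono g hP).trans le_sup_right))
    refine ⟨y, hy, ?_⟩
    have h1 : y⁻¹ * g ∈ normalizer ((P : Subgroup (G ⧸ A)) : Set (G ⧸ A)) := by
      rw [mem_normalizer_iff_cj, cj_mul, ← coe_smul_sylow, ← e, cj_inv_cj]
    rw [hQ] at h1
    show cj g K = cj y K
    conv_rhs => rw [← cj_eq_of_mem (hP h1), ← cj_mul, mul_inv_cancel_left]

end Cfsg.Agent.S4271
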