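import Cfsg.Statements.S4275
import Cfsg.Agent.GS.Lem1

set_option autoImplicit false
open Cfsg

namespace Cfsg.Agent.S4275

open Cfsg.Agent.H1

/-- Let G be a transitive group of permutations of a finite set Ω, let o ∈ Ω, and let α be an automorphism of G. Then α is induced by conjugation by a permutation of Ω normalizing G if and only if the image under α of the stabilizer of o fixes some point of Ω. -/
theorem result {Ω : Type*} [Fintype Ω] (G : Subgroup (Equiv.Perm Ω)) (htr : MulAction.IsPretransitive G Ω) (o : Ω) (α : G ≃* G) : (∃ σ : Equiv.Perm Ω, σ ∈ Subgroup.normalizer (G : Set (Equiv.Perm Ω)) ∧ ∀ g : G, ((α g : G) : Equiv.Perm Ω) = σ * (g : Equiv.Perm Ω) * σ⁻¹) ↔ ∃ ω : Ω, ∀ g ∈ (MulAction.stabilizer G o).map α.toMonoidHom, g • ω = ω := by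
  open Subgroup Pointwise commutatorElement Cfsg.Agent.BG Cfsg.Agent.GS in
  open Cfsg.Agent.H2 hiding card_lt_of_lt card_lt_of_ne_top isMulCommutative_of_le isPGroup_zpowers_iff mem_of_pow_mem_of_coprime inf_eq_bot_of_cop exists_maxElem_ge Sec in
  open Cfsg.Agent.H8 (Op Opp Fit SN) in
  open Cfsg.Agent.L (FPF) in focus
    constructor
    · rintro ⟨σ, -, h⟩
      refine ⟨σ o, ?_⟩
      rintro _ ⟨g, hg, rfl⟩
      show ((α g : G) : Equiv.Perm Ω) (σ o) = σ o
      have : (g : Equiv.Perm Ω) o = o := hg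
      simp [h, this]
    · rintro ⟨ω, h⟩
      choose t ht using fun x => htr.exists_smul_eq o x
      have h1 : ∀ (g : G) (x : Ω), α (t (g • x)) • ω = α g • α (t x) • ω := fun g x => by
        have := h _ (mem_map_of_mem _ (x := (t (g • x))⁻¹ * (g * t x)) (by
          rw [MulAction.mem_stabilizer_iff, mul_smul, mul_smul, ht, inv_smul_eq_iff, ht]))
        conv_lhs => rw [← this]
        simp [← mul_smul]
      have h2 : Function.Surjective fun x => α (t x) • ω := fun y => by
        obtain ⟨g, hg⟩ := htr.exists_smul_eq (α (t o) • ω) y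
        exact ⟨α.symm g • o, by simp only [h1, α.apply_symm_apply, hg]⟩
      let σ := Equiv.ofBijective _ (Finite.surjective_iff_bijective.1 h2)
      have h3 : ∀ g : G, ((α g : G) : Equiv.Perm Ω) = σ * g * σ⁻¹ := fun g =>
        eq_mul_inv_of_mul_eq (Equiv.ext fun x => (h1 g x).symm)
      exact ⟨σ, mem_normalizer_of_conj_mem fun x hx => h3 ⟨x, hx⟩ ▸ (α ⟨x, hx⟩).2, h3⟩

end Cfsg.Agent.S4275
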