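import Cfsg.Statements.S4331
import Cfsg.Agent.H8.Misc
import Cfsg.Agent.H3.Mackey
import Cfsg.Agent.H1.Cores

set_option autoImplicit false
open Cfsg

namespace Cfsg.Agent.S4331

open Subgroup hiding commutator_def
open Function Cfsg.Agent.Hopf Cfsg.Agent.Reg
open scoped commutatorElement Pointwise

/-- maps `z ↦ u * z^(3^e) + v` of the field of order 9 -/
@[ext] structure A where
  a : ZMod 3
  c : ZMod 3
  e : ZMod 3
  v : ZMod 3
  w : ZMod 3
  deriving DecidableEq, Fintype

def A.mul (x y : A) : A :=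
  ⟨x.a * y.a - x.e * x.c * y.c, x.c * y.a + x.e * x.a * y.c, x.e * y.e,
    x.a * y.v - x.e * x.c * y.w + x.v, x.c * y.v + x.e * x.a * y.w + x.w⟩

def A.inv (x : A) : A :=
  let n := x.a * x.a + x.c * x.c
  ⟨n * x.a, - (x.e * n * x.c), x.e, - (n * (x.a * x.v + x.c * x.w)),
    - (n * x.e * (x.a * x.w - x.c * x.v))⟩

def A.ok (x : A) : Prop := x.e * x.e = 1 ∧ (x.a * x.a + x.c * x.c) * (x.a * x.a + x.c * x.c) = 1

instance : DecidablePred A.ok := fun x => by unfold A.ok; infer_instance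

def B := {x : A // x.ok}

instance : Fintype B := by unfold B; infer_instance
instance : DecidableEq B := by unfold B; infer_instance

theorem ok_mul (x y : A) (hx : x.ok) (hy : y.ok) : (x.mul y).ok := by
  obtain ⟨h1, h2⟩ := hx
  obtain ⟨h3, h4⟩ := hy
  constructor
  · show x.e * y.e * (x.e * y.e) = 1
    linear_combination (y.e * y.e) * h1 + h3
  · have e : (x.a * y.a - x.e * x.c * y.c) * (x.a * y.a - x.e * x.c * y.c) +
        (x.c * y.a + x.e * x.a * y.c) * (x.c * y.a + x.e * x.a * y.c) =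
        (x.a * x.a + x.c * x.c) * (y.a * y.a + y.c * y.c) := by
      linear_combination ((x.a * x.a + x.c * x.c) * y.c * y.c) * h1
    show ((x.a * y.a - x.e * x.c * y.c) * (x.a * y.a - x.e * x.c * y.c) +
        (x.c * y.a + x.e * x.a * y.c) * (x.c * y.a + x.e * x.a * y.c)) * 
        ((x.a * y.a - x.e * x.c * y.c) * (x.a * y.a - x.e * x.c * y.c) +
        (x.c * y.a + x.e * x.a * y.c) * (x.c * y.a + x.e * x.a * y.c)) = 1
    rw [e]
    linear_combination ((y.a * y.a + y.c * y.c) * (y.a * y.a + y.c * y.c)) * h2 + h4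

theorem ok_inv : ∀ x : A, x.ok → x.inv.ok ∧ x.inv.mul x = ⟨1, 0, 1, 0, 0⟩ := by decide +kernel

instance : Group B where
  mul x y := ⟨x.1.mul y.1, ok_mul _ _ x.2 y.2⟩
  one := ⟨⟨1, 0, 1, 0, 0⟩, by decide⟩
  inv x := ⟨x.1.inv, (ok_inv _ x.2).1⟩
  mul_assoc x y z := Subtype.ext (by
    have h := x.2.1
    show (x.1.mul y.1).mul z.1 = x.1.mul (y.1.mul z.1)
    ext <;> simp only [A.mul]
    · linear_combination (x.1.a * y.1.e * y.1.c * z.1.c - x.1.a * y.1.e * y.1.c * z.1.c * 0) * h
        - (x.1.a * y.1.e * y.1.c * z.1.c) * h * 2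
    · linear_combination (- x.1.c * y.1.e * y.1.c * z.1.c) * h
    · ring
    · linear_combination (- x.1.a * y.1.e * y.1.c * z.1.w) * h
    · linear_combination (- x.1.c * y.1.e * y.1.c * z.1.w) * h)
  one_mul x := Subtype.ext (by
    show A.mul ⟨1, 0, 1, 0, 0⟩ x.1 = x.1
    ext <;> simp [A.mul])
  mul_one x := Subtype.ext (by
    show A.mul x.1 ⟨1, 0, 1, 0, 0⟩ = x.1
    ext <;> simp [A.mul])
  inv_mul_cancel x := Subtype.ext (ok_inv _ x.2).2

def t : B := ⟨⟨1, 0, -1, 0, 0⟩, by decide⟩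
def s : B := ⟨⟨1, 0, 1, 0, 1⟩, by decide⟩

theorem cardB : Fintype.card B = 144 := by decide +kernel

theorem key : ∀ c : B, (c * c * (c * c)) * (c * c * (c * c)) = 1 ∨
    ∃ h : B, t * (h * c * h⁻¹) = (h * c * h⁻¹) * t := by decide +kernel

/-- There is a finite solvable group G with a subgroup A of order 2 such that every conjugacy class of G contains an element g for which A is subnormal in the subgroup generated by A and g, and yet A is not contained in O_2(G). (So the corresponding criteria for odd primes fail at the prime 2, even for solvable groups.) -/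
theorem result :
    ∃ (G : Type) (_ : Group G) (_ : Finite G) (A : Subgroup G), Group.IsSolvable G ∧ Nat.card A = 2 ∧
      (∀ c : G, ∃ g : G, IsConj c g ∧ (A.subgroupOf (A ⊔ Subgroup.zpowers g)).IsSubnormal) ∧
      ¬ A ≤ Cfsg.pCore 2 G := by
  have ht : orderOf t = 2 := orderOf_eq_prime (by decide +kernel) (by decide +kernel)
  haveI := Fact.mk Nat.prime_two
  refine ⟨B, inferInstance, inferInstance, zpowers t, ?_, by rw [Nat.card_zpowers, ht], ?_, ?_⟩
  · apply H3.burnside_pq Nat.prime_two Nat.prime_three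
    intro r hr hd
    rw [Nat.card_eq_fintype_card, cardB, (by norm_num : 144 = 2 ^ 4 * 3 ^ 2), hr.dvd_mul] at hd
    exact hd.imp (fun h => (Nat.prime_dvd_prime_iff_eq hr Nat.prime_two).1 (hr.dvd_of_dvd_pow h))
      (fun h => (Nat.prime_dvd_prime_iff_eq hr Nat.prime_three).1 (hr.dvd_of_dvd_pow h))
  · intro c
    rcases key c with h | ⟨h, hh⟩
    · have h1 : IsPGroup 2 (zpowers c) := by
        rw [IsPGroup.iff_card, Nat.card_zpowers]
        have : orderOf c ∣ 2 ^ 3 := orderOf_dvd_of_pow_eq_one (by rw [← h]; simp [pow_succ, mul_assoc])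
        obtain ⟨i, -, e⟩ := (Nat.dvd_prime_pow Nat.prime_two).1 this
        exact ⟨i, e⟩
      have h2 : IsPGroup 2 (zpowers t) := IsPGroup.iff_card.2 ⟨1, by rw [Nat.card_zpowers, ht]; rfl⟩
      obtain ⟨P, hP⟩ := h1.exists_le_sylow
      obtain ⟨Q, hQ⟩ := h2.exists_le_sylow
      obtain ⟨g, rfl⟩ := MulAction.exists_smul_eq B P Q
      refine ⟨g * c * g⁻¹, isConj_iff.2 ⟨g, rfl⟩, ?_⟩
      have h3 : IsPGroup 2 ↥(zpowers t ⊔ zpowers (g * c * g⁻¹)) := (g • P).isPGroup'.to_le
        (sup_le hQ (zpowers_le.2 ⟨c, hP (mem_zpowers c), rfl⟩))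
      haveI := h3.isNilpotent
      exact H1.isSubnormal_of_isNilpotent this _
    · refine ⟨h * c * h⁻¹, isConj_iff.2 ⟨h, rfl⟩, Normal.isSubnormal ?_⟩
      rw [normal_subgroupOf_iff_le_normalizer le_sup_left, sup_le_iff]
      refine ⟨le_normalizer, zpowers_le.2 (centralizer_le_normalizer _ ?_)⟩
      rintro _ ⟨j, rfl⟩
      exact Commute.zpow_left hh j
  · intro h
    have h1 := h (mem_zpowers t)
    have h2 := mul_mem h1 (Normal.conj_mem inferInstance _ h1 s)
    have h3 : orderOf (t * (s * t * s⁻¹)) = 3 := by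
      haveI := Fact.mk Nat.prime_three
      exact orderOf_eq_prime (by decide +kernel) (by decide +kernel)
    obtain ⟨k, hk⟩ := H1.isPGroup_pCore 2 B ⟨_, h2⟩
    have h4 := orderOf_dvd_of_pow_eq_one (congrArg Subtype.val hk : (t * (s * t * s⁻¹)) ^ 2 ^ k = 1)
    rw [h3] at h4
    have := Nat.prime_three.dvd_of_dvd_pow h4
    omega

end Cfsg.Agent.S4331
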