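import Cfsg.Statements.S4332
import Cfsg.Agent.H8.Tr
import Cfsg.Agent.H8.Misc

set_option autoImplicit false
open Pointwise
open Cfsg

namespace Cfsg.Agent.S4332

open Subgroup hiding commutator_def
open Function Cfsg.Agent.Hopf Cfsg.Agent.Reg
open scoped commutatorElement Pointwise

def s0 : Equiv.Perm (Fin 8) := Equiv.swap 0 2 * Equiv.swap 0 1

def good (a b c a' b' c' : Fin 8) : Bool :=
  ((a' == a || a' == b || a' == c) && (b' == a || b' == b || b' == c) &&
    (c' == a || c' == b || c' == c)) ||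
  (a' != a && a' != b && a' != c && b' != a && b' != b && b' != c && c' != a && c' != b && c' != c)

def goodN (a b c a' b' c' : ℕ) : Bool :=
  ((a' == a || a' == b || a' == c) && (b' == a || b' == b || b' == c) &&
    (c' == a || c' == b || c' == c)) ||
  (a' != a && a' != b && a' != c && b' != a && b' != b && b' != c && c' != a && c' != b && c' != c)

def chk (l : List ℕ) (k v : ℕ) : Bool :=
  (List.range k).any fun b => (List.range b).any fun a => goodN a b k (l.getD a 0) (l.getD b 0) v

def srch : ℕ → ℕ → List ℕ → Bool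
  | 0, _, _ => false
  | n + 1, k, l => (List.range 8).all fun a => l.contains a || (chk l k a || srch n (k + 1) (l ++ [a]))

theorem srch_ok : srch 8 0 [] = true := by decide +kernel

theorem srch_spec (f : ℕ → ℕ) (hf : ∀ i j, i < 8 → j < 8 → f i = f j → i = j)
    (hf' : ∀ i, i < 8 → f i < 8) :
    ∀ n k, n + k = 8 → srch n k ((List.range k).map f) = true →
      ∃ a b d, a < b ∧ b < d ∧ d < 8 ∧ goodN a b d (f a) (f b) (f d) = true
  | 0, _, _, h => by simp [srch] at h
  | n + 1, k, hn, h => by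
    rw [srch, List.all_eq_true] at h
    have h1 := h (f k) (List.mem_range.2 (hf' k (by omega)))
    simp only [Bool.or_eq_true] at h1
    rcases h1 with h1 | h1 | h1
    · exfalso
      simp only [List.contains_iff_mem, List.mem_map, List.mem_range] at h1
      obtain ⟨a, ha, e⟩ := h1
      have := hf a k (by omega) (by omega) e
      omega
    · simp only [chk, List.any_eq_true, List.mem_range] at h1
      obtain ⟨b, hb, a, ha, h2⟩ := h1
      have e : ∀ i, i < k → ((List.range k).map f).getD i 0 = f i := by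
        intro i hi; simp [List.getD, hi]
      rw [e a (by omega), e b hb] at h2
      exact ⟨a, b, k, ha, hb, by omega, h2⟩
    · apply srch_spec f hf hf' n (k + 1) (by omega)
      rw [List.range_succ, List.map_append]
      exact h1

theorem exists_trip (c : Equiv.Perm (Fin 8)) :
    ∃ a b d : Fin 8, a < b ∧ b < d ∧ good a b d (c a) (c b) (c d) = true := by
  obtain ⟨a, b, d, h1, h2, h3, h⟩ := srch_spec (fun i => if h : i < 8 then (c ⟨i, h⟩).1 else 0)
    (fun i j hi hj e => by
      simp only [hi, hj, dif_pos] at e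
      exact congrArg Fin.val (c.injective (Fin.ext e)))
    (fun i hi => by simp only [hi, dif_pos]; exact Fin.is_lt _) 8 0 rfl srch_ok
  refine ⟨⟨a, by omega⟩, ⟨b, by omega⟩, ⟨d, h3⟩, h1, h2, ?_⟩
  simp only [h3, (by omega : a < 8), (by omega : b < 8), dif_pos] at h
  simpa [good, goodN, Fin.ext_iff] using h

theorem comm0 : ∀ a b d : Fin 8, a ≠ b → a ≠ d → b ≠ d → good 0 1 2 a b d = true →
    s0 * (Equiv.swap a d * Equiv.swap a b) = (Equiv.swap a d * Equiv.swap a b) * s0 := by
  decide +kernel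

theorem good_map (h : Equiv.Perm (Fin 8)) (a b c a' b' c' : Fin 8) :
    good (h a) (h b) (h c) (h a') (h b') (h c') = good a b c a' b' c' := by
  rw [Bool.eq_iff_iff]; simp [good]

theorem main0 (c : Equiv.Perm (Fin 8)) : ∃ g, IsConj c g ∧ Commute s0 (g * s0 * g⁻¹) := by
  obtain ⟨a, b, d, hab, hbd, hg⟩ := exists_trip c
  obtain ⟨h, h0, h1, h2⟩ : ∃ h : Equiv.Perm (Fin 8), h a = 0 ∧ h b = 1 ∧ h d = 2 := by
    obtain ⟨h, hh⟩ := Equiv.Perm.exists_extending_pair (f := ![a, b, d]) (g := ![(0 : Fin 8), 1, 2])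
      (by intro i j; fin_cases i <;> fin_cases j <;> simp <;> omega) (by decide)
    exact ⟨h, hh 0, hh 1, hh 2⟩
  refine ⟨h * c * h⁻¹, isConj_iff.2 ⟨h, rfl⟩, ?_⟩
  obtain ⟨g, hgd⟩ : ∃ g, g = h * c * h⁻¹ := ⟨_, rfl⟩
  rw [← hgd]
  have e : g * s0 * g⁻¹ = Equiv.swap (g 0) (g 2) * Equiv.swap (g 0) (g 1) := by
    rw [Equiv.swap_apply_apply, Equiv.swap_apply_apply, s0]; group
  rw [e]
  apply comm0 _ _ _ (g.injective.ne (by decide)) (g.injective.ne (by decide))
    (g.injective.ne (by decide))
  rw [← good_map h, h0, h1, h2] at hg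
  have e0 : g 0 = h (c a) := by rw [hgd, ← h0]; simp
  have e1 : g 1 = h (c b) := by rw [hgd, ← h1]; simp
  have e2 : g 2 = h (c d) := by rw [hgd, ← h2]; simp
  rw [e0, e1, e2]; exact hg

/-- In the symmetric group of degree 8, let A be the subgroup generated by a 3-cycle. Then every conjugacy class contains an element g for which A is subnormal in the subgroup generated by A and its conjugate by g, although O_3 of the symmetric group of degree 8 is trivial. -/
theorem result
    (σ : Equiv.Perm (Fin 8)) (hσ : σ.IsThreeCycle) :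
    (∀ c : Equiv.Perm (Fin 8), ∃ g : Equiv.Perm (Fin 8), IsConj c g ∧
      ((Subgroup.zpowers σ).subgroupOf (Subgroup.zpowers σ ⊔ MulAut.conj g • Subgroup.zpowers σ)).IsSubnormal) ∧
    Cfsg.pCore 3 (Equiv.Perm (Fin 8)) = ⊥ := by
  constructor
  · intro c
    have h0 : s0.IsThreeCycle := by
      rw [s0]; exact Equiv.Perm.isThreeCycle_swap_mul_swap_same (by decide) (by decide) (by decide)
    obtain ⟨k, hk⟩ := isConj_iff.1 (Equiv.Perm.isConj_of_cycleType_eq (h0.cycleType.trans hσ.cycleType.symm))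
    obtain ⟨g, hg, hc⟩ := main0 c
    refine ⟨k * g * k⁻¹, hg.trans (isConj_iff.2 ⟨k, rfl⟩), ?_⟩
    have hc' : Commute σ ((k * g * k⁻¹) * σ * (k * g * k⁻¹)⁻¹) := by
      rw [← hk]
      show _ = _
      calc k * s0 * k⁻¹ * (k * g * k⁻¹ * (k * s0 * k⁻¹) * (k * g * k⁻¹)⁻¹)
          = k * (s0 * (g * s0 * g⁻¹)) * k⁻¹ := by group
        _ = _ := by rw [hc.eq]; group
    apply Normal.isSubnormal
    rw [normal_subgroupOf_iff_le_normalizer le_sup_left, sup_le_iff]
    refine ⟨le_normalizer, ?_⟩
    rintro _ ⟨_, ⟨i, rfl⟩, rfl⟩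
    apply centralizer_le_normalizer
    rintro _ ⟨j, rfl⟩
    have := (hc'.zpow_zpow j i).eq
    rw [conj_zpow] at this
    exact this
  · rw [Cfsg.pCore, sSup_eq_bot]
    rintro N ⟨hN, h⟩
    by_contra hb
    haveI := Fact.mk Nat.prime_three
    have := perm_normal_dvd N hb
    obtain ⟨k, hk⟩ := IsPGroup.iff_card.1 h
    rw [Fintype.card_fin, hk] at this
    have h2 : 2 ∣ 3 := Nat.prime_two.dvd_of_dvd_pow ((by norm_num : 2 ∣ 8).trans this)
    omega

end Cfsg.Agent.S4332
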