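import Cfsg.Statements.S4333
import Cfsg.Agent.H8.Subnormal
import Cfsg.Agent.H8.Reg
import Cfsg.Agent.H1.Basic

set_option autoImplicit false
open Pointwise
open Cfsg

namespace Cfsg.Agent.S4333

open Subgroup hiding commutator_def
open Function Cfsg.Agent.Hopf Cfsg.Agent.Reg
open scoped commutatorElement Pointwise

open Cfsg.Agent.H8 in
theorem aux {G : Type*} [Group G] [Finite G] {X A : Subgroup G} (hA : A ≤ X)
    (h : ∀ a ∈ A, ∀ g ∈ X, SN (A ⊔ cj A (g⁻¹ * a * g)) A) : SN X A := by
  induction X using WellFoundedLT.induction with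
  | ind X ih =>
    by_contra hn
    have h1 : ∀ H, A ≤ H → H < X → SN H A :=
      fun H h1 h2 => ih H h2 h1 fun a ha x hx => h a ha x (h2.le hx)
    obtain ⟨M, hM, hM'⟩ := zipper hA hn h1
    have hAX : A < X := lt_of_le_of_ne hA fun e => hn (SN.of_norm hA (e ▸ le_normalizer))
    have hAM : A ≤ M := hM' A le_rfl hAX
    have h3 : ∀ a ∈ A, ∀ g ∈ X, g⁻¹ * a * g ∈ normalizer (M : Set G) := by
      intro a ha g hg
      have ht : g⁻¹ * a * g ∈ X := mul_mem (mul_mem (inv_mem hg) (hA ha)) hg
      have h4 : cj A (g⁻¹ * a * g) ≤ M :=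
        le_sup_right.trans (hM' _ le_sup_left
          (lt_of_le_of_ne (sup_le hA (cj_le_of_mem' hA ht)) fun e => hn (by
            have := h a ha g hg
            rwa [e] at this)))
      have h5 : cj M (g⁻¹ * a * g)⁻¹ ≤ M := by
        refine hM' _ (cj_le_iff.1 h4) (lt_of_le_of_ne (cj_le_of_mem' hM.le (inv_mem ht)) fun e => ?_)
        have : M = cj X (g⁻¹ * a * g)⁻¹⁻¹ := cj_eq_iff.1 e
        rw [cj_eq_of_mem (inv_mem (inv_mem ht))] at this
        exact hM.ne this
      refine (inv_mem_iff).1 (H1.mem_normalizer_of_conj_mem fun x hx => h5 ?_)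
      rw [mem_cj]
      simpa [mul_assoc] using hx
    have h2 : ncl A X ≤ M := by
      by_cases hX : X ≤ normalizer (M : Set G)
      · exact ncl_le hAM hX
      · have hlt : X ⊓ normalizer (M : Set G) < X :=
          lt_of_le_of_ne inf_le_left fun e => hX (e ▸ inf_le_right)
        have h6 := hM' _ (le_inf hA (hAM.trans le_normalizer)) hlt
        rw [ncl_le_iff]
        intro x hx y hy
        rw [mem_cj] at hy
        have h7 := h3 _ hy x⁻¹ (inv_mem hx)
        have e : x⁻¹⁻¹ * (x⁻¹ * y * x) * x⁻¹ = y := by group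
        rw [e] at h7
        refine h6 (mem_inf.2 ⟨?_, h7⟩)
        rw [← e]
        exact mul_mem (mul_mem (inv_mem (inv_mem hx)) (hA hy)) (inv_mem hx)
    exact hn ((sn_iff_sn_ncl hA).2 (h1 _ (le_ncl A X) (lt_of_le_of_lt h2 hM)))

/-- Let A be a subgroup of a finite group G. If A is subnormal in the subgroup generated by A and its conjugate by g⁻¹ a g, for every a ∈ A and every g ∈ G, then A is subnormal in G. (A sharpening of Wielandt's subnormality criterion: only conjugates of A by conjugates of elements of A are needed.) -/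
theorem result {G : Type*} [Group G] [Finite G]
    (A : Subgroup G)
    (h : ∀ a ∈ A, ∀ g : G, (A.subgroupOf (A ⊔ MulAut.conj (g⁻¹ * a * g) • A)).IsSubnormal) :
    A.IsSubnormal := by
  refine (aux le_top fun a ha g _ => ?_).isSubnormal
  exact H8.sn_iff.2 ⟨le_sup_left, h a ha g⟩

end Cfsg.Agent.S4333
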