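import Cfsg.Statements.S4337
import Cfsg.Agent.H8.Tr
import Cfsg.Agent.H8.Misc
import Cfsg.Agent.H3.Mackey

set_option autoImplicit false
open Cfsg

namespace Cfsg.Agent.S4337

open Subgroup hiding commutator_def
open Function Cfsg.Agent.Hopf Cfsg.Agent.Reg
open scoped commutatorElement Pointwise


/-- In a finite symmetric group, any three transpositions generate a solvable subgroup. -/
theorem result (n : ℕ) (a b c : Equiv.Perm (Fin n))
    (ha : a.IsSwap) (hb : b.IsSwap) (hc : c.IsSwap) :
    Group.IsSolvable (Subgroup.closure ({a, b, c} : Set (Equiv.Perm (Fin n)))) := by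
  have e : ({a, b, c} : Set (Equiv.Perm (Fin n))) = Set.range ![a, b, c] := by
    simp [Matrix.range_cons, Matrix.range_empty]
    ext; simp; tauto
  rw [e]
  apply Cfsg.Agent.H3.burnside_pq Nat.prime_two Nat.prime_three
  intro r hr hd
  have := swap_prime_le ![a, b, c] (by intro i; fin_cases i <;> assumption) hr hd
  simp at this
  have h2 := hr.two_le
  interval_cases r
  · simp
  · simp
  · exact absurd hr (by decide)

end Cfsg.Agent.S4337
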