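import Cfsg.Statements.S4344
import Mathlib
import Cfsg.Agent.H7.SylN

set_option autoImplicit false
open Cfsg

namespace Cfsg.Agent.S4344

/-- Let S be a finite non-abelian simple group, M a maximal subgroup of S and C a cyclic normal subgroup of M. If a Sylow p-subgroup P of S (for a prime p dividing the order of S) is contained in C, then the number of Sylow p-subgroups of S equals the index of M. -/
theorem result {S : Type*} [Group S] [Finite S]
    [IsSimpleGroup S] (hS : ¬ IsMulCommutative S) (p : ℕ) [Fact p.Prime] (hp : p ∣ Nat.card S)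
    (M : Subgroup S) (hM : IsCoatom M) (C : Subgroup S) (hCM : C ≤ M) (hCn : (C.subgroupOf M).Normal)
    (hC : IsCyclic C) (P : Sylow p S) (hP : (P : Subgroup S) ≤ C) :
    Nat.card (Sylow p S) = M.index := by
  rw [H7.card_sylow_eq P]
  congr 1
  refine (hM.le_iff.1 (fun g hg => ?_)).resolve_left (H7.Sv.normalizer_sylow_ne_top hS hp P)
  have h1 := (Subgroup.normal_subgroupOf_iff_le_normalizer hCM).1 hCn hg
  refine H2.mem_normalizer_of_cj_le ?_
  refine (H2.sylIn_of_le P hP).normal_le (H2.isPGroup_cj g P.isPGroup')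
    ((H2.cj_mono g hP).trans (H2.cj_eq_of_mem_normalizer h1).le) ?_
  refine le_trans ?_ (Subgroup.centralizer_le_normalizer _)
  intro a ha b hb
  exact congrArg Subtype.val (mul_comm' (⟨b, ((H2.cj_mono g hP).trans
    (H2.cj_eq_of_mem_normalizer h1).le) hb⟩ : C) ⟨a, hP ha⟩)

end Cfsg.Agent.S4344
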