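import Cfsg.Statements.S4345
import Mathlib
import Cfsg.Agent.H7.SylN

set_option autoImplicit false
open Cfsg

namespace Cfsg.Agent.S4345

/-- Let G be a finite solvable group and p, ℓ primes. Then the largest power of ℓ dividing the number of Sylow p-subgroups of G is congruent to 1 modulo p. -/
theorem result {G : Type*} [Group G] [Finite G]
    (hG : Group.IsSolvable G) (p ℓ : ℕ) [Fact p.Prime] (hℓ : ℓ.Prime) :
    ℓ ^ (Nat.card (Sylow p G)).factorization ℓ ≡ 1 [MOD p] := by
  obtain ⟨l, a, b⟩ := H7.sylow_list p G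
  rw [← a]
  have key : ∀ m ∈ l, m ≠ 0 ∧ ℓ ^ m.factorization ℓ ≡ 1 [MOD p] := fun m hm => by
    rcases b m hm with ⟨h1, h2⟩ | ⟨S, i, j, h, h', h''⟩
    · refine ⟨h1.ne_zero, ?_⟩
      obtain ⟨q, k, hq, hk, rfl⟩ := (isPrimePow_nat_iff m).1 h1
      rw [hq.factorization_pow, Finsupp.single_apply]
      split_ifs with e
      · subst e
        rw [Nat.ModEq, h2, Nat.mod_eq_of_lt (Fact.out : p.Prime).one_lt]
      · rw [pow_zero]
    · rw [h', H7.card_sylow_comm ⟨⟨(IsSimpleGroup.comm_iff_isSolvable.2 (h'' hG))⟩⟩]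
      simp [Nat.ModEq.refl]
  clear a b
  induction l with
  | nil => simp [Nat.ModEq.refl]
  | cons m l ih =>
    rw [List.prod_cons, Nat.factorization_mul (key m List.mem_cons_self).1
      (List.prod_ne_zero fun h => (key 0 (List.mem_cons_of_mem _ h)).1 rfl), Finsupp.add_apply, pow_add]
    exact (key m List.mem_cons_self).2.mul (ih fun m hm => key m (List.mem_cons_of_mem _ hm))

end Cfsg.Agent.S4345
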