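import Cfsg.Statements.S4346
import Mathlib
import Cfsg.Agent.H7.W2p
import Cfsg.Agent.H7.SylN

set_option autoImplicit false
open Cfsg

namespace Cfsg.Agent.S4346

open H7 H3 MulAction

/-- No finite group has exactly 22 Sylow 3-subgroups. -/
theorem result {G : Type*} [Group G] [Finite G] : Nat.card (Sylow 3 G) ≠ 22 := by
  intro hn
  classical
  haveI : Fact (Nat.Prime 3) := ⟨by norm_num⟩
  haveI : Fact (Nat.Prime 11) := ⟨by norm_num⟩
  obtain ⟨S, _, _, _, h1, h2, h3⟩ := H7.exists_simple_sylow hn (by norm_num) (by decide +kernel)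
    fun m hm h => by
      have := Nat.le_of_dvd (by norm_num) hm
      interval_cases m <;> simp_all
  obtain ⟨P⟩ : Nonempty (Sylow 3 S) := inferInstance
  haveI : FaithfulSMul S (Sylow 3 S) := ⟨fun {a b} h => by
    rw [← mul_inv_eq_one]
    exact eq_one_of_forall_smul h1 h2 fun Q => by rw [mul_smul, h, smul_inv_smul]⟩
  haveI : Nontrivial (Sylow 3 S) := Finite.one_lt_card_iff_nontrivial.1 (by omega)
  haveI : IsPreprimitive S (Sylow 3 S) := by
    rw [← isCoatom_stabilizer_iff_preprimitive S P, P.stabilizer_eq_normalizer]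
    refine ⟨Sv.normalizer_sylow_ne_top h1 h2 P, fun H hH => ?_⟩
    have h4 := card_sylow_sylIn (H2.sylIn_of_le P (Subgroup.le_normalizer.trans hH.le))
    have h5 := Subgroup.relIndex_mul_index hH.le
    have h6 := card_sylow_modEq_one 3 H
    rw [← P.card_eq_index_normalizer, h3] at h5
    have h7 : Nat.card (Sylow 3 H) ≠ 1 := fun e => hH.not_ge (Subgroup.relIndex_eq_one.1 (h4 ▸ e))
    erw [← h4] at h5
    have h8 := Nat.le_of_dvd (by norm_num) (Dvd.intro _ h5)
    rw [← Subgroup.index_eq_one]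
    unfold Nat.ModEq at h6
    interval_cases Nat.card (Sylow 3 H) <;> omega
  letI := Fintype.ofFinite (Sylow 3 S)
  have h4 : IsMultiplyPretransitive S (Sylow 3 S) 2 := by
    by_contra h
    obtain ⟨n, -, hn', -⟩ := wielandt (p := 11) (by rw [← Nat.card_eq_fintype_card, h3]) h
    have : n < 3 := by nlinarith
    interval_cases n <;> omega
  have h5 := card_eq_of_orbits h1 h2 (fun P Q => by
    by_cases e : Q = P
    · rw [e, Subgroup.relIndex_self]; exact one_dvd _
    obtain ⟨k, hk⟩ := P.isPGroup'.index ((Q : Subgroup S).subgroupOf P)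
    have h5 := dvd_ncard_of_orbits (G := (P : Subgroup S)) (m := 3 ^ k) {P}ᶜ (Set.toFinite _)
      (fun g R hR e => hR (MulAction.injective g (e.trans ((smul_sylow_eq_iff g.2).2 g.2).symm)))
      fun R hR => by
        obtain ⟨g, a, b⟩ := mt_two h4 (Ne.symm e) (Ne.symm hR)
        rw [← relIndex_eq_card_orbit, ← a, ← b, H2.coe_smul_sylow, H2.coe_smul_sylow, H2.relIndex_cj,
          Subgroup.relIndex, hk]
    have h6 := Set.ncard_add_ncard_compl {P}
    rw [Set.ncard_singleton, h3] at h6
    rw [show ({P}ᶜ : Set (Sylow 3 S)).ncard = 21 by omega] at h5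
    rw [Subgroup.relIndex, hk]
    rcases k with _ | _ | k
    · simp
    · simp
    · exact absurd ((show 9 ∣ 3 ^ (k + 1 + 1) from ⟨3 ^ k, by ring⟩).trans h5) (by norm_num)) P
  obtain ⟨x, K, h, -⟩ := exists_D1_sylow P h5
  letI := Fintype.ofFinite K
  letI := Fintype.ofFinite S
  have hG := commutator_eq_top_of_simple h1
  have he := h.one_lt_card_Eg hG
  have he' : Nat.card (Eg h) = 2 := le_antisymm (Nat.le_of_dvd (by norm_num) (card_Eg_dvd h)) he
  obtain ⟨X, Y, δ, ε, hB⟩ := h.exists_br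
  obtain ⟨χ, a1, a2, -, -, a3⟩ := hB.exists_pair he'
  obtain ⟨θ, hθ⟩ := hB.nonempty
  have a4 := a3 θ hθ
  have a5 := hB.deg_dvd_X a2
  have a6 := hB.deg_dvd_Y hθ
  rw [← h.card_eq_mul.1, he', h3] at a5 a6
  have a7 := one_lt_degree' hG a1
  have a8 := one_lt_degree' hG (χ := θ) fun e => hB.one_not_mem (e ▸ hθ)
  have a9 := Nat.le_of_dvd (by norm_num) a5
  generalize charDegree (χ : S → ℂ) = u at *
  generalize charDegree (θ : S → ℂ) = v at *
  obtain rfl | rfl : v = u + 1 ∨ u = v + 1 := by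
    rcases hB.sign χ a2 with e | e <;> rcases hB.eps with f | f <;> rw [e, f] at a4 <;> omega
  · interval_cases u <;> omega
  · have : v ≤ 44 := by omega
    interval_cases v <;> omega

end Cfsg.Agent.S4346
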