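import Cfsg.Statements.S4354
import Cfsg.Agent.H8.Ito
import Cfsg.Agent.H1.Carter

set_option autoImplicit false
open Cfsg

namespace Cfsg.Agent.S4354

open Subgroup hiding commutator_def
open Function Cfsg.Agent.Hopf Cfsg.Agent.Reg
open scoped commutatorElement Pointwise


/-- Let G be a finite group and p a prime such that the Sylow p-subgroups of G are non-abelian while every element of p-power order has conjugacy class size prime to p, and suppose no nontrivial proper normal subgroup N of G has this property and no quotient G/N by such an N has it. Then G is simple. -/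
theorem result {G : Type*} [Group G] [Finite G]
    (p : ℕ) [Fact p.Prime] (h : ((∃ P : Sylow p G, ¬ IsMulCommutative P) ∧ ∀ x : G, (∃ k : ℕ, orderOf x = p ^ k) → ¬ p ∣ (Subgroup.centralizer ({x} : Set G)).index))
    (hmin : ∀ (N : Subgroup G) [N.Normal], N ≠ ⊥ → N ≠ ⊤ →
      ¬ ((∃ P : Sylow p N, ¬ IsMulCommutative P) ∧ ∀ x : N, (∃ k : ℕ, orderOf x = p ^ k) → ¬ p ∣ (Subgroup.centralizer ({x} : Set N)).index) ∧
      ¬ ((∃ P : Sylow p (G ⧸ N), ¬ IsMulCommutative P) ∧ ∀ x : (G ⧸ N), (∃ k : ℕ, orderOf x = p ^ k) → ¬ p ∣ (Subgroup.centralizer ({x} : Set (G ⧸ N))).index)) :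
    IsSimpleGroup G := by
  obtain ⟨⟨P, hP⟩, h2⟩ := h
  haveI : Nontrivial G := by
    by_contra h0
    rw [not_nontrivial_iff_subsingleton] at h0
    exact hP ⟨⟨fun a b => Subsingleton.elim _ _⟩⟩
  refine ⟨fun N hN => ?_⟩
  by_contra hc
  push Not at hc
  obtain ⟨h3, h4⟩ := hmin N hc.1 hc.2
  have a1 : ∀ Q : Sylow p N, IsMulCommutative Q := by
    by_contra h0
    push Not at h0
    refine h3 ⟨h0, fun x hx hd => h2 x (by simpa using hx) (hd.trans ?_)⟩
    have e1 : centralizer ({x} : Set N) = (centralizer ({(x : G)} : Set G)).subgroupOf N := by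
      ext u
      rw [mem_subgroupOf, mem_centralizer_singleton_iff, mem_centralizer_singleton_iff,
        Subtype.ext_iff]
      rfl
    rw [e1]
    exact H1.relIndex_dvd_index_of_normal_right _ N
  have a2 : ∀ Q : Sylow p (G ⧸ N), IsMulCommutative Q := by
    by_contra h0
    push Not at h0
    refine h4 ⟨h0, fun x ⟨k, hk⟩ hd => ?_⟩
    obtain ⟨g, rfl⟩ := QuotientGroup.mk'_surjective N x
    obtain ⟨n, e, hn⟩ := H2.exists_lift_ppow (p := p) (QuotientGroup.mk' N) g (j := k)
      (by rw [← hk, pow_orderOf_eq_one])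
    refine h2 (g ^ n) (ord_iff.2 hn) (hd.trans ?_)
    rw [← index_comap_of_surjective _ (QuotientGroup.mk'_surjective N)]
    apply index_dvd_of_le
    intro u hu
    rw [mem_comap, mem_centralizer_singleton_iff, ← e, ← map_mul, ← map_mul,
      mem_centralizer_singleton_iff.1 hu]
  have b1 : ∀ a ∈ (P : Subgroup G), ∀ b ∈ (P : Subgroup G), a ∈ N → b ∈ N → a * b = b * a := by
    intro a ha b hb ha' hb'
    obtain ⟨Q, hQ⟩ := (P.isPGroup'.comap_subtype (K := N)).exists_le_sylow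
    exact congrArg (fun z : Q => ((z : N) : G))
      ((a1 Q).is_comm.comm ⟨⟨a, ha'⟩, hQ ha⟩ ⟨⟨b, hb'⟩, hQ hb⟩)
  have b2 : ∀ a ∈ (P : Subgroup G), ∀ b ∈ (P : Subgroup G),
      QuotientGroup.mk' N a * QuotientGroup.mk' N b = QuotientGroup.mk' N b * QuotientGroup.mk' N a := by
    intro a ha b hb
    obtain ⟨Q, hQ⟩ := (P.isPGroup'.map (QuotientGroup.mk' N)).exists_le_sylow
    exact congrArg Subtype.val ((a2 Q).is_comm.comm ⟨_, hQ (mem_map_of_mem _ ha)⟩
      ⟨_, hQ (mem_map_of_mem _ hb)⟩)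
  have key : ∀ x ∈ (P : Subgroup G), ∃ m ∈ (P : Subgroup G), m ∈ N ∧
      ∃ z ∈ centralizer (P : Set G), x = m * z := by
    intro x hx
    have hxp := H2.orderOf_eq_pow_of_mem P.isPGroup' hx
    obtain ⟨R, hR, hxR⟩ := H2.exists_sylIn_ge (H := centralizer {x})
      (H2.isPGroup_zpowers_iff.2 (ord_iff.1 hxp)) (zpowers_le.2 (mem_centralizer_singleton_iff.2 rfl))
    obtain ⟨g, -, hg⟩ := (hR.trans_of_not_dvd le_top
      (by rw [relIndex_top_right]; exact h2 x hxp)).exists_cj_eq (H2.sylIn_top P)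
    have hz1 : g * x * g⁻¹ ∈ (P : Subgroup G) := hg ▸ H2.conj_mem_cj g (hxR (mem_zpowers x))
    have hz2 : g * x * g⁻¹ ∈ centralizer (P : Set G) := by
      intro u hu
      have h4 : u ∈ H2.cj g (centralizer {x}) := H2.cj_mono g hR.le (hg ▸ hu)
      rw [H2.cj_centralizer_singleton] at h4
      exact mem_centralizer_singleton_iff.1 h4
    obtain ⟨C, hC⟩ : ∃ C, C = (centralizer {QuotientGroup.mk' N (g * x * g⁻¹)}).comap
      (QuotientGroup.mk' N) := ⟨_, rfl⟩
    have c1 : (P : Subgroup G) ≤ C := fun u hu => by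
      rw [hC, mem_comap, mem_centralizer_singleton_iff]; exact b2 u hu _ hz1
    have c2 : H2.cj g (P : Subgroup G) ≤ C := by
      rw [H2.cj_le_iff_forall]
      intro u hu
      rw [hC, mem_comap, mem_centralizer_singleton_iff]
      have := b2 u hu x hx
      simp only [map_mul, map_inv]
      calc _ = QuotientGroup.mk' N g * (QuotientGroup.mk' N u * QuotientGroup.mk' N x) *
          (QuotientGroup.mk' N g)⁻¹ := by group
        _ = _ := by rw [this]; group
    have s1 : H2.SylIn p (H2.cj g (P : Subgroup G)) C := by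
      have := (H2.sylIn_top P).cj g
      rw [H2.cj_top] at this
      exact this.mono c2 le_top
    obtain ⟨c, hc, e⟩ := s1.exists_cj_eq (H2.sylIn_of_le P c1)
    rw [← H2.cj_mul, ← H2.mem_normalizer_iff_cj] at e
    have m1 : c * (g * x * g⁻¹) * c⁻¹ * (g * x * g⁻¹)⁻¹ ∈ N := by
      rw [hC, mem_comap, mem_centralizer_singleton_iff] at hc
      rw [← QuotientGroup.ker_mk' N, MonoidHom.mem_ker, map_mul, map_mul, map_mul, hc]
      simp
    have m2 : c * (g * x * g⁻¹) * c⁻¹ ∈ (P : Subgroup G) := by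
      simpa [mul_assoc] using (mem_normalizer_iff.1 e x).1 hx
    refine ⟨(c * g)⁻¹ * (c * (g * x * g⁻¹) * c⁻¹ * (g * x * g⁻¹)⁻¹) * (c * g)⁻¹⁻¹,
      (mem_normalizer_iff.1 (inv_mem e) _).1 (mul_mem m2 (inv_mem hz1)), hN.conj_mem _ m1 _,
      (c * g)⁻¹ * (g * x * g⁻¹) * (c * g)⁻¹⁻¹,
      (mem_normalizer_iff.1 (H1.normalizer_le_normalizer_centralizer _ (inv_mem e)) _).1 hz2, by group⟩
  refine hP ⟨⟨fun a b => Subtype.ext ?_⟩⟩
  obtain ⟨m, hm, hm', z, hz, e⟩ := key a a.2
  obtain ⟨m2, hm2, hm2', z2, hz2, e2⟩ := key b b.2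
  show (a : G) * b = b * a
  calc (a : G) * b = m * (z * b) := by rw [e, mul_assoc]
    _ = m * m2 * z2 * z := by rw [← hz b b.2, e2]; group
    _ = m2 * (m * z2) * z := by rw [b1 m hm m2 hm2 hm' hm2']; group
    _ = _ := by rw [hz2 m hm, e2, e]; group

end Cfsg.Agent.S4354
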