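import Cfsg.Statements.S4355
import Cfsg.Agent.C3.CamHer

set_option autoImplicit false
open Cfsg

namespace Cfsg.Agent.S4355

open H2 C3 Subgroup

/-- If every element of 2-power order of a finite group has a conjugacy class of odd size, then the Sylow 2-subgroups of the group are abelian. -/
theorem result {G : Type*} [Group G] [Finite G]
    (h : ∀ x : G, (∃ k : ℕ, orderOf x = 2 ^ k) → ¬ 2 ∣ (Subgroup.centralizer ({x} : Set G)).index) (P : Sylow 2 G) :
    IsMulCommutative P := by
  have h1 : AllCen G := fun x j hj => by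
    have h2 := h x (((Nat.dvd_prime_pow Nat.prime_two).1 (orderOf_dvd_of_pow_eq_one hj)).imp fun _ h => h.2)
    obtain ⟨Q, hQ⟩ := exists_sylIn 2 (centralizer ({x} : Set G))
    refine ⟨hQ.pgrp.toSylow fun e => ?_, hQ.le⟩
    rw [← relIndex_mul_index hQ.le] at e
    exact ((Nat.Prime.dvd_mul Nat.prime_two).1 e).elim hQ.not_dvd_relIndex h2
  exact ⟨⟨fun a b => Subtype.ext (h1.abelian P a.2 b.2)⟩⟩

end Cfsg.Agent.S4355
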