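import Cfsg.Statements.S4364
import Cfsg.Agent.C3.Kaz

set_option autoImplicit false
open Cfsg

namespace Cfsg.Agent.S4364

open Subgroup

/-- Let G be a finite group, p a prime and x an element whose conjugacy class has p-power size. Then for any two conjugates y and z of x, the commutator y z y⁻¹ z⁻¹ lies in O_p(G), the largest normal p-subgroup of G. -/
theorem result {G : Type*} [Group G] [Finite G] (p : ℕ) [Fact p.Prime]
    (x : G) (hx : ∃ a : ℕ, (Subgroup.centralizer ({x} : Set G)).index = p ^ a) (g h : G) :
    (g * x * g⁻¹) * (h * x * h⁻¹) * (g * x * g⁻¹)⁻¹ * (h * x * h⁻¹)⁻¹ ∈ Cfsg.pCore p G := by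
  obtain ⟨a, hx⟩ := hx
  have := normalClosure_normal (s := {x})
  exact C3.der_closure_le hx (commutator_mem_commutator (this.conj_mem _ (subset_normalClosure rfl) g)
    (this.conj_mem _ (subset_normalClosure rfl) h))

end Cfsg.Agent.S4364
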