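import Cfsg.Statements.S4370
import Cfsg.Agent.H8.Ito
import Cfsg.Agent.L.PCyc2

set_option autoImplicit false
open Cfsg

namespace Cfsg.Agent.S4370

open Subgroup hiding commutator_def
open Function Cfsg.Agent.Hopf Cfsg.Agent.Reg
open scoped commutatorElement Pointwise

theorem qc (n : ℕ) [NeZero n] (u : QuaternionGroup n) (hu : u ∉ center (QuaternionGroup n)) :
    ∃ v, centralizer ({u} : Set (QuaternionGroup n)) ≤ zpowers v := by
  have h2 : ∀ j : ZMod (2 * n), j = -j → ∀ i, QuaternionGroup.a j ∈ zpowers (QuaternionGroup.xa i) := by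
    intro j hj i
    rcases (ZMod.neg_eq_self_iff j).1 hj.symm with h | h
    · rw [h]; exact one_mem _
    · have : j = (n : ZMod (2 * n)) := by
        rw [← ZMod.natCast_zmod_val j, Nat.eq_of_mul_eq_mul_left two_pos h]
      rw [this, ← QuaternionGroup.xa_sq i]; exact pow_mem (mem_zpowers _) _
  rcases u with i | i
  · refine ⟨QuaternionGroup.a 1, fun w hw => ?_⟩
    rw [mem_centralizer_singleton_iff] at hw
    rcases w with j | j
    · rw [← ZMod.natCast_zmod_val j, ← QuaternionGroup.a_one_pow]; exact pow_mem (mem_zpowers _) _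
    · exfalso
      apply hu
      simp only [QuaternionGroup.xa_mul_a, QuaternionGroup.a_mul_xa, QuaternionGroup.xa.injEq] at hw
      have h : i = -i := by linear_combination hw
      rw [mem_center_iff]
      rintro (k | k)
      · simp [add_comm]
      · simp only [QuaternionGroup.xa_mul_a, QuaternionGroup.a_mul_xa, QuaternionGroup.xa.injEq]
        linear_combination h
  · refine ⟨QuaternionGroup.xa i, fun w hw => ?_⟩
    rw [mem_centralizer_singleton_iff] at hw
    rcases w with j | j
    · simp only [QuaternionGroup.xa_mul_a, QuaternionGroup.a_mul_xa, QuaternionGroup.xa.injEq] at hw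
      exact h2 j (by linear_combination -hw) i
    · simp only [QuaternionGroup.xa_mul_xa, QuaternionGroup.a.injEq] at hw
      have e : QuaternionGroup.xa j = QuaternionGroup.xa i * QuaternionGroup.a (j - i) := by simp
      rw [e]
      exact mul_mem (mem_zpowers _) (h2 _ (by linear_combination -hw) i)

/-- Let G be a finite non-abelian nilpotent group. Then the centralizer of every non-central element of G is cyclic if and only if G is isomorphic to the direct product of a generalized quaternion group and a cyclic group of odd order. -/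
theorem result {G : Type*} [Group G] [Finite G] (hG : Group.IsNilpotent G)
    (hna : ¬ IsMulCommutative G) :
    (∀ x : G, x ∉ Subgroup.center G → IsCyclic (Subgroup.centralizer ({x} : Set G))) ↔
      ∃ (k m : ℕ), 1 ≤ k ∧ Odd m ∧ Nonempty (G ≃* QuaternionGroup (2 ^ k) × Multiplicative (ZMod m)) := by
  haveI := Fact.mk Nat.prime_two
  constructor
  · intro h
    obtain ⟨x0, hx0⟩ : ∃ x0 : G, x0 ∉ center G := by
      by_contra h0
      push Not at h0
      exact hna ⟨⟨fun a b => mem_center_iff.1 (h0 b) a⟩⟩
    have hab : ∀ A : Subgroup G, (∀ a ∈ A, ∀ b ∈ A, a * b = b * a) → IsCyclic A := by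
      intro A hA
      by_cases h1 : A ≤ center G
      · haveI := h x0 hx0
        exact isCyclic_of_le (h1.trans (center_le_centralizer {x0}))
      · obtain ⟨a, ha, ha'⟩ := SetLike.not_le_iff_exists.1 h1
        haveI := h a ha'
        exact isCyclic_of_le (fun b hb => mem_centralizer_singleton_iff.2 (hA b hb a ha) :
          A ≤ centralizer {a})
    have hsyl : ∀ (p : ℕ) [Fact p.Prime] (P : Sylow p G), IsCyclic (P : Subgroup G) ∨
        (p = 2 ∧ ∃ n : ℕ, 1 ≤ n ∧ Nonempty ((P : Subgroup G) ≃* QuaternionGroup (2 ^ n))) := by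
      intro p hp P
      apply L.isCyclic_or_quaternion_of_rank_one P.isPGroup'
      rintro E ⟨h1, h2⟩ hc
      have h3 := hab (E.map (P : Subgroup G).subtype) (by
        rintro _ ⟨a, ha, rfl⟩ _ ⟨b, hb, rfl⟩
        exact congrArg (fun z : E => ((z : (P : Subgroup G)) : G)) (h1.is_comm.comm ⟨a, ha⟩ ⟨b, hb⟩))
      obtain ⟨⟨_, u, hu, rfl⟩, hv⟩ := IsCyclic.exists_ofOrder_eq_natCard
        (α := E.map (P : Subgroup G).subtype)
      rw [card_map_of_injective (subtype_injective _), hc] at hv
      have h4 : p ^ 2 ∣ p := by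
        rw [← hv]
        exact orderOf_dvd_of_pow_eq_one (Subtype.ext
          (congrArg (P : Subgroup G).subtype (h2 u hu) |> (map_pow _ _ _).symm.trans))
      have := Nat.le_of_dvd hp.out.pos h4
      nlinarith [hp.out.one_lt]
    obtain ⟨S⟩ : Nonempty (Sylow 2 G) := inferInstance
    rcases hsyl 2 S with h1 | ⟨-, k, hk, ⟨e⟩⟩
    · exfalso
      haveI : IsZGroup G := by
        constructor
        intro p hp P
        haveI := Fact.mk hp
        rcases hsyl p P with h2 | ⟨rfl, -⟩
        · exact h2
        · exact isCyclic_of_surjective (S.equiv P) (S.equiv P).surjective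
      exact hna (IsCyclic.isMulCommutative)
    have hcm : ∀ u ∈ (S : Subgroup G), ∀ g ∈ Cfsg.pResidual 2 G, u * g = g * u := by
      intro u hu g hg
      have : Cfsg.pResidual 2 G ≤ centralizer {u} := by
        rw [H2.pResidual_le_iff]
        intro g hg
        obtain ⟨k, hk⟩ := S.isPGroup' ⟨u, hu⟩
        exact mem_centralizer_singleton_iff.2 (H1.commute_of_isNilpotent_of_coprime (K := ⊤)
          inferInstance (mem_top _) (mem_top _) (cop_of_pow (congrArg Subtype.val hk) hg)).symm
      exact (mem_centralizer_singleton_iff.1 (this hg)).symm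
    have hnil : H2.PNil 2 (⊤ : Subgroup G) := H2.pNil_of_isNilpotent inferInstance
    have hco := hnil.isComplement' S
    obtain ⟨u, hu, hu'⟩ : ∃ u ∈ (S : Subgroup G), u ∉ center G := by
      by_contra h0
      push Not at h0
      haveI := hab S (fun a ha b _ => (mem_center_iff.1 (h0 a ha) b).symm)
      haveI := isCyclic_of_surjective e e.surjective
      haveI : NeZero (2 ^ k) := ⟨by positivity⟩
      have := IsCyclic.isMulCommutative.is_comm.comm (QuaternionGroup.a 1 : QuaternionGroup (2 ^ k))
        (QuaternionGroup.xa 0)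
      simp only [QuaternionGroup.xa_mul_a, QuaternionGroup.a_mul_xa, QuaternionGroup.xa.injEq] at this
      have h2 : ((2 : ℕ) : ZMod (2 * 2 ^ k)) = 0 := by push_cast; linear_combination -this
      rw [ZMod.natCast_eq_zero_iff] at h2
      have h3 := Nat.le_of_dvd two_pos h2
      have h4 : 1 < 2 ^ k := Nat.one_lt_two_pow (by omega)
      omega
    haveI := h u hu'
    haveI hN : IsCyclic (Cfsg.pResidual 2 G) := isCyclic_of_le (fun g hg =>
      mem_centralizer_singleton_iff.2 (hcm u hu g hg).symm : _ ≤ centralizer {u})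
    refine ⟨k, Nat.card (Cfsg.pResidual 2 G), hk, ?_, ⟨?_⟩⟩
    · have := H2.pNil_iff_card.1 hnil
      rw [H2.resOf_top] at this
      exact Nat.coprime_two_right.1 this
    · refine MulEquiv.trans (MulEquiv.symm (MulEquiv.ofBijective (MonoidHom.noncommCoprod
        (S : Subgroup G).subtype (Cfsg.pResidual 2 G).subtype (fun a b => hcm a a.2 b b.2)) hco.symm))
        (MulEquiv.prodCongr e (zmodCyclicMulEquiv hN).symm)
  · rintro ⟨k, m, hk, hm, ⟨e⟩⟩ x hx
    haveI : NeZero (2 ^ k) := ⟨by positivity⟩
    haveI : NeZero m := ⟨hm.pos.ne'⟩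
    have h1 : (e x).1 ∉ center (QuaternionGroup (2 ^ k)) := by
      intro h
      apply hx
      rw [mem_center_iff]
      intro g
      apply e.injective
      rw [map_mul, map_mul]
      exact Prod.ext (mem_center_iff.1 h _) (mul_comm _ _)
    obtain ⟨v, hv⟩ := qc _ _ h1
    obtain ⟨c, hc⟩ := IsCyclic.exists_generator (α := Multiplicative (ZMod m))
    have hcm : Commute ((v, 1) : QuaternionGroup (2 ^ k) × Multiplicative (ZMod m)) (1, c) := by
      simp [Commute, SemiconjBy]
    have hco : (orderOf ((v, 1) : QuaternionGroup (2 ^ k) × Multiplicative (ZMod m))).Coprime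
        (orderOf ((1, c) : QuaternionGroup (2 ^ k) × Multiplicative (ZMod m))) := by
      simp only [Prod.orderOf_mk, orderOf_one, Nat.lcm_one_right, Nat.lcm_one_left]
      have a1 : orderOf v ∣ 2 ^ (k + 2) := by
        have := _root_.orderOf_dvd_natCard v
        rwa [Nat.card_eq_fintype_card, QuaternionGroup.card, (by ring : 4 * 2 ^ k = 2 ^ (k + 2))] at this
      have a2 : orderOf c ∣ m := by simpa using _root_.orderOf_dvd_natCard c
      exact Nat.Coprime.coprime_dvd_left a1 (Nat.Coprime.coprime_dvd_right a2
        (Nat.Coprime.pow_left _ (Nat.coprime_two_left.2 hm)))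
    have m1 := mem_zp_mul hcm hco
    have m2 := mem_zp_mul hcm.symm hco.symm
    rw [← hcm.eq] at m2
    refine isCyclic_of_le (H' := zpowers (e.symm ((v, 1) * (1, c)))) ?_
    intro w hw
    have h2 : (e w).1 ∈ zpowers v := hv (mem_centralizer_singleton_iff.2 (by
      have := congrArg (fun z => (e z).1) (mem_centralizer_singleton_iff.1 hw)
      simpa using this))
    obtain ⟨i, hi⟩ := h2
    obtain ⟨j, hj⟩ := hc (e w).2
    have h3 : e w = (v, 1) ^ i * (1, c) ^ j := by
      ext
      · simpa using hi.symm
      · simpa using congrArg Multiplicative.toAdd hj.symm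
    obtain ⟨l, hl⟩ := mul_mem (zpow_mem m1 i) (zpow_mem m2 j)
    refine ⟨l, ?_⟩
    apply e.injective
    simp only [map_zpow, MulEquiv.apply_symm_apply]
    rw [h3]; exact hl

end Cfsg.Agent.S4370
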