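import Cfsg.Statements.S4376
import Cfsg.Agent.C3.OT1
import Cfsg.Agent.C3.OT2
import Cfsg.Agent.C3.OT3

set_option autoImplicit false
open Cfsg

namespace Cfsg.Agent.S4376

open Cfsg.Agent.C3.OT

theorem main : ∃ e : ℕ → ℕ, Re True False e ∧ Re False True e := by
  refine ⟨_, (re_A.pow 6).mul (Re.list (fun p => cnt (oP p)) neg fun p hp => re_P _ (List.all_eq_true.1 neg_ok p hp)), ?_⟩
  refine (re_L.mul ((re_L.pow 5).mul (Re.list (fun p => cnt (oP p)) pos fun p hp =>
    (re_P _ (List.all_eq_true.1 pos_ok p hp)).weak False.elim id))).congr fun d hd => ?_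
  exact (Nat.eq_of_beq_eq_true (List.all_eq_true.1 eq_ok d hd)).symm

theorem E_gcd (G : Type) [Group G] (h : ∀ g : G, g ^ 168 = 1) (n : ℕ) : E G n = E G (Nat.gcd n 168) := by
  refine Nat.card_congr (Equiv.subtypeEquivRight fun g => ?_)
  rw [← orderOf_dvd_iff_pow_eq_one, ← orderOf_dvd_iff_pow_eq_one, Nat.dvd_gcd_iff]
  exact ⟨fun h1 => ⟨h1, orderOf_dvd_iff_pow_eq_one.2 (h g)⟩, fun h1 => h1.1⟩

theorem E_sum (G : Type) [Group G] [Finite G] (n : ℕ) (hn : n ≠ 0) :
    E G n = Nat.card {g : G // orderOf g = n} + ∑ m ∈ n.properDivisors, Nat.card {g : G // orderOf g = m} := by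
  classical
  haveI := Fintype.ofFinite G
  have h := sum_card_orderOf_eq_card_pow_eq_one (G := G) hn
  rw [← Nat.insert_self_properDivisors hn, Finset.sum_insert Nat.self_notMem_properDivisors] at h
  have h2 : ∀ p : G → Prop, Nat.card {g : G // p g} = (Finset.univ.filter p).card := fun p =>
    Nat.subtype_card _ (by simp)
  rw [E, h2, h2, Finset.sum_congr rfl fun m _ => h2 fun g => orderOf g = m]
  convert h.symm

/-- There are finite groups G and H having the same number of elements of each order (the same order type) with G solvable and H not solvable. -/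
theorem result :
    ∃ (G : Type) (_ : Group G) (_ : Finite G) (H : Type) (_ : Group H) (_ : Finite H),
      Group.IsSolvable G ∧ ¬ Group.IsSolvable H ∧ ∀ n : ℕ, Nat.card {g : G // orderOf g = n} = Nat.card {h : H // orderOf h = n} := by
  obtain ⟨e, ⟨G, _, _, a1, -, a3, a4⟩, ⟨H, _, _, -, b2, b3, b4⟩⟩ := main
  refine ⟨G, _, inferInstance, H, _, inferInstance, a1 trivial, b2 trivial, ?_⟩
  have hD : ∀ d, d < 169 → d ∣ 168 → d ∈ D := by decide +kernel
  have hE : ∀ n, E G n = E H n := fun n => by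
    have h1 := hD (Nat.gcd n 168) (Nat.lt_succ_of_le (Nat.le_of_dvd (by decide) (Nat.gcd_dvd_right _ _)))
      (Nat.gcd_dvd_right _ _)
    rw [E_gcd G a3, E_gcd H b3, a4 _ h1, b4 _ h1]
  intro n
  induction n using Nat.strong_induction_on with
  | _ n ih =>
    rcases Nat.eq_zero_or_pos n with rfl | hn
    · haveI : IsEmpty {g : G // orderOf g = 0} := ⟨fun g => (orderOf_pos g.1).ne' g.2⟩
      haveI : IsEmpty {g : H // orderOf g = 0} := ⟨fun g => (orderOf_pos g.1).ne' g.2⟩
      rw [Nat.card_of_isEmpty, Nat.card_of_isEmpty]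
    · have h1 := hE n
      rw [E_sum G n hn.ne', E_sum H n hn.ne',
        Finset.sum_congr rfl fun m hm => ih m (Nat.mem_properDivisors.1 hm).2] at h1
      omega

end Cfsg.Agent.S4376
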