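import Cfsg.Statements.S4377
import Cfsg.Agent.GS.Cnt

set_option autoImplicit false
open Cfsg

namespace Cfsg.Agent.S4377

open Cfsg.Agent.H1

/-- Two finite groups have the same number of elements of each order if and only if, for every n, they have the same number of elements g with gⁿ = 1. -/
theorem result {G H : Type*} [Group G] [Finite G] [Group H] [Finite H] :
    (∀ n : ℕ, Nat.card {g : G // orderOf g = n} = Nat.card {h : H // orderOf h = n}) ↔
      ∀ n : ℕ, Nat.card {g : G // g ^ n = 1} = Nat.card {h : H // h ^ n = 1} := by
  open Subgroup Pointwise commutatorElement Cfsg.Agent.BG Cfsg.Agent.GS in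
  open Cfsg.Agent.H2 hiding card_lt_of_lt card_lt_of_ne_top isMulCommutative_of_le isPGroup_zpowers_iff mem_of_pow_mem_of_coprime inf_eq_bot_of_cop exists_maxElem_ge Sec in
  open Cfsg.Agent.H8 (Op Opp Fit SN) in
  open Cfsg.Agent.L (FPF) in focus
    classical
    refine ⟨fun h n => ?_, fun h n => ?_⟩
    · obtain ⟨e, he⟩ := exists_equiv_orderOf h
      exact Nat.card_congr (e.subtypeEquiv fun g => by rw [← orderOf_dvd_iff_pow_eq_one, ← orderOf_dvd_iff_pow_eq_one, he])
    have := Fintype.ofFinite G
    have := Fintype.ofFinite H
    simp only [Nat.card_eq_fintype_card, Fintype.card_subtype] at h ⊢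
    induction n using Nat.strong_induction_on with
    | h n ih =>
    rcases n.eq_zero_or_pos with rfl | hn
    · simp [Finset.filter_eq_empty_iff.2, (orderOf_pos _).ne']
    have h1 := (sum_card_orderOf_eq_card_pow_eq_one (G := G) hn.ne').trans (Eq.trans (by convert h n) (sum_card_orderOf_eq_card_pow_eq_one (G := H) hn.ne').symm)
    rw [← Nat.insert_self_properDivisors hn.ne', Finset.sum_insert Nat.self_notMem_properDivisors,
      Finset.sum_insert Nat.self_notMem_properDivisors, Finset.sum_congr rfl fun m hm => ih m (Nat.mem_properDivisors.1 hm).2] at h1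
    exact add_right_cancel h1

end Cfsg.Agent.S4377
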