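import Cfsg.Statements.S4381
import Cfsg.Agent.H9.TJ
import Cfsg.Agent.H8.Act
import Cfsg.Agent.H1.Products
import Cfsg.Agent.H1.Coprime
import Cfsg.Agent.L.Frattini

set_option autoImplicit false
open Pointwise
open Cfsg

namespace Cfsg.Agent.S4381

open Cfsg.Agent Cfsg.Agent.H9

/-- Let the finite group A act by automorphisms on the finite group G with the orders of A and G coprime, and assume that A or G is solvable. Call a proper A-invariant subgroup of G maximal A-invariant when no A-invariant subgroup lies strictly between it and G. Then all maximal A-invariant subgroups of G are conjugate under elements of the fixed-point subgroup C_G(A) if and only if G is a p-group for some prime p and A leaves invariant no subgroup strictly between the Frattini subgroup of G and G. In that case, if G is nontrivial, the Frattini subgroup is the only maximal A-invariant subgroup (a trivial G has none). -/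
theorem result {A G : Type*} [Group A] [Finite A]
    [Group G] [Finite G] [MulDistribMulAction A G] (hcop : (Nat.card A).Coprime (Nat.card G)) (hsol : Group.IsSolvable A ∨ Group.IsSolvable G) :
    ((∀ M N : Subgroup G, (M ≠ ⊤ ∧ (∀ a : A, ∀ x ∈ M, a • x ∈ M) ∧ ∀ L : Subgroup G, M < L → (∀ a : A, ∀ x ∈ L, a • x ∈ L) → L = ⊤) → (N ≠ ⊤ ∧ (∀ a : A, ∀ x ∈ N, a • x ∈ N) ∧ ∀ L : Subgroup G, N < L → (∀ a : A, ∀ x ∈ L, a • x ∈ L) → L = ⊤) →
        ∃ c : G, (∀ a : A, a • c = c) ∧ N = MulAut.conj c • M) ↔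
      ((∃ p : ℕ, p.Prime ∧ IsPGroup p G) ∧ ∀ L : Subgroup G, frattini G < L → (∀ a : A, ∀ x ∈ L, a • x ∈ L) → L = ⊤)) ∧
    (((∃ p : ℕ, p.Prime ∧ IsPGroup p G) ∧ ∀ L : Subgroup G, frattini G < L → (∀ a : A, ∀ x ∈ L, a • x ∈ L) → L = ⊤) →
      ∀ M : Subgroup G, (M ≠ ⊤ ∧ (∀ a : A, ∀ x ∈ M, a • x ∈ M) ∧ ∀ L : Subgroup G, M < L → (∀ a : A, ∀ x ∈ L, a • x ∈ L) → L = ⊤) ↔ (M = frattini G ∧ M ≠ ⊤)) := by
  classical
  let Inv : Subgroup G → Prop := fun M => ∀ a : A, ∀ x ∈ M, a • x ∈ M
  let Mx : Subgroup G → Prop := fun M => M ≠ ⊤ ∧ Inv M ∧ ∀ L : Subgroup G, M < L → Inv L → L = ⊤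
  have hΦ : Inv (frattini G) := fun a x hx =>
    (Subgroup.characteristic_iff_le_comap.mp inferInstance (MulDistribMulAction.toMulAut A G a)) hx
  have hΦM : ∀ M, Mx M → frattini G ≤ M := by
    intro M hM
    by_contra h
    have h1 : M < M ⊔ frattini G := left_lt_sup.mpr h
    refine hM.1 (frattini_nongenerating (hM.2.2 _ h1 fun a x hx => ?_))
    have : (M ⊔ frattini G) ≤ (M ⊔ frattini G).comap (MulDistribMulAction.toMonoidHom G a) :=
      sup_le (fun y hy => Subgroup.mem_sup_left (hM.2.1 a y hy)) fun y hy => Subgroup.mem_sup_right (hΦ a y hy)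
    exact this hx
  have h2 : (∀ L : Subgroup G, frattini G < L → Inv L → L = ⊤) → ∀ M, Mx M ↔ (M = frattini G ∧ M ≠ ⊤) := by
    intro h M
    constructor
    · intro hM
      refine ⟨?_, hM.1⟩
      by_contra hne
      exact hM.1 (h M (lt_of_le_of_ne (hΦM M hM) (Ne.symm hne)) hM.2.1)
    · rintro ⟨rfl, hM⟩
      exact ⟨hM, hΦ, h⟩
  have hex : ∀ H : Subgroup G, H ≠ ⊤ → Inv H → ∃ M, Mx M ∧ H ≤ M := by
    intro H h1 h2
    obtain ⟨M, hM, hmax⟩ := WellFounded.has_min (wellFounded_gt (α := Subgroup G)) {M | M ≠ ⊤ ∧ Inv M ∧ H ≤ M}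
      ⟨H, h1, h2, le_rfl⟩
    refine ⟨M, ⟨hM.1, hM.2.1, fun L hL hI => ?_⟩, hM.2.2⟩
    by_contra hne
    exact hmax L ⟨hne, hI, hM.2.2.trans hL.le⟩ hL
  refine ⟨⟨fun h => ?_, fun h M N hM hN => ⟨1, fun a => smul_one a, ?_⟩⟩, fun h => h2 h.2⟩
  swap
  · rw [map_one, one_smul, ((h2 h.2 M).mp hM).1, ((h2 h.2 N).mp hN).1]
  obtain ⟨Γ, _, _, i, j, hi, hj, hin, hij⟩ := Reg.exists_amb G A
  have hcop' : (Nat.card j.range).Coprime (Nat.card i.range) := by rwa [Reg.card_range_inj hi, Reg.card_range_inj hj]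
  have hp : ∃ p : ℕ, p.Prime ∧ IsPGroup p G := by
    by_contra hnp
    push Not at hnp
    have hbot : (⊥ : Subgroup G) ≠ ⊤ := fun e => hnp 2 Nat.prime_two (IsPGroup.of_card (n := 0) (by
      rw [← Subgroup.card_top, ← e]; simp))
    obtain ⟨M, hM, -⟩ := hex ⊥ hbot fun a x hx => by rw [Subgroup.mem_bot.mp hx, smul_one]; exact one_mem _
    obtain ⟨p, hp, hd⟩ := Nat.exists_prime_and_dvd (mt Subgroup.index_eq_one.mp hM.1)
    haveI := Fact.mk hp
    obtain ⟨P, hP, hPA⟩ := H1.exists_invariant_isSylowIn (A := j.range) (K := i.range) Subgroup.le_normalizer_of_normal hcop'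
      (hsol.imp (fun h => @Group.isSolvable_of_surjective _ _ _ _ _ j.rangeRestrict_surjective h)
        fun h => @Group.isSolvable_of_surjective _ _ _ _ _ i.rangeRestrict_surjective h) p
    have e : (P.comap i).map i = P := Subgroup.map_comap_eq_self hP.1
    obtain ⟨N, hN, hPN⟩ := hex (P.comap i) (fun e' => hnp p hp
      (((hP.2.1.comap_of_injective i hi).to_le e'.ge).of_equiv Subgroup.topEquiv)) ((Reg.amb_inv hi hij).mp (e.symm ▸ hPA))
    obtain ⟨c, -, hc⟩ := h M N hM hN
    apply hP.2.2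
    rw [← Subgroup.index_comap]
    refine Dvd.dvd.trans ?_ (Subgroup.index_dvd_of_le hPN)
    rw [hc, H1.index_conj_smul]
    exact hd
  refine ⟨hp, fun L hL hI => ?_⟩
  obtain ⟨p, hp, hG⟩ := hp
  haveI := Fact.mk hp
  by_contra hLt
  obtain ⟨M, hM, hLM⟩ := hex L hLt hI
  have huniq : ∀ N, Mx N → N = M := fun N hN => by
    obtain ⟨c, -, hc⟩ := h M N hM hN
    haveI : M.Normal := Subgroup.Normal.of_commutator_le G ((Cfsg.Agent.L.commutator_le_frattini hG).trans (hΦM M hM))
    rw [hc]; exact Subgroup.Normal.conj_smul_eq_self c M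
  let Φ : Subgroup Γ := (frattini i.range).map i.range.subtype
  haveI : Φ.Normal := Cfsg.Agent.L.normal_map_subtype_of_char _
  have hΦe : (frattini G).map i = Φ := by
    rw [show Φ = _ from congrArg (Subgroup.map i.range.subtype) (H1.map_frattini_equiv (MonoidHom.ofInjective hi)).symm,
      Subgroup.map_map]
    rfl
  let i' := (QuotientGroup.mk' Φ).comp i
  let j' := (QuotientGroup.mk' Φ).comp j
  have hij' : ∀ a g, i' (a • g) = j' a * i' g * (j' a)⁻¹ := fun a g => by simp [i', j', hij]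
  have hker : i'.ker = frattini G := by
    rw [← MonoidHom.comap_ker, QuotientGroup.ker_mk', ← hΦe, Subgroup.comap_map_eq_self_of_injective hi]
  have hinv : ∀ H : Subgroup G, Inv H → j'.range ≤ Subgroup.normalizer ((H.map i' : Subgroup _) : Set _) := by
    rintro H hH _ ⟨a, rfl⟩
    refine Subgroup.mem_normalizer_fintype ?_
    rintro _ ⟨x, hx, rfl⟩
    exact ⟨a • x, hH a x hx, hij' a x⟩
  have hpd : p ∣ Nat.card G := by
    obtain ⟨k, hk⟩ := IsPGroup.iff_card.mp hG
    rw [hk]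
    refine dvd_pow_self p fun h0 => hLt ?_
    rw [h0, pow_zero] at hk
    haveI := (Nat.card_eq_one_iff_unique.mp hk).1
    exact Subsingleton.elim _ _
  obtain ⟨W, w1, w2, w3⟩ := H1.maschke_elementary hp (A := j'.range) (V := (⊤ : Subgroup G).map i') (U := M.map i')
    ⟨Cfsg.Agent.L.isMulCommutative_of_forall (by
        rintro _ ⟨x, -, rfl⟩ _ ⟨y, -, rfl⟩
        rw [← commutatorElement_eq_one_iff_mul_comm, ← map_commutatorElement, ← MonoidHom.mem_ker, hker]
        exact Cfsg.Agent.L.commutator_le_frattini hG (Subgroup.commutator_mem_commutator (Subgroup.mem_top _) (Subgroup.mem_top _))),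
      by
        rintro _ ⟨x, -, rfl⟩
        rw [← map_pow, ← MonoidHom.mem_ker, hker]
        exact Cfsg.Agent.L.pow_mem_frattini hG x⟩
    (hinv ⊤ fun _ _ _ => trivial)
    ((hcop.coprime_dvd_right hpd).coprime_dvd_left (Subgroup.card_range_dvd j'))
    (Subgroup.map_mono le_top) (hinv M hM.2.1)
  have hWt : W.comap i' ≠ ⊤ := by
    intro e
    have : M.map i' = ⊥ := by
      rw [← w2, left_eq_inf, Subgroup.map_le_iff_le_comap, e]; exact le_top
    rw [Subgroup.map_eq_bot_iff, hker] at this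
    exact hL.not_ge (hLM.trans this)
  obtain ⟨N, hN, hWN⟩ := hex _ hWt fun a x hx => by
    rw [Subgroup.mem_comap, hij']
    exact (Subgroup.mem_normalizer_iff.mp (w1 ⟨a, rfl⟩) _).mp hx
  rw [huniq N hN] at hWN
  have hWV : W ≤ i'.range := by rw [MonoidHom.range_eq_map, ← w3]; exact le_sup_right
  have hW : W ≤ M.map i' := by
    rw [← Subgroup.map_comap_eq_self hWV]; exact Subgroup.map_mono hWN
  rw [sup_eq_left.mpr hW] at w3
  have := congrArg (Subgroup.comap i') w3
  rw [Subgroup.comap_map_eq, Subgroup.comap_map_eq, hker, sup_eq_left.mpr (hΦM M hM), top_sup_eq] at this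
  exact hM.1 this

end Cfsg.Agent.S4381
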