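import Cfsg.Statements.S4387
import Cfsg.Agent.GS.Lem1

set_option autoImplicit false
open Pointwise
open Cfsg

namespace Cfsg.Agent.S4387

open Cfsg.Agent.H1

/-- Let G be a non-trivial finite group in which any two maximal subgroups are conjugate. Then G is cyclic of prime-power order. -/
theorem result {G : Type*} [Group G] [Finite G] [Nontrivial G]
    (h : ∀ M N : Subgroup G, IsCoatom M → IsCoatom N → ∃ g : G, N = MulAut.conj g • M) :
    IsCyclic G ∧ IsPrimePow (Nat.card G) := by
  open Subgroup Pointwise commutatorElement Cfsg.Agent.BG Cfsg.Agent.GS in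
  open Cfsg.Agent.H2 hiding card_lt_of_lt card_lt_of_ne_top isMulCommutative_of_le isPGroup_zpowers_iff mem_of_pow_mem_of_coprime inf_eq_bot_of_cop exists_maxElem_ge Sec in
  open Cfsg.Agent.H8 (Op Opp Fit SN) in
  open Cfsg.Agent.L (FPF) in focus
    obtain ⟨M, hM, -⟩ := exists_coatom_ge (bot_ne_top (α := Subgroup G))
    have h1 : ∀ g : G, (∀ c, g ∉ c ⋆ M) → zpowers g = ⊤ := fun g hg => by_contra fun e => by
      obtain ⟨N, hN, h2⟩ := exists_coatom_ge e
      obtain ⟨c, rfl⟩ := h M N hM hN
      exact hg c (h2 (mem_zpowers g))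
    obtain ⟨g, hg⟩ : ∃ g : G, ∀ c, g ∉ c ⋆ M := by
      by_contra! e; exact hM.1 (eq_top_of_forall_cj e)
    have hc : IsCyclic G := isCyclic_iff_exists_zpowers_eq_top.2 ⟨g, h1 g hg⟩
    refine ⟨hc, by_contra fun e => hM.1 (eq_top_of_forall_pelt fun p hp y ⟨k, hk⟩ => by_contra fun hy => e ?_)⟩
    have : M.Normal := normal_iff_top_le.2 fun a _ => mem_normalizer_of_conj_mem fun x hx => by
      rwa [hc.isMulCommutative.is_comm.comm a x, mul_inv_cancel_right]
    rw [← card_top, ← h1 y fun c => by rwa [cj_eq_of_normal], Nat.card_zpowers, hk]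
    exact hp.isPrimePow.pow fun e => hy (by rw [e, pow_zero, orderOf_eq_one_iff] at hk; exact hk ▸ one_mem _)

end Cfsg.Agent.S4387
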