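import Cfsg.Statements.S4398
import Mathlib
import Cfsg.Agent.H2.MC2

set_option autoImplicit false
open Cfsg

namespace Cfsg.Agent.S4398

open Cfsg.Agent.H2 Subgroup

/-- Let S be a finite 2-group of sectional 2-rank at most 2 that contains a subgroup isomorphic to the dihedral group of order 8 or to the quaternion group of order 8. Then S is dihedral of order at least 8, semidihedral of order at least 16 (order 2^(k+4) with an element a of order 2^(k+3) and an involution b with b a b⁻¹ = a^(2^(k+2)−1)), or generalized quaternion of order at least 8. -/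
theorem result {S : Type*} [Group S] [Finite S] (h2 : IsPGroup 2 S) (hr : Cfsg.SectionalPRankLE 2 2 S)
    (hsub : ∃ H : Subgroup S, Nonempty (↥H ≃* DihedralGroup 4) ∨ Nonempty (↥H ≃* QuaternionGroup 2)) :
    ((∃ k : ℕ, Nonempty (S ≃* DihedralGroup (2 ^ (k + 2)))) ∨
      (∃ k : ℕ, Nat.card S = 2 ^ (k + 4) ∧ ∃ a b : S, orderOf a = 2 ^ (k + 3) ∧ orderOf b = 2 ∧ b * a * b⁻¹ = a ^ (2 ^ (k + 2) - 1)) ∨
      (∃ k : ℕ, Nonempty (S ≃* QuaternionGroup (2 ^ (k + 1))))) := by
  obtain ⟨R, hR⟩ := hsub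
  obtain ⟨x, y, h⟩ := exists_mc_one (h2.to_subgroup R) hR
  have hR8 : Nat.card R = 8 := h.card
  refine dsq_of_index h2 (h.index_commutator h2 ?_) (fun e => by
    have := card_le_card_group R; omega)
  by_contra hC
  have hZ := h.center_eq
  have hlt : R ⊓ centralizer (R : Set S) < centralizer (R : Set S) :=
    lt_of_le_of_ne inf_le_right fun e => hC (e.ge.trans inf_le_left)
  obtain ⟨c, hc, hc1, hc2⟩ : ∃ c ∈ centralizer (R : Set S), c ∉ R ∧ c * c ∈ R := by
    obtain ⟨c, hc, hc1⟩ := SetLike.not_le_iff_exists.1 hC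
    obtain ⟨k, hk⟩ := h2 c
    have hex : ∃ k, c ^ 2 ^ k ∈ R := ⟨k, hk ▸ one_mem _⟩
    classical
    have h0 : Nat.find hex ≠ 0 := fun e => hc1 (by simpa [e] using Nat.find_spec hex)
    obtain ⟨j, hj⟩ := Nat.exists_eq_succ_of_ne_zero h0
    refine ⟨c ^ 2 ^ j, pow_mem hc _, Nat.find_min hex (by omega), ?_⟩
    have := Nat.find_spec hex
    rwa [hj, pow_succ, pow_mul, pow_two] at this
  have hcn : c ∈ normalizer (R : Set S) := centralizer_le_normalizer _ hc
  have hK := card_sup_two hcn hc2 hc1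
  have hz2 : Nat.card (zpowers (x ^ (2 * 1))) = 2 := by simpa using h.ord_sq
  have hsq : ∀ g ∈ R ⊔ zpowers c, g * g ∈ zpowers (x ^ (2 * 1)) := by
    have h1 : ∀ g ∈ R, g * g ∈ zpowers (x ^ (2 * 1)) := fun g hg => by
      by_cases h3 : g ∈ zpowers x
      · exact (ix2_zpowers_sq x).sq h3
      · rcases h.sq_mem hg h3 with e | e <;> rw [e]
        exacts [one_mem _, mem_zpowers _]
    intro g hg
    rcases (mem_sup_two hcn hc2).1 hg with h3 | h3
    · exact h1 g h3
    · have h4 : c * c ∈ zpowers (x ^ (2 * 1)) := hZ ▸ mem_inf.2 ⟨hc2, mul_mem hc hc⟩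
      have h5 := hc _ h3
      have : g * g = (c * c) * ((c⁻¹ * g) * (c⁻¹ * g)) := by
        rw [mul_assoc c c, ← mul_assoc c (c⁻¹ * g), ← h5]; group
      rw [this]
      exact mul_mem h4 (h1 _ h3)
  have hZR : zpowers (x ^ (2 * 1)) ≤ R := hZ ▸ inf_le_left
  have hn : R ⊔ zpowers c ≤ normalizer (zpowers (x ^ (2 * 1)) : Set S) :=
    le_trans (sup_le (le_centralizer_iff.1 (hZ ▸ inf_le_right)) (zpowers_le.2 (centralizer_le hZR hc)))
      (centralizer_le_normalizer _)
  haveI := (normal_subgroupOf_iff_le_normalizer (hZR.trans (le_sup_left (b := zpowers c)))).2 hn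
  have hq : ∀ q : ↥(R ⊔ zpowers c) ⧸ (zpowers (x ^ (2 * 1))).subgroupOf (R ⊔ zpowers c), q * q = 1 := by
    intro q
    obtain ⟨q, rfl⟩ := QuotientGroup.mk_surjective q
    rw [← QuotientGroup.mk_mul, QuotientGroup.eq_one_iff]
    exact hsq _ q.2
  have := hr (R ⊔ zpowers c) ((zpowers (x ^ (2 * 1))).subgroupOf (R ⊔ zpowers c)) ⊤
    ⟨⟨fun a b => Subtype.ext (Commute.of_orderOf_dvd_two (fun g => orderOf_dvd_of_pow_eq_one
      ((pow_two g).trans (hq g))) _ _)⟩⟩ (fun a _ => (pow_two a).trans (hq a))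
  rw [card_top] at this
  have h5 := card_eq_relIndex_mul (hZR.trans (le_sup_left (b := zpowers c)))
  rw [hK, hR8, hz2] at h5
  change relIndex _ _ ≤ _ at this
  omega

end Cfsg.Agent.S4398
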