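import Cfsg.Statements.S4400
import Cfsg.Agent.H9.TJ
import Cfsg.Agent.H8.Sig0
import Cfsg.Agent.H8.Comp
import Cfsg.Agent.L.MaxClass
import Cfsg.Agent.L.Frob2
import Cfsg.Agent.L.Frattini
import Cfsg.Agent.H1.Basic

set_option autoImplicit false
open Cfsg

namespace Cfsg.Agent.S4400

open Cfsg.Agent Cfsg.Agent.H9
open scoped commutatorElement
theorem facts {S : Type*} [Group S] [Finite S] (h2 : IsPGroup 2 S) (P : Subgroup S) (hP : ¬ IsMulCommutative P)
    (hZ : Nat.card (Subgroup.center P) = 2) :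
    4 * Nat.card ((frattini P).map P.subtype) ≤ Nat.card P ∧
      P ⊓ Subgroup.centralizer (P : Set S) ≤ (frattini P).map P.subtype ∧
      (∀ x ∈ P, x ^ 2 ∈ (frattini P).map P.subtype) ∧ ∀ x ∈ P, ∀ y ∈ P, ⁅x, y⁆ ∈ (frattini P).map P.subtype := by
  have hp := h2.to_subgroup P
  haveI := hp.isNilpotent
  refine ⟨?_, ?_, fun x hx => ⟨_, L.pow_mem_frattini hp ⟨x, hx⟩, rfl⟩, fun x hx y hy =>
    ⟨⁅⟨x, hx⟩, ⟨y, hy⟩⁆, L.commutator_le_frattini hp (Subgroup.commutator_mem_commutator trivial trivial), rfl⟩⟩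
  · rw [Subgroup.card_map_of_injective P.subtype_injective, Subgroup.card_eq_card_quotient_mul_card_subgroup (frattini P)]
    refine Nat.mul_le_mul_right _ ?_
    obtain ⟨k, hk⟩ := IsPGroup.iff_card.mp (hp.to_quotient (frattini P))
    by_contra h
    haveI : IsCyclic (P ⧸ frattini P) := isCyclic_of_card_dvd_prime (p := 2) (by
      rw [hk] at h ⊢
      rcases k with _ | _ | k
      · simp
      · simp
      · exact absurd (Nat.pow_le_pow_right (by norm_num : 0 < 2) (by omega : 2 ≤ k + 1 + 1)) h)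
    haveI := L.isCyclic_of_isCyclic_quotient_of_le_frattini (frattini P) le_rfl
    exact hP inferInstance
  · have h1 : frattini P ≠ ⊥ := fun e => hP ((commutator_eq_bot_iff P).mp (le_bot_iff.mp (e ▸ L.commutator_le_frattini hp)))
    have h3 := (L.eq_bot_or_eq_of_prime_card (hZ ▸ Nat.prime_two) (inf_le_right : frattini P ⊓ Subgroup.center P ≤ _)).resolve_left
      (L.inf_center_ne_bot_of_isNilpotent _ h1)
    rintro x ⟨hx, hc⟩
    exact ⟨⟨x, hx⟩, (inf_eq_right.mp h3) (Subgroup.mem_center_iff.mpr fun y => Subtype.ext (hc y.1 y.2)), rfl⟩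

/-- Let S be a finite 2-group of sectional 2-rank at most 4, and let P and Q be normal non-abelian subgroups of S whose centres have order 2 and are different. Then P and Q commute elementwise and intersect trivially, and PQ contains its own centralizer in S. -/
theorem result {S : Type*} [Group S] [Finite S] (h2 : IsPGroup 2 S) (hr : Cfsg.SectionalPRankLE 2 4 S)
    (P Q : Subgroup S) [P.Normal] [Q.Normal] (hP : ¬ IsMulCommutative ↥P) (hQ : ¬ IsMulCommutative ↥Q)
    (hZP : Nat.card ↥(Subgroup.center ↥P) = 2) (hZQ : Nat.card ↥(Subgroup.center ↥Q) = 2)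
    (hne : (Subgroup.center ↥P).map P.subtype ≠ (Subgroup.center ↥Q).map Q.subtype) :
    ⁅P, Q⁆ = ⊥ ∧ P ⊓ Q = ⊥ ∧ Subgroup.centralizer ((P ⊔ Q : Subgroup S) : Set S) ≤ P ⊔ Q := by
  haveI := h2.isNilpotent
  have hPQ : P ⊓ Q = ⊥ := by
    by_contra h
    have h1 := L.inf_center_ne_bot_of_isNilpotent _ h
    have h3 : ∀ R : Subgroup S, P ⊓ Q ≤ R → Nat.card (Subgroup.center R) = 2 →
        P ⊓ Q ⊓ Subgroup.center S = (Subgroup.center R).map R.subtype := fun R hR hZ =>
      (L.eq_bot_or_eq_of_prime_card (Q := (Subgroup.center R).map R.subtype) (X := P ⊓ Q ⊓ Subgroup.center S)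
        (by rw [Subgroup.card_map_of_injective R.subtype_injective, hZ]; exact Nat.prime_two)
        fun x hx => ⟨⟨x, hR hx.1⟩, Subgroup.mem_center_iff.mpr fun y => Subtype.ext (Subgroup.mem_center_iff.mp hx.2 y.1),
          rfl⟩).resolve_left h1
    exact hne ((h3 P inf_le_left hZP).symm.trans (h3 Q inf_le_right hZQ))
  have hc : ⁅P, Q⁆ = ⊥ := le_bot_iff.mp (hPQ ▸ Subgroup.commutator_le_inf P Q)
  refine ⟨hc, hPQ, ?_⟩
  by_contra hC
  obtain ⟨x, hx, hxn⟩ := SetLike.not_le_iff_exists.mp hC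
  obtain ⟨k, hk1, hk2⟩ := L.exists_pow_not_mem h2 hxn
  have hx' := Subgroup.pow_mem _ hx (2 ^ k)
  generalize x ^ 2 ^ k = c at hk1 hk2 hx'
  obtain ⟨p1, p2, p3, p4⟩ := facts h2 P hP hZP
  obtain ⟨q1, q2, q3, q4⟩ := facts h2 Q hQ hZQ
  set FP := (frattini P).map P.subtype
  set FQ := (frattini Q).map Q.subtype
  haveI : FP.Normal := L.normal_map_subtype_of_char _
  haveI : FQ.Normal := L.normal_map_subtype_of_char _
  let N := FP ⊔ FQ
  let f := QuotientGroup.mk' N
  have hf : ∀ y, f y = 1 ↔ y ∈ N := fun y => QuotientGroup.eq_one_iff y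
  have hc2 : c ^ 2 ∈ N := (sup_le_sup p2 q2) (H8.center_sup_le hc ⟨hk2, Subgroup.pow_mem _ hx' 2⟩)
  have hel : ∀ R : Subgroup S, (∀ x ∈ R, x ^ 2 ∈ N) → (∀ x ∈ R, ∀ y ∈ R, ⁅x, y⁆ ∈ N) → IsElementaryAbelian 2 (R.map f) :=
    fun R h1 h3 => ⟨L.isMulCommutative_of_forall (by
      rintro _ ⟨x, hx, rfl⟩ _ ⟨y, hy, rfl⟩
      rw [← commutatorElement_eq_one_iff_mul_comm, ← map_commutatorElement, hf]
      exact h3 x hx y hy), by
      rintro _ ⟨x, hx, rfl⟩
      rw [← map_pow, hf]; exact h1 x hx⟩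
  have hcm : ∀ {A B : Subgroup S}, A ≤ Subgroup.centralizer (B : Set S) →
      A.map f ≤ Subgroup.centralizer ((B.map f : Subgroup _) : Set (S ⧸ N)) := fun h => by
    rintro _ ⟨x, hx, rfl⟩ _ ⟨y, hy, rfl⟩
    rw [← map_mul, ← map_mul, h hx y hy]
  let H := (P ⊔ Q) ⊔ Subgroup.zpowers c
  have hH : IsElementaryAbelian 2 (H.map f) := by
    rw [Subgroup.map_sup]
    refine H8.elem_sup ?_ (hel _ ?_ ?_) (hcm (Subgroup.le_centralizer_iff.mp (Subgroup.zpowers_le.mpr hx')))
    · rw [Subgroup.map_sup]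
      exact H8.elem_sup (hel P (fun x hx => Subgroup.mem_sup_left (p3 x hx)) fun x hx y hy => Subgroup.mem_sup_left (p4 x hx y hy))
        (hel Q (fun x hx => Subgroup.mem_sup_right (q3 x hx)) fun x hx y hy => Subgroup.mem_sup_right (q4 x hx y hy))
        (hcm (Subgroup.commutator_eq_bot_iff_le_centralizer.mp hc))
    · rintro _ ⟨j, rfl⟩
      simp only
      rw [← zpow_natCast, ← zpow_mul, mul_comm, zpow_mul, zpow_natCast]
      exact N.zpow_mem hc2 j
    · rintro _ ⟨i, rfl⟩ _ ⟨j, rfl⟩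
      rw [commutatorElement_eq_one_iff_mul_comm.mpr (Commute.zpow_zpow_self c i j)]
      exact N.one_mem
  have hNH : N ≤ H := (sup_le_sup (Subgroup.map_subtype_le _) (Subgroup.map_subtype_le _)).trans le_sup_left
  have h16 := hr H (N.subgroupOf H) ⊤ (L.isMulCommutative_of_forall fun a _ b _ => by
      obtain ⟨a, rfl⟩ := QuotientGroup.mk'_surjective _ a
      obtain ⟨b, rfl⟩ := QuotientGroup.mk'_surjective _ b
      rw [← commutatorElement_eq_one_iff_mul_comm, ← map_commutatorElement]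
      refine (QuotientGroup.eq_one_iff _).mpr ((hf _).mp ?_)
      haveI := hH.1
      exact (map_commutatorElement f a.1 b.1).trans (commutatorElement_eq_one_iff_mul_comm.mpr
        (L.mul_comm_of_isMulCommutative (Subgroup.mem_map_of_mem f a.2) (Subgroup.mem_map_of_mem f b.2))))
    (fun a _ => by
      obtain ⟨a, rfl⟩ := QuotientGroup.mk'_surjective _ a
      rw [← map_pow]
      exact (QuotientGroup.eq_one_iff _).mpr ((hf _).mp ((map_pow f a.1 2).trans (hH.2 _ (Subgroup.mem_map_of_mem f a.2)))))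
  rw [Subgroup.card_top] at h16
  have e1 := Subgroup.card_eq_card_quotient_mul_card_subgroup (N.subgroupOf H)
  rw [Nat.card_congr (Subgroup.subgroupOfEquivOfLe hNH).toEquiv] at e1
  have e2 : Nat.card N = Nat.card FP * Nat.card FQ := H1.card_sup_of_disjoint Subgroup.le_normalizer_of_normal
    (le_bot_iff.mp (hPQ ▸ inf_le_inf (Subgroup.map_subtype_le _) (Subgroup.map_subtype_le _)))
  have e3 := H1.card_sup_of_disjoint Subgroup.le_normalizer_of_normal hPQ
  have e4 := L.card_lt_of_lt (show P ⊔ Q < H from left_lt_sup.mpr fun h => hk1 (h (Subgroup.mem_zpowers c)))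
  have e5 := Nat.mul_le_mul p1 q1
  have e6 := Nat.mul_le_mul_right (Nat.card N) h16
  nlinarith

end Cfsg.Agent.S4400
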