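import Cfsg.Statements.S4401
import Cfsg.Agent.H9.TJ
import Cfsg.Agent.S4400

set_option autoImplicit false
open Cfsg

namespace Cfsg.Agent.S4401

open Cfsg.Agent Cfsg.Agent.H9
open Cfsg.Agent Cfsg.Agent.H9
open scoped commutatorElement

theorem sec_le {G H E : Type*} [Group G] [Group H] [Group E] {p k : ℕ} (hr : Cfsg.SectionalPRankLE p k G) (i : H →* G)
    (hi : Function.Injective i) (f : H →* E) (hf : Function.Surjective f) (hc : ∀ a b : E, a * b = b * a)
    (hp : ∀ a : E, a ^ p = 1) : Nat.card E ≤ p ^ k := by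
  let f' : i.range →* E := f.comp (MonoidHom.ofInjective hi).symm.toMonoidHom
  have hf' : Function.Surjective f' := hf.comp (MonoidHom.ofInjective hi).symm.surjective
  let e := QuotientGroup.quotientKerEquivOfSurjective f' hf'
  have := hr i.range f'.ker ⊤ (L.isMulCommutative_of_forall fun a _ b _ => e.injective (by rw [map_mul, map_mul, hc]))
    (fun a _ => e.injective (by rw [map_pow, hp, map_one]))
  rwa [Subgroup.card_top, Nat.card_congr e.toEquiv] at this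

theorem ncomm {X Y : Type*} [Group X] [Group Y] (e : X ≃* Y) (h : ¬ IsMulCommutative Y) : ¬ IsMulCommutative X :=
  fun h' => h ⟨⟨fun a b => e.symm.injective (by rw [map_mul, map_mul]; exact h'.1.1 _ _)⟩⟩

theorem amb {S : Type*} [Group S] [Finite S] (h2 : IsPGroup 2 S) (hr : Cfsg.SectionalPRankLE 2 4 S) (T P Q : Subgroup S)
    (hPT : P ≤ T) (hQT : Q ≤ T) (hPn : ∀ s ∈ T, ∀ x ∈ P, s * x * s⁻¹ ∈ P) (hQn : ∀ s ∈ T, ∀ x ∈ Q, s * x * s⁻¹ ∈ Q)
    (hP : ¬ IsMulCommutative P) (hZP : Nat.card (Subgroup.center P) = 2) (e : Q ≃* P) (z : S) (hz : z ∈ P)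
    (hzc : ∀ x ∈ P, x * z = z * x) (hzQ : ¬ (z ∈ Q ∧ ∀ y ∈ Q, y * z = z * y)) :
    (∀ x ∈ P, ∀ y ∈ Q, x * y = y * x) ∧ (∀ x ∈ P, x ∈ Q → x = 1) ∧
      ∀ c ∈ T, (∀ x ∈ P, x * c = c * x) → (∀ y ∈ Q, y * c = c * y) → ∃ x ∈ P, ∃ y ∈ Q, x * y = c := by
  haveI : (P.subgroupOf T).Normal := ⟨fun x hx s => hPn s.1 s.2 x.1 hx⟩
  haveI : (Q.subgroupOf T).Normal := ⟨fun x hx s => hQn s.1 s.2 x.1 hx⟩
  have hrT : Cfsg.SectionalPRankLE 2 4 T := fun H N _ A hA hAp =>
    sec_le hr (T.subtype.comp (H.subtype.comp (A.comap (QuotientGroup.mk' N)).subtype))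
      (T.subtype_injective.comp (H.subtype_injective.comp (Subgroup.subtype_injective _)))
      ((QuotientGroup.mk' N).subgroupComap A) (MonoidHom.subgroupComap_surjective_of_surjective _ _ (QuotientGroup.mk'_surjective N))
      hA.1.1 fun a => Subtype.ext (hAp a.1 a.2)
  let e1 := Subgroup.subgroupOfEquivOfLe hPT
  let e2 := (Subgroup.subgroupOfEquivOfLe hQT).trans e
  obtain ⟨h3, h4, h5⟩ := S4400.result (h2.to_subgroup T) hrT (P.subgroupOf T) (Q.subgroupOf T) (ncomm e1 hP) (ncomm e2 hP)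
    (by rw [Nat.card_congr (Subgroup.centerCongr e1).toEquiv, hZP]) (by rw [Nat.card_congr (Subgroup.centerCongr e2).toEquiv, hZP])
    (fun h => hzQ (by
      have h1 : (⟨z, hPT hz⟩ : T) ∈ (Subgroup.center (P.subgroupOf T)).map (P.subgroupOf T).subtype :=
        ⟨⟨⟨z, hPT hz⟩, hz⟩, Subgroup.mem_center_iff.mpr fun x => Subtype.ext (Subtype.ext (hzc x.1.1 x.2)), rfl⟩
      rw [h] at h1
      obtain ⟨w, hw, hw'⟩ := h1
      have hw2 : w.1.1 = z := congrArg Subtype.val hw'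
      refine ⟨hw2 ▸ w.2, fun y hy => ?_⟩
      have := congrArg (fun a => a.1.1) (Subgroup.mem_center_iff.mp hw ⟨⟨y, hQT hy⟩, hy⟩)
      simpa [hw2] using this))
  refine ⟨fun x hx y hy => ?_, fun x hx hx' => ?_, fun c hc h6 h7 => ?_⟩
  · have := Subgroup.commutator_eq_bot_iff_le_centralizer.mp h3 (show (⟨x, hPT hx⟩ : T) ∈ P.subgroupOf T from hx) ⟨y, hQT hy⟩ hy
    exact (congrArg Subtype.val this).symm
  · have : (⟨x, hPT hx⟩ : T) ∈ P.subgroupOf T ⊓ Q.subgroupOf T := ⟨hx, hx'⟩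
    rw [h4] at this
    exact congrArg Subtype.val this
  · have h8 : (⟨c, hc⟩ : T) ∈ Subgroup.centralizer ((P.subgroupOf T ⊔ Q.subgroupOf T : Subgroup T) : Set T) := by
      intro a ha
      obtain ⟨x, hx, y, hy, rfl⟩ := Subgroup.mem_sup_of_normal_right.mp ha
      apply Subtype.ext
      show x.1 * y.1 * c = c * (x.1 * y.1)
      rw [mul_assoc, h7 y.1 hy, ← mul_assoc, h6 x.1 hx, mul_assoc]
    obtain ⟨x, hx, y, hy, h9⟩ := Subgroup.mem_sup_of_normal_right.mp (h5 h8)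
    exact ⟨x.1, hx, y.1, hy, congrArg Subtype.val h9⟩

/-- Let S be a finite 2-group of sectional 2-rank at most 4 and P a proper non-abelian subgroup whose centre has order 2. Let S₀ be the centralizer in S of Z(P) and suppose P is normal in S₀. Then either S₀ = S, or P has sectional 2-rank at most 2 and S₀ has index 2 in S. -/
theorem result {S : Type*} [Group S] [Finite S] (h2 : IsPGroup 2 S) (hr : Cfsg.SectionalPRankLE 2 4 S)
    (P : Subgroup S) (hPlt : P ≠ ⊤) (hP : ¬ IsMulCommutative ↥P) (hZP : Nat.card ↥(Subgroup.center ↥P) = 2)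
    (S₀ : Subgroup S) (hS₀ : S₀ = Subgroup.centralizer (((Subgroup.center ↥P).map P.subtype : Subgroup S) : Set S))
    (hPn : ∀ s ∈ S₀, ∀ x ∈ P, s * x * s⁻¹ ∈ P) :
    S₀ = ⊤ ∨ (Cfsg.SectionalPRankLE 2 2 ↥P ∧ S₀.index = 2) := by
  by_cases htop : S₀ = ⊤
  · exact Or.inl htop
  right
  haveI := h2.isNilpotent
  have hnc : NormalizerCondition S := Group.normalizerCondition_of_isNilpotent
  obtain ⟨z0, hz0, hz0'⟩ := (Nat.card_eq_two_iff' (1 : Subgroup.center P)).mp hZP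
  set z : S := z0.1.1 with hzdef
  have hzP : z ∈ P := z0.1.2
  have hz1 : z ≠ 1 := fun e => hz0 (Subtype.ext (Subtype.ext e))
  have hzc : ∀ x ∈ P, x * z = z * x := fun x hx => congrArg Subtype.val (Subgroup.mem_center_iff.mp z0.2 ⟨x, hx⟩)
  have hcen : ∀ x ∈ P, (∀ y ∈ P, y * x = x * y) → x = 1 ∨ x = z := fun x hx h => by
    by_cases e : x = 1
    · exact Or.inl e
    · have := hz0' ⟨⟨x, hx⟩, Subgroup.mem_center_iff.mpr fun y => Subtype.ext (h y.1 y.2)⟩
        (fun e' => e (congrArg (fun a => a.1.1) e'))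
      exact Or.inr (congrArg (fun a => a.1.1) this)
  have hzz : z * z = 1 := (hcen _ (P.mul_mem hzP hzP) fun y hy => by rw [← mul_assoc, hzc y hy, mul_assoc, hzc y hy, mul_assoc]).resolve_right
    (by simpa using hz1)
  have hmem : ∀ s, s ∈ S₀ ↔ s * z * s⁻¹ = z := fun s => by
    rw [hS₀, mul_inv_eq_iff_eq_mul]
    refine ⟨fun h => (h z ⟨z0.1, z0.2, rfl⟩).symm, ?_⟩
    rintro h _ ⟨x, hx, rfl⟩
    rcases hcen x.1 x.2 fun y hy => congrArg Subtype.val (Subgroup.mem_center_iff.mp hx ⟨y, hy⟩) with e | e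
    · show x.1 * s = s * x.1
      rw [e]; simp
    · show x.1 * s = s * x.1
      rw [e, h]
  clear_value z
  have hPT : P ≤ S₀ := fun x hx => (hmem x).mpr (by rw [hzc x hx]; simp)
  obtain ⟨t, htN, htS⟩ := SetLike.exists_of_lt (hnc S₀ (lt_top_iff_ne_top.mpr htop))
  set N := Subgroup.normalizer (S₀ : Set S) with hN
  have hNc : ∀ g ∈ N, ∀ s ∈ S₀, g * s * g⁻¹ ∈ S₀ := fun g hg s hs => (Subgroup.mem_normalizer_iff.mp hg s).mp hs
  have hSN : S₀ ≤ N := Subgroup.le_normalizer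
  let Q := P.map (MulAut.conj t).toMonoidHom
  have hQ : ∀ y, y ∈ Q ↔ t⁻¹ * y * t ∈ P := fun y =>
    ⟨by rintro ⟨x, hx, rfl⟩; simpa [mul_assoc] using hx, fun h => ⟨_, h, by simp [mul_assoc]⟩⟩
  have hQT : Q ≤ S₀ := by rintro _ ⟨x, hx, rfl⟩; exact hNc t htN x (hPT hx)
  have hQn : ∀ s ∈ S₀, ∀ x ∈ Q, s * x * s⁻¹ ∈ Q := fun s hs x hx => by
    rw [hQ] at hx ⊢
    convert hPn _ (hNc t⁻¹ (N.inv_mem htN) s hs) _ hx using 1
    group
  have hcenQ : ∀ y ∈ Q, (∀ x ∈ Q, x * y = y * x) → y = 1 ∨ y = t * z * t⁻¹ := fun y hy h => by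
    rcases hcen _ ((hQ y).mp hy) (fun x hx => by
      have := h (t * x * t⁻¹) ((hQ _).mpr (by simpa [mul_assoc] using hx))
      calc x * (t⁻¹ * y * t) = t⁻¹ * (t * x * t⁻¹ * y) * t := by group
        _ = _ := by rw [this]; group) with e | e
    · left
      calc y = t * (t⁻¹ * y * t) * t⁻¹ := by group
        _ = 1 := by rw [e]; group
    · right
      rw [← e]; group
  have hzz' : t * z * t⁻¹ ≠ z := fun e => htS ((hmem t).mpr e)
  obtain ⟨hc, hd, hs⟩ := amb h2 hr S₀ P Q hPT hQT hPn hQn hP hZP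
    (P.equivMapOfInjective (MulAut.conj t).toMonoidHom (MulAut.conj t).injective).symm z hzP hzc
    (fun h => (hcenQ z h.1 h.2).elim hz1 (Ne.symm hzz'))
  have hz'Q : t * z * t⁻¹ ∈ Q := (hQ _).mpr (by simpa [mul_assoc] using hzP)
  have hz'1 : t * z * t⁻¹ ≠ 1 := by simpa using hz1
  have hz'2 : t * z * t⁻¹ * (t * z * t⁻¹) = 1 := by
    calc _ = t * (z * z) * t⁻¹ := by group
      _ = 1 := by rw [hzz]; group
  have hV : ∀ c ∈ S₀, (∀ x ∈ P, x * c = c * x) → (∀ y ∈ Q, y * c = c * y) →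
      c = 1 ∨ c = z ∨ c = t * z * t⁻¹ ∨ c = z * (t * z * t⁻¹) := fun c hc0 h6 h7 => by
    obtain ⟨x, hx, y, hy, rfl⟩ := hs c hc0 h6 h7
    have h8 := hcen x hx fun a ha => by
      have := h6 a ha
      rw [mul_assoc, ← hc a ha y hy, ← mul_assoc, ← mul_assoc] at this
      exact mul_right_cancel this
    have h9 := hcenQ y hy fun a ha => by
      have := h7 a ha
      rw [← mul_assoc, ← hc x hx a ha, mul_assoc, mul_assoc] at this
      exact mul_left_cancel this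
    rcases h8 with e | e <;> rcases h9 with e' | e' <;> simp [e, e']
  have hcj : ∀ g ∈ N, ∀ s ∈ S₀, s * (g * z * g⁻¹) = g * z * g⁻¹ * s := fun g hg s hs => by
    have := (hmem _).mp (hNc g⁻¹ (N.inv_mem hg) s hs)
    calc _ = g * (g⁻¹ * s * g⁻¹⁻¹ * z * (g⁻¹ * s * g⁻¹⁻¹)⁻¹) * g⁻¹ * s := by group
      _ = _ := by rw [this]
  have h3 : ∀ g ∈ N, g * z * g⁻¹ = z ∨ g * z * g⁻¹ = t * z * t⁻¹ := fun g hg => by
    by_contra hh
    push Not at hh
    let R := P.map (MulAut.conj g).toMonoidHom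
    have hR : ∀ y, y ∈ R ↔ g⁻¹ * y * g ∈ P := fun y =>
      ⟨by rintro ⟨x, hx, rfl⟩; simpa [mul_assoc] using hx, fun h => ⟨_, h, by simp [mul_assoc]⟩⟩
    have hRT : R ≤ S₀ := by rintro _ ⟨x, hx, rfl⟩; exact hNc g hg x (hPT hx)
    have hRn : ∀ s ∈ S₀, ∀ x ∈ R, s * x * s⁻¹ ∈ R := fun s hs x hx => by
      rw [hR] at hx ⊢
      convert hPn _ (hNc g⁻¹ (N.inv_mem hg) s hs) _ hx using 1
      group
    let eR := (P.equivMapOfInjective (MulAut.conj g).toMonoidHom (MulAut.conj g).injective).symm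
    let eQ := (P.equivMapOfInjective (MulAut.conj t).toMonoidHom (MulAut.conj t).injective).symm
    have hzR : g * z * g⁻¹ ∈ R := (hR _).mpr (by simpa [mul_assoc] using hzP)
    have hg1 : g * z * g⁻¹ ≠ 1 := by simpa using hz1
    have hZR : Nat.card (Subgroup.center R) = 2 := by rw [Nat.card_congr (Subgroup.centerCongr eR).toEquiv, hZP]
    have a1 := (amb h2 hr S₀ R P hRT hPT hRn hPn (ncomm eR hP) hZR eR.symm _ hzR (fun x hx => hcj g hg x (hRT hx))
      (fun h => (hcen _ h.1 h.2).elim hg1 hh.1)).1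
    have a2 := (amb h2 hr S₀ R Q hRT hQT hRn hQn (ncomm eR hP) hZR (eQ.trans eR.symm) _ hzR (fun x hx => hcj g hg x (hRT hx))
      (fun h => (hcenQ _ h.1 h.2).elim hg1 hh.2)).1
    refine ncomm eR hP (L.isMulCommutative_of_forall fun a ha b hb => ?_)
    obtain ⟨x, hx, y, hy, rfl⟩ := hs a (hRT ha) (fun x hx => (a1 a ha x hx).symm) fun y hy => (a2 a ha y hy).symm
    rw [mul_assoc, ← a2 b hb y hy, ← mul_assoc, ← a1 b hb x hx, mul_assoc]
  have hcomm : z * (t * z * t⁻¹) = t * z * t⁻¹ * z := hc z hzP _ hz'Q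
  have hw : ∀ g ∈ N, g * (z * (t * z * t⁻¹)) * g⁻¹ = z * (t * z * t⁻¹) := fun g hg => by
    have e0 : g * (z * (t * z * t⁻¹)) * g⁻¹ = g * z * g⁻¹ * (g * t * z * (g * t)⁻¹) := by group
    have e1 : g * z * g⁻¹ ≠ g * t * z * (g * t)⁻¹ := fun e => hzz' (by
      calc t * z * t⁻¹ = g⁻¹ * (g * t * z * (g * t)⁻¹) * g := by group
        _ = z := by rw [← e]; group)
    rw [e0]
    rcases h3 g hg with a | a <;> rcases h3 _ (N.mul_mem hg htN) with b | b
    · exact absurd (a.trans b.symm) e1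
    · rw [a, b]
    · rw [a, b, hcomm]
    · exact absurd (a.trans b.symm) e1
  have hNtop : N = ⊤ := by
    by_contra hne
    obtain ⟨u, huN, hu⟩ := SetLike.exists_of_lt (hnc N (lt_top_iff_ne_top.mpr hne))
    have hu1 : ∀ g, g ∈ N ↔ u * g * u⁻¹ ∈ N := Subgroup.mem_normalizer_iff.mp huN
    have hu2 : ∀ g ∈ N, u⁻¹ * g * u ∈ N := fun g hg => (hu1 _).mpr (by simpa [mul_assoc] using hg)
    have hwc : ∀ g ∈ N, g * (u * (z * (t * z * t⁻¹)) * u⁻¹) * g⁻¹ = u * (z * (t * z * t⁻¹)) * u⁻¹ := fun g hg => by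
      calc _ = u * (u⁻¹ * g * u * (z * (t * z * t⁻¹)) * (u⁻¹ * g * u)⁻¹) * u⁻¹ := by group
        _ = _ := by rw [hw _ (hu2 g hg)]
    have hw1 : z * (t * z * t⁻¹) ≠ 1 := fun e => hzz' (mul_left_cancel (e.trans hzz.symm))
    have huw : u * (z * (t * z * t⁻¹)) * u⁻¹ = z * (t * z * t⁻¹) := by
      generalize hw' : u * (z * (t * z * t⁻¹)) * u⁻¹ = w at hwc
      have b1 : ∀ g ∈ N, g * w = w * g := fun g hg => by rw [← mul_inv_eq_iff_eq_mul]; exact hwc g hg
      rcases hV w ((hmem w).mpr (by rw [← b1 z (hSN (hPT hzP))]; simp)) (fun x hx => b1 x (hSN (hPT hx)))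
        (fun x hx => b1 x (hSN (hQT hx))) with e | e | e | e
      · exact absurd (by simpa [e] using hw') hw1
      · exact absurd (e ▸ hwc t htN) hzz'
      · have := hwc t⁻¹ (N.inv_mem htN)
        rw [e] at this
        exact absurd (by rw [← this]; group) hzz'
      · exact e
    have hv : ∀ x ∈ N, x * (u * z * u⁻¹ * x⁻¹ * (u * z * u⁻¹)⁻¹) = 1 ∨
        x * (u * z * u⁻¹ * x⁻¹ * (u * z * u⁻¹)⁻¹) = z * (t * z * t⁻¹) := fun x hx => by
      have e0 : x * (u * z * u⁻¹ * x⁻¹ * (u * z * u⁻¹)⁻¹) = u * (u⁻¹ * x * u * z * (u⁻¹ * x * u)⁻¹ * z⁻¹) * u⁻¹ := by group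
      rw [e0]
      rcases h3 _ (hu2 x hx) with a | a
      · left; rw [a]; group
      · right; rw [a, inv_eq_of_mul_eq_one_right hzz, ← hcomm, huw]
    have hvN : u * z * u⁻¹ ∈ N := (hu1 z).mp (hSN (hPT hzP))
    have hv1 : u * z * u⁻¹ ≠ 1 := by simpa using hz1
    by_cases hvS : u * z * u⁻¹ ∈ S₀
    · have c1 : ∀ x ∈ P, x * (u * z * u⁻¹) = u * z * u⁻¹ * x := fun x hx => by
        rcases hv x (hSN (hPT hx)) with a | a
        · calc _ = x * (u * z * u⁻¹ * x⁻¹ * (u * z * u⁻¹)⁻¹) * (u * z * u⁻¹ * x) := by group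
            _ = _ := by rw [a, one_mul]
        · have := P.mul_mem hx (hPn _ hvS _ (P.inv_mem hx))
          rw [a] at this
          exact absurd (hd _ ((P.mul_mem_cancel_left hzP).mp this) hz'Q) hz'1
      have c2 : ∀ x ∈ Q, x * (u * z * u⁻¹) = u * z * u⁻¹ * x := fun x hx => by
        rcases hv x (hSN (hQT hx)) with a | a
        · calc _ = x * (u * z * u⁻¹ * x⁻¹ * (u * z * u⁻¹)⁻¹) * (u * z * u⁻¹ * x) := by group
            _ = _ := by rw [a, one_mul]
        · have := Q.mul_mem hx (hQn _ hvS _ (Q.inv_mem hx))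
          rw [a] at this
          exact absurd (hd _ hzP ((Q.mul_mem_cancel_right hz'Q).mp this)) hz1
      rcases hV _ hvS c1 c2 with e | e | e | e
      · exact hv1 e
      · exact hu (hSN ((hmem u).mpr e))
      · refine hu ((N.mul_mem_cancel_left (N.inv_mem htN)).mp (hSN ((hmem _).mpr ?_)))
        calc _ = t⁻¹ * (u * z * u⁻¹) * t := by group
          _ = z := by rw [e]; group
      · rw [← huw] at e
        exact hz'1 (by simpa using e)
    · have c0 := (h3 _ hvN).resolve_left fun e => hvS ((hmem _).mpr e)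
      generalize u * z * u⁻¹ = v at c0 hv
      have c1 : t⁻¹ * v ∈ S₀ := (hmem _).mpr (by
        calc _ = t⁻¹ * (v * z * v⁻¹) * t := by group
          _ = z := by rw [c0]; group)
      have c2 : ∀ x ∈ P, x = 1 ∨ x = z := fun x hx => by
        have c3 : v * x⁻¹ * v⁻¹ ∈ Q := (hQ _).mpr (by
          convert hPn _ c1 _ (P.inv_mem hx) using 1
          group)
        rcases hv x (hSN (hPT hx)) with a | a
        · exact Or.inl (hd x hx (by rw [eq_inv_of_mul_eq_one_left a]; exact Q.inv_mem c3))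
        · right
          have c4 : z⁻¹ * x = t * z * t⁻¹ * (v * x⁻¹ * v⁻¹)⁻¹ := by
            calc z⁻¹ * x = z⁻¹ * (x * (v * x⁻¹ * v⁻¹)) * (v * x⁻¹ * v⁻¹)⁻¹ := by group
              _ = _ := by rw [a]; group
          have := hd _ (P.mul_mem (P.inv_mem hzP) hx) (c4 ▸ Q.mul_mem hz'Q (Q.inv_mem c3))
          exact (inv_mul_eq_one.mp this).symm
      refine hP (L.isMulCommutative_of_forall fun a ha b hb => ?_)
      rcases c2 a ha with e | e
      · simp [e]
      · rw [e, hzc b hb]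
  constructor
  · intro H M _ A hA hAp
    let i : A.comap (QuotientGroup.mk' M) →* S := P.subtype.comp (H.subtype.comp (A.comap (QuotientGroup.mk' M)).subtype)
    have hi : Function.Injective i := P.subtype_injective.comp (H.subtype_injective.comp (Subgroup.subtype_injective _))
    have hiP : ∀ a, i a ∈ P := fun a => a.1.1.2
    have hiQ : ∀ a, ((MulAut.conj t).toMonoidHom.comp i) a ∈ Q := fun a => ⟨_, hiP a, rfl⟩
    let f := (QuotientGroup.mk' M).subgroupComap A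
    have hf : Function.Surjective f := MonoidHom.subgroupComap_surjective_of_surjective _ _ (QuotientGroup.mk'_surjective M)
    have := sec_le hr (i.noncommCoprod ((MulAut.conj t).toMonoidHom.comp i) fun a b => hc _ (hiP a) _ (hiQ b))
      ((injective_iff_map_eq_one _).mpr fun a ha => by
        replace ha : i a.1 * ((MulAut.conj t).toMonoidHom.comp i) a.2 = 1 := ha
        have b1 := hd _ (hiP a.1) (by rw [eq_inv_of_mul_eq_one_left ha]; exact Q.inv_mem (hiQ _))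
        rw [b1, one_mul] at ha
        exact Prod.ext (hi (b1.trans (map_one i).symm)) (hi ((MulAut.conj t).injective (ha.trans (by simp)))))
      (f.prodMap f) (hf.prodMap hf) (fun a b => Prod.ext (hA.1.1 _ _) (hA.1.1 _ _))
      (fun a => Prod.ext (Subtype.ext (hAp _ a.1.2)) (Subtype.ext (hAp _ a.2.2)))
    rw [Nat.card_prod] at this
    nlinarith
  · rw [Subgroup.index_eq_two_iff']
    refine ⟨t⁻¹, fun b => ?_⟩
    have e0 : t⁻¹ * b ∈ S₀ ↔ b * z * b⁻¹ = t * z * t⁻¹ := by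
      rw [hmem]
      refine ⟨fun e => ?_, fun e => ?_⟩
      · calc _ = t * (t⁻¹ * b * z * (t⁻¹ * b)⁻¹) * t⁻¹ := by group
          _ = _ := by rw [e]
      · calc _ = t⁻¹ * (b * z * b⁻¹) * t := by group
          _ = _ := by rw [e]; group
    rw [e0, hmem]
    rcases h3 b (hNtop ▸ Subgroup.mem_top b) with a | a
    · exact Or.inr ⟨a, fun e => hzz' (e.symm.trans a)⟩
    · exact Or.inl ⟨a, fun e => hzz' (a.symm.trans e)⟩

end Cfsg.Agent.S4401
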