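import Cfsg.Statements.S4403
import Cfsg.Agent.H8.Act
import Cfsg.Agent.H8.Ito
import Cfsg.Agent.H2.Loc

set_option autoImplicit false
open Cfsg

namespace Cfsg.Agent.S4403

open Subgroup hiding commutator_def
open Function Cfsg.Agent.Hopf Cfsg.Agent.Reg
open scoped commutatorElement Pointwise


/-- Let K be a finite group, p a prime dividing its order with O_{p'}(K) = 1 (no nontrivial normal subgroup of order prime to p), and P a cyclic Sylow p-subgroup of K. Then either P is normal and self-centralizing in K with K/P cyclic of order dividing p − 1 (so K is the semidirect product of P by a group of automorphisms of P of order dividing p − 1), or the generalized Fitting subgroup F*(K) is a non-abelian simple group and p does not divide the index of F*(K) in K. -/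
theorem result {K : Type*} [Group K] [Finite K] (p : ℕ) [Fact p.Prime] (hp : p ∣ Nat.card K) (hO : Cfsg.pPrimeCore p K = ⊥)
    (P : Sylow p K) (hP : IsCyclic ↥(P : Subgroup K)) :
    ((P : Subgroup K).Normal ∧ Subgroup.centralizer ((P : Subgroup K) : Set K) = (P : Subgroup K) ∧
      (∀ (_ : (P : Subgroup K).Normal), IsCyclic (K ⧸ (P : Subgroup K))) ∧ (P : Subgroup K).index ∣ p - 1) ∨
    (IsSimpleGroup ↥(Cfsg.generalizedFittingSubgroup K) ∧ ¬ IsMulCommutative ↥(Cfsg.generalizedFittingSubgroup K) ∧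
      ¬ p ∣ (Cfsg.generalizedFittingSubgroup K).index) := by
  have hpp : p.Prime := Fact.out
  have hcm : ∀ a ∈ (P : Subgroup K), ∀ b ∈ (P : Subgroup K), a * b = b * a := fun a ha b hb =>
    congrArg Subtype.val (hP.isMulCommutative.is_comm.comm (⟨a, ha⟩ : (P : Subgroup K)) ⟨b, hb⟩)
  by_cases hOp : Cfsg.pCore p K = ⊥
  · right
    have hF : H8.Fit (⊤ : Subgroup K) = ⊥ := by
      rw [H8.Fit_eq_Op_of_Opp_eq_bot (p := p) (by rw [H8.Opp_top, hO]), H8.Op_top, hOp]
    have hFs : Cfsg.generalizedFittingSubgroup K = H8.Lay ⊤ := by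
      rw [← H8.Fs_top, H8.Fs_eq, hF, sup_bot_eq]
    have hZ : ∀ L, H8.Comp ⊤ L → L ⊓ centralizer (L : Set K) = ⊥ := fun L hL =>
      le_bot_iff.1 (hF ▸ H8.center_le_Fit_of_sn hL.sn)
    have hd : ∀ L : Subgroup K, H8.Comp ⊤ L → p ∣ Nat.card L := by
      intro L hL
      by_contra h
      have := H8.le_Opp_of_sn hL.sn (H8.coprime_iff_not_dvd.2 h)
      rw [H8.Opp_top, hO, le_bot_iff] at this
      exact hL.ne_bot this
    have huniq : ∀ L M : Subgroup K, H8.Comp ⊤ L → H8.Comp ⊤ M → L = M := by
      intro L M hL hM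
      refine (hL.eq_or_comm hM).resolve_right fun hc => ?_
      rw [commutator_eq_bot_iff_le_centralizer] at hc
      obtain ⟨x, hx, ox⟩ := H8.exists_orderOf_eq_prime (hd L hL)
      obtain ⟨y, hy, oy⟩ := H8.exists_orderOf_eq_prime (hd M hM)
      have h1 : IsPGroup p ↥(zpowers x ⊔ zpowers y) := H8.isPGroup_sup
        ((zpowers_le.2 hx).trans (hc.trans ((centralizer_le (zpowers_le.2 hy)).trans
          (centralizer_le_normalizer _))))
        (H8.isPGroup_zpowers (k := 1) (by rw [ox, pow_one]))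
        (H8.isPGroup_zpowers (k := 1) (by rw [oy, pow_one]))
      obtain ⟨Q, hQ⟩ := h1.exists_le_sylow
      have h2 := eq_of_le_cyc (isCyclic_of_surjective (P.equiv Q) (P.equiv Q).surjective)
        (le_sup_left.trans hQ) (le_sup_right.trans hQ) (by rw [Nat.card_zpowers, Nat.card_zpowers, ox, oy])
      have h3 : x ∈ M ⊓ centralizer (M : Set K) := ⟨zpowers_le.2 hy (h2 ▸ mem_zpowers x), hc hx⟩
      rw [hZ M hM, mem_bot] at h3
      rw [h3, orderOf_one] at ox
      exact hpp.one_lt.ne ox
    obtain ⟨L, hL⟩ : ∃ L : Subgroup K, H8.Comp ⊤ L := by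
      by_contra h
      push Not at h
      have h1 := H8.centralizer_fstar_le (G := K)
      rw [hFs, H8.Lay_eq_bot_iff.2 h] at h1
      have h2 : (⊤ : Subgroup K) = ⊥ := le_bot_iff.1 (fun g _ => h1 (mem_centralizer_iff.2 fun u hu => by
        rw [mem_bot.1 hu]; simp))
      rw [← card_top, h2, card_bot] at hp
      exact hpp.one_lt.ne' (Nat.dvd_one.1 hp)
    have hLay : H8.Lay ⊤ = L := le_antisymm (H8.Lay_le_iff.2 fun M hM => (huniq M L hM hL).le) hL.le_Lay
    haveI hLn : L.Normal := hLay ▸ hFs ▸ H8.fstar_normal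
    rw [hFs, hLay]
    refine ⟨H8.simple_of_qs_of_center hL.qs ?_, H8.qs_not_comm hL.qs, ?_⟩
    · rw [eq_bot_iff]
      intro z hz
      have : z.1 ∈ L ⊓ centralizer (L : Set K) :=
        ⟨z.2, fun u hu => congrArg Subtype.val (mem_center_iff.1 hz ⟨u, hu⟩)⟩
      rw [hZ L hL, mem_bot] at this
      exact Subtype.ext this
    suffices h : (P : Subgroup K) ≤ L from fun hd => P.not_dvd_index (hd.trans (index_dvd_of_le h))
    obtain ⟨x, hx, ox⟩ := H8.exists_orderOf_eq_prime (P.dvd_card_of_dvd_card hp)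
    have hx1 : x ≠ 1 := by
      rintro rfl
      rw [orderOf_one] at ox
      exact hpp.one_lt.ne ox
    by_cases hc : ((P : Subgroup K) ⊔ L) ⊓ normalizer (P : Set K) ≤ centralizer {x}
    · exfalso
      have h1 := ((H2.sylIn_of_le P le_sup_left).pNil_of_cyclic_fixed hP hx hx1 hc).mono le_sup_right
      have h2 : H2.resOf p L = ⊥ := by
        rw [eq_bot_iff, ← hO]
        haveI : (H2.resOf p L).Normal := by
          rw [← normalizer_eq_top_iff, eq_top_iff, ← normalizer_eq_top L]
          exact H2.normalizer_le_normalizer_resOf p L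
        exact H1.le_pPrimeCore this (H2.pNil_iff_card.1 h1)
      obtain ⟨S, hS⟩ := H2.exists_sylIn p L
      have h3 := hS.resOf_sup
      rw [h2, bot_sup_eq] at h3
      exact H8.qs_not_solvable hL.qs (H8.solvable_of_isPGroup (h3 ▸ hS.pgrp))
    obtain ⟨n, ⟨hn1, hn2⟩, hn3⟩ := SetLike.not_le_iff_exists.1 hc
    obtain ⟨a, ha⟩ := H1.exists_zpowers_eq (P : Subgroup K)
    have haP : a ∈ (P : Subgroup K) := ha ▸ mem_zpowers a
    have h1 : n * a * n⁻¹ ∈ zpowers a := ha ▸ (mem_normalizer_iff.1 hn2 a).1 haP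
    have h2 : n * a * n⁻¹ * a⁻¹ ∈ L := by
      obtain ⟨u, hu, l, hl, rfl⟩ := (H1.mem_sup_left_norm (by rw [normalizer_eq_top]; exact le_top)).1 hn1
      have e : u * l * a * (u * l)⁻¹ * a⁻¹ = (u * l * u⁻¹) * ((a * u) * l⁻¹ * (a * u)⁻¹) := by
        rw [hcm a haP u hu]
        calc u * l * a * (u * l)⁻¹ * a⁻¹ = u * l * a * l⁻¹ * (a * u)⁻¹ := by group
          _ = _ := by rw [hcm a haP u hu]; group
      rw [e]
      exact mul_mem (hLn.conj_mem l hl u) (hLn.conj_mem _ (inv_mem hl) _)
    obtain ⟨k, hk⟩ := h1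
    simp only at hk
    by_cases hdv : (p : ℤ) ∣ k - 1
    · exfalso
      apply hn3
      obtain ⟨j, hj⟩ : x ∈ zpowers a := ha ▸ hx
      simp only at hj
      obtain ⟨c, hc⟩ := hdv
      have e : n * x * n⁻¹ = x := by
        rw [← hj, ← conj_zpow, ← hk, ← zpow_mul, mul_comm, zpow_mul, hj,
          (by omega : k = 1 + p * c), zpow_add, zpow_mul, zpow_natCast, ← ox, pow_orderOf_eq_one]
        simp
      rw [mem_centralizer_singleton_iff]
      calc n * x = (n * x * n⁻¹) * n := by group
        _ = _ := by rw [e]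
    · rw [← ha, zpowers_le]
      rw [← hk, ← zpow_sub_one] at h2
      obtain ⟨s, hs⟩ := H2.orderOf_eq_pow_of_mem P.isPGroup' haP
      refine H2.mem_of_pow_mem_of_coprime (n := (k - 1).natAbs) ?_ ?_
      · rcases Int.natAbs_eq (k - 1) with h | h
        · rw [← zpow_natCast, ← h]; exact h2
        · rw [← zpow_natCast, ← inv_mem_iff, ← zpow_neg, ← h]; exact h2
      · rw [hs]
        exact Nat.Coprime.pow_left _ ((Nat.Prime.coprime_iff_not_dvd hpp).2
          (fun h => hdv (Int.natCast_dvd.2 h)))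
  · left
    have hOP : Cfsg.pCore p K ≤ P := (H1.isPGroup_pCore p K).le_sylow_of_normal P
    obtain ⟨x, hx, ox⟩ := H8.exists_orderOf_eq_prime
      (H8.dvd_card_of_isPGroup_ne_bot (H1.isPGroup_pCore p K) hOp)
    have hx1 : x ≠ 1 := by
      rintro rfl
      rw [orderOf_one] at ox
      exact hpp.one_lt.ne ox
    haveI hZn : (zpowers x).Normal := by
      rw [H2.normal_iff_cj]
      intro g
      refine eq_of_le_cyc hP ?_ (zpowers_le.2 (hOP hx)) (H2.card_cj _ _)
      rw [H2.cj_zpowers, zpowers_le]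
      exact hOP (Normal.conj_mem inferInstance x hx g)
    obtain ⟨C, hC⟩ : ∃ C, C = centralizer (zpowers x : Set K) := ⟨_, rfl⟩
    haveI hCn : C.Normal := hC ▸ inferInstance
    have hPC : (P : Subgroup K) ≤ C := hC ▸ fun a ha b hb => hcm b (zpowers_le.2 (hOP hx) hb) a ha
    have h1 := (H2.sylIn_of_le P hPC).pNil_of_cyclic_fixed hP (hOP hx) hx1
      (inf_le_left.trans (hC ▸ centralizer_le (Set.singleton_subset_iff.2 (mem_zpowers x))))
    have h2 : H2.resOf p C = ⊥ := by
      rw [eq_bot_iff, ← hO]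
      haveI : (H2.resOf p C).Normal := by
        rw [← normalizer_eq_top_iff, eq_top_iff, ← normalizer_eq_top C]
        exact H2.normalizer_le_normalizer_resOf p C
      exact H1.le_pPrimeCore this (H2.pNil_iff_card.1 h1)
    have h3 := (H2.sylIn_of_le P hPC).resOf_sup
    rw [h2, bot_sup_eq] at h3
    have hker : (MulAut.conjNormal : K →* MulAut (zpowers x)).ker = P := by
      rw [h3, hC]
      ext g
      rw [MonoidHom.mem_ker, mem_centralizer_iff]
      constructor
      · intro h u hu
        have : g * u * g⁻¹ = u := congrArg Subtype.val (DFunLike.congr_fun h (⟨u, hu⟩ : zpowers x))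
        calc u * g = (g * u * g⁻¹) * g := by rw [this]
          _ = _ := by group
      · intro h
        ext u
        show g * u * g⁻¹ = u
        rw [← h u u.2]; group
    have hcz : Nat.card (zpowers x) = p := by rw [Nat.card_zpowers, ox]
    have e := IsCyclic.mulAutMulEquiv (zpowers x)
    rw [hcz] at e
    haveI : IsCyclic (MulAut (zpowers x)) := isCyclic_of_surjective e.symm e.symm.surjective
    refine ⟨h3 ▸ hCn, le_antisymm ?_ (fun a ha b hb => hcm b hb a ha), fun _ => ?_, ?_⟩
    · conv_rhs => rw [h3, hC]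
      exact centralizer_le (zpowers_le.2 (hOP hx))
    · have e2 := (QuotientGroup.quotientMulEquivOfEq hker).symm.trans
        (QuotientGroup.quotientKerEquivRange _)
      exact isCyclic_of_surjective e2.symm e2.symm.surjective
    · rw [← hker, index_ker, ← Nat.totient_prime hpp, ← ZMod.card_units_eq_totient,
        ← Nat.card_eq_fintype_card, ← Nat.card_congr e.toEquiv]
      exact card_subgroup_dvd_card _

end Cfsg.Agent.S4403
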