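import Cfsg.Statements.S4405
import Mathlib
import Cfsg.Agent.H2.Baer
import Cfsg.Agent.H1.Burnside
import Cfsg.Agent.H1.Frattini
import Cfsg.Agent.H1.Coprime

set_option autoImplicit false
open Cfsg

namespace Cfsg.Agent.S4405

open Cfsg.Agent.H1 Subgroup
open scoped commutatorElement

/-- Let G be a finite group of order 320 = 64·5 whose largest normal 2-subgroup H = O₂(G) equals the Fitting subgroup F(G) and is extraspecial of order 32 containing no elementary abelian subgroup of order 8 (so H is the central product of a quaternion group and a dihedral group of order 8). If T is an involution of G outside H whose centralizer in H contains an elementary abelian subgroup of order 4, then C_H(T) itself is elementary abelian of order 4. -/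
theorem result {G : Type*} [Group G] [Finite G]
    (hG : Nat.card G = 320) (hHF : Cfsg.pCore 2 G = Cfsg.fittingSubgroup G)
    (hex : Cfsg.IsExtraspecial 2 ↥(Cfsg.pCore 2 G)) (h32 : Nat.card ↥(Cfsg.pCore 2 G) = 32)
    (hminus : ∀ A : Subgroup G, A ≤ Cfsg.pCore 2 G → Cfsg.IsElementaryAbelian 2 A → Nat.card ↥A ≤ 4)
    (T : G) (hT : orderOf T = 2) (hTH : T ∉ Cfsg.pCore 2 G)
    (V : Subgroup G) (hV : V ≤ Cfsg.pCore 2 G ⊓ Subgroup.centralizer ({T} : Set G)) (hV4 : Nat.card ↥V = 4) (hVe : Cfsg.IsElementaryAbelian 2 V) :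
    Nat.card ↥(Cfsg.pCore 2 G ⊓ Subgroup.centralizer ({T} : Set G)) = 4 ∧
      Cfsg.IsElementaryAbelian 2 (Cfsg.pCore 2 G ⊓ Subgroup.centralizer ({T} : Set G)) := by
  haveI : Fact (Nat.Prime 2) := ⟨Nat.prime_two⟩
  haveI : Fact (Nat.Prime 5) := ⟨Nat.prime_five⟩
  have hn : (pCore 2 G).Normal := inferInstance
  have hsol := isSolvable_of_card_eq_two_primes (G := G) Nat.prime_two Nat.prime_five (a := 6) (b := 1) hG
  have hCF := centralizer_fittingSubgroup_le hsol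
  rw [← hHF] at hCF
  have T2 : T * T = 1 := by rw [← sq, ← hT, pow_orderOf_eq_one]
  obtain ⟨y, y1, yo, hy⟩ := H2.exists_inverted_odd T2 hTH
  clear hHF
  generalize pCore 2 G = H at *
  have y5 : orderOf y = 5 := by
    have h1 : orderOf y ∣ 2 ^ 6 * 5 := by simpa [hG] using orderOf_dvd_natCard y
    have h2 : orderOf y ∣ 5 := (Nat.Coprime.pow_right 6 (Nat.coprime_two_right.2 yo)).dvd_of_dvd_mul_left h1
    exact ((Nat.dvd_prime Nat.prime_five).1 h2).resolve_left fun h => y1 (orderOf_eq_one_iff.1 h)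
  have y5' : y ^ 5 = 1 := y5 ▸ pow_orderOf_eq_one y
  obtain ⟨Z, hZ⟩ : ∃ Z, Z = H ⊓ centralizer (H : Set G) := ⟨_, rfl⟩
  haveI hZn : Z.Normal := hZ ▸ inferInstance
  have hZm : ∀ x : H, x ∈ center H ↔ (x : G) ∈ Z := fun x => by
    rw [hZ, mem_center_iff, mem_inf, mem_centralizer_iff]
    exact ⟨fun h => ⟨x.2, fun g hg => congrArg Subtype.val (h ⟨g, hg⟩)⟩, fun h g => Subtype.ext (h.2 g g.2)⟩
  have hZ2 : Nat.card Z = 2 := by
    have : (center H).map H.subtype = Z := by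
      ext x
      exact ⟨by rintro ⟨x, hx, rfl⟩; exact (hZm x).1 hx, fun hx => ⟨⟨x, (hZ ▸ hx).1⟩, (hZm _).2 hx, rfl⟩⟩
    rw [← this, card_map_of_injective H.subtype_injective, hex.2]
  have hZc : ∀ g, ∀ z ∈ Z, g * z * g⁻¹ = z := fun g z hz => by
    obtain ⟨w, -, hw⟩ := (Nat.card_eq_two_iff' (1 : Z)).1 hZ2
    by_cases z1 : z = 1
    · simp [z1]
    · exact congrArg Subtype.val ((hw ⟨_, hZn.conj_mem z hz g⟩ fun h => z1 (by simpa using congrArg Subtype.val h)).trans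
        (hw ⟨z, hz⟩ fun h => z1 (congrArg Subtype.val h)).symm)
  have hZs : ∀ z ∈ Z, z * z = 1 := fun z hz => by
    have := congrArg Subtype.val (pow_card_eq_one' (x := (⟨z, hz⟩ : Z)))
    rwa [hZ2, sq] at this
  have hcomm : ∀ a ∈ H, ∀ b ∈ H, (a : G ⧸ Z) * b = b * a := fun a ha b hb => by
    rw [← commutatorElement_eq_one_iff_mul_comm]
    exact (QuotientGroup.eq_one_iff ⁅a, b⁆).2 ((hZm ⁅(⟨a, ha⟩ : H), (⟨b, hb⟩ : H)⁆).1
      (hex.1.2.2.le (commutator_mem_commutator (mem_top _) (mem_top _))))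
  have hsq : ∀ a ∈ H, (a : G ⧸ Z)⁻¹ = a := fun a ha => by
    rw [inv_eq_iff_mul_eq_one, ← sq]
    exact (QuotientGroup.eq_one_iff (a ^ 2)).2 ((hZm (⟨a, ha⟩ ^ 2)).1 (hex.1.2.1 ▸ pow_mem_frattini hex.1.1 _))
  have hC : Z = H ⊓ centralizer (zpowers y : Set G) := by
    have h1 := card_modEq_card_centralizer (p := 5) (A := zpowers y) (K := H)
      (IsPGroup.of_card (n := 1) (by rw [Nat.card_zpowers, y5, pow_one])) (by rw [normalizer_eq_top]; exact le_top)
    have h2 : Nat.card ↥(H ⊓ centralizer (zpowers y : Set G)) ∣ 2 ^ 5 :=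
      (card_dvd_of_le inf_le_left).trans (dvd_of_eq h32)
    have h3 : Nat.card ↥(H ⊓ centralizer (zpowers y : Set G)) ≠ 32 := fun h => by
      have h4 : H ⊓ centralizer (zpowers y : Set G) = H := eq_of_le_of_card_ge inf_le_left (by omega)
      have h5 : y ∈ H := hCF (le_centralizer_iff.1 (inf_eq_left.1 h4) (mem_zpowers y))
      have := H.orderOf_dvd_natCard h5
      rw [y5, h32] at this
      omega
    refine eq_of_le_of_card_ge (le_inf (hZ ▸ inf_le_left) fun z hz g _ => mul_inv_eq_iff_eq_mul.1 (hZc g z hz)) ?_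
    obtain ⟨i, hi, h4⟩ := (Nat.dvd_prime_pow Nat.prime_two).1 h2
    rw [h32, h4] at h1
    rw [h4] at h3 ⊢
    interval_cases i <;> simp_all [Nat.ModEq]
  have fpf : ∀ w ∈ H, ((y * w * y⁻¹ : G) : G ⧸ Z) = w → w ∈ Z := fun w hw h => by
    have h1 : w⁻¹ * (y * w * y⁻¹) ∈ Z := QuotientGroup.eq.1 h.symm
    have h2 : y ^ 2 * w = w * y ^ 2 := by
      have e1 := hZc y _ h1
      have e2 := hZs _ h1
      generalize hz : w⁻¹ * (y * w * y⁻¹) = z at e1 e2
      have e3 : y * w * y⁻¹ = w * z := by rw [← hz]; group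
      calc y ^ 2 * w = y * (y * w * y⁻¹) * y := by rw [sq]; group
        _ = y * (w * z) * y := by rw [e3]
        _ = (y * w * y⁻¹) * (y * z * y⁻¹) * y ^ 2 := by group
        _ = w * y ^ 2 := by rw [e1, e3, mul_assoc w, e2, mul_one]
    rw [hC]
    refine ⟨hw, le_centralizer_iff.1 (zpowers_le.2 ?_) (mem_zpowers w)⟩
    have h3 : y ^ 2 ∈ centralizer (zpowers w : Set G) := by
      rintro _ ⟨k, rfl⟩
      exact ((Commute.zpow_right (show Commute (y ^ 2) w from h2) k)).symm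
    have := pow_mem h3 3
    rwa [← pow_mul, pow_succ, y5', one_mul] at this
  have main : ∀ k ∈ H ⊓ centralizer ({T} : Set G), k ^ 2 = 1 := fun k ⟨hk, hkT⟩ => by
    have kT : T * k * T⁻¹ = k := mul_inv_eq_iff_eq_mul.2 (hkT T rfl)
    have hc : ∀ i : ℤ, y ^ i * k * (y ^ i)⁻¹ ∈ H := fun i => hn.conj_mem k hk _
    have hT' : ∀ i : ℤ, T * (y ^ i * k * (y ^ i)⁻¹) * T⁻¹ = y ^ (-i) * k * (y ^ (-i))⁻¹ := fun i => by
      have : T * y ^ i * T⁻¹ = y ^ (-i) := by rw [← conj_zpow, hy, inv_zpow, zpow_neg]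
      rw [← this]
      conv_rhs => rw [← kT]
      group
    have y3 : y ^ (3 : ℤ) = y ^ (-2 : ℤ) := by
      rw [← mul_inv_eq_one, ← zpow_sub]; exact (zpow_natCast y 5).trans y5'
    have hN := fpf _ (mul_mem (hc (-2)) (mul_mem (mul_mem (mul_mem (hc (-1)) hk) (hc 1)) (hc 2))) (by
      refine Eq.trans (congrArg _ ?_)
        (hcomm _ (mul_mem (mul_mem (mul_mem (hc (-1)) hk) (hc 1)) (hc 2)) _ (hc (-2)))
      conv_rhs => rw [← y3]
      group)
    have e1 := hT' 1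
    have e2 := hT' 2
    have c1 := hc 1
    have c2 := hc 2
    have d1 := hc (-1)
    have d2 := hc (-2)
    generalize y ^ (1 : ℤ) * k * (y ^ (1 : ℤ))⁻¹ = a1 at *
    generalize y ^ (2 : ℤ) * k * (y ^ (2 : ℤ))⁻¹ = a2 at *
    generalize y ^ (-1 : ℤ) * k * (y ^ (-1 : ℤ))⁻¹ = b1 at *
    generalize y ^ (-2 : ℤ) * k * (y ^ (-2 : ℤ))⁻¹ = b2 at *
    have hz : ((a1 * a2)⁻¹ * (T * (a1 * a2) * T⁻¹))⁻¹ * k ∈ Z := by
      have e3 : T * (a1 * a2) * T⁻¹ = b1 * b2 := by rw [← e1, ← e2]; group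
      have e4 : ((b1 * b2 : G) : G ⧸ Z) = (b2 * b1 : G) := hcomm _ d1 _ d2
      rw [← QuotientGroup.eq, e3, QuotientGroup.mk_mul, QuotientGroup.mk_inv, e4, ← hsq _ (mul_mem d2 d1),
        ← mul_inv_rev, inv_eq_iff_mul_eq_one, mul_assoc, hcomm _ (mul_mem c1 c2) _ hk, ← QuotientGroup.mk_mul,
        ← QuotientGroup.mk_mul, QuotientGroup.eq_one_iff]
      simpa only [mul_assoc] using hN
    generalize a1 * a2 = h at hz
    have e4 : T * (h⁻¹ * (T * h * T⁻¹)) * T⁻¹ = (h⁻¹ * (T * h * T⁻¹))⁻¹ := by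
      rw [eq_inv_of_mul_eq_one_left T2]
      simp only [mul_inv_rev, inv_inv, mul_assoc]
      rw [← eq_inv_of_mul_eq_one_left T2]
      simp only [← mul_assoc, T2, one_mul]
      simp only [mul_assoc, T2, mul_one]
    generalize h⁻¹ * (T * h * T⁻¹) = m at hz e4
    have e5 := hZc T _ hz
    have e6 := hZc m _ hz
    have e7 := hZs _ hz
    have e8 : T * (m⁻¹ * k) * T⁻¹ = m * k := by
      calc _ = (T * m * T⁻¹)⁻¹ * (T * k * T⁻¹) := by group
        _ = m * k := by rw [e4, kT, inv_inv]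
    rw [e8] at e5
    calc k ^ 2 = (m * (m⁻¹ * k) * m⁻¹) * (m * k) := by rw [sq]; group
      _ = 1 := by rw [e6, e5, e7]
  have hE : IsElementaryAbelian 2 (H ⊓ centralizer ({T} : Set G)) := ⟨⟨⟨fun a b => by
    have ha := main a a.2
    have hb := main b b.2
    have hab := main _ (a * b).2
    rw [sq, mul_eq_one_iff_eq_inv] at ha hb hab
    exact Subtype.ext (by rw [hab, coe_mul, mul_inv_rev, ← ha, ← hb, coe_mul])⟩⟩, main⟩
  exact ⟨le_antisymm (hminus _ inf_le_left hE) (hV4 ▸ card_le_of_le hV), hE⟩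

end Cfsg.Agent.S4405
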