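import Cfsg.Statements.S4406


set_option autoImplicit false
open Cfsg

namespace Cfsg.Agent.S4406

open Cfsg.Agent Subgroup
open scoped Pointwise commutatorElement
abbrev A4 := alternatingGroup (Fin 4)

theorem l1 : ∀ b : A4, b ^ 3 = 1 → b ≠ 1 → ∀ y : A4, y ^ 2 = 1 → y ≠ 1 → ∀ z : A4, z ^ 2 = 1 → z ≠ 1 → y⁻¹ * z ≠ 1 →
    (b * y * b⁻¹ = z ∧ b * z * b⁻¹ = y * z) ∨ (b⁻¹ * y * b⁻¹⁻¹ = z ∧ b⁻¹ * z * b⁻¹⁻¹ = y * z) := by
  set_option synthInstance.maxSize 1000 in decide +kernel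

theorem l2 : ∀ x : A4, x ^ 4 = 1 → x ^ 2 = 1 := by decide +kernel

theorem c4 : Nat.card A4 = 12 := by rw [Nat.card_eq_fintype_card]; decide +kernel

theorem l3 {T : Subgroup A4} (h : IsPGroup 3 T) : Nat.card T ≤ 3 ∧ (T ≠ ⊥ → ∀ y : A4, y ^ 2 = 1 → y ≠ 1 → ∀ z : A4, z ^ 2 = 1 → z ≠ 1 → y⁻¹ * z ≠ 1 →
    ∃ b ∈ T, orderOf b = 3 ∧ b * y * b⁻¹ = z ∧ b * z * b⁻¹ = y * z) := by
  obtain ⟨k, hk⟩ := IsPGroup.iff_card.1 h
  have a : k ≤ 1 := by
    by_contra a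
    exact absurd ((pow_dvd_pow 3 (show 2 ≤ k by omega)).trans (hk ▸ c4 ▸ T.card_subgroup_dvd_card)) (by norm_num)
  refine ⟨hk ▸ Nat.pow_le_pow_right (by norm_num) a, fun h0 y a b z c d e => ?_⟩
  obtain ⟨x, hx⟩ := exists_prime_orderOf_dvd_card' (G := T) 3 (hk ▸ dvd_pow_self 3 fun e => h0 (card_eq_one.1 (by rw [hk, e, pow_zero])))
  rw [← orderOf_coe] at hx
  rcases l1 x (hx ▸ pow_orderOf_eq_one _) (fun e => by simp [e] at hx) y a b z c d e with f | f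
  exacts [⟨_, x.2, hx, f⟩, ⟨_, inv_mem x.2, (orderOf_inv _).trans hx, f⟩]

/-- In the direct product P = A₄ × A₄, let X be the Sylow 2-subgroup, X₁ and X₂ its intersections with the two direct factors, Q a Sylow 3-subgroup and Q₁, Q₂ its intersections with the two factors. Then every subgroup B of X of order 4 either meets X₁ or X₂ nontrivially, or is normalized by one of the two subgroups of Q of order 3 other than Q₁ and Q₂. -/
theorem result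
    (X : Sylow 2 (↥(alternatingGroup (Fin 4)) × ↥(alternatingGroup (Fin 4))))
    (Q : Sylow 3 (↥(alternatingGroup (Fin 4)) × ↥(alternatingGroup (Fin 4))))
    (B : Subgroup (↥(alternatingGroup (Fin 4)) × ↥(alternatingGroup (Fin 4)))) (hBX : B ≤ (X : Subgroup _)) (hB4 : Nat.card ↥B = 4) :
    B ⊓ ((X : Subgroup _) ⊓ Subgroup.prod ⊤ ⊥) ≠ ⊥ ∨ B ⊓ ((X : Subgroup _) ⊓ Subgroup.prod ⊥ ⊤) ≠ ⊥ ∨
      ∃ R : Subgroup (↥(alternatingGroup (Fin 4)) × ↥(alternatingGroup (Fin 4))), R ≤ (Q : Subgroup _) ∧ Nat.card ↥R = 3 ∧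
        R ≠ (Q : Subgroup _) ⊓ Subgroup.prod ⊤ ⊥ ∧ R ≠ (Q : Subgroup _) ⊓ Subgroup.prod ⊥ ⊤ ∧ R ≤ Subgroup.normalizer (B : Set _) := by
  simp only [or_iff_not_imp_left, not_not]
  intro h1 h2
  have f1 : ∀ u ∈ B, u.1 = 1 → u = 1 := fun u a b => h2.le ⟨a, hBX a, b, trivial⟩
  have f2 : ∀ u ∈ B, u.2 = 1 → u = 1 := fun u a b => h1.le ⟨a, hBX a, trivial, b⟩
  have sq : ∀ u ∈ B, u.1 ^ 2 = 1 ∧ u.2 ^ 2 = 1 := fun u a => by
    have : u ^ 4 = 1 := congrArg Subtype.val (hB4 ▸ pow_card_eq_one' (x := (⟨u, a⟩ : B)))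
    exact ⟨l2 _ (congrArg Prod.fst this), l2 _ (congrArg Prod.snd this)⟩
  obtain ⟨u, hu, u1⟩ := B.bot_or_exists_ne_one.resolve_left fun e => by simp [e] at hB4
  have cu : Nat.card (zpowers u) = 2 := by rw [Nat.card_zpowers]; exact orderOf_eq_prime (Prod.ext (sq u hu).1 (sq u hu).2) u1
  obtain ⟨v, hv, uv⟩ := SetLike.exists_of_lt (lt_of_le_of_ne (zpowers_le.2 hu) fun e => by simp [e, hB4] at cu)
  have v1 : v ≠ 1 := fun e => uv (e ▸ one_mem _)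
  have w : u⁻¹ * v ≠ 1 := fun e => uv (inv_mul_eq_one.1 e ▸ mem_zpowers u)
  have hC := sup_le (zpowers_le.2 hu) (zpowers_le.2 hv)
  have hC' : zpowers u ⊔ zpowers v = B := eq_of_le_of_card_ge hC (by
    have a := hB4 ▸ card_dvd_of_le hC
    have b : 2 < Nat.card ↥(zpowers u ⊔ zpowers v) := lt_of_not_ge fun b =>
      uv ((eq_of_le_of_card_ge le_sup_left (cu ▸ b)).ge (mem_sup_right (mem_zpowers v)))
    have c := Nat.le_of_dvd four_pos a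
    interval_cases Nat.card ↥(zpowers u ⊔ zpowers v) <;> omega)
  have q1 := Q.2.map (MonoidHom.fst A4 A4)
  have q2 := Q.2.map (MonoidHom.snd A4 A4)
  have q : (Q.1.map (MonoidHom.fst A4 A4)).prod (Q.1.map (MonoidHom.snd A4 A4)) = Q := Q.is_maximal' (by
    obtain ⟨i, hi⟩ := IsPGroup.iff_card.1 q1
    obtain ⟨j, hj⟩ := IsPGroup.iff_card.1 q2
    exact IsPGroup.of_card (n := i + j) (by rw [Nat.card_congr (prodEquiv _ _).toEquiv, Nat.card_prod, hi, hj, pow_add])) (le_prod_iff.2 ⟨le_rfl, le_rfl⟩)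
  have c : Nat.card (Q.1.map (MonoidHom.fst A4 A4)) * Nat.card (Q.1.map (MonoidHom.snd A4 A4)) = 9 := by
    rw [← Nat.card_prod, ← Nat.card_congr (prodEquiv _ _).toEquiv, q, Sylow.card_eq_multiplicity, Nat.card_prod, c4]
    decide +kernel
  obtain ⟨a, ha, a3, a1, a2⟩ := (l3 q1).2 (fun e => by have := (l3 q2).1; simp only [e, card_bot] at c; omega) u.1 (sq u hu).1 (mt (f1 u hu) u1)
    v.1 (sq v hv).1 (mt (f1 v hv) v1) (mt (f1 _ (mul_mem (inv_mem hu) hv)) w)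
  obtain ⟨b, hb, b3, b1, b2⟩ := (l3 q2).2 (fun e => by have := (l3 q1).1; simp only [e, card_bot] at c; omega) u.2 (sq u hu).2 (mt (f2 u hu) u1)
    v.2 (sq v hv).2 (mt (f2 v hv) v1) (mt (f2 _ (mul_mem (inv_mem hu) hv)) w)
  refine ⟨zpowers (a, b), zpowers_le.2 (q.le ⟨ha, hb⟩), by rw [Nat.card_zpowers, Prod.orderOf_mk, a3, b3, Nat.lcm_self], fun e => ?_, fun e => ?_,
    zpowers_le.2 (mem_normalizer_fintype fun n hn => ?_)⟩
  · simp [show b = 1 from (e.le (mem_zpowers _)).2.2] at b3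
  · simp [show a = 1 from (e.le (mem_zpowers _)).2.1] at a3
  refine (sup_le (zpowers_le.2 ?_) (zpowers_le.2 ?_) : _ ≤ B.comap (MulAut.conj (a, b)).toMonoidHom) (hC'.ge hn)
  · exact show (a, b) * u * (a, b)⁻¹ ∈ B from (Prod.ext a1 b1 : (a, b) * u * (a, b)⁻¹ = v) ▸ hv
  exact show (a, b) * v * (a, b)⁻¹ ∈ B from (Prod.ext a2 b2 : (a, b) * v * (a, b)⁻¹ = u * v) ▸ mul_mem hu hv

end Cfsg.Agent.S4406
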