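import Cfsg.Statements.S4410
import Mathlib
import Cfsg.Agent.H2.HHB3
import Cfsg.Agent.H9.GT

set_option autoImplicit false
open Cfsg

namespace Cfsg.Agent.S4410

open Cfsg.Agent.H2 Cfsg.Agent.BG Subgroup

/-- Let V be a finite-dimensional vector space over the field with two elements and S a solvable group of linear automorphisms of V with O₂(S) = 1. If P ∈ S has order 4 and (P − 1)³ = 0 on V, then the image of (P − 1)² has at least 4 elements; equivalently, in the decomposition of V into indecomposable modules for the cyclic group generated by P, at least two summands have dimension 3. -/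
theorem result
    {V : Type*} [AddCommGroup V] [Module (ZMod 2) V] [Finite V]
    (S : Subgroup (V ≃ₗ[ZMod 2] V)) (hS : Group.IsSolvable ↥S) (hO2 : Cfsg.pCore 2 ↥S = ⊥)
    (P : V ≃ₗ[ZMod 2] V) (hPS : P ∈ S) (hP4 : orderOf P = 4)
    (hcub : ((P : V →ₗ[ZMod 2] V) - LinearMap.id) ^ 3 = 0) :
    4 ≤ Nat.card ↥(LinearMap.range (((P : V →ₗ[ZMod 2] V) - LinearMap.id) ^ 2)) := by
  have : Module.Finite (ZMod 2) V := Module.Finite.of_finite
  have : Finite (V ≃ₗ[ZMod 2] V) := Finite.of_injective _ DFunLike.coe_injective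
  let ρ : Representation (ZMod 2) S V := (LinearEquiv.automorphismGroup.toLinearMapMonoidHom).comp S.subtype
  let x : S := ⟨P, hPS⟩
  have hρ : MonoidHom.ker ρ = ⊥ := eq_bot_iff.2 fun g hg =>
    Subtype.ext (LinearEquiv.ext fun v => LinearMap.congr_fun (MonoidHom.mem_ker.1 hg) v)
  have ho : orderOf x = 2 ^ (1 + 1) := by rw [← Subgroup.orderOf_coe]; exact hP4
  have e : ρ (x ^ 2 ^ 1) - 1 = ((P : V →ₗ[ZMod 2] V) - LinearMap.id) ^ 2 := by
    rw [map_pow, ← sub_one_pow_char]; rfl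
  rw [← e]
  by_contra hlt
  have h1 : Module.finrank (ZMod 2) (LinearMap.range (ρ (x ^ 2 ^ 1) - 1)) ≤ 1 := by
    rw [Module.natCard_eq_pow_finrank (K := ZMod 2), Nat.card_zmod] at hlt
    exact Nat.le_of_lt_succ ((Nat.pow_lt_pow_iff_right one_lt_two).1 (not_le.1 hlt))
  have h2 : ∀ g, g * x ^ 2 ^ 1 = x ^ 2 ^ 1 * g → (ρ g - 1) * (ρ (x ^ 2 ^ 1) - 1) = 0 := fun g hg => LinearMap.ext fun v => by
    by_cases h0 : (ρ (x ^ 2 ^ 1) - 1) v = 0
    · rw [Module.End.mul_apply, h0, map_zero]; rfl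
    obtain ⟨c, hc⟩ := exists_smul_of_finrank_le_one h1 ⟨v, rfl⟩ (v := ρ g ((ρ (x ^ 2 ^ 1) - 1) v)) ⟨ρ g v, by
      simp only [LinearMap.sub_apply, Module.End.one_apply, map_sub, ← rep_mul_apply, hg]⟩ h0
    have h3 : c ≠ 0 := fun e => h0 (rep_injective ρ g (by rw [hc, e, zero_smul, map_zero]))
    rw [Module.End.mul_apply, LinearMap.sub_apply (ρ g), hc, (by decide : ∀ c : ZMod 2, c ≠ 0 → c = 1) c h3, one_smul]
    exact sub_self _
  obtain ⟨q, hq, hqp, Q, h⟩ := exists_minAct_of_pSolv (H9.pSolv_of_solvable hS) hO2 (A := zpowers (x ^ 2 ^ 1))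
    (B := zpowers x) (IsPGroup.of_card (Nat.card_zpowers x ▸ ho)) (zpowers_le.2 (pow_mem (mem_zpowers x) _))
    ((le_centralizer _).trans ((centralizer_le (SetLike.coe_subset_coe.2 (zpowers_le.2 (pow_mem (mem_zpowers x) _)))).trans
      (cent_le_norm _)))
    (by rw [Ne, zpowers_eq_bot]; exact pow_ne_one_of_lt_orderOf (by decide) (ho ▸ by decide))
  have := Fact.mk hq
  have h3 : x ^ 2 ^ 1 ∈ 𝒞 ⁅Q, Q⁆ := h.phi_eq ▸ h.le_cent_phi (mem_zpowers _)
  obtain ⟨a, ha, μ, U, hμ, k1, k2, k3, -⟩ := hh_rep (bcRep (AlgebraicClosure (ZMod 2)) ρ) (h.norm (mem_zpowers x))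
    (natCast_card_ne_zero (coprime_primes_pgroup h.pgrp hqp)) ho h.comm.ge (h.phi_eq ▸ h.phi_le_cent) h3
    (fun e => h.ne_bot (eq_bot_iff.2 (e.trans ((ker_bcRep _ ρ).trans hρ).le))) (r := 3)
    (by rw [bcRep_sub, ← map_pow, show (ρ x - 1) ^ 3 = 0 from hcub, map_zero]) (by decide)
  obtain ⟨v, hv, hv0⟩ := exists_moved h.comm.ge hμ k1 k2 fun g hg => k3 g (mem_sup_left hg)
  refine hμ (eq_of_mem_wt hv0 (k1 (sub_mem (k3 _ (mem_sup_right ?_) v hv) hv)) ((wt_one _ _).ge fun g hg =>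
    sub_eq_zero.1 (LinearMap.congr_fun (?_ : (bcRep (AlgebraicClosure (ZMod 2)) ρ g - 1) *
      (bcRep (AlgebraicClosure (ZMod 2)) ρ (x ^ 2 ^ 1) - 1) = 0) v)))
  · obtain ⟨c, hc⟩ := Nat.exists_eq_add_of_le ha
    rw [hc, pow_add, pow_mul]
    exact pow_mem (mem_zpowers _) _
  · rw [bcRep_sub, bcRep_sub, ← map_mul, h2 g (mem_centralizer_iff.1 h3 g hg), map_zero]

end Cfsg.Agent.S4410
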