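import Cfsg.Statements.S4413
import Mathlib
import Cfsg.Agent.H2.ES2

set_option autoImplicit false
open Cfsg

namespace Cfsg.Agent.S4413

open Cfsg.Agent.H2 Cfsg.Agent.H4 Subgroup

/-- Let P be an extraspecial 2-group of order 32 with no elementary abelian subgroup of order 8 (the central product of a dihedral and a quaternion group of order 8). Then the inner automorphism group of P has order 16 and the outer automorphism group Aut(P)/Inn(P) is isomorphic to the symmetric group of degree 5; in particular Aut(P) has order 1920. -/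
theorem result {P : Type*} [Group P] [Finite P]
    (hex : Cfsg.IsExtraspecial 2 P) (h32 : Nat.card P = 32)
    (hminus : ∀ A : Subgroup P, Cfsg.IsElementaryAbelian 2 A → Nat.card ↥A ≤ 4)
    [(MulAut.conj : P →* MulAut P).range.Normal] :
    Nat.card ↥(MulAut.conj : P →* MulAut P).range = 16 ∧ Nat.card (MulAut P) = 1920 ∧
      Nonempty ((MulAut P ⧸ (MulAut.conj : P →* MulAut P).range) ≃* Equiv.Perm (Fin 5)) := by
  classical
  obtain ⟨V, _, _, _, c, a, b⟩ := es_exists (n := 2) hex h32
  obtain ⟨e⟩ := c.out_equiv a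
  have hf := c.qf_nondeg.2 a
  have hw : c.qf.wi + 1 = 2 := (c.wi_cases a b).resolve_left fun h => by
    obtain ⟨A, h1, h2⟩ := (c.wi_eq_iff a b).2 h
    have := hminus A h1
    omega
  have h1 : Nat.card c.qf.iso = 120 := by
    rw [hf.orth_card_minus hw b]; simp
  have h2 : Nat.card ↥(MulAut.conj : P →* MulAut P).range = 16 := by
    have h3 : (MulAut.conj : P →* MulAut P).ker = center P := by
      ext x
      simp only [MonoidHom.mem_ker, mem_center_iff, MulEquiv.ext_iff, MulAut.conj_apply,
        MulAut.one_apply, mul_inv_eq_iff_eq_mul]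
      exact forall_congr' fun _ => eq_comm
    have h4 := (center P).index_mul_card
    rw [← index_ker, h3]
    rw [hex.2, h32] at h4
    omega
  have h3 := orth_cnt_minus hf b hw
  have h4 : Nat.card {x : V // x ≠ 0 ∧ c.qf.Q x = 0} = 5 := by
    have := card_ne_zero_and (fun x : V => c.qf.Q x = 0) c.qf.Q_zero
    unfold CForm.cnt at h3
    omega
  let ρ : c.qf.iso →* Equiv.Perm {x : V // x ≠ 0 ∧ c.qf.Q x = 0} := MonoidHom.mk'
    (fun g => Equiv.Perm.subtypePerm (g : V ≃ₗ[ZMod 2] V).toEquiv fun x => by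
      simp [-CExt.qf_Q, CForm.iso_Q g.2]) fun _ _ => rfl
  have h5 : Function.Injective ρ := by
    rw [injective_iff_map_eq_one]
    intro g hg
    have : Nonempty {x : V // x ≠ 0 ∧ c.qf.Q x = 0} :=
      (Nat.card_ne_zero.1 (by rw [h4]; norm_num)).1
    obtain ⟨u, hu, hQ⟩ := this
    refine Subtype.ext (eq_one_of_fix_sing hf hu hQ fun x hx => ?_)
    by_cases h0 : x = 0
    · simp [h0]
    · exact congrArg (fun σ : Equiv.Perm {x : V // x ≠ 0 ∧ c.qf.Q x = 0} => (σ ⟨x, h0, hx⟩).1) hg
  have h6 : Function.Bijective ρ := h5.bijective_of_nat_card_le (by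
    rw [Nat.card_perm, h4, h1]; rfl)
  have e5 : {x : V // x ≠ 0 ∧ c.qf.Q x = 0} ≃ Fin 5 := Finite.equivFinOfCardEq h4
  refine ⟨h2, ?_, ⟨e.trans ((MulEquiv.ofBijective ρ h6).trans e5.permCongrHom)⟩⟩
  rw [card_eq_card_quotient_mul_card_subgroup (MulAut.conj : P →* MulAut P).range, h2]
  have : Nat.card (Out P) = 120 := (Nat.card_congr e.toEquiv).trans h1
  erw [this]

end Cfsg.Agent.S4413
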