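import Cfsg.Statements.S4420
import Cfsg.Agent.GS.Lem1

set_option autoImplicit false
open Cfsg

namespace Cfsg.Agent.S4420

open Cfsg.Agent.H1

/-- Structure of groups in which every element outside some proper subgroup has square 1. Let H be a finite group with a proper subgroup A such that every element outside A has square 1. Then H has an abelian normal subgroup B of index 2 such that every element outside B is an involution inverting every element of B; and if H is not an elementary abelian 2-group, B is the only abelian normal subgroup of index 2 with this property. -/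
theorem result {H : Type*} [Group H] [Finite H] (A : Subgroup H) (hA : A ≠ ⊤) (hD : ∀ x : H, x ∉ A → x ^ 2 = 1) :
    ∃ B : Subgroup H, B.Normal ∧ IsMulCommutative ↥B ∧ B.index = 2 ∧
      (∀ x : H, x ∉ B → x ^ 2 = 1 ∧ ∀ b ∈ B, x * b * x⁻¹ = b⁻¹) ∧
      (¬ (IsMulCommutative H ∧ ∀ x : H, x ^ 2 = 1) →
        ∀ B' : Subgroup H, B'.Normal → IsMulCommutative ↥B' → B'.index = 2 →
          (∀ x : H, x ∉ B' → x ^ 2 = 1 ∧ ∀ b ∈ B', x * b * x⁻¹ = b⁻¹) → B' = B) := by
  open Subgroup Pointwise commutatorElement Cfsg.Agent.BG Cfsg.Agent.GS in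
  open Cfsg.Agent.H2 hiding card_lt_of_lt card_lt_of_ne_top isMulCommutative_of_le isPGroup_zpowers_iff mem_of_pow_mem_of_coprime inf_eq_bot_of_cop exists_maxElem_ge Sec in
  open Cfsg.Agent.H8 (Op Opp Fit SN) in
  open Cfsg.Agent.L (FPF) in focus
    have h0 : ∀ (B : Subgroup H), (∀ x ∉ B, x ^ 2 = 1) → ∀ x ∉ B, ∀ b ∈ B, x * b * x⁻¹ = b⁻¹ := fun B h x hx b hb => by
      have h1 := h x hx
      have h2 := h (x * b) (by rwa [B.mul_mem_cancel_right hb])
      rw [sq] at h1 h2
      rw [← eq_inv_of_mul_eq_one_left h1]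
      exact eq_inv_of_mul_eq_one_left (by rw [← h2]; group)
    obtain ⟨B, hB, h1⟩ := exists_coatom_ge hA
    have h2 : ∀ x ∉ B, x ^ 2 = 1 := fun x hx => hD x fun e => hx (h1 e)
    obtain ⟨x, hx⟩ := exists_not_mem_of_ne_top hB.1
    have h3 : B.Normal := ⟨fun b hb g => by
      by_cases e : g ∈ B
      exacts [mul_mem (mul_mem e hb) (inv_mem e), h0 B h2 g e b hb ▸ inv_mem hb]⟩
    have h4 : IsMulCommutative B := isMulCommutative_of_forall fun a ha b hb => inv_injective (by
      rw [← h0 B h2 x hx _ (mul_mem ha hb), mul_inv_rev, ← h0 B h2 x hx a ha, ← h0 B h2 x hx b hb]; group)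
    have h5 : B.index = 2 := ((Nat.prime_dvd_prime_iff_eq Nat.prime_two (index_prime_of_isCoatom_of_normal hB)).1
      (by_contra fun e => hx (mem_of_coprime_index (((Nat.Prime.coprime_iff_not_dvd Nat.prime_two).2 e).coprime_dvd_left
        (orderOf_dvd_of_pow_eq_one (h2 x hx)))))).symm
    refine ⟨B, h3, h4, h5, fun x hx => ⟨h2 x hx, h0 B h2 x hx⟩, fun h B' _ _ b1 b2 => by_contra fun e => h ?_⟩
    obtain ⟨y, y1, y2⟩ := exists_of_not_le (H := B) (K := B') fun c => e
      (by_contra fun d => absurd (hB.2 _ (c.lt_of_ne' d) ▸ b1) (by simp))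
    have h6 : ∀ c : H, c ^ 2 = 1 := fun c => by
      by_cases c1 : c ∈ B
      · by_cases c2 : c ∈ B'
        · have := (b2 y y2).2 c c2
          rw [mul_comm_of_mem y1 c1, mul_inv_cancel_right] at this
          rw [sq]; exact mul_eq_one_iff_eq_inv.2 this
        exact (b2 c c2).1
      exact h2 c c1
    exact ⟨comm_of_forall fun a b => (Commute.of_orderOf_dvd_two (fun g => orderOf_dvd_of_pow_eq_one (h6 g)) a b).eq, h6⟩

end Cfsg.Agent.S4420
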