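import Cfsg.Statements.S4457
import Mathlib
import Cfsg.Agent.H7.CD1

set_option autoImplicit false
open Cfsg

namespace Cfsg.Agent.S4457

open Cfsg H3 H7

/-- Let G be a finite group whose irreducible character degrees are exactly 1 and m (m ≠ 1). Then either G has an abelian normal subgroup of index m, or m is a power of a prime p and G is the direct product of a p-group and an abelian group: there are normal subgroups P and A with P a p-group, A abelian, P ⊓ A = 1 and P ⊔ A = G. -/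
theorem result {G : Type*} [Group G] [Finite G] (m : ℕ) (hcd : ∀ χ : Cfsg.IrrCharacter G, Cfsg.charDegree (χ : G → ℂ) = 1 ∨ Cfsg.charDegree (χ : G → ℂ) = m) (hm : ∃ χ : Cfsg.IrrCharacter G, Cfsg.charDegree (χ : G → ℂ) = m) (hm1 : m ≠ 1) : (∃ A : Subgroup G, A.Normal ∧ (∀ a ∈ A, ∀ b ∈ A, a * b = b * a) ∧ A.index = m) ∨ ∃ p e : ℕ, p.Prime ∧ m = p ^ e ∧ ∃ P A : Subgroup G, P.Normal ∧ A.Normal ∧ IsPGroup p P ∧ (∀ a ∈ A, ∀ b ∈ A, a * b = b * a) ∧ P ⊓ A = ⊥ ∧ P ⊔ A = ⊤ := by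
  have hcd' : ∀ χ, IsIrrCharacter G χ → charDegree χ = 1 ∨ charDegree χ = m := fun χ h => hcd ⟨χ, h⟩
  obtain ⟨χ, hχ⟩ := hm
  have hm0 : m ≠ 0 := hχ ▸ χ.2.charDegree_pos.ne'
  rcases two_degrees hcd' hm0 with h | h
  · exact Or.inl h
  right
  obtain ⟨p, hp, hpm⟩ := Nat.exists_prime_and_dvd hm1
  obtain ⟨P, A, hP, hA, h1, h2, h3, h4, k, hk⟩ := nilp_struct hcd' hp hpm
  have h5 : m ∣ p ^ k := by rw [← hk, ← hχ]; exact χ.2.degree_dvd_index_of_comm h2
  obtain ⟨e, -, he⟩ := (Nat.dvd_prime_pow hp).1 h5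
  exact ⟨p, e, hp, he, P, A, hP, hA, h1, h2, h3, h4⟩

end Cfsg.Agent.S4457
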