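import Cfsg.Statements.S4459
import Mathlib
import Cfsg.Agent.H7.CD2

set_option autoImplicit false
open Cfsg

namespace Cfsg.Agent.S4459

open Cfsg H3 H7
open scoped commutatorElement

theorem cov_aux {G : Type*} [Group G] {p : ℕ} (hp : p.Prime) (T : Subgroup G) [T.Normal]
    (h1 : T.index = p) {h : G} (hl : h ∉ T) (y : G) : ∃ j : Fin p, y * h ^ (j : ℕ) ∈ T := by
  haveI : Fact p.Prime := ⟨hp⟩
  have hc : Nat.card (G ⧸ T) = p := h1
  obtain ⟨n, hn⟩ := mem_powers_of_prime_card hc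
    (g := (h : G ⧸ T)) (fun e => hl ((QuotientGroup.eq_one_iff h).1 e)) (g' := (y : G ⧸ T)⁻¹)
  refine ⟨⟨n % p, Nat.mod_lt _ hp.pos⟩, (QuotientGroup.eq_one_iff _).1 ?_⟩
  have h2 : (h : G ⧸ T) ^ (n % p) = (h : G ⧸ T) ^ n := by
    rw [← hc, pow_mod_natCard]
  simp only at hn
  rw [QuotientGroup.mk_mul, QuotientGroup.mk_pow, h2, hn, mul_inv_cancel]

theorem main {G : Type*} [Group G] [Finite G] [Group.IsNilpotent G] (hG : commutator G ≠ ⊥) {p : ℕ}
    (hp : p.Prime) (hcd : ∀ χ, IsIrrCharacter G χ → charDegree χ = 1 ∨ charDegree χ = p)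
    (hnA : ¬ ∃ A : Subgroup G, A.Normal ∧ (∀ a ∈ A, ∀ b ∈ A, a * b = b * a) ∧ A.index = p) :
    (Subgroup.center G).index = p ^ 3 := by
  classical
  haveI := Fintype.ofFinite G
  haveI : Fact p.Prime := ⟨hp⟩
  obtain ⟨k, hk⟩ : ∃ k, ∀ g : G, g ^ p ^ k ∈ Subgroup.center G := by
    obtain ⟨P, A, hP, hA, h1, h2, h3, h4, k, hk⟩ := nilp_struct hcd hp dvd_rfl
    refine ⟨k, fun g => Subgroup.mem_center_iff.2 fun x => ?_⟩
    have hg : g ^ p ^ k ∈ A := hk ▸ A.pow_index_mem g
    obtain ⟨a, ha, b, hb, rfl⟩ := exists_mul_of_sup_normal h4 x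
    have c1 : Commute a (g ^ p ^ k) :=
      Subgroup.commute_of_normal_of_disjoint P A hP hA (disjoint_iff.2 h3) _ _ ha hg
    have c2 : Commute b (g ^ p ^ k) := h2 b hb _ hg
    exact (c1.mul_left c2).eq
  obtain ⟨χ₀, h₀, hd1, hGA⟩ := exists_class_two (G := G)
    (L.commutator_lt_of_isNilpotent (H := ⊤) le_top Subgroup.le_normalizer_of_normal hG).not_ge
  have hd : charDegree χ₀ = p := (hcd _ h₀).resolve_left hd1
  have hsq := h₀.degree_sq_eq_of_commutator_le hGA
  haveI hAn : (charCenter χ₀).Normal := h₀.isClassFunction.charCenter_normal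
  have hnc : ∀ x, Subgroup.zpowers x ⊔ charCenter χ₀ = ⊤ → x ∈ charCenter χ₀ :=
    fun x => h₀.mem_charCenter_of_sup
  have hZA := h₀.center_le_charCenter
  have hp2 : p ^ 2 ≠ 1 ∧ p ^ 2 ≠ p := by
    have := hp.one_lt
    constructor <;> nlinarith
  have hab' : ∀ a b : charCenter χ₀, a * b = b * a := comm_of_deg fun θ hθ => by
    by_contra hne
    obtain ⟨χ, hχ, e, -, he, he1⟩ := exists_over_res hθ
    have h1 : charDegree χ = p := (hcd χ hχ).resolve_left fun h =>
      hne (Nat.eq_one_of_mul_eq_one_left (he.symm.trans h))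
    have h2 : charDegree θ = p :=
      ((Nat.dvd_prime hp).1 (h1 ▸ he ▸ dvd_mul_left _ _)).resolve_left hne
    have h3 : e = 1 := by
      rw [h1, h2] at he
      exact Nat.eq_of_mul_eq_mul_right hp.pos (he.symm.trans (one_mul p).symm)
    have h4 := mul_irr_of_sq h₀ le_rfl hsq hχ.isCharacter (by rw [he1 h3]; exact hθ)
    have h5 := hcd _ h4
    rw [charDegree_mul hχ.isCharacter h₀.isCharacter, h1, hd, ← sq] at h5
    exact h5.elim hp2.1 hp2.2
  rw [hd] at hsq
  generalize charCenter χ₀ = A at *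
  have hab : ∀ a ∈ A, ∀ b ∈ A, a * b = b * a := fun a ha b hb =>
    congrArg Subtype.val (hab' ⟨a, ha⟩ ⟨b, hb⟩)
  have hnorm : ∀ X : Subgroup G, A ≤ X → X.Normal := fun X hX => ⟨fun n hn g => by
    have : g * n * g⁻¹ = ⁅g, n⁆ * n := by simp [commutatorElement_def]
    rw [this]
    exact X.mul_mem (hX (hGA (Subgroup.commutator_mem_commutator trivial trivial))) hn⟩
  have heq : ∀ X Y : Subgroup G, X ≤ Y → X.index = Y.index → X = Y := fun X Y h1 h2 => by
    by_contra hne
    exact (Subgroup.index_strictAnti (lt_of_le_of_ne h1 hne)).ne' h2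
  have hidx : ∀ X : Subgroup G, A ≤ X → X ≠ A → X ≠ ⊤ → X.index = p := by
    intro X h1 h2 h3
    obtain ⟨i, hi, h⟩ := (Nat.dvd_prime_pow hp).1 (hsq ▸ Subgroup.index_dvd_of_le h1)
    interval_cases i
    · exact absurd (Subgroup.index_eq_one.1 (by simpa using h)) h3
    · simpa using h
    · exact absurd (heq A X h1 (hsq.symm.trans h.symm)).symm h2
  have hAT : ∀ l : A →* ℂˣ, A ≤ stab (dualAct A) l := by
    intro l a ha
    rw [mem_stab_iff_cmap A hab]
    rintro _ ⟨b, rfl⟩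
    rw [(cmap_eq_one_iff A hab a b).2 (hab _ b.2 _ ha)]
    exact one_mem _
  have hTA : ∀ l : A →* ℂˣ, stab (dualAct A) l ≠ A := fun l h => by
    have h1 := (isIrrCharacter_linear l).ind_irr_iff.2 (by rw [inertia_eq_stab, h])
    have h2 := hcd _ h1
    rw [charDegree_eq (n := p ^ 2) (by rw [indFun_one, hsq]; simp)] at h2
    exact h2.elim hp2.1 hp2.2
  have hcov : ∀ (h y : G) (l : A →* ℂˣ), h ∉ stab (dualAct A) l →
      ∃ j : Fin p, y * h ^ (j : ℕ) ∈ stab (dualAct A) l := by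
    intro h y l hl
    haveI := hnorm _ (hAT l)
    have h1 := hidx _ (hAT l) (hTA l) fun e => hl (e ▸ Subgroup.mem_top h)
    exact cov_aux hp _ h1 hl y
  let W : G → Subgroup A := fun g => (cmap A hab g).range
  have hX : ∀ g, g ∉ A → (Subgroup.zpowers g ⊔ A).index = p := fun g hg =>
    hidx _ le_sup_right (fun e => hg (e ▸ (le_sup_left : _ ≤ Subgroup.zpowers g ⊔ A)
      (Subgroup.mem_zpowers g))) fun e => hg (hnc g e)
  have hW0 : ∀ g, g ∉ A → W g ≠ ⊥ := by
    intro g hg h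
    refine hnA ⟨_, hnorm _ le_sup_right, ?_, hX g hg⟩
    have hc : ∀ a ∈ A, Commute g a := fun a ha =>
      ((cmap_eq_one_iff A hab g ⟨a, ha⟩).1 (by
        have : cmap A hab g ⟨a, ha⟩ ∈ W g := ⟨_, rfl⟩
        rw [h] at this; exact this)).symm
    intro a ha b hb
    obtain ⟨_, ⟨i, rfl⟩, a2, ha2, rfl⟩ := Subgroup.mem_sup_of_normal_right.1 ha
    obtain ⟨_, ⟨j, rfl⟩, b2, hb2, rfl⟩ := Subgroup.mem_sup_of_normal_right.1 hb
    have c1 : Commute (g ^ i) (g ^ j) := Commute.zpow_zpow_self g i j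
    have c2 : Commute (g ^ i) b2 := (hc b2 hb2).zpow_left i
    have c3 : Commute a2 (g ^ j) := ((hc a2 ha2).zpow_left j).symm
    have c4 : Commute a2 b2 := hab _ ha2 _ hb2
    exact ((c1.mul_right c2).mul_left (c3.mul_right c4)).eq
  have hWp : ∀ g, g ∉ A → p ≤ Nat.card (W g) := by
    intro g hg
    have h1 : IsPGroup p (W g) := by
      rintro ⟨_, a, rfl⟩
      refine ⟨k, Subtype.ext ?_⟩
      show cmap A hab g a ^ p ^ k = 1
      rw [← map_pow, cmap_eq_one_iff]
      exact (Subgroup.mem_center_iff.1 (hk a) g).symm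
    obtain ⟨n, hn⟩ := IsPGroup.iff_card.1 h1
    rcases n with _ | n
    · exact absurd (Subgroup.card_eq_one.1 (by simpa using hn)) (hW0 g hg)
    · rw [hn]; exact Nat.le_self_pow (by omega) p
  have hsep : ∀ h y, h ∉ A → y ∉ Subgroup.zpowers h ⊔ A → ∀ j : ℕ, y * h ^ j ∉ A := by
    intro h y _ hy j hj
    apply hy
    have : y = (y * h ^ j) * (h ^ j)⁻¹ := by group
    rw [this]
    exact Subgroup.mul_mem _ (Subgroup.mem_sup_right hj)
      (Subgroup.inv_mem _ (Subgroup.mem_sup_left (Subgroup.npow_mem_zpowers h j)))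
  haveI := finite_dual A
  have hannT : ∀ g (l : A →* ℂˣ), l ∈ annS (W g) ↔ g ∈ stab (dualAct A) l := fun g l =>
    (mem_stab_iff_cmap A hab g l).symm
  have hann : ∀ g, g ∉ A → annS (W g) ≠ ⊤ := fun g hg h => by
    have h1 := index_annS hab' (W g)
    rw [h, Subgroup.index_top] at h1
    exact hW0 g hg (Subgroup.card_eq_one.1 h1.symm)
  have hW : ∀ y, y ∉ A → Nat.card (W y) = p := by
    intro y hy
    obtain ⟨h, hh⟩ : ∃ h, h ∉ Subgroup.zpowers y ⊔ A := by
      refine not_forall.1 fun H => hy (hnc y (eq_top_iff.2 fun x _ => H x))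
    have hhA : h ∉ A := fun e => hh (Subgroup.mem_sup_right e)
    have hy' : y ∉ Subgroup.zpowers h ⊔ A := fun e => hh (by
      rw [heq (Subgroup.zpowers y ⊔ A) (Subgroup.zpowers h ⊔ A)
        (sup_le ((Subgroup.zpowers_le).2 e) le_sup_right) ((hX y hy).trans (hX h hhA).symm)]
      exact Subgroup.mem_sup_left (Subgroup.mem_zpowers h))
    have := cover_lemma (p := p) (annS (W h)) (hann h hhA) (fun j => annS (W (y * h ^ (j : ℕ))))
      (fun j => by rw [index_annS hab']; exact hWp _ (hsep h y hhA hy' j))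
      (fun l hl => by
        obtain ⟨j, hj⟩ := hcov h y l (fun e => hl ((hannT h l).2 e))
        exact ⟨j, (hannT _ l).2 hj⟩) ⟨0, hp.pos⟩
    rw [index_annS hab'] at this
    simpa using this
  have hK : ∀ y, y ∉ A → (cmap A hab y).ker.index = p := fun y hy => by
    rw [Subgroup.index_ker]; exact hW y hy
  have hWeq : ∀ g g', g ∉ A → g' ∉ A → ∀ w, w ≠ 1 → w ∈ W g → w ∈ W g' → W g = W g' := by
    intro g g' hg hg' w hw h1 h2
    have key : ∀ x, x ∉ A → w ∈ W x → W x = Subgroup.zpowers w := fun x hx h => by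
      symm
      apply Subgroup.eq_of_le_of_card_ge ((Subgroup.zpowers_le).2 h)
      rw [hW x hx, Nat.card_zpowers]
      have h3 : orderOf w ∣ p := hW x hx ▸ Subgroup.orderOf_dvd_natCard _ h
      exact (((Nat.dvd_prime hp).1 h3).resolve_left (fun e => hw (orderOf_eq_one_iff.1 e))).ge
    rw [key g hg h1, key g' hg' h2]
  have hmul : ∀ g h (a : A), cmap A hab (g * h) a =
      cmap A hab h (cmap A hab g a) * cmap A hab g a * cmap A hab h a := by
    intro g h a
    ext
    simp only [coe_cmap, Subgroup.coe_mul]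
    group
  have hKeq : ∀ h y, h ∉ A → y ∉ A → (cmap A hab h).ker = (cmap A hab y).ker := by
    intro h y hh hy
    by_contra hne
    have hnl : ∀ u v, u ∉ A → v ∉ A → (cmap A hab u).ker ≠ (cmap A hab v).ker →
        ∃ a, cmap A hab u a = 1 ∧ cmap A hab v a ≠ 1 := by
      intro u v hu hv hne
      by_contra H
      push Not at H
      exact (Subgroup.index_strictAnti (lt_of_le_of_ne (fun a ha => H a ha) hne)).ne'
        ((hK u hu).trans (hK v hv).symm)
    obtain ⟨a, ha1, ha2⟩ := hnl h y hh hy hne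
    obtain ⟨b, hb1, hb2⟩ := hnl y h hy hh (Ne.symm hne)
    have hy' : y ∉ Subgroup.zpowers h ⊔ A := by
      intro e
      obtain ⟨_, ⟨i, rfl⟩, a2, ha2', e⟩ := Subgroup.mem_sup_of_normal_right.1 e
      apply ha2
      rw [cmap_eq_one_iff] at ha1 ⊢
      have c1 : Commute (a : G) (h ^ i) := Commute.zpow_right ha1 i
      have c2 : Commute (a : G) a2 := hab _ a.2 _ ha2'
      rw [← e]
      exact (c1.mul_right c2).eq
    have hyh : y * h ∉ A := by simpa using hsep h y hh hy' 1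
    have e1 : W (y * h) = W h := hWeq _ _ hyh hh (cmap A hab h b) hb2
      ⟨b, by rw [hmul, hb1]; simp⟩ ⟨b, rfl⟩
    have e2 : W (y * h) = W y := by
      refine hWeq _ _ hyh hy (cmap A hab y a) ha2 ⟨a, ?_⟩ ⟨a, rfl⟩
      have f1 : y * h = h * y * ⁅y⁻¹, h⁻¹⁆ := by simp only [commutatorElement_def]; group
      have f2 : ∀ x, cmap A hab ⁅y⁻¹, h⁻¹⁆ x = 1 := fun x => (cmap_eq_one_iff A hab _ x).2
        (hab _ x.2 _ (hGA (Subgroup.commutator_mem_commutator trivial trivial)))
      rw [f1, hmul, f2, f2, hmul, ha1]; simp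
    have e3 : W y = W h := e2.symm.trans e1
    have hpow : ∀ (j : ℕ) a, cmap A hab (y * h ^ j) a ∈ W h := by
      intro j
      induction j with
      | zero => intro a; rw [← e3]; simp [W]
      | succ j ih =>
        intro a
        rw [pow_succ, ← mul_assoc, hmul]
        exact (W h).mul_mem ((W h).mul_mem ⟨_, rfl⟩ (ih a)) ⟨_, rfl⟩
    obtain ⟨l, hl⟩ : ∃ l, l ∉ annS (W h) :=
      not_forall.1 fun H => hann h hh (eq_top_iff.2 fun x _ => H x)
    obtain ⟨j, hj⟩ := hcov h y l (fun e => hl ((hannT h l).2 e))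
    apply hl
    have e4 : W (y * h ^ (j : ℕ)) = W h := Subgroup.eq_of_le_of_card_ge
      (by rintro _ ⟨a, rfl⟩; exact hpow j a) (by rw [hW h hh, hW _ (hsep h y hh hy' j)])
    rw [← e4]; exact (hannT _ l).2 hj
  obtain ⟨y, hy⟩ : ∃ y, y ∉ A := not_forall.1 fun H => by
    rw [(eq_top_iff.2 fun x _ => H x : A = ⊤), Subgroup.index_top] at hsq
    exact hp2.1 hsq
  have hZ : (Subgroup.center G).subgroupOf A = (cmap A hab y).ker := by
    ext a
    rw [Subgroup.mem_subgroupOf, Subgroup.mem_center_iff, MonoidHom.mem_ker]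
    constructor
    · intro h; exact (cmap_eq_one_iff A hab y a).2 (h y).symm
    · intro h g
      by_cases hg : g ∈ A
      · exact hab _ hg _ a.2
      · have : a ∈ (cmap A hab g).ker := hKeq y g hy hg ▸ h
        exact ((cmap_eq_one_iff A hab g a).1 this).symm
  rw [← Subgroup.relIndex_mul_index hZA, ← hsq, Subgroup.relIndex, hZ, hK y hy]
  ring

/-- Let G be a non-abelian finite group and p a prime. Then the irreducible character degrees of G are exactly 1 and p if and only if either G has an abelian normal subgroup of index p or the centre of G has index p³. -/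
theorem result {G : Type*} [Group G] [Finite G] (hG : ∃ a b : G, a * b ≠ b * a) (p : ℕ) (hp : p.Prime) : ((∀ χ : Cfsg.IrrCharacter G, Cfsg.charDegree (χ : G → ℂ) = 1 ∨ Cfsg.charDegree (χ : G → ℂ) = p) ∧ ∃ χ : Cfsg.IrrCharacter G, Cfsg.charDegree (χ : G → ℂ) = p) ↔ ((∃ A : Subgroup G, A.Normal ∧ (∀ a ∈ A, ∀ b ∈ A, a * b = b * a) ∧ A.index = p) ∨ (Subgroup.center G).index = p ^ 3) := by
  have hG' : commutator G ≠ ⊥ := by
    obtain ⟨a, b, hab⟩ := hG
    intro h
    have : ⁅a, b⁆ ∈ commutator G := Subgroup.commutator_mem_commutator trivial trivial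
    rw [h] at this
    exact hab (commutatorElement_eq_one_iff_mul_comm.1 this)
  constructor
  · rintro ⟨hcd, -⟩
    have hcd' : ∀ χ, IsIrrCharacter G χ → charDegree χ = 1 ∨ charDegree χ = p :=
      fun χ h => hcd ⟨χ, h⟩
    by_cases h : ∃ A : Subgroup G, A.Normal ∧ (∀ a ∈ A, ∀ b ∈ A, a * b = b * a) ∧ A.index = p
    · exact Or.inl h
    rcases two_degrees hcd' hp.pos.ne' with h1 | h1
    · exact absurd h1 h
    · exact Or.inr (main hG' hp hcd' h)
  · intro h
    have h1 : ∀ χ : Cfsg.IrrCharacter G, Cfsg.charDegree (χ : G → ℂ) = 1 ∨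
        Cfsg.charDegree (χ : G → ℂ) = p := by
      intro χ
      rcases h with ⟨A, hA, hab, hi⟩ | h
      · exact (Nat.dvd_prime hp).1 (hi ▸ χ.2.degree_dvd_index_of_comm hab)
      · obtain ⟨i, hi, h2⟩ := (Nat.dvd_prime_pow hp).1 (h ▸ χ.2.degree_dvd_index_center)
        have h3 := χ.2.degree_sq_le_index χ.2.center_le_charCenter
        rw [h, h2, ← pow_mul, Nat.pow_le_pow_iff_right hp.one_lt] at h3
        have : i = 0 ∨ i = 1 := by omega
        rcases this with rfl | rfl <;> simp [h2]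
    refine ⟨h1, ?_⟩
    by_contra h2
    obtain ⟨a, b, hab⟩ := hG
    exact hab (comm_of_deg (fun χ hχ => (h1 ⟨χ, hχ⟩).resolve_right fun e => h2 ⟨⟨χ, hχ⟩, e⟩) a b)

end Cfsg.Agent.S4459
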