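import Cfsg.Statements.S4460
import Mathlib
import Cfsg.Agent.H7.CD3

set_option autoImplicit false
open Cfsg

namespace Cfsg.Agent.S4460

open Cfsg H3 H7
open scoped commutatorElement

universe u

theorem of_second {G : Type u} [Group G] (h : ⁅commutator G, commutator G⁆ = ⊥) :
    derivedSeries G 3 = ⊥ := by
  rw [derived_three, h]; simp

theorem caseB {G : Type u} [Group G] [Finite G] {a b : ℕ} (hab : a < b) (ha : 1 < a)
    (hg : Nat.gcd a b ≠ 1)
    (hcd : ∀ χ, IsIrrCharacter G χ → charDegree χ = 1 ∨ charDegree χ = a ∨ charDegree χ = b)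
    (ih : ∀ L : Subgroup G, L ≠ ⊤ → ∀ a b : ℕ, (∀ χ, IsIrrCharacter L χ → charDegree χ = 1 ∨
      charDegree χ = a ∨ charDegree χ = b) → derivedSeries L 3 = ⊥) : derivedSeries G 3 = ⊥ := by
  classical
  haveI := Fintype.ofFinite G
  have hdvd : ∀ χ, IsIrrCharacter G χ → charDegree χ ≠ 1 → Nat.gcd a b ∣ charDegree χ := by
    intro χ hχ h1
    rcases hcd χ hχ with h | h | h
    · exact absurd h h1
    · rw [h]; exact Nat.gcd_dvd_left _ _
    · rw [h]; exact Nat.gcd_dvd_right _ _
  obtain ⟨L, hL, hco, hnil, hidx⟩ := exists_compl (G := G) (Nat.gcd_ne_zero_left (by omega)) hdvd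
  have hc : (Nat.card L).Coprime L.index := Nat.coprime_of_dvd fun q hq h1 h2 =>
    hq.one_lt.ne' (Nat.eq_one_of_dvd_coprimes hco h1 (hidx q hq h2))
  by_cases hLt : L = ⊤
  · refine of_second (metabelian_of_two (m := 1) fun χ hχ => Or.inl ?_)
    by_contra h
    rw [hLt, Subgroup.card_top] at hco
    exact hg (Nat.eq_one_of_dvd_coprimes hco ((hdvd χ hχ h).trans hχ.degree_dvd_card) dvd_rfl)
  have part : ∀ m : ℕ, ∃ m', (m ∣ L.index → m' = 1) ∧
      ∀ e t, e ∣ L.index → t.Coprime L.index → m = e * t → t = m' := by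
    intro m
    by_cases h : ∃ e t, e ∣ L.index ∧ t.Coprime L.index ∧ m = e * t
    · obtain ⟨e, t, h1, h2, h3⟩ := h
      refine ⟨t, fun h => Nat.eq_one_of_dvd_coprimes h2 dvd_rfl
        ((h3 ▸ dvd_mul_left _ _ : t ∣ m).trans h), fun e' t' h1' h2' h3' => ?_⟩
      apply Nat.dvd_antisymm
      · exact (h2'.coprime_dvd_right h1).dvd_of_dvd_mul_left (h3 ▸ h3' ▸ dvd_mul_left _ _)
      · exact (h2.coprime_dvd_right h1').dvd_of_dvd_mul_left (h3' ▸ h3 ▸ dvd_mul_left _ _)
    · exact ⟨1, fun _ => rfl, fun e t h1 h2 h3 => absurd ⟨e, t, h1, h2, h3⟩ h⟩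
  obtain ⟨a', ha1, ha2⟩ := part a
  obtain ⟨b', hb1, hb2⟩ := part b
  have hcdL : ∀ θ, IsIrrCharacter L θ → charDegree θ = 1 ∨ charDegree θ = a' ∨ charDegree θ = b' := by
    intro θ hθ
    obtain ⟨χ, hχ, e, he, h⟩ := deg_res_dvd hθ
    have h1 := hc.coprime_dvd_left hθ.degree_dvd_card
    rcases hcd χ hχ with h2 | h2 | h2
    · exact Or.inl (Nat.eq_one_of_mul_eq_one_left (h.symm.trans h2))
    · exact Or.inr (Or.inl (ha2 e _ he h1 (h2.symm.trans h)))
    · exact Or.inr (Or.inr (hb2 e _ he h1 (h2.symm.trans h)))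
  have hQ : ∀ χ, IsIrrCharacter G χ → ⁅L, L⁆ ≤ charKer χ → charDegree χ ∣ L.index := by
    intro χ hχ hk
    obtain ⟨θ, hθ, h⟩ := hχ.exists_under L
    obtain ⟨e, h1, h2⟩ := hχ.exists_degree_eq hθ h
    have h3 : θ 1 = 1 := hθ.degree_eq_one_iff.2 fun x hx =>
      (hχ.isCharacter.res L).charKer_le_of_inner hθ h fun y =>
        hk (x := x) (by rw [← Subgroup.map_subtype_commutator L]; exact ⟨x, hx, rfl⟩) y
    rw [charDegree_eq (n := e) (by rw [h1, h3, mul_one])]; exact h2
  have fin : ∀ m m' : ℕ, (∀ χ, IsIrrCharacter G χ → ⁅L, L⁆ ≤ charKer χ →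
      charDegree χ = 1 ∨ charDegree χ = m) → (∀ θ, IsIrrCharacter L θ →
      charDegree θ = 1 ∨ charDegree θ = m') → derivedSeries G 3 = ⊥ := by
    intro m m' h1 h2
    have h3 := second_le h1
    rw [derived_three, eq_bot_iff, ← sub_second h2]
    exact Subgroup.commutator_mono h3 h3
  by_cases hPa : a ∣ L.index <;> by_cases hPb : b ∣ L.index
  · have hab' : ∀ a b : L, a * b = b * a := comm_of_deg fun θ hθ => by
      have := hcdL θ hθ
      rw [ha1 hPa, hb1 hPb] at this; tauto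
    exact taketa_three hab hcd fun χ hχ => monomial_of_hall hc
      (fun a ha b hb => congrArg Subtype.val (hab' ⟨a, ha⟩ ⟨b, hb⟩)) hχ
  · refine fin a b' (fun χ hχ hk => ?_) (fun θ hθ => ?_)
    · have := hQ χ hχ hk
      rcases hcd χ hχ with h | h | h
      · exact Or.inl h
      · exact Or.inr h
      · exact absurd (h ▸ this) hPb
    · have := hcdL θ hθ
      rw [ha1 hPa] at this; tauto
  · refine fin b a' (fun χ hχ hk => ?_) (fun θ hθ => ?_)
    · have := hQ χ hχ hk
      rcases hcd χ hχ with h | h | h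
      · exact Or.inl h
      · exact absurd (h ▸ this) hPa
      · exact Or.inr h
    · have := hcdL θ hθ
      rw [hb1 hPb] at this; tauto
  · have h1 : commutator G ≤ ⁅L, L⁆ := commutator_le_of_deg fun χ hχ hk => by
      have := hQ χ hχ hk
      rcases hcd χ hχ with h | h | h
      · exact h
      · exact absurd (h ▸ this) hPa
      · exact absurd (h ▸ this) hPb
    have h2 := ih L hLt a' b' hcdL
    have h3 : (derivedSeries L 3).map L.subtype = ⁅⁅⁅L, L⁆, ⁅L, L⁆⁆, ⁅⁅L, L⁆, ⁅L, L⁆⁆⁆ := by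
      rw [derived_three]
      simp only [Subgroup.map_commutator, Subgroup.map_subtype_commutator]
    rw [h2, Subgroup.map_bot] at h3
    rw [derived_three, eq_bot_iff, h3]
    exact Subgroup.commutator_mono (Subgroup.commutator_mono h1 h1) (Subgroup.commutator_mono h1 h1)

theorem caseA1 {G : Type u} [Group G] [Finite G] {a b : ℕ} (hne : a ≠ b) (ha : a ≠ 1) (hb : b ≠ 1)
    (hab : a.Coprime b)
    (hcd : ∀ χ, IsIrrCharacter G χ → charDegree χ = 1 ∨ charDegree χ = a ∨ charDegree χ = b)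
    {M : Subgroup G} [M.Normal] (hMG : M ≤ commutator G) (h0 : ⁅M, M⁆ ≠ ⊥)
    (hmin : ∀ R : Subgroup G, R.Normal → R ≠ ⊥ → M ≤ R) : False := by
  classical
  haveI := Fintype.ofFinite G
  have hM := hmin _ inferInstance h0
  have hZ : Subgroup.center G = ⊥ := by
    by_contra h
    apply h0
    rw [Subgroup.commutator_eq_bot_iff_le_centralizer]
    exact (hmin _ inferInstance h).trans (Subgroup.center_le_centralizer _)
  have hf : ∀ χ, IsIrrCharacter G χ → ¬ M ≤ charKer χ → charCenter χ = ⊥ ∧ charDegree χ ≠ 1 := by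
    intro χ hχ h
    refine ⟨(hχ.charCenter_eq_center ?_).trans hZ, fun e => h (hMG.trans
      (commutator_le_ker_of_deg hχ e))⟩
    by_contra h1
    exact h (hmin _ hχ.isClassFunction.charKer_normal h1)
  have hcd' : ∀ χ, IsIrrCharacter G χ → charDegree χ = 1 ∨ charDegree χ = b ∨ charDegree χ = a :=
    fun χ hχ => by have := hcd χ hχ; tauto
  have key : ∀ χ ψ, IsIrrCharacter G χ → IsIrrCharacter G ψ → ¬ M ≤ charKer χ → ¬ M ≤ charKer ψ →
      charDegree χ = a → charDegree ψ = b → False := by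
    intro χ ψ hχ hψ h1 h2 h3 h4
    obtain ⟨ξ, hξ, h5⟩ := (hχ.isCharacter.mul hψ.isCharacter).exists_irr_inner_ne_zero
      (mul_ne_zero hχ.apply_one_ne_zero hψ.apply_one_ne_zero)
    rcases hcd ξ hξ with h | h | h
    · exact hne (h3.symm.trans ((no_lin hχ hψ hξ h5 h).trans h4))
    · exact closure_lemma hab hne ha hcd hχ hψ h3 h4 (hf ψ hψ h2).1 hξ h5 h
    · exact closure_lemma hab.symm hne.symm hb hcd' hψ hχ h4 h3 (hf χ hχ h1).1 hξ
        (by rwa [mul_comm]) h
  obtain ⟨χ, hχ, hk⟩ : ∃ χ, IsIrrCharacter G χ ∧ ¬ M ≤ charKer χ := by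
    by_contra h
    push Not at h
    exact h0 (by rw [eq_bot_of_le_charKer h]; simp)
  have hall : ∀ ψ, IsIrrCharacter G ψ → ¬ M ≤ charKer ψ → charDegree ψ = charDegree χ := by
    intro ψ hψ hk'
    rcases (hcd χ hχ).resolve_left (hf χ hχ hk).2 with h | h <;>
      rcases (hcd ψ hψ).resolve_left (hf ψ hψ hk').2 with h' | h'
    · rw [h, h']
    · exact (key χ ψ hχ hψ hk hk' h h').elim
    · exact (key ψ χ hψ hχ hk' hk h' h).elim
    · rw [h, h']
  obtain ⟨θ, hθ, h⟩ := hχ.exists_under M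
  obtain ⟨e, h1, -⟩ := hχ.exists_degree_eq hθ h
  have h2 : charDegree χ = e * charDegree θ := by
    rw [← hχ.cast_charDegree, ← hθ.cast_charDegree] at h1
    exact_mod_cast h1
  have h3 : charDegree θ ≠ 1 := fun e => hk (by
    have h4 := commutator_le_ker_of_deg hθ e
    have h5 : commutator M = ⊤ := by
      apply Subgroup.map_injective M.subtype_injective
      rw [Subgroup.map_subtype_commutator, ← MonoidHom.range_eq_map, Subgroup.range_subtype]
      exact le_antisymm (Subgroup.commutator_le_left _ _) hM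
    rw [h5, top_le_iff] at h4
    rw [hθ.eq_one_of_charKer_eq_top h4] at h
    exact hχ.le_charKer_iff.2 h)
  obtain ⟨p, hp, hpd⟩ := Nat.exists_prime_and_dvd h3
  exact not_dvd_of_perfect hM hp (fun ψ hψ hk' => by
    rw [hall ψ hψ hk', h2]; exact hpd.mul_left _) (hpd.trans hθ.degree_dvd_card)

theorem caseA2 {G : Type u} [Group G] [Finite G] {a b : ℕ} (ha : a ≠ 1)
    (hab : a.Coprime b)
    (hcd : ∀ χ, IsIrrCharacter G χ → charDegree χ = 1 ∨ charDegree χ = a ∨ charDegree χ = b)
    {K N : Subgroup G} [K.Normal] [hN : N.Normal] (hKN : K ≤ N)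
    (hNN : ⁅N, N⁆ ≤ K) (hlt : N.index ≤ K.relIndex N)
    (hfpf : ∀ g, g ∉ N → ∀ n ∈ N, ∃ x ∈ N, n * (x * g * x⁻¹ * g⁻¹)⁻¹ ∈ K)
    (hco : (K.relIndex N).Coprime N.index) (hi : N.index = a) (hG : commutator G ≤ N) :
    derivedSeries G 3 = ⊥ := by
  classical
  haveI := Fintype.ofFinite G
  have h1 := sub_second (N := N) (m := b) fun ψ hψ => by
    obtain ⟨χ, hχ, e, he, h⟩ := deg_res_dvd hψ
    rw [hi] at he
    rcases hcd χ hχ with h2 | h2 | h2
    · exact Or.inl (Nat.eq_one_of_mul_eq_one_left (h.symm.trans h2))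
    · left
      obtain ⟨ξ, hξ, h3⟩ := exists_ind_irr hKN hNN hlt hfpf hψ
        (hco.symm.coprime_dvd_left (by rw [hi, ← h2, h]; exact dvd_mul_left _ _))
      rw [hi] at h3
      rcases hcd ξ hξ with h4 | h4 | h4
      · exact Nat.eq_one_of_mul_eq_one_left (h3.symm.trans h4)
      · have : 0 < a := h2 ▸ hχ.charDegree_pos
        exact Nat.eq_of_mul_eq_mul_left this ((h3.symm.trans h4).trans (mul_one a).symm)
      · exact absurd (Nat.eq_one_of_dvd_coprimes hab dvd_rfl (h4 ▸ h3 ▸ dvd_mul_right _ _)) ha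
    · right
      have : e = 1 := Nat.eq_one_of_dvd_coprimes hab he (h2 ▸ h ▸ dvd_mul_right _ _)
      rw [← h2, h, this, one_mul]
  rw [derived_three, eq_bot_iff, ← h1]
  exact Subgroup.commutator_mono (Subgroup.commutator_mono hG hG) (Subgroup.commutator_mono hG hG)

theorem caseA3 {G : Type u} [Group G] [Finite G] {a b : ℕ} (ha : a ≠ 1) (hb : b ≠ 1)
    (hab : a.Coprime b)
    (hcd : ∀ χ, IsIrrCharacter G χ → charDegree χ = 1 ∨ charDegree χ = a ∨ charDegree χ = b)
    {χ ψ : G → ℂ} (hχ : IsIrrCharacter G χ) (hψ : IsIrrCharacter G ψ) (h1 : charDegree χ = a)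
    (h2 : charDegree ψ = b) (h : commutator G ≤ charCenter χ) : False := by
  haveI := hχ.isClassFunction.charCenter_normal
  have hsq := hχ.degree_sq_eq_of_commutator_le h
  have h3 := hcd _ (mul_irr_of_sq hχ le_rfl hsq hψ.isCharacter (res_irr_of_coprime hψ (by
    rw [← hsq, h1, h2]; exact hab.symm.pow_right 2)))
  rw [charDegree_mul hψ.isCharacter hχ.isCharacter, h1, h2] at h3
  have := h1 ▸ hχ.charDegree_pos
  have := h2 ▸ hψ.charDegree_pos
  have : 1 < a := by omega
  have : 1 < b := by omega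
  rcases h3 with h | h | h <;> nlinarith

theorem caseA {G : Type u} [Group G] [Finite G] [Group.IsSolvable G] {a b : ℕ} (ha : a ≠ 1)
    (hb : b ≠ 1) (hab : a.Coprime b)
    (hcd : ∀ χ, IsIrrCharacter G χ → charDegree χ = 1 ∨ charDegree χ = a ∨ charDegree χ = b) :
    derivedSeries G 3 = ⊥ := by
  classical
  haveI := Fintype.ofFinite G
  have hcd' : ∀ χ, IsIrrCharacter G χ → charDegree χ = 1 ∨ charDegree χ = b ∨ charDegree χ = a :=
    fun χ hχ => by have := hcd χ hχ; tauto
  by_cases h1 : ∃ χ, IsIrrCharacter G χ ∧ charDegree χ = a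
  swap
  · exact of_second (metabelian_of_two (m := b) fun χ hχ => by
      have := hcd χ hχ; have : charDegree χ ≠ a := fun e => h1 ⟨χ, hχ, e⟩; tauto)
  by_cases h2 : ∃ χ, IsIrrCharacter G χ ∧ charDegree χ = b
  swap
  · exact of_second (metabelian_of_two (m := a) fun χ hχ => by
      have := hcd χ hχ; have : charDegree χ ≠ b := fun e => h2 ⟨χ, hχ, e⟩; tauto)
  obtain ⟨χa, hχa, hda⟩ := h1
  obtain ⟨χb, hχb, hdb⟩ := h2
  by_cases hnc : commutator G ≤ ⁅commutator G, ⊤⁆
  swap
  · obtain ⟨χ, hχ, h1, h2⟩ := exists_class_two hnc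
    rcases (hcd χ hχ).resolve_left h1 with h | h
    · exact (caseA3 ha hb hab hcd hχ hχb h hdb h2).elim
    · exact (caseA3 hb ha hab.symm hcd' hχ hχa h hda h2).elim
  have h0 : ¬ commutator G ≤ ⊥ := fun h => ha (hda.symm.trans ((deg_eq_one_iff hχa).2
    (hχa.degree_eq_one_iff.2 (h.trans bot_le))))
  obtain ⟨K, -, ⟨hK, hK0⟩, hmax⟩ := Finite.exists_le_maximal (α := Subgroup G)
    (p := fun K => K.Normal ∧ ¬ commutator G ≤ K) (a := ⊥) ⟨inferInstance, h0⟩
  have hπ := QuotientGroup.mk'_surjective K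
  have hE : (commutator G).map (QuotientGroup.mk' K) = commutator (G ⧸ K) :=
    map_derivedSeries_eq hπ 1
  have hE0 : commutator (G ⧸ K) ≠ ⊥ := by
    rw [← hE, Ne, Subgroup.map_eq_bot_iff, QuotientGroup.ker_mk']; exact hK0
  obtain ⟨f1, f2⟩ := frob_struct (G := G ⧸ K) hE0 (fun R hR hR0 => by
    rw [← hE, Subgroup.map_le_iff_le_comap]
    by_contra h
    have := hmax ⟨inferInstance, h⟩ (QuotientGroup.le_comap_mk' K R)
    apply hR0
    rw [← Subgroup.map_comap_eq_self_of_surjective hπ R, Subgroup.map_eq_bot_iff,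
      QuotientGroup.ker_mk']
    exact this) (by
    rw [← hE, ← Subgroup.map_top_of_surjective _ hπ, ← Subgroup.map_commutator]
    exact Subgroup.map_mono hnc)
  have hGN : commutator G ≤ (commutator (G ⧸ K)).comap (QuotientGroup.mk' K) := by
    rw [← Subgroup.map_le_iff_le_comap, hE]
  have hEt : commutator (G ⧸ K) ≠ ⊤ := by
    haveI : Nontrivial (G ⧸ K) := by
      by_contra h
      haveI := not_nontrivial_iff_subsingleton.1 h
      exact hE0 (Subgroup.eq_bot_of_subsingleton _)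
    exact (Group.IsSolvable.commutator_lt_top_of_nontrivial (G ⧸ K)).ne
  generalize hEE : commutator (G ⧸ K) = E at *
  haveI : E.Normal := hEE ▸ inferInstance
  have hi : (E.comap (QuotientGroup.mk' K)).index = E.index :=
    Subgroup.index_comap_of_surjective _ hπ
  have hr : K.relIndex (E.comap (QuotientGroup.mk' K)) = Nat.card E := by
    have := Subgroup.relIndex_ker (E.comap (QuotientGroup.mk' K)) (QuotientGroup.mk' K)
    rwa [QuotientGroup.ker_mk', Subgroup.map_comap_eq_self_of_surjective hπ] at this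
  have hKN := QuotientGroup.le_comap_mk' K E
  have hNN : ⁅E.comap (QuotientGroup.mk' K), E.comap (QuotientGroup.mk' K)⁆ ≤ K :=
    Subgroup.commutator_le.2 fun x hx y hy => (QuotientGroup.eq_one_iff _).1
      (commutatorElement_eq_one_iff_mul_comm.2 (f1 _ hx _ hy))
  have hc1 : 1 < Nat.card E := (Subgroup.one_lt_card_iff_ne_bot E).2 hE0
  have hlt : (E.comap (QuotientGroup.mk' K)).index ≤ K.relIndex (E.comap (QuotientGroup.mk' K)) := by
    rw [hi, hr]
    exact (Nat.le_of_dvd (by omega) (index_dvd_card_sub_one f2)).trans (Nat.sub_le _ _)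
  have hfpf : ∀ g, g ∉ E.comap (QuotientGroup.mk' K) → ∀ n ∈ E.comap (QuotientGroup.mk' K),
      ∃ x ∈ E.comap (QuotientGroup.mk' K), n * (x * g * x⁻¹ * g⁻¹)⁻¹ ∈ K := by
    intro g hg n hn
    obtain ⟨x, hx, h⟩ := exists_conj_of_fpf (N := E) (g := (g : G ⧸ K)) (fun m hm h => by
      by_contra h1
      exact hg (f2 m hm h1 (Subgroup.mem_centralizer_iff.2 fun y hy => by
        rw [Set.mem_singleton_iff.1 hy]; exact h))) hn
    obtain ⟨x, rfl⟩ := hπ x
    refine ⟨x, hx, (QuotientGroup.eq_one_iff _).1 ?_⟩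
    simp only [QuotientGroup.mk'_apply] at h
    simp only [QuotientGroup.mk_mul, QuotientGroup.mk_inv, h]
    group
  have hco : (K.relIndex (E.comap (QuotientGroup.mk' K))).Coprime
      (E.comap (QuotientGroup.mk' K)).index := by
    rw [hi, hr]; exact coprime_of_centralizer_le f2
  obtain ⟨θ, hθ, hθ1⟩ : ∃ θ, IsIrrCharacter E θ ∧ θ ≠ fun _ => 1 := by
    by_contra h
    push Not at h
    have : (⊤ : Subgroup E) = ⊥ := eq_bot_of_le_charKer fun χ hχ => by
      rw [h χ hχ]; exact fun _ _ _ => rfl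
    rw [← Subgroup.card_top (G := E), this] at hc1
    simp at hc1
  haveI : IsMulCommutative E := ⟨⟨fun a b => Subtype.ext (f1 _ a.2 _ b.2)⟩⟩
  have h3 := hcd _ (hθ.ind_irr_of_frobenius hθ1 f2).inflate
  rw [charDegree_eq (n := E.index) (by
    simp only [QuotientGroup.mk_one]
    rw [indFun_one, hθ.degree_eq_one_of_comm, mul_one])] at h3
  rcases h3 with h | h | h
  · exact absurd (Subgroup.index_eq_one.1 h) hEt
  · exact caseA2 ha hab hcd hKN hNN hlt hfpf hco (hi.trans h) hGN
  · exact caseA2 hb hab.symm hcd' hKN hNN hlt hfpf hco (hi.trans h) hGN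

theorem three (n : ℕ) : ∀ (G : Type u) [Group G] [Finite G], Nat.card G = n → ∀ a b : ℕ,
    (∀ χ, IsIrrCharacter G χ → charDegree χ = 1 ∨ charDegree χ = a ∨ charDegree χ = b) →
    derivedSeries G 3 = ⊥ := by
  induction n using Nat.strong_induction_on with
  | _ n ih =>
  intro G _ _ hn a b hcd
  wlog hab : a ≤ b generalizing a b
  · exact this b a (fun χ hχ => by have := hcd χ hχ; tauto) (by omega)
  by_cases h1 : a ≤ 1 ∨ a = b
  · refine of_second (metabelian_of_two (m := b) fun χ hχ => ?_)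
    have := hχ.charDegree_pos
    have := hcd χ hχ
    omega
  by_cases hg : Nat.gcd a b = 1
  swap
  · exact caseB (by omega) (by omega) hg hcd fun L hL a b h =>
      ih _ (hn ▸ (by
        have := Subgroup.card_mul_index L
        have h1 := Subgroup.one_lt_index_of_ne_top hL
        have h2 : 0 < Nat.card L := Nat.card_pos
        nlinarith)) L rfl a b h
  by_cases h4 : ⁅derivedSeries G 3, derivedSeries G 3⁆ = ⊥
  · haveI : Group.IsSolvable G := ⟨⟨4, h4⟩⟩
    exact caseA (by omega) (by omega) hg hcd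
  haveI := derivedSeries_normal G 3
  refine (caseA1 (by omega) (by omega) (by omega) hg hcd
    (derivedSeries_antitone G (show 1 ≤ 3 by omega)) h4 fun R hR hR0 => ?_).elim
  have h5 := ih _ (hn ▸ (by
    have := Subgroup.card_mul_index R
    have h1 := (Subgroup.one_lt_card_iff_ne_bot R).2 hR0
    have h2 : 0 < R.index := Nat.pos_of_ne_zero Subgroup.index_ne_zero_of_finite
    show R.index < _
    nlinarith)) (G ⧸ R) rfl a b fun χ hχ => hcd _ hχ.inflate
  rw [← map_derivedSeries_eq (QuotientGroup.mk'_surjective R), Subgroup.map_eq_bot_iff,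
    QuotientGroup.ker_mk'] at h5
  exact h5

/-- A finite group with exactly three distinct irreducible character degrees is solvable of derived length at most 3: its third derived subgroup is trivial. -/
theorem result {G : Type*} [Group G] [Finite G] (hcd : Nat.card {n : ℕ // ∃ χ : Cfsg.IrrCharacter G, Cfsg.charDegree (χ : G → ℂ) = n} = 3) : derivedSeries G 3 = ⊥ := by
  have h1 : {n : ℕ | ∃ χ : Cfsg.IrrCharacter G, Cfsg.charDegree (χ : G → ℂ) = n}.ncard = 3 := hcd
  obtain ⟨x, y, z, -, -, -, h⟩ := Set.ncard_eq_three.1 h1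
  have h2 : ∀ χ, IsIrrCharacter G χ → charDegree χ = x ∨ charDegree χ = y ∨ charDegree χ = z := by
    intro χ hχ
    have : charDegree χ ∈ ({x, y, z} : Set ℕ) := h ▸ ⟨⟨χ, hχ⟩, rfl⟩
    simpa using this
  have h3 := h2 _ isIrrCharacter_one
  rw [charDegree_eq (n := 1) (by simp)] at h3
  rcases h3 with rfl | rfl | rfl
  · exact three _ G rfl y z h2
  · exact three _ G rfl x z fun χ hχ => by have := h2 χ hχ; tauto
  · exact three _ G rfl x y fun χ hχ => by have := h2 χ hχ; tauto

end Cfsg.Agent.S4460
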