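import Cfsg.Statements.S4477
import Mathlib
import Cfsg.Agent.H3.Prim
import Cfsg.Agent.H7.FS2
import Cfsg.Agent.L.PGroup
import Cfsg.Agent.S3866

set_option autoImplicit false
open Cfsg

namespace Cfsg.Agent.S4477

open Cfsg H3 H7 L Finset
open scoped commutatorElement ComplexConjugate

theorem aux.{u} (n : ℕ) : ∀ (G : Type u) [Group G] [Finite G], Nat.card G = n → IsPGroup 2 G →
    Nat.card {x : G // x * x = 1} % 4 = 2 → IsCyclic G ∨ (commutator G).index = 4 := by
  induction n using Nat.strong_induction_on with | h n ih => ?_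
  intro G _ _ hn hG hs
  classical
  letI := Fintype.ofFinite G
  haveI := Fact.mk Nat.prime_two
  haveI := hG.isNilpotent
  set E := powKer (Subgroup.center G) 2
  have hEZ : E ≤ Subgroup.center G := powKer_le _ _
  haveI : E.Normal := powKer_normal _ _
  have inv : ∀ N : Subgroup G, N.Normal → N ≠ ⊥ → ∃ w ∈ N, w ∈ E ∧ w ≠ 1 := fun N _ h => by
    obtain ⟨w, hw⟩ := exists_prime_orderOf_dvd_card' (G := ↥(N ⊓ Subgroup.center G)) 2
      ((hG.to_subgroup _).card_eq_or_dvd.resolve_left fun e =>
        inf_center_ne_bot_of_isNilpotent N h (Subgroup.card_eq_one.1 e))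
    rw [← Subgroup.orderOf_coe] at hw
    exact ⟨w, w.2.1, ⟨w.2.2, hw ▸ pow_orderOf_eq_one _⟩, fun e => by simp [e] at hw⟩
  have hE : Nat.card E = 2 := by
    have h1 := QuotientGroup.card_preimage_mk E (QuotientGroup.mk '' {x : G | x * x = 1})
    rw [show QuotientGroup.mk ⁻¹' _ = {x : G | x * x = 1} from Set.Subset.antisymm (by
      rintro x ⟨y, hy, e⟩
      obtain ⟨c, hc, rfl⟩ : ∃ c ∈ E, x = y * c := ⟨_, QuotientGroup.eq.1 e, by simp⟩
      change y * c * (y * c) = 1
      rw [mul_assoc, ← mul_assoc c, ← Subgroup.mem_center_iff.1 (hEZ hc), mul_assoc, ← sq, hc.2, mul_one, hy])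
      (Set.subset_preimage_image _ _)] at h1
    change Nat.card {x : G // x * x = 1} = _ at h1
    obtain ⟨k, hk⟩ := (hG.to_subgroup E).exists_card_eq
    rcases k with _ | _ | k
    · obtain ⟨w, -, h2, h3⟩ := inv ⊤ inferInstance fun e => by
        haveI : Subsingleton G := Subgroup.subsingleton_iff.1 (subsingleton_of_bot_eq_top e.symm)
        have := Finite.card_le_one_iff_subsingleton.2 (inferInstance : Subsingleton {x : G // x * x = 1})
        omega
      exact absurd ((Subgroup.card_eq_one.1 hk).le h2) h3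
    · exact hk
    · rw [h1, hk, pow_succ, pow_succ, mul_assoc (2 ^ k), mul_comm (2 ^ k), mul_assoc] at hs
      omega
  obtain ⟨⟨z, hz⟩, z1, z2⟩ := (Nat.card_eq_two_iff' (1 : E)).1 hE
  replace z1 : z ≠ 1 := fun e => z1 (Subtype.ext e)
  replace z2 : ∀ w ∈ E, w ≠ 1 → w = z := fun w hw h =>
    congrArg Subtype.val (z2 ⟨w, hw⟩ fun e => h (congrArg Subtype.val e))
  have uz : ∀ N : Subgroup G, N.Normal → N ≠ ⊥ → z ∈ N := fun N h h' => by
    obtain ⟨w, h1, h2, h3⟩ := inv N h h'
    exact z2 w h2 h3 ▸ h1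
  by_cases hab : commutator G = ⊥
  · haveI := isCyclic_of_card_powKer_le (hG.to_subgroup (Subgroup.center G)) hE.le
    exact Or.inl (isCyclic_of_surjective (Subgroup.center G).subtype fun g =>
      ⟨⟨g, (commutator_eq_bot_iff_center_eq_top G).1 hab ▸ Subgroup.mem_top g⟩, rfl⟩)
  have zG := uz _ inferInstance hab
  have EG : E ≤ commutator G := fun w hw => (eq_or_ne w 1).elim (fun e => e ▸ one_mem _) fun e => z2 w hw e ▸ zG
  right
  by_cases h4 : Nat.card {x : G ⧸ E // x * x = 1} % 4 = 2
  · rcases ih _ (hn ▸ card_quotient_lt E fun e => z1 (Subgroup.mem_bot.1 (e ▸ hz))) _ rfl (hG.to_quotient E) h4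
      with h | h
    · exact absurd ((commutator_eq_bot_iff_center_eq_top G).2 (eq_top_iff.2 fun a _ => Subgroup.mem_center_iff.2
        fun b => commutative_of_cyclic_center_quotient (QuotientGroup.mk' E) (by simpa using hEZ) b a)) hab
    · rw [← h, ← Subgroup.index_comap_of_surjective _ (QuotientGroup.mk'_surjective E), commutator_def (G ⧸ E),
        ← Subgroup.map_top_of_surjective _ (QuotientGroup.mk'_surjective E), ← Subgroup.map_commutator,
        Subgroup.comap_map_eq_self (by rw [QuotientGroup.ker_mk']; exact EG), commutator_def]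
  obtain ⟨χ, h1, h2, h3⟩ : ∃ χ : IrrCharacter G, z ∉ charKer χ.1 ∧ charDegree χ.1 = 2 ∧ fsInd χ.1 ≠ 0 := by
    by_contra! H
    have e1 := QuotientGroup.card_preimage_mk E {x : G ⧸ E | x * x = 1}
    have e2 : Nat.card (QuotientGroup.mk ⁻¹' {x : G ⧸ E | x * x = 1} : Set G) =
        Nat.card {x : G // x * x = 1} + Nat.card {x : G // x * x = z} := by
      simp only [Nat.card_eq_fintype_card, Fintype.card_subtype, card_filter, ← sum_add_distrib]
      refine sum_congr rfl fun x _ => ?_
      have : x ∈ (QuotientGroup.mk ⁻¹' {x : G ⧸ E | x * x = 1} : Set G) ↔ x * x ∈ E :=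
        QuotientGroup.eq_one_iff (x * x)
      rw [this]
      by_cases a : x * x = 1
      · simp [a, z1.symm]
      · by_cases b : x * x = z
        · simp [b, z1, hz]
        · simp [a, b, mt (z2 _ · a) b]
    have e3 : ∀ χ : IrrCharacter G, ∃ m : ℤ, fsInd χ.1 * conj (χ.1 1) = fsInd χ.1 * conj (χ.1 z) + 8 * m := by
      intro χ
      by_cases a : z ∈ charKer χ.1
      · exact ⟨0, by simp [apply_of_mem_charKer a]⟩
      obtain ⟨l, hl⟩ := exists_linear_of_le_charCenter χ.2.apply_one_ne_zero (hEZ.trans χ.2.center_le_charCenter)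
      have b : (l ⟨z, hz⟩ : ℂ) = -1 := (sq_eq_one_iff.1 (by
        rw [← Units.val_pow_eq_pow_val, ← map_pow, show (⟨z, hz⟩ : E) ^ 2 = 1 from Subtype.ext hz.2]; simp)).resolve_left fun e =>
        a fun x => by rw [hl ⟨z, hz⟩ x, e, one_mul]
      have c := hl ⟨z, hz⟩ 1
      rw [one_mul, b] at c
      obtain ⟨k, hk⟩ := hG.exists_card_eq
      obtain ⟨j, -, hj⟩ := (Nat.dvd_prime_pow Nat.prime_two).1 (hk ▸ χ.2.degree_dvd_card)
      rw [show χ.1 z = _ from c, ← χ.2.cast_charDegree]
      rcases j with _ | _ | j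
      · exact absurd (χ.2.degree_eq_one_iff.1 (by rw [← χ.2.cast_charDegree, hj]; simp) zG) a
      · exact ⟨0, by simp [H χ a hj]⟩
      · rw [hj]
        rcases χ.2.fsInd_cases with h | h | h <;> rw [h]
        exacts [⟨0, by simp⟩, ⟨2 ^ j, by simp [map_ofNat]; ring⟩, ⟨-2 ^ j, by simp [map_ofNat]; ring⟩]
    choose m hm using e3
    have e4 := card_sq_root_eq_sum (1 : G)
    simp only [hm, sum_add_distrib, ← card_sq_root_eq_sum, ← mul_sum] at e4
    have e5 : (Nat.card {x : G // x * x = 1} : ℤ) = Nat.card {x : G // x * x = z} + 8 * ∑ χ, m χ := by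
      exact_mod_cast e4
    rw [e2, hE] at e1
    change _ = 2 * Nat.card {x : G ⧸ E // x * x = 1} at e1
    omega
  have hk : charKer χ.1 = ⊥ := by_contra fun h => h1 (uz _ χ.2.isClassFunction.charKer_normal h)
  obtain ⟨H, l, hl⟩ := χ.2.exists_eq_ind_linear
  have hH : H.index = 2 := by
    have := congr_fun hl 1
    rw [indFun_one, ← χ.2.cast_charDegree, h2] at this
    exact_mod_cast (by simpa using this.symm : (H.index : ℂ) = 2)
  haveI := H.normal_of_index_eq_two hH
  have hc : IsMulCommutative H := isMulCommutative_iff_commutator_eq_bot.2 (eq_bot_iff.2 (hk ▸ hl ▸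
    (le_charKer_ind_iff (Subgroup.commutator_le_left H H) (isCharacter_linear l)).2 fun x hx => by
      rw [charKer_linear]
      rw [← map_subtype_commutator', Subgroup.subgroupOf, Subgroup.comap_map_eq_self_of_injective
        H.subtype_injective] at hx
      exact Abelianization.commutator_subset_ker _ hx))
  have hco := isCoatom_of_index_prime (hH ▸ Nat.prime_two)
  obtain ⟨x, -, hx⟩ := SetLike.exists_of_lt hco.1.lt_top
  have h6 : H ⊔ Subgroup.zpowers x = ⊤ := hco.2 _ (lt_of_le_of_ne le_sup_left fun e =>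
    hx (e.ge (Subgroup.mem_sup_right (Subgroup.mem_zpowers x))))
  have h7 := (S3866.result H hc x h6).2.2.2
  rw [show H ⊓ Subgroup.centralizer {x} = E from le_antisymm (fun a ha => ?_) (le_inf (EG.trans
    (commutator_le_of_index_prime (hH ▸ Nat.prime_two))) (hEZ.trans (Subgroup.center_le_centralizer _))), hE] at h7
  · have := (commutator G).card_mul_index
    rw [← H.card_mul_index, ← h7, hH, mul_assoc] at this
    exact Nat.eq_of_mul_eq_mul_left Nat.card_pos this
  have hZ : a ∈ Subgroup.center G :=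
    Subgroup.mem_center_iff.2 fun g => Subgroup.mem_centralizer_singleton_iff.1 ((show ⊤ ≤ _ from h6.ge.trans
      (sup_le (fun b hb => Subgroup.mem_centralizer_singleton_iff.2 (mul_comm_of_isMulCommutative hb ha.1))
      (Subgroup.zpowers_le.2 (Subgroup.mem_centralizer_singleton_iff.2
        (Subgroup.mem_centralizer_singleton_iff.1 ha.2).symm)))) trivial)
  obtain ⟨l, hl⟩ := exists_linear_of_le_charCenter χ.2.apply_one_ne_zero χ.2.center_le_charCenter
  refine ⟨hZ, Subgroup.mem_bot.1 (hk ▸ fun y => ?_)⟩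
  have e1 := (χ.2.apply_inv a).trans (congr_fun (real_of_fsInd χ.2 h3) a)
  have e2 := (hl ⟨a, hZ⟩⁻¹ 1).symm.trans ((congrArg _ (one_mul _)).trans (e1.trans
    ((congrArg _ (one_mul _).symm).trans (hl ⟨a, hZ⟩ 1))))
  rw [mul_left_inj' χ.2.apply_one_ne_zero, map_inv, Units.val_inj, inv_eq_iff_mul_eq_one] at e2
  refine (hl (⟨a, hZ⟩ ^ 2) y).trans ?_
  rw [map_pow, sq, e2, Units.val_one, one_mul]

/-- Let G be a finite 2-group whose number of involutions is congruent to 1 modulo 4. Then G is cyclic or its commutator subgroup has index 4. -/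
theorem result {G : Type*} [Group G] [Finite G] (hG : IsPGroup 2 G) (ht : Nat.card {x : G // orderOf x = 2} % 4 = 1) : IsCyclic G ∨ (commutator G).index = 4 := by
  classical
  letI := Fintype.ofFinite G
  refine aux _ G rfl hG ?_
  have : Nat.card {x : G // x * x = 1} = Nat.card {x : G // orderOf x = 2} + 1 := by
    simp only [Nat.card_eq_fintype_card, Fintype.card_subtype]
    rw [← card_insert_of_notMem (a := 1) (by simp)]
    congr 1
    ext x
    haveI := Fact.mk Nat.prime_two
    simp only [mem_filter, mem_univ, true_and, mem_insert, orderOf_eq_prime_iff, sq]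
    exact ⟨fun h => (eq_or_ne x 1).imp_right fun e => ⟨h, e⟩, fun h => h.elim (by rintro rfl; simp) And.left⟩
  omega

end Cfsg.Agent.S4477
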