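import Cfsg.Statements.S4520
import Cfsg.Agent.C3.Sig

set_option autoImplicit false
open Cfsg

namespace Cfsg.Agent.S4520

open H3 H2 C3 B Subgroup Finset

/-- Let N be a normal subgroup of odd index in the finite group G, M a maximal ideal of the algebraic integers containing 2, and k coprime to the order of G with k ^ (2 ^ e) ≡ 1 modulo the order of G for some e and g ^ k = g⁻¹ for every element g of odd order. Let θ be an irreducible character of N and χ an irreducible character of G over θ, both unchanged by composing with g ↦ g ^ k. Then χ lies in the principal 2-block of G if and only if θ lies in the principal 2-block of N. -/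
theorem result {G : Type*} [Group G] [Fintype G] (M : Ideal Cfsg.AlgInt) (hM : Cfsg.IsPModular 2 M) (N : Subgroup G) [N.Normal] [Fintype N] (hidx : Odd N.index) (k e : ℕ) (hk : Nat.Coprime k (Nat.card G)) (hke : k ^ (2 ^ e) ≡ 1 [MOD Nat.card G]) (hk₂ : ∀ g : G, Odd (orderOf g) → g ^ k = g⁻¹) (θ : Cfsg.IrrCharacter N) (hθ : ∀ n : N, (θ : N → ℂ) (n ^ k) = (θ : N → ℂ) n) (χ : Cfsg.IrrCharacter G) (hχ : ∀ g : G, (χ : G → ℂ) (g ^ k) = (χ : G → ℂ) g) (hover : Cfsg.classInner (fun n : N => (χ : G → ℂ) n) (θ : N → ℂ) ≠ 0) : χ ∈ Cfsg.principalBlock M G ↔ θ ∈ Cfsg.principalBlock M N := by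
  have : PMod 2 M := ⟨hM⟩
  refine ⟨fun h => ?_, fun h => ?_⟩
  · obtain ⟨g, a⟩ := mem_sat_of_lam_eq (isPBlock_principal (M := M) (G := N)).closed
      (isPBlock_principal.lam_eq oneIrr_mem h) oneIrr_mem
      ((oneIrr N).2.inner_self.trans_ne one_ne_zero) hover
    rwa [← Set.mem_preimage, cjI, preimage_cmp_principal] at a
  have a := isPBlock_blockOf (M := M) χ
  obtain ⟨Q, b⟩ := (isPBlock_principal (M := M) (G := N)).exists_defectGroup
  obtain ⟨D, c, d⟩ := isPBlock_principal.isBI.knorr_dg le_top le_normalizer_of_normal a.isBI_top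
    ((covers_iff a isPBlock_principal).1 ⟨χ, self_mem_blockOf χ, θ, h, hover⟩)
    (isPBlock_principal.isDefectGroup_iff_map.1 b)
  refine eq_principal_of_inv a ((blockDefect_le _).antisymm ?_) (fun ψ e => ⟨sg hk ψ, (closed_preimage_sg hk
    a.closed).blockOf_subset (by rw [Set.mem_preimage, show sg hk χ = χ from Subtype.ext (funext hχ)]
                                 exact self_mem_blockOf χ) e, fun g f => ?_⟩) ▸ self_mem_blockOf χ
  · rw [← (a.isDefectGroup_iff_top.2 c).factorization_card a.closed, ← factorization_index_add N,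
      Nat.factorization_eq_zero_of_not_dvd hidx.not_two_dvd_nat, zero_add, ← defect_principal (M := M),
      ← b.factorization_card isPBlock_principal.closed, ← card_map_of_injective N.subtype_injective, ← d]
    exact (Nat.factorization_le_iff_dvd Nat.card_pos.ne' Nat.card_pos.ne').2 (card_dvd_of_le inf_le_left) 2
  · rw [sg_apply, hk₂ g (Nat.odd_iff.2 (Nat.two_dvd_ne_zero.1 f))]

end Cfsg.Agent.S4520
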