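import Cfsg.Statements.S4521
import Cfsg.Agent.B.Rank2
import Cfsg.Agent.H3.FS
import Mathlib.GroupTheory.NoncommCoprod

set_option autoImplicit false
open Cfsg

namespace Cfsg.Agent.S4521

open Cfsg.Agent Cfsg.Agent.B Cfsg.Agent.H2 Cfsg.Agent.H3 Subgroup MonoidAlgebra
open scoped Pointwise commutatorElement
theorem cc_prod {A B : Type*} [Group A] [Group B] (φ : A → ℂ) (ψ : B → ℂ) (x : A × B) :
    centralChar (fun x : A × B => φ x.1 * ψ x.2) x = centralChar φ x.1 * centralChar ψ x.2 := by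
  have : centralizer ({x} : Set (A × B)) = (centralizer {x.1}).prod (centralizer {x.2}) := by
    ext y; simp [mem_centralizer_singleton_iff, mem_prod, Prod.ext_iff]
  simp only [centralChar, this, index_prod, Prod.fst_one, Prod.snd_one]
  push_cast
  ring

theorem cc_one {A : Type*} [Group A] [Finite A] {φ : A → ℂ} (h : IsIrrCharacter A φ) : centralChar φ 1 = 1 := by
  have : centralizer ({1} : Set A) = ⊤ := by ext; simp [mem_centralizer_singleton_iff]
  simp [centralChar, this, h.apply_one_ne_zero]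


/-- Let the finite group G be generated by subgroups U₁ and U₂ that commute elementwise and whose intersection is a p-group, and let M be a maximal ideal of the algebraic integers containing the prime p. If the irreducible character χ of G has the irreducible constituents ψ₁ on U₁ and ψ₂ on U₂, then χ lies in the principal block of G if and only if ψ₁ and ψ₂ lie in the principal blocks of U₁ and U₂. -/
theorem result {G : Type*} [Group G] [Fintype G] (p : ℕ) [Fact p.Prime] (M : Ideal Cfsg.AlgInt) (hM : Cfsg.IsPModular p M) (U₁ U₂ : Subgroup G) [Fintype U₁] [Fintype U₂] (hcomm : ∀ u ∈ U₁, ∀ v ∈ U₂, u * v = v * u) (hgen : U₁ ⊔ U₂ = ⊤) (hZ : IsPGroup p ↥(U₁ ⊓ U₂)) (χ : Cfsg.IrrCharacter G) (ψ₁ : Cfsg.IrrCharacter U₁) (ψ₂ : Cfsg.IrrCharacter U₂) (h₁ : Cfsg.classInner (fun u : U₁ => (χ : G → ℂ) u) (ψ₁ : U₁ → ℂ) ≠ 0) (h₂ : Cfsg.classInner (fun u : U₂ => (χ : G → ℂ) u) (ψ₂ : U₂ → ℂ) ≠ 0) : χ ∈ Cfsg.principalBlock M G ↔ (ψ₁ ∈ Cfsg.principalBlock M U₁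 ∧ ψ₂ ∈ Cfsg.principalBlock M U₂) := by
  have : PMod p M := ⟨hM⟩
  let f := U₁.subtype.noncommCoprod U₂.subtype fun u v => hcomm u u.2 v v.2
  have hf : Function.Surjective f := MonoidHom.range_eq_top.1 ((MonoidHom.noncommCoprod_range _ _ _).trans (by simp [hgen]))
  have hfa : ∀ x, f x = x.1 * x.2 := fun _ => rfl
  have h1 : ∀ x ∈ f.ker, (x.1 : G) = (x.2 : G)⁻¹ := fun x h => eq_inv_of_mul_eq_one_left h
  have h2 := preimage_infl_principal (p := p) (M := M) f hf (fun x => by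
      obtain ⟨k, a⟩ := hZ ⟨x.1.1, x.1.1.2, h1 _ x.2 ▸ U₂.inv_mem x.1.2.2⟩
      have b : (x.1.1 : G) ^ p ^ k = 1 := congrArg Subtype.val a
      refine ⟨k, Subtype.ext (Prod.ext (Subtype.ext b) (Subtype.ext ?_))⟩
      rwa [h1 _ x.2, inv_pow, inv_eq_one] at b) fun x _ y hy => by
    refine Prod.ext (Subtype.ext ?_) (Subtype.ext ?_)
    · exact (hcomm _ x.1.2 _ (h1 y hy ▸ inv_mem y.2.2)).symm
    · exact hcomm _ (by have := inv_mem y.1.2; rwa [h1 y hy, inv_inv] at this) _ x.2.2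
  obtain ⟨φ, ψ, a, b, c⟩ := (infl f hf χ).2.exists_prod
  have d : φ = ψ₁ := a.eq_of_inner_ne_zero ψ₁.2 fun d => h₁ (by
    rw [show (fun u : U₁ => (χ : G → ℂ) u) = ψ 1 • φ from funext fun u => by
      simpa [infl_apply, hfa, mul_comm] using congrFun c (u, 1), classInner_smul_left, d, mul_zero])
  have e : ψ = ψ₂ := b.eq_of_inner_ne_zero ψ₂.2 fun d => h₂ (by
    rw [show (fun u : U₂ => (χ : G → ℂ) u) = φ 1 • ψ from funext fun u => by
      simpa [infl_apply, hfa] using congrFun c (1, u), classInner_smul_left, d, mul_zero])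
  have h3 := fun x => (cc_prod (fun _ : U₁ => (1 : ℂ)) (fun _ : U₂ => (1 : ℂ)) x)
  simp only [mul_one] at h3
  rw [← h2]
  refine (sameBlock_iff (oneIrr _).2 (infl f hf χ).2).trans (Iff.trans ?_ (and_congr (sameBlock_iff (oneIrr _).2 ψ₁.2)
    (sameBlock_iff (oneIrr _).2 ψ₂.2)).symm)
  rw [c, ← d, ← e]
  simp only [cc_prod]
  refine ⟨fun h => ⟨fun u => ?_, fun u => ?_⟩, fun h x => ?_⟩
  · have := ((congrArg _ (h3 _)).symm.trans (h (u, 1)))
    rwa [cc_one b, cc_one (φ := fun _ => 1) (oneIrr U₂).2, mul_one, mul_one] at this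
  · have := ((congrArg _ (h3 _)).symm.trans (h (1, u)))
    rwa [cc_one a, cc_one (φ := fun _ => 1) (oneIrr U₁).2, one_mul, one_mul] at this
  · refine (congrArg _ (h3 x)).trans ?_
    rw [red_mul (centralChar_mem_O a _) (centralChar_mem_O b _), ← h.1, ← h.2]
    exact red_mul (centralChar_mem_O (oneIrr _).2 _) (centralChar_mem_O (oneIrr _).2 _)

end Cfsg.Agent.S4521
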