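import Cfsg.Statements.S4539
import Cfsg.Agent.B.Quad

set_option autoImplicit false
open Cfsg

namespace Cfsg.Agent.S4539

open Cfsg.Agent Cfsg.Agent.B Cfsg.Agent.H2 Cfsg.Agent.H3 Subgroup MonoidAlgebra
open scoped Pointwise commutatorElement

/-- Let B be a p-block of the finite group G (relative to a maximal ideal M of the algebraic integers containing p) of defect d with defect group D. Let z be an element of D commuting with every element of D, and let b be a block of the centralizer C of z with defect group D that induces B (a major subsection (z, b)). If b has p-regular rank at most two, then B contains at most p ^ d irreducible characters. -/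
theorem result {G : Type*} [Group G] [Finite G] (p : ℕ) [Fact p.Prime] (M : Ideal Cfsg.AlgInt) (hM : Cfsg.IsPModular p M) (B : Set (Cfsg.IrrCharacter G)) (hB : Cfsg.IsPBlock M B) (D : Subgroup G) (hD : Cfsg.IsDefectGroup p M B D) (z : G) (hzD : z ∈ D) (hzc : ∀ d ∈ D, d * z = z * d) (b : Set (Cfsg.IrrCharacter ↥(Subgroup.centralizer ({z} : Set G)))) (hb : Cfsg.IsInducedBlock M (Subgroup.centralizer ({z} : Set G)) b B) (hbD : Cfsg.IsDefectGroup p M b (D.subgroupOf (Subgroup.centralizer ({z} : Set G)))) (hl : Cfsg.blockRank p b ≤ 2) : Nat.card B ≤ p ^ Cfsg.blockDefect p B := by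
  have : PMod p M := ⟨hM⟩
  classical
  have := Fintype.ofFinite (centralizer ({z} : Set G))
  have hx : PElt p z := pElt_of_mem (IsDefectGroup.isPGroup hD) hzD
  have hd : blockDefect p b = blockDefect p B := by
    rw [← IsDefectGroup.factorization_card hD hB.closed, ← IsDefectGroup.factorization_card hbD hb.1.closed,
      Nat.card_congr (subgroupOfEquivOfLe fun d h => mem_centralizer_singleton_iff.2 (hzc d h)).toEquiv]
  by_cases h : MinGe p b 2
  · have h1 := mul_card_le hx hb.1 h (Finset.univ.filter (· ∈ B))
      fun χ hχ => IsInducedBlock.ctr_self_ne_zero hx hb hd (by simpa using hχ)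
    rw [card_filter_mem, hd] at h1
    nlinarith [Nat.zero_le (p ^ blockDefect p B)]
  simp only [MinGe, not_forall] at h
  obtain ⟨θ, h1, h2, h3, h4⟩ := h
  obtain ⟨n, h5, h6⟩ := IsPBlock.exists_nat_form hb.1 h1 h2 h3
  obtain rfl : n = 1 := by
    by_contra h7
    open scoped ComplexOrder in exact h4 (h6 ▸ Nat.cast_le.2 (by omega))
  simpa using IsInducedBlock.card_le_of_form hx hb hd h1 h2 (Fact.out : p.Prime).not_dvd_one h6

end Cfsg.Agent.S4539
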