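import Cfsg.Statements.S4540
import Cfsg.Agent.B.Cyclo

set_option autoImplicit false
open Cfsg

namespace Cfsg.Agent.S4540

open Cfsg.Agent Cfsg.Agent.B Cfsg.Agent.H2 Cfsg.Agent.H3 Subgroup MonoidAlgebra
open scoped Pointwise commutatorElement

/-- Let B be a 2-block of the finite group G (relative to a maximal ideal M of the algebraic integers containing 2) of defect d with defect group D. Let z be an element of D commuting with every element of D, and let b be a block of the centralizer C of z with defect group D that induces B (a major subsection (z, b)). If b has 2-regular rank at most three, then 3·k(B) ≤ 3·k₀(B) + 2·Σ 2 ^ h(χ), where k(B) is the number of members of B, k₀(B) the number of members of height zero, and the sum runs over the members χ of B of positive height h(χ); this bound is at most 3·2 ^ d, so in particular B contains at most 2 ^ d irreducible characters. -/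
theorem result {G : Type*} [Group G] [Finite G] (M : Ideal Cfsg.AlgInt) (hM : Cfsg.IsPModular 2 M) (B : Set (Cfsg.IrrCharacter G)) (hB : Cfsg.IsPBlock M B) (D : Subgroup G) (hD : Cfsg.IsDefectGroup 2 M B D) (z : G) (hzD : z ∈ D) (hzc : ∀ d ∈ D, d * z = z * d) (b : Set (Cfsg.IrrCharacter ↥(Subgroup.centralizer ({z} : Set G)))) (hb : Cfsg.IsInducedBlock M (Subgroup.centralizer ({z} : Set G)) b B) (hbD : Cfsg.IsDefectGroup 2 M b (D.subgroupOf (Subgroup.centralizer ({z} : Set G)))) (hl : Cfsg.blockRank 2 b ≤ 3) : 3 * Nat.card B ≤ 3 * Nat.card {χ : Cfsg.IrrCharacter G // χ ∈ B ∧ Cfsg.blockHeight 2 B (χ : G → ℂ) = 0} + 2 * (∑ᶠ χ ∈ {χ : Cfsg.IrrCharacter G | χ ∈ B ∧ 1 ≤ Cfsg.blockHeight 2 B (χ : G → ℂ)}, 2 ^ Cfsg.blockHeight 2 B (χ : G → ℂ)) ∧ 3 * Nat.card {χ : Cfsg.IrrCharacter G // χ ∈ B ∧ Cfsg.blockHeight 2 B (χ : G → ℂ) = 0} + 2 * (∑ᶠ χ ∈ {χ : Cfsg.IrrCharacter G | χ ∈ B ∧ 1 ≤ Cfsg.blockHeight 2 B (χ : G →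 ℂ)}, 2 ^ Cfsg.blockHeight 2 B (χ : G → ℂ)) ≤ 3 * 2 ^ Cfsg.blockDefect 2 B := by
  have : PMod 2 M := ⟨hM⟩
  classical
  have hx : PElt 2 z := pElt_of_mem (IsDefectGroup.isPGroup hD) hzD
  have hd : blockDefect 2 b = blockDefect 2 B := by
    rw [← IsDefectGroup.factorization_card hD hB.closed, ← IsDefectGroup.factorization_card hbD hb.1.closed,
      Nat.card_congr (subgroupOfEquivOfLe fun d h => mem_centralizer_singleton_iff.2 (hzc d h)).toEquiv]
  obtain ⟨a, t, s, h1, h2, h3, h4, h5, h6, -⟩ := exists_a2 hx hb.1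
  set S := Finset.univ.filter fun χ : IrrCharacter G => χ ∈ B ∧ blockHeight 2 B (χ : G → ℂ) = 0 with hS
  set T := Finset.univ.filter fun χ : IrrCharacter G => χ ∈ B ∧ 1 ≤ blockHeight 2 B (χ : G → ℂ) with hT
  have h7 : Nat.card {χ : IrrCharacter G // χ ∈ B ∧ blockHeight 2 B (χ : G → ℂ) = 0} = S.card := by
    rw [Nat.card_eq_fintype_card, Fintype.card_subtype]
  have h8 : ∑ᶠ χ ∈ {χ : IrrCharacter G | χ ∈ B ∧ 1 ≤ blockHeight 2 B (χ : G → ℂ)},
      2 ^ blockHeight 2 B (χ : G → ℂ) = ∑ χ ∈ T, 2 ^ blockHeight 2 B (χ : G → ℂ) := by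
    rw [← finsum_mem_coe_finset, hT, Finset.coe_filter_univ]
  have hST : Disjoint S T := Finset.disjoint_filter.2 fun χ _ h h' => by omega
  have h9 : Nat.card B = S.card + T.card := by
    rw [← Finset.card_union_of_disjoint hST, ← card_filter_mem, ← Finset.filter_or]
    congr 1
    exact Finset.filter_congr fun χ _ => by rw [← and_or_left, and_iff_left (by omega)]
  have hle : ∀ f g : IrrCharacter G → ℤ, (∀ χ, 0 ≤ g χ) → ∀ c : ℤ, (∀ χ ∈ S, c ≤ g χ) → (∀ χ ∈ T, f χ ≤ g χ) →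
      c * S.card + ∑ χ ∈ T, f χ ≤ ∑ χ, g χ := fun f g hg c e1 e2 => by
    refine le_trans ?_ (Finset.sum_le_sum_of_subset_of_nonneg (S ∪ T).subset_univ fun χ _ _ => hg χ)
    rw [Finset.sum_union hST, mul_comm, ← nsmul_eq_mul, ← Finset.sum_const]
    exact add_le_add (Finset.sum_le_sum e1) (Finset.sum_le_sum e2)
  simp only [hd] at h1 h3 h5 h6
  have hS' : ∀ χ ∈ S, χ ∈ B ∧ blockHeight 2 B (χ : G → ℂ) = 0 := fun χ h => (Finset.mem_filter.1 h).2
  have hT' : ∀ χ ∈ T, χ ∈ B ∧ 1 ≤ blockHeight 2 B (χ : G → ℂ) := fun χ h => (Finset.mem_filter.1 h).2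
  rw [h7, h8, h9]
  refine ⟨?_, ?_⟩
  · have : 2 * T.card ≤ ∑ χ ∈ T, 2 ^ blockHeight 2 B (χ : G → ℂ) := by
      rw [mul_comm, ← smul_eq_mul, ← Finset.sum_const]
      exact Finset.sum_le_sum fun χ h => Nat.le_self_pow (by have := (hT' χ h).2; omega) 2
    omega
  have h10 : ∀ χ ∈ B, ∃ n : ℤ, 0 < n ∧ a χ = 2 ^ blockHeight 2 B (χ : G → ℂ) * n ∧
      (¬ 2 ∣ n ↔ blockHeight 2 B (χ : G → ℂ) = 0) := fun χ hχ => by
    obtain ⟨e1, e2⟩ := IsInducedBlock.red_ctr_major hx hb hd hχ hχ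
    obtain ⟨n, e3, e4⟩ := h6 χ _ e1
    rw [← e4, Ne, CharP.intCast_eq_zero_iff (F M) 2] at e2
    have e5 := (h2 χ).1.lt_of_ne' fun h => IsInducedBlock.ctr_self_ne_zero hx hb hd hχ ((h2 χ).2.1 h)
    exact ⟨n, (mul_pos_iff_of_pos_left (by positivity)).1 (e3 ▸ e5), e3, e2⟩
  suffices (3 : ℤ) * S.card + ∑ χ ∈ T, 2 * 2 ^ blockHeight 2 B (χ : G → ℂ) ≤ 3 * 2 ^ blockDefect 2 B by
    rw [← Finset.mul_sum] at this
    exact_mod_cast this
  by_cases h : ∃ χ ∈ S, a χ = 1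
  · obtain ⟨χ, hχ, h⟩ := h
    have h11 : ∀ ψ ∈ B, 4 ^ blockHeight 2 B (ψ : G → ℂ) ≤ s χ ψ := fun ψ hψ =>
      h5 χ ψ _ (IsInducedBlock.ctr_ne_zero hx hb hd (hS' χ hχ).1 (hS' χ hχ).2 hψ)
        (IsInducedBlock.red_ctr_major hx hb hd (hS' χ hχ).1 hψ).1
    refine (hle _ (fun ψ => 3 * s χ ψ) (fun ψ => mul_nonneg (by norm_num) (h4 χ ψ)) 3 (fun ψ hψ => ?_)
      fun ψ hψ => ?_).trans_eq (by rw [← Finset.mul_sum, h3, h, mul_one])
    · have := h11 ψ (hS' ψ hψ).1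
      rw [(hS' ψ hψ).2] at this
      omega
    · have := h11 ψ (hT' ψ hψ).1
      have e : (2 : ℤ) ^ blockHeight 2 B (ψ : G → ℂ) ≤ 4 ^ blockHeight 2 B (ψ : G → ℂ) :=
        pow_le_pow_left₀ (by norm_num) (by norm_num) _
      have e' : (0 : ℤ) ≤ 2 ^ blockHeight 2 B (ψ : G → ℂ) := by positivity
      omega
  · push Not at h
    refine (hle _ a (fun ψ => (h2 ψ).1) 3 (fun ψ hψ => ?_) fun ψ hψ => ?_).trans (by
      rw [h1, mul_comm]; exact mul_le_mul_of_nonneg_right (by exact_mod_cast hl) (by positivity))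
    · obtain ⟨n, e1, e2, e3⟩ := h10 ψ (hS' ψ hψ).1
      have e4 := h ψ hψ
      have e5 := e3.2 (hS' ψ hψ).2
      rw [(hS' ψ hψ).2] at e2
      omega
    · obtain ⟨n, e1, e2, e3⟩ := h10 ψ (hT' ψ hψ).1
      have e4 : 2 ∣ n := by_contra fun h => by have := e3.1 h; have := (hT' ψ hψ).2; omega
      rw [e2, mul_comm]
      exact mul_le_mul_of_nonneg_left (by omega) (by positivity)

end Cfsg.Agent.S4540
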