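import Cfsg.Statements.S4541
import Cfsg.Agent.B.Cyclo

set_option autoImplicit false
open Cfsg

namespace Cfsg.Agent.S4541

open Cfsg.Agent Cfsg.Agent.B Cfsg.Agent.H2 Cfsg.Agent.H3 Subgroup MonoidAlgebra
open scoped Pointwise commutatorElement

/-- Let B be a 2-block of the finite group G (relative to a maximal ideal M of the algebraic integers containing 2), u a 2-element, and b a block of the centralizer of u inducing B (a subsection (u, b)), of defect q and 2-regular rank l; write s for the integer square root of l and k₀(B) for the number of members of B of height zero. If s is odd then k₀(B) ≤ s·2 ^ q, and otherwise (s + 1)·k₀(B) ≤ l·2 ^ q; in particular k₀(B) ≤ 2 ^ q when l ≤ 3. -/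
theorem result {G : Type*} [Group G] [Finite G] (M : Ideal Cfsg.AlgInt) (hM : Cfsg.IsPModular 2 M) (B : Set (Cfsg.IrrCharacter G)) (hB : Cfsg.IsPBlock M B) (u : G) (hu : ∃ j : ℕ, orderOf u = 2 ^ j) (b : Set (Cfsg.IrrCharacter ↥(Subgroup.centralizer ({u} : Set G)))) (hb : Cfsg.IsInducedBlock M (Subgroup.centralizer ({u} : Set G)) b B) : (Odd (Nat.sqrt (Cfsg.blockRank 2 b)) → Nat.card {χ : Cfsg.IrrCharacter G // χ ∈ B ∧ Cfsg.blockHeight 2 B (χ : G → ℂ) = 0} ≤ Nat.sqrt (Cfsg.blockRank 2 b) * 2 ^ Cfsg.blockDefect 2 b) ∧ (¬ Odd (Nat.sqrt (Cfsg.blockRank 2 b)) → (Nat.sqrt (Cfsg.blockRank 2 b) + 1) * Nat.card {χ : Cfsg.IrrCharacter G // χ ∈ B ∧ Cfsg.blockHeight 2 B (χ : G → ℂ) = 0} ≤ Cfsg.blockRank 2 b * 2 ^ Cfsg.blockDefect 2 b) ∧ (Cfsg.blockRank 2 b ≤ 3 → Nat.card {χ : Cfsg.IrrCharacter G // χ ∈ B ∧ Cfsg.blockHeight 2 B (χ : G → ℂ) = 0} ≤ 2 ^ Cfsg.blockDefect 2 b) := by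
  have : PMod 2 M := ⟨hM⟩
  classical
  have hx : PElt 2 u := hu
  obtain ⟨a, t, s, h1, h2, h3, h4, h5, h6, -⟩ := exists_a2 hx hb.1
  set S := Finset.univ.filter fun χ : IrrCharacter G => χ ∈ B ∧ blockHeight 2 B (χ : G → ℂ) = 0 with hS
  have h7 : Nat.card {χ : IrrCharacter G // χ ∈ B ∧ blockHeight 2 B (χ : G → ℂ) = 0} = S.card := by
    rw [Nat.card_eq_fintype_card, Fintype.card_subtype]
  have h8 : ∀ χ ∈ S, ∀ ψ ∈ S, red M (((2 : ℕ) : ℂ) ^ blockDefect 2 b * ctr 2 u b χ ψ / (2 : ℕ) ^ 0) ≠ 0 :=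
    fun χ hχ ψ hψ => by
      simp only [hS, Finset.mem_filter, Finset.mem_univ, true_and] at hχ hψ
      rw [pow_zero, div_one]
      exact (IsInducedBlock.red_ctr_ne_zero_iff hx hb hχ.1 hψ.1).2 ⟨hχ.2, hψ.2⟩
  obtain ⟨τ, hτ, h0⟩ := exists_height_zero 2 hB.nonempty
  obtain ⟨χ, hχ, h9⟩ := S.exists_min_image a ⟨τ, by simp [hS, hτ, h0]⟩
  obtain ⟨n, h10, h11⟩ := h6 χ 0 (mem_O_of_red_ne_zero (h8 χ hχ χ hχ))
  have h12 : ¬ 2 ∣ a χ := by
    have := h8 χ hχ χ hχ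
    rw [← h11, Ne, CharP.intCast_eq_zero_iff (F M) 2] at this
    simpa [h10] using this
  have h13 : (S.card : ℤ) ≤ 2 ^ blockDefect 2 b * a χ := by
    rw [← h3, Finset.card_eq_sum_ones, Nat.cast_sum]
    refine (Finset.sum_le_sum fun ψ hψ => ?_).trans (Finset.sum_le_sum_of_subset_of_nonneg S.subset_univ
      fun ψ _ _ => h4 χ ψ)
    simpa using h5 χ ψ 0 (fun h => h8 χ hχ ψ hψ (by simp [h])) (mem_O_of_red_ne_zero (h8 χ hχ ψ hψ))
  have h14 : S.card * a χ ≤ 2 ^ blockDefect 2 b * blockRank 2 b := by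
    rw [← h1, ← nsmul_eq_mul, ← Finset.sum_const]
    exact (Finset.sum_le_sum h9).trans (Finset.sum_le_sum_of_subset_of_nonneg S.subset_univ fun ψ _ _ => (h2 ψ).1)
  obtain ⟨c, hc⟩ := Int.eq_ofNat_of_zero_le (h2 χ).1
  rw [h7]
  rw [hc] at h12 h13 h14
  have h15 : S.card ≤ 2 ^ blockDefect 2 b * c := by exact_mod_cast h13
  have h16 : S.card * c ≤ 2 ^ blockDefect 2 b * blockRank 2 b := by exact_mod_cast h14
  have h17 : c % 2 = 1 := by omega
  have h18 := Nat.sqrt_le' (blockRank 2 b)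
  have h19 := Nat.lt_succ_sqrt' (blockRank 2 b)
  generalize S.card = k at *
  generalize 2 ^ blockDefect 2 b = q at *
  have h20 : Odd (Nat.sqrt (blockRank 2 b)) → k ≤ Nat.sqrt (blockRank 2 b) * q := fun ⟨r, hr⟩ => by
    generalize Nat.sqrt (blockRank 2 b) = s at *
    by_cases h : c ≤ s
    · nlinarith
    · have : k * (s + 2) ≤ s * q * (s + 2) :=
        calc k * (s + 2) ≤ k * c := Nat.mul_le_mul_left _ (by omega)
          _ ≤ q * (s * (s + 2)) := h16.trans (Nat.mul_le_mul_left _ (by simp only [Nat.succ_eq_add_one] at h19; nlinarith))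
          _ = _ := by ring
      exact Nat.le_of_mul_le_mul_right this (by omega)
  refine ⟨h20, fun h => ?_, fun h => ?_⟩
  · rw [Nat.not_odd_iff] at h
    generalize Nat.sqrt (blockRank 2 b) = s at *
    by_cases h' : s + 1 ≤ c
    · nlinarith
    · obtain ⟨r, rfl⟩ : ∃ r, s = c + 1 + r := ⟨s - (c + 1), by omega⟩
      calc (c + 1 + r + 1) * k ≤ (c + 1 + r + 1) * (q * c) := Nat.mul_le_mul_left _ h15
        _ = (c + 1 + r + 1) * c * q := by ring
        _ ≤ _ := Nat.mul_le_mul_right _ (by nlinarith)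
  · have h21 : Nat.sqrt (blockRank 2 b) = 1 := by
      have := blockRank_pos (p := 2) hb.1.nonempty
      exact (Nat.eq_sqrt'.2 ⟨by omega, by omega⟩).symm
    simpa [h21] using h20

end Cfsg.Agent.S4541
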