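import Cfsg.Statements.S4550
import Cfsg.Agent.C3.Sig

set_option autoImplicit false
open Cfsg

namespace Cfsg.Agent.S4550

open H3 H2 C3 B Subgroup Finset

/-- Let G be a finite group of even order and M a maximal ideal of the algebraic integers containing 2. Let k be a natural number with g ^ k = g ^ 3 for every 2-element g and g ^ k = g for every element g of odd order (such k exist); an irreducible character χ is unchanged by g ↦ g ^ k exactly when it is fixed by the field automorphism that cubes the 2-power roots of unity and fixes the roots of unity of odd order. Then the number of members χ of the principal 2-block of odd degree with χ (g ^ k) = χ g for all g is even. -/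
theorem result {G : Type*} [Group G] [Finite G] (M : Ideal Cfsg.AlgInt) (hM : Cfsg.IsPModular 2 M) (hev : Even (Nat.card G)) (k : ℕ) (hk₁ : ∀ g : G, (∃ j : ℕ, orderOf g = 2 ^ j) → g ^ k = g ^ 3) (hk₂ : ∀ g : G, Odd (orderOf g) → g ^ k = g) : Even (Nat.card {χ : Cfsg.IrrCharacter G // χ ∈ Cfsg.principalBlock M G ∧ Odd (Cfsg.charDegree (χ : G → ℂ)) ∧ ∀ g : G, (χ : G → ℂ) (g ^ k) = (χ : G → ℂ) g}) := by
  classical
  have : PMod 2 M := ⟨hM⟩
  have := Fintype.ofFinite G
  have odd : ∀ {g : G}, ¬ 2 ∣ orderOf g → g ^ k = g := fun a => hk₂ _ (Nat.odd_iff.2 (Nat.two_dvd_ne_zero.1 a))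
  have hk : k.Coprime (Nat.card G) := Nat.coprime_of_dvd fun q a b c => by
    have := Fact.mk a
    obtain ⟨g, d⟩ := exists_prime_orderOf_dvd_card' q c
    have e := orderOf_dvd_iff_pow_eq_one.1 (d ▸ b)
    rcases a.eq_two_or_odd' with rfl | f
    · rw [hk₁ g ⟨1, d⟩, ← orderOf_dvd_iff_pow_eq_one, d] at e
      omega
    · rw [hk₂ g (d ▸ f), ← orderOf_eq_one_iff, d] at e
      exact a.one_lt.ne' e
  let X := {χ : IrrCharacter G // χ ∈ principalBlock M G ∧ Odd (charDegree (χ : G → ℂ))}
  let F : Function.End X := fun χ => ⟨sg hk χ, mem_principal_iff.2 (by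
    convert mem_principal_iff.1 χ.2.1 using 2 with g
    by_cases a : 2 ∣ orderOf g
    · simp [reg_of_dvd, a]
    · simp [reg_of_not_dvd, a, sg_apply, odd a]), by simpa [charDegree, sg_apply] using χ.2.2⟩
  have a : ∀ n χ, ((F ^ n) χ).1 = (sg hk)^[n] χ.1 := fun n => by
    induction n with
    | zero => exact fun _ => rfl
    | succ n ih => exact fun x => by rw [pow_succ]; exact ih (F x)
  have b := Equiv.Perm.card_fixedPoints_modEq (f := F) (p := 2) (n := (Nat.card G).factorization 2)
    (funext fun χ => Subtype.ext ((a _ χ).trans (Subtype.ext (funext fun g => by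
      obtain ⟨x, y, rfl, b, c, d⟩ := exists_pdecomp (p := 2) g
      have e : ∀ n, x ^ k ^ n = x ^ 3 ^ n ∧ y ^ k ^ n = y := fun n => by
        induction n with
        | zero => simp
        | succ n ih => rw [pow_succ, pow_mul, pow_mul, ih.1, ih.2, odd d, hk₁ _ (c.pow _), ← pow_mul, pow_succ]; simp
      obtain ⟨j, f⟩ := c
      have i : 3 ^ 2 ^ (Nat.card G).factorization 2 ≡ 1 [MOD 2 ^ (Nat.card G).factorization 2] := by
        have := Nat.ModEq.pow_totient (x := 3) (n := 2 ^ ((Nat.card G).factorization 2 + 1)) (Nat.Coprime.pow_right _ (by decide))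
        rw [Nat.totient_prime_pow_succ Nat.prime_two] at this
        simpa using this.of_dvd (pow_dvd_pow 2 (Nat.le_succ _))
      rw [sg_iterate, b.mul_pow, (e _).1, (e _).2, pow_eq_pow_iff_modEq.2 (i.of_dvd (f ▸ pow_dvd_pow 2
        ((Nat.prime_two.pow_dvd_iff_le_factorization Nat.card_pos.ne').1 (f ▸ orderOf_dvd_natCard x)))), pow_one]
      rfl))))
  have c := (isPBlock_principal (M := M) (G := G)).factorization_sum_sq
  rw [defect_principal, two_mul, add_left_inj] at c
  have d := Nat.dvd_of_factorization_pos (c ▸ (Nat.prime_two.factorization_pos_of_dvd Nat.card_pos.ne' hev.two_dvd).ne')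
  rw [← even_iff_two_dvd, even_sum_iff_even_card_odd, filter_filter] at d
  rw [Nat.card_congr (β := F.fixedPoints) ⟨fun χ => ⟨⟨χ.1, χ.2.1, χ.2.2.1⟩, Subtype.ext (Subtype.ext (funext χ.2.2.2))⟩,
    fun χ => ⟨χ.1.1, χ.1.2.1, χ.1.2.2, congrFun (congrArg (·.1.1) χ.2)⟩, fun _ => rfl, fun _ => rfl⟩,
    Nat.card_eq_fintype_card, Nat.even_iff, ← b, Fintype.card_subtype, ← Nat.even_iff]
  simpa [Nat.odd_pow_iff] using d

end Cfsg.Agent.S4550
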