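import Cfsg.Statements.S4549
import Cfsg.Agent.C3.Canon
import Cfsg.Agent.S4550
import Cfsg.Agent.H8.Cop

set_option autoImplicit false
open Cfsg

namespace Cfsg.Agent.S4549

open H3 H2 C3 B Subgroup Finset

/-- Let G be a finite group and M a maximal ideal of the algebraic integers containing 2. Let k be a natural number with g ^ k = g ^ 3 for every 2-element g and g ^ k = g for every element g of odd order (such k exist); an irreducible character χ is unchanged by g ↦ g ^ k exactly when it is fixed by the field automorphism that cubes the 2-power roots of unity and fixes the roots of unity of odd order. Then G has a normal 2-complement if and only if every member χ of the principal 2-block of odd degree with χ (g ^ k) = χ g for all g has degree one. -/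
theorem result {G : Type*} [Group G] [Finite G] (M : Ideal Cfsg.AlgInt) (hM : Cfsg.IsPModular 2 M) (k : ℕ) (hk₁ : ∀ g : G, (∃ j : ℕ, orderOf g = 2 ^ j) → g ^ k = g ^ 3) (hk₂ : ∀ g : G, Odd (orderOf g) → g ^ k = g) : Cfsg.HasNormalPComplement 2 G ↔ ∀ χ ∈ Cfsg.principalBlock M G, Odd (Cfsg.charDegree (χ : G → ℂ)) → (∀ g : G, (χ : G → ℂ) (g ^ k) = (χ : G → ℂ) g) → Cfsg.charDegree (χ : G → ℂ) = 1 := by
  classical
  have : PMod 2 M := ⟨hM⟩
  obtain ⟨j, hj⟩ := index_pResidual 2 G
  rw [hasNPC_iff_top, pNil_iff_card, resOf_top, Nat.coprime_comm, Nat.prime_two.coprime_iff_not_dvd]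
  refine ⟨fun h χ a b _ => ?_, fun h a => ?_⟩
  · rw [principalBlock_eq_of_complement h hj] at a
    exact (b.coprime_two_right.pow_right j).eq_one_of_dvd ((deg_dvd_ker χ.2).trans (hj ▸ index_dvd_of_le a))
  have hr := pResidual_pResidual (p := 2) (G := G)
  obtain ⟨P⟩ := (inferInstance : Nonempty (Sylow 2 G))
  have hP := pResidual_sup_sylow P
  have hn : (pResidual 2 G).Normal := inferInstance
  generalize pResidual 2 G = N at *
  have := Fintype.ofFinite N
  have b := S4550.result M hM (even_iff_two_dvd.2 a) k (fun g c => Subtype.ext (hk₁ g (by simpa using c)))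
    fun g c => Subtype.ext (hk₂ g (by simpa using c))
  rw [Nat.card_eq_fintype_card, Fintype.card_subtype] at b
  set S := ({χ : IrrCharacter N | χ ∈ principalBlock M N ∧ Odd (charDegree (χ : N → ℂ)) ∧
    ∀ g, (χ : N → ℂ) (g ^ k) = (χ : N → ℂ) g} : Finset (IrrCharacter N)) with hS
  have c : oneIrr N ∈ S.filter fun χ : IrrCharacter N => charDegree (χ : N → ℂ) = 1 := by
    simpa [hS, oneIrr, charDegree] using oneIrr_mem
  rw [← card_filter_add_card_filter_not fun χ : IrrCharacter N => charDegree (χ : N → ℂ) = 1,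
    ← card_erase_add_one c] at b
  by_cases d : 2 ∣ #(S.filter fun χ : IrrCharacter N => ¬ charDegree (χ : N → ℂ) = 1)
  · obtain ⟨θ, e, f, -⟩ := exists_fixed_of_not_dvd (p := 2) ((S.filter fun χ : IrrCharacter N => charDegree (χ : N → ℂ) = 1).erase (oneIrr N))
      (fun χ => ⟨_, χ.2.conj⟩) (fun χ e => by
        simp only [hS, mem_erase, mem_filter, mem_univ, true_and] at e ⊢
        have : charDegree (fun g => (starRingEnd ℂ) ((χ : N → ℂ) g)) = charDegree (χ : N → ℂ) := by
          simp [charDegree]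
        refine ⟨fun f => e.1 (Subtype.ext (funext fun g => ?_)), ⟨conj_mem_principal e.2.1.1, this ▸ e.2.1.2.1,
          fun g => by rw [e.2.1.2.2]⟩, this ▸ e.2.2⟩
        simpa [oneIrr] using congrArg (starRingEnd ℂ) (congrFun (congrArg Subtype.val f) g)) (fun _ => 1) (fun _ _ => rfl) (e := 1)
      (fun χ _ => Subtype.ext (by simp)) (by rw [← card_eq_sum_ones]; obtain ⟨_, b⟩ := b; omega)
    obtain ⟨l, i⟩ := θ.2.isCharacter.exists_linear (by rw [← θ.2.cast_charDegree, (mem_filter.1 (mem_of_mem_erase e)).2]; simp)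
    have m : l ^ 2 = 1 := MonoidHom.ext fun g => Units.ext (by
      have := congrFun (congrArg Subtype.val f) g
      simp only [i, conj_linear] at this
      simpa [sq] using (mul_eq_one_iff_inv_eq₀ (l g).ne_zero).2 this)
    refine ne_of_mem_erase e (Subtype.ext ?_)
    rw [i, orderOf_eq_one_iff.1 (((Nat.dvd_prime Nat.prime_two).1 (orderOf_dvd_of_pow_eq_one m)).resolve_right
      fun n => not_dvd_orderOf_linear hr l n.symm.dvd)]
    rfl
  obtain ⟨θ, e, f⟩ := H8.exists_fixed P.2 (fun g => cjI (N := N) g⁻¹) (fun _ => Subtype.ext (by simp [coe_cjI, cjf_one]))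
    (fun _ _ _ => Subtype.ext (by simp [coe_cjI, cjf_mul])) (S.filter fun χ : IrrCharacter N => ¬ charDegree (χ : N → ℂ) = 1)
    (fun g _ χ e => by
      simp only [hS, coe_filter, mem_filter, mem_univ, true_and, Set.mem_setOf] at e ⊢
      have : charDegree (cjI g⁻¹ χ : N → ℂ) = charDegree (χ : N → ℂ) := by simp [charDegree, coe_cjI, cjf_apply_one]
      refine ⟨⟨cjI_mem_principal e.1.1 _, this ▸ e.1.2.1, fun x => ?_⟩,
        this ▸ e.2⟩
      simp only [coe_cjI, cjf_eq, map_pow, e.1.2.2]) (by simpa using d)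
  simp only [hS, coe_filter, mem_filter, mem_univ, true_and, Set.mem_setOf] at e
  obtain ⟨χ, i, l, -, m⟩ := exists_canon hj θ.2 (inertia_eq_top_iff.1 (top_le_iff.1 (hP.ge.trans (sup_le
    θ.2.isClassFunction.le_inertia fun g n => by simpa [mem_inertia, coe_cjI] using congrArg Subtype.val (f _ (inv_mem n))))))
    e.1.2.1.not_two_dvd_nat (not_dvd_detOrder hr θ.2.isCharacter)
  have n : charDegree χ = charDegree (θ : N → ℂ) := by rw [charDegree, charDegree, ← l]; rfl
  refine e.2 (n ▸ h ⟨χ, i⟩ (over_mem_principal hj e.1.1 ?_) (n ▸ e.1.2.1) (m k (coprime_of_pow (p := 2) (by decide) hk₁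
    fun g o => hk₂ _ (Nat.odd_iff.2 (Nat.two_dvd_ne_zero.1 o))) e.1.2.2))
  simp [l, θ.2.inner_self]

end Cfsg.Agent.S4549
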