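import Cfsg.Statements.S4551
import Cfsg.Agent.B.Dade

set_option autoImplicit false
open Cfsg

namespace Cfsg.Agent.S4551

open Cfsg.Agent Cfsg.Agent.B Cfsg.Agent.H2 Cfsg.Agent.H3 Subgroup MonoidAlgebra
open scoped Pointwise commutatorElement

/-- Let N be a normal subgroup of the finite group G of index prime to p, P a Sylow p-subgroup of G with G = N·C_G(P), and M a maximal ideal of the algebraic integers containing p. Then restriction to N is a bijection from the principal p-block of G onto the principal p-block of N: every member of the principal block of G restricts to a member of the principal block of N, and every member of the principal block of N is the restriction of exactly one member of the principal block of G. -/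
theorem result {G : Type*} [Group G] [Finite G] (p : ℕ) [Fact p.Prime] (M : Ideal Cfsg.AlgInt) (hM : Cfsg.IsPModular p M) (N : Subgroup G) [N.Normal] (hidx : ¬ p ∣ N.index) (P : Sylow p G) (hsup : N ⊔ Subgroup.centralizer ((P : Subgroup G) : Set G) = ⊤) : (∀ χ ∈ Cfsg.principalBlock M G, ∃ θ ∈ Cfsg.principalBlock M ↥N, ∀ n : N, (χ : G → ℂ) n = (θ : N → ℂ) n) ∧ ∀ θ ∈ Cfsg.principalBlock M ↥N, ∃! χ : Cfsg.IrrCharacter G, χ ∈ Cfsg.principalBlock M G ∧ ∀ n : N, (χ : G → ℂ) n = (θ : N → ℂ) n := by
  have : PMod p M := ⟨hM⟩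
  classical
  have := Fintype.ofFinite N
  have hPN : (P : Subgroup G) ≤ N := by
    intro x hx
    obtain ⟨k, hk⟩ := P.isPGroup' ⟨x, hx⟩
    have h1 : (x : G ⧸ N) ^ p ^ k = 1 := by
      rw [← QuotientGroup.mk_pow, show x ^ p ^ k = 1 from congrArg Subtype.val hk]; rfl
    have h2 : (x : G ⧸ N) ^ N.index = 1 := pow_card_eq_one'
    rw [← QuotientGroup.eq_one_iff, ← orderOf_eq_one_iff]
    exact Nat.eq_one_of_dvd_coprimes (((Nat.Prime.coprime_iff_not_dvd Fact.out).2 hidx).pow_left k)
      (orderOf_dvd_of_pow_eq_one h1) (orderOf_dvd_of_pow_eq_one h2)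
  have h := dade_C (M := M) hPN P.not_dvd_index hsup
  have hne : eB M (principalBlock M G) * iB M N (principalBlock M N) ≠ 0 := by
    rw [principal_mul_iB]; exact isPBlock_principal.closed.eB_ne_zero ⟨_, oneIrr_mem⟩
  refine ⟨fun χ hχ => ⟨⟨_, res_irr_of_span h hχ⟩, mem_of_under_of_stable isPBlock_principal isPBlock_principal
    iB_principal_cent hne hχ (by rw [(res_irr_of_span h hχ).inner_self]; exact one_ne_zero), fun _ => rfl⟩, fun θ hθ => ?_⟩
  obtain ⟨χ, hχ, h1⟩ := exists_over_of_covers isPBlock_principal isPBlock_principal hne hθ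
  have h2 := (res_irr_of_span h hχ).eq_of_inner_ne_zero θ.2 h1
  exact ⟨χ, ⟨hχ, congrFun h2⟩, fun ψ hψ => eq_of_res_of_span h hψ.1 hχ fun n => (hψ.2 n).trans (congrFun h2 n).symm⟩

end Cfsg.Agent.S4551
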