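import Cfsg.Statements.S4552
import Cfsg.Agent.B.Frob

set_option autoImplicit false
open Cfsg

namespace Cfsg.Agent.S4552

open Cfsg.Agent Cfsg.Agent.B Cfsg.Agent.H2 Cfsg.Agent.H3 Subgroup MonoidAlgebra
open scoped Pointwise commutatorElement
theorem zm (m : ℕ) : ∃ c : ZMod (2 ^ m), c + c = 0 ∧ ∀ a : ZMod (2 ^ m), a + a = 0 → a = 0 ∨ a = c := by
  by_cases h : ∃ c : ZMod (2 ^ m), c ≠ 0 ∧ c + c = 0
  · obtain ⟨c, h1, h2⟩ := h
    refine ⟨c, h2, fun a ha => or_iff_not_imp_left.2 fun h3 => ?_⟩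
    have h4 : ∀ a : ZMod (2 ^ m), a ≠ 0 → a + a = 0 → 2 * a.val = 2 ^ m := fun a h4 h5 =>
      ((ZMod.neg_eq_self_iff a).1 (neg_eq_of_add_eq_zero_left h5)).resolve_left h4
    exact ZMod.val_injective _ (by have := h4 a h3 ha; have := h4 c h1 h2; omega)
  · exact ⟨0, add_zero 0, fun a ha => .inl (by_contra fun h1 => h ⟨a, h1, ha⟩)⟩

theorem k4a {m : ℕ} {y z w : ZMod (2 ^ m) × ZMod (2 ^ m)}
    (hy : y + y = 0) (hz : z + z = 0) (hw : w + w = 0) (h1 : y ≠ 0) (h2 : z ≠ 0) (h3 : w ≠ 0) (h4 : y ≠ z) (h5 : w ≠ z)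
    (h6 : w ≠ y) : w = z + y := by
  obtain ⟨c, hc, h⟩ := zm m
  obtain ⟨y₁, y₂⟩ := y
  obtain ⟨z₁, z₂⟩ := z
  obtain ⟨w₁, w₂⟩ := w
  simp only [Prod.mk_add_mk, Prod.mk_eq_zero, Prod.mk.injEq, ne_eq] at *
  rcases h y₁ hy.1 with h7 | h7 <;> rcases h y₂ hy.2 with h8 | h8 <;> rcases h z₁ hz.1 with h9 | h9 <;>
    rcases h z₂ hz.2 with h10 | h10 <;> rcases h w₁ hw.1 with h11 | h11 <;> rcases h w₂ hw.2 with h12 | h12 <;> simp_all

theorem k4 {A : Type*} [Group A] {m : ℕ} (φ : A ≃* Multiplicative (ZMod (2 ^ m) × ZMod (2 ^ m))) {y z w : A}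
    (hy : y * y = 1) (hz : z * z = 1) (hw : w * w = 1) (h1 : y ≠ 1) (h2 : z ≠ 1) (h3 : w ≠ 1) (h4 : y ≠ z) (h5 : w ≠ z)
    (h6 : w ≠ y) : w = z * y := by
  have h7 : ∀ y : A, y * y = 1 → φ y * φ y = 1 := fun y hy => by rw [← map_mul, hy, map_one]
  exact φ.injective ((k4a (h7 y hy) (h7 z hz) (h7 w hw) (φ.map_ne_one_iff.2 h1) (φ.map_ne_one_iff.2 h2) (φ.map_ne_one_iff.2 h3)
    (φ.injective.ne h4) (φ.injective.ne h5) (φ.injective.ne h6)).trans (map_mul φ z y).symm)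

/-- Let B be a 2-block of the finite group G (relative to a maximal ideal M of the algebraic integers containing 2) whose defect group D is the direct product of two cyclic groups of the same order 2 ^ m, m ≥ 2. Then either B has 2-regular rank one and exactly 4 ^ m irreducible characters, or B has 2-regular rank three and exactly (4 ^ m + 8) / 3 irreducible characters. -/
theorem result {G : Type*} [Group G] [Finite G] (M : Ideal Cfsg.AlgInt) (hM : Cfsg.IsPModular 2 M) (B : Set (Cfsg.IrrCharacter G)) (hB : Cfsg.IsPBlock M B) (D : Subgroup G) (hD : Cfsg.IsDefectGroup 2 M B D) (m : ℕ) (hm : 2 ≤ m) (hiso : Nonempty (D ≃* Multiplicative (ZMod (2 ^ m) × ZMod (2 ^ m)))) : (Cfsg.blockRank 2 B = 1 ∧ Nat.card B = 4 ^ m) ∨ (Cfsg.blockRank 2 B = 3 ∧ 3 * Nat.card B = 4 ^ m + 8) := by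
  have : PMod 2 M := ⟨hM⟩
  obtain ⟨φ⟩ := hiso
  obtain ⟨e, h⟩ := (hB.isDefectGroup_iff_top.1 hD).exists_mp hB.isBI_top
  have hab : D ≤ centralizer (D : Set G) := fun x hx y hy => congrArg Subtype.val (φ.injective (a₁ := ⟨y, hy⟩ * ⟨x, hx⟩)
    (a₂ := ⟨x, hx⟩ * ⟨y, hy⟩) (by rw [map_mul, map_mul, mul_comm]))
  have h1 : ∀ {y z w : G}, y ∈ D → z ∈ D → w ∈ D → y * y = 1 → z * z = 1 → w * w = 1 → y ≠ 1 → z ≠ 1 → w ≠ 1 → y ≠ z → w ≠ z →
      w ≠ y → w = z * y := fun {y z w} a b c d e f g h i j k l => congrArg Subtype.val (k4 φ (y := ⟨y, a⟩) (z := ⟨z, b⟩) (w := ⟨w, c⟩)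
    (Subtype.ext d) (Subtype.ext e) (Subtype.ext f) (by simpa) (by simpa) (by simpa) (by simpa) (by simpa) (by simpa))
  have h2 : ∀ x ∈ D, x ≠ 1 → ∃ k, x ^ k ≠ 1 ∧ x ^ k * x ^ k = 1 := fun x hx h2 => by
    obtain ⟨y, hy⟩ := exists_prime_orderOf_dvd_card' (G := zpowers x) 2 (by
      rw [Nat.card_zpowers]; exact by_contra fun h3 => h2 ((pElt_of_mem h.bp.pgrp hx).eq_one h3))
    obtain ⟨k, hk⟩ := mem_powers_iff_mem_zpowers.2 y.2
    rw [← orderOf_coe, ← hk] at hy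
    exact ⟨k, fun h => by simp [h] at hy, by rw [← sq, ← hy, pow_orderOf_eq_one]⟩
  have h3 : ∀ g ∈ NS ⊤ D e, ∀ x ∈ D, x ≠ 1 → g * x * g⁻¹ = x → g ∈ centralizer (D : Set G) := fun g hg x hx h3 h4 => by
    obtain ⟨k, h5, h6⟩ := h2 x hx h3
    have h7 : g * x ^ k * g⁻¹ = x ^ k := by rw [← conj_pow, h4]
    have h8 : ∀ i, ∀ y ∈ D, y ^ 2 ^ (i + 1) = 1 → g ^ 2 ^ (i + 1) * y * (g ^ 2 ^ (i + 1))⁻¹ = y := fun i => by
      induction i with
      | zero =>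
        intro y hy h8
        rw [show g ^ 2 ^ (0 + 1) * y * (g ^ 2 ^ (0 + 1))⁻¹ = g * (g * y * g⁻¹) * g⁻¹ by rw [zero_add, pow_one, sq]; group]
        rw [zero_add, pow_one, sq] at h8
        by_cases h9 : g * y * g⁻¹ = y
        · rw [h9, h9]
        have h10 := h1 hy (pow_mem hx k) ((mem_normalizer_iff.1 hg.1.2 y).1 hy) h8 h6 (by rw [conj_mul, h8]; simp)
          (by rintro rfl; simp at h9) h5 (by rintro h; simp_all) (by rintro rfl; exact h9 h7) (fun h => h9 (by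
            rw [(MulAut.conj g).injective (h.trans h7.symm : _ = MulAut.conj g _), h7])) h9
        rw [h10, ← conj_mul, h7, h10, ← mul_assoc, h6, one_mul]
      | succ i ih =>
        intro y hy h8
        set t := g ^ 2 ^ (i + 1)
        have h9 : t * y * t⁻¹ ∈ D := (mem_normalizer_iff.1 (pow_mem hg _).1.2 y).1 hy
        have h10 : (t * y * t⁻¹ * y⁻¹) ^ 2 = 1 := by
          rw [Commute.mul_pow (hab (inv_mem hy) _ h9), conj_pow, ih _ (pow_mem hy 2) (by rw [← pow_mul, ← pow_succ', h8]),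
            inv_pow, mul_inv_cancel]
        have h11 := ih _ (mul_mem h9 (inv_mem hy)) (by rw [pow_succ', pow_mul, h10, one_pow])
        rw [pow_succ, pow_mul, sq, show t * t * y * (t * t)⁻¹ = t * (t * y * t⁻¹ * y⁻¹) * t⁻¹ * (t * y * t⁻¹ * y⁻¹) * y by group,
          h11, ← sq, h10, one_mul]
    obtain ⟨n, hn⟩ := h.bp.pgrp.exists_card_eq
    refine h.mem_centralizer_of_pow hab hg (k := n + 1) fun y hy => (mul_inv_eq_iff_eq_mul.1 (h8 n y hy ?_)).symm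
    rw [pow_succ, pow_mul, ← hn, show y ^ Nat.card D = 1 from congrArg Subtype.val (pow_card_eq_one' (x := (⟨y, hy⟩ : D))), one_pow]
  have h4 : Nat.card D = 4 ^ m := by
    rw [Nat.card_congr φ.toEquiv, Nat.card_congr Multiplicative.toAdd, Nat.card_prod, Nat.card_zmod, ← mul_pow]; rfl
  have h5 : D ≠ ⊥ := fun h5 => by
    rw [h5, card_bot] at h4
    exact (Nat.one_lt_pow (by omega) (by norm_num)).ne h4
  obtain ⟨h6, h7⟩ := h.card_of_free hB hab h3 rfl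
  obtain ⟨⟨x, hx⟩, h8⟩ := ne_bot_iff_exists_ne_one.1 h5
  obtain ⟨k, h9, h10⟩ := h2 x hx (by simpa using h8)
  have h11 : (centralizer (D : Set G)).relIndex (NS ⊤ D e) ≤ 3 := by
    rw [← (h6 _ (pow_mem hx k) h9).2, nF, h.fcl_of_abelian hab (pow_mem hx k)]
    have h11 : ∀ v ∈ {v | ∃ t ∈ NS ⊤ D e, t * x ^ k * t⁻¹ = v}, v ∈ D ∧ v * v = 1 ∧ v ≠ 1 := by
      rintro _ ⟨t, ht, rfl⟩
      exact ⟨(mem_normalizer_iff.1 ht.1.2 _).1 (pow_mem hx k), by rw [conj_mul, h10]; simp, by simpa using h9⟩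
    by_cases h12 : ∃ y ∈ D, y * y = 1 ∧ y ≠ 1 ∧ y ≠ x ^ k
    · obtain ⟨y, a, b, c, d⟩ := h12
      refine (Set.ncard_le_ncard (t := {x ^ k, y, x ^ k * y}) fun v hv => ?_).trans ((Set.ncard_insert_le _ _).trans
        (Nat.succ_le_succ ((Set.ncard_insert_le _ _).trans (by simp))))
      by_contra h12
      simp only [Set.mem_insert_iff, Set.mem_singleton_iff, not_or] at h12
      exact h12.2.2 (h1 a (pow_mem hx k) (h11 v hv).1 b h10 (h11 v hv).2.1 c h9 (h11 v hv).2.2 d h12.1 h12.2.1)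
    · exact (Set.ncard_le_ncard (t := {x ^ k}) fun v hv => by_contra fun h13 =>
        h12 ⟨v, (h11 v hv).1, (h11 v hv).2.1, (h11 v hv).2.2, h13⟩).trans (by simp)
  have h12 := (FA.rank_le ⟨h, hB, hab, h3⟩ h5 rfl).2 h11
  have h13 := h.not_dvd
  rw [CH_top, sup_eq_right.2 hab] at h13
  rw [h12, h4] at h7
  rw [h12]
  clear h12 h6
  generalize (centralizer (D : Set G)).relIndex (NS ⊤ D e) = n at *
  interval_cases n <;> omega

end Cfsg.Agent.S4552
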