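import Cfsg.Statements.S4553
import Cfsg.Agent.C3.Canon
import Cfsg.Agent.C3.Glaub0

set_option autoImplicit false
open Cfsg

namespace Cfsg.Agent.S4553

open H3 H2 C3 B Subgroup Finset

/-- Let G be a finite group, p a prime, P a Sylow p-subgroup, N the p-residual of G (the subgroup generated by the elements of order prime to p, the smallest normal subgroup with G/N a p-group), and M a maximal ideal of the algebraic integers containing p; suppose G/N is cyclic and nontrivial. Let k be a natural number with g ^ k = g ^ (1 + p) for every p-element g and g ^ k = g for every element g of order prime to p (so that χ (g ^ k) is the image of χ g under the field automorphism that raises p-power roots of unity to the power 1 + p and fixes the roots of unity of order prime to p). Then the number of members χ of the principal block of G of degree prime to p with χ (g ^ k) = χ g for all g equals p times the number of members θ of the principal block of N of degree prime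 to p that are invariant under conjugation by P and satisfy θ (n ^ k) = θ n for all n. -/
theorem result {G : Type*} [Group G] [Finite G] (p : ℕ) [Fact p.Prime] (M : Ideal Cfsg.AlgInt) (hM : Cfsg.IsPModular p M) (P : Sylow p G) (N : Subgroup G) [hN : N.Normal] (hNres : N = Cfsg.pResidual p G) (hcyc : IsCyclic (G ⧸ N)) (hnt : N ≠ ⊤) (k : ℕ) (hk₁ : ∀ g : G, (∃ j : ℕ, orderOf g = p ^ j) → g ^ k = g ^ (1 + p)) (hk₂ : ∀ g : G, Nat.Coprime (orderOf g) p → g ^ k = g) : Nat.card {χ : Cfsg.IrrCharacter G // χ ∈ Cfsg.principalBlock M G ∧ ¬ p ∣ Cfsg.charDegree (χ : G → ℂ) ∧ ∀ g : G, (χ : G → ℂ) (g ^ k) = (χ : G → ℂ) g} = p * Nat.card {θ : Cfsg.IrrCharacter ↥N // θ ∈ Cfsg.principalBlock M ↥N ∧ ¬ p ∣ Cfsg.charDegree (θ : ↥N → ℂ) ∧ (∀ x ∈ (P : Subgroup G), ∀ n : ↥N, (θ : ↥N → ℂ) ⟨x * n * x⁻¹, hN.conj_mem n n.2 x⟩ = (θ : ↥N → ℂ) n) ∧ ∀ n : ↥N, (θ : ↥N → ℂ) (n ^ k) = (θ : ↥N → ℂ) n} := by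
  classical
  have : PMod p M := ⟨hM⟩
  have := Fintype.ofFinite N
  have hp : p.Prime := Fact.out
  obtain ⟨j, hj⟩ := hNres ▸ index_pResidual p G
  have hr : pResidual p N = ⊤ := hNres ▸ pResidual_pResidual
  have hP := hNres ▸ pResidual_sup_sylow P
  have hk := coprime_of_pow (p := p) (by simpa using hp.ne_one) hk₁
    fun g o => hk₂ _ (hp.coprime_iff_not_dvd.2 o).symm
  let _ : CommGroup (G ⧸ N) := IsCyclic.commGroup
  set K := (powMonoidHom p : G ⧸ N →* G ⧸ N).range.comap (QuotientGroup.mk' N) with hK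
  have a : N ≤ K := fun n b => ⟨1, by simp [(QuotientGroup.eq_one_iff n).2 b]⟩
  have b : K.index = p := by
    rw [hK, index_comap_of_surjective _ (QuotientGroup.mk'_surjective N), IsCyclic.index_powMonoidHom_range,
      ← index_eq_card, hj, Nat.gcd_eq_right (dvd_pow_self p (by rintro rfl; exact hnt (index_eq_one.1 hj)))]
  have c : ∀ l : G →* ℂˣ, N ≤ l.ker → (K ≤ l.ker ↔ ∀ g, l (g ^ k) = l g) := fun l c => by
    have d : ∀ g, l (g ^ k) = l g * l (g ^ p) := fun g => by
      obtain ⟨x, y, rfl, d, e, f⟩ := exists_pdecomp (p := p) g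
      have := MonoidHom.mem_ker.1 (c (reg_mem_of_index hj f))
      simp [d.mul_pow, hk₁ x e, this, pow_add]
    simp only [d, mul_eq_left]
    refine ⟨fun e g => e ⟨g, rfl⟩, fun e g ⟨x, f⟩ => ?_⟩
    obtain ⟨x, rfl⟩ := QuotientGroup.mk_surjective x
    have := MonoidHom.mem_ker.1 (c (QuotientGroup.eq.1 (f : ((x ^ p : G) : G ⧸ N) = g)))
    rwa [map_mul, map_inv, e, inv_one, one_mul] at this
  have d := fun θ : {θ : IrrCharacter N // θ ∈ principalBlock M N ∧ ¬ p ∣ charDegree (θ : N → ℂ) ∧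
      (∀ x ∈ (P : Subgroup G), ∀ n : N, (θ : N → ℂ) ⟨x * n * x⁻¹, hN.conj_mem n n.2 x⟩ = (θ : N → ℂ) n) ∧
      ∀ n, (θ : N → ℂ) (n ^ k) = (θ : N → ℂ) n} => exists_canon hj θ.1.2 (inertia_eq_top_iff.1 (top_le_iff.1
    (hP.ge.trans (sup_le θ.1.2.isClassFunction.le_inertia fun g n => mem_inertia'.2 (θ.2.2.2.1 g n))))) θ.2.2.1
    (not_dvd_detOrder hr θ.1.2.isCharacter)
  choose X d e _ f using d
  have i : ∀ {χ : G → ℂ} {l m : G →* ℂˣ}, IsCharacter G χ → IsIrrCharacter N (fun n : N => χ n) → N ≤ l.ker →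
      N ≤ m.ker → (∀ g, χ g * l g = χ g * m g) → l = m := fun h h' h1 h2 h3 =>
    linear_injective (gallagher_injective (isIrrCharacter_linear _) (h1.trans (charKer_linear _).ge)
      (isIrrCharacter_linear _) (h2.trans (charKer_linear _).ge) h h' (funext fun g => by simpa [mul_comm] using h3 g))
  rw [← card_linear_le_ker ((commutator_le_of_cyclic hcyc).trans a)] at b
  refine Eq.trans ?_ (congrArg (· * _) b)
  rw [← Nat.card_prod]
  have r : ∀ θ (l : {l : G →* ℂˣ // K ≤ l.ker}) (n : N), X θ n * l.1 n = θ.1.1 n := fun θ l n => by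
    simp [e, MonoidHom.mem_ker.1 (l.2 (a n.2))]
  refine (Nat.card_congr (Equiv.ofBijective (fun x => ⟨⟨_, (d x.2).mul_linear x.1.1⟩, over_mem_principal hj x.2.2.1
    (by simp [r, x.2.1.2.inner_self]), by simpa [charDegree, ← r _ x.1] using x.2.2.2.1, fun g => by
      simp only [f _ k hk x.2.2.2.2.2, (c _ (a.trans x.1.2)).1 x.1.2]⟩)
    ⟨fun x y l => ?_, fun ⟨χ, l, m, n⟩ => ?_⟩)).symm
  · have m := congrFun (congrArg (·.1.1) l)
    have n : x.2 = y.2 := Subtype.ext (Subtype.ext (funext fun n => by rw [← r _ x.1, ← r _ y.1]; exact m n))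
    exact Prod.ext (Subtype.ext (i (d x.2).isCharacter (by simpa [e] using x.2.1.2) (a.trans x.1.2) (a.trans y.1.2)
      fun g => by simpa [n] using m g)) n
  have o := res_irr_of_not_dvd hj χ.2 m
  let θ := (⟨⟨_, o⟩, under_mem_principal l (by simp [o.inner_self]), m, fun x _ y => χ.2.isClassFunction.conj_apply _ _,
    fun y => n y⟩ : {θ : IrrCharacter N // θ ∈ principalBlock M N ∧ ¬ p ∣ charDegree (θ : N → ℂ) ∧
      (∀ x ∈ (P : Subgroup G), ∀ n : N, (θ : N → ℂ) ⟨x * n * x⁻¹, hN.conj_mem n n.2 x⟩ = (θ : N → ℂ) n) ∧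
      ∀ n, (θ : N → ℂ) (n ^ k) = (θ : N → ℂ) n})
  obtain ⟨s, t, v⟩ := exists_linear_of_ext o (d θ).isCharacter χ.2.isCharacter (e θ) fun _ => rfl
  refine ⟨(⟨s, (c s t).2 fun g => ?_⟩, θ), Subtype.ext (Subtype.ext v.symm)⟩
  have w := i (l := s ^ k) (d θ).isCharacter (by simpa [e] using o) (fun x y => by simp [MonoidHom.mem_ker.1 (t y)]) t
    fun g => by simpa [v, f θ k hk θ.2.2.2.2] using n g
  simpa using DFunLike.congr_fun w g

end Cfsg.Agent.S4553
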