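import Cfsg.Statements.S4558
import Cfsg.Agent.H3.Misc

set_option autoImplicit false
open Cfsg

namespace Cfsg.Agent.S4558

open H3

/-- Let χ be a character of the finite group G and g an element of p-power order for the prime p. If χ g = 0, then p divides the degree of χ. -/
theorem result {G : Type*} [Group G] [Finite G] (p : ℕ) [Fact p.Prime] (χ : G → ℂ) (hχ : Cfsg.IsCharacter G χ) (g : G) (hg : ∃ j : ℕ, orderOf g = p ^ j) (h0 : χ g = 0) : p ∣ Cfsg.charDegree χ := by
  obtain ⟨M, hM⟩ := exists_isPModular (Fact.out : p.Prime)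
  obtain ⟨j, hj⟩ := hg
  have := hχ.isGen.inM_sub hM (Commute.one_right g) (k := j) (hj ▸ pow_orderOf_eq_one g)
  rw [mul_one, h0, zero_sub, ← hχ.cast_charDegree] at this
  exact (inM_nat_iff hM).1 (by simpa using this.neg)

end Cfsg.Agent.S4558
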