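import Cfsg.Statements.S4565
import Mathlib
import Cfsg.Agent.H3.Cover

set_option autoImplicit false
open Cfsg

namespace Cfsg.Agent.S4565

open Cfsg H3 Finset
open scoped ComplexConjugate

/-- Let χ be an irreducible character of the finite group H that is fully ramified over the normal subgroup Z: the restriction of χ to Z is e times an irreducible character of Z with e ^ 2 equal to the index of Z. If Z ≠ H, then H/Z has no cyclic subgroup that is its own centralizer. -/
theorem result {H : Type*} [Group H] [Finite H] (Z : Subgroup H) [Z.Normal] (χ : Cfsg.IrrCharacter H) (hfr : ∃ (θ : Cfsg.IrrCharacter ↥Z) (e : ℕ), e ^ 2 = Z.index ∧ ∀ z : ↥Z, (χ : H → ℂ) z = (e : ℂ) * (θ : ↥Z → ℂ) z) (hZ : Z ≠ ⊤) (C : Subgroup (H ⧸ Z)) (hC : IsCyclic C) : Subgroup.centralizer (C : Set (H ⧸ Z)) ≠ C := by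
  classical
  intro hc
  letI := Fintype.ofFinite H
  obtain ⟨θ, e, he, h1⟩ := hfr
  have h1' : (fun z : Z => (χ : H → ℂ) z) = (e : ℂ) • (θ : Z → ℂ) := funext h1
  obtain ⟨g, rfl⟩ := (Subgroup.isCyclic_iff_exists_zpowers_eq_top C).1 hC
  induction g using QuotientGroup.induction_on with | H g => ?_
  set T := (Subgroup.zpowers (g : H ⧸ Z)).comap (QuotientGroup.mk' Z)
  have hZT : Z ≤ T := fun z hz => by
    simp [T, (QuotientGroup.eq_one_iff z).2 hz]
  have gT : g ∈ T := Subgroup.mem_zpowers _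
  have gZ : g ∉ Z := fun h => by
    rw [(QuotientGroup.eq_one_iff g).2 h, Subgroup.zpowers_one_eq_bot, Subgroup.centralizer_eq_top_iff_subset.2
      (by simp)] at hc
    refine hZ (eq_top_iff.2 fun x _ => (QuotientGroup.eq_one_iff x).1 (hc.le (Subgroup.mem_top _)))
  letI := Fintype.ofFinite Z
  letI := Fintype.ofFinite T
  letI := Fintype.ofFinite (Z.subgroupOf T)
  have e0 : (e : ℂ) ≠ 0 := by
    rintro h
    rw [Nat.cast_eq_zero.1 h] at he
    exact Subgroup.index_ne_zero_of_finite (by simpa using he.symm)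
  have inv := invariant_of_res_eq_smul χ.2.isClassFunction e0 h1'
  obtain ⟨η, hη, h2⟩ := exists_ext_of_cyclic (θ.2.toSubOf hZT) (fun t => by rw [cjf_toSubOf, inv]) ⟨((⟨g, gT⟩ : T) : T ⧸ Z.subgroupOf T),
    fun y => QuotientGroup.induction_on y fun t => by
      obtain ⟨k, hk⟩ := t.2
      exact ⟨k, QuotientGroup.eq.2 (QuotientGroup.eq (s := Z) (a := g ^ k) |>.1 hk)⟩⟩
  have hr : IsIrrCharacter (Z.subgroupOf T) fun n => η n := (funext h2 : _ = _) ▸ θ.2.toSubOf hZT
  have h3 : ∀ ψ : IrrCharacter H, ∑ z : Z.subgroupOf T, η (z * ⟨g, gT⟩) * conj ((ψ : H → ℂ) (z * g)) = 0 := by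
    intro ψ
    by_cases h : (ψ : H → ℂ) = χ
    · refine sum_eq_zero fun z _ => ?_
      rw [h, (sq_eq_index_iff χ.2 θ.2 h1').1 he (z * g) fun a => gZ ((Z.mul_mem_cancel_left z.2).1 a)]
      simp
    · have h4 := ((hη.isCharacter.mul (ψ.2.isCharacter.res T).conj).avg (N := Z.subgroupOf T)).eq_zero_of_apply_one (by
        refine (avg_mul_conj_one _ _).trans ?_
        rw [funext h2, classInner_eq_zero_comm]
        refine (classInner_res_toSubOf hZT (fun t => (ψ : H → ℂ) t) _).trans (classInner_eq_zero_comm.1 ?_)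
        refine (classInner_indFun_left _ ψ.2.isClassFunction).symm.trans ?_
        rw [(ind_eq_smul_iff χ.2 θ.2 h1').2 he, classInner_smul_left, χ.2.inner_of_ne ψ.2 (Ne.symm h), mul_zero])
      exact (mul_eq_zero.1 (congr_fun h4 ⟨g, gT⟩)).resolve_left (inv_ne_zero card_ne_zero)
  have h4 : ∀ y : Z.subgroupOf T, η (y * ⟨g, gT⟩) = 0 := fun y => by
    have h5 := sum_eq_zero (s := univ) fun (ψ : IrrCharacter H) _ =>
      (congrArg ((ψ : H → ℂ) (y * g) * ·) (h3 ψ)).trans (mul_zero _)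
    simp only [mul_sum] at h5
    rw [sum_comm] at h5
    simp only [mul_left_comm ((_ : IrrCharacter H).1 _), ← mul_sum, sum_irr_mul_conj_eq_card] at h5
    rw [sum_congr rfl fun (z : Z.subgroupOf T) _ => show _ = η (y * ⟨g, gT⟩) *
      (Nat.card {x : H // x * (y * g) * x⁻¹ = z * g} : ℕ) from ?_, ← mul_sum, ← Nat.cast_sum] at h5
    · refine (mul_eq_zero.1 h5).resolve_right (Nat.cast_ne_zero.2 fun h => ?_)
      haveI : Nonempty {x : H // x * (y * g) * x⁻¹ = y * g} := ⟨⟨1, by simp⟩⟩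
      exact Nat.card_pos.ne' (sum_eq_zero_iff.1 h y (mem_univ _))
    · rcases isEmpty_or_nonempty {x : H // x * (y * g) * x⁻¹ = z * g} with h | ⟨x, hx⟩
      · simp
      have hxT : x ∈ T := by
        change (x : H ⧸ Z) ∈ Subgroup.zpowers (g : H ⧸ Z)
        rw [← hc, Subgroup.zpowers_eq_closure, Subgroup.centralizer_closure, Subgroup.mem_centralizer_singleton_iff,
          ← mul_inv_eq_iff_eq_mul]
        simpa [(QuotientGroup.eq_one_iff (y : H)).2 y.2, (QuotientGroup.eq_one_iff (z : H)).2 z.2] using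
          congrArg (QuotientGroup.mk' Z) hx
      rw [← hη.isClassFunction.conj_apply (y * ⟨g, gT⟩) ⟨x, hxT⟩]
      exact congrArg (η · * _) (Subtype.ext hx.symm)
  have := congr_fun (avg_mul_conj_self hη.isCharacter hr) ⟨g, gT⟩
  simp [avg_apply, h4] at this

end Cfsg.Agent.S4565
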