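import Cfsg.Statements.S4566
import Cfsg.Agent.H3.Misc

set_option autoImplicit false
open Cfsg

namespace Cfsg.Agent.S4566

open H3
open scoped commutatorElement

/-- Let N be a central subgroup of the finite group G, ψ a faithful irreducible (hence degree-one) character of N, and χ an irreducible character of G whose restriction to N contains ψ. If g ∈ G and some x ∈ G has commutator x⁻¹ g⁻¹ x g in N but different from 1, then χ g = 0. -/
theorem result {G : Type*} [Group G] [Fintype G] (N : Subgroup G) [Fintype N] (hN : N ≤ Subgroup.center G) (ψ : Cfsg.IrrCharacter ↥N) (hfaith : ∀ n : ↥N, (ψ : ↥N → ℂ) n = (ψ : ↥N → ℂ) 1 → n = 1) (χ : Cfsg.IrrCharacter G) (hover : Cfsg.classInner (fun n : ↥N => (χ : G → ℂ) n) (ψ : ↥N → ℂ) ≠ 0) (g x : G) (hcomm : x⁻¹ * g⁻¹ * x * g ∈ N) (hne : x⁻¹ * g⁻¹ * x * g ≠ 1) : (χ : G → ℂ) g = 0 := by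
  have e : ⁅g⁻¹, x⁻¹⁆ = (x⁻¹ * g⁻¹ * x * g)⁻¹ := by simp [commutatorElement_def, mul_assoc]
  refine χ.2.isCharacter.eq_zero_of_commutator (y := x⁻¹) (e ▸ inv_mem (χ.2.center_le_charCenter (hN hcomm)))
    fun h => hne ?_
  rw [e, inv_mem_iff] at h
  exact congrArg Subtype.val (hfaith ⟨_, hcomm⟩ (apply_of_mem_charKer
    ((χ.2.isCharacter.res N).charKer_le_of_inner ψ.2 hover (mem_charKer.2 fun y => mem_charKer.1 h y))))

end Cfsg.Agent.S4566
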