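import Cfsg.Statements.S4567
import Mathlib
import Cfsg.Agent.H3.FS
import Cfsg.Agent.H3.Misc

set_option autoImplicit false
open Cfsg

namespace Cfsg.Agent.S4567

open Cfsg H3 Finset
open scoped ComplexConjugate

/-- Let N be a central subgroup of the finite group G and ψ a faithful irreducible (hence degree-one) character of N. Call a coset g N special when every x ∈ G whose commutator x⁻¹ g⁻¹ x g lies in N actually commutes with g (this depends only on the coset). Then the number of irreducible characters of G whose restriction to N contains ψ equals the number of conjugacy classes of G/N consisting of special cosets. -/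
theorem result {G : Type*} [Group G] [Fintype G] (N : Subgroup G) [N.Normal] [Fintype N] (hN : N ≤ Subgroup.center G) (ψ : Cfsg.IrrCharacter ↥N) (hfaith : ∀ n : ↥N, (ψ : ↥N → ℂ) n = (ψ : ↥N → ℂ) 1 → n = 1) : Nat.card {χ : Cfsg.IrrCharacter G // Cfsg.classInner (fun n : ↥N => (χ : G → ℂ) n) (ψ : ↥N → ℂ) ≠ 0} = Nat.card {C : ConjClasses (G ⧸ N) // ∃ g : G, ConjClasses.mk (g : G ⧸ N) = C ∧ ∀ x : G, x⁻¹ * g⁻¹ * x * g ∈ N → x * g = g * x} := by
  classical
  letI := Fintype.ofFinite (G ⧸ N)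
  letI := Fintype.ofFinite (ConjClasses (G ⧸ N))
  have cm : ∀ n ∈ N, ∀ x, n * x = x * n := fun n hn x => (Subgroup.mem_center_iff.1 (hN hn) x).symm
  haveI : IsMulCommutative N := ⟨⟨fun a b => Subtype.ext (cm _ a.2 _)⟩⟩
  obtain ⟨mu, hmu⟩ := ψ.2.exists_linear_of_comm
  let F : ConjClasses (G ⧸ N) → ℂ := fun C => if ∃ g : G, ConjClasses.mk (g : G ⧸ N) = C ∧
    ∀ x : G, x⁻¹ * g⁻¹ * x * g ∈ N → x * g = g * x then 1 else 0
  have h1 : ∀ χ : IrrCharacter G, (if classInner (fun n : N => (χ : G → ℂ) n) (ψ : N → ℂ) ≠ 0 then 1 else 0 : ℂ) =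
      (Nat.card G : ℂ)⁻¹ * ∑ g, (Nat.card N : ℂ)⁻¹ * ∑ n : N, conj ((ψ : N → ℂ) n) *
        ((χ : G → ℂ) (g * n) * conj ((χ : G → ℂ) g)) := fun χ => by
    obtain ⟨lam, hl⟩ := exists_linear_of_le_charCenter χ.2.apply_one_ne_zero (hN.trans χ.2.center_le_charCenter)
    have e : (fun n : N => (χ : G → ℂ) n) = (χ : G → ℂ) 1 • fun n => (lam n : ℂ) :=
      funext fun n => by simpa [mul_comm] using hl n 1
    have : (if (χ : G → ℂ) 1 * classInner (fun n => (lam n : ℂ)) (ψ : N → ℂ) ≠ 0 then 1 else 0 : ℂ) =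
        classInner (fun n => (lam n : ℂ)) (ψ : N → ℂ) := by
      rw [hmu, classInner_linear]; split_ifs <;> simp_all [χ.2.apply_one_ne_zero]
    rw [e, classInner_smul_left, this, ← one_mul (classInner _ _), ← χ.2.inner_self, classInner_def, mul_assoc,
      sum_mul]
    refine congrArg _ (sum_congr rfl fun g _ => ?_)
    rw [classInner_def, mul_left_comm, mul_sum]
    exact congrArg _ (sum_congr rfl fun n _ => by rw [hl]; ring)
  have h2 : ∀ g : G, ∑ n : N, conj ((ψ : N → ℂ) n) * (Nat.card {x : G // x * (g * n) * x⁻¹ = g} : ℂ) =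
      Nat.card N * (Nat.card (Subgroup.centralizer ({(g : G ⧸ N)} : Set (G ⧸ N))) *
        F (ConjClasses.mk (g : G ⧸ N))) := fun g => by
    let S : G → ℂ := fun x => if h : g⁻¹ * x⁻¹ * g * x ∈ N then conj ((ψ : N → ℂ) ⟨_, h⟩) else 0
    have e : ∑ n : N, conj ((ψ : N → ℂ) n) * (Nat.card {x : G // x * (g * n) * x⁻¹ = g} : ℂ) = ∑ x, S x := by
      simp only [Nat.card_eq_fintype_card, Fintype.card_subtype, card_filter, Nat.cast_sum, mul_sum]
      rw [sum_comm]
      refine sum_congr rfl fun x _ => ?_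
      have : ∀ n : N, x * (g * n) * x⁻¹ = g ↔ (n : G) = g⁻¹ * x⁻¹ * g * x := fun n =>
        ⟨fun h => by conv_rhs => { arg 1; arg 2; rw [← h] }; group, fun h => by rw [h]; group⟩
      by_cases h : g⁻¹ * x⁻¹ * g * x ∈ N
      · rw [sum_eq_single ⟨_, h⟩ (fun n _ hn => by
          rw [if_neg fun a => hn (Subtype.ext ((this n).1 a))]; simp) (by simp), if_pos ((this ⟨_, h⟩).2 rfl)]
        simp [S, h]
      · rw [sum_eq_zero fun n _ => by rw [if_neg fun a => h ((this n).1 a ▸ n.2)]; simp]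
        simp [S, h]
    have iv : ∀ x : G, x⁻¹ * g⁻¹ * x * g ∈ N ↔ g⁻¹ * x⁻¹ * g * x ∈ N := fun x => by
      rw [← N.inv_mem_iff]; simp [mul_assoc]
    have hT : ∀ x, x ∈ (Subgroup.centralizer ({(g : G ⧸ N)} : Set (G ⧸ N))).comap (QuotientGroup.mk' N) ↔
        g⁻¹ * x⁻¹ * g * x ∈ N := fun x => by
      rw [Subgroup.mem_comap, Subgroup.mem_centralizer_singleton_iff]
      exact QuotientGroup.eq.trans (by simp [mul_assoc])
    rw [e]
    by_cases hs : ∀ x : G, x⁻¹ * g⁻¹ * x * g ∈ N → x * g = g * x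
    · have e2 : ∀ x, S x = if x ∈ (Subgroup.centralizer ({(g : G ⧸ N)} : Set (G ⧸ N))).comap
          (QuotientGroup.mk' N) then 1 else 0 := fun x => by
        simp only [S, hT]
        split_ifs with h
        · rw [show (⟨_, h⟩ : N) = 1 from Subtype.ext (show g⁻¹ * x⁻¹ * g * x = 1 by
            rw [mul_assoc, mul_assoc, ← hs x ((iv x).2 h)]; simp), hmu]; simp
        · rfl
      rw [show F _ = 1 from if_pos ⟨g, rfl, hs⟩, mul_one, sum_congr rfl fun x _ => e2 x, sum_boole,
        ← Fintype.card_subtype, ← Nat.card_eq_fintype_card, ← Nat.cast_mul, Nat.cast_inj]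
      exact (Nat.card_congr (QuotientGroup.preimageMkEquivSubgroupProdSet N
        (Subgroup.centralizer ({(g : G ⧸ N)} : Set (G ⧸ N))))).trans (Nat.card_prod _ _)
    · rw [show F _ = 0 from if_neg ?_, mul_zero, mul_zero]
      · push Not at hs
        obtain ⟨y, hy, h⟩ := hs
        rw [iv] at hy
        have : ∑ x, S x = conj ((ψ : N → ℂ) ⟨_, hy⟩) * ∑ x, S x := by
          rw [mul_sum]
          refine (Fintype.sum_equiv (Equiv.mulRight y) _ _ fun x => ?_).symm
          have e3 : g⁻¹ * (x * y)⁻¹ * g * (x * y) = (g⁻¹ * y⁻¹ * g) * (g⁻¹ * x⁻¹ * g * x) * y := by group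
          by_cases hx : g⁻¹ * x⁻¹ * g * x ∈ N
          · rw [mul_assoc _ _ y, cm _ hx, ← mul_assoc _ y] at e3
            have m : g⁻¹ * (x * y)⁻¹ * g * (x * y) ∈ N := e3 ▸ N.mul_mem hy hx
            simp only [S, Equiv.coe_mulRight, dif_pos hx, dif_pos m]
            rw [show (⟨_, m⟩ : N) = ⟨_, hy⟩ * ⟨_, hx⟩ from Subtype.ext e3, hmu]
            simp only [map_mul, Units.val_mul]
          · have m : g⁻¹ * (x * y)⁻¹ * g * (x * y) ∉ N := fun m => hx ((hT x).1
              ((Subgroup.mul_mem_cancel_right _ ((hT y).2 hy)).1 ((hT _).2 m)))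
            simp only [S, Equiv.coe_mulRight, dif_neg hx, dif_neg m, mul_zero]
        refine by_contra fun h0 => h ?_
        have h7 := hfaith ⟨_, hy⟩ ((starRingEnd ℂ).injective (by
          rw [← mul_right_cancel₀ h0 ((one_mul _).trans this), hmu]; simp))
        calc _ = y * g * (g⁻¹ * y⁻¹ * g * y) := by rw [show g⁻¹ * y⁻¹ * g * y = 1 from congrArg Subtype.val h7, mul_one]
          _ = _ := by group
      · rintro ⟨g', e, h⟩
        refine hs fun x hx => ?_
        obtain ⟨c, hc⟩ := isConj_iff.1 (ConjClasses.mk_eq_mk_iff_isConj.1 e)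
        induction c using QuotientGroup.induction_on with | H c => ?_
        have m : (c * g' * c⁻¹)⁻¹ * g ∈ N := QuotientGroup.eq.1 hc
        obtain ⟨n, hn, rfl⟩ : ∃ n ∈ N, g = c * g' * c⁻¹ * n := ⟨_, m, by group⟩
        have := h (c⁻¹ * x * c) (by
          have h8 := ‹N.Normal›.conj_mem _ (N.mul_mem (N.mul_mem (‹N.Normal›.conj_mem _ hn x⁻¹) hx)
            (N.inv_mem hn)) c⁻¹
          convert h8 using 1
          group)
        rw [mul_assoc _ n, cm n hn, ← mul_assoc, ← mul_assoc _ x, mul_left_inj]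
        calc _ = c * (c⁻¹ * x * c * g') * c⁻¹ := by group
          _ = _ := by rw [this]; group
  rw [← Nat.cast_inj (R := ℂ), Nat.card_eq_fintype_card, Nat.card_eq_fintype_card, Fintype.card_subtype,
    Fintype.card_subtype, ← sum_boole, ← sum_boole, sum_congr rfl fun χ _ => h1 χ, ← mul_sum, sum_comm]
  have h3 := classInner_comp_of_surjective _ (QuotientGroup.mk'_surjective N) (fun q : G ⧸ N =>
    Nat.card (Subgroup.centralizer ({q} : Set (G ⧸ N))) * F (ConjClasses.mk q)) fun _ => 1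
  simp only [classInner_def, map_one, mul_one, sum_centralizer_mul] at h3
  rw [inv_mul_cancel_left₀ card_ne_zero] at h3
  refine Eq.trans (congrArg _ (sum_congr rfl fun g _ => ?_)) h3
  rw [← mul_sum, sum_comm]
  simp only [← mul_sum, sum_irr_mul_conj_eq_card]
  rw [h2, inv_mul_cancel_left₀ card_ne_zero]; rfl

end Cfsg.Agent.S4567
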