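import Cfsg.Statements.S4574
import Cfsg.Agent.H3.Misc

set_option autoImplicit false
open Cfsg

namespace Cfsg.Agent.S4574

open H3 Finset

/-- Let χ be an irreducible character of the finite group G, of degree d, and let Z(χ) be the set of elements g with |χ g| = d (the centre of χ). Then χ vanishes on at least (d ^ 2 - 1) · |Z(χ)| elements of G, with equality when every value |χ g| is 0, 1 or d. -/
theorem result {G : Type*} [Group G] [Fintype G] [DecidableEq G] (χ : G → ℂ) (hχ : Cfsg.IsIrrCharacter G χ) : (Cfsg.charDegree χ ^ 2 - 1) * (Finset.univ.filter (fun g : G => ‖χ g‖ = (Cfsg.charDegree χ : ℝ))).card ≤ (Finset.univ.filter (fun g : G => χ g = 0)).card ∧ ((∀ g : G, ‖χ g‖ = 0 ∨ ‖χ g‖ = 1 ∨ ‖χ g‖ = (Cfsg.charDegree χ : ℝ)) → (Cfsg.charDegree χ ^ 2 - 1) * (Finset.univ.filter (fun g : G => ‖χ g‖ = (Cfsg.charDegree χ : ℝ))).card = (Finset.univ.filter (fun g : G => χ g = 0)).card) := by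
  have hd := hχ.charDegree_pos
  set d := charDegree χ
  have h1 : ∑ g, ‖χ g‖ ^ 2 = (Nat.card G : ℝ) := by
    have := classInner_self_re χ
    rw [hχ.inner_self, Complex.one_re, eq_inv_mul_iff_mul_eq₀ (by exact_mod_cast Nat.card_pos.ne')] at this
    linarith
  set Z := univ.filter (fun g : G => ‖χ g‖ = (d : ℝ))
  set O := univ.filter (fun g : G => χ g = 0)
  set S := univ.filter (fun g : G => χ g ≠ 0 ∧ ‖χ g‖ ≠ (d : ℝ))
  have hd' : (d : ℝ) ≠ 0 := by exact_mod_cast hd.ne'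
  have h2 : ∀ f : G → ℝ, ∑ g, f g = ∑ g ∈ Z, f g + ∑ g ∈ O, f g + ∑ g ∈ S, f g := fun f => by
    simp only [Z, O, S, sum_filter, ← sum_add_distrib]
    refine sum_congr rfl fun g _ => ?_
    by_cases a : χ g = 0
    · simp [a, hd'.symm]
    · by_cases b : ‖χ g‖ = d <;> simp [a, b]
  have h3 := h2 fun _ => 1
  rw [h2, sum_congr rfl (fun g (a : g ∈ Z) => by rw [(mem_filter.1 a).2]),
    sum_eq_zero (s := O) (fun g a => by simp [(mem_filter.1 a).2])] at h1
  simp only [sum_const, card_univ, nsmul_eq_mul, mul_one, ← Nat.card_eq_fintype_card] at h1 h3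
  have h4 : ((d ^ 2 - 1 : ℕ) : ℝ) = d ^ 2 - 1 := by rw [Nat.cast_sub (Nat.one_le_pow _ _ hd)]; simp
  refine ⟨?_, fun h => ?_⟩
  · have := hχ.isGen.card_le_sum_norm_sq S (fun k a g b => ?_) fun g a => (mem_filter.1 a).2.1
    · rify; rw [h4]; linarith
    obtain ⟨σ, c⟩ := exists_galois_pow G a
    obtain ⟨-, e, f⟩ := mem_filter.1 b
    refine mem_filter.2 ⟨mem_univ _, c χ hχ.isGen g ▸ (map_ne_zero σ).2 e, fun i => f ?_⟩
    rw [← hχ.isCharacter.mem_charCenter_iff] at i ⊢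
    exact (Subgroup.zpowers_le.2 i) (mem_zpowers_pow_iff.2 (a.coprime_dvd_right (orderOf_dvd_natCard g)))
  · have : ∑ g ∈ S, ‖χ g‖ ^ 2 = S.card := by
      rw [sum_congr rfl (g := fun _ => 1) fun g a => ?_]; · simp
      obtain ⟨-, e, f⟩ := mem_filter.1 a
      rw [((h g).resolve_left (by simpa)).resolve_right f, one_pow]
    rify; rw [h4]; linarith

end Cfsg.Agent.S4574
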