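import Cfsg.Statements.S4575
import Cfsg.Agent.B.Cyclo

set_option autoImplicit false
open Cfsg

namespace Cfsg.Agent.S4575

open Cfsg.Agent Cfsg.Agent.B Cfsg.Agent.H2 Cfsg.Agent.H3 Subgroup MonoidAlgebra
open scoped Pointwise commutatorElement

/-- Let B be a 2-block of the finite group G (relative to a maximal ideal M of the algebraic integers containing 2) of defect d with defect group D. Let z be an element of D commuting with every element of D, and let b be a block of the centralizer of z with defect group D that induces B (a major subsection (z, b)). If the number of irreducible characters in B exceeds the 2-regular rank of b by at most three, then B contains at most 2 ^ d irreducible characters. -/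
theorem result {G : Type*} [Group G] [Finite G] (M : Ideal Cfsg.AlgInt) (hM : Cfsg.IsPModular 2 M) (B : Set (Cfsg.IrrCharacter G)) (hB : Cfsg.IsPBlock M B) (D : Subgroup G) (hD : Cfsg.IsDefectGroup 2 M B D) (z : G) (hzD : z ∈ D) (hzc : ∀ d ∈ D, d * z = z * d) (b : Set (Cfsg.IrrCharacter ↥(Subgroup.centralizer ({z} : Set G)))) (hb : Cfsg.IsInducedBlock M (Subgroup.centralizer ({z} : Set G)) b B) (hbD : Cfsg.IsDefectGroup 2 M b (D.subgroupOf (Subgroup.centralizer ({z} : Set G)))) (h : Nat.card B ≤ Cfsg.blockRank 2 b + 3) : Nat.card B ≤ 2 ^ Cfsg.blockDefect 2 B := by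
  have : PMod 2 M := ⟨hM⟩
  classical
  have hx : PElt 2 z := pElt_of_mem (IsDefectGroup.isPGroup hD) hzD
  have hd : blockDefect 2 b = blockDefect 2 B := by
    rw [← IsDefectGroup.factorization_card hD hB.closed, ← IsDefectGroup.factorization_card hbD hb.1.closed,
      Nat.card_congr (subgroupOfEquivOfLe fun d h => mem_centralizer_singleton_iff.2 (hzc d h)).toEquiv]
  obtain ⟨a, t, s, h1, h2, h3, h4, h5, h6, h7⟩ := exists_a2 hx hb.1
  simp only [hd] at h1 h3 h5 h6 h7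
  set S := Finset.univ.filter (· ∈ B) with hS
  have hS' : ∀ χ, χ ∈ S ↔ χ ∈ B := fun χ => by simp [hS]
  rw [← card_filter_mem] at h ⊢
  have h10 : ∀ χ ∈ B, ∃ n : ℤ, 0 < n ∧ a χ = 2 ^ blockHeight 2 B (χ : G → ℂ) * n ∧
      (¬ 2 ∣ n ↔ blockHeight 2 B (χ : G → ℂ) = 0) := fun χ hχ => by
    obtain ⟨e1, e2⟩ := IsInducedBlock.red_ctr_major hx hb hd hχ hχ
    obtain ⟨n, e3, e4⟩ := h6 χ _ e1
    rw [← e4, Ne, CharP.intCast_eq_zero_iff (F M) 2] at e2
    have e5 := (h2 χ).1.lt_of_ne' fun h => IsInducedBlock.ctr_self_ne_zero hx hb hd hχ ((h2 χ).2.1 h)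
    exact ⟨n, (mul_pos_iff_of_pos_left (by positivity)).1 (e3 ▸ e5), e3, e2⟩
  have h8 : ∀ χ, ∑ ψ ∈ Finset.univ.erase χ, s χ ψ + t χ =
      2 ^ blockDefect 2 B * (2 ^ blockDefect 2 B - a χ) := fun χ => by
    have := Finset.sum_erase_add Finset.univ (s χ) (Finset.mem_univ χ)
    rw [(h7 χ).1]
    linear_combination this + h3 χ
  have h9 : ∀ χ ∈ B, ∀ ψ ∈ B, ctr 2 z b χ ψ ≠ 0 → 1 ≤ s χ ψ := fun χ hχ ψ hψ h =>
    (one_le_pow₀ (by norm_num)).trans (h5 χ ψ _ h (IsInducedBlock.red_ctr_major hx hb hd hχ hψ).1)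
  have h11 : ∀ χ ∈ B, blockHeight 2 B (χ : G → ℂ) = 0 →
      S.card + t χ ≤ 2 ^ blockDefect 2 B * (2 ^ blockDefect 2 B - a χ) + 1 := fun χ hχ h0 => by
    rw [← h8, ← Finset.card_erase_add_one ((hS' χ).2 hχ), Finset.card_eq_sum_ones]
    have := (Finset.sum_le_sum fun ψ hψ => h9 χ hχ ψ ((hS' ψ).1 (Finset.mem_of_mem_erase hψ))
      (IsInducedBlock.ctr_ne_zero hx hb hd hχ h0 ((hS' ψ).1 (Finset.mem_of_mem_erase hψ)))).trans
      (Finset.sum_le_sum_of_subset_of_nonneg (Finset.erase_subset_erase χ S.subset_univ) fun ψ _ _ => h4 χ ψ)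
    push_cast
    linarith
  obtain ⟨τ, hτ, h0⟩ := exists_height_zero 2 hB.nonempty
  suffices (S.card : ℤ) ≤ 2 ^ blockDefect 2 B by exact_mod_cast this
  rcases Nat.eq_zero_or_pos (blockDefect 2 B) with h12 | h12
  · obtain ⟨n, e1, e2, -⟩ := h10 τ hτ
    have e3 := h11 τ hτ h0
    have e4 := (h7 τ).2.1
    rw [h0] at e2
    rw [h12] at e3 ⊢
    omega
  obtain ⟨d, hd'⟩ : ∃ d, blockDefect 2 B = d + 1 := ⟨_, (Nat.succ_pred_eq_of_pos h12).symm⟩
  have hq : (0 : ℤ) < 2 ^ blockDefect 2 B := by positivity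
  by_cases h13 : ∃ χ ∈ B, blockHeight 2 B (χ : G → ℂ) = 0 ∧ 2 ^ blockDefect 2 B - a χ ≤ 1
  · obtain ⟨χ, hχ, e1, e2⟩ := h13
    have e3 := h11 χ hχ e1
    have e4 := (h7 χ).2.1.lt_of_ne' fun h => by
      have := (IsInducedBlock.red_ctr_ne_zero_iff hx hb hχ hχ).2 ⟨e1, e1⟩
      rw [(h7 χ).2.2 h, mul_one, hd, red_pow (natCast_mem _ _), red_p, zero_pow h12.ne'] at this
      exact this rfl
    nlinarith
  push Not at h13
  have h14 : ∀ χ ∈ S, 3 ≤ 2 ^ blockDefect 2 B - a χ := fun χ hχ => by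
    rw [hS'] at hχ
    obtain ⟨n, e1, e2, e3⟩ := h10 χ hχ
    by_cases e4 : blockHeight 2 B (χ : G → ℂ) = 0
    · have e5 := h13 χ hχ e4
      have e6 := e3.2 e4
      rw [e4] at e2
      rw [hd', pow_succ] at e5 ⊢
      omega
    obtain ⟨k, hk⟩ := Nat.exists_eq_succ_of_ne_zero e4
    obtain ⟨m, rfl⟩ : 2 ∣ n := by_contra fun h => e4 (e3.1 h)
    have e5 : a χ = 4 * (2 ^ k * m) := by rw [e2, hk, pow_succ]; ring
    have e6 : 0 < 2 ^ k * m := mul_pos (by positivity) (by omega)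
    have e7 : 0 < 2 ^ blockDefect 2 B * (2 ^ blockDefect 2 B - a χ) := by
      rw [← h8]
      refine add_pos_of_pos_of_nonneg (Finset.sum_pos' (fun ψ _ => h4 χ ψ) ⟨τ, Finset.mem_erase.2
        ⟨fun h => e4 (h ▸ h0), Finset.mem_univ _⟩, h9 χ hχ τ hτ fun h => ?_⟩) (h7 χ).2.1
      refine IsInducedBlock.ctr_ne_zero hx hb hd hτ h0 hχ ?_
      rw [← conj_ctr hb.1.closed χ.2.isClassFunction τ.2.isClassFunction, h, map_zero]
    have e8 := (mul_pos_iff_of_pos_left hq).1 e7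
    rcases d with _ | d
    · rw [hd'] at e8; omega
    · rw [hd', pow_succ, pow_succ] at e8 ⊢; omega
  have h15 := Finset.sum_le_sum h14
  rw [Finset.sum_sub_distrib, Finset.sum_subset S.subset_univ fun χ _ hχ =>
    (h2 χ).2.2 (IsInducedBlock.ctr_eq_zero hx hb (mt (hS' χ).2 hχ)), h1] at h15
  simp only [Finset.sum_const, nsmul_eq_mul] at h15
  have h16 : (S.card : ℤ) ≤ blockRank 2 b + 3 := by exact_mod_cast h
  nlinarith

end Cfsg.Agent.S4575
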