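import Cfsg.Statements.S4580
import Cfsg.Agent.C3.Sig

set_option autoImplicit false
open Cfsg

namespace Cfsg.Agent.S4580

open H3 H2 C3 B Subgroup Finset

/-- Let N be a normal subgroup of the finite group G, M a maximal ideal of the algebraic integers containing 2, and θ a real-valued irreducible character of N of odd degree that extends to G (some irreducible character of G restricts to θ). Then θ has an extension to G lying in the principal 2-block of G. -/
theorem result {G : Type*} [Group G] [Finite G] (N : Subgroup G) [N.Normal] (M : Ideal Cfsg.AlgInt) (hM : Cfsg.IsPModular 2 M) (θ : Cfsg.IrrCharacter N) (hreal : ∀ n : N, ((θ : N → ℂ) n).im = 0) (hodd : Odd (Cfsg.charDegree (θ : N → ℂ))) (hext : ∃ η : Cfsg.IrrCharacter G, ∀ n : N, (η : G → ℂ) n = (θ : N → ℂ) n) :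
    ∃ η : Cfsg.IrrCharacter G, (∀ n : N, (η : G → ℂ) n = (θ : N → ℂ) n) ∧ η ∈ Cfsg.principalBlock M G := by
  have : PMod 2 M := ⟨hM⟩
  obtain ⟨η, a⟩ := hext
  obtain ⟨lam, b, c⟩ := exists_linear_of_ext θ.2 η.2.isCharacter η.2.isCharacter.conj a fun n => by
    rw [a, Complex.conj_eq_iff_im.2 (hreal n)]
  obtain ⟨t, d⟩ := exists_sqrt lam
  have e : ∀ n : N, (η : G → ℂ) n * ((lam ^ t) n : ℂˣ) = (θ : N → ℂ) n := fun n => by
    simp [a, MonoidHom.mem_ker.1 (b n.2)]
  refine ⟨⟨_, η.2.mul_linear (lam ^ t)⟩, e, mem_principal_of_inv ?_ rfl fun g f => ?_⟩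
  · rw [charDegree_eq (n := charDegree (θ : N → ℂ)) ((e 1).trans θ.2.cast_charDegree.symm)]
    exact hodd.not_two_dvd_nat
  · have i := d g _ (Nat.odd_iff.2 (Nat.two_dvd_ne_zero.1 f)) (by rw [← map_pow, pow_orderOf_eq_one, map_one])
    simp only [η.2.isCharacter.apply_inv, congrFun c g, map_inv, MonoidHom.pow_apply, mul_assoc, ← Units.val_mul]
    rw [mul_inv_eq_of_eq_mul i.symm]

end Cfsg.Agent.S4580
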