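import Cfsg.Statements.S4582
import Mathlib
import Cfsg.Agent.H2.Transfer

set_option autoImplicit false
open Cfsg

namespace Cfsg.Agent.S4582

open Cfsg L H2 Subgroup
open scoped commutatorElement

/-- Let N be a normal subgroup of the finite group G, P a Sylow 2-subgroup of G and Q = P ∩ N. Suppose that P/QP' and Q/Q' are elementary abelian (every square of an element of P lies in the subgroup generated by Q and the derived subgroup of P, and every square of an element of Q lies in the derived subgroup of Q), and that the commutator factor group N/N' has odd order. Then P/P' is elementary abelian. -/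
theorem result {G : Type*} [Group G] [Finite G] (N : Subgroup G) [N.Normal] (P : Sylow 2 G)
    (hP : ∀ x ∈ (P : Subgroup G), x ^ 2 ∈ ((P : Subgroup G) ⊓ N) ⊔ ⁅(P : Subgroup G), (P : Subgroup G)⁆)
    (hQ : ∀ x ∈ (P : Subgroup G) ⊓ N, x ^ 2 ∈ ⁅(P : Subgroup G) ⊓ N, (P : Subgroup G) ⊓ N⁆)
    (hodd : Odd (Nat.card (Abelianization N))) :
    ∀ x ∈ (P : Subgroup G), x ^ 2 ∈ ⁅(P : Subgroup G), (P : Subgroup G)⁆ := by
  intro x hx
  haveI := Fact.mk Nat.prime_two
  set K := N ⊔ (P : Subgroup G)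
  have hPK : (P : Subgroup G) ≤ K := le_sup_right
  let φ : (P : Subgroup G).subgroupOf K →* Abelianization (P : Subgroup G) :=
    Abelianization.of.comp (subgroupOfEquivOfLe hPK).toMonoidHom
  have hA : IsPGroup 2 (Abelianization (P : Subgroup G)) := P.isPGroup'.to_quotient _
  have ker : ∀ y : (P : Subgroup G), Abelianization.of y = 1 ↔ (y : G) ∈ ⁅(P : Subgroup G), (P : Subgroup G)⁆ :=
    fun y => by
      rw [← MonoidHom.mem_ker, Abelianization.ker_of, ← map_subtype_commutator']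
      exact (mem_map_iff_mem (subtype_injective _)).symm
  let V := MonoidHom.transfer φ
  have h1 : ∀ n (hn : n ∈ N), V ⟨n, mem_sup_left hn⟩ = 1 := fun n hn => by
    let W := Abelianization.lift (V.comp (inclusion (le_sup_left : N ≤ K)))
    obtain ⟨k, hk⟩ := IsPGroup.iff_orderOf.1 hA (W (Abelianization.of ⟨n, hn⟩))
    exact orderOf_eq_one_iff.1 (Nat.eq_one_of_dvd_coprimes ((Nat.coprime_two_right.2 hodd).pow_right k)
      ((orderOf_map_dvd W (Abelianization.of ⟨n, hn⟩)).trans (orderOf_dvd_natCard _)) hk.dvd)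
  have h2 : V ⟨x, hPK hx⟩ ^ 2 = 1 := by
    have : (P : Subgroup G) ⊓ N ⊔ ⁅(P : Subgroup G), (P : Subgroup G)⁆ ≤ V.ker.map K.subtype :=
      sup_le (fun y hy => ⟨⟨y, hPK hy.1⟩, h1 y hy.2, rfl⟩) ((commutator_mono hPK hPK).trans
        (map_subtype_commutator' K ▸ map_mono (Abelianization.commutator_subset_ker V)))
    rw [← map_pow]
    obtain ⟨w, hw, e⟩ := this (hP x hx)
    rwa [show (⟨x, hPK hx⟩ : K) ^ 2 = w from Subtype.ext e.symm]
  let y : (P : Subgroup G).subgroupOf K := ⟨⟨x, hPK hx⟩, hx⟩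
  have h3 := transfer_eq_pow_of ((powMonoidHom 2).comp φ) y fun k a ha => by
    obtain ⟨n, hn, p, hp, e⟩ := (mem_sup_of_normal_left (s := N) (t := P)).1 a.2
    have m : (a : G)⁻¹ * x ^ k * a ∈ (P : Subgroup G) := ha
    rw [← e] at m
    have m2 : n⁻¹ * x ^ k * n * (x ^ k)⁻¹ ∈ (P : Subgroup G) ⊓ N := ⟨by
      have := mul_mem (mul_mem (mul_mem hp m) (inv_mem hp)) (inv_mem (pow_mem hx k))
      change _ ∈ (P : Subgroup G)
      convert this using 1; group, by
      have := mul_mem (inv_mem hn) (‹N.Normal›.conj_mem n hn (x ^ k))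
      simpa [mul_assoc] using this⟩
    have e1 : φ ⟨_, ha⟩ = Abelianization.of ((⟨p, hp⟩ : (P : Subgroup G))⁻¹ * (⟨_, m2.1⟩ * ⟨x, hx⟩ ^ k) * ⟨p, hp⟩) :=
      congrArg Abelianization.of (Subtype.ext (by
        change (a : G)⁻¹ * x ^ k * a = p⁻¹ * (n⁻¹ * x ^ k * n * (x ^ k)⁻¹ * x ^ k) * p
        rw [← e]; group))
    have e2 : Abelianization.of (⟨_, m2.1⟩ : (P : Subgroup G)) ^ 2 = 1 := by
      rw [← map_pow, ker]
      exact commutator_mono inf_le_left inf_le_left (hQ _ m2)
    change φ _ ^ 2 = (Abelianization.of (⟨x, hx⟩ : (P : Subgroup G)) ^ 2) ^ k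
    rw [e1, map_mul, map_mul, map_inv, inv_mul_cancel_comm, map_mul, mul_pow, e2, one_mul, map_pow, ← pow_mul,
      ← pow_mul, mul_comm]
  have h4 : MonoidHom.transfer ((powMonoidHom 2).comp φ) y = V y ^ 2 := by
    letI : Fintype (Quotient (MulAction.orbitRel (zpowers (y : K)) (K ⧸ (P : Subgroup G).subgroupOf K))) :=
      Fintype.ofFinite _
    rw [MonoidHom.transfer_eq_prod_quotient_orbitRel_zpowers_quot,
      MonoidHom.transfer_eq_prod_quotient_orbitRel_zpowers_quot, ← Finset.prod_pow]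
    rfl
  have h5 := orderOf_dvd_of_pow_eq_one (h3.symm.trans (h4.trans h2))
  obtain ⟨k, hk⟩ := IsPGroup.iff_orderOf.1 hA (((powMonoidHom 2).comp φ) y)
  have h6 := orderOf_eq_one_iff.1 (Nat.eq_one_of_dvd_coprimes (Nat.Coprime.pow_left k
    (Nat.prime_two.coprime_iff_not_dvd.2 fun h => P.not_dvd_index
      (h.trans (relIndex_dvd_index_of_le hPK)))) hk.dvd h5)
  exact (ker (⟨x, hx⟩ ^ 2)).1 ((map_pow _ _ _).trans h6)

end Cfsg.Agent.S4582
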