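import Cfsg.Statements.S4583
import Cfsg.Agent.C3.Sig

set_option autoImplicit false
open Cfsg

namespace Cfsg.Agent.S4583

open H3 H2 C3 B Subgroup Finset

theorem aux {G : Type*} [Group G] [Finite G] {N H : Subgroup G} [N.Normal] [Fintype N] {p j : ℕ} [Fact p.Prime]
    {M : Ideal AlgInt} [PMod p M] (h : N ≤ H) (c : N.relIndex H = p ^ j) (hH : ¬ p ∣ H.index)
    {θ : IrrCharacter N} (hθ : θ ∈ principalBlock M N) (hdeg : ¬ p ∣ charDegree (θ : N → ℂ)) {η : IrrCharacter H}
    (a : ∀ n : N, (η : H → ℂ) (inclusion h n) = (θ : N → ℂ) n) : ∃ χ ∈ principalBlock M G,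
      ¬ p ∣ charDegree (χ : G → ℂ) ∧ classInner (fun n : N => (χ : G → ℂ) n) (θ : N → ℂ) ≠ 0 := by
  have := Fintype.ofFinite H
  have := Fintype.ofFinite (N.subgroupOf H)
  let e := subgroupOfEquivOfLe h
  have b : (fun n : N.subgroupOf H => (η : H → ℂ) n) = (B.cmp e θ : _ → ℂ) := funext fun n => a (e n)
  have k : lam M (oneIrr H : H → ℂ) = lam M (η : H → ℂ) :=
    lam_eq_of_under (N := N.subgroupOf H) (θ := oneIrr _) (θ' := B.cmp e θ) (fun g => reg_mem_of_index c)
      ((lam_cmp_eq_iff e (χ := oneIrr N)).2 (isPBlock_principal.lam_eq oneIrr_mem hθ))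
      ((oneIrr _).2.inner_self.trans_ne one_ne_zero) (by rw [b, (B.cmp e θ).2.inner_self]; exact one_ne_zero)
  obtain ⟨χ, d, f, i⟩ := exists_over_principal (M := M) (N := H) (η := η) hH
    (isPBlock_principal.mem_iff oneIrr_mem |>.2 k)
    (by rwa [charDegree_eq (n := charDegree (θ : N → ℂ)) (by rw [θ.2.cast_charDegree, ← a, map_one])])
  exact ⟨χ, d, f, inner_comp_ne_zero (inclusion h) (χ.2.isCharacter.res H) η.2 θ.2.isCharacter i
    (by rw [funext a, θ.2.inner_self]; exact one_ne_zero)⟩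

/-- Let N be a normal subgroup of the finite group G, p a prime, M a maximal ideal of the algebraic integers containing p, and P a Sylow p-subgroup of G. Let θ be an irreducible character of N of degree prime to p lying in the principal p-block of N, and suppose θ extends to the subgroup NP (some irreducible character of NP restricts to θ). Then some irreducible character χ of G of degree prime to p in the principal p-block of G lies over θ (θ is a constituent of the restriction of χ to N). -/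
theorem result {G : Type*} [Group G] [Finite G] (N : Subgroup G) [N.Normal] (p : ℕ) [Fact p.Prime] (M : Ideal Cfsg.AlgInt) (hM : Cfsg.IsPModular p M) (P : Sylow p G)
    (θ : Cfsg.IrrCharacter N) (hθ : θ ∈ Cfsg.principalBlock M N) (hdeg : ¬ p ∣ Cfsg.charDegree (θ : N → ℂ))
    (hext : ∃ η : Cfsg.IrrCharacter ↥(N ⊔ (P : Subgroup G)), ∀ n : N, (η : ↥(N ⊔ (P : Subgroup G)) → ℂ) (Subgroup.inclusion le_sup_left n) = (θ : N → ℂ) n) :
    ∃ χ : Cfsg.IrrCharacter G, χ ∈ Cfsg.principalBlock M G ∧ ¬ p ∣ Cfsg.charDegree (χ : G → ℂ) ∧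
      haveI := Fintype.ofFinite N; Cfsg.classInner (fun n : N => (χ : G → ℂ) n) (θ : N → ℂ) ≠ 0 := by
  have : PMod p M := ⟨hM⟩
  obtain ⟨η, a⟩ := hext
  obtain ⟨j, c⟩ := H1.exists_relIndex_eq_pow P.2 N
  letI := Fintype.ofFinite N
  exact aux le_sup_left ((relIndex_sup_left ..).trans c)
    (fun d => P.not_dvd_index (d.trans (index_dvd_of_le le_sup_right))) hθ hdeg a

end Cfsg.Agent.S4583
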