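import Cfsg.Statements.S4585
import Cfsg.Agent.H9.MxC
import Cfsg.Agent.H2.Crit

set_option autoImplicit false
open Cfsg

namespace Cfsg.Agent.S4585

open Cfsg.Agent Cfsg.Agent.H9
open scoped commutatorElement

/-- Let p be a prime and P a group of order p^4. Then P' has index p^2 in P if and only if P has maximal nilpotency class, that is, nilpotency class exactly 3. -/
theorem result {P : Type*} [Group P] [Finite P] (p : ℕ) [Fact p.Prime] (hP : Nat.card P = p ^ 4) :
    (commutator P).index = p ^ 2 ↔ Group.nilpotencyClass P = 3 := by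
  have hp : p.Prime := Fact.out
  have hG : IsPGroup p P := .of_card hP
  have := hG.isNilpotent
  refine ⟨fun e => ?_, fun e => L.index_commutator_of_maxClass (n := 4) (by omega) hP e⟩
  refine (MC.mk hP (by omega) fun c => ?_).cl
  have hZ : commutator P ≤ Subgroup.center P := fun z hz => Subgroup.mem_center_iff.2 fun g => by
    have := Nf_cm1 g (i := 2) hz
    rw [show Reg.Nf P (2 + 1) = ⊥ from c, Subgroup.mem_bot] at this
    exact commutatorElement_eq_one_iff_mul_comm.1 this
  have h1 := (commutator P).card_mul_index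
  rw [e, hP, show p ^ 4 = p ^ 2 * p ^ 2 by ring] at h1
  have h2 := Nat.eq_of_mul_eq_mul_right (pow_pos hp.pos 2) h1
  have key : ∀ a b : P, a ^ p ∈ commutator P →
      Subgroup.zpowers a ⊔ Subgroup.zpowers b ⊔ Subgroup.center P ≠ ⊤ := by
    intro a b ha e
    have hc : ⁅a, b⁆ ∈ Subgroup.center P := hZ (Subgroup.commutator_mem_commutator (Subgroup.mem_top a) (Subgroup.mem_top b))
    have : (Subgroup.zpowers ⁅a, b⁆).Normal := ⟨fun x hx g => by
      rwa [Subgroup.mem_center_iff.1 (Subgroup.zpowers_le.2 hc hx) g, mul_inv_cancel_right]⟩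
    have h3 := Subgroup.card_le_of_le (L.commutator_le_of_generators e (Subgroup.mem_zpowers _))
    have h4 : ⁅a, b⁆ ^ p = 1 := by
      rw [← H2.commElt_pow_left (Subgroup.mem_center_iff.1 hc a), commutatorElement_eq_one_iff_mul_comm]
      exact (Subgroup.mem_center_iff.1 (hZ ha) b).symm
    rw [h2, Nat.card_zpowers] at h3
    have := h3.trans (Nat.le_of_dvd hp.pos (orderOf_dvd_of_pow_eq_one h4))
    have := hp.one_lt
    nlinarith
  have pw : ∀ x : P, x ^ p ∈ commutator P := by
    intro x
    by_contra c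
    have h1 : Nat.card (P ⧸ commutator P) = p ^ 2 := e
    have h2 : orderOf (QuotientGroup.mk x : P ⧸ commutator P) ∣ p ^ 2 := h1 ▸ orderOf_dvd_natCard _
    have h3 : ¬ orderOf (QuotientGroup.mk x : P ⧸ commutator P) ∣ p ^ 1 := by
      rw [orderOf_dvd_iff_pow_eq_one, pow_one, ← QuotientGroup.mk_pow, QuotientGroup.eq_one_iff]
      exact c
    have := isCyclic_of_orderOf_eq_card _ ((Nat.eq_prime_pow_of_dvd_least_prime_pow hp h3 h2).trans h1.symm)
    have := L.isCyclic_of_isCyclic_abelianization (G := P)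
    refine key 1 1 (by simp [one_mem]) (top_le_iff.1 fun a _ => Subgroup.mem_sup_right ?_)
    exact Subgroup.mem_center_iff.2 fun g => mul_comm' g a
  have lt := fun {A B : Subgroup P} (e : A < B) => L.mul_card_le_of_lt (hG.to_subgroup _) e
  obtain ⟨a, -, ha⟩ := SetLike.exists_of_lt (lt_top_iff_ne_top.2 (key 1 1 (pw 1)))
  obtain ⟨b, -, hb⟩ := SetLike.exists_of_lt (lt_top_iff_ne_top.2 (key a a (pw a)))
  rw [sup_idem] at hb
  have c1 := lt (show Subgroup.center P < Subgroup.zpowers a ⊔ Subgroup.center P from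
    lt_of_le_of_ne le_sup_right fun e => ha (Subgroup.mem_sup_right
      (e.ge (Subgroup.mem_sup_left (Subgroup.mem_zpowers a)))))
  have c2 := lt (show Subgroup.zpowers a ⊔ Subgroup.center P <
      Subgroup.zpowers a ⊔ Subgroup.zpowers b ⊔ Subgroup.center P from
    lt_of_le_of_ne (sup_le_sup_right le_sup_left _) fun e => hb
      (e.ge (Subgroup.mem_sup_left (Subgroup.mem_sup_right (Subgroup.mem_zpowers b)))))
  have c3 := Subgroup.card_le_of_le hZ
  refine key a b (pw a) (Subgroup.eq_of_le_of_card_ge le_top ?_)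
  rw [Subgroup.card_top, hP, show p ^ 4 = p * (p * p ^ 2) by ring, ← h2]
  exact (Nat.mul_le_mul_left _ ((Nat.mul_le_mul_left _ c3).trans c1)).trans c2

end Cfsg.Agent.S4585
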