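import Cfsg.Statements.S4586
import Cfsg.Agent.H2.PNil

set_option autoImplicit false
open Cfsg

namespace Cfsg.Agent.S4586

open Cfsg.Agent Cfsg.Agent.H2 Subgroup
open scoped Pointwise commutatorElement

/-- Let p be a prime, P a finite p-group and N a normal subgroup of P of index p. For x ∈ P write c(x) for the number of elements n of N whose commutator x n x⁻¹ n⁻¹ lies in the derived subgroup N' (so c(x)/#N' is the order of the centralizer of x acting on N/N'). Then [P : P'] = p² if and only if c(x) = p·#N' for every x ∈ P outside N, and also if and only if c(x) = p·#N' for some x ∈ P outside N. -/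
theorem result {P : Type*} [Group P] [Finite P] (p : ℕ) [Fact p.Prime] (hP : IsPGroup p P) (N : Subgroup P) [N.Normal] (hN : N.index = p) :
    ((commutator P).index = p ^ 2 ↔ ∀ x : P, x ∉ N →
        Nat.card {n : N // x * n * x⁻¹ * (n : P)⁻¹ ∈ (commutator N).map N.subtype} = p * Nat.card (commutator N)) ∧
    ((commutator P).index = p ^ 2 ↔ ∃ x : P, x ∉ N ∧
        Nat.card {n : N // x * n * x⁻¹ * (n : P)⁻¹ ∈ (commutator N).map N.subtype} = p * Nat.card (commutator N)) := by
  have key : ∀ x : P, x ∉ N → Nat.card {n : N // x * n * x⁻¹ * (n : P)⁻¹ ∈ (_root_.commutator N).map N.subtype} * p =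
      (_root_.commutator P).index * Nat.card (_root_.commutator N) := by
    intro x hx
    letI : CommGroup (N ⧸ _root_.commutator N) := inferInstanceAs (CommGroup (Abelianization N))
    let π := QuotientGroup.mk' (_root_.commutator N)
    let f : N →* N ⧸ _root_.commutator N := (π.comp (MulAut.conjNormal x).toMonoidHom) * π⁻¹
    have hf : ∀ n : N, f n = π (MulAut.conjNormal x n * n⁻¹) := fun n => by simp [f]
    have e1 : Nat.card {n : N // x * n * x⁻¹ * (n : P)⁻¹ ∈ (_root_.commutator N).map N.subtype} = Nat.card f.ker := by
      refine Nat.card_congr (Equiv.subtypeEquivRight fun n => ?_)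
      rw [MonoidHom.mem_ker, hf]
      refine Iff.trans ?_ (QuotientGroup.eq_one_iff _).symm
      exact mem_map_iff_mem N.subtype_injective (x := MulAut.conjNormal x n * n⁻¹)
    have hT : N ⊔ zpowers x = ⊤ := by
      have h1 := relIndex_mul_index (le_sup_left : N ≤ N ⊔ zpowers x)
      rw [hN] at h1
      rcases (Nat.dvd_prime Fact.out).1 (Dvd.intro_left _ h1) with h | h
      · exact index_eq_one.1 h
      · rw [h] at h1
        have := relIndex_eq_one.1 (Nat.eq_of_mul_eq_mul_right (Fact.out : p.Prime).pos (h1.trans (one_mul p).symm))
        exact absurd (this (mem_sup_right (mem_zpowers x))) hx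
    have hle : _root_.commutator P ≤ N := by
      haveI : IsCyclic (P ⧸ N) := isCyclic_of_prime_card (p := p) hN
      exact Normal.quotient_commutative_iff_commutator_le.1 inferInstance
    have e2 : (f.range.comap π).map N.subtype = _root_.commutator P := by
      refine le_antisymm ?_ ?_
      · rintro _ ⟨m, ⟨n, hn⟩, rfl⟩
        rw [hf] at hn
        have h1 : ((MulAut.conjNormal x n * n⁻¹ : N) : P) ∈ _root_.commutator P :=
          commutator_mem_commutator (mem_top x) (mem_top (n : P))
        have h2 := QuotientGroup.eq.1 hn
        have h3 : (_root_.commutator N).map N.subtype ≤ _root_.commutator P := by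
          rw [_root_.commutator_def, map_commutator]; exact commutator_mono le_top le_top
        have := mul_mem h1 (h3 (mem_map_of_mem _ h2))
        rwa [coe_subtype, ← coe_mul, mul_inv_cancel_left] at this
      · set W := (f.range.comap π).map N.subtype with hW
        have hNW : ∀ a ∈ N, ∀ b ∈ N, a * b * a⁻¹ * b⁻¹ ∈ W := fun a ha b hb =>
          ⟨⁅(⟨a, ha⟩ : N), (⟨b, hb⟩ : N)⁆, ⟨1, by
            rw [map_one]; exact ((QuotientGroup.eq_one_iff _).2
              (commutator_mem_commutator (mem_top _) (mem_top _))).symm⟩, rfl⟩
        have hxW : ∀ b ∈ N, x * b * x⁻¹ * b⁻¹ ∈ W := fun b hb =>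
          ⟨MulAut.conjNormal x ⟨b, hb⟩ * (⟨b, hb⟩ : N)⁻¹, ⟨⟨b, hb⟩, hf _⟩, rfl⟩
        have hWN : W ≤ N := map_subtype_le _
        haveI : W.Normal := by
          rw [← normalizer_eq_top_iff, eq_top_iff, ← hT]
          refine sup_le (fun a ha => ?_) (zpowers_le.2 ?_)
          · exact mem_normalizer_of_cj_le (cj_le_iff_forall.2 fun w hw => by
              simpa using mul_mem (hNW a ha w (hWN hw)) hw)
          · exact mem_normalizer_of_cj_le (cj_le_iff_forall.2 fun w hw => by
              simpa using mul_mem (hxW w (hWN hw)) hw)
        let g := QuotientGroup.mk' W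
        have h1 : ∀ a : P, ∀ b ∈ N, Commute (g a) (g b) := by
          intro a b hb
          have : N ⊔ zpowers x ≤ (centralizer {g b}).comap g := by
            refine sup_le (fun a ha => ?_) (zpowers_le.2 ?_)
            · refine mem_centralizer_singleton_iff.2 (commutatorElement_eq_one_iff_mul_comm.1 ?_)
              rw [← map_commutatorElement]; exact (QuotientGroup.eq_one_iff _).2 (hNW a ha b hb)
            · refine mem_centralizer_singleton_iff.2 (commutatorElement_eq_one_iff_mul_comm.1 ?_)
              rw [← map_commutatorElement]; exact (QuotientGroup.eq_one_iff _).2 (hxW b hb)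
          exact mem_centralizer_singleton_iff.1 (this (hT ▸ mem_top a))
        have h2 : ∀ a : P, Commute (g a) (g x) := by
          intro a
          have : N ⊔ zpowers x ≤ (centralizer {g x}).comap g :=
            sup_le (fun a ha => mem_centralizer_singleton_iff.2 (h1 x a ha).symm)
              (zpowers_le.2 (mem_centralizer_singleton_iff.2 rfl))
          exact mem_centralizer_singleton_iff.1 (this (hT ▸ mem_top a))
        rw [_root_.commutator_def, commutator_le]
        intro a _ b _
        have : N ⊔ zpowers x ≤ (centralizer {g a}).comap g :=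
          sup_le (fun c hc => mem_centralizer_singleton_iff.2 (h1 a c hc).symm)
            (zpowers_le.2 (mem_centralizer_singleton_iff.2 (h2 a).symm))
        have h3 := mem_centralizer_singleton_iff.1 (this (hT ▸ mem_top b))
        rw [← QuotientGroup.eq_one_iff]
        change g _ = 1
        rw [map_commutatorElement, commutatorElement_eq_one_iff_mul_comm, h3]
    have e3 : (_root_.commutator P).relIndex N = f.range.index := by
      rw [← e2, relIndex, show ((f.range.comap π).map N.subtype).subgroupOf N = f.range.comap π from
        comap_map_eq_self_of_injective N.subtype_injective _,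
        index_comap_of_surjective _ (QuotientGroup.mk'_surjective _)]
    have e4 := relIndex_mul_index hle
    have e5 := f.ker.card_mul_index
    rw [index_ker] at e5
    have e6 := f.range.card_mul_index
    have e7 := card_eq_card_quotient_mul_card_subgroup (_root_.commutator N)
    rw [e1, ← e4, hN, e3]
    have h0 : 0 < Nat.card f.range := Nat.card_pos
    refine Nat.eq_of_mul_eq_mul_left h0 ?_
    calc _ = (Nat.card f.ker * Nat.card f.range) * p := by ring
      _ = (Nat.card f.range * f.range.index) * Nat.card (_root_.commutator N) * p := by rw [e5, e6, e7]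
      _ = _ := by ring
  have h0 : 0 < Nat.card (_root_.commutator N) := Nat.card_pos
  have hp : 0 < p := (Fact.out : p.Prime).pos
  have k2 : ∀ x : P, x ∉ N → ((_root_.commutator P).index = p ^ 2 ↔
      Nat.card {n : N // x * n * x⁻¹ * (n : P)⁻¹ ∈ (_root_.commutator N).map N.subtype} = p * Nat.card (_root_.commutator N)) := by
    intro x hx
    have := key x hx
    constructor
    · intro h
      rw [h] at this
      exact Nat.eq_of_mul_eq_mul_right hp (by rw [this]; ring)
    · intro h
      rw [h] at this
      exact Nat.eq_of_mul_eq_mul_right h0 (by rw [← this]; ring)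
  obtain ⟨x, hx⟩ : ∃ x : P, x ∉ N := by
    by_contra h
    push Not at h
    rw [(eq_top_iff' N).2 h, index_top] at hN
    exact (Fact.out : p.Prime).one_lt.ne hN
  exact ⟨⟨fun h y hy => (k2 y hy).1 h, fun h => (k2 x hx).2 (h x hx)⟩,
    ⟨fun h => ⟨x, hx, (k2 x hx).1 h⟩, fun ⟨y, hy, h⟩ => (k2 y hy).2 h⟩⟩

end Cfsg.Agent.S4586
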