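import Cfsg.Statements.S4588
import Cfsg.Agent.B.Quad

set_option autoImplicit false
open Cfsg

namespace Cfsg.Agent.S4588

open Cfsg.Agent Cfsg.Agent.B Cfsg.Agent.H2 Cfsg.Agent.H3 Subgroup MonoidAlgebra
open scoped Pointwise commutatorElement

/-- Let G be a finite group, p a prime and M a maximal ideal of the algebraic integers containing p. If some p-element x of G (possibly x = 1) has centralizer whose order has p-part at most p², then the principal p-block of G contains at most p² irreducible characters of degree prime to p. -/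
theorem result {G : Type*} [Group G] [Finite G] (p : ℕ) [Fact p.Prime] (M : Ideal Cfsg.AlgInt) (hM : Cfsg.IsPModular p M)
    (hx : ∃ x : G, (∃ k : ℕ, orderOf x = p ^ k) ∧ (Nat.card (Subgroup.centralizer ({x} : Set G))).factorization p ≤ 2) :
    Nat.card {χ : Cfsg.IrrCharacter G // χ ∈ Cfsg.principalBlock M G ∧ ¬ p ∣ Cfsg.charDegree (χ : G → ℂ)} ≤ p ^ 2 := by
  have : PMod p M := ⟨hM⟩
  classical
  obtain ⟨x, hx, h⟩ := hx
  have hb : IsInducedBlock M (centralizer {x}) (principalBlock M _) (principalBlock M G) :=
    (third_main (inducedBlockDefined_centralizer hx isPBlock_principal)).2 rfl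
  have h1 := (blockDefect_le (p := p) (principalBlock M (centralizer ({x} : Set G)))).trans h
  have hp1 : 1 ≤ p := (Fact.out : p.Prime).pos
  by_cases h2 : x = 1
  · rw [h2, centralizer_one_eq, card_top] at h
    have h3 := (blockDefect_le (p := p) (principalBlock M G)).trans h
    exact ((Nat.card_le_card_of_injective (fun χ => (⟨χ.1, χ.2.1⟩ : principalBlock M G))
      fun _ _ e => Subtype.ext (by simpa using e)).trans
      (IsPBlock.card_le_of_defect_le_two isPBlock_principal h3)).trans (Nat.pow_le_pow_right hp1 h3)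
  obtain ⟨D, hD⟩ := IsPBlock.exists_defectGroup hb.1
  rw [Nat.card_eq_fintype_card, Fintype.card_subtype]
  refine (card_le_of_cyclic hx hb.1 hD (isCyclic_of_defect hx h2 hb.1 hD h1) _ fun χ hχ e => ?_).trans
    (Nat.pow_le_pow_right hp1 h1)
  obtain ⟨h3, h4⟩ := (Finset.mem_filter.1 hχ).2
  have h5 := blockHeight_eq_zero_of_not_dvd (B := principalBlock M G) h4
  exact (IsInducedBlock.red_ctr_ne_zero_iff hx hb h3 h3).2 ⟨h5, h5⟩ (by simp [e])

end Cfsg.Agent.S4588
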