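import Cfsg.Statements.S4591
import Cfsg.Agent.C3.PKer

set_option autoImplicit false
open Cfsg

namespace Cfsg.Agent.S4591

open H3 H2 C3 B Subgroup Finset

/-- Let G be a finite group, p a prime and P a Sylow p-subgroup, and let N be the largest normal subgroup of G in which P has trivial centralizer (N is normal with C_N(P) = 1 and contains every normal subgroup with that property). Then the intersection of the kernels of the irreducible characters of G of degree prime to p is the normal core in G of the subgroup N·P' (P' the derived subgroup of P). In particular, when G has no nontrivial normal subgroup of order prime to p, that intersection is the normal core of P'. -/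
theorem result {G : Type*} [Group G] [Finite G] (p : ℕ) [Fact p.Prime] (P : Sylow p G) (N : Subgroup G) [N.Normal]
    (hN : N ⊓ Subgroup.centralizer ((P : Subgroup G) : Set G) = ⊥)
    (hmax : ∀ L : Subgroup G, L.Normal → L ⊓ Subgroup.centralizer ((P : Subgroup G) : Set G) = ⊥ → L ≤ N) :
    {g : G | ∀ χ : Cfsg.IrrCharacter G, ¬ p ∣ Cfsg.charDegree (χ : G → ℂ) → (χ : G → ℂ) g = (χ : G → ℂ) 1} =
      ((N ⊔ ⁅(P : Subgroup G), (P : Subgroup G)⁆).normalCore : Set G) := by
  classical
  have hp : p.Prime := Fact.out
  set K := ⨅ χ : {χ : IrrCharacter G // ¬ p ∣ charDegree (χ : G → ℂ)}, charKer (χ.1 : G → ℂ) with hK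
  have : K.Normal := normal_iInf_normal fun χ => χ.1.2.isClassFunction.charKer_normal
  have a : ∀ χ, IsIrrCharacter G χ → ¬ p ∣ charDegree χ → K ≤ charKer χ := fun χ a b => iInf_le_of_le ⟨⟨χ, a⟩, b⟩ le_rfl
  suffices K = (N ⊔ ⁅(P : Subgroup G), (P : Subgroup G)⁆).normalCore by
    rw [← this]
    ext g
    simp [hK, mem_iInf, IsIrrCharacter.mem_charKer_iff (Subtype.prop _)]
  refine le_antisymm (normal_le_normalCore.2 ?_) (le_iInf fun ⟨χ, b⟩ => ?_)
  · rw [← ((sylIn_top P).inf_normal' (N := K) le_normalizer_of_normal le_top).resOf_sup]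
    refine sup_le_sup (hmax _ inferInstance (by_contra fun b => ?_)) fun x b => ?_
    · obtain ⟨χ, c, d, e⟩ := exists_not_le_charKer P b (resOf_resOf p K)
      exact e ((resOf_le p K).trans (a χ c d))
    have := Fintype.ofFinite P
    rw [← map_subtype_commutator]
    refine ⟨⟨x, b.1⟩, mem_of_forall_irr _ fun η c d => ?_, rfl⟩
    obtain ⟨χ, e, f, i⟩ := exists_over_not_dvd P.not_dvd_index c.isCharacter (by
      rw [charDegree_eq (n := 1) (by simpa using c.degree_eq_one_iff.2 d)]; exact hp.not_dvd_one)
    exact apply_of_mem_charKer ((e.isCharacter.res _).charKer_le_of_inner c i fun y => a χ e f b.2 y)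
  have := Fintype.ofFinite ↥(N ⊔ P)
  obtain ⟨ψ, c, d, e⟩ := exists_constituent (χ.2.isCharacter.res (N ⊔ P)) b
  have f := (le_charKer_of_inner le_sup_left χ.2 c e).1 (le_charKer_of_fpf P.2 hN χ.2 b)
  obtain ⟨j, i⟩ := H1.exists_relIndex_eq_pow P.2 N
  have l := c.degree_eq_one_iff.1 (by
    rw [← c.cast_charDegree, ((hp.coprime_iff_not_dvd.2 d).symm.pow_right j).eq_one_of_dvd ((deg_dvd_ker c).trans
      ((index_dvd_of_le f).trans (by rw [← i, ← relIndex_sup_left]; rfl))), Nat.cast_one])
  refine (le_charKer_of_inner ((normalCore_le _).trans (sup_le_sup_left (commutator_le_self _) _)) χ.2 c e).2 ?_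
  refine (comap_mono ((normalCore_le _).trans (sup_le ?_ ?_))).trans
    (comap_map_eq_self_of_injective (subtype_injective _) _).le
  · exact fun x m => ⟨⟨x, mem_sup_left m⟩, f m, rfl⟩
  · exact (commutator_mono le_sup_right le_sup_right).trans ((map_subtype_commutator _).ge.trans (map_mono l))

end Cfsg.Agent.S4591
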