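import Cfsg.Statements.S4593
import Cfsg.Agent.H2.GAut
import Cfsg.Agent.H2.ZS
import Cfsg.Agent.H2.Hol
import Cfsg.Agent.H1.Misc

set_option autoImplicit false
open Cfsg

namespace Cfsg.Agent.S4593

open H2 Subgroup SemidirectProduct

theorem aux {G : Type*} [Group G] [Finite G] {T K : Subgroup G} [K.Normal] (hT : SylIn 2 T ⊤) [IsMulCommutative T]
    (hO : pPrimeCore 2 G = ⊥) (hK : commutator G ≤ K) {a : G} (ha : a ∈ T) : ∃ c ∈ center G, ∃ k ∈ K, c * k = a := by
  have a := (le_centralizer_sup_commutator (A := T) le_rfl (hT.coprime.coprime_dvd_right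
    ((relIndex_dvd_of_le_left _ (le_centralizer T)).trans (Dvd.intro _ (relIndex_mul_relIndex _ _ _ le_normalizer
      le_top))))).trans (sup_le_sup_left ((commutator_mono le_top le_top).trans hK) _) ha
  obtain ⟨c, b, k, d, rfl⟩ := mem_sup_of_normal_right.1 a
  obtain ⟨n, e⟩ := isPGroup_iff_forall.1 hT.pgrp c b.1
  refine ⟨c, mem_center_of_fixed n hT hO b.1 e fun j g f => ?_, k, d, rfl⟩
  obtain ⟨m, -, i, l⟩ := hT.exists_normalizer_conj (mem_top g) (le_centralizer T (pow_mem b.1 j)) (le_centralizer T f)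
  rw [← l, (pow_mem b j).2 m i, mul_inv_cancel_right]

/-- Let G be a finite group with trivial centre and no nontrivial normal subgroup of odd order, whose Sylow 2-subgroups are abelian, and let P be a Sylow 2-subgroup. Every automorphism of G of 2-power order that fixes P elementwise is inner. -/
theorem result {G : Type*} [Group G] [Finite G] (hZ : Subgroup.center G = ⊥) (hcore : Cfsg.pPrimeCore 2 G = ⊥) (P : Sylow 2 G) (hab : IsMulCommutative (P : Subgroup G))
    (α : MulAut G) (h2 : ∃ j : ℕ, orderOf α = 2 ^ j) (hfix : ∀ x ∈ (P : Subgroup G), α x = x) :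
    ∃ g : G, ∀ x : G, α x = g * x * g⁻¹ := by
  obtain ⟨j, hj⟩ := h2
  let φ := (zpowers α).subtype
  let a : zpowers α := ⟨α, mem_zpowers α⟩
  have b : sr φ ⊤ = zpowers (inr a) := by
    rw [← sr_zpowers, (eq_top_iff' (zpowers a)).2 fun ⟨_, n, e⟩ => ⟨n, Subtype.ext e⟩]
  have c : (inr a : G ⋊[φ] zpowers α) ∈ centralizer (sl φ P) := inr_mem_centralizer_sl.2 hfix
  have d := isPGroup_zpowers_of_orderOf hj
  have e : SylIn 2 (sl φ P ⊔ sr φ ⊤) (sl φ ⊤ ⊔ sr φ ⊤) := ((sylIn_top P).map_inj _ inl_injective).sup_of_norm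
    ((d.to_subgroup ⊤).map inr) (le_normalizer_sl_top _) (b.le.trans ((zpowers_le.2 c).trans (centralizer_le_normalizer _)))
  rw [sl_sup_sr, b, sup_comm] at e
  have := isMulCommutative_sl (φ := φ).2 hab
  have := H1.isMulCommutative_zpowers_sup_of_le_centralizer c
  have f : sl φ ⊤ = rightHom.ker := by rw [← range_inl_eq_ker_rightHom, MonoidHom.range_eq_map]
  have hO : H8.Opp 2 (sl φ ⊤) = ⊥ := by
    rw [H8.Opp, ← H8.map_Opp_injective 2 _ inl_injective, H8.Opp_top, hcore, Subgroup.map_bot]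
  obtain ⟨c, i, _, ⟨k, -, rfl⟩, l⟩ := aux (K := sl φ ⊤) e (by
    rw [← H8.Opp_top, eq_bot_iff, ← hO]
    refine H8.le_Opp (le_trans (fun x m => mem_pResidual ((H8.Opp_coprime 2 _).coprime_dvd_left
      (Subgroup.orderOf_dvd_natCard _ m))) ((pResidual_le_ker _ d).trans f.ge)) (le_top.trans (H8.le_normalizer_Opp 2 ⊤))
      (H8.Opp_coprime 2 _)) ((@Abelianization.commutator_subset_ker _ _ _ IsCyclic.commGroup _).trans f.ge)
    (mem_sup_left (mem_zpowers _))
  refine ⟨k, fun x => inl_injective (φ := φ) ((inr_conj_inl a x).symm.trans ?_)⟩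
  rw [← l, mul_inv_rev, ← mul_assoc, mul_assoc c, mul_assoc c, ← mem_center_iff.1 i]
  simp

end Cfsg.Agent.S4593
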