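import Cfsg.Statements.S4602
import Cfsg.Agent.H8.PLen
import Cfsg.Agent.H8.Cop
import Cfsg.Agent.H1.Cores

set_option autoImplicit false
open Cfsg

namespace Cfsg.Agent.S4602

open Cfsg.Agent Cfsg.Agent.H2 Subgroup
open scoped Pointwise commutatorElement
theorem mem_core {G : Type*} [Group G] [Finite G] {p : ℕ} [Fact p.Prime] {y : G}
    (h : y ∈ pPrimePCore p G) (hc : (orderOf y).Coprime p) : y ∈ pPrimeCore p G :=
  (QuotientGroup.eq_one_iff y).1 (eq_one_of_mem_pgroup_of_coprime (H1.isPGroup_pCore p _) h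
    (hc.coprime_dvd_left (orderOf_map_dvd (QuotientGroup.mk' _) y)))

theorem cop {G : Type*} [Group G] {p q : ℕ} [Fact p.Prime] [Fact q.Prime] (hpq : p ≠ q) {Q : Subgroup G}
    (hQ : IsPGroup q Q) {y : G} (hy : y ∈ Q) : (orderOf y).Coprime p := by
  obtain ⟨k, hk⟩ := orderOf_eq_pow_of_mem hQ hy
  rw [hk]
  exact ((Nat.coprime_primes Fact.out Fact.out).2 hpq.symm).pow_left _


/-- Let G be a finite p-solvable group and q a prime different from p. Some Sylow p-subgroup of G normalizes some Sylow q-subgroup of G if and only if q does not divide the order of G/O_{p'}(G), the quotient by the largest normal subgroup of order prime to p. -/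
theorem result {G : Type*} [Group G] [Finite G] (p q : ℕ) [Fact p.Prime] [Fact q.Prime] (hpq : p ≠ q) (hsolv : Cfsg.IsPSolvable p G) :
    (∃ (P : Sylow p G) (Q : Sylow q G), (P : Subgroup G) ≤ Subgroup.normalizer ((Q : Subgroup G) : Set G)) ↔ ¬ q ∣ (Cfsg.pPrimeCore p G).index := by
  constructor
  · rintro ⟨P, Q, h⟩
    have : (Q : Subgroup G) ≤ pPrimeCore p G := fun y hy => by
      have h1 : y ∈ pPrimePCore p G := Reg.mem_pPrimePCore hsolv P fun x hx => by
        have h2 : ⁅y, x⁆ ∈ (Q : Subgroup G) := by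
          rw [commutatorElement_def, mul_assoc, mul_assoc, ← mul_assoc x]
          exact mul_mem hy ((mem_normalizer_iff.1 (h hx.1) _).1 (inv_mem hy))
        have hn : (pPrimePCore p G).Normal := Normal.comap inferInstance _
        refine mem_core ?_ (cop hpq Q.isPGroup' h2)
        rw [commutatorElement_def]
        exact mul_mem (hn.conj_mem _ hx.2 _) (inv_mem hx.2)
      exact mem_core h1 (cop hpq Q.isPGroup' hy)
    exact fun h => Q.not_dvd_index (h.trans (index_dvd_of_le this))
  · intro h
    obtain ⟨P⟩ : Nonempty (Sylow p G) := inferInstance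
    obtain ⟨Q, hQ, hn⟩ := H8.exists_inv_sylIn P.isPGroup' (K := pPrimeCore p G)
      (by rw [normalizer_eq_top]; exact le_top) (H1.coprime_pPrimeCore p G) q
    obtain ⟨Q', rfl⟩ := (hQ.trans_of_not_dvd le_top (by rwa [relIndex_top_right])).exists_sylow_top
    exact ⟨P, Q', hn⟩

end Cfsg.Agent.S4602
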