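import Cfsg.Statements.S4601
import Cfsg.Agent.S4602
import Cfsg.Agent.H9.PSolv
import Cfsg.Agent.H1.Hall

set_option autoImplicit false
open Cfsg

namespace Cfsg.Agent.S4601

open Cfsg.Agent Cfsg.Agent.H2 Subgroup
open scoped Pointwise commutatorElement
universe u
theorem aux {p q : ℕ} [Fact p.Prime] [Fact q.Prime] (hpq : p ≠ q) (n : ℕ) :
    ∀ (G : Type u) [Group G] [Finite G], Nat.card G = n → IsPSolvable q G →
    (∀ y : G, (∃ k, y ^ q ^ k = 1) → ∃ P, SylIn p P ⊤ ∧ P ≤ centralizer {y}) →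
    ∃ P Q : Subgroup G, SylIn p P ⊤ ∧ SylIn q Q ⊤ ∧ P ≤ normalizer (Q : Set G) := by
  induction n using Nat.strong_induction_on with | _ n ih => ?_
  intro G _ _ hn hs h
  by_cases h0 : (⊥ : Subgroup G) = ⊤
  · obtain ⟨P, hP⟩ := exists_sylIn p (⊤ : Subgroup G)
    obtain ⟨Q, hQ⟩ := exists_sylIn q (⊤ : Subgroup G)
    exact ⟨P, Q, hP, hQ, le_top.trans (h0.ge.trans bot_le)⟩
  obtain ⟨M, hM, hM0, hMc⟩ := H1.IsPSolvable.exists_step Fact.out hs ⊥ h0
  let f := QuotientGroup.mk' M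
  have hf : Function.Surjective f := QuotientGroup.mk'_surjective M
  obtain ⟨P', Q', hP', hQ', hn'⟩ := ih _ (hn ▸ card_quot_lt hM0.ne') (G ⧸ M) rfl (H9.pSolv_map f hf hs) (by
    rintro y ⟨k, hk⟩
    obtain ⟨y, rfl⟩ := hf y
    obtain ⟨m, e, hm⟩ := exists_lift_ppow f y hk
    obtain ⟨P, hP, hc⟩ := h _ hm
    refine ⟨P.map f, map_top_of_surjective f hf ▸ hP.map f, ?_⟩
    rintro _ ⟨x, hx, rfl⟩
    rw [mem_centralizer_singleton_iff, ← e, ← map_mul, ← map_mul, mem_centralizer_singleton_iff.1 (hc hx)])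
  have hX : P'.comap f ≤ normalizer ((Q'.comap f : Subgroup G) : Set G) :=
    (comap_mono hn').trans (le_normalizer_comap f)
  have up : ∀ (r : ℕ) [Fact r.Prime] (A : Subgroup (G ⧸ M)) (B : Subgroup G), SylIn r A ⊤ →
      SylIn r B (A.comap f) → SylIn r B ⊤ := fun r _ A B hA hB =>
    hB.trans_of_not_dvd le_top (by
      rw [relIndex_top_right, index_comap_of_surjective _ hf, ← relIndex_top_right]; exact hA.not_dvd_relIndex)
  obtain ⟨Q, hQ⟩ := exists_sylIn q (Q'.comap f)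
  rw [relIndex_bot_left] at hMc
  rcases hMc with ⟨k, hk⟩ | hMc
  · obtain ⟨P, hP⟩ := exists_sylIn p (P'.comap f)
    have hY : IsPGroup q (Q'.comap f) := hQ'.pgrp.comap_of_ker_isPGroup f (by
      rw [QuotientGroup.ker_mk']; exact IsPGroup.of_card hk)
    have e := hQ.max _ le_rfl hY hQ.le
    exact ⟨P, Q, up p _ _ hP' hP, up q _ _ hQ' hQ, e ▸ hP.le.trans hX⟩
  have hMn : ∀ A : Subgroup G, A ≤ normalizer (M : Set G) := fun A => by rw [normalizer_eq_top]; exact le_top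
  obtain ⟨R, hR, hQR⟩ := H8.exists_inv_sylIn hQ.pgrp (hMn Q) hMc p
  have hRQ : R ≤ centralizer (Q : Set G) := by
    rw [le_centralizer_iff]
    intro y hy
    obtain ⟨P, hP, hc⟩ := h y (isPGroup_iff_forall.1 hQ.pgrp y hy)
    have h1 := H8.inv_sylIn_centralizer (hQ.pgrp.to_le (zpowers_le.2 hy)) (hMn _) hMc hR
      ((zpowers_le.2 hy).trans hQR) le_rfl le_normalizer
    have h2 := hP.inf_normal' (hMn ⊤) le_top
    have h3 := h1.card_le h2.pgrp (le_inf inf_le_right (inf_le_left.trans (hc.trans (by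
      rw [zpowers_eq_closure, centralizer_closure]))))
    rw [h2.card_eq hR] at h3
    have h4 := inf_eq_left.1 (eq_of_le_of_card_ge inf_le_left h3)
    exact le_centralizer_iff.1 h4 (mem_zpowers y)
  obtain ⟨P, hP, hRP⟩ := exists_sylIn_ge hR.pgrp (hRQ.trans (centralizer_le_normalizer _))
  refine ⟨P, Q, ?_, up q _ _ hQ' hQ, hP.le⟩
  have h1 : P' ≤ (normalizer (Q : Set G)).map f := by
    intro x hx
    obtain ⟨x, rfl⟩ := hf x
    obtain ⟨m, hm, h2⟩ := hQ.frattini (hX hx)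
    have h3 : Q.map f = Q' := by
      have := hQ.map f
      rw [map_comap_eq_self_of_surjective hf] at this
      exact (this.max _ le_rfl hQ'.pgrp this.le).symm
    obtain ⟨y, hy, e⟩ := h3.ge hm
    exact ⟨y * (m⁻¹ * x), mul_mem (le_normalizer hy) h2, by rw [map_mul, e, ← map_mul, mul_inv_cancel_left]⟩
  have h2 : SylIn p (P.map f) ⊤ := (hP.map f).trans_of_not_dvd le_top (hP'.not_dvd_relIndex_of_le h1)
  refine ⟨le_top, hP.pgrp, fun S _ hS hle => le_antisymm (fun s hs => ?_) hle⟩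
  obtain ⟨x, hx, e⟩ := (h2.max _ le_top (hS.map f) (map_mono hle)).le (mem_map_of_mem f hs)
  have h3 := hR.max (S ⊓ M) inf_le_right (hS.to_le inf_le_left) (le_inf (hRP.trans hle) hR.le)
  have h4 : x⁻¹ * s ∈ S ⊓ M := ⟨S.mul_mem (S.inv_mem (hle hx)) hs, QuotientGroup.eq.1 e⟩
  simpa using mul_mem hx (hRP (h3.le h4))


/-- Let p and q be primes and G a finite group that is p-solvable or q-solvable, in which no q-element has conjugacy class size divisible by p. Then some Sylow p-subgroup of G normalizes some Sylow q-subgroup of G. -/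
theorem result {G : Type*} [Group G] [Finite G] (p q : ℕ) [Fact p.Prime] [Fact q.Prime] (hsolv : Cfsg.IsPSolvable p G ∨ Cfsg.IsPSolvable q G)
    (h : ∀ y : G, (∃ k : ℕ, orderOf y = q ^ k) → ¬ p ∣ (Subgroup.centralizer ({y} : Set G)).index) :
    ∃ (P : Sylow p G) (Q : Sylow q G), (P : Subgroup G) ≤ Subgroup.normalizer ((Q : Subgroup G) : Set G) := by
  by_cases hpq : p = q
  · subst hpq
    obtain ⟨P⟩ : Nonempty (Sylow p G) := inferInstance
    exact ⟨P, P, le_normalizer⟩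
  have h' : ∀ y : G, (∃ k, y ^ q ^ k = 1) → ∃ P, SylIn p P ⊤ ∧ P ≤ centralizer {y} := by
    rintro y ⟨k, hk⟩
    obtain ⟨P, hP⟩ := exists_sylIn p (centralizer {y})
    obtain ⟨j, -, hj⟩ := (Nat.dvd_prime_pow Fact.out).1 (orderOf_dvd_of_pow_eq_one hk)
    exact ⟨P, hP.trans_of_not_dvd le_top (by rw [relIndex_top_right]; exact h y ⟨j, hj⟩), hP.le⟩
  rcases hsolv with hs | hs
  · refine (S4602.result p q hpq hs).2 ?_
    obtain ⟨Q⟩ : Nonempty (Sylow q G) := inferInstance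
    have : (Q : Subgroup G) ≤ pPrimeCore p G := fun y hy => by
      obtain ⟨P, hP, hc⟩ := h' y (isPGroup_iff_forall.1 Q.isPGroup' y hy)
      obtain ⟨P, rfl⟩ := hP.exists_sylow_top
      refine S4602.mem_core (Reg.mem_pPrimePCore hs P fun x hx => ?_) (S4602.cop hpq Q.isPGroup' hy)
      rw [commutatorElement_eq_one_iff_mul_comm.2 (mem_centralizer_singleton_iff.1 (hc hx.1)).symm]
      exact one_mem _
    exact fun h => Q.not_dvd_index (h.trans (index_dvd_of_le this))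
  · obtain ⟨P, Q, hP, hQ, hn⟩ := aux hpq _ G rfl hs h'
    obtain ⟨P, rfl⟩ := hP.exists_sylow_top
    obtain ⟨Q, rfl⟩ := hQ.exists_sylow_top
    exact ⟨P, Q, hn⟩

end Cfsg.Agent.S4601
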