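import Cfsg.Statements.S4604
import Cfsg.Agent.B.Fong

set_option autoImplicit false
open Cfsg

namespace Cfsg.Agent.S4604

open Cfsg.Agent Cfsg.Agent.B Cfsg.Agent.H2 Cfsg.Agent.H3 Cfsg.Agent.L Subgroup MonoidAlgebra
open scoped Pointwise commutatorElement

/-- Let G be a finite group, p a prime and p^a the p-part of the order of G. Let x, y ∈ G and let x′, y′ be their p-regular parts: x′ has order prime to p, commutes with x·x′⁻¹, and x·x′⁻¹ has p-power order (likewise for y). Then x′ and y′ are conjugate in G if and only if for every irreducible character χ of G the algebraic integer χ(x)^(p^a) − χ(y)^(p^a) is p times an algebraic integer. -/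
theorem result {G : Type*} [Group G] [Finite G] (p : ℕ) [Fact p.Prime] (x y x' y' : G)
    (hx : (∃ k : ℕ, orderOf (x * x'⁻¹) = p ^ k) ∧ Commute (x * x'⁻¹) x' ∧ ¬ p ∣ orderOf x')
    (hy : (∃ k : ℕ, orderOf (y * y'⁻¹) = p ^ k) ∧ Commute (y * y'⁻¹) y' ∧ ¬ p ∣ orderOf y') :
    IsConj x' y' ↔ ∀ χ : Cfsg.IrrCharacter G, ∃ γ : Cfsg.AlgInt,
      (χ : G → ℂ) x ^ (p ^ (Nat.card G).factorization p) - (χ : G → ℂ) y ^ (p ^ (Nat.card G).factorization p) = (p : ℂ) * (γ : ℂ) := by
  classical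
  obtain ⟨M, hM⟩ := exists_pMod p
  set a := (Nat.card G).factorization p
  have hpow : ∀ u u' : G, (∃ k : ℕ, orderOf (u * u'⁻¹) = p ^ k) → Commute (u * u'⁻¹) u' → u ^ p ^ a = u' ^ p ^ a := by
    rintro u u' ⟨k, h1⟩ h2
    have h3 : (u * u'⁻¹) ^ p ^ a = 1 := by
      rw [← orderOf_dvd_iff_pow_eq_one, h1]
      refine pow_dvd_pow p ((Nat.Prime.pow_dvd_iff_le_factorization Fact.out Nat.card_pos.ne').1 ?_)
      rw [← h1]
      exact orderOf_dvd_natCard _
    have := h2.mul_pow (p ^ a)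
    rwa [h3, one_mul, inv_mul_cancel_right] at this
  constructor
  · intro h χ
    have key : ∀ u : G, ∃ γ : AlgInt, (χ : G → ℂ) u ^ p ^ a - (χ : G → ℂ) (u ^ p ^ a) = p * γ := by
      intro u
      obtain ⟨n, ε, -, h1, h2, -⟩ := χ.2.isCharacter.exists_eigenvalues u
      have h3 : ∀ i, IsIntegral ℤ (ε i) := fun i => IsIntegral.of_pow (orderOf_pos u) (h1 i ▸ isIntegral_one)
      let ε' : Fin n → AlgInt := fun i => ⟨ε i, h3 i⟩
      have h4 : (p : AlgInt) ∣ (∑ i, ε' i) ^ p ^ a - ∑ i, ε' i ^ p ^ a := by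
        induction (Finset.univ : Finset (Fin n)) using Finset.induction_on with
        | empty => simp [(Fact.out : p.Prime).ne_zero]
        | insert i s hi ih =>
          rw [Finset.sum_insert hi, Finset.sum_insert hi]
          obtain ⟨r, hr⟩ := exists_add_pow_prime_pow_eq (Fact.out : p.Prime) (ε' i) (∑ j ∈ s, ε' j) a
          obtain ⟨t, ht⟩ := ih
          exact ⟨t + ε' i * (∑ j ∈ s, ε' j) * r, by rw [hr, mul_add, ← ht]; ring⟩
      obtain ⟨γ, hγ⟩ := h4
      refine ⟨γ, ?_⟩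
      have := congrArg Subtype.val hγ
      have h5 := h2 1
      rw [pow_one] at h5
      rw [h2, h5]
      simpa [ε'] using this
    obtain ⟨γ, h1⟩ := key x
    obtain ⟨δ, h2⟩ := key y
    refine ⟨γ - δ, ?_⟩
    have h3 : (χ : G → ℂ) (x ^ p ^ a) = (χ : G → ℂ) (y ^ p ^ a) := by
      rw [hpow x x' hx.1 hx.2.1, hpow y y' hy.1 hy.2.1]
      exact χ.2.isClassFunction.eq_of_isConj (h.pow _)
    push_cast
    rw [mul_sub, ← h1, ← h2, h3]
    ring
  · intro h
    refine isConj_of_forall_inM hM.1 hx.2.2 hy.2.2 fun χ hχ => ?_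
    have hi := fun g => hχ.isCharacter.isIntegral g
    have hO := fun g => char_mem_O (M := M) hχ.isCharacter g
    rw [← H3.memLocalIdeal_iff hM.1 ((hi _).sub (hi _)), ← red_eq_iff (hO _) (hO _)]
    have h1 : ∀ u u' : G, (∃ k : ℕ, orderOf (u * u'⁻¹) = p ^ k) → Commute (u * u'⁻¹) u' →
        red M (χ u) = red M (χ u') := fun u u' h1 h2 => by
      rw [← red_mul_eq hχ.isCharacter (p := p) h1 h2, inv_mul_cancel_right]
    rw [← h1 x x' hx.1 hx.2.1, ← h1 y y' hy.1 hy.2.1]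
    obtain ⟨γ, h2⟩ := h ⟨χ, hχ⟩
    have h3 := congrArg (red M) h2
    rw [red_sub (pow_mem (hO _) _) (pow_mem (hO _) _), red_pow (hO _), red_pow (hO _),
      red_mul (natCast_mem _ _) (algInt_mem_O _), red_p, zero_mul, ← sub_pow_char_pow] at h3
    exact sub_eq_zero.1 (pow_eq_zero_iff (pow_ne_zero _ (Fact.out : p.Prime).ne_zero) |>.1 h3)

end Cfsg.Agent.S4604
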