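import Cfsg.Statements.S4607
import Cfsg.Agent.B.Small
import Cfsg.Agent.B.Sub2

set_option autoImplicit false
open Cfsg

namespace Cfsg.Agent.S4607

open Cfsg.Agent Cfsg.Agent.B Cfsg.Agent.H2 Cfsg.Agent.H3 Subgroup MonoidAlgebra
open scoped Pointwise commutatorElement

/-- Let G be a finite group, p a prime, M a maximal ideal of the algebraic integers containing p, and B a p-block of G with defect group D. Then B contains exactly two irreducible characters if and only if D has order 2. -/
theorem result {G : Type*} [Group G] [Finite G] (p : ℕ) [Fact p.Prime] (M : Ideal Cfsg.AlgInt) (hM : Cfsg.IsPModular p M) (B : Set (Cfsg.IrrCharacter G)) (hB : Cfsg.IsPBlock M B) (D : Subgroup G) (hD : Cfsg.IsDefectGroup p M B D) : Nat.card B = 2 ↔ Nat.card D = 2 := by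
  have : PMod p M := ⟨hM⟩
  have h2 := IsDefectGroup.card_eq_pow hD hB.closed
  refine ⟨fun h => ?_, fun h => ?_⟩
  · have h3 : blockDefect p B ≠ 0 := fun h0 => by
      obtain ⟨χ, hχ⟩ := hB.nonempty
      rw [IsPBlock.eq_singleton hB h0 hχ] at h
      simp at h
    have h4 := IsPBlock.rank_lt hB h3
    have h5 := blockRank_pos (p := p) hB.nonempty
    rw [h2, ← IsPBlock.card_eq_of_le_four hB (by omega) (by omega), h]
  obtain ⟨e, h1⟩ := (hB.isDefectGroup_iff_top.1 hD).exists_mp hB.isBI_top
  have h3 : normalizer (D : Set G) ≤ centralizer (D : Set G) := fun g hg x hx => by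
    obtain ⟨y, -, hy⟩ := (Nat.card_eq_two_iff' (1 : D)).1 h
    by_cases h0 : x = 1
    · simp [h0]
    have h4 := hy ⟨x, hx⟩ fun h => h0 (congrArg Subtype.val h)
    have h5 := hy ⟨_, (mem_normalizer_iff.1 hg x).1 hx⟩ fun h => h0 (by simpa using congrArg Subtype.val h)
    exact (mul_inv_eq_iff_eq_mul.1 (congrArg Subtype.val (h5.trans h4.symm))).symm
  have hab := le_normalizer.trans h3
  rw [(h1.of_nil_abelian hB ((h1.nil_iff_of_abelian hab).2 ((NS_le_normalizer _ _ _).trans h3)) hab).2, h]

end Cfsg.Agent.S4607
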