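import Cfsg.Statements.S4611
import Cfsg.Agent.B.PSB

set_option autoImplicit false
open Cfsg

namespace Cfsg.Agent.S4611

open Cfsg.Agent Cfsg.Agent.B Cfsg.Agent.H2 Cfsg.Agent.H3 Subgroup MonoidAlgebra
open scoped Pointwise commutatorElement

/-- Let G be a finite solvable group and π a nonempty set of primes, each dividing the order of G; fix for each p in π a maximal ideal M p of the algebraic integers containing p. Then the only irreducible character lying in the principal p-block for every p in π is the principal character if and only if G is generated by the subgroups O_{p'}(G), p in π (the largest normal subgroups of order prime to p). -/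
theorem result {G : Type*} [Group G] [Finite G] [Group.IsSolvable G] (π : Set ℕ) (hπ : ∀ p ∈ π, p.Prime ∧ p ∣ Nat.card G) (hne : π.Nonempty) (M : ℕ → Ideal Cfsg.AlgInt) (hM : ∀ p ∈ π, Cfsg.IsPModular p (M p)) :
    (∀ χ : Cfsg.IrrCharacter G, (∀ p ∈ π, χ ∈ Cfsg.principalBlock (M p) G) → (χ : G → ℂ) = fun _ => 1) ↔
      ⨆ p ∈ π, Cfsg.pPrimeCore p G = ⊤ := by
  have key : ∀ χ : IrrCharacter G, (∀ p ∈ π, χ ∈ principalBlock (M p) G) ↔ ⨆ p ∈ π, pPrimeCore p G ≤ charKer (χ : G → ℂ) := fun χ => by
    rw [iSup₂_le_iff]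
    refine forall₂_congr fun p hp => ?_
    have : Fact p.Prime := ⟨(hπ p hp).1⟩
    have : PMod p (M p) := ⟨hM p hp⟩
    exact mem_principal_iff_psolv (H9.pSolv_of_solvable ‹_›)
  simp only [key]
  refine ⟨fun h => ?_, fun h χ a => χ.2.eq_one_of_charKer_eq_top (top_le_iff.1 (h ▸ a))⟩
  have : (⨆ p ∈ π, pPrimeCore p G).Normal := biSup_normal π _ fun _ _ => inferInstance
  have hq := QuotientGroup.mk'_surjective (⨆ p ∈ π, pPrimeCore p G)
  refine top_le_iff.1 fun x _ => (QuotientGroup.eq_one_iff x).1 (eq_one_of_forall_irr fun χ hχ => ?_)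
  have a := h (infl _ hq ⟨χ, hχ⟩) fun y hy => (infl _ hq ⟨χ, hχ⟩).2.mem_charKer_iff.2 (by
    simp only [infl_apply, QuotientGroup.mk'_apply, (QuotientGroup.eq_one_iff y).2 hy, QuotientGroup.mk_one])
  exact (congrFun a x).trans (congrFun a 1).symm

end Cfsg.Agent.S4611
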