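import Cfsg.Statements.S4619
import Cfsg.Agent.H1.Basic

set_option autoImplicit false
open scoped Pointwise
open Cfsg

namespace Cfsg.Agent.S4619

open Subgroup
open scoped Pointwise

/-- Let P be a Sylow p-subgroup of the finite group G that is a trivial-intersection set: P meets each conjugate g P g⁻¹ with g outside N_G(P) trivially. Then for every nontrivial subgroup Q of P the normalizer of Q lies in the normalizer of P, and any g ∈ G conjugating Q into P lies in N_G(P). -/
theorem result {G : Type*} [Group G] [Finite G] (p : ℕ) [Fact p.Prime] (P : Sylow p G) (hTI : (∀ g : G, g ∉ Subgroup.normalizer ((P : Subgroup G) : Set G) → (P : Subgroup G) ⊓ (MulAut.conj g • (P : Subgroup G)) = ⊥)) (Q : Subgroup G) (hQ : Q ≤ (P : Subgroup G)) (hQ1 : Q ≠ ⊥) :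
    Subgroup.normalizer (Q : Set G) ≤ Subgroup.normalizer ((P : Subgroup G) : Set G) ∧
      ∀ g : G, MulAut.conj g • Q ≤ (P : Subgroup G) → g ∈ Subgroup.normalizer ((P : Subgroup G) : Set G) := by
  have h : ∀ g : G, MulAut.conj g • Q ≤ (P : Subgroup G) → g ∈ normalizer ((P : Subgroup G) : Set G) :=
    fun g a => by_contra fun b => by
      obtain ⟨x, c, d⟩ := (bot_or_exists_ne_one Q).resolve_left hQ1
      have : MulAut.conj g • x = 1 := (hTI g b).le ⟨a (smul_mem_pointwise_smul _ _ _ c),
        smul_mem_pointwise_smul _ _ _ (hQ c)⟩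
      exact d (by simpa using this)
  refine ⟨fun g a => h g fun x b => hQ ?_, h⟩
  obtain ⟨y, c, rfl⟩ := (mem_smul_pointwise_iff_exists _ _ _).1 b
  exact (mem_normalizer_iff.1 a y).1 c

end Cfsg.Agent.S4619
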