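import Cfsg.Statements.S4620
import Cfsg.Agent.H2.PNil
import Cfsg.Agent.H1.Cores
import Cfsg.Agent.H1.Basic

set_option autoImplicit false
open scoped Pointwise
open Cfsg

namespace Cfsg.Agent.S4620

open Cfsg.Agent Cfsg.Agent.H2 Subgroup
open scoped Pointwise commutatorElement

/-- Let H be a finite group with no nontrivial normal p-subgroup and no nontrivial normal subgroup of order prime to p, whose Sylow p-subgroup P is nontrivial and a trivial-intersection set (P meets its conjugates by elements outside N_H(P) trivially). Then H has a unique minimal normal subgroup N; N is non-abelian simple with trivial centralizer in H (so H embeds in Aut(N)), and a Sylow p-subgroup of N is again a nontrivial trivial-intersection set in N. -/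
theorem result {H : Type*} [Group H] [Finite H] (p : ℕ) [Fact p.Prime] (hOp : Cfsg.pCore p H = ⊥) (hOp' : Cfsg.pPrimeCore p H = ⊥) (P : Sylow p H) (hP1 : (P : Subgroup H) ≠ ⊥)
    (hTI : ∀ g : H, g ∉ Subgroup.normalizer ((P : Subgroup H) : Set H) → (P : Subgroup H) ⊓ (MulAut.conj g • (P : Subgroup H)) = ⊥) :
    ∃ N : Subgroup H, N.Normal ∧ N ≠ ⊥ ∧ (∀ K : Subgroup H, K.Normal → K ≠ ⊥ → N ≤ K) ∧
      IsSimpleGroup N ∧ ¬ IsMulCommutative N ∧ Subgroup.centralizer (N : Set H) = ⊥ ∧
      ∀ Q : Sylow p N, (Q : Subgroup N) ≠ ⊥ ∧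
        ∀ n : N, n ∉ Subgroup.normalizer ((Q : Subgroup N) : Set N) → (Q : Subgroup N) ⊓ (MulAut.conj n • (Q : Subgroup N)) = ⊥ := by
  have hTI' : ∀ g : H, g ∉ normalizer ((P : Subgroup H) : Set H) → (P : Subgroup H) ⊓ cj g P = ⊥ := hTI
  have hTI2 : ∀ S : Subgroup H, SylIn p S ⊤ → ∀ g : H, g ∉ normalizer (S : Set H) → S ⊓ cj g S = ⊥ := by
    intro S hS g hg
    obtain ⟨h, -, rfl⟩ := (sylIn_top P).exists_cj_eq hS
    have := hTI' (h⁻¹ * g * h) (fun h1 => hg (by rw [← cj_normalizer]; exact mem_cj.2 h1))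
    rw [← cj_mul, show g * h = h * (h⁻¹ * g * h) by group, cj_mul, ← cj_inf, this, cj_bot]
  have hdvd : ∀ K : Subgroup H, K.IsSubnormal → K ≠ ⊥ → (P : Subgroup H) ⊓ K ≠ ⊥ := by
    intro K hK h0
    have h1 : ∀ K : Subgroup H, K.IsSubnormal → SylIn p ((P : Subgroup H) ⊓ K) K := by
      intro K hK
      induction hK with
      | top => simpa using sylIn_top P
      | step K L hle _ hn ih =>
        have := ih.inf_normal' ((normal_subgroupOf_iff_le_normalizer hle).1 hn) hle
        rwa [inf_assoc, inf_eq_right.2 hle] at this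
    refine (h1 K hK).ne_bot ?_
    by_contra h
    exact h0 (le_bot_iff.1 (hOp' ▸ H1.le_pPrimeCore_of_isSubnormal hK
      ((Nat.Prime.coprime_iff_not_dvd Fact.out).2 h).symm))
  have key : ∀ K L : Subgroup H, K.IsSubnormal → K ≠ ⊥ → L.IsSubnormal → L ≤ centralizer (K : Set H) → L = ⊥ := by
    intro K L hK h0 hL h
    have h1 : L ≤ normalizer ((P : Subgroup H) : Set H) := fun g hg => by
      by_contra hn
      refine hdvd K hK h0 (le_bot_iff.1 (le_trans (fun x hx => ?_) (hTI' g hn).le))
      refine ⟨hx.1, ?_⟩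
      have := conj_mem_cj g hx.1
      rwa [← h hg x hx.2, mul_inv_cancel_right] at this
    by_contra h2
    refine hdvd L hL h2 (le_bot_iff.1 (hOp ▸ H1.le_pCore_of_isSubnormal ?_ (P.isPGroup'.to_le inf_le_left)))
    refine IsSubnormal.step _ L inf_le_right hL ((normal_subgroupOf_iff_le_normalizer inf_le_right).2 ?_)
    intro g hg
    rw [mem_normalizer_iff_cj, cj_inf, cj_eq_of_mem_normalizer (h1 hg), cj_eq_of_mem hg]
  haveI : Nontrivial H := by
    by_contra h
    rw [not_nontrivial_iff_subsingleton] at h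
    exact hP1 (Subsingleton.elim _ _)
  obtain ⟨N, hN, hN0, hmin⟩ := H1.exists_minimal_normal (G := H)
  have hC : centralizer (N : Set H) = ⊥ := key N _ hN.isSubnormal hN0 (Normal.isSubnormal inferInstance) le_rfl
  refine ⟨N, hN, hN0, fun K hK h0 => ?_, ?_, fun h => hN0 (le_bot_iff.1 (hC ▸ le_centralizer N)), hC, fun Q => ?_⟩
  · rcases hmin (K ⊓ N) inferInstance inf_le_right with h | h
    · exact absurd (le_bot_iff.1 (hC ▸ H1.le_centralizer_of_normal_of_disjoint h)) h0
    · exact inf_eq_right.1 h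
  · haveI : Nontrivial N := (nontrivial_iff_ne_bot N).2 hN0
    obtain ⟨S, ⟨h1, h2, h3⟩, hS⟩ : ∃ S : Subgroup H, (S ≤ N ∧ N ≤ normalizer (S : Set H) ∧ S ≠ ⊥) ∧
        ∀ K, (K ≤ N ∧ N ≤ normalizer (K : Set H) ∧ K ≠ ⊥) → K ≤ S → K = S := by
      obtain ⟨S, -, a, b⟩ := H1.exists_minimal_le (fun S : Subgroup H => S ≤ N ∧ N ≤ normalizer (S : Set H) ∧ S ≠ ⊥)
        (N := N) ⟨le_rfl, le_normalizer, hN0⟩
      exact ⟨S, a, b⟩
    have sub : ∀ K : Subgroup H, K ≤ N → N ≤ normalizer (K : Set H) → K.IsSubnormal := fun K a b =>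
      IsSubnormal.step _ N a hN.isSubnormal ((normal_subgroupOf_iff_le_normalizer a).2 b)
    have all : ∀ K : Subgroup H, K ≤ N → N ≤ normalizer (K : Set H) → K ≠ ⊥ → S ≤ K := by
      intro K a b c
      by_contra hn
      have h4 : K ⊓ S = ⊥ := by
        by_contra h
        exact hn (inf_eq_right.1 (hS _ ⟨inf_le_left.trans a, fun g hg => by
          rw [mem_normalizer_iff_cj, cj_inf, cj_eq_of_mem_normalizer (b hg), cj_eq_of_mem_normalizer (h2 hg)], h⟩
          inf_le_right))
      exact c (key S K (sub S h1 h2) h3 (sub K a b)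
        (H1.le_centralizer_of_normalizer_of_disjoint (a.trans h2) (h1.trans b) h4))
    have hSn : S.Normal := normal_iff_cj.2 fun g => by
      refine (eq_of_le_of_card_ge (all _ ?_ ?_ (by rwa [Ne, cj_eq_bot_iff])) (card_cj g S).le).symm
      · rw [← cj_eq_of_normal g N]; exact cj_mono g h1
      · rw [← cj_normalizer, ← cj_eq_of_normal g N]; exact cj_mono g h2
    have hSN : S = N := (hmin S hSn h1).resolve_left h3
    refine ⟨fun K hK => ?_⟩
    by_cases h : K = ⊥
    · exact Or.inl h
    right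
    have := all (K.map N.subtype) (map_subtype_le K) (by
      rw [← normal_subgroupOf_iff_le_normalizer (map_subtype_le K)]
      rwa [show (K.map N.subtype).subgroupOf N = K from comap_map_eq_self_of_injective N.subtype_injective K])
      (by rwa [Ne, map_eq_bot_iff_of_injective _ N.subtype_injective])
    rw [hSN] at this
    rw [← comap_map_eq_self_of_injective N.subtype_injective K]
    exact subgroupOf_eq_top.2 this
  · have hQ := sylIn_map_subtype Q
    obtain ⟨S, hS, hle⟩ := exists_sylIn_ge hQ.pgrp le_top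
    have e : S ⊓ N = (Q : Subgroup N).map N.subtype :=
      hQ.max _ inf_le_right (hS.pgrp.to_le inf_le_left) (le_inf hle hQ.le)
    refine ⟨fun h => ?_, fun n hn => ?_⟩
    · have h1 := (sylow_inf_normal P N).card_eq hQ
      rw [h, Subgroup.map_bot, card_bot, card_eq_one] at h1
      exact hdvd N hN.isSubnormal hN0 h1
    · have h1 := hTI2 S hS n fun h => hn (by
        rw [mem_normalizer_iff] at h ⊢
        intro x
        have h2 : ∀ y : N, y ∈ (Q : Subgroup N) ↔ (y : H) ∈ S := fun y => by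
          rw [← mem_map_iff_mem N.subtype_injective, ← e]; exact ⟨fun h => h.1, fun h => ⟨h, y.2⟩⟩
        exact (h2 x).trans ((h x).trans (h2 (n * x * n⁻¹)).symm))
      rw [eq_bot_iff]
      intro x hx
      have h3 : (x : H) ∈ S ⊓ cj (n : H) S := ⟨hle (mem_map_of_mem _ hx.1), mem_cj.2 (hle
        (mem_map_of_mem N.subtype (mem_cj.1 hx.2)))⟩
      exact mem_bot.2 (Subtype.ext (mem_bot.1 (h1.le h3)))

end Cfsg.Agent.S4620
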