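import Cfsg.Statements.S4741
import Cfsg.Agent.B.Rob

set_option autoImplicit false
open Cfsg

namespace Cfsg.Agent.S4741

open Cfsg.Agent Cfsg.Agent.B Cfsg.Agent.H2 Cfsg.Agent.H3 Cfsg.Agent.L Subgroup MonoidAlgebra
open scoped Pointwise commutatorElement

/-- Let p be a prime, M a maximal ideal of the algebraic integers containing p, and D a subgroup of the finite group G. Let x₁, …, x_r be pairwise non-conjugate elements of G such that D is a Sylow p-subgroup of the centralizer of each xᵢ, and such that for any conjugates g of some xᵢ and h of some xⱼ the element g h⁻¹ is never a non-identity p-element. Then there are r distinct p-blocks B₁, …, B_r of G, each having D as a defect group, such that for every choice of characters χᵢ ∈ Bᵢ of height zero the determinant of the r × r matrix (χᵢ(xⱼ)) does not lie in the local ideal at M. -/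
theorem result {G : Type*} [Group G] [Finite G] (p : ℕ) [Fact p.Prime] (M : Ideal Cfsg.AlgInt) (hM : Cfsg.IsPModular p M) (D : Subgroup G) {r : ℕ} (x : Fin r → G) (hx : ∀ i j : Fin r, IsConj (x i) (x j) → i = j) (hD : ∀ i : Fin r, ∃ S : Sylow p ↥(Subgroup.centralizer ({x i} : Set G)), (S : Subgroup ↥(Subgroup.centralizer ({x i} : Set G))).map (Subgroup.centralizer ({x i} : Set G)).subtype = D) (hsep : ∀ i j : Fin r, ∀ g h : G, IsConj (x i) g → IsConj (x j) h → ∀ k : ℕ, 0 < k → orderOf (g * h⁻¹) ≠ p ^ k) : ∃ B : Fin r → Set (Cfsg.IrrCharacter G), Function.Injective B ∧ (∀ i : Fin r, Cfsg.IsPBlock M (B i) ∧ Cfsg.IsDefectGroup p M (B i) D) ∧ ∀ χ : Fin r → Cfsg.IrrCharacter G, (∀ i : Fin r, χ i ∈ B i ∧ Cfsg.blockHeight p (B i) (χ i : G → ℂ) = 0) → ¬ Cfsg.MemLocalIdeal M (Matrix.det (Matrix.of fun i j : Fin r => (χ i : G → ℂ) (x j))) := by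
  have : PMod p M := ⟨hM⟩
  classical
  have := Fintype.ofFinite G
  have h0 : ∀ i, SylIn p D (centralizer {x i}) := fun i => by
    obtain ⟨S, rfl⟩ := hD i; exact sylIn_map_subtype S
  choose u hu using fun i => exists_isPPart (p := p) (x i)
  have h1 : (Matrix.of fun i (B : {B : Blk G M // IsDefectGroup p M B.1 D}) =>
      lam M (B.1.rep : G → ℂ) (cls (F M) (x i))) *
      (Matrix.of fun (B : {B : Blk G M // IsDefectGroup p M B.1 D}) j => (eB M B.1.1).coeff ((u j)⁻¹ * x j)) = 1 := by
    ext i j
    simp only [Matrix.mul_apply, Matrix.of_apply, Matrix.one_apply]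
    rw [← Finset.sum_subtype (Finset.univ.filter fun B : Blk G M => IsDefectGroup p M B.1 D) (by simp)
      (fun B => lam M (B.rep : G → ℂ) (cls (F M) (x i)) * (eB M B.1).coeff ((u j)⁻¹ * x j)),
      Finset.sum_filter_of_ne, ← robinson (cls_mem _) (hu j), Finset.sum_eq_single (x j), coeff_cls]
    · congr 1
      exact propext ⟨hx i j, fun h => h ▸ IsConj.refl _⟩
    · intro y hy h2
      obtain ⟨k, hk⟩ := (Finset.mem_filter.1 hy).2
      rw [coeff_cls, if_neg fun h3 => hsep i j _ _ h3 (IsConj.refl _) k (Nat.pos_of_ne_zero ?_) hk]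
      rintro rfl
      exact h2 (by simpa [mul_inv_eq_one] using hk)
    · simp [pElt_one]
    · intro B _ h8
      refine B.2.isDefectGroup_of_lam B.rep_mem (left_ne_zero_of_mul h8) (right_ne_zero_of_mul h8) (h0 i)
        fun y hy => mem_centralizer_singleton_iff.2 ?_
      have h3 := (h0 j).le hy
      exact ((Commute.inv_right (mem_centralizer_singleton_iff.1 ((hu j).centralizer_le h3))).mul_right
        (mem_centralizer_singleton_iff.1 h3)).eq
  obtain ⟨c, hc, h2⟩ := exists_cols_det_ne_zero _ _ h1
  refine ⟨fun i => (c i).1.1, fun i j h => hc (Subtype.ext (Subtype.ext h)),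
    fun i => ⟨(c i).1.2, (c i).2⟩, fun χ hχ h3 => h2 ?_⟩
  have h4 := (Agent.B.memLocalIdeal_iff.1 h3).2
  let A : Matrix (Fin r) (Fin r) (O M) := Matrix.of fun i j => ⟨(χ i : G → ℂ) (x j), irr_mem_O _ _⟩
  have h5 : (Matrix.of fun i j : Fin r => (χ i : G → ℂ) (x j)).det = (A.det : ℂ) :=
    ((O M).subtype.map_det A).symm
  rw [h5, red_coe, RingHom.map_det] at h4
  let e := (Nat.card G).factorization p - (Nat.card D).factorization p
  have h6 : ∀ j, (centralizer ({x j} : Set G)).index.factorization p = e := fun j => by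
    have := factorization_index_add (p := p) (centralizer ({x j} : Set G))
    have := factorization_card_of_sylIn (h0 j)
    omega
  have h7 : ∀ i, nu p (χ i : G → ℂ) = e := fun i => by
    have := nu_add_blockDefect (p := p) (hχ i).1
    have := (c i).2.factorization_card (c i).1.2.closed
    have := (hχ i).2
    dsimp only at *
    omega
  have h8 : (p ^ e).factorization p = e := Nat.factorization_pow_self Fact.out
  have h9 : p ^ e ≠ 0 := (pow_pos (Fact.out : p.Prime).pos _).ne'
  rw [← Matrix.det_transpose, show Matrix.transpose _ = Matrix.diagonal (fun i => red M (((p ^ e : ℕ) : ℂ) / charDegree (χ i : G → ℂ))) *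
      (res M).mapMatrix A * Matrix.diagonal (fun j => red M ((centralizer ({x j} : Set G)).index / ((p ^ e : ℕ) : ℂ))) from ?_,
    Matrix.det_mul, Matrix.det_mul, h4, mul_zero, zero_mul]
  ext i j
  simp only [Matrix.transpose_apply, Matrix.submatrix_apply, id, Matrix.of_apply, Matrix.mul_diagonal,
    Matrix.diagonal_mul, RingHom.mapMatrix_apply, Matrix.map_apply, A]
  rw [(c i).1.2.lam_eq (c i).1.rep_mem (hχ i).1, lam_cls_eq (by rw [h6, h7]), ← red_of_mem, mul_right_comm,
    ← red_mul (natDiv_mem_O (χ i).2.charDegree_pos.ne' (by rw [h8]; exact (h7 i).le))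
      (natDiv_mem_O h9 (by rw [h8, h6]))]
  congr 2
  have : ((p ^ e : ℕ) : ℂ) ≠ 0 := Nat.cast_ne_zero.2 h9
  field_simp

end Cfsg.Agent.S4741
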