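import Cfsg.Statements.S4742
import Cfsg.Agent.B.Rob

set_option autoImplicit false
open Cfsg

namespace Cfsg.Agent.S4742

open Cfsg.Agent Cfsg.Agent.B Cfsg.Agent.H2 Cfsg.Agent.H3 Cfsg.Agent.L Subgroup MonoidAlgebra
open scoped Pointwise commutatorElement

/-- Let p ≠ q be primes dividing the order of the finite group G, and suppose the centralizer of every non-identity p-element of G has order prime to q. Then either G has an irreducible character of p-defect zero, or for every non-identity q-element z of G there are conjugates g, h of z such that g h⁻¹ is a non-identity p-element. -/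
theorem result {G : Type*} [Group G] [Finite G] (p q : ℕ) [Fact p.Prime] [Fact q.Prime] (hppq : p ≠ q) (hpG : p ∣ Nat.card G) (hqG : q ∣ Nat.card G) (hC : ∀ g : G, g ≠ 1 → (∃ k : ℕ, orderOf g = p ^ k) → ¬ q ∣ Nat.card ↥(Subgroup.centralizer ({g} : Set G))) : (∃ χ : Cfsg.IrrCharacter G, (Cfsg.charDegree (χ : G → ℂ)).factorization p = (Nat.card G).factorization p) ∨ ∀ z : G, z ≠ 1 → (∃ k : ℕ, orderOf z = q ^ k) → ∃ g h : G, IsConj z g ∧ IsConj z h ∧ g * h⁻¹ ≠ 1 ∧ ∃ k : ℕ, orderOf (g * h⁻¹) = p ^ k := by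
  by_contra h
  push Not at h
  obtain ⟨h1, z, h2, h3, h4⟩ := h
  obtain ⟨χ, hχ⟩ := exists_defect_zero (p := p) (z := z) (fun h5 => by
      obtain ⟨u, hu⟩ := exists_prime_orderOf_dvd_card' (G := centralizer ({z} : Set G)) p h5
      have hu' : orderOf (u : G) = p := by simpa using hu
      refine hC u (fun h => (Fact.out : p.Prime).one_lt.ne' (by rw [← hu', h, orderOf_one]))
        ⟨1, by simpa using hu'⟩ ((PElt.dvd h3 h2).trans (Subgroup.orderOf_dvd_natCard _ ?_))
      exact mem_centralizer_singleton_iff.2 (mem_centralizer_singleton_iff.1 u.2).symm)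
    fun g h5 ⟨k, hk⟩ => by_contra fun h6 => h4 g z h5 (IsConj.refl _) (by rwa [Ne, mul_inv_eq_one]) k hk
  exact h1 χ hχ

end Cfsg.Agent.S4742
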