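import Cfsg.Statements.S4743
import Cfsg.Agent.B.Rob2

set_option autoImplicit false
open Cfsg

namespace Cfsg.Agent.S4743

open Cfsg.Agent Cfsg.Agent.B Cfsg.Agent.H2 Cfsg.Agent.H3 Cfsg.Agent.L Subgroup MonoidAlgebra
open scoped Pointwise commutatorElement
theorem aux {G : Type*} [Group G] [Finite G] {p q : ℕ} [Fact p.Prime] [Fact q.Prime] (h : p ≠ q)
    (hpG : p ∣ Nat.card G) (hs : IsPSolvable p G) : ∃ N : Subgroup G, N.Normal ∧
      (p ∣ Nat.card N ∧ ¬ q ∣ Nat.card N ∨ q ∣ Nat.card N ∧ ¬ p ∣ Nat.card N) := by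
  obtain ⟨n, H, h0, h1, h2, h3, h4⟩ := hs
  by_contra h5
  push Not at h5
  have h6 : ∀ i, ¬ p ∣ Nat.card (H i) ∧ ¬ q ∣ Nat.card (H i) := fun i => by
    induction i using Fin.induction with
    | zero => simp [h0, (Fact.out : p.Prime).one_lt.ne', (Fact.out : q.Prime).one_lt.ne']
    | succ i ih =>
      have h7 : Nat.card (H i.succ) = Nat.card (H i.castSucc) * (H i.castSucc).relIndex (H i.succ) := by
        rw [← card_mul_index ((H i.castSucc).subgroupOf _),
          Nat.card_congr (subgroupOfEquivOfLe (h2 i.castSucc_le_succ)).toEquiv]; rfl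
      rcases h4 i with ⟨m, hm⟩ | hm
      · have h8 : ¬ q ∣ Nat.card (H i.succ) := by
          rw [h7, hm, (Fact.out : q.Prime).dvd_mul, not_or]
          exact ⟨ih.2, fun h9 => h ((Nat.prime_dvd_prime_iff_eq Fact.out Fact.out).1
            ((Fact.out : q.Prime).dvd_of_dvd_pow h9)).symm⟩
        exact ⟨fun h9 => h8 ((h5 _ (h3 _)).1 h9), h8⟩
      · have h8 : ¬ p ∣ Nat.card (H i.succ) := by
          rw [h7, (Fact.out : p.Prime).dvd_mul, not_or]
          exact ⟨ih.1, (Nat.Prime.coprime_iff_not_dvd Fact.out).1 hm.symm⟩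
        exact ⟨h8, fun h9 => h8 ((h5 _ (h3 _)).2 h9)⟩
  exact (h6 (Fin.last n)).1 (by simpa [h1] using hpG)

theorem aux2 {G : Type*} [Group G] [Finite G] {p q : ℕ} [Fact p.Prime] [Fact q.Prime]
    (hC : ∀ z : G, p ∣ orderOf z → ¬ q ∣ Nat.card (centralizer ({z} : Set G))) {N : Subgroup G}
    (hN : N.Normal) (h1 : p ∣ Nat.card N) (h2 : ¬ q ∣ Nat.card N) :
    ∃ χ : IrrCharacter G, nu q (χ : G → ℂ) = (Nat.card G).factorization q := by
  obtain ⟨z, hz⟩ := exists_prime_orderOf_dvd_card' (G := N) p h1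
  refine exists_defect_zero (hC z (by simp [hz])) fun g h3 h4 => mul_inv_eq_one.1 (h4.eq_one
    (reg_of_mem h2 (mul_mem ?_ (inv_mem z.2))))
  obtain ⟨c, rfl⟩ := isConj_iff.1 h3
  exact hN.conj_mem _ z.2 c


/-- Let p ≠ q be primes dividing the order of the finite group G, suppose the centralizer of every non-identity p-element has order prime to q, and suppose G is p-solvable or q-solvable. Then G has an irreducible character of p-defect zero or an irreducible character of q-defect zero. -/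
theorem result {G : Type*} [Group G] [Finite G] (p q : ℕ) [Fact p.Prime] [Fact q.Prime] (hppq : p ≠ q) (hpG : p ∣ Nat.card G) (hqG : q ∣ Nat.card G) (hC : ∀ g : G, g ≠ 1 → (∃ k : ℕ, orderOf g = p ^ k) → ¬ q ∣ Nat.card ↥(Subgroup.centralizer ({g} : Set G))) (hsolv : Cfsg.IsPSolvable p G ∨ Cfsg.IsPSolvable q G) : (∃ χ : Cfsg.IrrCharacter G, (Cfsg.charDegree (χ : G → ℂ)).factorization p = (Nat.card G).factorization p) ∨ (∃ χ : Cfsg.IrrCharacter G, (Cfsg.charDegree (χ : G → ℂ)).factorization q = (Nat.card G).factorization q) := by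
  have h1 : ∀ z : G, q ∣ orderOf z → ¬ p ∣ Nat.card (centralizer ({z} : Set G)) := fun z =>
    not_dvd_centralizer hC
  have h2 : ∀ z : G, p ∣ orderOf z → ¬ q ∣ Nat.card (centralizer ({z} : Set G)) := fun z =>
    not_dvd_centralizer fun g h3 h4 => h1 g (h4.dvd h3)
  rcases hsolv with h | h
  · obtain ⟨N, hN, h3 | h3⟩ := aux hppq hpG h
    exacts [Or.inr (aux2 h2 hN h3.1 h3.2), Or.inl (aux2 h1 hN h3.1 h3.2)]
  · obtain ⟨N, hN, h3 | h3⟩ := aux hppq.symm hqG h
    exacts [Or.inl (aux2 h1 hN h3.1 h3.2), Or.inr (aux2 h2 hN h3.1 h3.2)]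

end Cfsg.Agent.S4743
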