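import Cfsg.Statements.S4744
import Cfsg.Agent.B.Rob2

set_option autoImplicit false
open Cfsg

namespace Cfsg.Agent.S4744

open Cfsg.Agent Cfsg.Agent.B Cfsg.Agent.H2 Cfsg.Agent.H3 Cfsg.Agent.L Subgroup MonoidAlgebra
open scoped Pointwise commutatorElement

/-- Let p be an odd prime and G a finite group of even order divisible by p in which the centralizer of every non-identity p-element has odd order. Then either G has an irreducible character of p-defect zero, or the normalizer of every Sylow p-subgroup P of G has even order and P is abelian. -/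
theorem result {G : Type*} [Group G] [Finite G] (p : ℕ) [Fact p.Prime] (hp2 : p ≠ 2) (hpG : p ∣ Nat.card G) (h2G : 2 ∣ Nat.card G) (hC : ∀ g : G, g ≠ 1 → (∃ k : ℕ, orderOf g = p ^ k) → Odd (Nat.card ↥(Subgroup.centralizer ({g} : Set G)))) : (∃ χ : Cfsg.IrrCharacter G, (Cfsg.charDegree (χ : G → ℂ)).factorization p = (Nat.card G).factorization p) ∨ ∀ P : Sylow p G, Even (Nat.card ↥(Subgroup.normalizer ((P : Subgroup G) : Set G))) ∧ IsMulCommutative ↥(P : Subgroup G) := by
  refine or_iff_not_imp_left.2 fun h0 P => ?_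
  obtain ⟨t, ht⟩ := exists_ord2_of_even (even_iff_two_dvd.2 h2G)
  obtain ⟨s, h1, h2⟩ := exists_inverted_sylow hp2 hC h0 ht P
  refine ⟨even_card_of_ord2_mem (mem_normalizer_of_cj_le (cj_le_iff_forall.2 fun x hx => ?_))
    (orderOf_of_isConj h1 ▸ ht), isMulCommutative_of_inverts h2⟩
  rw [h2 x hx]; exact inv_mem hx

end Cfsg.Agent.S4744
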