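import Cfsg.Statements.S4748
import Cfsg.Agent.C3.TIDeg
import Cfsg.Agent.L.Quat
import Cfsg.Agent.H1.Section
import Cfsg.Agent.H1.Hall

set_option autoImplicit false
open scoped Pointwise
open Cfsg

namespace Cfsg.Agent.S4748

open Subgroup H3 C3 BG H2

/-- Let G be a finite p-solvable group whose Sylow p-subgroup P meets each conjugate g P g⁻¹ with g outside N_G(P) trivially, and let χ be a faithful character of G (χ g = χ 1 only for g = 1) whose degree d satisfies d² ≤ |P|. Then P is normal in G. -/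
theorem result {G : Type*} [Group G] [Finite G] (p : ℕ) [Fact p.Prime] (hsolv : Cfsg.IsPSolvable p G) (P : Sylow p G) (hTI : ∀ g : G, g ∉ Subgroup.normalizer ((P : Subgroup G) : Set G) → (P : Subgroup G) ⊓ (MulAut.conj g • (P : Subgroup G)) = ⊥) (χ : G → ℂ) (hχ : Cfsg.IsCharacter G χ) (hfaith : ∀ g : G, χ g = χ 1 → g = 1) (hdeg : Cfsg.charDegree χ ^ 2 ≤ Nat.card ↥(P : Subgroup G)) : (P : Subgroup G).Normal := by
  have hp : p.Prime := Fact.out
  by_contra h0
  obtain ⟨g, hg⟩ : ∃ g, g ∉ 𝒩 (P : Subgroup G) := by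
    by_contra! h; exact h0 (H1.normal_of_top_le_normalizer fun g _ => h g)
  have hN := H1.coprime_pPrimeCore p G
  have := pPrimeCore_normal p G
  have h1 : ∀ M : Subgroup G, M.Normal → (♯M).Coprime p → M ≤ pPrimeCore p G := fun M => H1.le_pPrimeCore
  generalize pPrimeCore p G = N at *
  have hc : (♯(P : Subgroup G)).Coprime (♯N) := H1.coprime_card_of_isPGroup P.2 hN
  have h2 : ¬ (P : Subgroup G) ≤ 𝒞 N := fun h => by
    obtain ⟨M, a, b, c⟩ := H1.IsPSolvable.exists_step hp hsolv N fun e => h0 (by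
      rw [(sylIn_top P).eq_bot_iff.2 (e ▸ hp.coprime_iff_not_dvd.1 hN.symm)]; infer_instance)
    obtain ⟨k, c⟩ := c.resolve_right fun c => b.not_ge (h1 M a (by
      rw [← H1.card_mul_relIndex b.le]; exact hN.mul_left c))
    have d := sylow_inf_normal P M
    have e := d.sup_eq_of_relIndex b.le c
    have f : M ≤ 𝒩 ((P : Subgroup G) ⊓ M) := e.ge.trans (sup_le ((le_centralizer_iff.1
      (inf_le_left.trans h)).trans (centralizer_le_normalizer _)) le_normalizer)
    obtain ⟨n, i, j⟩ := d.frattini (le_normalizer_of_normal (K := ⊤) (mem_top g))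
    have l := cj_eq_of_mem_normalizer ((mul_mem_cancel_left (inv_mem (f i))).1 j)
    rw [le_bot_iff.1 ((le_inf inf_le_left (l.ge.trans (cj_mono g inf_le_left))).trans (hTI g hg).le),
      sup_bot_eq] at e
    exact b.ne e
  have h3 : ∀ x ∈ (P : Subgroup G), x ≠ 1 → N ⊓ 𝒞₁ x ≤ 𝒞 (P : Subgroup G) := fun x a b n c y d => by
    have e : n ∈ 𝒩 (P : Subgroup G) := by_contra fun e => b ((hTI n e).le ⟨a, by
      have := conj_mem_cj n a
      rwa [mem_centralizer_singleton_iff.1 c.2, mul_inv_cancel_right] at this⟩)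
    have f : y * n * y⁻¹ * n⁻¹ ∈ (P : Subgroup G) ⊓ N :=
      mem_inf.2 ⟨by simpa only [mul_assoc] using mul_mem d ((mem_normalizer_iff.1 e _).1 (inv_mem d)),
        mul_mem (this.conj_mem n c.1 y) (N.inv_mem c.1)⟩
    rw [(disjoint_of_coprime_natCard hc).eq_bot, mem_bot, mul_inv_eq_one, mul_inv_eq_iff_eq_mul] at f
    exact f
  have h4 : ∀ s ∈ (P : Subgroup G), s ≠ 1 → orderOf s ≤ charDegree χ + 1 ∧ 2 ≤ charDegree χ := fun s a b => by
    have := Fintype.ofFinite ↥(N ⊔ zpowers s)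
    have c := hχ.res (N ⊔ zpowers s)
    obtain ⟨ξ, d, e, f⟩ : ∃ ξ, IsIrrCharacter _ ξ ∧ classInner (fun x : ↥(N ⊔ zpowers s) => χ x) ξ ≠ 0 ∧
        ⟨s, mem_sup_self N s⟩ ∉ charCenter ξ := by
      by_contra! d
      refine h2 (le_centralizer_iff.1 fun n e => h3 s a b ⟨e, mem_centralizer_singleton_iff.2 ?_⟩)
      refine mul_inv_eq_iff_eq_mul.1 (mul_inv_eq_one.1 (hfaith _ ?_))
      refine (c.isClassFunction.apply_eq_sum_irr (⟨n, mem_sup_left e⟩ * ⟨s, mem_sup_self N s⟩ *
        ⟨n, mem_sup_left e⟩⁻¹ * ⟨s, mem_sup_self N s⟩⁻¹)).trans ((Finset.sum_congr rfl fun ξ _ => ?_).trans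
        (c.isClassFunction.apply_eq_sum_irr 1).symm)
      by_cases f : classInner (fun x : ↥(N ⊔ zpowers s) => χ x) ξ = 0
      · simp [f]
      rw [apply_of_mem_charKer (ξ.2.isClassFunction.commutator_mem_charKer (d _ ξ.2 f) _)]
    have i : charDegree ξ ≤ charDegree χ := c.degree_le_of_inner_ne_zero d e
    have j : ∀ x : ↥(N ⊔ zpowers s), N.subgroupOf _ ⊓ 𝒞 (zpowers x) = (N ⊓ 𝒞₁ (x : G)).subgroupOf _ :=
      fun x => Subgroup.ext fun y => and_congr_right' (by
        rw [H1.centralizer_zpowers]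
        simp [mem_centralizer_singleton_iff, Subtype.ext_iff])
    have k : ∀ x ∈ (P : Subgroup G), x ≠ 1 → N ⊓ 𝒞₁ x = N ⊓ 𝒞 (P : Subgroup G) := fun x k l =>
      le_antisymm (le_inf inf_le_left (h3 x k l)) (inf_le_inf_left _ (centralizer_le (by simpa)))
    refine ⟨?_, i.trans' (by_contra fun l => f (d.isCharacter.mem_charCenter_iff.2 ?_))⟩
    · refine (orderOf_coe _).le.trans ((orderOf_le_degree (sup_subgroupOf N s _) ?_ (fun x l m => ?_) d
        f).trans (Nat.succ_le_succ i))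
      · rw [H1.card_subgroupOf le_sup_left, ← orderOf_coe]
        exact hc.symm.coprime_dvd_right (H1.orderOf_dvd_card_of_mem a)
      obtain ⟨n, rfl⟩ := l
      rw [j, j, k s a b]
      exact congrArg (subgroupOf · _) (k _ (zpow_mem a n) fun o => m (Subtype.ext o))
    have m : charDegree ξ = 1 := by have := d.charDegree_pos; omega
    obtain ⟨lam, n⟩ := d.isCharacter.exists_linear (by rw [← d.cast_charDegree, m]; simp)
    rw [m, n, norm_linear]; simp
  rcases L.isCyclic_or_quaternion_of_rank_one P.2 fun E a b => h2 (le_centralizer_iff.1 (by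
    have := a.1
    refine H1.le_of_forall_centralizer_le (A := E.map (P : Subgroup G).subtype) (fun c => ?_)
      le_normalizer_of_normal (hc.coprime_dvd_left (card_dvd_of_le (map_subtype_le _)))
      fun x c => h3 x (map_subtype_le _ c)
    exact not_isCyclic_of_elem a b.ge (L.isCyclic_of_map_subtype c))) with a | ⟨rfl, n, a, ⟨e⟩⟩
  · obtain ⟨s, b⟩ := (P : Subgroup G).isCyclic_iff_exists_zpowers_eq_top.1 a
    obtain ⟨c, d⟩ := h4 s (b ▸ mem_zpowers s) fun c => h2 (by simp [← b, c])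
    rw [← b, Nat.card_zpowers] at hdeg
    nlinarith
  obtain ⟨s, t, b⟩ := L.exists_qP (by positivity) e
  have c : 2 ≤ 2 ^ n := Nat.le_self_pow (by omega) 2
  obtain ⟨d, f⟩ := h4 s b.a_mem fun d => by have := b.ord; rw [d, orderOf_one] at this; omega
  rw [b.card] at hdeg
  rw [b.ord] at d
  nlinarith

end Cfsg.Agent.S4748
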