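import Cfsg.Statements.S4754
import Cfsg.Agent.H3.Misc

set_option autoImplicit false
open Cfsg

namespace Cfsg.Agent.S4754

open H3

/-- For elements x, y of a finite group G, the conjugacy class of x y equals the set of all products of a conjugate of x with a conjugate of y if and only if χ(1) χ(a x a⁻¹ b y b⁻¹) = χ(x) χ(y) for all a, b ∈ G and every irreducible character χ. -/
theorem result {G : Type*} [Group G] [Finite G] (x y : G) : (∀ z : G, IsConj (x * y) z ↔ ∃ a b : G, z = a * x * a⁻¹ * (b * y * b⁻¹)) ↔ ∀ (a b : G) (χ : Cfsg.IrrCharacter G), (χ : G → ℂ) 1 * (χ : G → ℂ) (a * x * a⁻¹ * (b * y * b⁻¹)) = (χ : G → ℂ) x * (χ : G → ℂ) y := by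
  have := Fintype.ofFinite G
  refine ⟨fun h a b χ => ?_, fun h z => ⟨fun c => ?_, fun ⟨a, b, c⟩ => c ▸ isConj_iff_forall_irr.2 fun χ d => ?_⟩⟩
  · have c : ∀ a b : G, (χ : G → ℂ) (a * x * a⁻¹ * (b * y * b⁻¹)) = (χ : G → ℂ) (x * y) := fun a b =>
      (χ.2.isClassFunction.eq_of_isConj ((h _).2 ⟨a, b, rfl⟩)).symm
    have d := χ.2.sum_conj_mul x (b * y * b⁻¹)
    simp only [c, Finset.sum_const, Finset.card_univ, nsmul_eq_mul, ← Nat.card_eq_fintype_card,
      χ.2.isClassFunction.conj_apply] at d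
    rw [c]
    exact mul_left_cancel₀ (card_ne_zero (G := G)) (by linear_combination d)
  · obtain ⟨g, rfl⟩ := isConj_iff.1 c
    exact ⟨g, g, by group⟩
  · exact mul_left_cancel₀ d.apply_one_ne_zero ((by simpa using h 1 1 ⟨χ, d⟩ :
      χ 1 * χ (x * y) = χ x * χ y).trans (h a b ⟨χ, d⟩).symm)

end Cfsg.Agent.S4754
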