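import Cfsg.Statements.S4755
import Cfsg.Agent.H3.Misc

set_option autoImplicit false
open Cfsg

namespace Cfsg.Agent.S4755

open H3

/-- Let x, y be non-identity elements of the finite group G such that χ(x' y') = χ(x') χ(y') for all conjugates x' of x, y' of y and every irreducible character χ. Then the conjugacy class of x y is the set of all products of a conjugate of x with a conjugate of y; every irreducible character of degree greater than 1 vanishes at x y; and the conjugacy class of x y is the coset of the commutator subgroup containing x y. -/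
theorem result {G : Type*} [Group G] [Finite G] (x y : G) (hx : x ≠ 1) (hy : y ≠ 1) (h : ∀ (a b : G) (χ : Cfsg.IrrCharacter G), (χ : G → ℂ) (a * x * a⁻¹ * (b * y * b⁻¹)) = (χ : G → ℂ) (a * x * a⁻¹) * (χ : G → ℂ) (b * y * b⁻¹)) : (∀ z : G, IsConj (x * y) z ↔ ∃ a b : G, z = a * x * a⁻¹ * (b * y * b⁻¹)) ∧ (∀ χ : Cfsg.IrrCharacter G, (χ : G → ℂ) 1 ≠ 1 → (χ : G → ℂ) (x * y) = 0) ∧ (∀ z : G, IsConj (x * y) z ↔ (x * y)⁻¹ * z ∈ commutator G) := by
  have := Fintype.ofFinite G
  have h1 : ∀ (a b : G) (χ : IrrCharacter G), (χ : G → ℂ) (a * x * a⁻¹ * (b * y * b⁻¹)) =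
      (χ : G → ℂ) (x * y) := fun a b χ => by
    have := h 1 1 χ
    simp only [one_mul, inv_one, mul_one] at this
    rw [h, this, χ.2.isClassFunction.conj_apply, χ.2.isClassFunction.conj_apply]
  have h2 : ∀ χ : Cfsg.IrrCharacter G, (χ : G → ℂ) 1 ≠ 1 → (χ : G → ℂ) (x * y) = 0 := fun χ a => by
    have d := χ.2.sum_conj_mul x (1 * y * 1⁻¹)
    have := h 1 1 χ
    simp only [h1, Finset.sum_const, Finset.card_univ, nsmul_eq_mul, ← Nat.card_eq_fintype_card,
      χ.2.isClassFunction.conj_apply] at d this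
    exact (mul_eq_zero.1 (mul_left_cancel₀ (card_ne_zero (G := G)) (by linear_combination d -
      (Nat.card G : ℂ) * this) : ((χ : G → ℂ) 1 - 1) * (χ : G → ℂ) (x * y) = 0)).resolve_left (sub_ne_zero.2 a)
  refine ⟨fun z => ⟨fun c => ?_, fun ⟨a, b, c⟩ => c ▸ isConj_iff_forall_irr.2 fun χ d =>
    (h1 a b ⟨χ, d⟩).symm⟩, h2, fun z => ⟨fun c => ?_, fun c => by_contra fun d => ?_⟩⟩
  · obtain ⟨g, rfl⟩ := isConj_iff.1 c
    exact ⟨g, g, by group⟩
  · obtain ⟨g, rfl⟩ := isConj_iff.1 c
    simpa [commutatorElement_def, mul_assoc, commutator_def] using Subgroup.commutator_mem_commutator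
      (Subgroup.mem_top (x * y)⁻¹) (Subgroup.mem_top g)
  have e := congrArg Complex.re (sum_irr_mul_conj_of_not_isConj d)
  rw [Complex.re_sum] at e
  have f : ∀ χ : IrrCharacter G, ((χ : G → ℂ) (x * y) * (starRingEnd ℂ) ((χ : G → ℂ) z)).re =
      ‖(χ : G → ℂ) (x * y)‖ ^ 2 := fun χ => by
    by_cases f : (χ : G → ℂ) 1 = 1
    · have := mem_charKer.1 (χ.2.degree_eq_one_iff.1 f c) (x * y)
      rw [mul_inv_cancel_left] at this
      rw [this, Complex.mul_conj, Complex.normSq_eq_norm_sq]; simp [← Complex.ofReal_pow]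
    · simp [h2 χ f]
  simp only [f, sum_irr_norm_sq, Complex.zero_re, Nat.cast_eq_zero] at e
  exact Nat.card_pos.ne' e

end Cfsg.Agent.S4755
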