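import Cfsg.Statements.S4757
import Cfsg.Agent.C3.Deg
import Cfsg.Agent.H1.PGrp
import Cfsg.Agent.L.Frob
import Cfsg.Agent.L.Frattini

set_option autoImplicit false
open Cfsg

namespace Cfsg.Agent.S4757

open H3 C3 Subgroup Finset

/-- Let u ≠ 1 be an element of the finite group G and c a complex number such that every non-principal irreducible character χ satisfies χ(1) − χ(u) = c or χ(u) = 0. Then the following are equivalent: (a) u has order 2, G is generated by u together with O(G), the largest normal subgroup of G of odd order, and the centralizer of u is {1, u}; (b) G is not perfect; (c) c = 2. -/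
theorem result {G : Type*} [Group G] [Finite G] (u : G) (hu : u ≠ 1) (c : ℂ) (hyp : ∀ χ : Cfsg.IrrCharacter G, (χ : G → ℂ) ≠ (fun _ => (1 : ℂ)) → ((χ : G → ℂ) 1 - (χ : G → ℂ) u = c ∨ (χ : G → ℂ) u = 0)) : ((orderOf u = 2 ∧ Subgroup.zpowers u ⊔ Cfsg.oddCore G = ⊤ ∧ Subgroup.centralizer ({u} : Set G) = Subgroup.zpowers u) ↔ commutator G ≠ ⊤) ∧ (commutator G ≠ ⊤ ↔ c = 2) := by
  classical
  have := Fact.mk Nat.prime_two
  have a := sum_irr_degree_mul_of_ne hu
  rw [← add_sum_erase _ _ (mem_univ (⟨_, isIrrCharacter_one⟩ : IrrCharacter G))] at a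
  simp only [mul_one] at a
  have hy : ∀ χ ∈ univ.erase (⟨_, isIrrCharacter_one⟩ : IrrCharacter G), χ.1 u = charDegree χ.1 - c ∨ χ.1 u = 0 :=
    fun χ b => (hyp χ fun d => (mem_erase.1 b).1 (Subtype.ext d)).imp_left fun d => by
      rw [χ.2.cast_charDegree, ← d]; ring
  have lin : ∀ l : G →* ℂˣ, l ≠ 1 → (l u : ℂ) = 1 - c := fun l b => by
    rcases hyp ⟨_, isIrrCharacter_linear l⟩ (fun d => b (linear_injective (by simpa using d))) with d | d
    · simp at d; linear_combination -d
    · simp at d
  have inv : ∀ l : G →* ℂˣ, l ≠ 1 → l⁻¹ ≠ 1 := fun l a b => a (MonoidHom.ext fun x => by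
    simpa using DFunLike.congr_fun b x)
  have b : commutator G ≠ ⊤ ↔ ∃ l : G →* ℂˣ, l ≠ 1 := by
    rw [Ne, ← index_eq_one, ← card_linear, Nat.card_eq_one_iff_unique]
    exact ⟨fun b => by_contra fun d => b ⟨⟨fun l m => by push Not at d; rw [d l, d m]⟩, ⟨1⟩⟩,
      fun ⟨l, b⟩ d => b (d.1.elim _ _)⟩
  have d : commutator G ≠ ⊤ → c = 2 := fun d => by
    obtain ⟨l, d⟩ := b.1 d
    have e := lin l d
    have f := lin l⁻¹ (inv l d)
    have i : (1 - c) * (1 - c) = 1 := by nth_rw 1 [← e, ← f]; simp
    refine by_contra fun j => ?_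
    obtain rfl : c = 0 := (mul_eq_zero.1 (by linear_combination i : c * (c - 2) = 0)).resolve_right (sub_ne_zero.2 j)
    have k := congrArg Complex.re a
    rw [Complex.add_re, Complex.re_sum] at k
    have := sum_nonneg (f := fun χ : IrrCharacter G => (χ.1 1 * χ.1 u).re) fun χ k => by
      rcases hy χ k with m | m <;> rw [m, ← χ.2.cast_charDegree] <;> simp [mul_self_nonneg]
    simp at k this; linarith
  have e : c = 2 → ∃ l : G →* ℂˣ, l ≠ 1 ∧ (∀ m, m = 1 ∨ m = l) ∧
      ∀ χ : IrrCharacter G, χ.1 1 ≠ 1 → χ.1 u = 0 := by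
    rintro rfl
    have e : ∀ χ ∈ univ.erase (⟨_, isIrrCharacter_one⟩ : IrrCharacter G), χ.1 1 ≠ 1 →
        χ.1 u = 0 ∨ 0 < (χ.1 1 * χ.1 u).re := fun χ i j => by
      rcases hy χ i with m | m
      · have k := χ.2.charDegree_pos
        have l : charDegree χ.1 ≠ 1 := fun l => j (by rw [← χ.2.cast_charDegree, l]; simp)
        by_cases n : charDegree χ.1 = 2
        · left; simp [m, n]
        right
        rw [m, ← χ.2.cast_charDegree]
        have : (3 : ℝ) ≤ charDegree χ.1 := by exact_mod_cast (by omega : 3 ≤ charDegree χ.1)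
        simp; nlinarith
      · exact .inl m
    have e' : ∀ χ ∈ univ.erase (⟨_, isIrrCharacter_one⟩ : IrrCharacter G), χ.1 1 ≠ 1 →
        0 ≤ (χ.1 1 * χ.1 u).re := fun χ i j => (e χ i j).elim (fun k => by simp [k]) le_of_lt
    have k := congrArg Complex.re a
    rw [Complex.add_re, Complex.re_sum] at k
    obtain ⟨χ, i, j⟩ : ∃ χ ∈ univ.erase (⟨_, isIrrCharacter_one⟩ : IrrCharacter G), χ.1 1 = 1 := by
      by_contra! i
      have := sum_nonneg fun χ j => e' χ j (i χ j)
      simp at k this; linarith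
    obtain ⟨l, m⟩ := χ.2.isCharacter.exists_linear j
    have n : l ≠ 1 := fun n => (mem_erase.1 i).1 (Subtype.ext (by simp [m, n]))
    have o : ∀ m : G →* ℂˣ, m = 1 ∨ m = l := fun m => or_iff_not_imp_left.2 fun o => by_contra fun r => by
      have s := lin (m * l⁻¹) fun s => r (MonoidHom.ext fun x => by
        simpa [mul_inv_eq_one] using DFunLike.congr_fun s x)
      simp only [MonoidHom.mul_apply, Units.val_mul, lin m o, lin l⁻¹ (inv l n)] at s
      norm_num at s
    refine ⟨l, n, o, fun ψ r => ?_⟩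
    have s : ψ ∈ (univ.erase (⟨_, isIrrCharacter_one⟩ : IrrCharacter G)).erase χ := by
      simp only [mem_erase, mem_univ, and_true]
      exact ⟨fun s => r (s ▸ j), fun s => r (by simp [s])⟩
    refine (e ψ (mem_of_mem_erase s) r).resolve_right fun t => ?_
    have := sum_pos' (f := fun χ : IrrCharacter G => (χ.1 1 * χ.1 u).re) (fun φ v => e' φ (mem_of_mem_erase v)
      fun w => by
        obtain ⟨l', w⟩ := φ.2.isCharacter.exists_linear w
        simp only [mem_erase, mem_univ, and_true] at v
        rcases o l' with rfl | rfl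
        exacts [v.2 (Subtype.ext (by simp [w])), v.1 (Subtype.ext (w.trans m.symm))]) ⟨ψ, s, t⟩
    rw [← add_sum_erase _ _ i, j, m] at k
    simp only [lin l n] at k
    norm_num at k this; linarith
  have f : c = 2 → commutator G ≠ ⊤ := fun f => b.2 ((e f).imp fun _ => And.left)
  refine ⟨⟨fun ⟨i, j, _⟩ k => ?_, fun i => ?_⟩, d, f⟩
  · have l : commutator G ≤ oddCore G := by
      have : IsCyclic (G ⧸ oddCore G) := ⟨u, fun y => by
        obtain ⟨y, rfl⟩ := QuotientGroup.mk_surjective y
        obtain ⟨_, ⟨n, rfl⟩, z, l, rfl⟩ := (H1.mem_sup_left_norm le_normalizer_of_normal).1 (j.ge (mem_top y))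
        exact ⟨n, by simp [(QuotientGroup.eq_one_iff z).2 l]⟩⟩
      exact Normal.quotient_commutative_iff_commutator_le.1 inferInstance
    exact H1.not_dvd_card_pPrimeCore 2 G (i.ge.trans' le_rfl |> fun _ => (dvd_of_eq i.symm).trans
      (H1.orderOf_dvd_card_of_mem (l (k.ge (mem_top u)))))
  obtain ⟨l, j, k, m⟩ := e (d i)
  have n : (commutator G).index = 2 := by
    rw [← card_linear, Nat.card_eq_two_iff' 1]
    exact ⟨l, j, fun y n => (k y).resolve_left n⟩
  have o : Nat.card (centralizer ({u} : Set G)) = 2 := by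
    have o := sum_irr_norm_sq u
    rw [← sum_filter_add_sum_filter_not _ (fun χ : IrrCharacter G => χ.1 1 = 1), sum_eq_zero
      (s := filter (fun χ : IrrCharacter G => ¬ χ.1 1 = 1) _) fun χ o => by simp [m χ (mem_filter.1 o).2],
      sum_congr rfl (g := fun _ => 1) fun χ o => by
        obtain ⟨l, o⟩ := χ.2.isCharacter.exists_linear (mem_filter.1 o).2
        simp [o, norm_linear], sum_const, nsmul_eq_mul, mul_one, ← Fintype.card_subtype, ← Nat.card_eq_fintype_card,
        card_irr_degree_one, n, add_zero] at o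
    exact_mod_cast o.symm
  have r : zpowers u ≤ centralizer ({u} : Set G) := zpowers_le.2 (mem_centralizer_singleton_iff.2 rfl)
  have s : zpowers u = centralizer ({u} : Set G) := H1.eq_of_le_of_card_prime (o ▸ Nat.prime_two) r (by simpa)
  have t : orderOf u = 2 := by rw [← Nat.card_zpowers, s, o]
  have v : u ∉ commutator G := fun v => by
    have := lin l j
    rw [Abelianization.commutator_subset_ker l v, d i] at this
    norm_num at this
  refine ⟨t, ?_, s.symm⟩
  have w : (Nat.card (commutator G)).Coprime 2 := by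
    rw [← t, ← Nat.card_zpowers]
    refine (L.FPF.coprime (H := zpowers u) (.of_prime (by rw [s, o]; exact Nat.prime_two) ?_)
      le_normalizer_of_normal).symm
    rw [H1.centralizer_zpowers, ← s, inf_comm, eq_bot_iff]
    intro y ⟨x, z⟩
    by_contra x'
    exact v ((zpowers_le (H := commutator G)).2 z ((H1.eq_of_le_of_card_prime (by rw [s, o]; exact Nat.prime_two)
      (zpowers_le.2 x) (by simpa using x')).ge (mem_zpowers u)))
  refine top_le_iff.1 (le_trans ?_ (sup_le_sup_left (H1.le_pPrimeCore inferInstance w) _))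
  exact ((L.isCoatom_of_index_prime (n ▸ Nat.prime_two)).2 _ (lt_of_le_of_ne le_sup_right fun x =>
    v (x.ge (mem_sup_left (mem_zpowers u))))).ge

end Cfsg.Agent.S4757
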