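import Cfsg.Statements.S4762
import Mathlib
import Cfsg.Agent.H3.Cong
import Cfsg.Agent.H3.Misc
import Cfsg.Agent.H3.FS
import Cfsg.Agent.H1.PGrp
import Cfsg.Agent.H1.Frattini
import Cfsg.Agent.L.PGroup

set_option autoImplicit false
open Cfsg

namespace Cfsg.Agent.S4762

open Cfsg.Agent.H3 Subgroup commutatorElement

open Classical in
theorem key {G : Type*} [Group G] [Finite G] {p : ℕ} [hp : Fact p.Prime] (hG : IsPGroup p G) :
    ∑ χ : {χ : IrrCharacter G // p ∣ charDegree (χ : G → ℂ)}, charDegree (χ.1 : G → ℂ) ^ 2 +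
      (commutator G).index = Nat.card G := by
  obtain ⟨k, hk⟩ := hG.exists_card_eq
  have h : ∀ χ : IrrCharacter G, ¬ p ∣ charDegree (χ : G → ℂ) ↔ (χ : G → ℂ) 1 = 1 := fun χ => by
    obtain ⟨j, -, hj⟩ := (Nat.dvd_prime_pow hp.out).1 (hk ▸ χ.2.degree_dvd_card)
    rw [← χ.2.cast_charDegree, Nat.cast_eq_one, hj]
    cases j with
    | zero => simpa using hp.out.ne_one
    | succ j => simpa [dvd_pow_self] using hp.out.ne_one
  rw [← sum_irr_charDegree_sq, ← card_irr_degree_one, ← Fintype.sum_subtype_add_sum_subtype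
    (fun χ : IrrCharacter G => p ∣ charDegree (χ : G → ℂ)), ← Nat.card_congr (Equiv.subtypeEquivRight h),
    Nat.card_eq_fintype_card, ← Finset.card_univ, Finset.card_eq_sum_ones]
  congr 1
  exact Finset.sum_congr rfl fun χ _ => by rw [charDegree_eq (n := 1) (by simpa using (h _).1 χ.2), one_pow]

theorem pg {G : Type*} [Group G] [Finite G] [Group.IsNilpotent G] {p : ℕ} [hp : Fact p.Prime]
    (h : Nat.card {χ : IrrCharacter G // p ∣ charDegree (χ : G → ℂ)} = 1) : IsPGroup p G := by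
  obtain ⟨k, m, hm, hc⟩ := Nat.exists_eq_pow_mul_and_not_dvd (Nat.card_pos (α := G)).ne' p hp.out.ne_one
  have hcop := ((Nat.Prime.coprime_iff_not_dvd hp.out).2 hm).pow_left k
  obtain ⟨A, B, -, -, hA, hB, hAB, ht⟩ := exists_split (G := G) hcop hc.dvd
  let e : A × B ≃* G := MulEquiv.ofBijective (A.subtype.noncommCoprod B.subtype fun a b => hAB a a.2 b b.2)
    ⟨(MonoidHom.noncommCoprod_injective _ _ _).2 ⟨A.subtype_injective, B.subtype_injective, by
      simpa using disjoint_iff.2 (inf_eq_bot_of_coprime ((hcop.coprime_dvd_left hA).coprime_dvd_right hB))⟩,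
    MonoidHom.range_eq_top.1 ((MonoidHom.noncommCoprod_range _ _ _).trans (by simpa using ht))⟩
  obtain ⟨hs, ⟨χ, hχ⟩⟩ := Nat.card_eq_one_iff_unique.1 h
  obtain ⟨φ, ψ, hφ, hψ, he⟩ := (χ.2.comp_equiv e).exists_prod
  have hd : ∀ ψ' : B → ℂ, IsIrrCharacter B ψ' → charDegree (fun g => φ (e.symm g).1 * ψ' (e.symm g).2) =
      charDegree φ * charDegree ψ' := fun ψ' h' => charDegree_eq (by
    simp [hφ.cast_charDegree, h'.cast_charDegree])
  have h1 : p ∣ charDegree φ := by
    have : (χ : G → ℂ) = fun g => φ (e.symm g).1 * ψ (e.symm g).2 := funext fun g => by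
      simpa using congrFun he (e.symm g)
    rw [this, hd ψ hψ] at hχ
    exact (hp.out.dvd_mul.1 hχ).resolve_right fun h => hm ((h.trans hψ.degree_dvd_card).trans hB)
  have h2 : ∀ ψ' : IrrCharacter B, ψ' = ⟨_, isIrrCharacter_one⟩ := fun ψ' => Subtype.ext (funext fun b => by
    have := congrArg (fun x => x.1.1 (e (1, b))) (hs.elim
      ⟨⟨_, (hφ.prod ψ'.2).comp_equiv e.symm⟩, (hd _ ψ'.2).symm ▸ h1.mul_right _⟩
      ⟨⟨_, (hφ.prod isIrrCharacter_one).comp_equiv e.symm⟩, (hd _ isIrrCharacter_one).symm ▸ h1.mul_right _⟩)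
    simpa [hφ.apply_one_ne_zero] using this)
  have h3 := sum_irr_charDegree_sq (G := B)
  rw [Finset.sum_eq_single ⟨_, isIrrCharacter_one⟩ (fun ψ' _ h => (h (h2 ψ')).elim) (by simp),
    charDegree_eq (n := 1) (by simp), one_pow, eq_comm, card_eq_one] at h3
  rw [h3, sup_bot_eq] at ht
  obtain ⟨j, -, hj⟩ := (Nat.dvd_prime_pow hp.out).1 hA
  exact IsPGroup.of_card (by rw [← hj, ht, card_top])

/-- Let p be a prime and G a finite nilpotent group. Then G has exactly one irreducible complex character of degree divisible by p if and only if p = 2 and G is an extraspecial 2-group. -/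
theorem result {G : Type*} [Group G] [Finite G] [Group.IsNilpotent G] (p : ℕ) [Fact p.Prime] : Nat.card {χ : Cfsg.IrrCharacter G // p ∣ Cfsg.charDegree (χ : G → ℂ)} = 1 ↔ (p = 2 ∧ Cfsg.IsExtraspecial 2 G) := by
  classical
  have hp : p.Prime := Fact.out
  refine ⟨fun h => ?_, ?_⟩
  · have hG := pg h
    have h1 := key hG
    obtain ⟨hs, ⟨χ⟩⟩ := Nat.card_eq_one_iff_unique.1 h
    rw [Finset.sum_eq_single χ (fun ψ _ h => (h (hs.elim _ _)).elim) (by simp), ← (commutator G).index_mul_card] at h1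
    obtain ⟨k, hk⟩ := hG.exists_card_eq
    obtain ⟨a, -, ha⟩ := (Nat.dvd_prime_pow hp).1 (hk ▸ χ.1.2.degree_dvd_card)
    obtain ⟨c, hc⟩ := (hG.to_subgroup (commutator G)).exists_card_eq
    have h2 : charDegree (χ.1 : G → ℂ) ^ 2 = (commutator G).index * (Nat.card (commutator G) - 1) := by
      rw [Nat.mul_sub_one]; omega
    obtain ⟨f, -, hf⟩ := (Nat.dvd_prime_pow hp).1 (show Nat.card (commutator G) - 1 ∣ p ^ (a * 2) by
      rw [pow_mul, ← ha, h2]; exact dvd_mul_left _ _)
    have h0 := pow_pos hp.pos f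
    have hc0 : c ≠ 0 := by rintro rfl; rw [pow_zero] at hc; omega
    obtain rfl : f = 0 := by
      by_contra h3
      exact hp.not_dvd_one ((Nat.dvd_add_right (dvd_pow_self p h3)).1
        (by rw [show p ^ f + 1 = p ^ c by omega]; exact dvd_pow_self p hc0))
    have h4 : Nat.card (commutator G) = 2 := by rw [pow_zero] at hf; omega
    obtain rfl : p = 2 := (Nat.prime_dvd_prime_iff_eq hp Nat.prime_two).1 (h4 ▸ hc ▸ dvd_pow_self p hc0)
    have h5 := L.le_center_of_card_prime hG _ h4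
    have h6 := χ.1.2.degree_sq_le_index χ.1.2.center_le_charCenter
    rw [h2, h4, Nat.add_one_sub_one, mul_one] at h6
    have h7 : commutator G = center G := eq_of_le_of_card_ge h5 (Nat.le_of_mul_le_mul_left (by
      rw [index_mul_card, ← (commutator G).index_mul_card]; exact Nat.mul_le_mul_right _ h6)
      (Nat.pos_of_ne_zero (center G).index_ne_zero_of_finite))
    refine ⟨rfl, ⟨hG, le_antisymm (H1.frattini_le_of_elementary hp h5 fun x => mem_center_iff.2 fun y => ?_)
      (h7.ge.trans (H1.commutator_le_frattini hG)), h7⟩, h7 ▸ h4⟩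
    have h8 : ⁅x, y⁆ ∈ commutator G := commutator_mem_commutator (mem_top x) (mem_top y)
    have h9 := mem_center_iff.1 (h5 h8) x
    have h10 : ⁅x, y⁆ ^ 2 = 1 := congrArg Subtype.val (h4 ▸ pow_card_eq_one' (x := (⟨_, h8⟩ : commutator G)))
    have e : x * y = ⁅x, y⁆ * y * x := by simp [commutatorElement_def]
    generalize ⁅x, y⁆ = c at h9 h10 e
    rw [pow_two, mul_assoc x, e, ← mul_assoc, ← mul_assoc, ← mul_assoc, h9, mul_assoc c, e, ← mul_assoc, ← mul_assoc,
      ← pow_two, h10, one_mul]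
  · rintro ⟨rfl, hG⟩
    obtain ⟨n, hn, hc⟩ := H1.IsExtraspecial.exists_card hG
    have h1 := key hG.1.1
    have h2 := (commutator G).index_mul_card
    rw [hG.1.2.2, hG.2] at h2
    rw [Finset.sum_congr rfl (g := fun _ => 2 ^ (2 * n)) fun χ _ => by
      have := (χ.1.2.degree_of_extraspecial hG hc fun h => Nat.prime_two.not_dvd_one (charDegree_eq (n := 1)
        (by simpa using χ.1.2.degree_eq_one_iff.2 (hG.1.2.2.le.trans h)) ▸ χ.2)).1
      rw [charDegree_eq (n := 2 ^ n) (by simpa using this), ← pow_mul, mul_comm], Finset.sum_const, Finset.card_univ,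
      ← Nat.card_eq_fintype_card, smul_eq_mul, hG.1.2.2] at h1
    rw [hc, pow_succ] at h1 h2
    exact Nat.eq_of_mul_eq_mul_right (pow_pos two_pos (2 * n)) (by omega)

end Cfsg.Agent.S4762
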