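import Cfsg.Statements.S4765
import Mathlib
import Cfsg.Agent.H7.GL2d

set_option autoImplicit false
open Cfsg

namespace Cfsg.Agent.S4765

open Cfsg.Agent.H3 Cfsg.Agent.H4 Cfsg.Agent.H7

/-- Let F be a finite field of characteristic p with at least 4 elements. Then PSL(2,F) has exactly one irreducible complex character of degree divisible by p, and its degree is the order of F. -/
theorem result (p : ℕ) [Fact p.Prime] (F : Type*) [Field F] [Fintype F] [CharP F p] (hF : 4 ≤ Fintype.card F) : Nat.card {χ : Cfsg.IrrCharacter (Matrix.ProjectiveSpecialLinearGroup (Fin 2) F) // p ∣ Cfsg.charDegree (χ : Matrix.ProjectiveSpecialLinearGroup (Fin 2) F → ℂ)} = 1 ∧ ∀ χ : Cfsg.IrrCharacter (Matrix.ProjectiveSpecialLinearGroup (Fin 2) F), p ∣ Cfsg.charDegree (χ : Matrix.ProjectiveSpecialLinearGroup (Fin 2) F → ℂ) → Cfsg.charDegree (χ : Matrix.ProjectiveSpecialLinearGroup (Fin 2) F → ℂ) = Fintype.card F := by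
  classical
  have key : ∀ χ : Cfsg.IrrCharacter (Matrix.ProjectiveSpecialLinearGroup (Fin 2) F),
      p ∣ Cfsg.charDegree (χ : Matrix.ProjectiveSpecialLinearGroup (Fin 2) F → ℂ) →
      (fun g : Matrix.SpecialLinearGroup (Fin 2) F => χ.1 g) = StS F := fun χ h =>
    eq_StS_of_dvd p χ.2.inflate (by simpa [charDegree] using h)
  obtain ⟨ψ, hψ, h1⟩ := (irr_StS (F := F)).exists_quotient _
    (center_le_charKer irr_StS.isCharacter (StS_neg_one.trans StS_one.symm))
  refine ⟨Nat.card_eq_one_iff_exists.2 ⟨⟨⟨ψ, hψ⟩, ?_⟩, fun χ => ?_⟩, fun χ h => ?_⟩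
  · rw [charDegree_eq (n := Fintype.card F) (by simpa [StS_one] using h1 1)]
    exact char_dvd_card F p
  · refine Subtype.ext (Subtype.ext (funext fun x => ?_))
    obtain ⟨g, rfl⟩ := QuotientGroup.mk_surjective x
    exact (congrFun (key χ.1 χ.2) g).trans (h1 g).symm
  · exact charDegree_eq (by simpa [StS_one] using congrFun (key χ h) 1)

end Cfsg.Agent.S4765
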