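import Cfsg.Statements.S4768
import Cfsg.Agent.S4713
import Cfsg.Agent.B.Cover
import Cfsg.Agent.H3.Det
import Cfsg.Agent.L.PSolv

set_option autoImplicit false
open Cfsg

namespace Cfsg.Agent.S4768

open Cfsg.Agent Cfsg.Agent.B Cfsg.Agent.H2 Cfsg.Agent.H3 Subgroup MonoidAlgebra
open scoped Pointwise commutatorElement
theorem key {G : Type*} [Group G] [Finite G] {p : ℕ} [hp : Fact p.Prime] (hG : IsPSolvable p G) {N : Subgroup G} [N.Normal]
    (hN : IsPGroup p N) [IsMulCommutative N] (h0 : N ≠ ⊥)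
    (h : ∀ χ : IrrCharacter G, ¬ N ≤ charKer χ.1 → ¬ p ∣ charDegree χ.1) (P : Sylow p G) : ∀ x ∈ P.1, ∀ y ∈ P.1, ⁅x, y⁆ ∈ N := by
  classical
  have := Fintype.ofFinite G
  have := Fintype.ofFinite N
  obtain ⟨n, hn, h1⟩ := N.bot_or_exists_ne_one.resolve_left h0
  obtain ⟨θ, hθ, h2⟩ : ∃ θ, IsIrrCharacter N θ ∧ θ ⟨n, hn⟩ ≠ θ 1 := by
    by_contra! a
    exact h1 (congrArg Subtype.val (eq_one_of_forall_irr a))
  obtain ⟨l, rfl⟩ := hθ.exists_linear_of_comm
  have hNT := hθ.isClassFunction.le_inertia (G := G)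
  set T := inertia (G := G) fun n : N => (l n : ℂ)
  have := Fintype.ofFinite T
  have a : ∀ ψ, IsIrrCharacter T ψ → classInner (resLe hNT ψ) (fun n => (l n : ℂ)) ≠ 0 → ¬ p ∣ T.index * charDegree ψ := fun ψ hψ b => by
    have c := hψ.ind_inertia_irr hθ rfl hNT b
    have d := h ⟨_, c⟩ fun e => h2 (apply_of_mem_charKer ((c.isCharacter.res N).charKer_le_of_inner hθ
      (by rwa [classInner_res_ind_inertia hψ hθ rfl hNT b]) (show (⟨n, hn⟩ : N) ∈ _ from fun x => e hn x)))
    rwa [charDegree_eq (n := T.index * charDegree ψ) (by simp [indFun_one, hψ.cast_charDegree])] at d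
  obtain ⟨χ, hχ, b⟩ := hθ.exists_over (G := G)
  obtain ⟨ψ, hψ, -, c⟩ := hχ.exists_clifford_corr hθ rfl hNT b
  have d := a ψ hψ (c ▸ b)
  obtain ⟨δ, hδ⟩ := hψ.isCharacter.exists_det
  obtain ⟨e, he⟩ := (hψ.isCharacter.resLe hNT).exists_nat_inner hθ.isCharacter
  have f := hψ.resLe_eq_smul hNT hθ le_rfl (c ▸ b)
  rw [he] at f
  obtain rfl : charDegree ψ = e := charDegree_eq ((congrFun f 1).trans (by simp))
  obtain ⟨j, hj⟩ := IsPGroup.iff_card.1 hN
  obtain ⟨k, -, hk⟩ := Nat.exists_mul_mod_eq_one_of_coprime (k := Nat.card N) (n := charDegree ψ)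
    (hj ▸ (((Nat.Prime.coprime_iff_not_dvd hp.out).2 fun e => d (e.mul_left _)).symm.pow_right j)) (Finite.one_lt_card_iff_nontrivial.2 (N.nontrivial_iff_ne_bot.2 h0))
  have g : ∀ x : N, (δ ^ k) ⟨x, hNT x.2⟩ = l x := fun x => by
    have : δ ⟨x, hNT x.2⟩ = l x ^ charDegree ψ := Units.ext (by
      have := hψ.isCharacter.detChar_comp (inclusion hNT) x
      rw [show (fun x => ψ (inclusion hNT x)) = _ from f, hθ.isCharacter.detChar_natCast_smul, detChar_linear, hδ] at this
      exact this.symm.trans (by simp))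
    rw [MonoidHom.pow_apply, this, ← pow_mul, ← map_pow, ← pow_mod_natCard, hk, pow_one]
  have hq := QuotientGroup.mk'_surjective (N.subgroupOf T)
  obtain ⟨Q⟩ : Nonempty (Sylow p T) := inferInstance
  have i := ((S4713.result p (H9.pSolv_map _ hq (H9.pSolv_sub T hG)) (Q.mapSurjective hq)).2 fun β i => by
    refine a _ ((infl _ hq β).2.mul_linear (δ ^ k)) ?_ (Dvd.dvd.mul_left (by
      rwa [charDegree_eq (n := charDegree β.1) (by simp [infl_apply, β.2.cast_charDegree])]) _)
    rw [show resLe hNT _ = β.1 1 • fun n => (l n : ℂ) from funext fun x => by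
      simp only [resLe, infl_apply, g, QuotientGroup.mk'_apply, (QuotientGroup.eq_one_iff (⟨x, hNT x.2⟩ : T)).2 (show _ ∈ N.subgroupOf T from x.2),
        Pi.smul_apply, smul_eq_mul], classInner_smul_left, hθ.inner_self, mul_one]
    exact β.2.apply_one_ne_zero).2
  obtain ⟨z, rfl⟩ := MulAction.exists_smul_eq G ((Q.2.map T.subtype).toSylow (by
    rw [index_map_subtype]
    exact fun e => (hp.out.dvd_mul.1 e).elim Q.not_dvd_index fun e => d (e.mul_right _))) P
  rintro _ ⟨_, ⟨x, hx, rfl⟩, rfl⟩ _ ⟨_, ⟨y, hy, rfl⟩, rfl⟩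
  have : ⁅x, y⁆ ∈ N.subgroupOf T := (QuotientGroup.eq_one_iff _).1 (by
    rw [← QuotientGroup.mk'_apply, map_commutatorElement, commutatorElement_eq_one_iff_mul_comm]
    exact congrArg Subtype.val (i.is_comm.comm ⟨_, mem_map_of_mem _ hx⟩ ⟨_, mem_map_of_mem _ hy⟩))
  convert ‹N.Normal›.conj_mem _ this z using 1
  simp [commutatorElement_def, mul_assoc]

/-- Let p be a prime, G a finite p-solvable group and P a Sylow p-subgroup of G. If n is the number of irreducible complex characters of G whose degree is divisible by p, then the (n+1)-st term of the derived series of P is trivial. (The p-solvable case has a direct inductive proof.) -/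
theorem result {G : Type*} [Group G] [Finite G] (p : ℕ) [Fact p.Prime] (hG : Cfsg.IsPSolvable p G) (P : Sylow p G) : derivedSeries ↥(P : Subgroup G) (Nat.card {χ : Cfsg.IrrCharacter G // p ∣ Cfsg.charDegree (χ : G → ℂ)} + 1) = ⊥ := by
  induction hn : Nat.card G using Nat.strong_induction_on generalizing G with
  | _ n ih =>
  have hp : p.Prime := Fact.out
  have ab : ∀ (N : Subgroup G) [IsMulCommutative N] (k : ℕ), derivedSeries P k ≤ N.subgroupOf P → derivedSeries P (k + 1) = ⊥ := fun N _ k h =>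
    commutator_eq_bot_iff_le_centralizer.2 fun x hx y hy =>
      Subtype.ext (congrArg (Subtype.val : N → G) ((‹IsMulCommutative N›).is_comm.comm ⟨_, h hy⟩ ⟨_, h hx⟩))
  rcases Nat.eq_zero_or_pos (Nat.card {χ : IrrCharacter G // p ∣ charDegree χ.1}) with h0 | h0
  · have := ((S4713.result p hG P).2 fun χ a => (Finite.card_eq_zero_iff.1 h0).elim ⟨χ, a⟩).2
    exact h0 ▸ ab P 0 fun x _ => x.2
  have q : ∀ (N : Subgroup G) [N.Normal], N ≠ ⊥ → ∃ m, derivedSeries P (m + 1) ≤ N.subgroupOf P ∧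
      m ≤ Nat.card {χ : IrrCharacter G // p ∣ charDegree χ.1} ∧ ∀ χ : IrrCharacter G, ¬ N ≤ charKer χ.1 → p ∣ charDegree χ.1 →
        m < Nat.card {χ : IrrCharacter G // p ∣ charDegree χ.1} := fun N _ h => by
    have hq := QuotientGroup.mk'_surjective N
    let f : {χ : IrrCharacter (G ⧸ N) // p ∣ charDegree χ.1} → {χ : IrrCharacter G // p ∣ charDegree χ.1} := fun χ =>
      ⟨infl _ hq χ.1, by rw [charDegree_eq (n := charDegree χ.1.1) (by simp [infl_apply, χ.1.2.cast_charDegree])]; exact χ.2⟩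
    have hf : Function.Injective f := fun a b e => Subtype.ext (infl_injective _ hq (congrArg Subtype.val e))
    refine ⟨_, ?_, Nat.card_le_card_of_injective f hf, fun χ a b => lt_of_not_ge fun c => a ?_⟩
    · have := ih _ (hn ▸ card_quot_lt h) (H9.pSolv_map _ hq hG) (P.mapSurjective hq) rfl
      have := (Subgroup.map_eq_bot_iff _).1 ((map_derivedSeries_eq ((QuotientGroup.mk' N).subgroupMap_surjective P.1) _).trans this)
      exact fun x hx => (QuotientGroup.eq_one_iff (x : G)).1 (congrArg Subtype.val (this hx))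
    obtain ⟨ξ, e⟩ := (hf.bijective_of_nat_card_le c).2 ⟨χ, b⟩
    obtain rfl : infl _ hq ξ.1 = χ := congrArg Subtype.val e
    exact fun y hy => (infl _ hq ξ.1).2.mem_charKer_iff.2 (by
      simp only [infl_apply, QuotientGroup.mk'_apply, (QuotientGroup.eq_one_iff y).2 hy, QuotientGroup.mk_one])
  by_cases h1 : pPrimeCore p G = ⊥
  · by_cases h2 : pCore p G = ⊥
    · have := L.centralizer_pCore_le_of_isPSolvable hG h1
      rw [h2] at this
      exact eq_bot_iff.2 fun x _ => mem_bot.2 (Subtype.ext (mem_bot.1 (this fun y hy => by rw [mem_bot.1 hy]; simp)))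
    have := (nontrivial_iff_ne_bot _).2 h2
    have a := (L.pCore_isPGroup p G).center_nontrivial
    have b : (center (pCore p G)).map (pCore p G).subtype ≠ ⊥ := fun b =>
      (nontrivial_iff_ne_bot _).1 a ((map_eq_bot_iff_of_injective _ (subtype_injective _)).1 b)
    obtain ⟨m, c, d, e⟩ := q _ b
    by_cases f : ∀ χ : IrrCharacter G, ¬ (center (pCore p G)).map (pCore p G).subtype ≤ charKer χ.1 → ¬ p ∣ charDegree χ.1
    · exact eq_bot_iff.2 ((derivedSeries_antitone _ (by omega)).trans (ab ((center (pCore p G)).map (pCore p G).subtype) 1 (commutator_le.2 fun x _ y _ =>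
        key hG (((L.pCore_isPGroup p G).to_subgroup _).map _) b f P _ x.2 _ y.2)).le)
    push Not at f
    obtain ⟨χ, f, g⟩ := f
    exact eq_bot_iff.2 ((derivedSeries_antitone _ (by have := e χ f g; omega)).trans (ab _ _ c).le)
  obtain ⟨m, c, d, -⟩ := q _ h1
  refine eq_bot_iff.2 ((derivedSeries_antitone _ (by omega)).trans (c.trans fun x hx => Subtype.ext ?_))
  exact (pElt_of_mem P.2 x.2).eq_one (reg_of_mem (H1.not_dvd_card_pPrimeCore p G) hx)

end Cfsg.Agent.S4768
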