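import Cfsg.Statements.S4774
import Mathlib
import Cfsg.Agent.H7.GL2d

set_option autoImplicit false
open Cfsg

namespace Cfsg.Agent.S4774

open Cfsg.Agent.H3 Cfsg.Agent.H4 Cfsg.Agent.H7

/-- Let F be a finite field of odd characteristic t with q > 5 elements and let S be isomorphic to PSL(2,F) or to SL(2,F). Then the vertices of the character degree graph of S are the primes dividing q(q²−1); the prime t is adjacent to no vertex; two distinct primes dividing q² − 1 are adjacent exactly when one of them is 2, or both divide q + 1, or both divide q − 1. -/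
theorem result (F : Type*) [Field F] [Fintype F] (t : ℕ) [Fact t.Prime] [CharP F t] (ht : t ≠ 2) (q : ℕ) (hq : Fintype.card F = q) (h5 : 5 < q) {S : Type*} [Group S] [Finite S] (hS : Nonempty (S ≃* Matrix.ProjectiveSpecialLinearGroup (Fin 2) F) ∨ Nonempty (S ≃* Matrix.SpecialLinearGroup (Fin 2) F)) : Cfsg.degreePrimes S = {r : ℕ | r.Prime ∧ r ∣ q * (q ^ 2 - 1)} ∧ ∀ r s : ℕ, (Cfsg.degreeGraph S).Adj r s ↔ (r ≠ s ∧ r.Prime ∧ s.Prime ∧ r ∣ q ^ 2 - 1 ∧ s ∣ q ^ 2 - 1 ∧ (r = 2 ∨ s = 2 ∨ (r ∣ q + 1 ∧ s ∣ q + 1) ∨ (r ∣ q - 1 ∧ s ∣ q - 1))) := by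
  classical
  subst hq
  obtain ⟨n, -, hn⟩ := FiniteField.card F t
  obtain ⟨m, hm⟩ : Odd (Fintype.card F) := hn ▸ ((Fact.out : t.Prime).odd_of_ne_two ht).pow
  have a1 := q_mem_deg hS
  have a2 := succ_mem_deg hS fun h => by have := Nat.le_of_dvd (by norm_num) h; omega
  have a3 := pred_mem_deg hS fun h => by have := Nat.le_of_dvd (by norm_num) h; omega
  have b1 : (Fintype.card F + 1) / 2 ∣ Fintype.card F + 1 := Dvd.intro 2 (by omega)
  have b2 : (Fintype.card F - 1) / 2 ∣ Fintype.card F - 1 := Dvd.intro 2 (by omega)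
  have b3 : 2 ∣ Fintype.card F + 1 := by omega
  have b4 : 2 ∣ Fintype.card F - 1 := by omega
  refine ⟨Set.ext fun r => and_congr_right fun hr => ⟨?_, fun h => ?_⟩, fun r s => ?_⟩
  · rintro ⟨d, hd, h⟩
    rw [sq_sub_one_eq]
    rcases deg_of_mem hS hd with rfl | rfl | rfl | rfl | ⟨-, rfl | rfl⟩
    · exact h.trans (one_dvd _)
    · exact h.mul_right _
    · exact (h.mul_right _).mul_left _
    · exact (h.mul_left _).mul_left _
    · exact ((h.trans b1).mul_right _).mul_left _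
    · exact ((h.trans b2).mul_left _).mul_left _
  · rw [sq_sub_one_eq, hr.dvd_mul, hr.dvd_mul] at h
    rcases h with h | h | h
    exacts [⟨_, a1, h⟩, ⟨_, a2, h⟩, ⟨_, a3, h⟩]
  · refine and_congr_right fun hrs => and_congr_right fun hr => and_congr_right fun hs => ?_
    rw [sq_sub_one_eq, hr.dvd_mul, hs.dvd_mul]
    have hc := (Nat.coprime_primes hr hs).2 hrs
    have key : ∀ d, r * s ∣ d ↔ r ∣ d ∧ s ∣ d := fun d =>
      ⟨fun h => ⟨dvd_of_mul_right_dvd h, dvd_of_mul_left_dvd h⟩, fun h => hc.mul_dvd_of_dvd_of_dvd h.1 h.2⟩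
    simp only [key]
    constructor
    · rintro ⟨d, hd, h1, h2⟩
      rcases deg_of_mem hS hd with rfl | rfl | rfl | rfl | ⟨-, rfl | rfl⟩
      · exact absurd (Nat.dvd_one.1 h1) hr.one_lt.ne'
      · rw [hn] at h1 h2
        exact absurd (((Nat.prime_dvd_prime_iff_eq hr Fact.out).1 (hr.dvd_of_dvd_pow h1)).trans
          ((Nat.prime_dvd_prime_iff_eq hs Fact.out).1 (hs.dvd_of_dvd_pow h2)).symm) hrs
      · tauto
      · tauto
      · have := h1.trans b1; have := h2.trans b1; tauto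
      · have := h1.trans b2; have := h2.trans b2; tauto
    · rintro ⟨h1, h2, rfl | rfl | h | h⟩
      · rcases h2 with h2 | h2
        exacts [⟨_, a2, b3, h2⟩, ⟨_, a3, b4, h2⟩]
      · rcases h1 with h1 | h1
        exacts [⟨_, a2, h1, b3⟩, ⟨_, a3, h1, b4⟩]
      exacts [⟨_, a2, h⟩, ⟨_, a3, h⟩]

end Cfsg.Agent.S4774
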