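import Cfsg.Statements.S4775
import Mathlib
import Cfsg.Agent.H7.Sz5

set_option autoImplicit false
open Cfsg

namespace Cfsg.Agent.S4775

open Cfsg.Agent.H7.Suz Cfsg.Agent.H3

theorem degs_le {G H : Type*} [Group G] [Group H] (e : G ≃* H) : charDegrees H ⊆ charDegrees G := by
  rintro _ ⟨χ, rfl⟩
  exact ⟨⟨_, χ.2.comp_equiv e⟩, by simp [charDegree]⟩

/-- Let F be a finite field with q = 2^(2m+1) ≥ 8 elements and let S be isomorphic to the Suzuki group over F. Then the vertices of the character degree graph of S are 2 and the primes dividing (q − 1)(q² + 1); the primes dividing (q − 1)(q² + 1) are pairwise adjacent, and 2 is adjacent exactly to the primes dividing q − 1. -/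
theorem result (F : Type*) [Field F] [Fintype F] (m : ℕ) (hm : 1 ≤ m) (q : ℕ) (hq : Fintype.card F = q) (hqm : q = 2 ^ (2 * m + 1)) {S : Type*} [Group S] [Finite S] (hS : Nonempty (S ≃* ↥(Cfsg.Lie.Sz F (2 ^ (m + 1))))) : Cfsg.degreePrimes S = {r : ℕ | r.Prime ∧ (r = 2 ∨ r ∣ (q - 1) * (q ^ 2 + 1))} ∧ ∀ r s : ℕ, (Cfsg.degreeGraph S).Adj r s ↔ (r ≠ s ∧ r.Prime ∧ s.Prime ∧ ((r ∣ (q - 1) * (q ^ 2 + 1) ∧ s ∣ (q - 1) * (q ^ 2 + 1)) ∨ (r = 2 ∧ s ∣ q - 1) ∨ (s = 2 ∧ r ∣ q - 1))) := by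
  subst hq
  haveI : SzF F m := ⟨hm, hqm⟩
  obtain ⟨e⟩ := hS
  obtain ⟨a₁, a₂, h1, h2⟩ := degrees (F := F)
  rw [← (degs_le (e.trans (lieEquiv F).symm).symm).antisymm (degs_le (e.trans (lieEquiv F).symm))]
    at h2
  have e8 := eight_le (F := F)
  obtain ⟨n, hn⟩ : ∃ n, Fintype.card F = n + 1 := ⟨_, (Nat.sub_add_cancel (by omega)).symm⟩
  have h3 : ∀ r : ℕ, r.Prime → (r ∣ Fintype.card F ^ 2 ↔ r = 2) := fun r hr => by
    rw [hqm, ← pow_mul, hr.prime.dvd_pow_iff_dvd (by omega), Nat.prime_dvd_prime_iff_eq hr Nat.prime_two]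
  have h4 : ∀ r : ℕ, r.Prime → (r ∣ 2 ^ m ↔ r = 2) := fun r hr => by
    rw [hr.prime.dvd_pow_iff_dvd (by omega), Nat.prime_dvd_prime_iff_eq hr Nat.prime_two]
  have h5 : 2 ∣ Fintype.card F := two_dvd_card
  have h6 : ¬ 2 ∣ Fintype.card F - 1 := by omega
  have h7 : ¬ 2 ∣ Fintype.card F ^ 2 + 1 := by
    have := h5.trans (dvd_pow_self _ two_ne_zero); omega
  have h8 : ∀ r s d : ℕ, r ≠ s → r.Prime → s.Prime → (r * s ∣ d ↔ r ∣ d ∧ s ∣ d) :=
    fun r s d h hr hs => ⟨fun h => ⟨(dvd_mul_right _ _).trans h, (dvd_mul_left _ _).trans h⟩,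
      fun h' => ((Nat.coprime_primes hr hs).2 h).mul_dvd_of_dvd_of_dvd h'.1 h'.2⟩
  refine ⟨Set.ext fun r => and_congr_right fun hr => ?_, fun r s => and_congr_right fun h =>
    and_congr_right fun hr => and_congr_right fun hs => ?_⟩
  · simp only [h2, Set.mem_insert_iff, Set.mem_singleton_iff, exists_eq_or_imp, exists_eq_left,
      h3 r hr, ← h1, hr.dvd_mul, h4 r hr, Nat.dvd_one, hr.ne_one]
    tauto
  · rw [← h1, Nat.prime_two.dvd_mul, not_or] at h7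
    simp only [h2, Set.mem_insert_iff, Set.mem_singleton_iff, exists_eq_or_imp, exists_eq_left,
      h8 r s _ h hr hs, h3 r hr, h3 s hs, ← h1, hr.dvd_mul, hs.dvd_mul, h4 r hr, h4 s hs,
      Nat.dvd_one, hr.ne_one]
    by_cases e1 : r = 2
    · subst e1; simp [h6, h7, h.symm]
    · by_cases e2 : s = 2
      · subst e2; simp [h6, h7, h]
      · simp only [e1, e2]; tauto

end Cfsg.Agent.S4775
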