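import Cfsg.Statements.S4784
import Cfsg.Agent.C3.Deg

set_option autoImplicit false
open Cfsg

namespace Cfsg.Agent.S4784

open H3 C3 Finset Subgroup

/-- Let H be a subgroup of the finite group G and consider the permutation character of G on the cosets of H (the function induced from the principal character of H). Then exactly one irreducible constituent of it is real-valued with Frobenius–Schur indicator +1 (namely the principal character) if and only if the normal core of H has odd index in G. -/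
theorem result {G : Type*} [Group G] [Fintype G] (H : Subgroup G) : Nat.card {χ : Cfsg.IrrCharacter G // Cfsg.classInner (Cfsg.indFun H (fun _ : H => (1 : ℂ))) (χ : G → ℂ) ≠ 0 ∧ (∀ g : G, (starRingEnd ℂ) ((χ : G → ℂ) g) = (χ : G → ℂ) g) ∧ (Nat.card G : ℂ)⁻¹ * ∑ g : G, (χ : G → ℂ) (g * g) = 1} = 1 ↔ Odd H.normalCore.index := by
  classical
  have := Fintype.ofFinite H
  have h1 : classInner (indFun H fun _ => (1 : ℂ)) (fun _ => 1) = 1 := by
    rw [classInner_indFun_left _ (isClassFunction_const 1)]; exact isIrrCharacter_one.inner_self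
  rw [Nat.card_eq_one_iff_unique]
  refine ⟨fun ⟨h, _⟩ => by_contra fun h0 => ?_, fun h => ⟨⟨fun χ ψ => ?_⟩, ⟨⟨_, isIrrCharacter_one⟩,
    by simp [h1], by simp, by simp⟩⟩⟩
  swap
  · suffices ∀ χ : IrrCharacter G, classInner (indFun H fun _ => (1 : ℂ)) χ ≠ 0 →
        (∀ g, (starRingEnd ℂ) (χ.1 g) = χ.1 g) → χ.1 = fun _ => 1 from
      Subtype.ext (Subtype.ext ((this _ χ.2.1 χ.2.2.1).trans (this _ ψ.2.1 ψ.2.2.1).symm))
    intro χ a b
    obtain ⟨φ, c, d⟩ := χ.2.exists_quotient H.normalCore (((le_charKer_ind_iff H.normalCore_le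
      isCharacter_one).2 fun _ _ => mem_charKer.2 fun _ => rfl).trans
      (isCharacter_one.ind.charKer_le_of_inner χ.2 a))
    have e := c.eq_one_of_real_of_odd h (funext fun g => by
      obtain ⟨g, rfl⟩ := QuotientGroup.mk_surjective g
      rw [d, b])
    exact funext fun g => by rw [← d, e]
  have := Fact.mk Nat.prime_two
  obtain ⟨t, a⟩ := exists_prime_orderOf_dvd_card' (G := G ⧸ H.normalCore) 2
    (even_iff_two_dvd.1 (Nat.not_odd_iff_even.1 h0))
  obtain ⟨t, rfl⟩ := QuotientGroup.mk_surjective t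
  have b : t * t ∈ H.normalCore := (QuotientGroup.eq_one_iff _).1 (by
    rw [QuotientGroup.mk_mul, ← sq, ← a, pow_orderOf_eq_one])
  have c : t ∉ H.normalCore := fun c => by simp [(QuotientGroup.eq_one_iff _).2 c] at a
  rw [normalCore_eq_ker] at b c
  obtain ⟨w, d⟩ : ∃ w : G ⧸ H, t • w ≠ w := by
    by_contra! d; exact c (Equiv.ext d)
  obtain ⟨m, e, f⟩ := (isCharacter_one (G := H)).ind.exists_nat_coeffs
  have i : (fsInd (indFun H fun _ => (1 : ℂ))).re ≤ 1 := by
    have : fsInd (indFun H fun _ => (1 : ℂ)) = ∑ χ : IrrCharacter G, m χ * fsInd χ.1 := by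
      rw [f]
      simp only [fsInd, Finset.sum_apply, Pi.smul_apply, smul_eq_mul, mul_sum]
      rw [sum_comm]
      exact sum_congr rfl fun _ _ => sum_congr rfl fun _ _ => by ring
    rw [this, Complex.re_sum, ← add_sum_erase _ _ (mem_univ (⟨_, isIrrCharacter_one⟩ : IrrCharacter G)),
      ← e, h1]
    have := sum_nonpos (s := univ.erase (⟨_, isIrrCharacter_one⟩ : IrrCharacter G))
      (f := fun χ => ((m χ : ℂ) * fsInd χ.1).re) fun χ j => by
        rcases χ.2.fsInd_cases with k | k | k
        · simp [k]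
        · by_cases l : m χ = 0
          · simp [l]
          exact ((mem_erase.1 j).1 (congrArg Subtype.val (h.elim ⟨χ, by simpa [e], congrFun
            (real_of_fsInd χ.2 (by simp [k])), k⟩ ⟨⟨_, isIrrCharacter_one⟩, by simp [h1], by simp, by simp⟩))).elim
        · simp [k]
    simpa [fsInd] using this
  have j : ∑ g : G, Nat.card (MulAction.fixedBy (G ⧸ H) g) = Nat.card G := by
    have := card_mul_classInner (indFun H fun _ => (1 : ℂ)) (fun _ => 1)
    simp only [h1, indFun_one_eq_card_fixedBy, map_one, mul_one] at this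
    exact_mod_cast this.symm
  have k : ∑ g : G, Nat.card (MulAction.fixedBy (G ⧸ H) g) <
      ∑ g : G, Nat.card (MulAction.fixedBy (G ⧸ H) (g * g)) := by
    have l : ∀ g : G, MulAction.fixedBy (G ⧸ H) g ⊆ MulAction.fixedBy (G ⧸ H) (g * g) := fun g x l => by
      rw [MulAction.mem_fixedBy] at l ⊢; rw [mul_smul, l, l]
    exact sum_lt_sum (fun g _ => Set.ncard_le_ncard (l g)) ⟨t, mem_univ _, Set.ncard_lt_ncard
      ⟨l t, fun n => d (n (Equiv.congr_fun b w))⟩⟩
  simp only [fsInd, indFun_one_eq_card_fixedBy] at i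
  rw [← Nat.cast_sum, ← Complex.ofReal_natCast, ← Complex.ofReal_natCast, ← Complex.ofReal_inv,
    ← Complex.ofReal_mul, Complex.ofReal_re, inv_mul_le_iff₀ (by exact_mod_cast Nat.card_pos), mul_one,
    Nat.cast_le] at i
  omega

end Cfsg.Agent.S4784
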