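import Cfsg.Statements.S4796
import Cfsg.Agent.C3.Deg2

set_option autoImplicit false
open Cfsg

namespace Cfsg.Agent.S4796

open H3 C3 Subgroup

/-- Let G be a finite group with a faithful irreducible complex character χ whose codegree #G / χ(1) is a prime p (for a faithful character the kernel is trivial, so the codegree is #G / χ(1)). Then either G is cyclic of order p, or G is a Frobenius group whose Frobenius kernel has order p: some proper non-trivial subgroup H satisfies H ∩ gHg⁻¹ = 1 for every element g outside H, and the set of elements lying in no conjugate of H, together with the identity, has exactly p elements. -/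
theorem result {G : Type*} [Group G] [Finite G] (χ : Cfsg.IrrCharacter G) (hfaith : ∀ g : G, (χ : G → ℂ) g = (χ : G → ℂ) 1 → g = 1) (p : ℕ) (hp : p.Prime) (hcod : Nat.card G = p * Cfsg.charDegree (χ : G → ℂ)) : (IsCyclic G ∧ Nat.card G = p) ∨ ∃ H : Subgroup G, Cfsg.IsFrobeniusComplement H ∧ Nat.card ↥(Cfsg.frobeniusKernel H) = p := by
  obtain ⟨P, a, b, c, d⟩ := cod_prime χ.2 (ker_eq_bot hfaith) hp hcod
  by_cases e : P = ⊤
  · have := Fact.mk hp
    have f : Nat.card G = p := by rw [← b, e, card_top]
    exact .inl ⟨isCyclic_of_prime_card f, f⟩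
  obtain ⟨H, f⟩ := exists_right_complement'_of_coprime d
  have i : L.FPF P H := .of_forall fun x j k y l m => by_contra fun n => k (by
    have := H1.eq_of_le_of_card_prime (b ▸ hp) (zpowers_le.2 l) (by simpa)
    exact f.disjoint.le_bot ⟨c (by
      rw [← this, H1.centralizer_zpowers]; exact mem_centralizer_singleton_iff.2 m), j⟩)
  refine .inr ⟨H, L.frobenius_of_fpf f.sup_eq_top (fun j => hp.one_lt.ne' (by rw [← b, j, card_bot]))
    (fun j => e (by simpa [j] using f.sup_eq_top)) i, ?_⟩
  rw [GS.frobKernel_eq f.sup_eq_top i]; exact b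

end Cfsg.Agent.S4796
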