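import Cfsg.Statements.S4797
import Cfsg.Agent.C3.Deg2

set_option autoImplicit false
open Cfsg

namespace Cfsg.Agent.S4797

open H3 C3 Subgroup

/-- The codegree of an irreducible complex character χ of a finite group G is [G : ker χ] / χ(1), where ker χ is the set of elements at which χ takes the value χ(1). A non-trivial finite group is perfect if and only if no irreducible complex character of it has prime codegree. -/
theorem result {G : Type*} [Group G] [Finite G] [Nontrivial G] : commutator G = ⊤ ↔ ∀ χ : Cfsg.IrrCharacter G, ¬ ((Nat.card G / (Nat.card {g : G // (χ : G → ℂ) g = (χ : G → ℂ) 1} * Cfsg.charDegree (χ : G → ℂ)))).Prime := by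
  refine ⟨fun h χ hp => ?_, fun h => by_contra fun h0 => ?_⟩
  · have := χ.2.isClassFunction.charKer_normal
    obtain ⟨φ, d, e, f, i⟩ := exists_faithful_quot χ.2 _ rfl
    obtain ⟨P, a, b, c, j⟩ := cod_prime d f hp (by rw [← index_eq_card, i, cod_mul χ.2])
    have k : commutator (G ⧸ charKer (χ : G → ℂ)) = ⊤ := by
      rw [commutator_def, ← map_top_of_surjective _ (QuotientGroup.mk'_surjective _), ← map_commutator,
        ← commutator_def, h]
    have := Fact.mk hp
    have := isCyclic_of_prime_card b
    have l : P = ⊤ := top_le_iff.1 (k.ge.trans ((L.commutator_le_centralizer_of_isCyclic P).trans c))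
    subst l
    have : IsMulCommutative (G ⧸ charKer (χ : G → ℂ)) := by
      have := isCyclic_of_surjective _ (topEquiv (G := G ⧸ charKer (χ : G → ℂ))).surjective
      infer_instance
    rw [(commutator_eq_bot_iff _).2 this] at k
    exact hp.one_lt.ne' (by rw [← b, ← k, card_bot])
  · obtain ⟨M, a, b⟩ := (eq_top_or_exists_le_coatom (commutator G)).resolve_left h0
    have : M.Normal := ⟨fun x c g => by
      simpa [commutatorElement_def] using mul_mem (b (commutator_mem_commutator (mem_top g) (mem_top x))) c⟩
    have c := L.index_prime_of_isCoatom_normal a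
    have := Fact.mk c
    have : IsCyclic (G ⧸ M) := isCyclic_of_prime_card (p := M.index) rfl
    obtain ⟨l, d⟩ := exists_injective_linear (G := G ⧸ M)
    have e := isIrrCharacter_linear (l.comp (QuotientGroup.mk' M))
    have f := cod_mul e
    rw [charKer_linear, MonoidHom.ker_comp_of_injective _ _ d, QuotientGroup.ker_mk'] at f
    refine h ⟨_, e⟩ ?_
    rw [charDegree_eq (n := 1) (by simp)] at f ⊢
    rw [mul_one] at f
    exact f ▸ c

end Cfsg.Agent.S4797
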