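import Cfsg.Statements.S4798
import Cfsg.Agent.C3.Deg

set_option autoImplicit false
open Cfsg

namespace Cfsg.Agent.S4798

open H3 C3

/-- Let p be a prime and χ a faithful irreducible complex character of the finite group G (χ(g) = χ(1) only for g = 1), so that its codegree is #G / χ(1). Then #G / χ(1) is a power of p if and only if χ is induced from a character of a Sylow p-subgroup of G. -/
theorem result {G : Type*} [Group G] [Fintype G] (p : ℕ) [Fact p.Prime] (χ : Cfsg.IrrCharacter G) (hfaith : ∀ g : G, (χ : G → ℂ) g = (χ : G → ℂ) 1 → g = 1) : (∃ k : ℕ, Nat.card G = p ^ k * Cfsg.charDegree (χ : G → ℂ)) ↔ ∃ (P : Sylow p G) (θ : ↥(P : Subgroup G) → ℂ), Cfsg.IsCharacter ↥(P : Subgroup G) θ ∧ (χ : G → ℂ) = Cfsg.indFun (P : Subgroup G) θ := by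
  have hp : p.Prime := Fact.out
  refine ⟨fun ⟨k, h⟩ => ?_, fun ⟨P, θ, a, b⟩ => ?_⟩
  · obtain ⟨P⟩ := (inferInstance : Nonempty (Sylow p G))
    have := Fintype.ofFinite (P : Subgroup G)
    obtain ⟨n, hn⟩ := P.2.exists_card_eq
    by_contra h0
    obtain ⟨c, a, b⟩ := (χ.2.isCharacter.res P).exists_nat_coeffs
    have e : charDegree (χ : G → ℂ) = ∑ φ : IrrCharacter (P : Subgroup G), c φ * charDegree φ.1 := by
      have := congrFun b 1
      simp only [Finset.sum_apply, Pi.smul_apply, smul_eq_mul, OneMemClass.coe_one,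
        ← IsIrrCharacter.cast_charDegree (Subtype.prop _)] at this
      exact_mod_cast this
    refine P.not_dvd_index (Nat.dvd_of_mul_dvd_mul_left (pow_pos hp.pos n) ?_)
    rw [← pow_succ, ← hn, Subgroup.card_mul_index, h, e, Finset.mul_sum]
    refine Finset.dvd_sum fun φ _ => ?_
    by_cases d : c φ = 0
    · simp [d]
    obtain ⟨j, -, f⟩ := (Nat.dvd_prime_pow hp).1 (hn ▸ φ.2.degree_dvd_card)
    have i : classInner (indFun _ φ.1) (χ : G → ℂ) ≠ 0 := by
      rw [classInner_indFun_left _ χ.2.isClassFunction, Ne, classInner_eq_zero_comm, a]; simpa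
    have l := φ.2.isCharacter.ind.degree_le_of_inner_ne_zero χ.2 i
    have m : charDegree (indFun _ φ.1) = (P : Subgroup G).index * p ^ j := charDegree_eq (by
      rw [indFun_one, ← φ.2.cast_charDegree, f]; simp)
    have o := lt_of_le_of_ne l fun o => h0 ⟨P, φ, φ.2.isCharacter,
      (φ.2.isCharacter.ind.eq_of_inner_ne_zero_of_degree χ.2 i (by
        rw [← φ.2.isCharacter.ind.cast_charDegree, ← o, χ.2.cast_charDegree])).symm⟩
    rw [f, mul_left_comm, ← pow_add]
    refine Dvd.dvd.mul_left (pow_dvd_pow _ ((Nat.pow_lt_pow_iff_right hp.one_lt).1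
      (Nat.lt_of_mul_lt_mul_right (a := (P : Subgroup G).index) ?_))) _
    rw [← hn, Subgroup.card_mul_index, h, pow_add, mul_assoc, mul_comm (p ^ j), ← m]
    exact Nat.mul_lt_mul_of_pos_left o (pow_pos hp.pos _)
  · obtain ⟨n, hn⟩ := P.2.exists_card_eq
    obtain ⟨m, c⟩ := (a.irr_of_ind_irr (b ▸ χ.2)).degree_dvd_card
    obtain ⟨k, -, d⟩ := (Nat.dvd_prime_pow hp).1 (hn ▸ Dvd.intro_left _ c.symm)
    refine ⟨k, ?_⟩
    rw [charDegree_eq (n := (P : Subgroup G).index * charDegree θ) (by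
      rw [b, indFun_one, ← a.cast_charDegree]; simp), ← (P : Subgroup G).card_mul_index, c, d]
    ring

end Cfsg.Agent.S4798
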