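import Cfsg.Statements.S4801
import Cfsg.Agent.C3.Deg

set_option autoImplicit false
open Cfsg

namespace Cfsg.Agent.S4801

open H3 C3

/-- The codegree of an irreducible complex character χ of a finite group G is [G : ker χ] / χ(1), where ker χ is the set of elements at which χ takes the value χ(1). Let S be a finite simple group and G a finite group such that every codegree of an irreducible character of S is a codegree of an irreducible character of G. Then the order of S divides the order of G. -/
theorem result {S : Type*} [Group S] [Finite S] (hS : IsSimpleGroup S) {G : Type*} [Group G] [Finite G] (hsub : ∀ χ : Cfsg.IrrCharacter S, ∃ ψ : Cfsg.IrrCharacter G, (Nat.card S / (Nat.card {g : S // (χ : S → ℂ) g = (χ : S → ℂ) 1} * Cfsg.charDegree (χ : S → ℂ))) = (Nat.card G / (Nat.card {g : G // (ψ : G → ℂ) g = (ψ : G → ℂ) 1} * Cfsg.charDegree (ψ : G → ℂ)))) : Nat.card S ∣ Nat.card G := by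
  classical
  obtain ⟨x, a⟩ := exists_ne (1 : S)
  have b := sum_irr_degree_mul_of_ne a
  rw [← Finset.add_sum_erase _ _ (Finset.mem_univ (⟨_, isIrrCharacter_one⟩ : IrrCharacter S))] at b
  refine nat_dvd_of_isIntegral_div Nat.card_pos.ne' ?_
  simp only [mul_one] at b
  rw [div_eq_mul_inv, ← mul_one (_ * _), eq_neg_of_add_eq_zero_left b, mul_neg, Finset.mul_sum]
  refine (IsIntegral.sum _ fun χ c => ?_).neg
  obtain ⟨ψ, d⟩ := hsub χ
  have e := cod_mul χ.2
  obtain ⟨k, f⟩ := d ▸ cod_dvd ψ.2
  rw [χ.2.charKer_eq_bot_of_simple fun i => (Finset.mem_erase.1 c).1 (Subtype.ext i),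
    Subgroup.index_bot] at e
  generalize Nat.card S / _ = u at *
  have : (u : ℂ) ≠ 0 := by rintro i; exact card_ne_zero (G := S) (by rw [← e]; simp [i])
  have i := χ.2.apply_one_ne_zero
  rw [f, ← e, Nat.cast_mul, Nat.cast_mul, χ.2.cast_charDegree]
  convert (isIntegral_nat k).mul (χ.2.isCharacter.isIntegral x) using 1
  field_simp

end Cfsg.Agent.S4801
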