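import Cfsg.Statements.S4802
import Cfsg.Agent.H3.Misc

set_option autoImplicit false
open Cfsg

namespace Cfsg.Agent.S4802

open H3

/-- Let N < M be normal subgroups of the finite group G and g ∈ M ∖ N. Then the conjugacy class of g is exactly M ∖ N if and only if every irreducible complex character of G whose kernel contains N takes the same value at all elements of M ∖ N, and every irreducible complex character of G whose kernel does not contain N vanishes at g. -/
theorem result {G : Type*} [Group G] [Finite G] (N M : Subgroup G) [N.Normal] [M.Normal] (hNM : N < M) (g : G) (hgM : g ∈ M) (hgN : g ∉ N) : {h : G | IsConj g h} = (M : Set G) \ (N : Set G) ↔ ((∀ χ : Cfsg.IrrCharacter G, (∀ x ∈ N, (χ : G → ℂ) x = (χ : G → ℂ) 1) → ∀ x ∈ M, x ∉ N → ∀ y ∈ M, y ∉ N → (χ : G → ℂ) x = (χ : G → ℂ) y) ∧ (∀ χ : Cfsg.IrrCharacter G, (∃ x ∈ N, (χ : G → ℂ) x ≠ (χ : G → ℂ) 1) → (χ : G → ℂ) g = 0)) := by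
  have := Fintype.ofFinite N
  refine ⟨fun h => ?_, fun ⟨h1, h2⟩ => Set.ext fun z => ⟨fun c => ?_, fun c => by_contra fun d => ?_⟩⟩
  · have a : ∀ χ : IrrCharacter G, ∀ x ∈ M, x ∉ N → (χ : G → ℂ) x = (χ : G → ℂ) g := fun χ x b c =>
      (χ.2.isClassFunction.eq_of_isConj (h.ge ⟨b, c⟩)).symm
    refine ⟨fun χ _ x b c y d e => by rw [a χ x b c, a χ y d e], fun χ ⟨x, b, c⟩ => ?_⟩
    have d := congrFun (χ.2.avg_eq_zero (N := N) fun d => c (apply_of_mem_charKer (d b))) g
    rw [avg_apply, Finset.sum_congr rfl fun n _ => a χ _ (mul_mem (hNM.le n.2) hgM)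
      (by rwa [mul_mem_cancel_left n.2])] at d
    simpa [Nat.card_pos.ne'] using d
  · obtain ⟨y, rfl⟩ := isConj_iff.1 c
    exact ⟨Subgroup.Normal.conj_mem ‹_› _ hgM y, fun e => hgN (by
      simpa [mul_assoc] using Subgroup.Normal.conj_mem ‹N.Normal› _ e y⁻¹)⟩
  have e := congrArg Complex.re (sum_irr_mul_conj_of_not_isConj d)
  rw [Complex.re_sum] at e
  have f : ∀ χ : IrrCharacter G, ((χ : G → ℂ) g * (starRingEnd ℂ) ((χ : G → ℂ) z)).re =
      ‖(χ : G → ℂ) g‖ ^ 2 := fun χ => by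
    by_cases f : ∀ x ∈ N, (χ : G → ℂ) x = (χ : G → ℂ) 1
    · rw [h1 χ f z c.1 c.2 g hgM hgN, Complex.mul_conj, Complex.normSq_eq_norm_sq]; simp [← Complex.ofReal_pow]
    · simp [h2 χ (by simpa using f)]
  simp only [f, sum_irr_norm_sq, Complex.zero_re, Nat.cast_eq_zero] at e
  exact Nat.card_pos.ne' e

end Cfsg.Agent.S4802
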