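import Cfsg.Statements.S4808
import Cfsg.Agent.C3.Deg

set_option autoImplicit false
open Cfsg

namespace Cfsg.Agent.S4808

open H3 C3

/-- The codegree of an irreducible complex character χ of a finite group G is [G : ker χ] / χ(1), where ker χ is the set of elements at which χ takes the value χ(1). A prime divides the order of G if and only if it divides the codegree of some irreducible complex character of G. -/
theorem result {G : Type*} [Group G] [Finite G] (p : ℕ) (hp : p.Prime) : p ∣ Nat.card G ↔ ∃ χ : Cfsg.IrrCharacter G, p ∣ (Nat.card G / (Nat.card {g : G // (χ : G → ℂ) g = (χ : G → ℂ) 1} * Cfsg.charDegree (χ : G → ℂ))) := by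
  refine ⟨fun h => by_contra fun h0 => ?_, fun ⟨χ, h⟩ => h.trans (cod_dvd χ.2)⟩
  have := Fact.mk hp
  obtain ⟨x, a⟩ := exists_prime_orderOf_dvd_card' p h
  have b := congrArg Complex.re (sum_irr_degree_mul_of_ne (g := x) fun b => hp.one_lt.ne' (by
    rw [← a, b, orderOf_one]))
  rw [Complex.re_sum] at b
  refine (Finset.sum_pos' (fun χ _ => ?_) ⟨⟨_, isIrrCharacter_one⟩, Finset.mem_univ _, by simp⟩).ne' b
  have := χ.2.isClassFunction.charKer_normal
  by_cases c : x ∈ charKer (χ : G → ℂ)
  · rw [apply_of_mem_charKer c, ← χ.2.cast_charDegree, ← Nat.cast_mul, Complex.natCast_re]; positivity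
  obtain ⟨φ, d, e, -, f⟩ := exists_faithful_quot χ.2 _ rfl
  have i := cod_mul χ.2
  have j := (not_exists.1 h0) χ
  have k : ¬ p ^ ((charDegree φ).factorization p + 1) ∣ Nat.card (G ⧸ charKer (χ : G → ℂ)) := fun k => by
    rw [← Subgroup.index_eq_card, ← i, f] at k
    exact Nat.pow_succ_factorization_not_dvd χ.2.charDegree_pos.ne' hp
      ((Nat.Coprime.pow_left _ (hp.coprime_iff_not_dvd.2 j)).dvd_of_dvd_mul_left k)
  have l := orderOf_map_dvd (QuotientGroup.mk' (charKer (χ : G → ℂ))) x
  rw [a] at l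
  rw [← e x, d.eq_zero_of_defect_zero (x := x) hp k (Nat.ordProj_dvd _ _) (dvd_of_eq (((Nat.dvd_prime hp).1 l).resolve_left
        fun k => c ((QuotientGroup.eq_one_iff x).1 (orderOf_eq_one_iff.1 k))).symm)]
  simp

end Cfsg.Agent.S4808
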