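import Cfsg.Statements.S4812
import Mathlib
import Cfsg.Agent.H7.GL2d

set_option autoImplicit false
open Cfsg

namespace Cfsg.Agent.S4812

open Cfsg.Agent.H3 Cfsg.Agent.H4 Cfsg.Agent.H7

/-- Let F be a finite field of characteristic 2 with q ≥ 4 elements and let S be isomorphic to PSL(2,F) or to SL(2,F). Then the vertices of the character degree graph of S are the primes dividing q(q²−1), and two distinct primes are adjacent exactly when both divide q + 1 or both divide q − 1; so the graph has the three connected components {2}, the primes dividing q + 1 and the primes dividing q − 1, each complete. -/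
theorem result (F : Type*) [Field F] [Fintype F] [CharP F 2] (q : ℕ) (hq : Fintype.card F = q) (h4 : 4 ≤ q) {S : Type*} [Group S] [Finite S] (hS : Nonempty (S ≃* Matrix.ProjectiveSpecialLinearGroup (Fin 2) F) ∨ Nonempty (S ≃* Matrix.SpecialLinearGroup (Fin 2) F)) : Cfsg.degreePrimes S = {r : ℕ | r.Prime ∧ r ∣ q * (q ^ 2 - 1)} ∧ ∀ r s : ℕ, (Cfsg.degreeGraph S).Adj r s ↔ (r ≠ s ∧ r.Prime ∧ s.Prime ∧ ((r ∣ q + 1 ∧ s ∣ q + 1) ∨ (r ∣ q - 1 ∧ s ∣ q - 1))) := by
  classical
  subst hq
  have h2 : (2 : F) = 0 := by exact_mod_cast CharP.cast_eq_zero F 2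
  have hm : ¬ Odd (Fintype.card F) := mt odd_card_iff.1 (not_not.2 h2)
  have hm' := Nat.not_odd_iff.1 hm
  have a1 := q_mem_deg hS
  have a2 := succ_mem_deg hS fun h => by
    have := Nat.le_of_dvd (by norm_num) h
    have : Fintype.card F = 4 := by omega
    rw [this] at h; omega
  have a3 := pred_mem_deg hS fun h => by have := Nat.le_of_dvd (by norm_num) h; omega
  refine ⟨Set.ext fun r => and_congr_right fun hr => ⟨?_, fun h => ?_⟩, fun r s => ?_⟩
  · rintro ⟨d, hd, h⟩
    rw [sq_sub_one_eq]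
    rcases deg_of_mem hS hd with rfl | rfl | rfl | rfl | ⟨e, -⟩
    · exact h.trans (one_dvd _)
    · exact h.mul_right _
    · exact (h.mul_right _).mul_left _
    · exact (h.mul_left _).mul_left _
    · exact absurd e hm
  · rw [sq_sub_one_eq, hr.dvd_mul, hr.dvd_mul] at h
    rcases h with h | h | h
    exacts [⟨_, a1, h⟩, ⟨_, a2, h⟩, ⟨_, a3, h⟩]
  · refine and_congr_right fun hrs => and_congr_right fun hr => and_congr_right fun hs => ⟨?_, ?_⟩
    · rintro ⟨d, hd, h⟩
      rcases deg_of_mem hS hd with rfl | rfl | rfl | rfl | ⟨e, -⟩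
      · exact absurd (Nat.eq_one_of_mul_eq_one_right (Nat.dvd_one.1 h)) hr.one_lt.ne'
      · obtain ⟨n, -, hn⟩ := FiniteField.card F 2
        rw [hn] at h
        exact absurd (((Nat.prime_dvd_prime_iff_eq hr Nat.prime_two).1 (hr.dvd_of_dvd_pow (dvd_of_mul_right_dvd h))).trans
          ((Nat.prime_dvd_prime_iff_eq hs Nat.prime_two).1 (hs.dvd_of_dvd_pow (dvd_of_mul_left_dvd h))).symm) hrs
      · exact Or.inl ⟨dvd_of_mul_right_dvd h, dvd_of_mul_left_dvd h⟩
      · exact Or.inr ⟨dvd_of_mul_right_dvd h, dvd_of_mul_left_dvd h⟩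
      · exact absurd e hm
    · have hc := (Nat.coprime_primes hr hs).2 hrs
      rintro (h | h)
      exacts [⟨_, a2, hc.mul_dvd_of_dvd_of_dvd h.1 h.2⟩, ⟨_, a3, hc.mul_dvd_of_dvd_of_dvd h.1 h.2⟩]

end Cfsg.Agent.S4812
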