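import Cfsg.Statements.S4814
import Cfsg.Agent.C3.Deg

set_option autoImplicit false
open Cfsg

namespace Cfsg.Agent.S4814

open H3 C3 Finset

/-- Let G be a finite group such that the sum, over the irreducible complex characters χ of G, of 1/χ(1)² is less than 2. Then every element of G is a product of two commutators. -/
theorem result {G : Type*} [Group G] [Finite G]
    (h : ∑ᶠ χ : Cfsg.IrrCharacter G, 1 / ‖(χ : G → ℂ) 1‖ ^ 2 < (2 : ℝ)) (g : G) :
    ∃ a b c d : G, (a * b * a⁻¹ * b⁻¹) * (c * d * c⁻¹ * d⁻¹) = g := by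
  classical
  have := Fintype.ofFinite G
  by_contra h0
  have a : ∀ χ : IrrCharacter G, ∀ y, ∑ a, ∑ b, χ.1 (a * b * a⁻¹ * b⁻¹ * y) =
      (Nat.card G : ℂ) ^ 2 / χ.1 1 ^ 2 * χ.1 y := fun χ y => by
    have b := χ.2.sum_classFun_mul χ.2.isClassFunction.conj y
    have c := χ.2.apply_one_ne_zero
    have d : ∑ g, (starRingEnd ℂ) (χ.1 g) * χ.1 g = Nat.card G := by
      simpa [χ.2.inner_self, mul_comm] using (card_mul_classInner χ.1 χ.1).symm
    rw [sum_comm, ← Equiv.sum_comp (Equiv.inv G)]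
    simp only [Equiv.inv_apply, inv_inv]
    rw [sum_congr rfl (g := fun g => Nat.card G / χ.1 1 * ((starRingEnd ℂ) (χ.1 g) * χ.1 (g * y))) fun g _ => by
      have := χ.2.sum_conj_mul g⁻¹ (g * y)
      rw [χ.2.apply_inv] at this
      simp only [← mul_assoc] at this
      field_simp
      linear_combination this, ← mul_sum]
    rw [d] at b
    field_simp
    linear_combination b
  have b := card_fiber_eq_sum' (fun x : (G × G) × G × G =>
    x.1.1 * x.1.2 * x.1.1⁻¹ * x.1.2⁻¹ * (x.2.1 * x.2.2 * x.2.1⁻¹ * x.2.2⁻¹))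
    (isClassFunction_card_fiber _ (fun y => let e := (MulAut.conj y).toEquiv
      (e.prodCongr e).prodCongr (e.prodCongr e)) fun y x => by simp [mul_assoc]) g
  rw [Nat.card_eq_zero.2 (.inl ⟨fun u => h0 ⟨_, _, _, _, u.2⟩⟩)] at b
  have c : ∀ χ : IrrCharacter G, ∑ x : (G × G) × G × G, χ.1 (x.1.1 * x.1.2 * x.1.1⁻¹ * x.1.2⁻¹ *
      (x.2.1 * x.2.2 * x.2.1⁻¹ * x.2.2⁻¹)) = (Nat.card G : ℂ) ^ 4 / χ.1 1 ^ 3 := fun χ => by
    have c := χ.2.apply_one_ne_zero
    have := a χ 1
    simp only [mul_one] at this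
    rw [Fintype.sum_prod_type_right]
    simp only [Fintype.sum_prod_type, a, ← mul_sum, this]
    field_simp
  simp only [c] at b
  rw [finsum_eq_sum_of_fintype] at h
  rw [← add_sum_erase _ _ (mem_univ (⟨_, isIrrCharacter_one⟩ : IrrCharacter G))] at b h
  have d := card_ne_zero (G := G)
  have e : (1 : ℂ) = -∑ χ ∈ univ.erase (⟨_, isIrrCharacter_one⟩ : IrrCharacter G),
      (starRingEnd ℂ) (χ.1 g) / χ.1 1 ^ 3 := by
    refine mul_left_cancel₀ (pow_ne_zero 3 d) ?_
    rw [mul_neg, mul_sum, eq_neg_iff_add_eq_zero, ← Nat.cast_zero, b]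
    congr 1
    · simp; field_simp
    · exact sum_congr rfl fun _ _ => by field_simp
  have f := (norm_one.symm.trans (congrArg norm e)).le.trans ((norm_neg _).le.trans ((norm_sum_le _ _).trans
    (sum_le_sum (g := fun χ : IrrCharacter G => 1 / ‖χ.1 1‖ ^ 2) fun χ _ => by
      have i := χ.2.isCharacter.norm_apply_le g
      have j : ‖χ.1 1‖ = charDegree χ.1 := by rw [← χ.2.cast_charDegree]; simp
      have k : (0 : ℝ) < charDegree χ.1 := by exact_mod_cast χ.2.charDegree_pos
      rw [norm_div, norm_pow, j, RCLike.norm_conj, div_le_div_iff₀ (by positivity) (by positivity)]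
      nlinarith [pow_pos k 2])))
  simp only [norm_one, one_pow, div_one] at h
  linarith

end Cfsg.Agent.S4814
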