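import Cfsg.Statements.S4825
import Cfsg.Agent.C3.Sig

set_option autoImplicit false
open Cfsg

namespace Cfsg.Agent.S4825

open H3 H2 C3 B Subgroup Finset

/-- Let p be a prime, G a finite group with Sylow p-subgroup P, M a maximal ideal of the algebraic integers containing p, and B a p-block of G with defect group P. Let N be a normal subgroup of G not containing P and θ an irreducible character of N. Then the number of irreducible characters in B of degree prime to p lying over θ (having θ as a constituent on restriction to N) is either 0 or at least 2, and when p ≤ 3 it is divisible by p. -/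
theorem result {G : Type*} [Group G] [Fintype G] (p : ℕ) [Fact p.Prime] (P : Sylow p G) (M : Ideal Cfsg.AlgInt) (hM : Cfsg.IsPModular p M) (B : Set (Cfsg.IrrCharacter G)) (hB : Cfsg.IsPBlock M B) (hBP : Cfsg.IsDefectGroup p M B P) (N : Subgroup G) [N.Normal] [Fintype N] (hPN : ¬ (P : Subgroup G) ≤ N) (θ : Cfsg.IrrCharacter N) :
    (Nat.card {χ : Cfsg.IrrCharacter G // χ ∈ B ∧ ¬ p ∣ Cfsg.charDegree (χ : G → ℂ) ∧ Cfsg.classInner (fun n : N => (χ : G → ℂ) n) (θ : N → ℂ) ≠ 0} = 0 ∨
      2 ≤ Nat.card {χ : Cfsg.IrrCharacter G // χ ∈ B ∧ ¬ p ∣ Cfsg.charDegree (χ : G → ℂ) ∧ Cfsg.classInner (fun n : N => (χ : G → ℂ) n) (θ : N → ℂ) ≠ 0}) ∧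
    (p ≤ 3 → p ∣ Nat.card {χ : Cfsg.IrrCharacter G // χ ∈ B ∧ ¬ p ∣ Cfsg.charDegree (χ : G → ℂ) ∧ Cfsg.classInner (fun n : N => (χ : G → ℂ) n) (θ : N → ℂ) ≠ 0}) := by
  classical
  have : PMod p M := ⟨hM⟩
  obtain ⟨j, c⟩ := H1.exists_relIndex_eq_pow P.2 N
  have a := dvd_sum_over hB.closed ((c ▸ dvd_pow_self p (by rintro rfl; exact hPN (relIndex_eq_one.1 c))).trans
    (relIndex_dvd_index_of_normal N P)) θ
  rw [← sum_filter_add_sum_filter_not _ fun χ : IrrCharacter G => p ∣ charDegree (χ : G → ℂ),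
    Nat.dvd_add_right (dvd_sum fun χ b => dvd_pow (mem_filter.1 b).2 two_ne_zero), filter_filter] at a
  rw [Nat.card_eq_fintype_card, Fintype.card_subtype, filter_congr fun χ _ => and_left_comm.trans and_comm]
  refine ⟨by_contra fun b => ?_, fun b => ?_⟩
  · rw [not_or] at b
    obtain ⟨χ, d⟩ := Finset.card_eq_one.1 (le_antisymm (Nat.lt_succ_iff.1 (not_le.1 b.2)) (Nat.pos_of_ne_zero b.1))
    rw [d, sum_singleton] at a
    exact (mem_filter.1 (d.ge (mem_singleton_self χ))).2.2 ((Fact.out : p.Prime).dvd_of_dvd_pow a)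
  · rw [← ZMod.natCast_eq_zero_iff, Nat.cast_sum] at a
    rw [← ZMod.natCast_eq_zero_iff, ← a, card_eq_sum_ones, Nat.cast_sum]
    refine sum_congr rfl fun χ d => ?_
    have e := ZMod.pow_card_sub_one_eq_one ((ZMod.natCast_eq_zero_iff _ p).not.2 (mem_filter.1 d).2.2)
    obtain ⟨t, f⟩ : p - 1 ∣ 2 := by
      have := (Fact.out : p.Prime).two_le
      interval_cases p <;> simp
    rw [Nat.cast_pow, f, pow_mul, e]; simp

end Cfsg.Agent.S4825
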