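import Cfsg.Statements.S4828
import Cfsg.Agent.B.PC
import Cfsg.Agent.S0969

set_option autoImplicit false
open Cfsg

namespace Cfsg.Agent.S4828

open Cfsg.Agent Cfsg.Agent.B Cfsg.Agent.H2 Cfsg.Agent.H3 Cfsg.Agent.L Subgroup MonoidAlgebra
open scoped Pointwise commutatorElement

/-- Let p be a prime, M a maximal ideal of the algebraic integers containing p, and (Q, e) a Brauer pair of the finite group G (Q a p-subgroup, e a block of C_G(Q)). Then (Q, e) is a maximal Brauer pair of some block of G if and only if e contains an irreducible character θ such that θ takes the value θ(1) at every element of Z(Q) = Q ∩ C_G(Q), the p-part of θ(1) times the p-part of the order of Z(Q) equals the p-part of the order of C_G(Q) (θ has defect zero as a character of C_G(Q)/Z(Q)), and every element of N_G(Q) of p-power order that stabilizes e lies in Q·C_G(Q) (the stabilizer of e in N_G(Q) has index prime to p over Q·C_G(Q)). -/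
theorem result {G : Type*} [Group G] [Finite G] (p : ℕ) [Fact p.Prime] (M : Ideal Cfsg.AlgInt) (hM : Cfsg.IsPModular p M) (Q : Subgroup G) (e : Set (Cfsg.IrrCharacter (Subgroup.centralizer (Q : Set G)))) (he : Cfsg.IsBrauerPair p M Q e) :
    (∃ B : Set (Cfsg.IrrCharacter G), Cfsg.IsMaximalBrauerPair p M B Q e) ↔
      ∃ θ ∈ e, (∀ z : Subgroup.centralizer (Q : Set G), (z : G) ∈ Q → (θ : Subgroup.centralizer (Q : Set G) → ℂ) z = (θ : Subgroup.centralizer (Q : Set G) → ℂ) 1) ∧
        (Cfsg.charDegree (θ : Subgroup.centralizer (Q : Set G) → ℂ)).factorization p + (Nat.card ↥(Q ⊓ Subgroup.centralizer (Q : Set G))).factorization p = (Nat.card (Subgroup.centralizer (Q : Set G))).factorization p ∧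
        (∀ g : G, g ∈ Subgroup.normalizer (Q : Set G) → Cfsg.StabilizesBlock (Subgroup.centralizer (Q : Set G)) e g → (∃ k : ℕ, orderOf g = p ^ k) → g ∈ Q ⊔ Subgroup.centralizer (Q : Set G)) := by
  have : PMod p M := ⟨hM⟩
  have hb := he.2.bp he.1
  have hZ : (Q ⊓ (centralizer (Q : Set G))).subgroupOf (centralizer (Q : Set G)) ≤ center (centralizer (Q : Set G)) := fun z hz => mem_center_iff.2 fun c => Subtype.ext (c.2 z hz.1).symm
  have : ((Q ⊓ (centralizer (Q : Set G))).subgroupOf (centralizer (Q : Set G))).Normal := ⟨fun a ha g => by rwa [mem_center_iff.1 (hZ ha) g, mul_inv_cancel_right]⟩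
  have h0 := factorization_index_add (p := p) ((Q ⊓ (centralizer (Q : Set G))).subgroupOf (centralizer (Q : Set G)))
  rw [card_subgroupOf inf_le_right] at h0
  have h1 : IsDG p (Q ⊔ CH ⊤ Q) (iB M _ e) Q ↔ IsDefectGroup p M e ((Q ⊓ (centralizer (Q : Set G))).subgroupOf (centralizer (Q : Set G))) := by
    rw [hb.isDG_sup_iff, CH_top, he.2.isDefectGroup_iff inf_le_right]
  constructor
  · rintro ⟨B, hB⟩
    obtain ⟨-, θ, h2, h3, h4, -⟩ := (h1.1 ((hb.mp_iff hB.mp.bi hB.mp.br).1 hB.mp).1).exists_canonical he.2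
      fun x _ y hy => (mem_center_iff.1 (hZ hy) x).symm
    refine ⟨θ, h2, fun z hz => apply_of_mem_charKer (h3 ⟨hz, z.2⟩), h0 ▸ congrArg (· + _) h4, fun g h5 h6 h7 => ?_⟩
    exact CH_top Q ▸ hB.mp.pgroup_le (zpowers_le_of_mem ⟨⟨trivial, h5⟩, (he.2.closed.stabilizesBlock_iff.1 h6).2⟩)
      (PElt.isPGroup h7) (mem_zpowers g)
  · rintro ⟨θ, h2, -, h3, h4⟩
    obtain ⟨b, h5, h6⟩ := hb.exists_block
    obtain ⟨B, hB, rfl⟩ := h5.exists_top
    refine ⟨B, isMaximalBrauerPair_iff.2 ⟨hB, he.2, (hb.mp_iff h5 h6).2 ⟨h1.2 ?_, ?_⟩⟩⟩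
    · rw [he.2.eq_blockOf h2]
      exact (S0969.result p M hM _ (he.1.to_inf_left.comap_subtype) hZ θ (Nat.add_right_cancel (h3.trans h0.symm))).1
    · obtain ⟨S, hS⟩ := exists_sylIn p (NS ⊤ Q (iB M _ e))
      refine hS.not_dvd_relIndex_of_le fun g hg => CH_top Q ▸ h4 g (hS.le hg).1.2 ?_ (pElt_of_mem hS.pgrp hg)
      exact he.2.closed.stabilizesBlock_iff.2 ⟨normalizer_le_nc _ (hS.le hg).1.2, (hS.le hg).2⟩

end Cfsg.Agent.S4828
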