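import Cfsg.Statements.S4836
import Cfsg.Agent.C3.Gag

set_option autoImplicit false
open Cfsg

namespace Cfsg.Agent.S4836

open H3 C3 Subgroup

/-- Let G be a finite group of order greater than 2 with an irreducible character χ that is nonzero on exactly two conjugacy classes. Then χ is faithful (it takes the value χ(1) only at the identity), it is the only faithful irreducible character of G, and it is the only irreducible character of G that is nonzero on exactly two conjugacy classes. -/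
theorem result {G : Type*} [Group G] [Finite G] (hG : 2 < Nat.card G) (χ : Cfsg.IrrCharacter G) (hχ : Nat.card {C : ConjClasses G // ∃ g ∈ C.carrier, (χ : G → ℂ) g ≠ 0} = 2) :
    (∀ g : G, (χ : G → ℂ) g = (χ : G → ℂ) 1 → g = 1) ∧
      (∀ ψ : Cfsg.IrrCharacter G, (∀ g : G, (ψ : G → ℂ) g = (ψ : G → ℂ) 1 → g = 1) → ψ = χ) ∧
      (∀ ψ : Cfsg.IrrCharacter G, Nat.card {C : ConjClasses G // ∃ g ∈ C.carrier, (ψ : G → ℂ) g ≠ 0} = 2 → ψ = χ) := by
  obtain ⟨x, h⟩ := exists_gag hG χ.2 hχ
  have a : ∀ ψ : Cfsg.IrrCharacter G, (∀ g : G, (ψ : G → ℂ) g = (ψ : G → ℂ) 1 → g = 1) → ψ = χ :=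
    fun ψ a => by_contra fun b => h.ne (a x (apply_of_mem_charKer (h.mem_ker ψ.2 fun c => b (Subtype.ext c))))
  refine ⟨h.faithful, a, fun ψ b => ?_⟩
  obtain ⟨y, c⟩ := exists_gag hG ψ.2 b
  exact a ψ c.faithful

end Cfsg.Agent.S4836
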