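import Cfsg.Statements.S4837
import Cfsg.Agent.C3.Gag

set_option autoImplicit false
open Cfsg

namespace Cfsg.Agent.S4837

open H3 C3 Subgroup

/-- Let G be a finite group of order greater than 2 with an irreducible character χ nonzero on exactly two conjugacy classes, and let N be the set of elements where χ is nonzero, given as a nontrivial normal p-subgroup of G for the prime p. Then for every nonidentity x in N the centralizer C_G(x) is a Sylow p-subgroup of G, and for every irreducible character λ ≠ 1 of N the stabilizer of λ in G (its inertia group) is a Sylow p-subgroup of G. -/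
theorem result {G : Type*} [Group G] [Finite G] (hG : 2 < Nat.card G) (χ : Cfsg.IrrCharacter G) (hχ : Nat.card {C : ConjClasses G // ∃ g ∈ C.carrier, (χ : G → ℂ) g ≠ 0} = 2) (p : ℕ) [Fact p.Prime] (N : Subgroup G) [N.Normal] (hN : ∀ g : G, g ∈ N ↔ (χ : G → ℂ) g ≠ 0) (hNp : IsPGroup p N) (hN1 : N ≠ ⊥) :
    (∀ x ∈ N, x ≠ 1 → ∃ P : Sylow p G, Subgroup.centralizer ({x} : Set G) = P) ∧
      (∀ μ : Cfsg.IrrCharacter N, (μ : N → ℂ) ≠ (fun _ => (1 : ℂ)) → ∃ P : Sylow p G, ∀ g : G, g ∈ (P : Subgroup G) ↔ ∀ n n' : N, (n' : G) = g * n * g⁻¹ → (μ : N → ℂ) n' = (μ : N → ℂ) n) := by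
  obtain ⟨x, h⟩ := exists_gag hG χ.2 hχ
  have := Fintype.ofFinite N
  refine ⟨fun y a b => ?_, fun μ a => ?_⟩
  · have c := h.of_conj (h.isConj hN a b)
    exact ⟨(c.isPGroup_cent hN hNp).toSylow (c.not_dvd_index hN hNp), rfl⟩
  obtain ⟨e, b, c, d⟩ := h.exists_e hN
  obtain ⟨q, -, f, -⟩ := h.elementary
  rw [← h.eq_ncl hN] at f
  have i := μ.2.degree_eq_one_of_comm
  have j : classInner (fun n : N => χ.1 n) μ = e := by
    have j := card_mul_classInner (fun _ : N => (1 : ℂ)) μ
    rw [isIrrCharacter_one.inner_of_ne μ.2 a.symm] at j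
    refine mul_left_cancel₀ (card_ne_zero (G := N)) ?_
    classical
    rw [card_mul_classInner, ← Finset.add_sum_erase _ _ (Finset.mem_univ 1), Finset.sum_congr rfl
      (g := fun g => -e * (starRingEnd ℂ) (μ.1 g)) fun g k => by
        rw [← h.irr.isClassFunction.eq_of_isConj (h.isConj hN g.2 (by simpa using k)), b], ← Finset.mul_sum]
    rw [← Finset.add_sum_erase _ _ (Finset.mem_univ 1)] at j
    simp only [i, one_mul, map_one, OneMemClass.coe_one, c, h.card_eq hN] at j ⊢
    push_cast at j ⊢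
    linear_combination e * j
  have k : (e : ℂ) ≠ 0 := fun k => h.irr.apply_one_ne_zero (by simp [c, k])
  have l := χ.2.clifford_degree μ.2 (j ▸ k)
  rw [j, c, i, mul_one] at l
  have m : (centralizer ({x} : Set G)).index = (inertia μ.1).index := by exact_mod_cast mul_left_cancel₀ k l
  obtain ⟨n, o⟩ := (h.isPGroup_cent hN hNp).exists_card_eq
  refine ⟨(IsPGroup.of_card (G := inertia μ.1) (n := n) (Nat.eq_of_mul_eq_mul_right (Nat.pos_of_ne_zero index_ne_zero_of_finite :
    0 < (inertia μ.1).index) (by rw [card_mul_index, ← o, ← m, card_mul_index]))).toSylow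
    (m ▸ h.not_dvd_index hN hNp), fun g => mem_inertia'.trans ⟨fun r s t u => ?_, fun r s => r _ _ rfl⟩⟩
  rw [← r s]; exact congrArg _ (Subtype.ext u)

end Cfsg.Agent.S4837
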