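import Cfsg.Statements.S4838
import Cfsg.Agent.C3.Gag

set_option autoImplicit false
open Cfsg

namespace Cfsg.Agent.S4838

open H3 C3 Subgroup
open scoped commutatorElement

/-- Let G be a finite group of order greater than 2 with an irreducible character χ nonzero on exactly two conjugacy classes, N the normal p-subgroup of elements where χ is nonzero, and P a Sylow p-subgroup of G. Then (a) for every x outside N the centralizer of x in G has the same order as the centralizer of xN in G/N; (b) the centre of P lies in N, and equals N exactly when P is normal in G; (c) N, viewed inside P, is a term of the upper central series of P. -/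
theorem result {G : Type*} [Group G] [Finite G] (hG : 2 < Nat.card G) (χ : Cfsg.IrrCharacter G) (hχ : Nat.card {C : ConjClasses G // ∃ g ∈ C.carrier, (χ : G → ℂ) g ≠ 0} = 2) (p : ℕ) [Fact p.Prime] (N : Subgroup G) [N.Normal] (hN : ∀ g : G, g ∈ N ↔ (χ : G → ℂ) g ≠ 0) (hNp : IsPGroup p N) (hN1 : N ≠ ⊥) (P : Sylow p G) :
    (∀ x : G, x ∉ N → Nat.card (Subgroup.centralizer ({x} : Set G)) = Nat.card (Subgroup.centralizer ({(x : G ⧸ N)} : Set (G ⧸ N)))) ∧
      ((Subgroup.center ↥(P : Subgroup G)).map (P : Subgroup G).subtype ≤ N ∧
        ((Subgroup.center ↥(P : Subgroup G)).map (P : Subgroup G).subtype = N ↔ (P : Subgroup G).Normal)) ∧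
      (∃ i : ℕ, Subgroup.upperCentralSeries ↥(P : Subgroup G) i = N.subgroupOf (P : Subgroup G)) := by
  obtain ⟨x, h⟩ := exists_gag hG χ.2 hχ
  have hP : N ≤ P := hNp.le_sylow_of_normal P
  have a : ∀ i, Subgroup.upperCentralSeries P i < N.subgroupOf P → Subgroup.upperCentralSeries P (i + 1) ≤ N.subgroupOf P :=
    fun i a z b => by_contra fun c => by
      have d := h.card_le hN hNp P (y := z) c
      have e := H1.index_centralizer_le_card (x := z) (D := Subgroup.upperCentralSeries P i) fun g => by
        simpa using inv_mem (Subgroup.mem_upperCentralSeries_succ_iff.1 b g)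
      have f := H1.card_lt_of_lt a
      rw [H1.card_subgroupOf hP] at f
      rw [relIndex, show (centralizer {(z : G)}).subgroupOf P = centralizer {z} from Subgroup.ext fun y => by
        simp [mem_subgroupOf, mem_centralizer_singleton_iff, Subtype.ext_iff]] at d
      omega
  have b : (center ↥(P : Subgroup G)).map (P : Subgroup G).subtype ≤ N := by
    have := a 0 (bot_lt_iff_ne_bot.2 fun b : N.subgroupOf P = ⊥ => hN1 (by
      rw [← H1.map_subtype_subgroupOf hP, b, Subgroup.map_bot]))
    rw [zero_add, Subgroup.upperCentralSeries_one] at this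
    exact (map_mono this).trans (H1.map_subtype_subgroupOf hP).le
  refine ⟨fun y => h.card_cent hN, ⟨b, fun c => ?_, fun c => b.antisymm ((h.eq_ncl hN).le.trans
    (@Gag.le_of_normal _ _ _ _ _ h _ (H1.normal_map_subtype_of_char _ _) fun d => ?_))⟩, ?_⟩
  · rw [H1.map_subtype_center] at c
    have d : (P : Subgroup G) ≤ centralizer (N : Set G) := le_centralizer_iff.1 (c.ge.trans inf_le_right)
    rw [← P.3 ((h.isPGroup_cent hN hNp).to_le (centralizer_le (by simpa using h.mem hN))) d]
    infer_instance
  · have : Nontrivial (P : Subgroup G) := (nontrivial_iff_ne_bot _).2 fun e => hN1 (le_bot_iff.1 (e ▸ hP))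
    exact (nontrivial_iff_ne_bot _).1 P.2.center_nontrivial
      ((map_eq_bot_iff_of_injective _ (subtype_injective _)).1 d)
  by_contra! c
  have := P.2.isNilpotent
  have d : ∀ i, Subgroup.upperCentralSeries P i ≤ N.subgroupOf P := fun i => by
    induction i with
    | zero => exact bot_le
    | succ i d => exact a i (lt_of_le_of_ne d (c i))
  exact c _ ((d _).antisymm (Subgroup.upperCentralSeries_nilpotencyClass.ge.trans' le_top))

end Cfsg.Agent.S4838
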