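import Cfsg.Statements.S4866
import Mathlib
import Cfsg.Agent.H3.Misc
import Cfsg.Agent.H3.Clifford

set_option autoImplicit false
open Cfsg

namespace Cfsg.Agent.S4866

open Cfsg H3 MulAction
open scoped ComplexConjugate

/-- Let K be a normal subgroup of odd index in the finite group G. Then G has as many orbits on the real-valued irreducible complex characters of K (acting by conjugation) as it has orbits on the conjugacy classes of K that are real in K; equivalently, the number of G-orbits of real-valued irreducible characters of K equals the number of G-conjugacy classes of elements of K that are conjugate in K to their inverses. -/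
theorem result {G : Type*} [Group G] [Finite G] (K : Subgroup G) [K.Normal] (hodd : Odd K.index) : Nat.card (Quot (fun θ η : {θ : Cfsg.IrrCharacter ↥K // (∀ k : ↥K, ((θ : ↥K → ℂ) k).im = 0)} => ∃ g : G, ∀ k k' : ↥K, (k' : G) = g * (k : G) * g⁻¹ → (η.1 : ↥K → ℂ) k' = (θ.1 : ↥K → ℂ) k)) = Nat.card (Quot (fun x y : {x : ↥K // IsConj x x⁻¹} => ∃ g : G, (y.1 : G) = g * x.1 * g⁻¹)) := by
  letI := Fintype.ofFinite G
  have odd : ∀ S : Subgroup G, K ≤ S → ∀ g, g * g ∈ S → g ∈ S := fun S hS g h => by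
    obtain ⟨m, hm⟩ := hodd
    have := hS (K.pow_index_mem g)
    rwa [hm, pow_succ, pow_mul, S.mul_mem_cancel_left (S.pow_mem (sq g ▸ h) m)] at this
  letI a1 : MulAction G {θ : IrrCharacter K // ∀ k : K, ((θ : K → ℂ) k).im = 0} :=
    { smul := fun g θ => ⟨⟨cjf g⁻¹ θ.1.1, θ.1.2.cjf _⟩, fun _ => θ.2 _⟩
      one_smul := fun θ => Subtype.ext (Subtype.ext ((congrArg (cjf · _) inv_one).trans (cjf_one _)))
      mul_smul := fun g h θ => Subtype.ext (Subtype.ext ((congrArg (cjf · _) (mul_inv_rev g h)).trans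
        (cjf_mul _ _ _))) }
  letI a2 : MulAction G (ConjClasses K) :=
    { smul := fun g => ConjClasses.map (MulAut.conjNormal g).toMonoidHom
      one_smul := fun C => by
        obtain ⟨x, rfl⟩ := C.exists_rep
        exact congrArg ConjClasses.mk (Subtype.ext (by simp))
      mul_smul := fun g h C => by
        obtain ⟨x, rfl⟩ := C.exists_rep
        exact congrArg ConjClasses.mk (Subtype.ext (by simp)) }
  have sm : ∀ (g : G) (x : K), g • ConjClasses.mk x = ConjClasses.mk (MulAut.conjNormal g x) := fun _ _ => rfl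
  have iv : ∀ {x y : K}, IsConj x y → IsConj x⁻¹ y⁻¹ := fun h => by
    obtain ⟨c, rfl⟩ := isConj_iff.1 h
    exact isConj_iff.2 ⟨c, by group⟩
  let Y : SubMulAction G (ConjClasses K) := ⟨{C | ∃ x, ConjClasses.mk x = C ∧ IsConj x x⁻¹}, by
    rintro g _ ⟨x, rfl, h⟩
    exact ⟨_, (sm g x).symm, map_inv (MulAut.conjNormal g) x ▸ (MulAut.conjNormal (H := K) g).toMonoidHom.map_isConj h⟩⟩
  have e1 : ∀ g : G, Nat.card (fixedBy {θ : IrrCharacter K // ∀ k : K, ((θ : K → ℂ) k).im = 0} g) =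
      Nat.card (fixedBy Y g) := fun g => by
    have e : ∀ χ : IrrCharacter K, (χ : K → ℂ) ∘ (fun k => (MulAut.conjNormal g⁻¹ k)⁻¹) =
        fun k => conj (cjf g⁻¹ χ.1 k) := fun χ => funext fun k => χ.2.apply_inv _
    refine Eq.trans ?_ ((card_fixed_irr_eq (fun k => (MulAut.conjNormal g⁻¹ k)⁻¹)
      fun χ hχ => e ⟨χ, hχ⟩ ▸ (hχ.cjf _).conj).trans ?_)
    · refine Nat.card_congr ((Equiv.subtypeSubtypeEquivSubtypeExists _ _).trans
        (Equiv.subtypeEquivRight fun χ => ?_))
      rw [e]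
      refine ⟨fun ⟨h1, h2⟩ => ?_, fun h => ?_⟩
      · rw [show cjf g⁻¹ χ.1 = χ.1 from congrArg (·.1.1) h2]
        exact funext fun k => Complex.conj_eq_iff_im.2 (h1 k)
      · have h1 : cjf g⁻¹ χ.1 = χ.1 := odd _ χ.2.isClassFunction.le_inertia g⁻¹ (by
          rw [mem_inertia, cjf_mul, show cjf g⁻¹ χ.1 = fun k => conj (χ.1 k) from funext fun k => by
            rw [← congr_fun h k, RCLike.conj_conj]]
          exact h)
        rw [h1] at h
        exact ⟨fun k => Complex.conj_eq_iff_im.1 (congr_fun h k), Subtype.ext (Subtype.ext h1)⟩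
    · refine (Nat.card_congr ((Equiv.subtypeSubtypeEquivSubtypeExists _ _).trans
        (Equiv.subtypeEquivRight fun C => ?_))).symm
      refine ⟨fun ⟨⟨x, h1, h2⟩, h3⟩ y hy => ?_, fun h => ?_⟩
      · have h4 : g⁻¹ • C = C := inv_smul_eq_iff.2 (congrArg Subtype.val h3).symm
        rw [← hy, sm, ConjClasses.mk_eq_mk_iff_isConj] at h4
        have h5 := ConjClasses.mk_eq_mk_iff_isConj.1 (hy.trans h1.symm)
        exact (iv h4).trans ((iv h5).trans (h2.symm.trans h5.symm))
      · obtain ⟨x, rfl⟩ := C.exists_rep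
        have h1 := h x rfl
        have h2 : g⁻¹ ∈ stabilizer G (ConjClasses.mk x) := odd _ (fun k hk => ConjClasses.mk_eq_mk_iff_isConj.2
          (isConj_iff.2 ⟨(⟨k, hk⟩ : K), rfl⟩).symm) g⁻¹ (by
            rw [mem_stabilizer_iff, mul_smul, sm, ConjClasses.mk_eq_mk_iff_isConj.2 (inv_inv (_ : K) ▸ iv h1), sm,
              map_inv]
            exact ConjClasses.mk_eq_mk_iff_isConj.2 h1)
        exact ⟨⟨x, rfl, h1.symm.trans (iv (ConjClasses.mk_eq_mk_iff_isConj.1 h2))⟩,
          Subtype.ext (inv_mem_iff.1 h2)⟩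
  have e2 := (classInner_fixedBy_one (G := G) _).symm.trans ((congrArg (classInner · _)
    (funext fun g => congrArg Nat.cast (e1 g))).trans (classInner_fixedBy_one Y))
  refine (Nat.card_congr (Quot.congrRight fun θ η => ?_)).trans ((Nat.cast_injective e2).trans
    (Nat.card_eq_of_bijective (Quot.map (fun x => ⟨ConjClasses.mk x.1, x.1, rfl, x.2⟩) fun x y ⟨g, h⟩ =>
      ⟨g⁻¹, inv_smul_eq_iff.2 (Subtype.ext (congrArg ConjClasses.mk (Subtype.ext h)))⟩) ⟨?_, ?_⟩).symm)
  · exact ⟨fun ⟨g, h⟩ => ⟨g⁻¹, Subtype.ext (Subtype.ext (funext fun k => h k _ (by simp)))⟩,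
      fun ⟨g, h⟩ => ⟨g⁻¹, fun k k' e => by
        rw [← show _ = θ from h]; exact congrArg _ (Subtype.ext e)⟩⟩
  · rintro ⟨x⟩ ⟨y⟩ h
    obtain ⟨g, h⟩ := Quotient.exact h
    obtain ⟨c, hc⟩ := isConj_iff.1 (ConjClasses.mk_eq_mk_iff_isConj.1 (congrArg Subtype.val h))
    exact (Quot.sound ⟨c * g, by rw [← hc]; simp [mul_assoc]⟩).symm
  · rintro ⟨_, x, rfl, h⟩
    exact ⟨Quot.mk _ ⟨x, h⟩, rfl⟩

end Cfsg.Agent.S4866
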