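import Cfsg.Statements.S4870
import Mathlib
import Cfsg.Agent.H7.FS2

set_option autoImplicit false
open Cfsg

namespace Cfsg.Agent.S4870

open Cfsg H3 H7

/-- Let G be a finite group with a non-abelian minimal normal subgroup N, and let φ be an irreducible complex character of N with stabilizer I in G (the elements g with φ(g n g⁻¹) = φ(n) for all n ∈ N) such that φ extends to an irreducible character of I. Put d = φ(1)·[G : I]. Then the number of linear characters of G is at most [G : I] times the number of irreducible characters of G of degree d. -/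
theorem result {G : Type*} [Group G] [Finite G] (N : Subgroup G) (hN : N.Normal) (hN1 : N ≠ ⊥) (hmin : ∀ M : Subgroup G, M.Normal → M ≤ N → M = ⊥ ∨ M = N) (hna : ¬ IsMulCommutative ↥N) (φ : Cfsg.IrrCharacter ↥N) (I : Subgroup G) (hI : ∀ g : G, g ∈ I ↔ ∀ n n' : ↥N, (n' : G) = g * (n : G) * g⁻¹ → (φ : ↥N → ℂ) n' = (φ : ↥N → ℂ) n) (hNI : N ≤ I) (hext : ∃ ψ : Cfsg.IrrCharacter ↥I, ∀ n : ↥N, (ψ : ↥I → ℂ) (Subgroup.inclusion hNI n) = (φ : ↥N → ℂ) n) : Nat.card {χ : Cfsg.IrrCharacter G // Cfsg.charDegree (χ : G → ℂ) = 1} ≤ I.index * Nat.card {χ : Cfsg.IrrCharacter G // Cfsg.charDegree (χ : G → ℂ) = Cfsg.charDegree (φ : ↥N → ℂ) * I.index} := by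
  letI := Fintype.ofFinite G
  obtain ⟨ψ, hψ⟩ := hext
  have hN' : N ≤ commutator G := ((hmin ⁅N, N⁆ inferInstance (Subgroup.commutator_le_left N N)).resolve_left
    fun h => hna (Subgroup.commutator_self_eq_bot_iff.1 h)).ge.trans (Subgroup.commutator_mono le_top le_top)
  refine card_le_index_mul φ.2 (eq_inertia fun g => (hI g).trans ⟨fun h n => h n _ rfl,
    fun h n n' e => (congrArg _ (Subtype.ext e)).trans (h n)⟩) hNI ψ.2 (funext hψ) _ _ (fun μ h => ?_) fun μ h _ => ?_
  · have : (μ : G → ℂ) 1 = 1 := by rw [← μ.2.cast_charDegree, h, Nat.cast_one]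
    exact ⟨this, hN'.trans (μ.2.degree_eq_one_iff.1 this)⟩
  · refine charDegree_eq ?_
    change indFun I ψ 1 * _ = _
    rw [indFun_one, ← μ.2.cast_charDegree, h, Nat.cast_mul, φ.2.cast_charDegree, ← hψ 1, map_one]
    simp [mul_comm]

end Cfsg.Agent.S4870
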