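import Cfsg.Statements.S4872
import Mathlib
import Cfsg.Agent.H7.FS2
import Cfsg.Agent.H3.Brauer2
import Cfsg.Agent.H3.Mackey

set_option autoImplicit false
open Cfsg

namespace Cfsg.Agent.S4872

open Cfsg H3 H7 Finset
open scoped ComplexConjugate

/-- Let N be a normal subgroup of the finite group G with G/N a 2-group, and let φ be an irreducible complex character of N of 2-defect zero (the 2-part of #N divides φ(1)) whose complex conjugate is G-conjugate to φ. Then some irreducible character of G with Frobenius–Schur indicator +1 contains φ with multiplicity exactly one on restriction to N. -/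
theorem result {G : Type*} [Group G] [Finite G] (N : Subgroup G) [N.Normal] (h2 : IsPGroup 2 (G ⧸ N)) (φ : Cfsg.IrrCharacter ↥N) (hdef : 2 ^ (Nat.card ↥N).factorization 2 ∣ Cfsg.charDegree (φ : ↥N → ℂ)) (hconj : ∃ g : G, ∀ n n' : ↥N, (n' : G) = g * (n : G) * g⁻¹ → (φ : ↥N → ℂ) n' = (starRingEnd ℂ) ((φ : ↥N → ℂ) n)) : ∃ χ : Cfsg.IrrCharacter G, (Nat.card G : ℂ)⁻¹ * ∑ᶠ g : G, (χ : G → ℂ) (g * g) = 1 ∧ (Nat.card ↥N : ℂ)⁻¹ * ∑ᶠ n : ↥N, (χ : G → ℂ) n * (starRingEnd ℂ) ((φ : ↥N → ℂ) n) = 1 := by
  classical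
  letI := Fintype.ofFinite G
  letI := Fintype.ofFinite N
  haveI := Fact.mk Nat.prime_two
  simp only [finsum_eq_sum_of_fintype]
  obtain ⟨g, hg⟩ := hconj
  have hg' : cjf g (φ : N → ℂ) = fun n => conj ((φ : N → ℂ) n) := funext fun n => hg n _ rfl
  let P : Sylow 2 G := default
  letI := Fintype.ofFinite (P : Subgroup G)
  letI := Fintype.ofFinite ↥((P : Subgroup G) ⊓ N)
  obtain ⟨a, ha⟩ := h2.exists_card_eq
  have hPN : (P : Subgroup G) ⊔ N = ⊤ := Subgroup.index_eq_one.1 (Nat.eq_one_of_dvd_coprimes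
    (Nat.Coprime.pow_right a ((Nat.prime_two.coprime_iff_not_dvd.2 P.not_dvd_index).symm))
    (Subgroup.index_dvd_of_le le_sup_left) (ha ▸ Subgroup.index_dvd_of_le le_sup_right))
  have mk := res_indFun_of_mul (exists_mul_of_sup_normal hPN) (isClassFunction_const (G := (P : Subgroup G)) 1)
  choose m hm using fun χ : IrrCharacter G => (χ.2.isCharacter.res P).exists_nat_inner isCharacter_one
  choose e he using fun χ : IrrCharacter G => (χ.2.isCharacter.res N).exists_nat_inner φ.2.isCharacter
  obtain ⟨k, hk⟩ := (φ.2.isCharacter.resLe (inf_le_right : (P : Subgroup G) ⊓ N ≤ N)).exists_nat_inner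
    isCharacter_one
  have h3 : Odd k := by
    have h4 := card_mul_classInner (resLe (inf_le_right : (P : Subgroup G) ⊓ N ≤ N) φ) fun _ => 1
    rw [hk, sum_eq_single 1 (fun x _ hx => by
      obtain ⟨j, hj⟩ := (IsPGroup.iff_orderOf.1 (P.isPGroup'.to_inf_left (K := N))) x
      rw [resLe, φ.2.eq_zero_of_defect_zero Nat.prime_two (Nat.pow_succ_factorization_not_dvd Nat.card_pos.ne'
        Nat.prime_two) hdef (by
          rw [← Subgroup.orderOf_coe, show orderOf _ = _ from Subgroup.orderOf_coe x, hj]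
          exact dvd_pow_self 2 fun h => hx (orderOf_eq_one_iff.1 (by rw [hj, h, pow_zero]))), zero_mul]) (by simp),
      map_one, mul_one, show resLe _ (φ : N → ℂ) 1 = _ from φ.2.cast_charDegree.symm] at h4
    have h5 := φ.2.degree_dvd_card
    have h6 := (indFun_one _ _).symm.trans ((congr_fun mk 1).trans (indFun_one _ _))
    simp only [resLe, toSubOf, mul_one, Nat.cast_inj] at h6
    rw [← show _ = charDegree (φ : N → ℂ) by exact_mod_cast h4, ← (((P : Subgroup G) ⊓ N).subgroupOf N).card_mul_index,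
      ← h6, Nat.card_congr (Subgroup.subgroupOfEquivOfLe inf_le_right).toEquiv] at h5
    exact (Nat.odd_iff.2 (Nat.two_dvd_ne_zero.1 P.not_dvd_index)).of_dvd_nat
      (Nat.dvd_of_mul_dvd_mul_left Nat.card_pos h5)
  have h4 : ∑ χ, m χ * e χ = k := by
    have h5 := ((congrArg (classInner · (φ : N → ℂ)) mk).trans (classInner_indLe_left inf_le_right _
      φ.2.isClassFunction)).trans ((conj_classInner _ _).symm.trans (congrArg conj hk))
    rw [map_natCast, show (fun n : N => indFun (P : Subgroup G) (fun _ => (1 : ℂ)) n) = ∑ χ : IrrCharacter G,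
        (m χ : ℂ) • fun n : N => (χ : G → ℂ) n from funext fun n => by
          rw [(isClassFunction_indFun _ _).apply_eq_sum_irr, Finset.sum_apply]
          refine sum_congr rfl fun χ _ => ?_
          rw [classInner_indFun_left _ χ.2.isClassFunction, ← conj_classInner, hm, map_natCast]; rfl,
      classInner_sum_left] at h5
    simp only [classInner_smul_left, he] at h5
    exact_mod_cast h5
  obtain ⟨χ, h5, h6⟩ : ∃ χ : IrrCharacter G, (fun g => conj ((χ : G → ℂ) g)) = χ ∧ Odd (m χ * e χ) := by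
    by_contra! H
    have := sum_involution (s := univ) (f := fun χ => ((m χ * e χ : ℕ) : ZMod 2))
      (fun χ _ => ⟨_, χ.2.conj⟩) (fun χ _ => by
        have e1 : m ⟨_, χ.2.conj⟩ = m χ := by
          have := (hm ⟨_, χ.2.conj⟩).symm.trans ((congrArg _ (by simp)).trans
            ((classInner_conj_conj _ _).trans ((conj_classInner _ _).symm.trans (congrArg conj (hm χ)))))
          simpa using this
        have e2 : e ⟨_, χ.2.conj⟩ = e χ := by
          have := (he ⟨_, χ.2.conj⟩).symm.trans ((classInner_res_cjf χ.2.conj.isClassFunction g _).symm.trans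
            ((congrArg _ hg').trans
            ((classInner_conj_conj _ _).trans ((conj_classInner _ _).symm.trans (congrArg conj (he χ))))))
          simpa using this
        rw [e1, e2, CharTwo.add_self_eq_zero])
      (fun χ _ h e => h ((ZMod.natCast_eq_zero_iff_even).2 (Nat.not_odd_iff_even.1
        (H χ (congrArg Subtype.val e))))) (fun _ _ => mem_univ _) fun χ _ => Subtype.ext (by simp)
    rw [← Nat.cast_sum, h4, ZMod.natCast_eq_zero_iff_even] at this
    exact Nat.not_odd_iff_even.2 this h3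
  refine ⟨χ, fsInd_eq_one_of_odd χ.2 h5 (P : Subgroup G).subtype (Nat.Odd.of_mul_left h6) (hm χ),
    (he χ).trans ?_⟩
  have h0 : classInner (fun n : N => (χ : G → ℂ) n) φ ≠ 0 := by
    rw [he, Nat.cast_ne_zero]; exact (Nat.Odd.of_mul_right h6).pos.ne'
  obtain ⟨f, h7, h8⟩ := χ.2.exists_degree_eq φ.2 h0
  have h9 := mul_right_cancel₀ φ.2.apply_one_ne_zero (h7.symm.trans (χ.2.clifford_degree φ.2 h0))
  rw [he] at h9
  rw [Nat.cast_eq_one]
  exact Nat.eq_one_of_dvd_coprimes ((Nat.coprime_two_right.2 (Nat.Odd.of_mul_right h6)).pow_right a) dvd_rfl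
    ((Dvd.intro _ (by exact_mod_cast h9.symm)).trans (h8.trans (Eq.dvd ha)))

end Cfsg.Agent.S4872
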