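import Cfsg.Statements.S4871
import Mathlib
import Cfsg.Agent.H7.FS2
import Cfsg.Agent.S4872

set_option autoImplicit false
open Cfsg

namespace Cfsg.Agent.S4871

open Cfsg H3 H7 Finset
open scoped ComplexConjugate

/-- Let G be a finite group that is the semidirect product of a normal elementary abelian subgroup N of odd order by a non-trivial 2-subgroup P, with N the unique minimal normal subgroup of G. Consider the strongly real irreducible complex characters of G (Frobenius–Schur indicator +1) whose degree is 1 or even. Then their average degree is at least 4/3: four times their number is at most three times the sum of their degrees. -/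
theorem result {G : Type*} [Group G] [Finite G] (N P : Subgroup G) (hN : N.Normal) (q : ℕ) [Fact q.Prime] (hq : q ≠ 2) (hNel : Cfsg.IsElementaryAbelian q N) (hP : IsPGroup 2 ↥P) (hP1 : P ≠ ⊥) (hdisj : N ⊓ P = ⊥) (hprod : N ⊔ P = ⊤) (hmin : N ≠ ⊥ ∧ ∀ M : Subgroup G, M.Normal → M ≠ ⊥ → N ≤ M) : 4 * Nat.card {χ : Cfsg.IrrCharacter G // (Cfsg.charDegree (χ : G → ℂ) = 1 ∨ 2 ∣ Cfsg.charDegree (χ : G → ℂ)) ∧ (Nat.card G : ℂ)⁻¹ * ∑ᶠ g : G, (χ : G → ℂ) (g * g) = 1} ≤ 3 * (∑ᶠ χ : {χ : Cfsg.IrrCharacter G // (Cfsg.charDegree (χ : G → ℂ) = 1 ∨ 2 ∣ Cfsg.charDegree (χ : G → ℂ)) ∧ (Nat.card G : ℂ)⁻¹ * ∑ᶠ g : G, (χ : G → ℂ) (g * g) = 1}, Cfsg.charDegree (χ.1 : G → ℂ)) := by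
  classical
  letI := Fintype.ofFinite G
  letI := Fintype.ofFinite N
  haveI := Fact.mk Nat.prime_two
  haveI := hNel.1
  have cm : ∀ a ∈ N, ∀ b ∈ N, a * b = b * a := fun a ha b hb =>
    congrArg Subtype.val (mul_comm' (⟨a, ha⟩ : N) ⟨b, hb⟩)
  have nl : ∀ H : Subgroup G, H ≠ ⊥ → (∀ g ∈ N, ∀ h ∈ H, g * h * g⁻¹ ∈ H) →
      (∀ g ∈ P, ∀ h ∈ H, g * h * g⁻¹ ∈ H) → N ≤ H := fun H h0 h1 h2 => hmin.2 H ⟨fun h hh g => by
    obtain ⟨a, ha, b, hb, rfl⟩ := exists_mul_of_normal_sup hprod g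
    simpa [mul_assoc] using h1 a ha _ (h2 b hb h hh)⟩ h0
  have nP : ¬ N ≤ P := fun h => hmin.1 (hdisj ▸ (inf_eq_left.2 h).symm)
  have nc : ¬ ∀ n ∈ N, ∀ g, g * n = n * g := fun h => nP (nl P hP1 (fun g hg x hx => by
    rwa [← h g hg, mul_inv_cancel_right]) fun g hg x hx => P.mul_mem (P.mul_mem hg hx) (P.inv_mem hg))
  have hN' : N ≤ commutator G := hmin.2 _ inferInstance fun h => nc fun n _ g =>
    (commutator_eq_bot_iff_center_eq_top G).1 h ▸ Subgroup.mem_top n |> (Subgroup.mem_center_iff.1 · g)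
  haveI := (Subgroup.nontrivial_iff_ne_bot P).2 hP1
  haveI := hP.center_nontrivial
  obtain ⟨z, hz⟩ := exists_prime_orderOf_dvd_card' (G := Subgroup.center P) 2
    ((hP.to_subgroup _).card_eq_or_dvd.resolve_left Finite.one_lt_card.ne')
  have z1 : ∀ g ∈ P, g * z.1.1 = z.1.1 * g := fun g hg =>
    congrArg Subtype.val (Subgroup.mem_center_iff.1 z.2 ⟨g, hg⟩)
  rw [← Subgroup.orderOf_coe, ← Subgroup.orderOf_coe] at hz
  have z2 : z.1.1 * z.1.1 = 1 := by rw [← sq, ← hz, pow_orderOf_eq_one]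
  have z3 : N ⊓ Subgroup.centralizer {z.1.1} = ⊥ := by_contra fun h => by
    have := nl _ h (fun g hg x hx => by rwa [cm g hg x hx.1, mul_inv_cancel_right]) fun g hg x hx =>
      ⟨hN.conj_mem _ hx.1 g, Subgroup.mul_mem _ (Subgroup.mul_mem _
        (Subgroup.mem_centralizer_singleton_iff.2 (z1 g hg)) hx.2)
        (Subgroup.inv_mem _ (Subgroup.mem_centralizer_singleton_iff.2 (z1 g hg)))⟩
    have e : ∀ g, g * z.1.1 = z.1.1 * g → ∀ x ∈ Subgroup.zpowers z.1.1, g * x * g⁻¹ ∈ Subgroup.zpowers z.1.1 := by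
      rintro g hg _ ⟨k, rfl⟩
      rw [((show Commute g _ from hg).zpow_right k).eq, mul_inv_cancel_right]
      exact ⟨k, rfl⟩
    refine nP ((nl _ (fun h => ?_) (fun g hg => e g (Subgroup.mem_centralizer_singleton_iff.1 (this hg).2))
      fun g hg => e g (z1 g hg)).trans (Subgroup.zpowers_le.2 z.1.2))
    rw [Subgroup.zpowers_eq_bot.1 h, orderOf_one] at hz
    omega
  have z4 : ∀ n ∈ N, z.1.1 * n * z.1.1⁻¹ = n⁻¹ := fun n hn => by
    have m := hN.conj_mem n hn z.1.1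
    refine eq_inv_of_mul_eq_one_right (Subgroup.mem_bot.1 (z3 ▸ ⟨N.mul_mem hn m,
      Subgroup.mem_centralizer_singleton_iff.2 ?_⟩))
    rw [cm n hn _ m, inv_eq_of_mul_eq_one_right z2] at *
    calc _ = z.1.1 * (n * z.1.1 * n * z.1.1) := by group
      _ = z.1.1 * (n * (z.1.1 * n * z.1.1)) := by group
      _ = _ := by rw [cm n hn _ m]
  obtain ⟨n, hn, n1⟩ := (Subgroup.nontrivial_iff_exists_ne_one N).1 ((Subgroup.nontrivial_iff_ne_bot N).2 hmin.1)
  obtain ⟨φ, hφ, h1⟩ : ∃ φ, IsIrrCharacter N φ ∧ φ ⟨n, hn⟩ ≠ φ 1 := by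
    by_contra! H
    exact n1 (congrArg Subtype.val (eq_one_of_forall_irr H))
  have h2 : IsPGroup 2 (G ⧸ N) := hP.of_surjective ((QuotientGroup.mk' N).comp P.subtype) fun x =>
    QuotientGroup.induction_on x fun g => by
      obtain ⟨a, ha, b, hb, rfl⟩ := exists_mul_of_normal_sup hprod g
      exact ⟨⟨b, hb⟩, by simp [(QuotientGroup.eq_one_iff a).2 ha]⟩
  obtain ⟨χ, h3, h4⟩ := S4872.result N h2 ⟨φ, hφ⟩ (by
    obtain ⟨k, hk⟩ := IsPGroup.exists_card_eq (p := q) (G := N) fun x => ⟨1, Subtype.ext (by simpa using hNel.2 x x.2)⟩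
    rw [Nat.factorization_eq_zero_of_not_dvd fun h => hq ((Nat.prime_dvd_prime_iff_eq Nat.prime_two Fact.out).1
      (Nat.prime_two.dvd_of_dvd_pow (hk ▸ h))).symm]; simp)
    ⟨z.1.1, fun a b e => by rw [show b = a⁻¹ from Subtype.ext (e.trans (z4 _ a.2))]; exact hφ.apply_inv a⟩
  simp only [finsum_eq_sum_of_fintype] at h3 h4
  have hNI := hφ.isClassFunction.le_inertia
  obtain ⟨ψ, h5, h6, h7⟩ := χ.2.exists_clifford_corr hφ rfl hNI (Eq.trans_ne h4 one_ne_zero)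
  have h8 := h5.resLe_eq_smul hNI hφ le_rfl (h7.trans_ne (Eq.trans_ne h4 one_ne_zero))
  rw [h7.trans h4, one_smul] at h8
  have hd : 2 ∣ (inertia φ).index := by
    obtain ⟨a, ha⟩ := h2.exists_card_eq
    obtain ⟨j, -, hj⟩ := (Nat.dvd_prime_pow Nat.prime_two).1 ((Subgroup.index_dvd_of_le hNI).trans (Eq.dvd ha))
    refine hj ▸ dvd_pow_self 2 fun h => nc fun m hm g => ?_
    rw [h, pow_zero, Subgroup.index_eq_one, inertia_eq_top_iff] at hj
    obtain ⟨l, rfl⟩ := hφ.exists_linear_of_comm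
    have : l.ker.map N.subtype = ⊥ := by_contra fun h0 => h1 (by
      obtain ⟨x, hx, e⟩ := hmin.2 _ ⟨by
        rintro _ ⟨x, hx, rfl⟩ g
        exact ⟨⟨_, hN.conj_mem _ x.2 g⟩, Units.ext ((congr_fun (hj g) x).trans (congrArg Units.val hx)), rfl⟩⟩ h0 hn
      rw [← show x = ⟨n, hn⟩ from Subtype.ext e]
      exact congrArg Units.val (hx.trans (map_one l).symm))
    rw [Subgroup.map_eq_bot_iff_of_injective _ N.subtype_injective, MonoidHom.ker_eq_bot_iff] at this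
    exact mul_inv_eq_iff_eq_mul.1 (congrArg Subtype.val (this (Units.ext (congr_fun (hj g) ⟨m, hm⟩))))
  have d2 := Nat.le_of_dvd (Nat.pos_of_ne_zero Subgroup.index_ne_zero_of_finite) hd
  have h9 : ∀ μ : IrrCharacter G, charDegree (μ : G → ℂ) = 1 → (μ : G → ℂ) 1 = 1 := fun μ h => by
    rw [← μ.2.cast_charDegree, h, Nat.cast_one]
  have key := card_le_index_mul hφ rfl hNI h5 h8 (fun μ => charDegree (μ : G → ℂ) = 1 ∧ fsInd (μ : G → ℂ) = 1)
    (fun μ => charDegree (μ : G → ℂ) = (inertia φ).index ∧ fsInd (μ : G → ℂ) = 1)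
    (fun μ h => ⟨h9 μ h.1, hN'.trans (μ.2.degree_eq_one_iff.1 (h9 μ h.1))⟩) fun μ h _ =>
      ⟨charDegree_eq (by
        change indFun _ ψ 1 * _ = _
        rw [indFun_one, h9 μ h.1, show ψ 1 = 1 from (congr_fun h8 1).trans hφ.degree_eq_one_of_comm]; simp),
        (fsInd_mul_linear μ.2 (h9 μ h.1) h.2).trans (h6 ▸ h3)⟩
  have hF : ∀ χ : IrrCharacter G, (Nat.card G : ℂ)⁻¹ * ∑ᶠ g : G, (χ : G → ℂ) (g * g) = fsInd (χ : G → ℂ) :=
    fun χ => by rw [finsum_eq_sum_of_fintype, fsInd]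
  rw [finsum_eq_sum_of_fintype, ← sum_subtype (univ.filter fun χ : IrrCharacter G => (charDegree (χ : G → ℂ) = 1 ∨
    2 ∣ charDegree (χ : G → ℂ)) ∧ fsInd (χ : G → ℂ) = 1) (fun _ => by
      simp only [mem_filter, mem_univ, true_and, hF]) fun χ => charDegree (χ : G → ℂ),
    Nat.card_eq_fintype_card, Fintype.card_subtype, card_filter]
  simp only [hF]
  simp only [Nat.card_eq_fintype_card, Fintype.card_subtype, card_filter, sum_filter, mul_sum] at key ⊢
  refine Nat.le_of_add_le_add_right (le_trans ?_ (Nat.add_le_add_left key _))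
  rw [← sum_add_distrib, ← sum_add_distrib]
  refine sum_le_sum fun μ _ => ?_
  have := μ.2.charDegree_pos
  by_cases h : fsInd (μ : G → ℂ) = 1
  · simp only [h, and_true]
    split_ifs <;> omega
  · simp [h]

end Cfsg.Agent.S4871
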