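import Cfsg.Statements.S4873
import Cfsg.Agent.C3.Deg

set_option autoImplicit false
open Cfsg

namespace Cfsg.Agent.S4873

open H3 C3

/-- Let N be a normal subgroup of odd index in the finite group G. Then every irreducible complex character of N with Frobenius–Schur indicator +1 lies under exactly one irreducible character of G with Frobenius–Schur indicator +1. -/
theorem result {G : Type*} [Group G] [Finite G] (N : Subgroup G) [N.Normal] (hodd : Odd N.index) (φ : Cfsg.IrrCharacter ↥N) (hφ : (Nat.card ↥N : ℂ)⁻¹ * ∑ᶠ g : ↥N, (φ : ↥N → ℂ) (g * g) = 1) : ∃! χ : Cfsg.IrrCharacter G, (Nat.card G : ℂ)⁻¹ * ∑ᶠ g : G, (χ : G → ℂ) (g * g) = 1 ∧ (∑ᶠ n : ↥N, (χ : G → ℂ) n * (starRingEnd ℂ) ((φ : ↥N → ℂ) n)) ≠ 0 := by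
  have := Fintype.ofFinite G
  have := Fintype.ofFinite N
  simp only [finsum_eq_sum_of_fintype] at hφ ⊢
  change fsInd _ = 1 at hφ
  have r : ∀ {χ : G → ℂ}, ∑ n : N, χ n * (starRingEnd ℂ) (φ.1 n) ≠ 0 ↔ classInner (fun n : N => χ n) φ ≠ 0 := by
    intro χ; rw [← card_mul_classInner (fun n : N => χ n)]; simp [Nat.card_pos.ne']
  obtain ⟨χ, a, b, c⟩ := exists_real_over hodd φ.2 (real_of_fsInd φ.2 (by simp [hφ]))
  refine ⟨⟨χ, a⟩, ⟨b.trans hφ, r.2 (by simp [c])⟩, fun ψ ⟨d, e⟩ => Subtype.ext (real_unique hodd ψ.2 a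
    (real_of_fsInd ψ.2 (by change fsInd _ = 1 at d; simp [d])) (real_of_fsInd a (by simp [b, hφ])) φ.2
      (r.1 e) (by simp [c]))⟩

end Cfsg.Agent.S4873
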