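import Cfsg.Statements.S4911
import Cfsg.Agent.C3.Glaub3

set_option autoImplicit false
open Cfsg

namespace Cfsg.Agent.S4911

open Subgroup H3 C3 BG
open scoped ComplexConjugate

/-- Let P and K be subgroups of a finite group with P a p-group normalizing K and K of order prime to p. Then the number of P-invariant real-valued irreducible complex characters of K equals the number of conjugacy classes of K that are real (closed under inversion) and P-invariant. Moreover, if every real-valued irreducible character of K is P-invariant, then every real element of K (one conjugate in K to its inverse) is conjugate in K to an element centralized by P. -/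
theorem result {G : Type*} [Group G] [Finite G] (p : ℕ) [Fact p.Prime] (P K : Subgroup G) (hP : IsPGroup p ↥P) (hK : ¬ p ∣ Nat.card ↥K) (hPK : P ≤ Subgroup.normalizer (K : Set G)) : Nat.card {θ : Cfsg.IrrCharacter ↥K // (∀ k : ↥K, ((θ : ↥K → ℂ) k).im = 0) ∧ (∀ x ∈ P, ∀ k k' : ↥K, (k' : G) = x * (k : G) * x⁻¹ → (θ : ↥K → ℂ) k' = (θ : ↥K → ℂ) k)} = Nat.card {c : ConjClasses ↥K // (∀ k : ↥K, ConjClasses.mk k = c → IsConj k k⁻¹) ∧ ∀ k : ↥K, ConjClasses.mk k = c → ∀ x ∈ P, ∀ k' : ↥K, (k' : G) = x * (k : G) * x⁻¹ → ConjClasses.mk k' = c} ∧ ((∀ θ : Cfsg.IrrCharacter ↥K, (∀ k : ↥K, ((θ : ↥K → ℂ) k).im = 0) → (∀ x ∈ P, ∀ k k' : ↥K, (k' : G) = x * (k : G) * x⁻¹ → (θ : ↥K → ℂ) k' = (θ : ↥K → ℂ) k)) → ∀ k : ↥K, IsConj k k⁻¹ → ∃ k' : ↥K, IsConj k k' ∧ ∀ x ∈ P, x * (k' : G) * x⁻¹ = (k' : G)) := by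
  have hp : p.Prime := Fact.out
  have := Fintype.ofFinite ↥(K ⊓ 𝒞 P)
  have hc : (♯K).Coprime (♯P) := by
    obtain ⟨n, hn⟩ := IsPGroup.iff_card.1 hP
    rw [hn]; exact (hp.coprime_iff_not_dvd.2 hK).symm.pow_right n
  have := hP.isNilpotent
  have h := (act_bot hPK).corr hp hP (by simpa using hK)
  have e : ∀ {A : Subgroup G} {χ : A → ℂ}, (∀ k, (χ k).im = 0) ↔ (fun g => conj (χ g)) = χ := by
    simp [funext_iff, Complex.conj_eq_iff_im]
  have e1 : ∀ {A : Subgroup G} {χ : A → ℂ}, IrrI P χ → IrrI P fun g => conj (χ g) := fun a =>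
    ⟨a.irr.conj, fun s hs g g' b => congrArg conj (a.inv s hs g g' b)⟩
  have e2 : ∀ (χ : K → ℂ) (β : ↥(K ⊓ 𝒞 P) → ℂ), mlt (resLe inf_le_left fun g => conj (χ g))
      (fun g => conj (β g)) = mlt (resLe inf_le_left χ) β := fun χ β => by
    rw [mlt, mlt, re_inner_comm]; exact congrArg (⌊·.re⌋₊) (classInner_conj_conj β (resLe inf_le_left χ))
  have e4 : ∀ {X : Type _} [Group X] {a b : X}, IsConj a b → IsConj a⁻¹ b⁻¹ := fun h =>
    let ⟨c, h⟩ := isConj_iff.1 h; isConj_iff.2 ⟨c, by rw [← h]; group⟩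
  have e3 := fun β : IrrCharacter ↥(K ⊓ 𝒞 P) => (⟨β.2, sInv_of_cent inf_le_right _⟩ : IrrI P β.1)
  have h1 := (card_eq_of_rel (pX := fun χ : IrrCharacter K => (∀ k, (χ.1 k).im = 0) ∧ SInv P χ.1)
    (pY := fun β : IrrCharacter ↥(K ⊓ 𝒞 P) => (fun g => conj (β.1 g)) = β.1)
    (fun χ β => ¬ p ∣ mlt (resLe inf_le_left χ.1) β.1) (fun χ a => by
      obtain ⟨β, b, c⟩ := h.ex ⟨χ.2, a.2⟩
      exact ⟨⟨β, b.irr⟩, h.uniq ⟨χ.2, a.2⟩ (e1 b) b (by rwa [← e.1 a.1, e2]) c, c⟩) (fun β a => by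
      obtain ⟨χ, b, c⟩ := h.ex' (e3 β)
      exact ⟨⟨χ, b.irr⟩, ⟨e.2 (h.uniq' (e1 b) b (e3 β) (by rwa [← a, e2]) c), b.inv⟩, c⟩)
    (fun χ β β' a _ _ d f => Subtype.ext (h.uniq ⟨χ.2, a.2⟩ (e3 β) (e3 β') d f))
    fun χ χ' β a b _ d f => Subtype.ext (h.uniq' ⟨χ.2, a.2⟩ ⟨χ'.2, b.2⟩ (e3 β) d f)).trans
    (card_real_irr.trans (card_cls_inv hPK hc inferInstance
      (fun c => ∀ k : K, ConjClasses.mk k = c → IsConj k k⁻¹) _ fun c => by
        simp only [ConjClasses.mk_eq_mk_iff_isConj]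
        exact ⟨fun a k b => b.trans ((isConj_cent hPK hc inferInstance (d := c⁻¹) (a _ (IsConj.refl _))).trans
          (e4 b.symm)), fun a k b => b.trans (((inclusion _).map_isConj
          (a _ (IsConj.refl _))).trans (e4 b.symm))⟩).symm)
  have h2 : ∀ c : ConjClasses K, (∀ s ∈ P, ∀ g g' : K, (g' : G) = s * g * s⁻¹ → ConjClasses.mk g = c →
      ConjClasses.mk g' = c) ↔ ∀ k : K, ConjClasses.mk k = c → ∀ x ∈ P, ∀ k' : K,
      (k' : G) = x * k * x⁻¹ → ConjClasses.mk k' = c := fun c =>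
    ⟨fun a k b x d k' f => a x d k k' f b, fun a x d k k' f b => a k b x d k' f⟩
  refine ⟨h1.trans (Nat.card_congr (Equiv.subtypeEquivRight fun c => and_congr_right' (h2 c))),
    fun a k b => ?_⟩
  have h3 := (h1.symm.trans (Nat.card_congr (Equiv.subtypeEquivRight fun χ =>
    (and_iff_left_of_imp (a χ)).trans e))).trans card_real_irr
  have h4 := Set.eq_of_subset_of_ncard_le (s := {c | _ ∧ _})
    (t := {c : ConjClasses K | ∀ k : K, ConjClasses.mk k = c → IsConj k k⁻¹}) (fun c u => u.1) h3.ge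
  obtain ⟨c, d⟩ := exists_cent_rep hPK hc inferInstance ((Set.ext_iff.1 h4 (ConjClasses.mk k)).2 fun g u =>
    (ConjClasses.mk_eq_mk_iff_isConj.1 u).trans (b.trans
      (e4 (ConjClasses.mk_eq_mk_iff_isConj.1 u).symm))).2
  exact ⟨_, ConjClasses.mk_eq_mk_iff_isConj.1 d.symm, fun x hx => mul_inv_eq_iff_eq_mul.2 (c.2.2 x hx)⟩

end Cfsg.Agent.S4911
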