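import Cfsg.Statements.S4914
import Cfsg.Agent.C3.Glaub3

set_option autoImplicit false
open Cfsg

namespace Cfsg.Agent.S4914

open Subgroup H3 C3

/-- Let P and K be subgroups of a finite group G with P a p-group normalizing K, and suppose K has a normal Sylow p-subgroup Q. Let C be the subgroup of those k ∈ K whose commutator with every element of P lies in Q (so that C/Q is the fixed-point subgroup of P on K/Q). Then there is a bijection f from the P-invariant irreducible complex characters of K onto the P-invariant irreducible complex characters of C such that, for every P-invariant irreducible character χ of K, the multiplicity of f(χ) in the restriction of χ to C is a natural number congruent to 1 or to −1 modulo p, every other P-invariant irreducible character of C occurs in that restriction with multiplicity divisible by p, and the degrees of χ and f(χ) are congruent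 modulo p up to sign. -/
theorem result {G : Type*} [Group G] [Finite G] (p : ℕ) [Fact p.Prime] (P K Q C : Subgroup G) (hP : IsPGroup p ↥P) (hPK : P ≤ Subgroup.normalizer (K : Set G)) (hQK : Q ≤ K) (hQn : ∀ k ∈ K, ∀ q ∈ Q, k * q * k⁻¹ ∈ Q) (hQp : ∃ a : ℕ, Nat.card ↥Q = p ^ a) (hQsyl : ¬ p ∣ Q.relIndex K) (hCK : C ≤ K) (hC : ∀ k : G, k ∈ C ↔ (k ∈ K ∧ ∀ x ∈ P, x * k * x⁻¹ * k⁻¹ ∈ Q)) : ∃ f : {χ : Cfsg.IrrCharacter ↥K // (∀ x ∈ P, ∀ k k' : ↥K, (k' : G) = x * (k : G) * x⁻¹ → (χ : ↥K → ℂ) k' = (χ : ↥K → ℂ) k)} → {ξ : Cfsg.IrrCharacter ↥C // (∀ x ∈ P, ∀ k k' : ↥C, (k' : G) = x * (k : G) * x⁻¹ → (ξ : ↥C → ℂ) k' = (ξ : ↥C → ℂ) k)}, Function.Bijective f ∧ ∀ χ, (∀ ξ : {ξ : Cfsg.IrrCharacter ↥C // (∀ x ∈ P, ∀ k k' : ↥C, (k' : G) = x * (k : G) * x⁻¹ → (ξ : ↥C → ℂ) k' = (ξ : ↥C → ℂ) k)}, ∃ m : ℕ, (Nat.card ↥C : ℂ)⁻¹ * ∑ᶠ c : ↥C, (χ.1 : ↥K → ℂ) (Subgroup.inclusion hCK c) * (starRingEnd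 ℂ) ((ξ.1 : ↥C → ℂ) c) = (m : ℂ) ∧ (ξ = f χ → ((m : ZMod p) = 1 ∨ (m : ZMod p) = -1)) ∧ (ξ ≠ f χ → p ∣ m)) ∧ ((Cfsg.charDegree ((f χ).1 : ↥C → ℂ) : ZMod p) = (Cfsg.charDegree (χ.1 : ↥K → ℂ) : ZMod p) ∨ (Cfsg.charDegree ((f χ).1 : ↥C → ℂ) : ZMod p) = -(Cfsg.charDegree (χ.1 : ↥K → ℂ) : ZMod p)) := by
  have hp : p.Prime := Fact.out
  have := Fintype.ofFinite C
  have h1 := norm_of hQn
  have hQ : IsPGroup p Q := IsPGroup.iff_card.2 hQp
  have h2 : P ≤ normalizer (Q : Set G) := norm_of fun x hx q hq => by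
    obtain ⟨k, hk⟩ := hQ ⟨q, hq⟩
    refine mem_of_coprime h1 ((mem_normalizer_iff.1 (hPK hx) _).1 (hQK hq)) (m := p ^ k) ?_
      (Nat.Coprime.pow_left k (hp.coprime_iff_not_dvd.2 hQsyl))
    rw [conj_pow, show q ^ p ^ k = 1 from congrArg Subtype.val hk]; simp
  have h3 : Act K Q P C := ⟨hQK, h1, hPK, h2, hC⟩
  have h := h3.corr hp hP hQsyl
  obtain ⟨f, a, b⟩ := exists_bij_of_rel (pX := fun χ : IrrCharacter K => SInv P χ.1)
    (pY := fun χ : IrrCharacter C => SInv P χ.1) (fun χ β => ¬ p ∣ mlt (resLe hCK χ.1) β.1)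
    (fun χ c => let ⟨β, d, e⟩ := h.ex ⟨χ.2, c⟩; ⟨⟨β, d.irr⟩, d.inv, e⟩)
    (fun β c => let ⟨χ, d, e⟩ := h.ex' ⟨β.2, c⟩; ⟨⟨χ, d.irr⟩, d.inv, e⟩)
    (fun χ β β' a b c d e => Subtype.ext (h.uniq ⟨χ.2, a⟩ ⟨β.2, b⟩ ⟨β'.2, c⟩ d e))
    fun χ χ' β a b c d e => Subtype.ext (h.uniq' ⟨χ.2, a⟩ ⟨χ'.2, b⟩ ⟨β.2, c⟩ d e)
  have c := fun χ ξ e => pm_one_of_sq hp (h.sq ⟨χ.1.2, χ.2⟩ ⟨ξ.1.2, ξ.2⟩ ((b χ ξ).2 e))
  refine ⟨f, a, fun χ => ⟨fun ξ => ⟨mlt (resLe hCK χ.1.1) ξ.1.1, ?_, c χ ξ,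
    fun e => by_contra fun d => e ((b χ ξ).1 d)⟩, ?_⟩⟩
  · rw [cast_mlt (χ.1.2.isCharacter.resLe hCK) ξ.1.2.isCharacter, classInner_def,
      finsum_eq_sum_of_fintype]; rfl
  have d := sum_modEq_single hp hP h3.pc (fun β => mlt (resLe hCK χ.1.1) β * charDegree β)
    (fun x hx β => by
      rw [← mlt_res_cn hCK (hPK hx) (h3.pc hx) χ.1.1 β, SInv.cn_eq χ.2 hx]
      congr 1; unfold charDegree cn; simp; rfl) ⟨(f χ).1.2, (f χ).2⟩ fun γ u v => (by_contra fun w =>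
        v (congrArg (·.1.1) ((b χ ⟨⟨γ, u.irr⟩, u.inv⟩).1 w)) : p ∣ _).mul_right _
  have e : ∑ β : IrrCharacter C, mlt (resLe hCK χ.1.1) β * charDegree β.1 = charDegree χ.1.1 := by
    refine Nat.cast_injective (R := ℂ) ?_
    rw [χ.1.2.cast_charDegree, Nat.cast_sum]
    exact (Finset.sum_congr rfl fun β _ => by
      rw [Nat.cast_mul, cast_mlt (χ.1.2.isCharacter.resLe hCK) β.2.isCharacter,
        β.2.cast_charDegree]).trans
      ((χ.1.2.isCharacter.resLe hCK).isClassFunction.apply_eq_sum_irr 1).symm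
  rw [e, ← ZMod.natCast_eq_natCast_iff, Nat.cast_mul] at d
  exact (c χ _ rfl).imp (fun u => by rw [d, u, one_mul]) fun u => by rw [d, u]; ring

end Cfsg.Agent.S4914
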