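import Cfsg.Statements.S4916
import Cfsg.Agent.C3.Sig

set_option autoImplicit false
open Cfsg

namespace Cfsg.Agent.S4916

open H3 H2 C3 B Subgroup Finset

/-- Let G be a finite group, p a prime and M a maximal ideal of the algebraic integers containing p. Then the principal character is the only irreducible character of degree prime to p in the principal p-block of G if and only if p does not divide the order of G. -/
theorem result {G : Type*} [Group G] [Finite G] (p : ℕ) [Fact p.Prime] (M : Ideal Cfsg.AlgInt) (hM : Cfsg.IsPModular p M) : (∀ χ : Cfsg.IrrCharacter G, χ ∈ Cfsg.principalBlock M G → ¬ p ∣ Cfsg.charDegree (χ : G → ℂ) → (χ : G → ℂ) = fun _ => (1 : ℂ)) ↔ ¬ p ∣ Nat.card G := by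
  classical
  have : PMod p M := ⟨hM⟩
  refine ⟨fun h a => ?_, fun h χ a _ => ?_⟩
  · have b := (isPBlock_principal (M := M) (G := G)).factorization_sum_sq
    rw [defect_principal, two_mul, add_left_inj] at b
    have c := Nat.dvd_of_factorization_pos (b ▸ ((Fact.out : p.Prime).factorization_pos_of_dvd Nat.card_pos.ne' a).ne')
    rw [← add_sum_erase _ _ (a := oneIrr G) (by simp [oneIrr_mem]), Nat.dvd_add_left (dvd_sum fun χ d =>
      dvd_pow (by_contra fun e => ne_of_mem_erase d (Subtype.ext (h χ (mem_filter.1 (mem_of_mem_erase d)).2 e)))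
      two_ne_zero)] at c
    exact (Fact.out : p.Prime).not_dvd_one (by simpa [oneIrr, charDegree] using c)
  · exact congrArg Subtype.val ((blockOf_eq_singleton_of_not_dvd (M := M) h (oneIrr G)).le a)

end Cfsg.Agent.S4916
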