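import Cfsg.Statements.S4989
import Cfsg.Agent.H3.Misc

set_option autoImplicit false
open Cfsg

namespace Cfsg.Agent.S4989

open H3 Finset

/-- Let H be a subgroup of the finite group G and χ an irreducible complex character of G. Then the inner product of the restriction of χ to H with itself, (1/#H)·Σ_{h ∈ H} |χ(h)|², is at most 1 + #(Z ∖ H)/#H, where Z is the set of zeros of χ in G. -/
theorem result {G : Type*} [Group G] [Finite G] (H : Subgroup G) (χ : Cfsg.IrrCharacter G) : (Nat.card ↥H : ℝ)⁻¹ * ∑ᶠ h : ↥H, ‖(χ : G → ℂ) h‖ ^ 2 ≤ 1 + (Set.ncard ({x : G | (χ : G → ℂ) x = 0} \ (H : Set G)) : ℝ) / (Nat.card ↥H : ℝ) := by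
  classical
  have := Fintype.ofFinite G
  have h1 : ∑ g, ‖(χ : G → ℂ) g‖ ^ 2 = (Nat.card G : ℝ) := by
    have := classInner_self_re (χ : G → ℂ)
    rw [χ.2.inner_self, Complex.one_re, eq_inv_mul_iff_mul_eq₀ (by exact_mod_cast Nat.card_pos.ne')] at this
    linarith
  set Z := univ.filter (fun g : G => g ∈ H)
  set O := univ.filter (fun g : G => (χ : G → ℂ) g = 0 ∧ g ∉ H)
  set S := univ.filter (fun g : G => (χ : G → ℂ) g ≠ 0 ∧ g ∉ H)
  have h2 : ∀ f : G → ℝ, ∑ g, f g = ∑ g ∈ Z, f g + ∑ g ∈ O, f g + ∑ g ∈ S, f g := fun f => by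
    simp only [Z, O, S, sum_filter, ← sum_add_distrib]
    refine sum_congr rfl fun g _ => ?_
    by_cases a : (χ : G → ℂ) g = 0 <;> by_cases b : g ∈ H <;> simp [a, b]
  have h3 := h2 fun _ => 1
  rw [h2, sum_eq_zero (s := O) (fun g a => by simp [(mem_filter.1 a).2.1])] at h1
  simp only [sum_const, card_univ, nsmul_eq_mul, mul_one, ← Nat.card_eq_fintype_card] at h1 h3
  have h4 := χ.2.isGen.card_le_sum_norm_sq S (fun k a g b => ?_) fun g a => (mem_filter.1 a).2.1
  · have h5 : Z.card = Nat.card H := by rw [Nat.card_eq_fintype_card, Fintype.card_subtype]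
    have h6 : Set.ncard ({x : G | (χ : G → ℂ) x = 0} \ (H : Set G)) = O.card := by
      rw [← Set.ncard_coe_finset]; congr 1; ext; simp [O]
    have h7 : (0 : ℝ) < Nat.card H := by exact_mod_cast Nat.card_pos
    rw [finsum_eq_sum_of_fintype, h6, ← sum_subtype Z (by simp [Z]) fun g => ‖(χ : G → ℂ) g‖ ^ 2,
      inv_mul_le_iff₀ h7, mul_add, mul_div_cancel₀ _ h7.ne', ← h5]
    linarith
  obtain ⟨σ, c⟩ := exists_galois_pow G a
  obtain ⟨-, e, f⟩ := mem_filter.1 b
  refine mem_filter.2 ⟨mem_univ _, c χ χ.2.isGen g ▸ (map_ne_zero σ).2 e, fun i => f ?_⟩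
  exact (Subgroup.zpowers_le.2 i) (mem_zpowers_pow_iff.2 (a.coprime_dvd_right (orderOf_dvd_natCard g)))

end Cfsg.Agent.S4989
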