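import Cfsg.Statements.S4996
import Cfsg.Agent.C3.Deg

set_option autoImplicit false
open Cfsg

namespace Cfsg.Agent.S4996

open H3 C3 Finset

/-- Let N be a normal subgroup of the finite group G and χ an irreducible complex character of G. Then the restriction of χ to N is not irreducible if and only if χ vanishes on some whole coset Nx of N in G. -/
theorem result {G : Type*} [Group G] [Finite G] (N : Subgroup G) [N.Normal] (χ : Cfsg.IrrCharacter G) : ¬ Cfsg.IsIrrCharacter ↥N (fun n : ↥N => (χ : G → ℂ) n) ↔ ∃ x : G, ∀ n : ↥N, (χ : G → ℂ) ((n : G) * x) = 0 := by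
  classical
  have := Fintype.ofFinite G
  have := Fintype.ofFinite N
  have a : IsCharacter G fun g => (χ : G → ℂ) g * (starRingEnd ℂ) ((χ : G → ℂ) g) :=
    χ.2.isCharacter.mul χ.2.isCharacter.conj
  have b : ∀ x, avg N (fun g => (χ : G → ℂ) g * (starRingEnd ℂ) ((χ : G → ℂ) g)) x =
      (((Nat.card N : ℝ)⁻¹ * ∑ n : N, ‖(χ : G → ℂ) (n * x)‖ ^ 2 : ℝ) : ℂ) := fun x => by
    simp [avg_apply, Complex.mul_conj, Complex.normSq_eq_norm_sq]
  refine ⟨fun h => by_contra fun h0 => ?_, fun ⟨x, h⟩ c => ?_⟩
  swap
  · have := congrFun (avg_mul_conj_self χ.2.isCharacter c) x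
    simp [avg_apply, h] at this
  push Not at h0
  set f := avg N (fun g => (χ : G → ℂ) g * (starRingEnd ℂ) ((χ : G → ℂ) g))
  have c : ∀ x, f x ≠ 0 := fun x c => by
    obtain ⟨n, d⟩ := h0 x
    rw [b, Complex.ofReal_eq_zero, mul_eq_zero, sum_eq_zero_iff_of_nonneg fun _ _ => by positivity] at c
    simpa [d, Nat.card_pos.ne'] using c.imp id fun c => c n (mem_univ _)
  have d := card_le_sum_norm (a.avg (N := N)).isGen (univ.erase 1) (fun k i g j => by
    simpa using fun l => (mem_erase.1 j).1 (mem_of_pow_mem (H := ⊥) i l)) fun g _ => c g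
  have e : ∑ g, ‖f g‖ = Nat.card G := by
    have := classInner_avg_left (N := N) (fun g => (χ : G → ℂ) g * (starRingEnd ℂ) ((χ : G → ℂ) g)) fun _ => 1
    rw [avg_of_forall (f := fun _ => 1) (fun _ _ _ => rfl)] at this
    have i : classInner f (fun _ => 1) = 1 := this.trans (by simpa [classInner_def] using χ.2.inner_self)
    have j := card_mul_classInner f fun _ => 1
    simp only [i, mul_one, map_one] at j
    have k : ∀ x, f x = ‖f x‖ := fun x => by
      rw [b, Complex.norm_real, Real.norm_of_nonneg (by positivity)]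
    rw [sum_congr rfl fun x _ => k x] at j
    exact_mod_cast j.symm
  obtain ⟨m, i⟩ := (χ.2.isCharacter.res N).isGen.exists_nat_inner_self
  have j : f 1 = m := (avg_mul_conj_one _ _).trans i
  have k : 1 < m := by
    by_contra! k
    interval_cases m
    · exact c 1 (by simpa using j)
    · exact h ((χ.2.isCharacter.res N).irr_of_inner_self (by simpa using i))
  rw [← add_sum_erase _ _ (mem_univ 1), j, Complex.norm_natCast] at e
  rw [card_erase_of_mem (mem_univ _), card_univ, ← Nat.card_eq_fintype_card,
    Nat.cast_sub Nat.card_pos] at d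
  have : (1 : ℝ) < m := by exact_mod_cast k
  push_cast at d; linarith

end Cfsg.Agent.S4996
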