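import Cfsg.Statements.S5001
import Cfsg.Agent.B.PC
import Cfsg.Agent.B.Contr

set_option autoImplicit false
open Cfsg

namespace Cfsg.Agent.S5001

open Cfsg.Agent Cfsg.Agent.B Cfsg.Agent.H2 Cfsg.Agent.H3 Cfsg.Agent.L Subgroup MonoidAlgebra
open scoped Pointwise commutatorElement

/-- Let p be a prime, G a finite group and B a p-block of G (relative to a maximal ideal M of the algebraic integers containing p) with defect group D. Let Z be a central p-subgroup of G contained in D and λ a linear character of Z (a homomorphism to the nonzero complex numbers). Say an irreducible character χ of G lies over λ when χ(z) = χ(1)λ(z) for all z ∈ Z. If some irreducible character in B lying over λ has height zero, then λ extends to a linear character of D. -/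
theorem result {G : Type*} [Group G] [Finite G] (p : ℕ) [Fact p.Prime] (M : Ideal Cfsg.AlgInt) (hM : Cfsg.IsPModular p M) (B : Set (Cfsg.IrrCharacter G)) (hB : Cfsg.IsPBlock M B) (D : Subgroup G) (hD : Cfsg.IsDefectGroup p M B D) (Z : Subgroup G) (hZc : Z ≤ Subgroup.center G) (hZp : IsPGroup p ↥Z) (hZD : Z ≤ D) (lam : ↥Z →* ℂˣ) (χ : Cfsg.IrrCharacter G) (hχ : χ ∈ B) (hover : (∀ z : ↥Z, (χ : G → ℂ) z = (χ : G → ℂ) 1 * (lam z : ℂ))) (h0 : Cfsg.blockHeight p B (χ : G → ℂ) = 0) : (∃ μ : ↥D →* ℂˣ, ∀ z : ↥Z, μ ⟨(z : G), hZD z.2⟩ = lam z) := by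
  have : PMod p M := ⟨hM⟩
  classical
  have := Fintype.ofFinite G
  obtain ⟨g, hg, hS⟩ := isDefectGroup_iff.1 hD
  have h1 := hg.red_ne_zero hB.closed hχ h0
  obtain ⟨ω, h2, h3⟩ := exists_sh_eq g
  have h4 : IsClassFunction D fun u => sh g χ (inclusion hS.le u) := (isClassFunction_sh g χ.2.isClassFunction).comp _
  have h5 : ∀ ψ : IrrCharacter D, classInner (fun u => sh g χ (inclusion hS.le u)) ψ ∈ O M := fun ψ => by
    rw [h3 _ χ.2.isClassFunction]
    simp only [Finset.sum_apply, Pi.smul_apply]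
    rw [← Finset.sum_fn, classInner_sum_left]
    refine sum_mem fun ξ _ => ?_
    erw [classInner_smul_left]
    exact mul_mem (mul_mem (inner_mem_O (χ.2.isGen.res _) ξ.2.isGen) (mem_O_of_pow_eq_one (orderOf_pos g).ne' (h2 ξ)))
      (inner_mem_O (ξ.2.isGen.comp _) ψ.2.isGen)
  have h6 := h4.apply_eq_sum_irr 1
  simp only [map_one, sh, OneMemClass.coe_one, mul_one] at h6
  rw [h6, red_sum _ _ fun ψ _ => mul_mem (h5 ψ) (irr_mem_O ψ 1)] at h1
  obtain ⟨ψ, -, h7⟩ := Finset.exists_ne_zero_of_sum_ne_zero h1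
  rw [red_mul (h5 ψ) (irr_mem_O ψ 1), mul_ne_zero_iff, ← ψ.2.cast_charDegree, red_natCast, Ne, Ne, natCast_F_eq_zero_iff] at h7
  obtain ⟨μ, h8⟩ := ψ.2.isCharacter.exists_linear (by
    rw [← ψ.2.cast_charDegree, charDegree_eq_one_of_nu hS.pgrp (Nat.factorization_eq_zero_of_not_dvd h7.2), Nat.cast_one])
  refine ⟨μ, fun z => Units.ext ?_⟩
  have h9 := mul_ne_zero (card_ne_zero (G := D)) (ne_zero_of_red h7.1)
  have h10 := card_mul_classInner (fun u => sh g χ (inclusion hS.le u)) ψ
  rw [← Equiv.sum_comp (Equiv.mulRight ⟨z, hZD z.2⟩), Finset.sum_congr rfl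
    (g := fun u : D => (lam z / μ ⟨z, hZD z.2⟩) * (sh g χ (inclusion hS.le u) * starRingEnd ℂ (ψ.1 u))), ← Finset.mul_sum,
    ← card_mul_classInner, eq_comm, mul_eq_right₀ h9, div_eq_one_iff_eq (Units.ne_zero _)] at h10
  · exact h10.symm
  · intro u _
    simp only [h8, sh, Equiv.coe_mulRight, map_mul, coe_mul, coe_inclusion, Units.val_mul, conj_linear]
    rw [← mul_assoc g, apply_mul_of_mem_charCenter χ.2.apply_one_ne_zero (χ.2.center_le_charCenter (hZc z.2)), hover,
      mul_div_cancel_left₀ _ χ.2.apply_one_ne_zero]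
    ring

end Cfsg.Agent.S5001
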