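import Cfsg.Statements.S5011
import Cfsg.Agent.H3.Misc

set_option autoImplicit false
open Cfsg

namespace Cfsg.Agent.S5011

open H3

/-- Let G be a finite non-abelian simple group and ρ an irreducible complex representation of G on a space of dimension greater than one (irreducible in the sense that the only subspaces invariant under every ρ(x) are 0 and the whole space). Then for every non-identity element g of G, the centralizer of g does not act irreducibly: there is a non-zero proper subspace invariant under ρ(c) for every c commuting with g. -/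
theorem result {G : Type*} [Group G] [Finite G] [IsSimpleGroup G]
    (hG : ¬ IsMulCommutative G) {V : Type*} [AddCommGroup V] [Module ℂ V] [FiniteDimensional ℂ V]
    (ρ : Representation ℂ G V)
    (hirr : ∀ W : Submodule ℂ V, (∀ x : G, ∀ v ∈ W, ρ x v ∈ W) → W = ⊥ ∨ W = ⊤)
    (hdim : 1 < Module.finrank ℂ V) (g : G) (hg : g ≠ 1) :
    ∃ W : Submodule ℂ V, W ≠ ⊥ ∧ W ≠ ⊤ ∧ ∀ c ∈ Subgroup.centralizer ({g} : Set G), ∀ v ∈ W, ρ c v ∈ W := by
  by_contra! h
  have : Nontrivial V := Module.finrank_pos_iff.1 (by omega : 0 < Module.finrank ℂ V)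
  have a : Representation.IsIrreducible (ρ.comp (Subgroup.centralizer ({g} : Set G)).subtype) :=
    (isIrreducible_iff _).2 ⟨this, fun U b => by
      by_contra! c
      obtain ⟨x, d, v, e, f⟩ := h U c.1 c.2
      exact f (b ⟨x, d⟩ v e)⟩
  obtain ⟨c, b⟩ := exists_scalar_of_commute (ρ.comp (Subgroup.centralizer ({g} : Set G)).subtype) (ρ g)
    fun x => by
      change ρ g * ρ x = ρ x * ρ g
      rw [← map_mul, ← map_mul, Subgroup.mem_centralizer_singleton_iff.1 x.2]
  let N : Subgroup G :=
    { carrier := {x | ∃ c : ℂ, ρ x = c • LinearMap.id}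
      one_mem' := ⟨1, by ext; simp⟩
      mul_mem' := fun ⟨c, a⟩ ⟨d, b⟩ => ⟨c * d, by ext; simp [a, b, smul_smul, mul_comm]⟩
      inv_mem' := fun {x} ⟨c, a⟩ => by
        rw [← mul_one x⁻¹, ← pow_orderOf_eq_one x, ← Nat.sub_add_cancel (orderOf_pos x), pow_succ',
          inv_mul_cancel_left]
        exact ⟨c ^ (orderOf x - 1), by rw [map_pow, a, smul_pow, ← Module.End.one_eq_id, one_pow]⟩ }
  have d : N.Normal := ⟨fun x ⟨c, a⟩ y => ⟨c, by
    rw [map_mul, map_mul, a, ← Module.End.one_eq_id, mul_smul_comm, smul_mul_assoc, mul_one, ← map_mul]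
    simp⟩⟩
  have e := (d.eq_bot_or_eq_top).resolve_left fun e => hg (e.le ⟨c, b⟩)
  obtain ⟨v, f⟩ := exists_ne (0 : V)
  rcases hirr (Submodule.span ℂ {v}) (fun x w i => by
    obtain ⟨c, j⟩ := e.ge (Subgroup.mem_top x)
    rw [j]; exact Submodule.smul_mem _ _ i) with i | i
  · exact f (by simpa using i)
  · have := finrank_span_singleton (K := ℂ) f
    rw [i, finrank_top] at this; omega

end Cfsg.Agent.S5011
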