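import Cfsg.Statements.S5057
import Cfsg.Agent.C3.RI
import Cfsg.Agent.GS.Spec2

set_option autoImplicit false
open Cfsg

namespace Cfsg.Agent.S5057

open H2 C3 C3.RI Subgroup Equiv Equiv.Perm

/-- The involutions of the alternating group of degree 6 form a class of root involutions (a single conjugacy class of involutions generating the group, any two of which commute, have product of odd order, or have product of order 4 whose square is again an involution of the class), and the product of any two of them has order at most 5. -/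
theorem result :
    Cfsg.IsRootInvolutionClass {g : ↥(alternatingGroup (Fin 6)) | orderOf g = 2} ∧
    ∀ d ∈ {g : ↥(alternatingGroup (Fin 6)) | orderOf g = 2}, ∀ e ∈ {g : ↥(alternatingGroup (Fin 6)) | orderOf g = 2},
      orderOf (d * e) ≤ 5 := by
  have h1 : ∀ g : alternatingGroup (Fin 6), orderOf g ∈ ({1, 2, 3, 4, 5} : Set ℕ) := fun g => GS.spec_A6.le ⟨g, rfl⟩
  have h2 : ∀ g : alternatingGroup (Fin 6), orderOf g = 2 → (g : Perm (Fin 6)).cycleType = {2, 2} := fun g hg => by
    obtain ⟨n, hn⟩ := cycleType_prime_order (σ := (g : Perm (Fin 6))) (by rw [Subgroup.orderOf_coe, hg]; exact Nat.prime_two)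
    have k1 := (g : Perm (Fin 6)).support.card_le_univ
    have k2 := g.2
    rw [Subgroup.orderOf_coe, hg] at hn
    rw [← sum_cycleType, hn] at k1
    rw [mem_alternatingGroup, sign_of_cycleType, hn] at k2
    simp at k1
    obtain rfl | rfl | rfl : n = 0 ∨ n = 1 ∨ n = 2 := by omega
    · exact absurd k2 (by decide)
    · exact hn
    · exact absurd k2 (by decide)
  have h3 : ∀ a ∈ {g : alternatingGroup (Fin 6) | orderOf g = 2}, ∀ b ∈ {g : alternatingGroup (Fin 6) | orderOf g = 2}, ∃ g, b = g * a * g⁻¹ :=
    fun a ha b hb => (isConj_iff.1 (alternatingGroup.isConj_of (isConj_iff_cycleType_eq.2 ((h2 a ha).trans (h2 b hb).symm))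
      (by rw [← sum_cycleType, h2 a ha]; simp))).imp fun _ => Eq.symm
  have h4 : ∀ d ∈ {g : alternatingGroup (Fin 6) | orderOf g = 2}, ∀ g, g * d * g⁻¹ ∈ {g : alternatingGroup (Fin 6) | orderOf g = 2} :=
    fun d hd g => (orderOf_conj' g d).trans hd
  have h5 : orderOf (⟨swap 0 1 * swap 2 3, by simp [mem_alternatingGroup]⟩ : alternatingGroup (Fin 6)) = 2 :=
    ord2_of (Subtype.ext (by decide)) fun e => absurd (congrArg Subtype.val e) (by decide)
  haveI := alternatingGroup.isSimpleGroup (α := Fin 6) (by simp)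
  refine ⟨⟨⟨fun _ h => h, ?_, h4, fun a ha b hb => ?_⟩, ⟨_, h5⟩, h3⟩, fun d _ e _ => by have := h1 (d * e); simp only [Set.mem_insert_iff, Set.mem_singleton_iff] at this; omega⟩
  · refine (Normal.eq_bot_or_eq_top ⟨fun n hn g => (show Subgroup.closure _ ≤ (Subgroup.closure _).comap (MulAut.conj g).toMonoidHom from
      (closure_le _).2 fun w hw => Subgroup.subset_closure (h4 w hw g)) hn⟩).resolve_left fun e => ord2_ne_one h5 ?_
    exact (eq_bot_iff_forall _).1 e _ (Subgroup.subset_closure h5)
  · rcases h1 (a * b) with e | e | e | e | e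
    · exact .inr (.inl (e ▸ odd_one))
    · refine .inl ?_
      rw [← ord2_inv e, mul_inv_rev, ord2_inv ha, ord2_inv hb]
    · exact .inr (.inl (by rw [e]; decide))
    · exact .inr (.inr ⟨e, by rw [Set.mem_setOf, orderOf_pow, e]; rfl⟩)
    · exact .inr (.inl (by rw [e]; decide))

end Cfsg.Agent.S5057
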