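import Cfsg.Statements.S5075
import Cfsg.Agent.C3.McL2

set_option autoImplicit false
open Cfsg

namespace Cfsg.Agent.S5075

open H2 H4 C3 C3.QP Subgroup BG Module

/-- Let p be an odd prime, V a finite-dimensional vector space over the field with p elements, and H a group of linear automorphisms of V generated by transvections (elements of order p fixing a hyperplane pointwise) and having no nontrivial normal p-subgroup. Then for some n ≥ 1 there are a decomposition V = V₀ ⊕ V₁ ⊕ ⋯ ⊕ Vₙ into H-invariant subspaces and a decomposition of H as the internal direct product of normal subgroups H₁, …, Hₙ such that Hⱼ acts trivially on every Vᵢ with i ≠ j, and Hⱼ induces on Vⱼ exactly the special linear group of Vⱼ or exactly the isometry group of a non-degenerate alternating form on Vⱼ. -/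
theorem result {p : ℕ} [Fact p.Prime] (hp : Odd p) {V : Type*} [AddCommGroup V] [Module (ZMod p) V] [Finite V]
    (H : Subgroup (V ≃ₗ[ZMod p] V)) (T : Set (V ≃ₗ[ZMod p] V)) (hHT : H = Subgroup.closure T)
    (hT : ∀ t ∈ T, orderOf t = p ∧
      Module.finrank (ZMod p) ↥(LinearMap.ker ((t : V →ₗ[ZMod p] V) - LinearMap.id)) + 1 =
        Module.finrank (ZMod p) V)
    (hOp : Cfsg.pCore p ↥H = ⊥) :
    ∃ (n : ℕ) (W : Fin (n + 1) → Submodule (ZMod p) V) (K : Fin n → Subgroup (V ≃ₗ[ZMod p] V)),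
      1 ≤ n ∧ DirectSum.IsInternal W ∧
      (∀ h ∈ H, ∀ i, (W i).map (h : V →ₗ[ZMod p] V) = W i) ∧
      (∀ j, K j ≤ H ∧ ((K j).subgroupOf H).Normal) ∧ ⨆ j, K j = H ∧
      (∀ j, K j ⊓ (⨆ j' ∈ {j' : Fin n | j' ≠ j}, K j') = ⊥) ∧
      (∀ j j', j ≠ j' → ∀ a ∈ K j, ∀ b ∈ K j', a * b = b * a) ∧
      (∀ j, ∀ h ∈ K j, ∀ i : Fin (n + 1), i ≠ j.succ → ∀ v ∈ W i, h v = v) ∧
      (∀ j, ∃ ρ : ↥(K j) →* (↥(W j.succ) ≃ₗ[ZMod p] ↥(W j.succ)),
        (∀ (h : ↥(K j)) (v : ↥(W j.succ)), ((ρ h v : ↥(W j.succ)) : V) = (h : V ≃ₗ[ZMod p] V) (v : V)) ∧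
        ((ρ.range : Set (↥(W j.succ) ≃ₗ[ZMod p] ↥(W j.succ))) =
            {f : ↥(W j.succ) ≃ₗ[ZMod p] ↥(W j.succ) | LinearMap.det (f : ↥(W j.succ) →ₗ[ZMod p] ↥(W j.succ)) = 1} ∨
          ∃ B : LinearMap.BilinForm (ZMod p) ↥(W j.succ), B.IsAlt ∧ B.Nondegenerate ∧
            (ρ.range : Set (↥(W j.succ) ≃ₗ[ZMod p] ↥(W j.succ))) = {f : ↥(W j.succ) ≃ₗ[ZMod p] ↥(W j.succ) | ∀ x y, B (f x) (f y) = B x y})) := by
  haveI : FiniteDimensional (ZMod p) V := Module.Finite.of_finite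
  haveI : Finite (Dual (ZMod p) V) := Module.finite_of_finite (ZMod p)
  have h2 : (2 : ZMod p) ≠ 0 := fun e => (Nat.not_even_iff_odd.2 hp) (((Nat.prime_dvd_prime_iff_eq Fact.out Nat.prime_two).1
    ((ZMod.natCast_eq_zero_iff 2 p).1 e)) ▸ even_two)
  have hs : ∀ {φ v} (c : ZMod p), TH H φ v → TH H (c • φ) v := fun {φ v} c e => by
    obtain ⟨n, rfl⟩ := ZMod.natCast_zmod_surjective c
    induction n with
    | zero => exact ⟨by simp, (show 1 = dt (((0 : ℕ) : ZMod p) • φ) v by ext; simp [dt_apply]) ▸ one_mem _⟩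
    | succ n ih => rw [Nat.cast_succ, add_smul, one_smul]; exact ⟨by simp [e.1], dt_add_left ih.1 e.1 ▸ mul_mem ih.2 e.2⟩
  have hn : NU (H.comap (LinearMap.GeneralLinearGroup.generalLinearEquiv (ZMod p) V).toMonoidHom) := fun U h1 h3 h4 => by
    let e := LinearMap.GeneralLinearGroup.generalLinearEquiv (ZMod p) V
    obtain ⟨j, hj⟩ := unip_iff.1 h4
    have h5 := H1.le_pCore (p := p) (N := (U.comap e.symm.toMonoidHom).subgroupOf H) ⟨fun x hx g => by
      simpa [mem_subgroupOf] using H8.conj_mem_of_mem_normalizer (h3 (show e.symm g ∈ _ by simp [e])) hx⟩ fun x => ⟨j, by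
      obtain _ | _ := subsingleton_or_nontrivial V
      · exact Subtype.ext (Subtype.ext (LinearEquiv.ext fun _ => Subsingleton.elim _ _))
      haveI := charP_of_injective_algebraMap (algebraMap (ZMod p) (End (ZMod p) V)).injective p
      obtain ⟨r, hr⟩ := Nat.exists_eq_add_of_le (Nat.lt_pow_self (n := j) (Fact.out : p.Prime).one_lt).le
      refine Subtype.ext (Subtype.ext (e.symm.injective (Units.ext (sub_eq_zero.1 ?_))))
      have : ((e.symm x.1.1 : End (ZMod p) V) - 1) ^ j = 0 := hj.le (Submodule.pow_mem_pow _ (mem_aug x.2) j)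
      have h6 := sub_pow_char_pow_of_commute p j (Commute.one_right (e.symm x.1.1 : End (ZMod p) V))
      rw [one_pow, hr, pow_add, this, zero_mul, ← hr] at h6
      rw [coe_pow, coe_pow, map_pow, Units.val_pow_eq_pow_val]
      exact h6.symm⟩
    exact eq_bot_iff.2 fun g hg => e.injective (by
      simpa using congrArg Subtype.val (hOp.le (h5 (show (⟨e g, h1 hg⟩ : H) ∈ _ by simpa [mem_subgroupOf] using hg))))
  have hH : H ≤ KT (TH H) := hHT.le.trans ((closure_le _).2 fun t ht => by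
    obtain ⟨φ, v, e⟩ := (LinearEquiv.mem_dilatransvections_iff_finrank (e := t)).2 (by
      have := ((t : V →ₗ[ZMod p] V) - LinearMap.id).finrank_range_add_finrank_ker
      have := (hT t ht).2
      omega)
    have e1 : ∀ x, t x = x + φ x • v := LinearMap.congr_fun e
    obtain rfl | hv := eq_or_ne v 0
    · exact (show 1 = t by ext; simp [e1]) ▸ one_mem _
    have e2 : ∀ n : ℕ, (t ^ n) v = (1 + φ v) ^ n • v := fun n => by
      induction n with
      | zero => simp
      | succ n ih => rw [pow_succ', LinearEquiv.mul_apply, ih, map_smul, e1, pow_succ, mul_smul, add_smul, one_smul]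
    have e3 := e2 p
    rw [show t ^ p = 1 from (congrArg (t ^ ·) (hT t ht).1).symm.trans (pow_orderOf_eq_one t), ZMod.pow_card, add_smul, one_smul] at e3
    have e4 : φ v = 0 := by simpa [hv] using e3
    obtain rfl : t = dt φ v := LinearEquiv.ext fun x => (e1 x).trans (dt_apply e4 x).symm
    obtain l | rfl | l := nz_or (T := TH H) ⟨e4, hHT.ge (subset_closure ht)⟩
    exacts [l.mk', (show 1 = dt (0 : Dual (ZMod p) V) v by ext; simp [dt_apply]) ▸ one_mem _, absurd l hv])
  obtain ⟨n, f, f1, f2⟩ := (Set.finite_range (TC (TH H))).fin_param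
  choose a ha using fun j => f2.le ⟨j, rfl⟩
  choose hc ρ hρ using fun j => induce_TH hs hn h2 hH (a j) (ha j)
  have l1 : ∀ i j, i ≠ j → WT (f i) ≤ (FT (f j)).dualCoannihilator := fun i j e =>
    ha i ▸ ha j ▸ TC.perp fun e' => e (f1 ((ha i).symm.trans (e'.trans (ha j))))
  have l2 : ∀ φ v, Nz (TH H) φ v → ∃ j, Nz (f j) φ v := fun φ v e => let ⟨j, e'⟩ := f2.ge ⟨(φ, v), rfl⟩; ⟨j, e' ▸ TC.self e⟩
  have l3 : ∀ j φ v, Nz (f j) φ v → Nz (TH H) φ v := fun j φ v e => (TC.nz.1 ((ha j).symm ▸ e)).1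
  have l4 : ∀ j, (FT (TH H)).dualCoannihilator ≤ (FT (f j)).dualCoannihilator := fun j x hx => mem_co.2 fun _ _ e => mem_co.1 hx _ _ (l3 j _ _ e)
  have l5 : ∀ j, KT (f j) ≤ H := fun j => KT_le fun φ v e => (l3 j φ v e).t.2
  have l6 : ⨆ j, KT (f j) = H := (iSup_le l5).antisymm (hH.trans (KT_le fun φ v e => let ⟨j, e'⟩ := l2 φ v e; mem_iSup_of_mem j e'.mk'))
  have l7 : ∀ j (i : Fin (n + 1)), i ≠ j.succ → (Fin.cons (FT (TH H)).dualCoannihilator (fun j => WT (f j)) : Fin (n + 1) → _) i ≤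
      (FT (f j)).dualCoannihilator := fun j i => Fin.cases (fun _ => l4 j) (fun i e => l1 i j (mt (congrArg _) e)) i
  have l8 : ∀ j j', j ≠ j' → ∀ a ∈ KT (f j), ∀ b ∈ KT (f j'), a * b = b * a := fun i j e x hx y hy => ext_of_isCompl (hc i)
    (fun u => (congrArg x (KT_fix hy _ (l1 i j e u.2))).trans (KT_fix hy _ (l1 i j e ((hρ i).1 ⟨x, hx⟩ u ▸ (ρ i ⟨x, hx⟩ u).2))).symm)
    fun u => (KT_fix hx _ ((mem_stab.1 (KT_le (M := stab _) (fun φ v l => dt_mem_stab_of_mem φ (l1 j i e.symm l.mw)) hy) _).1 u.2)).trans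
      (congrArg y (KT_fix hx _ u.2)).symm
  let S : V →ₗ[ZMod p] V := ∑ j, (WT (f j)).projection _ (hc j)
  refine ⟨n, Fin.cons (FT (TH H)).dualCoannihilator fun j => WT (f j), fun j => KT (f j), Fin.pos_iff_nonempty.2 (f2.ge ⟨0, rfl⟩).nonempty,
    (DirectSum.isInternal_submodule_iff_iSupIndep_and_iSup_eq_top _).2 ⟨fun i => Fin.cases ?_ (fun j => (hc j).1.mono_right (iSup₂_le (l7 j))) i,
      top_unique fun x _ => ?_⟩, fun g hg => Fin.cases (mem_stab_iff_map.1 (fixSub_le_stab _ (KT_fix (hH hg))))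
      fun j => mem_stab_iff_map.1 (show g ∈ stab (WT (f j)) from ha j ▸ KT_le_stab (a j) (hH hg)), fun j => ⟨l5 j, normal_subgroupOf_of_le_normalizer (l6.ge.trans
      (iSup_le fun i => (eq_or_ne i j).elim (fun e => e ▸ le_normalizer) fun e => H8.le_normalizer_of_commutator_eq_bot
        (H8.commutator_eq_bot_iff_forall.2 (l8 i j e))))⟩, l6, fun j => eq_bot_iff.2 fun g hg => ext_of_isCompl (hc j)
      (fun u => (iSup₂_le fun i e => KT_fix.trans (fixSub_anti (l1 j i (Ne.symm e))) : _ ≤ fixSub _) hg.2 _ u.2) fun u => KT_fix hg.1 _ u.2,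
    l8, fun j g hg i e v hv => KT_fix hg v (l7 j i e hv), fun j => ⟨ρ j, hρ j⟩⟩
  swap
  · refine Submodule.disjoint_def.2 fun x hx hx' => ?_
    have := (iSup₂_le fun i => Fin.cases (fun e => absurd rfl e) (fun j _ y hy => by
      rw [LinearMap.mem_ker, LinearMap.sub_apply, LinearMap.sum_apply, Finset.sum_eq_single_of_mem j (Finset.mem_univ j) fun i _ e =>
        (Submodule.projection_apply_eq_zero_iff _).2 (l1 j i e.symm hy), Submodule.projection_apply_of_mem_left (hc j) hy]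
      exact sub_self y) i : _ ≤ LinearMap.ker (S - 1)) hx'
    rwa [LinearMap.mem_ker, LinearMap.sub_apply, LinearMap.sum_apply, Finset.sum_eq_zero fun j _ =>
      (Submodule.projection_apply_eq_zero_iff _).2 (l4 j hx), zero_sub, neg_eq_zero] at this
  · refine sub_add_cancel x (S x) ▸ add_mem (Submodule.mem_iSup_of_mem 0 (mem_co.2 fun φ v e => ?_)) ?_
    · obtain ⟨j, e⟩ := l2 φ v e
      rw [map_sub, LinearMap.sum_apply, map_sum, Finset.sum_eq_single_of_mem j (Finset.mem_univ j) fun i _ e' =>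
        mem_co.1 (l1 i j e' (Submodule.projection_apply_mem _ x)) _ _ e, ← map_sub, ← Submodule.projection_eq_self_sub_projection]
      exact mem_co.1 (Submodule.projection_apply_mem _ x) _ _ e
    · rw [LinearMap.sum_apply]
      exact sum_mem fun j _ => Submodule.mem_iSup_of_mem j.succ (Submodule.projection_apply_mem _ x)

end Cfsg.Agent.S5075
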