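import Cfsg.Statements.S5112
import Cfsg.Agent.H9.Met

set_option autoImplicit false
open Cfsg

namespace Cfsg.Agent.S5112

open Cfsg.Agent Cfsg.Agent.H9

/-- If S is a dihedral or generalized quaternion 2-group of order at least 16, then in every saturated fusion system over S (at the prime 2) the automorphism group Aut_F(S) consists of the inner automorphisms of S. -/
theorem result {Ω : Type*} [Group Ω] {S : Subgroup Ω} [Finite S] (n : ℕ) (hn : 4 ≤ n) (hshape : Nonempty (S ≃* DihedralGroup (2 ^ (n - 1))) ∨ Nonempty (S ≃* QuaternionGroup (2 ^ (n - 2)))) (F : Cfsg.FusionSystem S) (hF : F.IsSaturated 2) : F.autGroup S = Cfsg.Inn S := by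
  obtain ⟨n, rfl⟩ : ∃ k, n = k + 4 := ⟨n - 4, by omega⟩
  have c : Nat.card S = 2 ^ (n + 4) := by
    rcases hshape with ⟨⟨e⟩⟩ | ⟨⟨e⟩⟩
    · rw [Nat.card_congr e.toEquiv, DihedralGroup.nat_card, ← pow_succ']; rfl
    · rw [Nat.card_congr e.toEquiv, Nat.card_eq_fintype_card, QuaternionGroup.card, show n + 4 - 2 = n + 2 from rfl]; ring
  have hS : IsPGroup 2 S := IsPGroup.of_card c
  refine H9.Sat.autGroup_top ⟨hS, hF⟩ (IsPGroup.of_equiv (H2.isPGroup_mulAut (X := ⊤) fun f hf => ?_) (MulAut.congr Subgroup.topEquiv))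
  by_contra hne
  push Not at hne
  obtain ⟨k, x, y, e, h⟩ : ∃ k x y e, H2.MC (⊤ : Subgroup S) k x y e := by
    rcases hshape with ⟨⟨e⟩⟩ | ⟨⟨e⟩⟩
    · obtain ⟨k, x, y, h, -⟩ := H2.exists_mc_of_dihedral (hS.to_subgroup ⊤) (Subgroup.topEquiv.trans e) (lt_of_lt_of_le (by norm_num) (Nat.pow_le_pow_right two_pos (show 2 ≤ n + 4 - 1 by omega)))
      exact ⟨k, x, y, 1, h⟩
    · obtain ⟨a, b, h⟩ := L.exists_qP (by positivity) (Subgroup.topEquiv.trans e)
      exact ⟨_, a, b, 1, (L.QP.mc' (n := n + 1) h).1⟩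
  have := h.card_of_oddAut le_rfl hf hne
  rw [Subgroup.card_top, c, pow_add] at this
  have := Nat.one_le_two_pow (n := n)
  omega

end Cfsg.Agent.S5112
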