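import Cfsg.Statements.S5125
import Cfsg.Agent.H9.Normal

set_option autoImplicit false
open Cfsg

namespace Cfsg.Agent.S5125

open Cfsg.Agent Cfsg.Agent.H9

/-- Let F be a saturated fusion system over a finite p-group S and Q a subgroup strongly closed in F. If Q has a subgroup Q₁ that is normal in F, with Q/Q₁ abelian and Aut_F(Q₁) a p-group, then Q is normal in F. -/
theorem result {Ω : Type*} [Group Ω] {S : Subgroup Ω} [Finite S] (p : ℕ) [Fact p.Prime] (hS : IsPGroup p S) (F : Cfsg.FusionSystem S) (hF : F.IsSaturated p) (Q Q₁ : Subgroup Ω) (hQ : F.StronglyClosed Q) (hQ₁Q : Q₁ ≤ Q) (hQ₁ : F.IsNormal Q₁) (hab : ⁅Q, Q⁆ ≤ Q₁) (hAut : IsPGroup p ↥(F.autGroup Q₁)) : F.IsNormal Q := by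
  have h : Sat p F := ⟨hS, hF⟩
  have := finite_of_le hQ₁.1
  have hsc := normal_sc hQ₁
  have e := (h.fn_syl (sc_fn hsc)).eq_of_le le_rfl hAut (autInducedBy_le_autGroup F le_rfl hQ₁.1)
  obtain ⟨n, hn⟩ := exists_icomm_eq_bot hS hQ₁.1
  have hc : ∀ g ∈ S, ∀ x ∈ Q₁, g * x * g⁻¹ ∈ Q₁ := fun g hg x hx => sc_conj hsc hg hx
  refine h.normal_of_desc_chain hQ (n + 1) (fun i => match i with | 0 => Q | i + 1 => icomm S Q₁ i)
    rfl hn (fun i => ?_) (fun i => ?_) fun i => ?_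
  · rcases i with _ | i
    · exact le_rfl
    · exact (icomm_le hc i).trans hQ₁Q
  · rcases i with _ | i
    · exact hab
    · exact Subgroup.commutator_mono le_rfl hQ.1
  · rcases i with _ | i
    · exact wc_of_sc hQ
    · refine wc_of_sc (normal_sc (normal_of_invariant hQ₁ (icomm_le hc i) fun σ hσ x hx => ?_))
      obtain ⟨g, hg, e'⟩ := inK_autInducedBy.1 (e ▸ (inK_autGroup hσ.le).2 hσ)
      rw [e' x (icomm_le hc i hx)]
      exact icomm_conj (fun y hy => S.mul_mem (S.mul_mem hg.1 hy) (S.inv_mem hg.1)) (hc g hg.1) i x hx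

end Cfsg.Agent.S5125
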