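import Cfsg.Statements.S5126
import Cfsg.Agent.H9.More

set_option autoImplicit false
open Cfsg

namespace Cfsg.Agent.S5126

open Cfsg.Agent Cfsg.Agent.H9

/-- In a saturated fusion system over a finite p-group S, the normalizer system of a fully normalized, centric, radical subgroup R is constrained, and in every model of that normalizer system the largest normal p-subgroup is the image of R. -/
theorem result {Ω : Type*} [Group Ω] {S : Subgroup Ω} [Finite S] (p : ℕ) [Fact p.Prime] (hS : IsPGroup p S) (F : Cfsg.FusionSystem S) (hF : F.IsSaturated p) (R : Subgroup Ω) (hRn : F.IsFullyNormalized R) (hRc : F.IsCentric R) (hRr : F.IsRadical p R) (E : Cfsg.FusionSystem (Cfsg.FusionSystem.normalizerIn S R)) (hE : F.IsNormalizerSystem R E) {G : Type*} [Group G] (ι : ↥(Cfsg.FusionSystem.normalizerIn S R) →* G) : E.IsConstrained p ∧ (E.IsModel p G ι → (Cfsg.pCore p G : Subgroup G) = (R.subgroupOf (Cfsg.FusionSystem.normalizerIn S R)).map ι) := by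
  have h : Sat p F := ⟨hS, hF⟩
  have hE' := h.normalizer_sat hRn hE
  have hn := normalizer_normal hE hRn.1
  have hC : FusionSystem.centralizerIn (FusionSystem.normalizerIn S R) R ≤ R :=
    (C_mono (N_le _ _) R).trans (centric_C_le hRc)
  refine ⟨⟨hE'.sat, R, hn, centric_of_wc (wc_of_sc (normal_sc hn)) hC⟩, ?_⟩
  rintro ⟨_, h1, ⟨T, hT⟩, h2⟩
  have h3 := isRealizedBy_iff_fac.1 h1
  have := h3.finite
  have h4 := (grpFS_group ι.range).core_eq (p := p) (hT ▸ syl_top T) (by rwa [opm_top, C_top])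
  have h5 : E.core = R := by
    refine le_antisymm (fun g hg => ?_) (le_core hn)
    have hQ := core_normal E
    refine mem_of_inK_inn hRn.1 (centric_C_le hRc) (hQ.1 hg).1 (InK.mono
      (inK_autInducedBy.2 ⟨g, ⟨hg, (hQ.1 hg).2⟩, fun _ _ => rfl⟩)
      (((isRadical_iff hS).1 hRr).2 (autInducedBy E.core R)
        (autInducedBy_le_autGroup F (hQ.1.trans (N_le _ _)) hRn.1)
        (isPGroup_autInducedBy (hE'.pg.to_le hQ.1) R)
        (le_normalizer_of_conj (normalized_of_inK fun σ τ hσ hτ => ?_))))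
    rw [← normalizer_autGroup hE hRn.1, inK_autGroup hn.1] at hσ
    obtain ⟨k, hk, e⟩ := inK_autInducedBy.1 hτ
    obtain ⟨ρ, hρ, e1, e2⟩ := normal_ext hQ hσ.mor
    have hρ' := hσ.congr e1
    refine inK_autInducedBy.2 ⟨ρ k, ⟨e2 k hk.1, (hρ'.maps_N hρ le_sup_left
      (Subgroup.mem_sup_right hk.1) hk.2).2⟩, fun x hx => ?_⟩
    obtain ⟨y, hy, rfl⟩ := hσ.exists_eq hx
    simp only [Equiv.Perm.mul_apply, pia]
    rw [e y hy, ← e1 y hy, ← e1 _ (conj_mem_of_mem_N hk hy),
      hρ.map_conj (Subgroup.mem_sup_right hk.1) (Subgroup.mem_sup_left hy)]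
  rw [← opm_top, ← h4, h3.core_eq, h5, ← imageAlong_eq ι hn.1]
  rfl

end Cfsg.Agent.S5126
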