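import Cfsg.Statements.S5138
import Cfsg.Agent.H9.CP2

set_option autoImplicit false
open Cfsg

namespace Cfsg.Agent.S5138

open Cfsg.Agent Cfsg.Agent.H9

/-- Let F be a saturated fusion system over a finite p-group S and E₁, E₂ normal subsystems over T₁, T₂ with [T₁, T₂] = 1. Then there is a normal subsystem of F over T₁T₂ which, if moreover T₁ ∩ T₂ lies in the centre of E₁ and in the centre of E₂, is a central product of E₁ and E₂ (the factor system of a direct product of E₁ and E₂ modulo a subgroup of its centre meeting both factors trivially). -/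
theorem result {Ω : Type*} [Group Ω] {S : Subgroup Ω} [Finite S] (p : ℕ) [Fact p.Prime] (hS : IsPGroup p S) (F : Cfsg.FusionSystem S) (hF : F.IsSaturated p) {T₁ T₂ : Subgroup Ω} (E₁ : Cfsg.FusionSystem T₁) (E₂ : Cfsg.FusionSystem T₂) (hE₁ : E₁.IsNormalIn F p) (hE₂ : E₂.IsNormalIn F p) (hc : ⁅T₁, T₂⁆ = ⊥) : ∃ D : Cfsg.FusionSystem (T₁ ⊔ T₂), D.IsNormalIn F p ∧ (T₁ ⊓ T₂ ≤ E₁.center → T₁ ⊓ T₂ ≤ E₂.center → Cfsg.FusionSystem.IsCentralProductOf E₁ E₂ D) := by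
  have a := (H9.isNormalIn_iff hS).1 hE₁
  have b := (H9.isNormalIn_iff hS).1 hE₂
  have := H9.finite_of_le a.le
  have := H9.finite_of_le b.le
  have c : H9.Cm T₁ T₂ := fun x hx y hy =>
    ((Subgroup.commutator_eq_bot_iff_le_centralizer.1 hc) hx y hy).symm
  by_cases h : T₁ ⊓ T₂ ≤ E₁.center ∧ T₁ ⊓ T₂ ≤ E₂.center
  · obtain ⟨D, d⟩ := H9.CPH.exists_cp ⟨c, H9.central_iff_le.2 h.1, H9.central_iff_le.2 h.2⟩ rfl
    exact ⟨D, (d.nml a b).isNormalIn, fun _ _ => H9.cp_iff.2 d⟩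
  · obtain ⟨D, d⟩ := H9.exists_nml_sup a b c
    exact ⟨D, d.isNormalIn, fun e f => absurd ⟨e, f⟩ h⟩

end Cfsg.Agent.S5138
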