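import Cfsg.Statements.S5152
import Cfsg.Agent.H9.Desc

set_option autoImplicit false
open Cfsg

namespace Cfsg.Agent.S5152

open Cfsg.Agent Cfsg.Agent.H9

/-- Dichotomy for saturated fusion systems: a saturated fusion system over a finite p-group is of characteristic p-type (the normalizer system of every nontrivial fully normalized subgroup is constrained) or of component type (the centralizer system of some fully normalized subgroup of order p has a component). -/
theorem result {Ω : Type*} [Group Ω] {S : Subgroup Ω} [Finite S] (p : ℕ) [Fact p.Prime] (hS : IsPGroup p S) (F : Cfsg.FusionSystem S) (hF : F.IsSaturated p) : F.IsOfCharacteristicPType p ∨ F.IsOfComponentType p := by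
  exact or_iff_not_imp_right.2 (H9.Sat.dichotomy ⟨hS, hF⟩)

end Cfsg.Agent.S5152
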