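import Cfsg.Statements.S5153
import Cfsg.Agent.H9.Inv

set_option autoImplicit false
open Cfsg

namespace Cfsg.Agent.S5153

open Cfsg.Agent Cfsg.Agent.H9

/-- Let F be a saturated fusion system over a finite p-group S and E a subnormal subsystem of F over T. Then every subgroup of T that is fully normalized in F is fully normalized in E. -/
theorem result {Ω : Type*} [Group Ω] {S : Subgroup Ω} [Finite S] (p : ℕ) [Fact p.Prime] (hS : IsPGroup p S) (F : Cfsg.FusionSystem S) (hF : F.IsSaturated p) {T : Subgroup Ω} (E : Cfsg.FusionSystem T) (hE : E.IsSubnormalIn F p) (P : Subgroup Ω) (hPT : P ≤ T) (hP : F.IsFullyNormalized P) : E.IsFullyNormalized P := by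
  rename_i hfin hp
  revert hfin hp
  intro hfin hp
  induction hE generalizing hfin hp with
  | refl => exact hP
  | step h1 h2 ih =>
    have h3 := (isNormalIn_iff hS).1 h2
    have := finite_of_le h3.le
    exact ih h3.satE.pg h3.satE.sat
      (h3.satF.fn_of_sc h3.sc h3.sub (hPT.trans (sub_le (subnormal_sub h1))) hP)

end Cfsg.Agent.S5153
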