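import Cfsg.Statements.S5196
import Cfsg.Agent.H9.Cen

set_option autoImplicit false
universe u
open Cfsg

namespace Cfsg.Agent.S5196

open Cfsg.Agent Cfsg.Agent.H9

/-- Let p be an odd prime and W a positive characteristic p-functor: W assigns to every finite p-group Q (in a fixed universe) a subgroup W(Q), nontrivial when Q is, carried to W(R) by every isomorphism Q ≅ R; assume also Z(Q) ≤ W(Q) for every finite p-group Q. Suppose W satisfies the local condition: for every finite group G with Sylow p-subgroup P, O_p(G) ∩ Z(G) = O_p(G) ∩ Z(N_G(W(P))). Then W controls weak closure of elements in every saturated fusion system F over a finite p-group S: the centre of the normalizer fusion system of W(S) in F equals the centre of F. (For p = 2 no functor satisfies the local condition, so p is taken odd.) -/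
theorem result {p : ℕ} [Fact p.Prime] (hp : p ≠ 2) (W : ∀ (Q : Type u) [Group Q], Subgroup Q) (hW1 : ∀ (Q : Type u) [Group Q] [Finite Q], IsPGroup p Q → Nontrivial Q → W Q ≠ ⊥) (hW2 : ∀ (Q R : Type u) [Group Q] [Group R] [Finite Q], IsPGroup p Q → ∀ φ : Q ≃* R, (W Q).map φ.toMonoidHom = W R) (hWZ : ∀ (Q : Type u) [Group Q] [Finite Q], IsPGroup p Q → Subgroup.center Q ≤ W Q) (hC : ∀ (G : Type u) [Group G] [Finite G] (P : Sylow p G), Cfsg.pCore p G ⊓ Subgroup.center G = Cfsg.pCore p G ⊓ (Subgroup.center ↥(Subgroup.normalizer (((W ↥(P : Subgroup G)).map (P : Subgroup G).subtype : Subgroup G) : Set G))).map (Subgroup.normalizer (((W ↥(P : Subgroup G)).map (P : Subgroup G).subtype : Subgroup G) : Set G)).subtype) {Ω : Type u} [Group Ω] {S : Subgroup Ω} [Finite S] (hS : IsPGroup p S) (F : Cfsg.FusionSystem S) (hF : F.IsSaturated p) (N : Cfsg.FusionSystem (Cfsg.FusionSystem.normalizerIn S ((W ↥S).map S.subtype))) (hN : F.IsNormalizerSystem ((W ↥S).map S.subtype) N) : N.center = F.center := by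
  have h : Sat p F := ⟨hS, hF⟩
  have hW : IsCharPFunctor p W := ⟨hW1, hW2⟩
  have hw := eqv_induced hW hS F
  refine le_antisymm (fun z hz => ?_) (h.center_le_nm (hw.le S le_rfl) hw.top_le hN)
  obtain ⟨h1, h2⟩ := mem_center_nm (hw.le S le_rfl) hw.top_le hN hz
  refine h.mem_center_iff.2 ⟨h1.1, ?_⟩
  have := h.ctl_center hW hWZ False 1 (fun L _ _ P hP hc _ y hy hn g => ?_) False.elim h1
    (by simpa using h2)
  · simpa using this
  obtain ⟨R, rfl⟩ := hP.exists_sylow_top
  simp only [pow_one] at hn ⊢
  have h3 : y ∈ pCore p L := hc fun a ha => (mem_C.1 hy).2 a (hP.sylIn.pCore_le ha)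
  have h4 : y ∈ Subgroup.normalizer (inducedFunctor W (R : Subgroup L) : Set L) :=
    (pf_induced hW).normalizer_le hP.pg (Subgroup.le_normalizer hy.1)
  have h5 : y ∈ pCore p L ⊓ Subgroup.center L := by
    rw [hC L R]
    exact ⟨h3, ⟨y, h4⟩, Subgroup.mem_center_iff.2 fun a => Subtype.ext
      (mul_inv_eq_iff_eq_mul.1 (hn a a.2)), rfl⟩
  rw [Subgroup.mem_center_iff.1 h5.2 g, mul_inv_cancel_right]

end Cfsg.Agent.S5196
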