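import Cfsg.Statements.S5198
import Cfsg.Agent.H9.More

set_option autoImplicit false
open Cfsg

namespace Cfsg.Agent.S5198

open Cfsg.Agent Cfsg.Agent.H9

/-- Let F be a saturated fusion system over a finite p-group S and T a subgroup of S strongly closed in F (so T is normal in S). Then every element x of the hyperfocal subgroup of F acts on T by conjugation as an element of O^p(Aut_F(T))·Inn(T): there is an automorphism of T in the subgroup generated by the elements of Aut_F(T) of order prime to p together with the inner automorphisms of T that agrees with conjugation by x. -/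
theorem result {Ω : Type*} [Group Ω] {S : Subgroup Ω} [Finite S] (p : ℕ) [Fact p.Prime] (hS : IsPGroup p S) (F : Cfsg.FusionSystem S) (hF : F.IsSaturated p) (T : Subgroup Ω) (hT : F.StronglyClosed T) : ∀ x ∈ F.hyperfocalSubgroup p, ∃ α ∈ ((Cfsg.pResidual p ↥(F.autGroup T)).map (F.autGroup T).subtype ⊔ Cfsg.Inn ↥T : Subgroup (MulAut ↥T)), ∀ t : ↥T, ((α t : ↥T) : Ω) = x * (t : Ω) * x⁻¹ := by
  have h : Sat p F := ⟨hS, hF⟩
  have := sc_normal_subgroupOf hT
  obtain ⟨E, hE⟩ := exists_fac_quot F hT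
  rw [H2.pResidual_map_subtype]
  have hTU : T ≤ nK S (H2.resOf p (F.autGroup T) ⊔ Inn T) := fun t ht =>
    mem_nK.2 ⟨hT.1 ht, (inK_inn.2 ⟨t, ht, fun _ _ => rfl⟩).mono le_sup_right⟩
  have h1 := hE.hyp_le_im (p := p) (U := nK S (H2.resOf p (F.autGroup T) ⊔ Inn T))
    fun P σ hTP hσ hp x hx => mem_nK.2 ⟨S.mul_mem (S.inv_mem (hσ.le hx)) (hσ.mor.mem hx), by
      have h2 := (inK_autGroup hT.1).2 (sc_iso hT (hσ.mor.mono hTP))
      have h3 := inK_resOf_of_pp h2 (hp.mono hTP)
      have h4 := (inK_autGroup hT.1).2 (sc_iso hT (mor_cj F hT.1 (S.inv_mem (hσ.le hx))))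
      have h5 := (InK.conj_of (fun a ha y hy => conj_mem_of_mem_normalizer
        (H2.le_normalizer_resOf p _ ha) hy) h4 h3).mul h3.inv
      refine (h5.mono le_sup_left).congr fun y hy => ?_
      simp only [Equiv.Perm.mul_apply, ← map_inv, inv_inv, cj_apply]
      rw [hσ.mor.map_conj hx (hTP (h2.inv.maps hy)), pai]
      group⟩
  rw [hE.hyp_eq h, hE.im_le_im_iff (hyp_le F) (nK_le _) hTU] at h1
  exact fun x hx => (mem_nK.1 (h1 hx)).2

end Cfsg.Agent.S5198
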