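import Cfsg.Statements.S5214
import Mathlib
import Cfsg.Agent.H7.Hig6
import Cfsg.Agent.H9.Normal

set_option autoImplicit false
open Cfsg

namespace Cfsg.Agent.S5214

open Cfsg.Agent.H7.Hig Cfsg.Agent.H9 Subgroup

/-- Let S be a Suzuki 2-group (a finite nonabelian 2-group with more than one involution admitting a cyclic group of automorphisms permuting its involutions regularly). Then S is normal in every saturated fusion system over S (such a group is resistant). -/
theorem result {Ω : Type*} [Group Ω] {S : Subgroup Ω} [Finite S] (hS : IsPGroup 2 S) (F : Cfsg.FusionSystem S) (hF : F.IsSaturated 2) (hsz : Cfsg.IsSuzukiTwoGroup ↥S) : F.IsNormal S := by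
  obtain ⟨_, h2, hna, htwo, K, hK, hreg⟩ := hsz
  obtain ⟨k, _, _, _, ξ, g, m, H, -⟩ := exists_HS h2 htwo hK hreg
  haveI : Fact (Nat.Prime 2) := ⟨Nat.prime_two⟩
  let Z : Subgroup Ω := (center S).map S.subtype
  have hZ : ∀ x ∈ S, x ∈ Z ↔ x * x = 1 := fun x hx => ⟨by
    rintro ⟨y, hy, rfl⟩
    exact congrArg Subtype.val (H.center_sq hna hy), fun h => ⟨⟨x, hx⟩, H.cen _ (Subtype.ext h), rfl⟩⟩
  have hZS : Z ≤ S := map_subtype_le _
  refine Sat.normal_of_wc_chain ⟨hS, hF⟩ (sc_top F) 2 (fun i => if i = 0 then ⊥ else if i = 1 then Z else S)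
    rfl rfl (fun i hi => ?_) (fun i hi => ?_) (fun i hi => ?_)
  · interval_cases i <;> simp [hZS]
  · interval_cases i
    · refine commutator_le.2 ?_
      rintro _ ⟨y, hy, rfl⟩ s hs
      exact commutatorElement_eq_one_iff_mul_comm.2
        (congrArg Subtype.val (mem_center_iff.1 hy ⟨s, hs⟩).symm)
    · refine commutator_le.2 fun x hx y hy => ⟨_, H.cen _ (H.cm_sq_one hna ⟨x, hx⟩⁻¹ ⟨y, hy⟩⁻¹), ?_⟩
      simp [cm, commutatorElement_def]
  · interval_cases i
    · exact wc_of_sc (sc_bot F)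
    · refine wc_of_sc ⟨hZS, fun R hR φ hφ x => (hZ _ ((F.le_of_mem hφ).2 x)).2 ?_⟩
      rw [← map_mul, show x * x = 1 from Subtype.ext ((hZ _ (hZS (hR x.2))).1 (hR x.2)), map_one]

end Cfsg.Agent.S5214
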