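import Cfsg.Statements.S5223
import Cfsg.Agent.H9.Normal

set_option autoImplicit false
open Cfsg

namespace Cfsg.Agent.S5223

open Cfsg.Agent Cfsg.Agent.H9

/-- Let F be a saturated fusion system over a finite p-group S. Suppose there are subgroups Q₀ = S, Q₁, …, Qₙ = 1 (not required to be nested) such that for each i < n the focal subgroup of Qᵢ (generated by the elements x⁻¹φ(x), x ∈ Qᵢ, φ a map of F defined on the cyclic group generated by x) lies in Qᵢ₊₁. Then F is the inner fusion system of S. -/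
theorem result {Ω : Type*} [Group Ω] {S : Subgroup Ω} [Finite S] (p : ℕ) [Fact p.Prime] (hS : IsPGroup p S) (F : Cfsg.FusionSystem S) (hF : F.IsSaturated p) (n : ℕ) (Q : Fin (n + 1) → Subgroup Ω) (hQ0 : Q 0 = S) (hQn : Q (Fin.last n) = ⊥) (hstep : ∀ i : Fin n, Subgroup.closure {y : Ω | ∃ x ∈ Q i.castSucc, ∃ φ ∈ F.Hom (Subgroup.zpowers x), y = x⁻¹ * φ ⟨x, Subgroup.mem_zpowers x⟩} ≤ Q i.succ) : ∀ P : Subgroup Ω, F.Hom P = (Cfsg.innerFusionSystem S).Hom P := by
  have h : Sat p F := ⟨hS, hF⟩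
  refine hom_eq_of_mor fun P σ => ⟨h.eq_inner_of_pgroup fun R hR => ?_, Mor.of_inner⟩
  have hRS := (h.fcr_of_ess hR).1.1
  have := finite_of_le hRS
  have hst : ∀ (i : Fin n) (α : MulAut R), α ∈ F.autGroup R → ∀ x : R, (x : Ω) ∈ Q i.castSucc →
      (x : Ω)⁻¹ * (α x : R) ∈ Q i.succ := fun i α hα x hx =>
    hstep i (Subgroup.subset_closure ⟨x, hx, _,
      ((iso_ap hRS hα).mor.mono (Subgroup.zpowers_le_of_mem x.2)).toHom_mem, by simp⟩)
  intro α
  let B : ℕ → Subgroup R := fun i => ⨅ (j : Fin (n + 1)) (_ : (j : ℕ) + i ≤ n), (Q j).subgroupOf R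
  have hB : ∀ i (x : R), x ∈ B i ↔ ∀ j : Fin (n + 1), (j : ℕ) + i ≤ n → (x : Ω) ∈ Q j := fun i x => by
    simp [B, Subgroup.mem_iInf, Subgroup.mem_subgroupOf]
  have hs : ∀ i, ∀ x ∈ B (i + 1), x⁻¹ * (α : MulAut R) x ∈ B i := fun i x hx => (hB _ _).2 fun j hj => by
    rcases Fin.eq_zero_or_eq_succ j with rfl | ⟨k, rfl⟩
    · rw [hQ0]; exact hRS (x⁻¹ * (α : MulAut R) x).2
    · exact hst k α α.2 x ((hB _ _).1 hx _ (by simp at hj ⊢; omega))
  obtain ⟨k, hk⟩ := aut_chain_pow (hS.to_le hRS) (α : MulAut R) n B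
    (eq_bot_iff.2 fun x hx => Subtype.ext (by
      have := (hB _ _).1 hx (Fin.last n) (by simp)
      rwa [hQn] at this))
    (fun i x hx => by
      have := (B i).mul_mem hx (hs i x ((hB _ _).2 fun j hj => (hB _ _).1 hx j (by omega)))
      simpa using this) fun i _ => hs i
  refine ⟨k, Subtype.ext (MulEquiv.ext fun x => hk x ((hB _ _).2 fun j hj => ?_))⟩
  rw [show j = 0 from Fin.ext (by simpa using hj), hQ0]
  exact hRS x.2

end Cfsg.Agent.S5223
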