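import Cfsg.Statements.S5226
import Cfsg.Agent.H9.Normal

set_option autoImplicit false
open Cfsg

namespace Cfsg.Agent.S5226

open Cfsg.Agent Cfsg.Agent.H9

/-- Let F be a saturated fusion system over a finite p-group S and Q a subgroup of S. Then Q is normal in F (F equals the normalizer system of Q) if and only if Q is strongly closed in F and admits a central series 1 = Q₀ ≤ Q₁ ≤ ⋯ ≤ Qₙ = Q ([Qᵢ₊₁, Q] ≤ Qᵢ) all of whose proper terms are weakly closed in F. -/
theorem result {Ω : Type*} [Group Ω] {S : Subgroup Ω} [Finite S] (p : ℕ) [Fact p.Prime] (hS : IsPGroup p S) (F : Cfsg.FusionSystem S) (hF : F.IsSaturated p) (Q : Subgroup Ω) : F.IsNormal Q ↔ F.StronglyClosed Q ∧ ∃ (n : ℕ) (C : Fin (n + 1) → Subgroup Ω), C 0 = ⊥ ∧ C (Fin.last n) = Q ∧ Monotone C ∧ (∀ i : Fin n, ⁅C i.succ, Q⁆ ≤ C i.castSucc) ∧ ∀ i : Fin n, F.WeaklyClosed (C i.castSucc) := by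
  have h : Sat p F := ⟨hS, hF⟩
  constructor
  · intro hQ
    have := finite_of_le hQ.1
    obtain ⟨n, hn⟩ := exists_icomm_eq_bot (hS.to_le hQ.1) le_rfl
    have hc : ∀ g ∈ Q, ∀ x ∈ Q, g * x * g⁻¹ ∈ Q := fun g hg x hx =>
      Q.mul_mem (Q.mul_mem hg hx) (Q.inv_mem hg)
    refine ⟨normal_sc hQ, n, fun i => icomm Q Q (n - i), hn, by simp [icomm], fun i j hij =>
      antitone_nat_of_succ_le (icomm_succ_le hc) (by have : (i : ℕ) ≤ j := hij; omega),
      fun i => ?_, fun i => wc_of_sc (normal_sc (normal_icomm hQ _))⟩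
    simp only [Fin.val_succ, Fin.val_castSucc]
    rw [show n - i = n - (i + 1) + 1 by omega]
    exact le_rfl
  · rintro ⟨hsc, n, Qs, h0, hn, hm, hs, hw⟩
    refine h.normal_of_wc_chain hsc n (fun i => if hi : i < n + 1 then Qs ⟨i, hi⟩ else Q)
      (by simpa using h0) (by rw [dif_pos (by omega)]; exact hn) (fun i hi => ?_) (fun i hi => ?_) fun i hi => ?_
    · rw [dif_pos (by omega)]; exact hn ▸ hm (Fin.le_last _)
    · rw [dif_pos (by omega), dif_pos (by omega)]
      exact hs ⟨i, hi⟩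
    · rw [dif_pos (by omega)]; exact hw ⟨i, hi⟩

end Cfsg.Agent.S5226
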