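import Cfsg.Statements.S5236
import Cfsg.Agent.H9.Small

set_option autoImplicit false
open Cfsg

namespace Cfsg.Agent.S5236

open Cfsg.Agent Cfsg.Agent.H9

/-- Let p be an odd prime, F a saturated fusion system over a finite p-group S and P a subgroup of S strongly closed in F. Then P is normal in F if and only if Ω₁(P) (the subgroup generated by the elements of order p of P) has a chain of subgroups 1 = Q₀ ≤ Q₁ ≤ ⋯ ≤ Qₙ = Ω₁(P), each strongly closed in F, with [Qᵢ₊₁, P] ≤ Qᵢ for all i. -/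
theorem result {Ω : Type*} [Group Ω] {S : Subgroup Ω} [Finite S] (p : ℕ) [Fact p.Prime] (hS : IsPGroup p S) (F : Cfsg.FusionSystem S) (hF : F.IsSaturated p) (hp : p ≠ 2) (P : Subgroup Ω) (hP : F.StronglyClosed P) : F.IsNormal P ↔ ∃ (n : ℕ) (Q : Fin (n + 1) → Subgroup Ω), Q 0 = ⊥ ∧ Q (Fin.last n) = Cfsg.omegaOne p P ∧ Monotone Q ∧ (∀ i : Fin (n + 1), F.StronglyClosed (Q i)) ∧ ∀ i : Fin n, ⁅Q i.succ, P⁆ ≤ Q i.castSucc := by
  have h : H9.Sat p F := ⟨hS, hF⟩
  have := H9.finite_of_le hP.1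
  refine ⟨fun a => ?_, fun ⟨n, Q, a, b, _, d, e⟩ => ?_⟩
  · obtain ⟨n, e⟩ := H9.exists_icomm_eq_bot (hS.to_le hP.1) (H2.omegaOne_le p P)
    have k : ∀ g ∈ P, ∀ x ∈ omegaOne p P, g * x * g⁻¹ ∈ omegaOne p P := fun g hg x hx =>
      H9.conj_mem_of_mem_normalizer (H2.normalizer_le_omegaOne p P (Subgroup.le_normalizer hg)) hx
    refine ⟨n, fun i => H9.icomm P (omegaOne p P) (n - i), by simpa using e, by simp [H9.icomm],
      fun i j hij => antitone_nat_of_succ_le (H9.icomm_succ_le k) (Nat.sub_le_sub_left hij n),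
      fun i => H9.normal_sc (H9.normal_of_invariant a ((H9.icomm_le k _).trans (H2.omegaOne_le p P))
        fun σ b => b.homOn.maps_icomm (fun _ => b.maps) (H2.omegaOne_le p P)
          ((b.homOn.mono (H2.omegaOne_le p P)).closure_maps fun x hx => H2.mem_omegaOne
            (b.maps hx.1) (by rw [← b.homOn.map_pow hx.1, hx.2, b.mor.map_one])) _), fun i => ?_⟩
    have := i.2
    simp only [Fin.val_succ, Fin.val_castSucc]
    rw [show n - i = n - (i + 1) + 1 by omega]
    exact le_rfl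
  · refine h.normal_of_omega_chain hp hP n (fun i => Q ⟨min i n, by omega⟩) (by simpa using a)
      (by rw [← b]; simp [Fin.last]) (fun i => d _) fun i hi => ?_
    have := e ⟨i, hi⟩
    simpa [min_eq_left hi.le, min_eq_left (Nat.succ_le_of_lt hi)] using this

end Cfsg.Agent.S5236
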