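import Cfsg.Statements.S5243
import Cfsg.Agent.H9.Pp

set_option autoImplicit false
open Cfsg

namespace Cfsg.Agent.S5243

open Cfsg.Agent Cfsg.Agent.H9

/-- Let F be a saturated fusion system over a finite p-group S, E a normal subsystem of F over T ≤ S, and χ a surjective homomorphism from Aut_F(T) onto a nontrivial finite group Δ of order prime to p whose kernel contains Aut_E(T). Then there is a proper normal subsystem F₀ of F over S containing E such that Aut_{F₀}(S) consists of those α ∈ Aut_F(S) whose restriction to T is an element of Aut_F(T) in the kernel of χ; moreover every p'-residual subsystem O^{p'}(F) of F is contained in F₀. -/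
theorem result {Ω : Type*} [Group Ω] {S : Subgroup Ω} [Finite S] (p : ℕ) [Fact p.Prime] (hS : IsPGroup p S) (F : Cfsg.FusionSystem S) (hF : F.IsSaturated p) {T : Subgroup Ω} (hTS : T ≤ S) (E : Cfsg.FusionSystem T) (hE : E.IsNormalIn F p) {Δ : Type*} [Group Δ] [Finite Δ] [Nontrivial Δ] (hΔ : (Nat.card Δ).Coprime p) (χ : ↥(F.autGroup T) →* Δ) (hχ : Function.Surjective χ) (hker : (E.autGroup T).subgroupOf (F.autGroup T) ≤ χ.ker) : ∃ F₀ : Cfsg.FusionSystem S, F₀.IsNormalIn F p ∧ ¬ (∀ P : Subgroup Ω, F₀.Hom P = F.Hom P) ∧ E.IsSubsystemOf F₀ ∧ (∀ α : MulAut ↥S, α ∈ F₀.autGroup S ↔ α ∈ F.autGroup S ∧ ∃ β : ↥(F.autGroup T), χ β = 1 ∧ ∀ t : ↥T, (((β : MulAut ↥T) t : ↥T) : Ω) = ((α ⟨(t : Ω), hTS t.2⟩ : ↥S) : Ω)) ∧ ∀ R : Cfsg.FusionSystem S, F.IsPPrimeResidual p R → R.IsSubsystemOf F₀ := by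
  have h := (H9.isNormalIn_iff hS).1 hE
  have := H9.finite_of_le hTS
  have k : ∀ {σ} (a : H9.Iso F T T σ), H9.InK (χ.ker.map (F.autGroup T).subtype) σ ↔
      χ ⟨_, a.toEquiv_mem⟩ = 1 := fun a => ⟨fun b => by
        obtain ⟨c, d, e⟩ := b.mem (α := a.toEquiv) fun _ => rfl
        rwa [show c = ⟨_, a.toEquiv_mem⟩ from Subtype.ext e] at d,
      fun b => ⟨_, ⟨_, b, rfl⟩, fun _ => rfl⟩⟩
  obtain ⟨D, d1, d2, d3, d4⟩ := h.satF.exists_ppr_of h.satE h.inv
    (K := χ.ker.map (F.autGroup T).subtype) (Subgroup.map_subtype_le _)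
    (fun a ha => ⟨⟨a, H9.autGroup_mono h.sub T ha⟩, hker ha, rfl⟩)
    (fun σ τ a b => H9.InK.conj_of (A := F.autGroup T) (by
      rintro x hx _ ⟨y, hy, rfl⟩
      exact ⟨⟨x, hx⟩ * y * ⟨x, hx⟩⁻¹, χ.normal_ker.conj_mem _ hy _, rfl⟩)
      ((H9.inK_autGroup hTS).2 a) b) fun σ j a b => (k a).2 (by
        have := (k (a.pow _)).1 b
        rw [show (⟨_, (a.pow (p ^ j)).toEquiv_mem⟩ : F.autGroup T) = ⟨_, a.toEquiv_mem⟩ ^ p ^ j from
          Subtype.ext (MulEquiv.ext fun x => Subtype.ext (H9.aut_pow_eq (α := a.toEquiv)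
            (fun _ => rfl) _ x).symm), map_pow] at this
        exact (H9.mem_of_pow_coprime (K := ⊥) (Subgroup.mem_bot.2 pow_card_eq_one')
          (Subgroup.mem_bot.2 this) (hΔ.pow_right j)))
  refine ⟨D, d1.isNormalIn, fun e => ?_, d2, fun α => ?_, fun R hR =>
    H9.ppres_le h.satF h.satF (H9.invar_refl F) hR d1.satE d1.inv⟩
  · obtain ⟨x, hx⟩ := exists_ne (1 : Δ)
    obtain ⟨a, rfl⟩ := hχ x
    have : a.1 ∈ D.autGroup T := by
      have := a.2
      unfold Cfsg.FusionSystem.autGroup at this ⊢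
      rwa [e]
    rw [d3] at this
    obtain ⟨b, c, d⟩ := this
    exact hx (by rwa [← show b = a from Subtype.ext d])
  · rw [← H9.inK_ap, H9.inK_autGroup le_rfl, d4, ← H9.inK_autGroup le_rfl, H9.inK_ap]
    refine and_congr_right fun _ => ⟨fun ⟨_, ⟨b, c, rfl⟩, d⟩ => ⟨b, c, fun t => by
      rw [← H9.ap_apply α (hTS t.2)]; exact d t⟩, fun ⟨b, c, d⟩ => ⟨_, ⟨b, c, rfl⟩, fun t => by
        rw [H9.ap_apply α (hTS t.2)]; exact d t⟩⟩

end Cfsg.Agent.S5243
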