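import Cfsg.Statements.S5245
import Cfsg.Agent.H9.More

set_option autoImplicit false
open Cfsg

namespace Cfsg.Agent.S5245

open Cfsg.Agent Cfsg.Agent.H9

/-- Let F be an extremely sparse fusion system over a finite p-group S (saturated, not the inner system, and every saturated fusion system over any subgroup T of S contained in F is F itself or the inner system of T). Then S is normal in F, the focal and hyperfocal subgroups of F are both S, and Aut_F(S) is generated by the inner automorphisms of S together with a single automorphism of prime order q ≠ p (F is the fusion system of the semidirect product of S by a cyclic group of prime order). -/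
theorem result {Ω : Type*} [Group Ω] {S : Subgroup Ω} [Finite S] (p : ℕ) [Fact p.Prime] (hS : IsPGroup p S) (F : Cfsg.FusionSystem S) (hF : F.IsSaturated p) (hxs : ¬ (∀ P : Subgroup Ω, F.Hom P = (Cfsg.innerFusionSystem S).Hom P) ∧ ∀ (T : Subgroup Ω) (E : Cfsg.FusionSystem T), E.IsSaturated p → E.IsSubsystemOf F → (T = S ∧ ∀ P : Subgroup Ω, E.Hom P = F.Hom P) ∨ (∀ P : Subgroup Ω, E.Hom P = (Cfsg.innerFusionSystem T).Hom P)) : F.IsNormal S ∧ F.focalSubgroup = S ∧ F.hyperfocalSubgroup p = S ∧ ∃ (q : ℕ) (β : MulAut ↥S), q.Prime ∧ q ≠ p ∧ β ∈ F.autGroup S ∧ orderOf β = q ∧ (F.autGroup S : Subgroup (MulAut ↥S)) = Cfsg.Inn ↥S ⊔ Subgroup.zpowers β := by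
  have h : Sat p F := ⟨hS, hF⟩
  have hex : ∃ R, R ≤ S ∧ ¬ IsPGroup p (F.autGroup R) := by
    by_contra hc
    push Not at hc
    exact hxs.1 (hom_eq_of_mor fun P σ => ⟨h.eq_inner_of_hyp (hyp_eq_bot_of_pgroup hc), Mor.of_inner⟩)
  obtain ⟨R, hR, hp⟩ := hex
  have := finite_of_le hR
  obtain ⟨q, hq, hqp, hd⟩ : ∃ q : ℕ, q.Prime ∧ q ≠ p ∧ q ∣ Nat.card (F.autGroup R) := by
    by_contra hc
    push Not at hc
    exact hp (IsPGroup.iff_card.2 ⟨_, Nat.eq_prime_pow_of_unique_prime_dvd Nat.card_pos.ne'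
      fun hq hd => by_contra fun h => hc _ hq h hd⟩)
  have := Fact.mk hq
  obtain ⟨β, hβ⟩ := exists_prime_orderOf_dvd_card' q hd
  rw [← Subgroup.orderOf_coe] at hβ
  have hco : q.Coprime p := (Nat.coprime_primes hq Fact.out).2 hqp
  have key : ∀ (R : Subgroup Ω) (β : MulAut R), R ≤ S → β ∈ F.autGroup R → β ≠ 1 → β ^ q = 1 →
      R = S ∧ ∀ P σ, Mor F P σ ↔ P ≤ R ∧ ∃ τ, InK (Inn R ⊔ Subgroup.zpowers β) τ ∧
        ∀ x ∈ P, τ x = σ x := fun R β hR hβ h1 h2 => by
    have := finite_of_le hR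
    obtain ⟨E, hE⟩ := exists_autFS R (le_sup_left : Inn R ≤ Inn R ⊔ Subgroup.zpowers β)
    have hE' : AutFS E _ := hE
    have hc : (orderOf β).Coprime p := hco.coprime_dvd_left (orderOf_dvd_of_pow_eq_one h2)
    rcases hxs.2 R E (hE'.sat (hS.to_le hR) (syl_sup_of_coprime (isPGroup_inn (hS.to_le hR))
      (inn_normalized R _) (by rwa [Nat.card_zpowers]))).sat (hE'.sub hR (sup_le (inn_le_autGroup F hR)
        (Subgroup.zpowers_le_of_mem hβ))) with h3 | h3
    · exact ⟨h3.1, fun P σ => (mor_iff_of_hom_eq (h3.2 P) σ).symm.trans (hE P σ)⟩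
    · have h4 : β ∈ E.autGroup R := hE'.autGroup ▸ Subgroup.mem_sup_right (Subgroup.mem_zpowers β)
      rw [fs_ext' h3, (grpFS_inner R).autGroup_eq le_rfl] at h4
      exact absurd (eq_one_of_pow_coprime (isPGroup_autInducedBy (hS.to_le hR) R) h4 hco h2) h1
  have hne : (β : MulAut R) ≠ 1 := fun e => hq.ne_one (by rw [← hβ, e, orderOf_one])
  have hpow : (β : MulAut R) ^ q = 1 := hβ ▸ pow_orderOf_eq_one _
  obtain ⟨rfl, h1⟩ := key R β hR β.2 hne hpow
  have h1' : AutFS F _ := h1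
  have hh : F.hyperfocalSubgroup p = R := by
    have hσ := iso_ap le_rfl β.2
    have hpp : PP p R (ap R (β : MulAut R)) := (pp_iff fun x => (ap_coe _ x).symm).2 (hβ ▸ hco)
    have hT := sc_iso h.sc_hyp (hσ.mor.mono (hyp_le F))
    refine (key _ hT.toEquiv (hyp_le F) hT.toEquiv_mem (fun e => hne ?_) ?_).1
    · ext x
      have a := mem_hyp hσ hpp x.2
      exact (ap_coe _ x).symm.trans (hpp.fix_of hS hσ.mor x.2 (hyp_le F a)
        (congrArg Subtype.val (DFunLike.congr_fun e ⟨_, a⟩) :))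
    · ext x
      rw [aut_pow_eq (σ := ap R (β : MulAut R)) (fun _ => rfl), ← map_pow, hpow, map_one]; rfl
  exact ⟨h1'.normal, le_antisymm (focal_le F) (hh.ge.trans (hyp_le_focal F)), hh, q, β, hq, hqp, β.2,
    hβ, h1'.autGroup⟩

end Cfsg.Agent.S5245
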