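import Cfsg.Statements.S5251
import Cfsg.Agent.H9.Inv

set_option autoImplicit false
open Cfsg

namespace Cfsg.Agent.S5251

open Cfsg.Agent Cfsg.Agent.H9

/-- Let F be a saturated fusion system over a finite p-group S, E a normal subsystem of F over T, and P an F-centric subgroup of S such that P ∩ T is not E-centric. Then some F-conjugate P* of P satisfies Out_S(P*) ∩ O_p(Out_F(P*)) ≠ 1: there is an element of N_S(P*) outside P* whose conjugation action on P* lies in O_p(Aut_F(P*)). In particular P is not both centric and radical in F. -/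
theorem result {Ω : Type*} [Group Ω] {S : Subgroup Ω} [Finite S] (p : ℕ) [Fact p.Prime] (hS : IsPGroup p S) (F : Cfsg.FusionSystem S) (hF : F.IsSaturated p) {T : Subgroup Ω} (E : Cfsg.FusionSystem T) (hE : E.IsNormalIn F p) (P : Subgroup Ω) (hP : F.IsCentric P) (hPT : ¬ E.IsCentric (P ⊓ T)) : (∃ φ ∈ F.Hom P, ∃ x ∈ S ⊓ Subgroup.normalizer (φ.range : Set Ω), x ∉ φ.range ∧ ∃ α ∈ ((Cfsg.pCore p ↥(F.autGroup φ.range)).map (F.autGroup φ.range).subtype : Subgroup (MulAut ↥φ.range)), ∀ y : ↥φ.range, ((α y : ↥φ.range) : Ω) = x * (y : Ω) * x⁻¹) ∧ ¬ F.IsRadical p P := by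
  have h := (isNormalIn_iff hS).1 hE
  have := finite_of_le h.le
  have hc : ¬ ∀ Q σ, Iso F (P ⊓ T) Q σ → FusionSystem.centralizerIn T Q ≤ Q :=
    fun hc => hPT ((h.inv.centric_iff inf_le_right).2 hc)
  push Not at hc
  obtain ⟨Q, σ, hσ, hQ⟩ := hc
  obtain ⟨R, ρ, -, hρ, hR⟩ := h.satF.exists_fn hσ.le
  obtain ⟨τ, hτ, hτ'⟩ := h.satF.mor_N hR (iso_refl F hσ.le |>.trans hρ)
  obtain ⟨χ, hχ, hχ'⟩ := h.satF.mor_N hR (hσ.symm.trans hρ)
  have hPN : P ≤ FusionSystem.normalizerIn S (P ⊓ T) := fun g hg =>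
    have := finite_of_le (inf_le_right : P ⊓ T ≤ T)
    mem_N_of_finite (hP.1 hg) fun x hx =>
      ⟨P.mul_mem (P.mul_mem hg hx.1) (P.inv_mem hg), sc_conj h.sc (hP.1 hg) hx.2⟩
  have hτP := hτ.mono hPN
  have hRT : R ≤ T := fun y hy => by
    obtain ⟨x, hx, rfl⟩ := hτ'.exists_eq hy
    exact sc_mem h.sc hτ'.mor hx hx.2
  have hR' : ∀ y, y ∈ img τ P → y ∈ T → y ∈ R := fun y hy hyT => by
    obtain ⟨x, hx, rfl⟩ := hτP.homOn.mem_img'.1 hy
    exact hτ'.maps ⟨hx, (sc_mem_iff h.sc hτP hx).1 hyT⟩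
  have hRP : R ≤ img τ P := hτ'.img_eq.ge.trans (img_mono τ inf_le_left)
  have hC : ¬ FusionSystem.centralizerIn T R ≤ img τ P := fun hle => hQ fun g hg => by
    have hgN := C_le_N S Q (C_mono h.le Q hg)
    exact (hχ'.mem g).1 (hR' _ (hle ⟨sc_mem h.sc hχ hgN hg.1,
      (hχ'.maps_C hχ (le_N hχ'.le) hgN (mem_C.1 hg).2).2⟩) (sc_mem h.sc hχ hgN hg.1))
  have key : ∃ g ∈ FusionSystem.centralizerIn T R,
      g ∈ Subgroup.normalizer (img τ P : Set Ω) ∧ g ∉ img τ P := by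
    by_contra hn
    push Not at hn
    refine hC (le_of_N_le' hS hτP.img_le ((C_le _ _).trans h.le) (fun g hg x hx => ?_) hn)
    have hgN : g ∈ FusionSystem.normalizerIn S R := by
      obtain ⟨y, hy, rfl⟩ := hτP.homOn.mem_img'.1 hg
      exact hτ'.maps_N' hτ (hPN hy)
    exact ⟨sc_conj h.sc hgN.1 hx.1, (C_conj_mem g hgN x (C_mono h.le R hx)).2⟩
  obtain ⟨g, hg, hgN, hgP⟩ := key
  have hk := inK_pCore_of_chain hS (iso_cj F hτP.img_le ⟨h.le hg.1, hgN⟩) 2
    (fun i => if i = 0 then ⊥ else if i = 1 then T else ⊤) (fun x _ hx => by simpa using hx)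
    (by simp) (fun i β hβ x hx hxB => by
      split_ifs at hxB ⊢
      · rw [Subgroup.mem_bot.1 hxB, hβ.mor.map_one]; exact one_mem _
      · exact sc_mem h.sc hβ.mor hx hxB
      · trivial) fun i hi x hx hxB => by
      rcases i with _ | _ | i
      · simp only [zero_add, one_ne_zero, ↓reduceIte] at hxB ⊢
        rw [cj_apply, (mem_C'.1 hg).2 x (hR' x hx hxB)]; simp
      · have := T.mul_mem (sc_conj h.sc (S.inv_mem (hτP.img_le hx)) hg.1) (T.inv_mem hg.1)
        simpa [mul_assoc] using this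
      · omega
  constructor
  · refine ⟨_, hτP.toHom_mem, ?_⟩
    rw [← hτP.homOn.img_eq_range]
    exact ⟨g, ⟨h.le hg.1, hgN⟩, hgP, hk⟩
  · intro hr
    exact hgP (mem_of_inK_inn hτP.img_le (centric_C_le (hτP.iso.centric hP)) (h.le hg.1)
      ((hτP.iso.radical hS hr).2 ▸ hk))

end Cfsg.Agent.S5251
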