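import Cfsg.Statements.S5291
import Cfsg.Agent.H9.Inv

set_option autoImplicit false
open Cfsg

namespace Cfsg.Agent.S5291

open Cfsg.Agent Cfsg.Agent.H9

/-- Let F be a saturated fusion system over a finite p-group S and E a weakly normal subsystem of F over a subgroup T. Suppose a subgroup R of T is normal in E (E = N_E(R)), and let R* be the subgroup of T generated by the images of R under all maps of F with source R. Then R* is normal in F (F = N_F(R*)). -/
theorem result {Ω : Type*} [Group Ω] {S : Subgroup Ω} [Finite S] (p : ℕ) [Fact p.Prime] (hS : IsPGroup p S)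
    (F : Cfsg.FusionSystem S) (hF : F.IsSaturated p)
    {T : Subgroup Ω} (E : Cfsg.FusionSystem T) (hE : E.IsWeaklyNormalIn F p)
    (R : Subgroup Ω) (hR : E.IsNormal R) :
    F.IsNormal (Subgroup.closure {x : Ω | ∃ φ ∈ F.Hom R, ∃ r : R, x = φ r}) := by
  obtain ⟨h1, h2, h3⟩ := (isWeaklyNormalIn_iff hS).1 hE
  have := finite_of_le h3.le
  have key : Subgroup.closure {x : Ω | ∃ φ ∈ F.Hom R, ∃ r : R, x = φ r} =
      sSup {U | ∃ α, Iso F T T α ∧ U = img α R} := by
    apply le_antisymm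
    · rw [Subgroup.closure_le]
      rintro _ ⟨φ, hφ, r, rfl⟩
      obtain ⟨σ, hσ, e⟩ := exists_mor hφ
      obtain ⟨α, hα, k⟩ := h3.frat R σ hR.1 hσ
      refine le_sSup (s := {U | ∃ α, Iso F T T α ∧ U = img α R}) ⟨α, hα, rfl⟩ ?_
      have := apply_mem_img_of_mem α (sc_mem (normal_sc hR) k r.2 r.2)
      simpa [e] using this
    · refine sSup_le ?_
      rintro _ ⟨α, hα, rfl⟩
      exact img_le_iff.2 fun x hx => Subgroup.subset_closure
        ⟨_, (hα.mor.mono hR.1).toHom_mem, ⟨x, hx⟩, rfl⟩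
  have hn : E.IsNormal (sSup {U | ∃ α, Iso F T T α ∧ U = img α R}) := by
    have := sSup_mem_of_sup (S := T)
      (M := {U | E.IsNormal U ∧ U ≤ sSup {U | ∃ α, Iso F T T α ∧ U = img α R}}) (fun _ h => h.1.1)
      ⟨normal_bot E, bot_le⟩ fun _ h _ h' => ⟨normal_sup h.1 h'.1, sup_le h.2 h'.2⟩
    convert this.1 using 1
    refine le_antisymm (sSup_le ?_) this.2
    rintro _ ⟨α, hα, rfl⟩
    exact le_sSup ⟨h3.normal_img hα hR, le_sSup ⟨α, hα, rfl⟩⟩
  rw [← key] at hn
  refine h3.normal_of_invariant h2 hn fun α hα => (hα.homOn.mono hn.1).closure_maps ?_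
  rintro _ ⟨φ, hφ, r, rfl⟩
  obtain ⟨σ, hσ, e⟩ := exists_mor hφ
  exact Subgroup.subset_closure ⟨_, (hσ.comp hα.mor fun x hx => h3.mem_T hσ hR.1 hx).toHom_mem, r, by
    rw [← e]; rfl⟩

end Cfsg.Agent.S5291
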