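import Cfsg.Statements.S5292
import Cfsg.Agent.H9.Desc2

set_option autoImplicit false
universe u
open Cfsg

namespace Cfsg.Agent.S5292

open Cfsg.Agent Cfsg.Agent.H9

/-- Let F be a saturated fusion system over a finite p-group S. Then F is the fusion system of some finite p-solvable group on a Sylow p-subgroup if and only if F is constrained (some subgroup normal in F is centric in F) and the group of automorphisms that F induces on its largest normal subgroup O_p(F) is p-solvable. -/
theorem result {Ω : Type u} [Group Ω] {S : Subgroup Ω} [Finite S] (p : ℕ) [Fact p.Prime] (hS : IsPGroup p S)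
    (F : Cfsg.FusionSystem S) (hF : F.IsSaturated p) :
    (∃ (G : Type u) (_ : Group G) (_ : Finite G) (ι : S →* G), Cfsg.IsPSolvable p G ∧ F.IsRealizedBy ι ∧
        ∃ T : Sylow p G, (T : Subgroup G) = ι.range) ↔
      (F.IsConstrained p ∧ Cfsg.IsPSolvable p ↥(F.autGroup F.core)) := by
  have h : H9.Sat p F := ⟨hS, hF⟩
  refine ⟨fun ⟨G, _, _, ι, a, b, T, c⟩ => ?_, fun ⟨a, b⟩ => ?_⟩
  · have d : H9.Syl p ι.range ⊤ := c ▸ H9.syl_top T
    have e := H9.isRealizedBy_iff_fac.1 b
    obtain ⟨g, f, k, -⟩ := e.symm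
    have l := e.im_le (H9.core_le F)
    refine ⟨f.constrained d.pg ((H9.grpFS_group _).constrained_of_psolv d (H9.pSolv_sub ⊤ a)), ?_⟩
    obtain ⟨φ, m, -⟩ := f.exists_autHom' l bot_le
    rw [← e.im_im f.hom k (H9.core_le F), ← m]
    refine H9.pSolv_map _ φ.rangeRestrict_surjective ?_
    rw [(H9.grpFS_group _).autGroup_eq l, ← H9.range_nHom]
    exact H9.pSolv_map _ (MonoidHom.rangeRestrict_surjective _) (H9.pSolv_sub _ a)
  · obtain ⟨G, _, _, ι, π, d⟩ := (h.nc a).exists_md
    exact ⟨G, _, inferInstance, ι, d.psolv_iff.2 b, d.real, d.model.2.2.1⟩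

end Cfsg.Agent.S5292
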