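import Cfsg.Statements.S5293
import Cfsg.Agent.H9.CSE

set_option autoImplicit false
open Cfsg

namespace Cfsg.Agent.S5293

open Cfsg.Agent Cfsg.Agent.H9

/-- Let F be a saturated fusion system over a finite p-group S, E a normal subsystem of F over T ≤ S, and C the join of the subgroups X ≤ C_S(T) such that E is contained in the centralizer system C_F(X). Then for the centralizer fusion system C_F(T) over C_S(T), the focal subgroup of C_F(T) is contained in C. -/
theorem result {Ω : Type*} [Group Ω] {S : Subgroup Ω} [Finite S] (p : ℕ) [Fact p.Prime] (hS : IsPGroup p S)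
    (F : Cfsg.FusionSystem S) (hF : F.IsSaturated p)
    {T : Subgroup Ω} (E : Cfsg.FusionSystem T) (hE : E.IsNormalIn F p)
    (C : Subgroup Ω)
    (hC : C = sSup {X : Subgroup Ω | X ≤ Cfsg.FusionSystem.centralizerIn S T ∧ ∀ P : Subgroup Ω, E.Hom P ⊆ F.centralizerHom X P})
    (D : Cfsg.FusionSystem (Cfsg.FusionSystem.centralizerIn S T)) (hD : F.IsCentralizerSystem T D) :
    D.focalSubgroup ≤ C := by
  have h := (H9.isNormalIn_iff hS).1 hE
  have := H9.finite_of_le h.le
  subst hC
  exact (H9.focal_le_iff.2 fun P σ a _ => h.mem_cse_of_cm ((H9.cm_iff hD).1 a)).trans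
    (le_sSup ⟨H9.cse_le, H9.sub_cm_iff.2 h.ce_cse.2⟩)

end Cfsg.Agent.S5293
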