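import Cfsg.Statements.S5294
import Cfsg.Agent.H9.More

set_option autoImplicit false
universe u
open Cfsg

namespace Cfsg.Agent.S5294

open Cfsg.Agent Cfsg.Agent.H9

/-- Let F be a saturated fusion system over a finite p-group S whose centre Z(S) lies in the largest subgroup O_p(F) normal in F. Then the centre Z(F) of F is a direct factor of Z(S): there is a subgroup K of Z(S) with Z(F) ∩ K = 1 and Z(F)K = Z(S). -/
theorem result {Ω : Type u} [Group Ω] {S : Subgroup Ω} [Finite S] (p : ℕ) [Fact p.Prime] (hS : IsPGroup p S)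
    (F : Cfsg.FusionSystem S) (hF : F.IsSaturated p) (hZ : (S ⊓ Subgroup.centralizer (S : Set Ω)) ≤ F.core) :
    ∃ K : Subgroup Ω, K ≤ (S ⊓ Subgroup.centralizer (S : Set Ω)) ∧ F.center ⊓ K = ⊥ ∧ F.center ⊔ K = (S ⊓ Subgroup.centralizer (S : Set Ω)) := by
  have h : Sat p F := ⟨hS, hF⟩
  have hn := normal_center (core_normal F)
  set V := FusionSystem.centralizerIn F.core F.core
  have hab : ∀ x ∈ V, ∀ y ∈ V, x * y = y * x := fun x hx y hy => (mem_C.1 hy).2 x hx.1
  obtain ⟨N, m, hm, h1, h2, h3, h4, -, -⟩ := h.exists_norm (sc_fn (normal_sc hn)) hab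
  have hZV : FusionSystem.centralizerIn S S ≤ V := fun x hx =>
    mem_C.2 ⟨hZ hx, fun y hy => (mem_C.1 hx).2 y (core_le F hy)⟩
  have hZZ : F.center ≤ FusionSystem.centralizerIn S S := fun x hx =>
    mem_C.2 ⟨center_le F hx, fun y hy => central_comm (center_central F) hx hy⟩
  have h5 : ∀ x ∈ F.center, N x = x ^ m := fun x hx => h4 x (hZV (hZZ hx)) fun σ hσ =>
    central_fix (center_central F) hσ.mor (hZV (hZZ hx)) hx
  have hh := h1.mono hZV
  refine ⟨pre (FusionSystem.centralizerIn S S) N ⊥, pre_le _ _ _, eq_bot_iff.2 fun x hx => ?_,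
    le_antisymm (sup_le hZZ (pre_le _ _ _)) fun x hx => ?_⟩
  · have b := (hh.mem_pre.1 hx.2).2
    rw [h5 x hx.1] at b
    exact eq_one_of_pow_coprime hS (center_le F hx.1)
      ((Nat.Prime.coprime_iff_not_dvd Fact.out).2 hm).symm b
  · obtain ⟨k, hk⟩ := exists_pow_pow_eq hS hm hx.1
    rw [← hk]
    refine pow_mem ?_ k
    have hxV := hZV hx
    have a : F.IsCentral (Subgroup.zpowers (N x)) :=
      h.central_of_fix (Subgroup.zpowers_le_of_mem (hn.1 (h2 x hxV))) fun P σ hσ y hy ⟨j, hj⟩ => by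
        obtain ⟨τ, hτ, e1, e2⟩ := normal_ext hn hσ
        have hτ' := (hτ.mono le_sup_right).iso_self e2
        rw [← e1 y hy, ← hj, hτ'.homOn.map_zpow (h2 x hxV), h3 x hxV (C_anti S (N_le _ _) hx) τ hτ']
    have a' := le_center a (Subgroup.mem_zpowers _)
    have b : (N x)⁻¹ * x ^ m ∈ pre (FusionSystem.centralizerIn S S) N ⊥ := by
      have hx' : x ∈ FusionSystem.centralizerIn S S := hx
      refine mem_pre_of (mul_mem (inv_mem (hZZ a')) (pow_mem hx' m)) ?_
      rw [hh.map_inv_mul (hZZ a') (pow_mem hx' m), h5 _ a', hh.map_pow hx', inv_mul_cancel]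
      exact one_mem _
    simpa using Subgroup.mul_mem_sup a' b

end Cfsg.Agent.S5294
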