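import Cfsg.Statements.S5297
import Cfsg.Agent.H9.Small

set_option autoImplicit false
universe u
open Cfsg

namespace Cfsg.Agent.S5297

open Cfsg.Agent Cfsg.Agent.H9

/-- Let F be a saturated fusion system over a finite p-group S. If every map of F between cyclic subgroups of the hyperfocal subgroup of F of order p or 4 is a map of the normalizer system of S (it extends to a map of F defined on all of S), then S is normal in F. -/
theorem result {Ω : Type u} [Group Ω] {S : Subgroup Ω} [Finite S] (p : ℕ) [Fact p.Prime] (hS : IsPGroup p S)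
    (F : Cfsg.FusionSystem S) (hF : F.IsSaturated p)
    (h : ∀ A B : Subgroup Ω, A ≤ (F.hyperfocalSubgroup p) → B ≤ (F.hyperfocalSubgroup p) → IsCyclic ↥A → (Nat.card ↥A = p ∨ Nat.card ↥A = 4) → IsCyclic ↥B → (Nat.card ↥B = p ∨ Nat.card ↥B = 4) →
      F.homSet A B ⊆ F.normalizerHom S A) :
    F.IsNormal S := by
  have k : H9.Sat p F := ⟨hS, hF⟩
  refine k.normal_top_of_ctl fun P τ a x b c d => ?_
  by_cases h1 : x = 1
  · exact ⟨1, H9.mor_one F le_rfl, by rw [h1, a.map_one]; rfl⟩
  obtain ⟨φ, e, f⟩ := k.small_of_homSet (F.normalizerHom S) h a b c d h1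
  obtain ⟨σ, -, l⟩ := H9.exists_mor e.1
  obtain ⟨-, ρ, m, n, -⟩ := (H9.mem_normalizerHom_iff l le_rfl).1 e
  exact ⟨ρ, m.mono le_sup_right, by rw [← f, ← l, n x (Subgroup.mem_zpowers x)]⟩

end Cfsg.Agent.S5297
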