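import Cfsg.Statements.S5298
import Cfsg.Agent.H9.Small

set_option autoImplicit false
universe u
open Cfsg

namespace Cfsg.Agent.S5298

open Cfsg.Agent Cfsg.Agent.H9

/-- Let F be a saturated fusion system over a finite p-group S. If every map of F between cyclic subgroups of the hyperfocal subgroup of F of order p or 4 is conjugation by an element of S, then F is the inner fusion system of S. -/
theorem result {Ω : Type u} [Group Ω] {S : Subgroup Ω} [Finite S] (p : ℕ) [Fact p.Prime] (hS : IsPGroup p S)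
    (F : Cfsg.FusionSystem S) (hF : F.IsSaturated p)
    (h : ∀ A B : Subgroup Ω, A ≤ (F.hyperfocalSubgroup p) → B ≤ (F.hyperfocalSubgroup p) → IsCyclic ↥A → (Nat.card ↥A = p ∨ Nat.card ↥A = 4) → IsCyclic ↥B → (Nat.card ↥B = p ∨ Nat.card ↥B = 4) →
      F.homSet A B ⊆ (Cfsg.innerFusionSystem S).Hom A) :
    ∀ P : Subgroup Ω, F.Hom P = (Cfsg.innerFusionSystem S).Hom P := by
  have k : H9.Sat p F := ⟨hS, hF⟩
  refine H9.hom_eq_of_mor fun P σ => ⟨k.inner_of_ctl fun P τ a x b c d => ?_, H9.Mor.of_inner⟩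
  by_cases h1 : x = 1
  · exact ⟨1, one_mem _, by simp [h1, a.map_one]⟩
  obtain ⟨φ, e, f⟩ := k.small_of_homSet (Cfsg.innerFusionSystem S).Hom h a b c d h1
  obtain ⟨σ, m, l⟩ := H9.exists_mor e
  obtain ⟨-, g, n, q⟩ := H9.mor_inner_iff.1 m
  exact ⟨g, n, by rw [← f, ← l, q x (Subgroup.mem_zpowers x)]⟩

end Cfsg.Agent.S5298
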