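import Cfsg.Statements.S5301
import Cfsg.Agent.H9.Normal

set_option autoImplicit false
universe u
open Cfsg

namespace Cfsg.Agent.S5301

open Cfsg.Agent Cfsg.Agent.H9

/-- Let F be a saturated fusion system over a finite p-group S. If for every subgroup P of S that is fully normalized, centric and radical in F the automorphism group that F induces on P has a normal Sylow p-subgroup, then S is normal in F. -/
theorem result {Ω : Type u} [Group Ω] {S : Subgroup Ω} [Finite S] (p : ℕ) [Fact p.Prime] (hS : IsPGroup p S)
    (F : Cfsg.FusionSystem S) (hF : F.IsSaturated p)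
    (hcl : ∀ P : Subgroup Ω, F.IsFullyNormalized P → F.IsCentric P → F.IsRadical p P →
      ∃ R : Sylow p ↥(F.autGroup P), (R : Subgroup ↥(F.autGroup P)).Normal) :
    F.IsNormal S := by
  have h : Sat p F := ⟨hS, hF⟩
  refine h.normal_top_of_no_ess fun R hR => ?_
  have := finite_of_le hR.1.1
  obtain ⟨T, hT⟩ := hcl R hR.2.1 hR.1 (h.ess_radical hR)
  have hs := syl_map_subtype T
  have h1 : (T : Subgroup (F.autGroup R)).map (F.autGroup R).subtype ≤ Inn R :=
    (h.ess_radical hR).2 ▸ Subgroup.map_mono (L.le_pCore T.isPGroup')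
  have h2 := (h.isEssential_iff.1 hR).2.2.1
  have h3 := hs.card_le (h.fn_syl hR.2.1).le (h.fn_syl hR.2.1).pg
  exact (card_lt_of_lt h2).not_ge (h3.trans (Subgroup.card_le_of_le h1))

end Cfsg.Agent.S5301
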