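import Cfsg.Statements.S5310
import Cfsg.Agent.H9.CP2

set_option autoImplicit false
open Cfsg

namespace Cfsg.Agent.S5310

open Cfsg.Agent Cfsg.Agent.H9

/-- A saturated fusion system F over a finite p-group S is constrained (its largest normal subgroup O_p(F) is centric) if and only if the inner fusion system of O_p(F) is itself a generalized Fitting subsystem of F (that is, F*(F) = O_p(F)). -/
theorem result {Ω : Type*} [Group Ω] {S : Subgroup Ω} [Finite S] (p : ℕ) [Fact p.Prime] (hS : IsPGroup p S) (F : Cfsg.FusionSystem S) (hF : F.IsSaturated p) :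
    F.IsConstrained p ↔ (Cfsg.innerFusionSystem F.core).IsGeneralizedFittingOf F p := by
  have h : H9.Sat p F := ⟨hS, hF⟩
  have := H9.finite_of_le (H9.core_le F)
  refine ⟨fun c => ?_, fun ⟨T, E, a, b⟩ => h.constrained_of_no_comp fun R C c => ?_⟩
  · obtain ⟨T, E, a⟩ := h.exists_lay
    have := H9.finite_of_le a.nml.le
    obtain ⟨D, b⟩ := (a.cph (H9.core_normal F)).exists_cp (T := F.core) (by simp [a.eq_bot c])
    obtain rfl : D = Cfsg.innerFusionSystem F.core :=
      H9.fs_ext fun P σ => ⟨fun d => b.full' d d.le, fun d => d.of_inner⟩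
    exact ⟨T, E, (H9.lay_iff hS).2 a, H9.cp_iff.2 b⟩
  · have a := (H9.lay_iff hS).1 a
    have := H9.finite_of_le a.nml.le
    have := H9.finite_of_le (H9.sub_le (H9.subnormal_sub c.1))
    exact H9.qs_not_inner c.2 (hS.to_le (H9.core_le F))
      (H9.sub_trans (a.comps R C c) (H9.cp_iff.1 b).symm.sub)

end Cfsg.Agent.S5310
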