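import Cfsg.Statements.S5312
import Cfsg.Agent.H9.CP2

set_option autoImplicit false
open Cfsg

namespace Cfsg.Agent.S5312

open Cfsg.Agent Cfsg.Agent.H9

/-- Let F be a saturated fusion system over a finite p-group S. Every component C of F is a normal subsystem of every generalized Fitting subsystem of F. -/
theorem result {Ω : Type*} [Group Ω] {S : Subgroup Ω} [Finite S] (p : ℕ) [Fact p.Prime] (hS : IsPGroup p S) (F : Cfsg.FusionSystem S) (hF : F.IsSaturated p)
    {T : Subgroup Ω} (C : Cfsg.FusionSystem T) (hC : C.IsComponentIn F p)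
    {U : Subgroup Ω} (D : Cfsg.FusionSystem U) (hD : D.IsGeneralizedFittingOf F p) : C.IsNormalIn D p := by
  have h : H9.Sat p F := ⟨hS, hF⟩
  have := H9.finite_of_le (H9.core_le F)
  obtain ⟨T, E, a, b⟩ := hD
  have a := (H9.lay_iff hS).1 a
  have := H9.finite_of_le a.nml.le
  have b := H9.cp_iff.1 b
  have := b.finite
  exact (b.symm.nml_of (H9.sat_inner (hS.to_le (H9.core_le F))) (H9.comp_nml_lay hC a)).isNormalIn

end Cfsg.Agent.S5312
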