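import Cfsg.Statements.S5315
import Cfsg.Agent.H9.More

set_option autoImplicit false
open Cfsg

namespace Cfsg.Agent.S5315

open Cfsg.Agent Cfsg.Agent.H9

/-- An analogue of Grün's lemma for fusion systems. Let F be a saturated fusion system over a finite p-group S that is perfect in the sense that its hyperfocal subgroup is all of S (F coincides with its p-residual subsystem). Then the second centre of F equals its centre: every fusion system over S/(Z(F) ∩ S) that is the factor system of F modulo its centre Z(F), read through the quotient map, has trivial centre. -/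
theorem result {Ω : Type*} [Group Ω] {S : Subgroup Ω} [Finite S] (p : ℕ) [Fact p.Prime] (hS : IsPGroup p S) (F : Cfsg.FusionSystem S) (hF : F.IsSaturated p)
    (hperf : F.hyperfocalSubgroup p = S)
    (E : Cfsg.FusionSystem (⊤ : Subgroup (↥S ⧸ (F.center).subgroupOf S)))
    (hE : F.IsFactorSystem F.center (QuotientGroup.mk' ((F.center).subgroupOf S)) E) : E.center = ⊥ := by
  have h : Sat p F := ⟨hS, hF⟩
  have hZ := center_central F
  have hE' := (isFactorSystem_iff (normal_sc (central_normal hZ))).1 hE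
  have := hE'.finite
  have hZ' := center_central E
  have hsc := hE'.sc_pre h (normal_sc (central_normal hZ'))
  set U := pre S (ext (QuotientGroup.mk' (F.center.subgroupOf S))) E.center with hU
  have h1 : ∀ P σ, Mor F P σ → ∀ z ∈ P, z ∈ U → z⁻¹ * σ z ∈ F.center := fun P σ hσ z hz hzU => by
    obtain ⟨σ', hσ', e⟩ := hE'.descend' h hσ
    rw [← hE'.eq_iff (hσ.le hz) (hσ.mem hz), ← e z hz,
      central_fix hZ' hσ' (mem_im_of_mem _ hz) (hE'.mem_pre.1 hzU).2]
  have h2 : ∀ g ∈ S, ∀ z ∈ U, z⁻¹ * (g * z * g⁻¹) ∈ F.center := fun g hg z hz =>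
    h1 S _ (mor_cj F le_rfl hg) z (hsc.1 hz) hz
  have hn : F.IsNormal U := h.normal_of_desc_chain hsc 2
    (fun i => if i = 0 then U else if i = 1 then F.center else ⊥) rfl rfl
    (fun i => by split_ifs; exacts [le_rfl, hE'.le_pre _, bot_le]) (fun i => by
      rcases i with _ | _ | i
      · simp only [↓reduceIte, zero_add, one_ne_zero]
        rw [Subgroup.commutator_le]
        intro x hx y hy
        simpa [commutatorElement_def, mul_assoc] using h2 y (hsc.1 hy) _ (U.inv_mem hx)
      · simp only [zero_add, one_ne_zero, ↓reduceIte, Nat.reduceAdd, OfNat.ofNat_ne_zero,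
          OfNat.ofNat_ne_one]
        rw [Subgroup.commutator_le]
        intro x hx y hy
        rw [Subgroup.mem_bot, commutatorElement_eq_one_iff_mul_comm]
        exact (central_comm hZ hx (hsc.1 hy)).symm
      · simp)
    fun i => by
      split_ifs
      exacts [wc_of_sc hsc, wc_of_sc hE'.sc, wc_of_sc (sc_bot F)]
  have h3 : F.focalSubgroup ≤ FusionSystem.centralizerIn S U := focal_le_iff.2 fun P σ hσ x hx => by
    obtain ⟨τ, hτ, e1, e2⟩ := normal_ext hn hσ
    refine mem_C.2 ⟨S.mul_mem (S.inv_mem (hσ.le hx)) (hσ.mem hx), fun z hz => ?_⟩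
    have hx' := Subgroup.mem_sup_left (T := U) hx
    have hz' := Subgroup.mem_sup_right (S := P) hz
    have a := h2 x (hσ.le hx) z hz
    have b := central_fix hZ hτ (Subgroup.mem_sup_right (hE'.le_pre _ a)) a
    have c := h1 _ τ hτ z hz' hz
    rw [hτ.map_mul (inv_mem hz') (mul_mem (mul_mem hx' hz') (inv_mem hx')), hτ.map_conj hx' hz',
      hτ.map_inv hz', e1 x hx] at b
    obtain ⟨u, hu, eu⟩ : ∃ u ∈ F.center, τ z = z * u := ⟨_, c, by group⟩
    have d := central_comm hZ hu (S.inv_mem (hσ.mem hx))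
    have d' := central_comm hZ hu (S.mul_mem (S.inv_mem (hsc.1 hz)) (S.mul_mem (S.mul_mem (hσ.mem hx)
      (hsc.1 hz)) (S.inv_mem (hσ.mem hx))))
    have : σ x * z * (σ x)⁻¹ = x * z * x⁻¹ := by
      rw [← mul_left_cancel_iff (a := z⁻¹), ← b, eu]
      calc z⁻¹ * (σ x * z * (σ x)⁻¹) = u⁻¹ * (z⁻¹ * (σ x * z * (σ x)⁻¹) * u) := by rw [d']; group
        _ = u⁻¹ * (z⁻¹ * (σ x * z * ((σ x)⁻¹ * u))) := by group
        _ = _ := by rw [d]; group
    calc z * (x⁻¹ * σ x) = x⁻¹ * (x * z * x⁻¹) * σ x := by group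
      _ = x⁻¹ * σ x * z := by rw [← this]; group
  have h4 : S ≤ FusionSystem.centralizerIn S U := hperf.ge.trans ((hyp_le_focal F).trans h3)
  have h5 : F.IsCentral U := h.central_of_fix hsc.1 fun P σ hσ x hx hxU => by
    obtain ⟨τ, hτ, e1, e2⟩ := normal_ext hn hσ
    have hτ' := (hτ.mono le_sup_right).iso_self e2
    have a := h1 _ τ hτ'.mor x hxU hxU
    rw [← e1 x hx]
    exact (h.pp_of_N_le (sc_fn hsc) ((N_le _ _).trans h4) hτ').fix_of hS hτ'.mor hxU
      (hE'.le_pre _ a) (central_fix hZ hτ'.mor (hE'.le_pre _ a) a)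
  rw [← hE'.im_pre (center_le E), hE'.im_eq_bot_iff hsc.1]
  exact le_center h5

end Cfsg.Agent.S5315
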