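import Cfsg.Statements.S5330
import Cfsg.Agent.H9.More

set_option autoImplicit false
open Cfsg

namespace Cfsg.Agent.S5330

open Cfsg.Agent Cfsg.Agent.H9

/-- Let F be a saturated fusion system over a finite abelian p-group S. Then S is the internal direct product of the centre of the system and the focal subgroup: Z(F) ∩ foc(F) = 1 and Z(F)·foc(F) = S. -/
theorem result {Ω : Type*} [Group Ω] {S : Subgroup Ω} [Finite S] (p : ℕ) [Fact p.Prime] (hS : IsPGroup p S) (F : Cfsg.FusionSystem S) (hF : F.IsSaturated p) (hab : ∀ x ∈ S, ∀ y ∈ S, x * y = y * x) : F.center ⊓ F.focalSubgroup = ⊥ ∧ F.center ⊔ F.focalSubgroup = S := by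
  have h : Sat p F := ⟨hS, hF⟩
  have hn := h.normal_of_abelian_sc (sc_top F) hab
  obtain ⟨N, m, hm, h1, h2, h3, h4, h5, h6⟩ := h.exists_norm (fn_top F) hab
  have hC : FusionSystem.normalizerIn S S ≤ FusionSystem.centralizerIn S S :=
    fun g hg => mem_C.2 ⟨hg.1, fun x hx => hab x hx g hg.1⟩
  constructor
  · refine eq_bot_iff.2 fun x hx => ?_
    have a : F.focalSubgroup ≤ pre S N ⊥ := focal_le_iff.2 fun P σ hσ y hy => by
      obtain ⟨α, hα, e⟩ := normal_res hn hσ.le hσ
      refine mem_pre_of (S.mul_mem (S.inv_mem (hσ.le hy)) (hσ.mem hy)) ?_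
      rw [h1.map_inv_mul (hσ.le hy) (hσ.mem hy), ← e y hy, h6 hC y (hσ.le hy) α hα, inv_mul_cancel]
      exact one_mem _
    have hxS := center_le F hx.1
    have b := (h1.mem_pre.1 (a hx.2)).2
    rw [h4 x hxS fun σ hσ => central_fix (center_central F) hσ.mor hxS hx.1] at b
    exact eq_one_of_pow_coprime hS hxS ((Nat.Prime.coprime_iff_not_dvd Fact.out).2 hm).symm b
  · refine le_antisymm (sup_le (center_le F) (focal_le F)) fun x hx => ?_
    obtain ⟨k, hk⟩ := exists_pow_pow_eq hS hm hx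
    rw [← hk]
    refine pow_mem ?_ k
    have a : F.IsCentral (Subgroup.zpowers (N x)) :=
      h.central_of_fix (Subgroup.zpowers_le_of_mem (h2 x hx)) fun P σ hσ y hy ⟨j, hj⟩ => by
        obtain ⟨α, hα, e⟩ := normal_res hn hσ.le hσ
        rw [← e y hy, ← hj, hα.homOn.map_zpow (h2 x hx), h3 x hx
          (mem_C.2 ⟨hx, fun g hg => hab g hg.1 x hx⟩) α hα]
    have b := h5 F.focalSubgroup x hx fun σ hσ => mem_focal hσ.mor hx
    simpa using Subgroup.mul_mem_sup (le_center a (Subgroup.mem_zpowers _)) (Subgroup.inv_mem _ b)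

end Cfsg.Agent.S5330
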