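import Cfsg.Statements.S5521
import Cfsg.Agent.GS.St7
import Cfsg.Agent.S5600

set_option autoImplicit false
open Cfsg

namespace Cfsg.Agent.S5521

/-- The Mathieu group M₂₄ in its natural action on the 24 coordinate positions of the binary Golay code has minimal base size exactly 7: every set of at most 6 positions is fixed pointwise by some non-identity element of M₂₄, while some set of 7 positions is fixed pointwise only by the identity. -/
theorem result :
    (∀ B : Finset Cfsg.GolayPt, B.card ≤ 6 → ∃ g ∈ Cfsg.M24, g ≠ 1 ∧ ∀ b ∈ B, g b = b) ∧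
    (∃ B : Finset Cfsg.GolayPt, B.card = 7 ∧ ∀ g ∈ Cfsg.M24, (∀ b ∈ B, g b = b) → g = 1) := by
  open Finset Pointwise Cfsg.Agent.St Cfsg.Agent.H6 in focus
    constructor
    · intro B hB
      obtain ⟨E, h1, -, h2⟩ := exists_subsuperset_card_eq (subset_univ B) hB (by rw [card_univ, card_golayPt]; omega)
      have h3 : 1 < Nat.card (FixP E) := by
        rw [← card_Fix_eq]
        by_cases h : ∃ o ∈ octads, E ⊆ o
        · rw [(S5600.result E h2).2.1 h]; omega
        · rw [((S5600.result E h2).2.2 h).1]; omega
      have := Finite.one_lt_card_iff_nontrivial.1 h3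
      obtain ⟨g, hg⟩ := exists_ne (1 : FixP E)
      exact ⟨g.1, g.1.2, fun e => hg (Subtype.ext (Subtype.ext e)), fun b hb => g.2 b (h1 hb)⟩
    · refine ⟨fs 0x80003f, by rw [card_fs_pc]; decide, fun g hg h => ?_⟩
      have : (⟨g, hg⟩ : M24) ∈ fixS 0x80003f := mem_fixS.2 h
      rw [fixS_base] at this
      exact congrArg Subtype.val (Subgroup.mem_bot.1 this)

end Cfsg.Agent.S5521
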