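import Cfsg.Statements.S5562
import Cfsg.Agent.H9.Tr1

set_option autoImplicit false
open Cfsg

namespace Cfsg.Agent.S5562

open Cfsg.Agent Cfsg.Agent.H9
open Cfsg.Agent.H6

/-- Let G be a finite group, d an involution of G whose conjugates pairwise have products of odd order, and x any involution of G. Then the conjugacy class of d is the disjoint union, over the conjugates a of d commuting with x, of the sets of conjugates of d commuting with ax: every conjugate of d commutes with ax for exactly one conjugate a of d that commutes with x. -/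
theorem result {G : Type*} [Group G] [Finite G] (d : G) (hd : orderOf d = 2)
    (hodd : ∀ a ∈ conjugatesOf d, ∀ b ∈ conjugatesOf d, Odd (orderOf (a * b)))
    (x : G) (hx : orderOf x = 2) :
    ∀ e ∈ conjugatesOf d,
      ∃! a : G, a ∈ conjugatesOf d ∧ Commute a x ∧ Commute e (a * x) := by
  have sx : x * x = 1 := by rw [← sq, ← hx, pow_orderOf_eq_one]
  have sq := conjs_sq hd
  intro e he
  refine existsUnique_of_exists_of_unique ?_ ?_
  · obtain ⟨k, hk⟩ := hodd _ (conjs_cj x e he) e he
    obtain ⟨cx, ce⟩ := dih_comm sx (sq e he) (n := 2 * k + 1) (by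
      rw [← pow_two, ← pow_mul, mul_comm, pow_mul, show (x * e) ^ 2 = x * e * x⁻¹ * e by
        rw [inv_of_sq sx, pow_two, ← mul_assoc], ← hk, pow_orderOf_eq_one])
    refine ⟨x * (x * e) ^ (2 * k + 1), ?_, ((Commute.refl x).mul_right cx).symm, ?_⟩
    · rw [← dih_odd sx (sq e he)]; exact conjs_cj _ e he
    · rwa [cx.eq, mul_assoc, sx, mul_one]
  · rintro a b ⟨ha, a1, a2⟩ ⟨hb, b1, b2⟩
    obtain ⟨m, hm⟩ := (hodd a ha e he).mul (hodd b hb e he)
    have k : ∀ a ∈ conjugatesOf d, Commute a x → Commute e (a * x) → (a * e) ^ (2 * m + 1) = 1 →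
        (x * e) ^ (2 * m + 1) = a * x := fun a ha a1 a2 h => by
      rw [show x * e = a * x * (a * e) by rw [a1.eq, mul_assoc, ← mul_assoc a, sq a ha, one_mul],
        (((Commute.refl a).mul_left a1.symm).mul_right a2.symm).mul_pow, h, mul_one, pow_succ, pow_mul,
        sq_of_commute (sq a ha) sx a1, one_pow, one_mul]
    exact mul_right_cancel ((k a ha a1 a2 (by rw [← hm, pow_mul, pow_orderOf_eq_one, one_pow])).symm.trans
      (k b hb b1 b2 (by rw [← hm, mul_comm (orderOf _), pow_mul, pow_orderOf_eq_one, one_pow])))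

end Cfsg.Agent.S5562
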