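import Cfsg.Statements.S5596
import Mathlib
import Cfsg.Agent.H2.LX2
import Cfsg.Agent.H4.Lin

set_option autoImplicit false
open Cfsg

namespace Cfsg.Agent.S5596

open Cfsg.Agent.H2 Subgroup

/-- Setting: `z` is an involution of the finite group `G`; for each element `x`, `Q x` is the largest normal 2-subgroup of the centralizer of `x`; `Q z` is extraspecial and contains its own centralizer in `G`. A subgroup `U` is singular when it is elementary abelian, every non-identity element of `U` is conjugate to `z`, and any two non-identity elements `u`, `v` of `U` are orthogonal (`v ∈ Q u`). Write `QU` for the intersection of the `Q u` and `LU` for the join of the `Q u` over the non-identity `u` in `U`. If `U` is singular of order `2 ^ n` with `n ≥ 2`, then `U ≤ QU ≤ LU`, `LU` normalizes `U`, and `LU` induces on `U` its full automorphism group (the general linear group of dimension `n` over the field with two elements): every automorphism of `U` is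 conjugation by some element of `LU`. -/
theorem result {G : Type*} [Group G] [Finite G]
    (Q : G → Subgroup G)
    (hQ : ∀ x : G, Q x = (Cfsg.pCore 2 ↥(Subgroup.centralizer ({x} : Set G))).map (Subgroup.centralizer ({x} : Set G)).subtype)
    (z : G) (hz : orderOf z = 2) (hE : Cfsg.IsExtraspecial 2 ↥(Q z))
    (hC : Subgroup.centralizer ((Q z : Subgroup G) : Set G) ≤ Q z)
    (U : Subgroup G) (hU2 : ∀ u ∈ U, u * u = 1)
    (hS : ∀ u ∈ U, u ≠ 1 → ∃ g : G, g * z * g⁻¹ = u)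
    (hO : ∀ u ∈ U, ∀ v ∈ U, u ≠ 1 → v ≠ 1 → v ∈ Q u)
    (QU LU : Subgroup G) (hQU : QU = ⨅ u ∈ ((U : Set G) \ {1}), Q u) (hLU : LU = ⨆ u ∈ ((U : Set G) \ {1}), Q u)
    (n : ℕ) (hn : 2 ≤ n) (hcard : Nat.card ↥U = 2 ^ n) :
    U ≤ QU ∧ QU ≤ LU ∧ LU ≤ Subgroup.normalizer (U : Set G) ∧
      ∀ φ : ↥U ≃* ↥U, ∃ g ∈ LU, ∀ u : ↥U, g * (u : G) * g⁻¹ = ((φ u : ↥U) : G) := by
  have hL : ∀ u ∈ U, u ≠ 1 → LX (Q u) u := fun u hu h1 => by
    obtain ⟨g, rfl⟩ := hS u hu h1
    rw [hQ] at hE hC ⊢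
    exact lx_Op_conj (lx_of_Op hz hE hC) g
  have hUQ : ∀ u ∈ U, u ≠ 1 → U ≤ Q u := fun u hu h1 v hv => by
    by_cases e : v = 1
    · rw [e]; exact one_mem _
    · exact hO u hu v hv h1 e
  have hle : ∀ u ∈ U, u ≠ 1 → Q u ≤ LU := fun u hu h1 => by
    rw [hLU]; exact le_iSup₂_of_le (f := fun u (_ : u ∈ (U : Set G) \ {1}) => Q u) u ⟨hu, h1⟩ le_rfl
  have hN : LU ≤ normalizer (U : Set G) := by
    rw [hLU]
    exact iSup₂_le fun u hu => (hL u hu.1 hu.2).le_normalizer (hUQ u hu.1 hu.2) hu.1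
  obtain ⟨u₀, hu₀, h₀⟩ := H8.exists_mem_ne_one (A := U) (fun e => by
    rw [e, card_bot] at hcard
    have := Nat.one_lt_two_pow (n := n) (by omega)
    omega)
  refine ⟨hQU ▸ le_iInf₂ fun u hu => hUQ u hu.1 hu.2, ?_, hN, fun φ => ?_⟩
  · rw [hQU]
    exact (iInf₂_le (f := fun u (_ : u ∈ (U : Set G) \ {1}) => Q u) u₀ ⟨hu₀, h₀⟩).trans
      (hle u₀ hu₀ h₀)
  refine exists_conj_of_transvections hU2 hN (fun u hu h1 A hA huA x hx hxA hi => ?_) φ
  have l := hL u hu h1
  obtain ⟨y, hy, a, b⟩ := l.exists_cent_not_commute (hA.trans (hUQ u hu h1)) huA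
    (hUQ u hu h1 hx) hxA
  exact ⟨y, hle u hu h1 hy, a, l.conj_eq hy (hUQ u hu h1 hx) b⟩

end Cfsg.Agent.S5596
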