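import Cfsg.Statements.S5597
import Mathlib
import Cfsg.Agent.H2.LX2

set_option autoImplicit false
open Cfsg

namespace Cfsg.Agent.S5597

open Cfsg.Agent.H2 Subgroup

/-- Setting: `z` is an involution of the finite group `G`; for each element `x`, `Q x` is the largest normal 2-subgroup of the centralizer of `x`; `Q z` is extraspecial and contains its own centralizer in `G`. A subgroup `U` is singular when it is elementary abelian, every non-identity element of `U` is conjugate to `z`, and any two non-identity elements `u`, `v` of `U` are orthogonal (`v ∈ Q u`). Write `QU` for the intersection of the `Q u` and `LU` for the join of the `Q u` over the non-identity `u` in `U`. If `U` is a non-trivial singular subgroup, then `LU` acts trivially on `QU / U` (every commutator of an element of `LU` with an element of `QU` lies in `U`), and for every `x` in `QU` outside `U` the centralizer of `U` in `LU` permutes the coset `x U` transitively: each `x u` with `u ∈ U`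 is a conjugate of `x` by an element of `LU` centralizing `U`. -/
theorem result {G : Type*} [Group G] [Finite G]
    (Q : G → Subgroup G)
    (hQ : ∀ x : G, Q x = (Cfsg.pCore 2 ↥(Subgroup.centralizer ({x} : Set G))).map (Subgroup.centralizer ({x} : Set G)).subtype)
    (z : G) (hz : orderOf z = 2) (hE : Cfsg.IsExtraspecial 2 ↥(Q z))
    (hC : Subgroup.centralizer ((Q z : Subgroup G) : Set G) ≤ Q z)
    (U : Subgroup G) (hU2 : ∀ u ∈ U, u * u = 1)
    (hS : ∀ u ∈ U, u ≠ 1 → ∃ g : G, g * z * g⁻¹ = u)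
    (hO : ∀ u ∈ U, ∀ v ∈ U, u ≠ 1 → v ≠ 1 → v ∈ Q u)
    (QU LU : Subgroup G) (hQU : QU = ⨅ u ∈ ((U : Set G) \ {1}), Q u) (hLU : LU = ⨆ u ∈ ((U : Set G) \ {1}), Q u)
    (hU : U ≠ ⊥) :
    (∀ g ∈ LU, ∀ x ∈ QU, g * x * g⁻¹ * x⁻¹ ∈ U) ∧
      ∀ x ∈ QU, x ∉ U → ∀ u ∈ U, ∃ g ∈ LU ⊓ Subgroup.centralizer (U : Set G), g * x * g⁻¹ = x * u := by
  have hL : ∀ u ∈ U, u ≠ 1 → LX (Q u) u := fun u hu h1 => by
    obtain ⟨g, rfl⟩ := hS u hu h1
    rw [hQ] at hE hC ⊢
    exact lx_Op_conj (lx_of_Op hz hE hC) g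
  have hUQ : ∀ u ∈ U, u ≠ 1 → U ≤ Q u := fun u hu h1 v hv => by
    by_cases e : v = 1
    · rw [e]; exact one_mem _
    · exact hO u hu v hv h1 e
  have hle : ∀ u ∈ U, u ≠ 1 → Q u ≤ LU := fun u hu h1 => by
    rw [hLU]; exact le_iSup₂_of_le (f := fun u (_ : u ∈ (U : Set G) \ {1}) => Q u) u ⟨hu, h1⟩ le_rfl
  have hge : ∀ u ∈ U, u ≠ 1 → QU ≤ Q u := fun u hu h1 => by
    rw [hQU]; exact iInf₂_le (f := fun u (_ : u ∈ (U : Set G) \ {1}) => Q u) u ⟨hu, h1⟩
  refine ⟨fun g hg x hx => ?_, fun x hx hxU u hu => ?_⟩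
  · have : ⁅QU, LU⁆ ≤ U := by
      rw [hLU, iSup_subtype']
      refine H1.commutator_iSup_right_le (fun u => commutator_le.2 fun a ha b hb => ?_)
        fun u => (hL u u.2.1 u.2.2).le_normalizer (hUQ u u.2.1 u.2.2) u.2.1
      exact zpowers_le.2 u.2.1 ((hL u u.2.1 u.2.2).comm_mem (hge u u.2.1 u.2.2 ha) hb)
    rw [Subgroup.commutator_comm] at this
    exact this (commutator_mem_commutator hg hx)
  · by_cases h1 : u = 1
    · exact ⟨1, one_mem _, by simp [h1]⟩
    have l := hL u hu h1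
    obtain ⟨y, hy, a, b⟩ := l.exists_cent_not_commute (hUQ u hu h1) hu (hge u hu h1 hx) hxU
    exact ⟨y, ⟨hle u hu h1 hy, a⟩, l.conj_eq hy (hge u hu h1 hx) b⟩

end Cfsg.Agent.S5597
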