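import Cfsg.Statements.S5598
import Mathlib
import Cfsg.Agent.H2.LX2

set_option autoImplicit false
open Cfsg

namespace Cfsg.Agent.S5598

open Cfsg.Agent.H2 Subgroup

/-- Setting: `z` is an involution of the finite group `G`; for each element `x`, `Q x` is the largest normal 2-subgroup of the centralizer of `x`; `Q z` is extraspecial and contains its own centralizer in `G`. A subgroup `U` is singular when it is elementary abelian, every non-identity element of `U` is conjugate to `z`, and any two non-identity elements `u`, `v` of `U` are orthogonal (`v ∈ Q u`). Write `QU` for the intersection of the `Q u` and `LU` for the join of the `Q u` over the non-identity `u` in `U`. If the singular subgroup `U` is generated by a set `T` of non-identity elements, then `QU` is already the intersection of the `Q t` over `t ∈ T`. -/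
theorem result {G : Type*} [Group G] [Finite G]
    (Q : G → Subgroup G)
    (hQ : ∀ x : G, Q x = (Cfsg.pCore 2 ↥(Subgroup.centralizer ({x} : Set G))).map (Subgroup.centralizer ({x} : Set G)).subtype)
    (z : G) (hz : orderOf z = 2) (hE : Cfsg.IsExtraspecial 2 ↥(Q z))
    (hC : Subgroup.centralizer ((Q z : Subgroup G) : Set G) ≤ Q z)
    (U : Subgroup G) (hU2 : ∀ u ∈ U, u * u = 1)
    (hS : ∀ u ∈ U, u ≠ 1 → ∃ g : G, g * z * g⁻¹ = u)
    (hO : ∀ u ∈ U, ∀ v ∈ U, u ≠ 1 → v ≠ 1 → v ∈ Q u)
    (QU LU : Subgroup G) (hQU : QU = ⨅ u ∈ ((U : Set G) \ {1}), Q u) (hLU : LU = ⨆ u ∈ ((U : Set G) \ {1}), Q u)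
    (T : Set G) (hT : Subgroup.closure T = U) (hT1 : (1 : G) ∉ T) :
    QU = ⨅ t ∈ T, Q t := by
  have hL : ∀ u ∈ U, u ≠ 1 → LX (Q u) u := fun u hu h1 => by
    obtain ⟨g, rfl⟩ := hS u hu h1
    rw [hQ] at hE hC ⊢
    exact lx_Op_conj (lx_of_Op hz hE hC) g
  have hTU : ∀ t ∈ T, t ∈ U := fun t ht => hT ▸ subset_closure ht
  rw [hQU]
  refine le_antisymm (le_iInf₂ fun t ht => iInf₂_le (f := fun u (_ : u ∈ (U : Set G) \ {1}) => Q u)
    t ⟨hTU t ht, fun e => hT1 (e ▸ ht)⟩) (le_iInf₂ fun u hu x hx => ?_)
  have key : ∀ u ∈ Subgroup.closure T, u = 1 ∨ x ∈ Q u := by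
    intro u hu
    induction hu using closure_induction with
    | mem t ht => exact .inr (mem_iInf.1 (mem_iInf.1 hx t) ht)
    | one => exact .inl rfl
    | inv a ha ih =>
      rw [inv_eq_of_mul_eq_one_right (hU2 a (hT ▸ ha))]; exact ih
    | mul a b ha hb iha ihb =>
      rw [hT] at ha hb
      by_cases ha1 : a = 1
      · simpa [ha1] using ihb
      by_cases hb1 : b = 1
      · simpa [hb1] using iha
      by_cases hab : a = b
      · left; rw [hab, hU2 b hb]
      right
      have xa := iha.resolve_left ha1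
      have xb := ihb.resolve_left hb1
      have l := hL b hb hb1
      obtain ⟨y, hy, e⟩ := l.exists_conj (hO b hb a ha hb1 ha1) ha1 hab
      have : Q (a * b) = H8.cj (Q a) y := by
        rw [← e, hQ, hQ, ← H8.cj_centralizer_singleton]; exact (H8.cj_Op _ _ _).symm
      rw [this, H8.mem_cj]
      rcases l.conj_cases (inv_mem hy) xb with e | e <;> rw [inv_inv] at e <;> rw [e]
      · exact xa
      · exact mul_mem xa (hO a ha b hb ha1 hb1)
  exact (key u (hT ▸ hu.1)).resolve_left hu.2

end Cfsg.Agent.S5598
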