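import Cfsg.Statements.S5729
import Mathlib
import Cfsg.Agent.H7.Sharp
import Cfsg.Agent.H7.Basic

set_option autoImplicit false
open Cfsg

namespace Cfsg.Agent.S5729

open MulAction Finset

/-- Let a finite group G act faithfully and transitively on a set with n ≥ 3 points. Then either G is a Frobenius permutation group (Frobenius as a permutation group: transitive, some non-identity element fixes a point, and no non-identity element fixes two points) of order n(n − 1) and exactly |G|/n of its elements are derangements (fix no point), or the number of derangements is greater than |G|/n. -/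
theorem result {G Ω : Type*} [Group G] [Finite G] [MulAction G Ω] [FaithfulSMul G Ω] [Fintype Ω] (htr : MulAction.IsPretransitive G Ω) (hn : 3 ≤ Fintype.card Ω) :
    ((MulAction.IsPretransitive G Ω ∧ (∃ g : G, g ≠ 1 ∧ ∃ ω : Ω, g • ω = ω) ∧ ∀ g : G, g ≠ 1 → Nat.card (MulAction.fixedBy Ω g) ≤ 1) ∧ Nat.card G = Fintype.card Ω * (Fintype.card Ω - 1) ∧ Fintype.card Ω * Nat.card {g : G // ∀ ω : Ω, g • ω ≠ ω} = Nat.card G) ∨
    Nat.card G < Fintype.card Ω * Nat.card {g : G // ∀ ω : Ω, g • ω ≠ ω} := by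
  classical
  letI := Fintype.ofFinite G
  refine or_iff_not_imp_right.2 fun hlt => ?_
  obtain ⟨a, b, hab⟩ := Fintype.exists_pair_of_one_lt_card (α := Ω) (by omega)
  haveI : Nonempty Ω := ⟨a⟩
  have h1 := H7.sum_card_fixedBy (G := G) (Ω := Ω)
  rw [(Nat.card_eq_one_iff_unique.2 ⟨(pretransitive_iff_subsingleton_quotient G Ω).1 htr,
    ⟨Quotient.mk _ a⟩⟩ : Nat.card (orbitRel.Quotient G Ω) = 1), one_mul] at h1
  have h2 := H7.sum_card_fixedBy (G := G) (Ω := Ω × Ω)
  have h3 : 2 ≤ Nat.card (orbitRel.Quotient G (Ω × Ω)) := by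
    refine Finite.one_lt_card_iff_nontrivial.2 ⟨⟨Quotient.mk _ (a, a), Quotient.mk _ (a, b), fun e => ?_⟩⟩
    obtain ⟨g, hg⟩ := Quotient.exact e
    have := Prod.ext_iff.1 hg
    exact hab (smul_left_cancel g (this.1.trans this.2.symm))
  have h4 : ∀ g : G, Nat.card (fixedBy (Ω × Ω) g) = Nat.card (fixedBy Ω g) * Nat.card (fixedBy Ω g) :=
    fun g => by
      rw [← Nat.card_prod]
      exact Nat.card_congr ((Equiv.subtypeEquivRight fun z => Prod.ext_iff).trans
        (Equiv.subtypeProdEquivProd (p := fun x : Ω => g • x = x) (q := fun x : Ω => g • x = x)))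
  simp only [h4] at h2
  set n := Fintype.card Ω
  set D := Nat.card {g : G // ∀ ω : Ω, g • ω ≠ ω} with hD
  have hle : ∀ g : G, Nat.card (fixedBy Ω g) ≤ n := fun g =>
    (Finite.card_subtype_le _).trans Nat.card_eq_fintype_card.le
  have h0 : ∀ g : G, Nat.card (fixedBy Ω g) = 0 ↔ ∀ ω : Ω, g • ω ≠ ω := fun g => by
    rw [Finite.card_eq_zero_iff, isEmpty_subtype]; rfl
  have h5 : ∑ g : G, (((Nat.card (fixedBy Ω g) : ℤ) - 1) * (n - Nat.card (fixedBy Ω g)) +
      if ∀ ω : Ω, g • ω ≠ ω then (n : ℤ) else 0) =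
      n * D - (Nat.card (orbitRel.Quotient G (Ω × Ω)) - 1) * Nat.card G := by
    rw [sum_add_distrib, ← sum_filter, sum_const, hD, Nat.card_eq_fintype_card (α := {g : G // _}),
      Fintype.card_subtype]
    have : ∀ g : G, ((Nat.card (fixedBy Ω g) : ℤ) - 1) * (n - Nat.card (fixedBy Ω g)) =
        (n + 1) * Nat.card (fixedBy Ω g) - ((Nat.card (fixedBy Ω g) * Nat.card (fixedBy Ω g) : ℕ) : ℤ) - n :=
      fun g => by push_cast; ring
    simp only [this, sum_sub_distrib, ← mul_sum, ← Nat.cast_sum, h1, h2, sum_const, card_univ,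
      ← Nat.card_eq_fintype_card, nsmul_eq_mul]
    push_cast; ring
  have h6 : ∀ g ∈ (univ : Finset G), 0 ≤ ((Nat.card (fixedBy Ω g) : ℤ) - 1) * (n - Nat.card (fixedBy Ω g)) +
      if ∀ ω : Ω, g • ω ≠ ω then (n : ℤ) else 0 := fun g _ => by
    split_ifs with c
    · rw [(h0 g).2 c]; simp
    · have := (h0 g).not.2 c
      have := hle g
      rw [add_zero]
      exact mul_nonneg (by omega) (by omega)
  have h7 := sum_nonneg h6
  have hG : 0 < Nat.card G := Nat.card_pos
  have h8 : n * D = Nat.card G := by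
    rw [h5] at h7
    zify at hlt h3 hG ⊢
    nlinarith
  have h9 := (sum_eq_zero_iff_of_nonneg h6).1 (le_antisymm (by
    rw [h5]; zify at h8 h3 hG; nlinarith) h7)
  have h10 : ∀ g : G, g ≠ 1 → Nat.card (fixedBy Ω g) ≤ 1 := fun g g1 => by
    have := h9 g (mem_univ g)
    split_ifs at this with c
    · rw [(h0 g).2 c]; simp
    · rw [add_zero, mul_eq_zero] at this
      rcases this with e | e
      · omega
      · refine absurd (FaithfulSMul.eq_of_smul_eq_smul (α := Ω) fun ω => ?_) g1
        have := (Set.eq_univ_iff_ncard (fixedBy Ω g)).2 (by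
          rw [← Nat.card_coe_set_eq, Nat.card_eq_fintype_card (α := Ω)]; omega)
        rw [one_smul]
        exact this.ge (Set.mem_univ ω)
  have h11 : D = n - 1 := by
    rw [hD, H7.card_fpf fun x y hxy g hx hy => ?_, Nat.card_eq_fintype_card]
    by_contra g1
    exact hxy (congrArg Subtype.val ((Finite.card_le_one_iff_subsingleton.1 (h10 g g1)).elim
      ⟨x, hx⟩ ⟨y, hy⟩))
  refine ⟨⟨htr, ?_, h10⟩, by rw [← h8, h11], h8⟩
  by_contra e
  have : stabilizer G a = ⊥ := eq_bot_iff.2 fun g hg => by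
    by_contra g1
    exact e ⟨g, g1, a, hg⟩
  rw [H7.card_eq_of_regular this, h11, Nat.card_eq_fintype_card] at h8
  have : n * (n - 1) = n * 1 := by rw [h8, mul_one]
  have := Nat.eq_of_mul_eq_mul_left (by omega) this
  omega

end Cfsg.Agent.S5729
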