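import Cfsg.Statements.S5946
import Mathlib

set_option autoImplicit false
open Cfsg

namespace Cfsg.Agent.S5946

theorem mem_iff {F K : Type*} [Field F] [Field K] [Algebra F K] {g : (Module.End F K)ˣ} :
    g ∈ (Units.map ((Algebra.lmul F K : K →ₐ[F] Module.End F K) : K →* Module.End F K)).range ↔
      ∃ k : K, ∀ x, g.1 x = k * x :=
  ⟨by rintro ⟨k, rfl⟩; exact ⟨k, fun _ => rfl⟩, fun ⟨k, h⟩ => ⟨Units.mk0 k fun e => one_ne_zero
    (((Module.End.isUnit_iff _).1 g.isUnit).1 (by simp [h, e] : g.1 1 = g.1 0)), Units.ext (LinearMap.ext fun x =>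
      (h x).symm)⟩⟩

/-- Let F ⊆ K be finite fields with [K : F] = n ≥ 2 and regard K as an n-dimensional F-vector space. The Singer group M ≤ GL_F(K) of multiplications by the non-zero elements of K is self-centralizing: every F-linear automorphism of K commuting with all of M lies in M. -/
theorem result {F K : Type*} [Field F] [Fintype F] [Field K] [Fintype K] [Algebra F K] (n : ℕ) (hn : 2 ≤ n) (hdim : Module.finrank F K = n) :
    Subgroup.centralizer (((Units.map ((Algebra.lmul F K : K →ₐ[F] Module.End F K) : K →* Module.End F K)).range : Subgroup (Module.End F K)ˣ) : Set (Module.End F K)ˣ) = (Units.map ((Algebra.lmul F K : K →ₐ[F] Module.End F K) : K →* Module.End F K)).range := by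
  ext g
  rw [Subgroup.mem_centralizer_iff, mem_iff]
  refine ⟨fun h => ⟨g.1 1, fun x => ?_⟩, fun ⟨k, hk⟩ a ha => ?_⟩
  · by_cases e : x = 0
    · simp [e]
    simpa [mul_comm] using congr(($(h _ ⟨Units.mk0 x e, rfl⟩)).1 1).symm
  · obtain ⟨c, hc⟩ := mem_iff.1 ha
    ext x; simp [hk, hc, mul_left_comm]

end Cfsg.Agent.S5946
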