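import Cfsg.Statements.S5738
import Cfsg.Agent.S5946

set_option autoImplicit false
open Cfsg

namespace Cfsg.Agent.S5738

/-- Let F ⊆ K be finite fields with |F| = q and [K : F] = n ≥ 2, so |K| = q^n. Regard K as an n-dimensional F-vector space; the multiplications by non-zero elements of K form a cyclic subgroup of GL_F(K) of order q^n − 1 acting regularly on the non-zero vectors (a Singer group). Its normaliser in GL_F(K) has order n·(q^n − 1). -/
theorem result {F K : Type*} [Field F] [Fintype F] [Field K] [Fintype K] [Algebra F K] (n : ℕ) (hn : 2 ≤ n) (hdim : Module.finrank F K = n) :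
    Nat.card (Subgroup.normalizer (((Units.map ((Algebra.lmul F K : K →ₐ[F] Module.End F K) : K →* Module.End F K)).range : Subgroup (Module.End F K)ˣ) : Set (Module.End F K)ˣ)) = n * (Fintype.card K - 1) := by
  haveI : Finite (Module.End F K) := .of_injective _ (DFunLike.coe_injective (F := Module.End F K))
  let u : Gal(K/F) × Kˣ → (Module.End F K)ˣ := fun x =>
    Units.map ((Algebra.lmul F K : K →ₐ[F] Module.End F K) : K →* Module.End F K) x.2 *
      ⟨x.1.toLinearMap, x.1.symm.toLinearMap, by ext; simp, by ext; simp⟩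
  have hu : ∀ x y, (u x).1 y = x.2 * x.1 y := fun _ _ => rfl
  have hu' : ∀ x y, (u x)⁻¹.1 y = x.1.symm (x.2⁻¹ * y :) := fun _ _ => rfl
  rw [← hdim, ← IsGalois.card_aut_eq_finrank, ← Nat.card_eq_fintype_card, ← Nat.card_units, ← Nat.card_prod]
  refine (Nat.card_eq_of_bijective (fun x => ⟨u x, Subgroup.mem_normalizer_fintype fun a ha => by
    obtain ⟨k, hk⟩ := S5946.mem_iff.1 ha
    exact S5946.mem_iff.2 ⟨x.1 k, fun y => by simp [hu, hu', hk]; field_simp⟩⟩)
    ⟨fun x y h => ?_, fun ⟨g, hg⟩ => ?_⟩).symm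
  · have h' : ∀ z, x.2 * x.1 z = y.2 * y.1 z := fun z => congr(($h).1.1 z)
    have : x.2 = y.2 := Units.ext (by simpa using h' 1)
    exact Prod.ext (AlgEquiv.ext fun z => by simpa [this] using h' z) this
  have hi := ((Module.End.isUnit_iff _).1 g.isUnit).1
  have g1 : ∀ y, g.1 (g⁻¹.1 y) = y := fun y => congr($(g.mul_inv) y)
  have g2 : ∀ y, g⁻¹.1 (g.1 y) = y := fun y => congr($(g.inv_mul) y)
  have g0 : g.1 1 ≠ 0 := fun e => one_ne_zero (hi (e.trans (map_zero _).symm))
  have hm : ∀ a b, g.1 (a * b) * g.1 1 = g.1 a * g.1 b := fun a b => by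
    by_cases e : a = 0
    · simp [e]
    obtain ⟨k, hk⟩ := S5946.mem_iff.1 (((Subgroup.mem_normalizer_iff.1 hg) _).1 ⟨Units.mk0 a e, rfl⟩)
    have : ∀ y, g.1 (a * y) = k * g.1 y := fun y => by
      simpa [g2] using hk (g.1 y)
    rw [this, ← mul_one a, this]; ring
  let σ : K →ₐ[F] K := AlgHom.ofLinearMap ((g.1 1)⁻¹ • g.1) (by simp [g0]) fun a b => by
    simp only [LinearMap.smul_apply, smul_eq_mul]; field_simp; rw [mul_comm, hm]
  refine ⟨(AlgEquiv.ofBijective σ σ.bijective, Units.mk0 _ g0), Subtype.ext (Units.ext (LinearMap.ext fun y => ?_))⟩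
  simp [hu, σ, g0]

end Cfsg.Agent.S5738
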