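import Cfsg.Statements.S5739
import Cfsg.Agent.S5946

set_option autoImplicit false
open Cfsg

namespace Cfsg.Agent.S5739

/-- Let F ⊆ K be finite fields with |F| = q and [K : F] = n ≥ 2, and let M ≤ GL_F(K) be the Singer group of multiplications by non-zero elements of K. If g ∈ GL_F(K) does not normalise M, then the order of M ∩ gMg⁻¹ divides q^r − 1 for some proper divisor r of n. In particular, when n is prime, that order divides q − 1. -/
theorem result {F K : Type*} [Field F] [Fintype F] [Field K] [Fintype K] [Algebra F K] (n : ℕ) (hn : 2 ≤ n) (hdim : Module.finrank F K = n)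
    (g : (Module.End F K)ˣ) (hg : ((Units.map ((Algebra.lmul F K : K →ₐ[F] Module.End F K) : K →* Module.End F K)).range).map (MulAut.conj g).toMonoidHom ≠ (Units.map ((Algebra.lmul F K : K →ₐ[F] Module.End F K) : K →* Module.End F K)).range) :
    ∃ r : ℕ, 1 ≤ r ∧ r ∣ n ∧ r < n ∧ Nat.card ↥(((Units.map ((Algebra.lmul F K : K →ₐ[F] Module.End F K) : K →* Module.End F K)).range).map (MulAut.conj g).toMonoidHom ⊓ (Units.map ((Algebra.lmul F K : K →ₐ[F] Module.End F K) : K →* Module.End F K)).range) ∣ Fintype.card F ^ r - 1 := by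
  haveI : Finite (Module.End F K) := .of_injective _ (DFunLike.coe_injective (F := Module.End F K))
  have g1 : ∀ y, g.1 (g⁻¹.1 y) = y := fun y => congr($(g.mul_inv) y)
  have g2 : ∀ y, g⁻¹.1 (g.1 y) = y := fun y => congr($(g.inv_mul) y)
  have hi := ((Module.End.isUnit_iff _).1 g.isUnit)
  let L : IntermediateField F K := Subalgebra.toIntermediateField
    { carrier := {k | ∃ k' : K, ∀ x, g.1 (k' * x) = k * g.1 x}
      mul_mem' := fun ⟨a, ha⟩ ⟨b, hb⟩ => ⟨a * b, fun x => by simp [mul_assoc, ha, hb]⟩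
      add_mem' := fun ⟨a, ha⟩ ⟨b, hb⟩ => ⟨a + b, fun x => by simp [add_mul, ha, hb]⟩
      algebraMap_mem' := fun c => ⟨algebraMap F K c, fun x => by simp [← Algebra.smul_def]⟩ }
    fun k ⟨a, ha⟩ => ⟨a⁻¹, fun x => by
      by_cases e : k = 0
      · obtain rfl : a = 0 := hi.1 (by simpa [e] using ha 1)
        simp [e]
      by_cases e' : a = 0
      · obtain ⟨y, hy⟩ := hi.2 1
        exact absurd (by simpa [e', hy] using (ha y).symm) e
      rw [eq_inv_mul_iff_mul_eq₀ e, ← ha, mul_inv_cancel_left₀ e']⟩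
  have h1 := Module.finrank_mul_finrank F L K
  have h2 := Module.finrank_pos (R := F) (M := L)
  have h3 := Module.finrank_pos (R := L) (M := K)
  refine ⟨Module.finrank F L, h2, hdim ▸ Dvd.intro _ h1, lt_of_le_of_ne (by nlinarith) fun e => hg ?_, ?_⟩
  · have : L = ⊤ := IntermediateField.eq_of_le_of_finrank_eq le_top (by rw [e, ← hdim, IntermediateField.finrank_top'])
    refine (Subgroup.eq_of_le_of_card_ge (fun a ha => ?_) (Subgroup.card_map_of_injective (MulAut.conj g).injective).le).symm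
    obtain ⟨k, hk⟩ := S5946.mem_iff.1 ha
    obtain ⟨k', hk'⟩ : k ∈ L := this.ge trivial
    exact ⟨g⁻¹ * a * g, S5946.mem_iff.2 ⟨k', fun x => hi.1 (by
      simp [hk', hk, g1])⟩, by simp [mul_assoc]⟩
  haveI := Fintype.ofFinite L
  rw [← Module.card_eq_pow_finrank (V := L), ← Nat.card_eq_fintype_card, ← Nat.card_units]
  refine (Subgroup.card_dvd_of_le ?_).trans (Subgroup.card_range_dvd (Units.map
    (((Algebra.lmul F K).comp L.val : L →ₐ[F] Module.End F K) : L →* Module.End F K)))
  rintro _ ⟨⟨a, ha, rfl⟩, k, hk⟩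
  obtain ⟨k', hk'⟩ := S5946.mem_iff.1 ha
  refine ⟨Units.mk0 ⟨k, k', fun x => ?_⟩ fun e => k.ne_zero congr(($e).1), Units.ext congr(($hk).1)⟩
  simpa [hk', g2] using congr(($hk).1 (g.1 x)).symm

end Cfsg.Agent.S5739
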