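import Cfsg.Statements.S5747
import Mathlib

set_option autoImplicit false
open Cfsg

namespace Cfsg.Agent.S5747

open MulAction
variable {G Ω : Type*} [Group G] [MulAction G Ω]

/-- irredundant bases -/
def IB (H : Subgroup G) {t : ℕ} (f : Fin t → Ω) : Prop :=
  (∀ g ∈ H, (∀ i, g • f i = f i) → g = 1) ∧ ∀ i, ∃ g ∈ H, (∀ j, j < i → g • f j = f j) ∧ g • f i ≠ f i

theorem IB_cons {H : Subgroup G} {t : ℕ} {a : Ω} {f : Fin t → Ω} :
    IB H (Fin.cons a f : Fin (t + 1) → Ω) ↔ (∃ g ∈ H, g • a ≠ a) ∧ IB (H ⊓ stabilizer G a) f := by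
  simp [IB, Fin.forall_fin_succ, and_assoc, and_left_comm]

theorem lt_of {H : Subgroup G} {a : Ω} (h : ∃ g ∈ H, g • a ≠ a) : H ⊓ stabilizer G a < H :=
  let ⟨_, h1, h2⟩ := h; lt_of_le_of_ne inf_le_left fun e => h2 (e.ge h1).2

theorem exists_IB [Finite G] (H : Subgroup G) (h : ∀ g ∈ H, (∀ a : Ω, g • a = a) → g = 1) :
    ∃ t, ∃ f : Fin t → Ω, IB H f := by
  induction H using WellFoundedLT.induction with | _ H ih =>
  by_cases e : ∃ a : Ω, ∃ g ∈ H, g • a ≠ a
  · obtain ⟨a, e⟩ := e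
    obtain ⟨t, f, hf⟩ := ih _ (lt_of e) fun g hg => h g hg.1
    exact ⟨_, _, IB_cons.2 ⟨e, hf⟩⟩
  · push Not at e
    exact ⟨0, Fin.elim0, fun g hg _ => h g hg fun a => e a g hg, fun i => i.elim0⟩

theorem size_eq [Finite G] (H : Subgroup G) (h : ∀ t (f : Fin t → Ω) (σ : Equiv.Perm (Fin t)), IB H f → IB H (f ∘ σ))
    {t t' : ℕ} {f : Fin t → Ω} {f' : Fin t' → Ω} (hf : IB H f) (hf' : IB H f') : t = t' := by
  induction H using WellFoundedLT.induction generalizing t t' with | _ H ih =>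
  have z : ∀ {t} {f : Fin 0 → Ω} {f' : Fin (t + 1) → Ω}, IB H f → IB H f' → False := fun h1 h2 => by
    obtain ⟨g, hg, -, e⟩ := h2.2 0
    exact e (by rw [h1.1 g hg fun i => i.elim0, one_smul])
  rcases t with _ | t <;> rcases t' with _ | t'
  · rfl
  · exact (z hf hf').elim
  · exact (z hf' hf).elim
  have key : ∀ {a : Ω}, (∃ g ∈ H, g • a ≠ a) → ∀ {t t' : ℕ} {f : Fin t → Ω} {f' : Fin t' → Ω},
      IB (H ⊓ stabilizer G a) f → IB (H ⊓ stabilizer G a) f' → t = t' := fun {a} e => ih _ (lt_of e) fun t f σ hf => by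
    refine (IB_cons.1 ?_).2
    convert h _ _ (Equiv.Perm.decomposeFin.symm (0, σ)) (IB_cons.2 ⟨e, hf⟩)
    ext i; induction i using Fin.cases <;> simp
  have two : ∀ {t t' : ℕ} {f : Fin (t + 1) → Ω} {f' : Fin (t' + 1) → Ω}, IB H f → IB H f' →
      (∃ g ∈ H ⊓ stabilizer G (f 0), g • f' 0 ≠ f' 0) → t = t' := fun {t t' f f'} hf hf' e => by
    obtain ⟨s, l, hl⟩ := exists_IB (Ω := Ω) (H ⊓ stabilizer G (f 0) ⊓ stabilizer G (f' 0)) fun g hg e =>
      hf.1 g hg.1.1 fun _ => e _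
    rw [← Fin.cons_self_tail f, IB_cons] at hf
    rw [← Fin.cons_self_tail f', IB_cons] at hf'
    have a1 := IB_cons.2 ⟨e, hl⟩
    have a2 : IB H (Fin.cons (f' 0) (Fin.cons (f 0) l) : Fin (s + 2) → Ω) := by
      convert h _ _ (Equiv.swap 0 1) (IB_cons.2 ⟨hf.1, a1⟩)
      ext i
      induction i using Fin.cases with
      | zero => rfl
      | succ i => induction i using Fin.cases with
        | zero => rfl
        | succ i => rw [Function.comp, Equiv.swap_apply_of_ne_of_ne (Fin.succ_ne_zero _) (Fin.succ_succ_ne_one _)]; rfl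
    exact (key hf.1 hf.2 a1).trans (key hf'.1 (IB_cons.1 a2).2 hf'.2)
  by_cases e : ∃ g ∈ H ⊓ stabilizer G (f 0), g • f' 0 ≠ f' 0
  · rw [two hf hf' e]
  by_cases e' : ∃ g ∈ H ⊓ stabilizer G (f' 0), g • f 0 ≠ f 0
  · rw [two hf' hf e']
  push Not at e e'
  rw [← Fin.cons_self_tail f, IB_cons] at hf
  rw [← Fin.cons_self_tail f', IB_cons, show H ⊓ stabilizer G (f' 0) = H ⊓ stabilizer G (f 0) from
    le_antisymm (fun g hg => ⟨hg.1, e' g hg⟩) fun g hg => ⟨hg.1, e g hg⟩] at hf'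
  rw [key hf.1 hf.2 hf'.2]

theorem exists_le {t : ℕ} (f : Fin t → Ω) (h : ∀ g : G, (∀ i, g • f i = f i) → g = 1) :
    IB (⊤ : Subgroup G) f ∨ ∃ s < t, ∃ f' : Fin s → Ω, IB (⊤ : Subgroup G) f' := by
  induction t with
  | zero => exact .inl ⟨by simpa using h, fun i => i.elim0⟩
  | succ t ih =>
    refine or_iff_not_imp_left.2 fun e => ?_
    obtain ⟨i, hi⟩ : ∃ i, ∀ g : G, (∀ j, j < i → g • f j = f j) → g • f i = f i := by
      simpa [IB, eq_true h] using e
    rcases ih (f ∘ i.succAbove) fun g hg => h g (by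
      have : ∀ j, j ≠ i → g • f j = f j := fun j e => by obtain ⟨k, rfl⟩ := Fin.exists_succAbove_eq e; exact hg k
      intro j
      by_cases e : j = i
      · exact e ▸ hi g fun k hk => this k hk.ne
      · exact this j e) with h | ⟨s, hs, h⟩
    · exact ⟨t, by omega, _, h⟩
    · exact ⟨s, by omega, h⟩

/-- Let a finite group G act on a finite set Ω. An irredundant base is a sequence of points ω₁, …, ω_t whose pointwise stabiliser is trivial and in which each ω_i is moved by some element fixing ω₁, …, ω_{i−1}. Then all irredundant bases have the same length if and only if every reordering of an irredundant base is again an irredundant base. -/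
theorem result {G Ω : Type*} [Group G] [Finite G] [MulAction G Ω] [Fintype Ω] :
    (∀ (t t' : ℕ) (f : Fin t → Ω) (f' : Fin t' → Ω), ((∀ g : G, (∀ i : Fin t, g • f i = f i) → g = 1) ∧ ∀ i : Fin t, ∃ g : G, (∀ j : Fin t, j < i → g • f j = f j) ∧ g • f i ≠ f i) → ((∀ g : G, (∀ i : Fin t', g • f' i = f' i) → g = 1) ∧ ∀ i : Fin t', ∃ g : G, (∀ j : Fin t', j < i → g • f' j = f' j) ∧ g • f' i ≠ f' i) → t = t') ↔
    (∀ (t : ℕ) (f : Fin t → Ω) (σ : Equiv.Perm (Fin t)), ((∀ g : G, (∀ i : Fin t, g • f i = f i) → g = 1) ∧ ∀ i : Fin t, ∃ g : G, (∀ j : Fin t, j < i → g • f j = f j) ∧ g • f i ≠ f i) → ((∀ g : G, (∀ i : Fin t, g • (f ∘ σ) i = (f ∘ σ) i) → g = 1) ∧ ∀ i : Fin t, ∃ g : G, (∀ j : Fin t, j < i → g • (f ∘ σ) j = (f ∘ σ) j) ∧ g • (f ∘ σ) i ≠ (f ∘ σ) i)) := by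
  refine ⟨fun h t f σ hf => ?_, fun h t t' f f' hf hf' => size_eq (⊤ : Subgroup G)
    (fun t f σ e => by simpa [IB] using h t f σ (by simpa [IB] using e)) (f := f) (f' := f') (by simpa [IB] using hf)
    (by simpa [IB] using hf')⟩
  rcases exists_le (G := G) (f ∘ σ) fun g hg => hf.1 g fun i => by simpa using hg (σ.symm i) with e | ⟨s, hs, f', e⟩
  · simpa [IB] using e
  · exact absurd (h _ _ f' f (by simpa [IB] using e) hf) hs.ne

end Cfsg.Agent.S5747
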