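import Cfsg.Statements.S5748
import Cfsg.Agent.C3.AC2
import Cfsg.Agent.PF.FT
import Cfsg.Agent.L.Quat

set_option autoImplicit false
open Cfsg

namespace Cfsg.Agent.S5748

open H2 C3 Subgroup

/-- A finite non-abelian simple group in which commuting is a transitive relation on the non-identity elements (equivalently, every non-identity element has abelian centraliser) is isomorphic to PSL₂ over a field with 2^f elements for some f ≥ 2; conversely these groups have that property. -/
theorem result {G : Type*} [Group G] [Finite G] [IsSimpleGroup G] (hG : ¬ IsMulCommutative G) :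
    (∀ a b c : G, a ≠ 1 → b ≠ 1 → c ≠ 1 → Commute a b → Commute b c → Commute a c) ↔
    ∃ (F : Type) (_ : Field F) (_ : Fintype F) (f : ℕ), 2 ≤ f ∧ Fintype.card F = 2 ^ f ∧ Nonempty (G ≃* Matrix.ProjectiveSpecialLinearGroup (Fin 2) F) := by
  constructor
  · intro hct
    have hac : AC G := fun t x y ht hx hy => by
      by_cases h1 : x = 1
      · rw [h1]; exact Commute.one_left _
      by_cases h2 : y = 1
      · rw [h2]; exact Commute.one_right _
      exact hct x t y h1 (ord2_ne_one ht) h2 hx hy.symm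
    obtain ⟨P⟩ : Nonempty (Sylow 2 G) := inferInstance
    have h1 : (P : Subgroup G) ≠ ⊤ := fun e => hG ⟨⟨fun a b => hac.comm (P := P) (e ▸ mem_top a) (e ▸ mem_top b)⟩⟩
    have h2 : ¬ IsCyclic P := fun hc => by
      have h3 := pNil_iff_card.1 (L.pNil_of_isCyclic (sylIn_top P) hc)
      rcases (resOf_normal 2 (⊤ : Subgroup G)).eq_bot_or_eq_top with e | e
      · exact h1 (by rw [← (sylIn_top P).resOf_sup, e, bot_sup_eq])
      · rw [e, card_top] at h3
        have := odd_order (Nat.coprime_two_right.1 h3)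
        exact hG ⟨⟨IsSimpleGroup.comm_iff_isSolvable.2 this⟩⟩
    have h3 := hac.ac0 h2 (Q := P) fun hn => hn.eq_bot_or_eq_top.elim (fun e => h2 (by rw [e]; infer_instance)) h1
    obtain ⟨F, _, _, f, h4, h5, -, h6, -⟩ := (h3.ac1 fun s t a hs ht hc h4 h5 => by_contra fun e =>
      hc (hct s a t (ord2_ne_one hs) e (ord2_ne_one ht) h4.symm h5)).equiv
    exact ⟨F, inferInstance, inferInstance, f, h4, h5, h6⟩
  · rintro ⟨F, _, _, f, h1, h2, ⟨e⟩⟩ a b c - hb - hab hbc
    have : CharP F 2 := by
      obtain ⟨p, hp⟩ := CharP.exists F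
      obtain ⟨n, h3, h4⟩ := FiniteField.card F p
      rwa [(Nat.prime_dvd_prime_iff_eq h3 Nat.prime_two).1 (h3.dvd_of_dvd_pow
        (h2 ▸ h4 ▸ dvd_pow_self p n.ne_zero : p ∣ 2 ^ f))] at hp
    let D := H4.dactS F 2
    have h3 : e a ∈ centralizer {e b} := mem_centralizer_singleton_iff.2 (hab.map e)
    have h4 : e c ∈ centralizer {e b} := mem_centralizer_singleton_iff.2 (hbc.symm.map e)
    refine e.injective (by
      rw [map_mul, map_mul]
      obtain ⟨z, hz⟩ := D.fix (e b)
      by_cases x2 : e b ^ 2 = 1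
      · rw [D.centralizer_U (by simpa using hb) ⟨hz, x2⟩] at h3 h4
        exact D.ucomm h3.1 h3.2 h4.1 h4.2
      · obtain ⟨w, hw, hw'⟩ := D.two hz x2
        rw [D.centralizer_T hw.symm x2 hz hw'] at h3 h4
        exact D.two_comm hw.symm h3.1 h3.2 h4.1 h4.2)

end Cfsg.Agent.S5748
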