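import Cfsg.Statements.S5754
import Mathlib

set_option autoImplicit false
open Cfsg

namespace Cfsg.Agent.S5754

theorem refl {F V : Type*} [Field F] [AddCommGroup V] [Module F V] [Module.Finite F V] (Q : QuadraticForm F V)
    {v : V} (hv : Q v ≠ 0) : ∃ φ : Q.IsometryEquiv Q, ∀ x, φ x = x - (QuadraticMap.polar Q x v / Q v) • v := by
  let r : V →ₗ[F] V := LinearMap.id - ((Q v)⁻¹ • Q.polarBilin.flip v).smulRight v
  have hr : ∀ x, r x = x - (QuadraticMap.polar Q x v / Q v) • v := fun x => by simp [r, div_eq_inv_mul]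
  have h2 : ∀ x, r (r x) = x := fun x => by
    rw [hr, hr, QuadraticMap.polar_sub_left, QuadraticMap.polar_smul_left, QuadraticMap.polar_self]
    match_scalars <;> simp; field_simp; ring
  refine ⟨⟨LinearEquiv.ofInvolutive r h2, fun x => ?_⟩, hr⟩
  change Q (r x) = _
  rw [hr, sub_eq_add_neg, ← neg_smul, QuadraticMap.map_add Q, Q.map_smul, QuadraticMap.polar_smul_right]
  simp; field_simp; ring

/-- Let V be a finite-dimensional vector space over a finite field F carrying an anisotropic quadratic form Q (Q(v) = 0 only for v = 0). Then the group of all maps v ↦ φ(v) + c, with φ an isometry of Q and c ∈ V, acts on V as a binary permutation group: given n ≥ 2 and two n-tuples u, u' of vectors such that every pair of corresponding entries of u is carried to that of u' by such a map, one such map carries u to u'. -/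
theorem result {F V : Type*} [Field F] [Finite F] [AddCommGroup V] [Module F V] [Module.Finite F V]
    (Q : QuadraticForm F V) (hQ : Q.Anisotropic) (n : ℕ) (hn : 2 ≤ n) (u u' : Fin n → V)
    (h2 : ∀ i j : Fin n, i ≠ j → ∃ (φ : Q.IsometryEquiv Q) (c : V), φ (u i) + c = u' i ∧ φ (u j) + c = u' j) :
    ∃ (φ : Q.IsometryEquiv Q) (c : V), ∀ i, φ (u i) + c = u' i := by
  let i₀ : Fin n := ⟨0, by omega⟩
  have hQ' : ∀ i j, Q (u i - u j) = Q (u' i - u' j) := fun i j => by
    by_cases e : i = j
    · simp [e]
    obtain ⟨φ, c, h1, h2⟩ := h2 i j e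
    rw [← h1, ← h2, add_sub_add_right_eq_sub, ← map_sub, φ.map_app]
  have hB : ∀ i j, QuadraticMap.polar Q (u i - u i₀) (u j - u i₀) = QuadraticMap.polar Q (u' i - u' i₀) (u' j - u' i₀) :=
    fun i j => by
      have : ∀ a b : V, QuadraticMap.polar Q a b = Q a + Q b - Q (a - b) := fun a b => by
        rw [sub_eq_add_neg a, QuadraticMap.map_add Q, QuadraticMap.polar_neg_right, Q.map_neg]; ring
      rw [this, this, sub_sub_sub_cancel_right, sub_sub_sub_cancel_right, hQ', hQ' j, hQ' i j]
  have key : ∀ s : Finset (Fin n), ∃ φ : Q.IsometryEquiv Q, ∀ i ∈ s, φ (u i - u i₀) = u' i - u' i₀ := fun s => by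
    classical
    induction s using Finset.induction_on with
    | empty => exact ⟨.refl Q, by simp⟩
    | insert k s _ ih =>
      obtain ⟨φ, hφ⟩ := ih
      by_cases e : φ (u k - u i₀) = u' k - u' i₀
      · exact ⟨φ, by simpa [-map_sub, e] using hφ⟩
      have pφ : ∀ a b, QuadraticMap.polar Q (φ a) (φ b) = QuadraticMap.polar Q a b := fun a b => by
        simp [QuadraticMap.polar, ← map_add, φ.map_app]
      have h0 : Q (φ (u k - u i₀) - (u' k - u' i₀)) ≠ 0 := fun h => e (sub_eq_zero.1 (hQ _ h))
      obtain ⟨ψ, hψ⟩ := refl Q h0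
      refine ⟨φ.trans ψ, fun i hi => ?_⟩
      change ψ (φ _) = _
      rcases Finset.mem_insert.1 hi with rfl | hi
      · rw [hψ, show QuadraticMap.polar Q (φ (u i - u i₀)) _ = Q (φ (u i - u i₀) - (u' i - u' i₀)) by
          rw [QuadraticMap.polar_sub_right, QuadraticMap.polar_self, sub_eq_add_neg (φ _), QuadraticMap.map_add Q,
            QuadraticMap.polar_neg_right, Q.map_neg, ← hQ', φ.map_app]; simp; ring, div_self h0]; simp
      · rw [hψ, QuadraticMap.polar_sub_right, pφ, hφ i hi, hB]; simp
  obtain ⟨φ, hφ⟩ := key Finset.univ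
  exact ⟨φ, u' i₀ - φ (u i₀), fun i => by
    have := hφ i (Finset.mem_univ i); rw [map_sub] at this; linear_combination (norm := abel) this⟩

end Cfsg.Agent.S5754
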