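import Cfsg.Statements.S5763
import Cfsg.Agent.H9.TJ

set_option autoImplicit false
open Cfsg

namespace Cfsg.Agent.S5763

open Cfsg.Agent Cfsg.Agent.H9
def fv (n j : Nat) : Nat := Nat.land (Nat.shiftRight n (Nat.mul 2 j)) 3
def wv (k j : Nat) : Nat := Nat.xor j (Nat.add (Nat.mul 2 (Nat.shiftRight k 4)) (Nat.land (Nat.shiftRight k (Nat.shiftRight j 1)) 1))
def cnt (n : Nat) : Nat → Nat
  | 0 => 0
  | j + 1 => Nat.add (Nat.shiftLeft 1 (Nat.mul 4 (fv n j))) (cnt n j)
def ok (n k : Nat) : Nat → Bool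
  | 0 => true
  | j + 1 => Nat.beq (Nat.xor (fv n (wv k (j + 1))) (fv n (j + 1))) (fv n (wv k 0)) && ok n k j
def anyk (n : Nat) : Nat → Bool
  | 0 => false
  | k + 1 => ok n (63 - k) 7 || anyk n k
def allN : Nat → Bool
  | 0 => true
  | n + 1 => (!(Nat.beq (cnt (Nat.mul 4 n) 8) 8738) || anyk (Nat.mul 4 n) 63) && allN n
theorem allN_true : allN 16384 = true := by decide +kernel

theorem allN_spec {N n : ℕ} (h : allN N = true) (hn : n < N) (hc : cnt (4 * n) 8 = 8738) :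
    anyk (4 * n) 63 = true := by
  induction N with
  | zero => omega
  | succ N ih =>
    simp only [allN, Bool.and_eq_true, Bool.or_eq_true] at h
    rcases Nat.lt_succ_iff_lt_or_eq.mp hn with h1 | rfl
    · exact ih h.2 h1
    · rcases h.1 with h2 | h2
      · change (!(Nat.beq (cnt (4 * n) 8) 8738)) = true at h2
        rw [hc] at h2
        exact absurd h2 (by decide)
      · exact h2

theorem anyk_spec {n K : ℕ} (h : anyk n K = true) : ∃ k < K, ok n (63 - k) 7 = true := by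
  induction K with
  | zero => simp [anyk] at h
  | succ K ih =>
    simp only [anyk, Bool.or_eq_true] at h
    rcases h with h | h
    · exact ⟨K, by omega, h⟩
    · obtain ⟨k, h1, h2⟩ := ih h
      exact ⟨k, by omega, h2⟩

theorem ok_spec {n k J : ℕ} (h : ok n k J = true) {j : ℕ} (h0 : 0 < j) (hj : j ≤ J) :
    fv n (wv k j) ^^^ fv n j = fv n (wv k 0) := by
  induction J with
  | zero => omega
  | succ J ih =>
    simp only [ok, Bool.and_eq_true] at h
    rcases Nat.le_succ_iff.mp hj with h1 | rfl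
    · exact ih h.2 h1
    · exact Nat.eq_of_beq_eq_true h.1

theorem wv_lt : ∀ k < 64, ∀ j : Fin 8, wv k j < 8 := by decide +kernel
theorem wv_inj : ∀ k < 64, ∀ i j : Fin 8, wv k i = wv k j → i = j := by decide +kernel
theorem wv_div : ∀ k < 64, ∀ j : Fin 8, wv k j / 2 = (j.val / 2) ^^^ (k / 16) := by decide +kernel
theorem wv_ne : ∀ k < 64, 0 < k → ∃ j : Fin 8, wv k j ≠ j := by decide +kernel

def Q0 : Subgroup (Equiv.Perm (Fin 8)) where
  carrier := {w | ∃ c : ℕ, ∀ i, (w i).val / 2 = (i.val / 2) ^^^ c}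
  one_mem' := ⟨0, by simp⟩
  mul_mem' := by
    rintro a b ⟨c, hc⟩ ⟨d, hd⟩
    exact ⟨d ^^^ c, fun i => by rw [Equiv.Perm.mul_apply, hc, hd, Nat.xor_assoc]⟩
  inv_mem' := by
    rintro a ⟨c, hc⟩
    refine ⟨c, fun i => ?_⟩
    have := hc (a⁻¹ i)
    rw [show a (a⁻¹ i) = i by simp] at this
    rw [this, Nat.xor_xor_cancel_right]

theorem Q0_pg : IsPGroup 2 Q0 := by
  rintro ⟨w, c, hc⟩
  refine ⟨2, Subtype.ext ?_⟩
  have h1 : ∀ i, ((w * w) i).val / 2 = i.val / 2 := fun i => by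
    rw [Equiv.Perm.mul_apply, hc, hc, Nat.xor_xor_cancel_right]
  change w ^ 2 ^ 2 = 1
  rw [show w ^ 2 ^ 2 = (w * w) * (w * w) by simp [pow_succ, mul_assoc]]
  generalize w * w = v at h1
  ext i
  by_cases h : v i = i
  · simp [h]
  have h2 : v (v i) ≠ v i := fun e => h (v.injective e)
  have h3 := h1 i
  have h4 := h1 (v i)
  simp only [Ne, Fin.ext_iff] at h h2
  change (v (v i)).val = i.val
  omega

theorem key (τ : Equiv.Perm (Fin 8)) : ∃ w ∈ Q0, w ≠ 1 ∧ τ * w * τ⁻¹ ∈ Q0 := by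
  let f : Fin 8 → ℕ := fun j => ((τ j).val / 2) ^^^ ((τ 0).val / 2)
  have hf : ∀ j, f j < 4 := fun j =>
    Nat.xor_lt_two_pow (n := 2) (by have := (τ j).2; omega) (by have := (τ 0).2; omega)
  have h0 : f 0 = 0 := Nat.xor_self _
  let n := f 1 + 4 * f 2 + 16 * f 3 + 64 * f 4 + 256 * f 5 + 1024 * f 6 + 4096 * f 7
  have hfv : ∀ j : Fin 8, fv (4 * n) j = f j := by
    intro j
    have e : ∀ a b, fv a b = a / 2 ^ (2 * b) % 4 := fun a b => by
      change (a >>> (2 * b)) &&& (2 ^ 2 - 1) = _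
      rw [Nat.and_two_pow_sub_one_eq_mod, Nat.shiftRight_eq_div_pow]
    have := hf 1; have := hf 2; have := hf 3; have := hf 4; have := hf 5; have := hf 6
    have := hf 7
    rw [e]
    have : j = 0 ∨ j = 1 ∨ j = 2 ∨ j = 3 ∨ j = 4 ∨ j = 5 ∨ j = 6 ∨ j = 7 := by
      revert j; decide
    rcases this with rfl | rfl | rfl | rfl | rfl | rfl | rfl | rfl <;> simp only [n] <;>
      norm_num <;> omega
  have hc : cnt (4 * n) 8 = 8738 := by
    have e1 : cnt (4 * n) 8 = ∑ j : Fin 8, 1 <<< (4 * fv (4 * n) j) := by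
      simp only [cnt, Fin.sum_univ_eight]
      change _ + (_ + (_ + (_ + (_ + (_ + (_ + (_ + 0))))))) = _
      simp only [Nat.add_eq, Nat.mul_eq, Nat.shiftLeft_eq']
      norm_num
      omega
    rw [e1]
    simp only [hfv, f]
    rw [Equiv.sum_comp τ fun i => 1 <<< (4 * ((i.val / 2) ^^^ ((τ 0).val / 2)))]
    generalize τ 0 = t
    revert t
    decide +kernel
  obtain ⟨k, hk, hok⟩ := anyk_spec (allN_spec allN_true (by
    have := hf 1; have := hf 2; have := hf 3; have := hf 4; have := hf 5; have := hf 6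
    have := hf 7
    simp only [n]; omega) hc)
  have hk' : 63 - k < 64 := by omega
  let w : Equiv.Perm (Fin 8) := Equiv.ofBijective (fun j => ⟨wv (63 - k) j, wv_lt _ hk' j⟩)
    (Finite.injective_iff_bijective.mp fun i j h => wv_inj _ hk' i j (congrArg Fin.val h))
  refine ⟨w, ⟨_, wv_div _ hk'⟩, fun e => ?_, f (w 0), fun i => ?_⟩
  · obtain ⟨j, hj⟩ := wv_ne _ hk' (by omega)
    exact hj (congrArg Fin.val (DFunLike.congr_fun e j))
  · obtain ⟨j, rfl⟩ := τ.surjective i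
    have h1 : f (w j) ^^^ f j = f (w 0) := by
      by_cases hj : j = 0
      · rw [hj, h0, Nat.xor_zero]
      · rw [← hfv, ← hfv, ← hfv]
        exact ok_spec hok (Fin.pos_iff_ne_zero.mpr hj) (by have := j.2; omega)
    rw [← h1]
    simp only [Equiv.Perm.mul_apply, f]
    rw [show τ⁻¹ (τ j) = j by simp, Nat.xor_assoc, Nat.xor_comm ((τ 0).val / 2), Nat.xor_xor_cancel_right, Nat.xor_comm,
      Nat.xor_xor_cancel_right]

/-- In the symmetric group on 8 letters any two Sylow 2-subgroups have non-trivial intersection: for a Sylow 2-subgroup H and every element x, H ∩ xHx⁻¹ ≠ 1. -/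
theorem result (H : Sylow 2 (Equiv.Perm (Fin 8))) (x : Equiv.Perm (Fin 8)) :
    (H : Subgroup (Equiv.Perm (Fin 8))) ⊓ (H : Subgroup (Equiv.Perm (Fin 8))).map (MulAut.conj x).toMonoidHom ≠ ⊥ := by
  obtain ⟨g, hg⟩ := H2.exists_cj_le_sylow H Q0_pg
  obtain ⟨w, h1, h2, h3⟩ := key (g⁻¹ * x⁻¹ * g)
  intro h
  have : g * w * g⁻¹ ∈ (⊥ : Subgroup (Equiv.Perm (Fin 8))) := by
    rw [← h]
    refine ⟨hg (H2.conj_mem_cj g h1), _, hg (H2.conj_mem_cj g h3), ?_⟩
    simp [mul_assoc]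
  exact h2 (by simpa using this)

end Cfsg.Agent.S5763
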