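import Cfsg.Statements.S5890
import Cfsg.Agent.H4.Dick7

set_option autoImplicit false
open Cfsg

namespace Cfsg.Agent.S5890

/-- Let F be a finite field with q ≥ 4 elements, let L ≤ PGL₂(F) be the image of SL₂(F) (a copy of PSL₂(F), of index gcd(2, q − 1)), and let M be a maximal subgroup of PGL₂(F) that does not contain L. Suppose q ∉ {7, 9, 11} and that q is not a prime congruent to ±11 or ±19 modulo 40. Then M ∩ L is a maximal subgroup of L. (For the excluded q there are maximal subgroups of PGL₂(q) — dihedral groups of order 12 and 16 at q = 7, of order 20 and 16 at q = 9, of order 20 at q = 11, and S₄ at the excluded primes — whose intersection with L is not maximal in L.) -/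
theorem result {F : Type*} [Field F]
    [Fintype F] (h4 : 4 ≤ Fintype.card F) (h7 : Fintype.card F ≠ 7) (h9 : Fintype.card F ≠ 9) (h11 : Fintype.card F ≠ 11)
    (h40 : (Fintype.card F).Prime → Fintype.card F % 40 ∉ ({11, 19, 21, 29} : Finset ℕ))
    (M : Subgroup (Matrix.ProjGenLinGroup (Fin 2) F)) (hM : IsCoatom M)
    (hML : ¬ (Matrix.ProjGenLinGroup.mk.comp Matrix.SpecialLinearGroup.toGL).range ≤ M) :
    IsCoatom ((M ⊓ (Matrix.ProjGenLinGroup.mk.comp Matrix.SpecialLinearGroup.toGL).range).subgroupOf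
      (Matrix.ProjGenLinGroup.mk.comp Matrix.SpecialLinearGroup.toGL).range) := by
  open Cfsg.Agent.H4 in
  obtain ⟨p, _, _⟩ := exists_char F
  rw [LL_eq_range] at hML ⊢
  rw [isCoatom_subgroupOf_iff inf_le_right]
  have hM' := hM.covBy_top
  rcases Nat.even_or_odd (Fintype.card F) with he | hodd
  · rwa [LL_eq_top_of_even he, inf_top_eq]
  have hi := index_LL_odd hodd
  have ho := Nat.odd_iff.1 hodd
  have hL : ¬ M ≤ LL F := fun h => by
    rw [← eq_LL_of_covBy le_top hM' hML h, Subgroup.index_top] at hi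
    omega
  rcases covBy_cases p le_top (by omega) hM' hML with ⟨x, hx, rfl⟩ | ⟨x, y, h, rfl⟩ | h | ⟨K, _, _, f, r, g, hr, hq, hK, rfl⟩
  · rw [St, top_inf_eq, inf_comm]
    exact St_covBy le_rfl hx
  · rw [top_inf_eq, inf_comm]
    by_cases hx : Rat x
    · have h1 := h.card_rat le_rfl hx
      have h2 := h.of_covBy_top hx hM'
      rw [hi] at h1
      exact h.covBy_six le_rfl (by omega) (by omega)
    · have h1 := h.card_qd le_rfl hx
      rw [hi] at h1
      by_cases h5 : Fintype.card F = 5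
      · exact h.covBy_five h5 hx
      · exact h.covBy_six le_rfl (by omega) (by omega)
  · rcases h with ⟨hp, ⟨⟨e⟩⟩ | ⟨⟨e⟩⟩ | ⟨⟨e⟩⟩⟩ | ⟨-, ⟨e⟩⟩
    · exact absurd (A4_le_LL e) hL
    · have h1 := S4_of_covBy p le_top hM' hp e
      have hq : (Fintype.card F).Prime := h1 ▸ Fact.out
      obtain ⟨A, hA, ⟨i⟩⟩ := exists_A4_le e
      have h2 : A = M ⊓ LL F := ((covBy_of_relIndex_prime hA Nat.prime_two (by
        rw [card_of_A4 i, card_of_S4 e])).eq_or_eq (le_inf hA (A4_le_LL i)) inf_le_left).resolve_right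
        (fun e => hL (inf_eq_left.1 e)) |>.symm
      rw [S4_le_LL_iff' e] at hL
      have h3 := h40 hq
      simp only [Finset.mem_insert, Finset.mem_singleton, not_or] at h3
      refine h2 ▸ A4_covBy hq (by omega) (by omega) ?_ i
      have h4 : Fintype.card F ^ 2 % 5 = (Fintype.card F % 5) ^ 2 % 5 := Nat.pow_mod _ _ _
      have h5 : 1 ≤ Fintype.card F ^ 2 := Nat.one_le_pow _ _ (by omega)
      generalize Fintype.card F = q at *
      obtain h | h | h | h | h : q % 5 = 0 ∨ q % 5 = 1 ∨ q % 5 = 2 ∨ q % 5 = 3 ∨ q % 5 = 4 := by omega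
      all_goals rw [h] at h4; omega
    · exact absurd (A5_le_LL e) hL
    · exact absurd (A5_le_LL e) hL
  · rw [top_inf_eq, inf_comm, ← cjg_eq_of_LL_le (le_refl (LL F)) g, ← cjg_inf]
    exact covBy_cjg g (subf_covBy le_rfl f hr hq hK (Or.inl rfl))

end Cfsg.Agent.S5890
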