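import Cfsg.Statements.S5891
import Cfsg.Agent.H4.Dick7

set_option autoImplicit false
open Cfsg

namespace Cfsg.Agent.S5891

/-- Let F be a finite field of odd order q > 3 and characteristic p, and let M be a maximal subgroup of PGL₂(F) not containing the image L of SL₂(F) (a copy of PSL₂(F) of index 2). Then one of the following holds: |M| = q(q − 1) (M is the stabiliser of a point of the projective line); q ≠ 5 and M is dihedral of order 2(q − 1); M is dihedral of order 2(q + 1); q = p ≡ ±3 (mod 8) and M ≅ S₄; or q = q₀^r for an odd prime r and M ≅ PGL₂(F₀) with |F₀| = q₀. -/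
theorem result {F : Type*} [Field F] [Fintype F]
    (hodd : Odd (Fintype.card F)) (h3 : 3 < Fintype.card F) (M : Subgroup (Matrix.ProjGenLinGroup (Fin 2) F)) (hM : IsCoatom M)
    (hML : ¬ (Matrix.ProjGenLinGroup.mk.comp Matrix.SpecialLinearGroup.toGL).range ≤ M) :
    Nat.card M = Fintype.card F * (Fintype.card F - 1) ∨
    (Fintype.card F ≠ 5 ∧ Nonempty (M ≃* DihedralGroup (Fintype.card F - 1))) ∨
    Nonempty (M ≃* DihedralGroup (Fintype.card F + 1)) ∨
    ((Fintype.card F).Prime ∧ (Fintype.card F % 8 = 3 ∨ Fintype.card F % 8 = 5) ∧ Nonempty (M ≃* Equiv.Perm (Fin 4))) ∨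
    (∃ (F₀ : Type) (_ : Field F₀) (_ : Fintype F₀) (r : ℕ), r.Prime ∧ Odd r ∧ Fintype.card F = Fintype.card F₀ ^ r ∧
        Nonempty (M ≃* Matrix.ProjGenLinGroup (Fin 2) F₀)) := by
  open Cfsg.Agent.H4 in
  obtain ⟨p, _, _⟩ := exists_char F
  rw [LL_eq_range] at hML
  have hM' := hM.covBy_top
  have hL : ¬ M ≤ LL F := fun h => by
    have := index_LL_odd hodd
    rw [← eq_LL_of_covBy le_top hM' hML h, Subgroup.index_top] at this
    omega
  rcases covBy_cases p le_top (by omega) hM' hML with ⟨x, hx, rfl⟩ | ⟨x, y, h, rfl⟩ | h | ⟨K, _, _, f, r, g, hr, hq, hK, rfl⟩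
  · left
    rw [← card_St_rat le_top hx, Subgroup.index_top, one_mul]
  · obtain ⟨e⟩ := h.equiv_dihedral (p := p) (Γ := ⊤) le_top
    by_cases hx : Rat x
    · have h1 := h.card_rat (Γ := ⊤) le_top hx
      rw [Subgroup.index_top, one_mul] at h1
      exact Or.inr (Or.inl ⟨h.of_covBy_top hx hM', ⟨h1 ▸ e⟩⟩)
    · have h1 := h.card_qd (Γ := ⊤) le_top hx
      rw [Subgroup.index_top, one_mul] at h1
      exact Or.inr (Or.inr (Or.inl ⟨h1 ▸ e⟩))
  · rcases h with ⟨hp, ⟨⟨e⟩⟩ | ⟨⟨e⟩⟩ | ⟨⟨e⟩⟩⟩ | ⟨-, ⟨e⟩⟩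
    · exact absurd (A4_le_LL e) hL
    · have h1 := S4_of_covBy p le_top hM' hp e
      rw [S4_le_LL_iff' e] at hL
      have := Nat.odd_iff.1 hodd
      exact Or.inr (Or.inr (Or.inr (Or.inl ⟨h1 ▸ Fact.out, by omega, ⟨e⟩⟩)))
    · exact absurd (A5_le_LL e) hL
    · exact absurd (A5_le_LL e) hL
  · rw [top_inf_eq] at hL ⊢
    refine Or.inr (Or.inr (Or.inr (Or.inr ⟨K, inferInstance, inferInstance, r, hr, ?_, hq,
      ⟨(cjgEquiv _ _).symm.trans (pkEquiv f).symm⟩⟩)))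
    rw [cjg_le_iff le_rfl, PK_le_LL_iff_even f hq ((Nat.odd_pow_iff hr.ne_zero).1 (hq ▸ hodd))] at hL
    exact Nat.not_even_iff_odd.1 hL

end Cfsg.Agent.S5891
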