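import Cfsg.Statements.S5892
import Cfsg.Agent.H4.Dick7

set_option autoImplicit false
open Cfsg

namespace Cfsg.Agent.S5892

/-- Let F be a finite field of odd order q ≥ 5 and characteristic p, and let M be a maximal subgroup of PSL₂(F). Then one of the following holds: |M| = q(q − 1)/2 (the stabiliser of a point of the projective line); q ≥ 13 and M is dihedral of order q − 1; q ∉ {7, 9} and M is dihedral of order q + 1; q = q₀² and M ≅ PGL₂(F₀) with |F₀| = q₀; q = q₀^r for an odd prime r and M ≅ PSL₂(F₀) with |F₀| = q₀; q ≡ ±1 (mod 10) with q = p or q = p², p ≡ ±3 (mod 10), and M ≅ A₅; q = p ≡ ±3 (mod 8), q ≢ ±1 (mod 10), and M ≅ A₄; or q = p ≡ ±1 (mod 8) and M ≅ S₄. -/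
theorem result {F : Type*} [Field F] [Fintype F] (p : ℕ)
    [Fact p.Prime] [CharP F p] (hodd : Odd (Fintype.card F)) (h5 : 5 ≤ Fintype.card F)
    (M : Subgroup (Matrix.ProjectiveSpecialLinearGroup (Fin 2) F)) (hM : IsCoatom M) :
    2 * Nat.card M = Fintype.card F * (Fintype.card F - 1) ∨
    (13 ≤ Fintype.card F ∧ (∃ k : ℕ, 2 * k = Fintype.card F - 1 ∧ Nonempty (M ≃* DihedralGroup k))) ∨
    (Fintype.card F ≠ 7 ∧ Fintype.card F ≠ 9 ∧ (∃ k : ℕ, 2 * k = Fintype.card F + 1 ∧ Nonempty (M ≃* DihedralGroup k))) ∨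
    (∃ (F₀ : Type) (_ : Field F₀) (_ : Fintype F₀), Fintype.card F = Fintype.card F₀ ^ 2 ∧
        Nonempty (M ≃* Matrix.ProjGenLinGroup (Fin 2) F₀)) ∨
    (∃ (F₀ : Type) (_ : Field F₀) (_ : Fintype F₀) (r : ℕ), r.Prime ∧ Odd r ∧ Fintype.card F = Fintype.card F₀ ^ r ∧
        Nonempty (M ≃* Matrix.ProjectiveSpecialLinearGroup (Fin 2) F₀)) ∨
    ((Fintype.card F % 10 = 1 ∨ Fintype.card F % 10 = 9) ∧
        (Fintype.card F = p ∨ (Fintype.card F = p ^ 2 ∧ (p % 10 = 3 ∨ p % 10 = 7))) ∧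
        Nonempty (M ≃* alternatingGroup (Fin 5))) ∨
    (Fintype.card F = p ∧ (p % 8 = 3 ∨ p % 8 = 5) ∧ ¬ (p % 10 = 1 ∨ p % 10 = 9) ∧
        Nonempty (M ≃* alternatingGroup (Fin 4))) ∨
    (Fintype.card F = p ∧ (p % 8 = 1 ∨ p % 8 = 7) ∧ Nonempty (M ≃* Equiv.Perm (Fin 4))) := by
  open Cfsg.Agent.H4 in
  have hM' := (isCoatom_iff_im M).1 hM
  have i := imEquiv M
  rw [← card_im]
  generalize im M = N at hM' i
  have hi := index_LL_odd hodd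
  have ho := Nat.odd_iff.1 hodd
  rcases covBy_cases p le_rfl (by omega) hM' hM'.lt.not_ge with ⟨x, hx, rfl⟩ | ⟨x, y, h, rfl⟩ | h | ⟨K, _, _, f, r, g, hr, hq, hK, rfl⟩
  · left
    rw [← card_St_rat le_rfl hx, hi]
  · obtain ⟨e⟩ := h.equiv_dihedral (p := p) (le_refl (LL F))
    by_cases hx : Rat x
    · exact Or.inr (Or.inl ⟨h.of_covBy_rat hodd (by omega) hx hM', _, 
        by rw [← h.card_rat le_rfl hx, hi], ⟨i.trans e⟩⟩)
    · exact Or.inr (Or.inr (Or.inl ⟨(h.of_covBy_qd hx hM').1, (h.of_covBy_qd hx hM').2, _,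
        by rw [← h.card_qd le_rfl hx, hi], ⟨i.trans e⟩⟩))
  · have key : ∀ e : N ≃* alternatingGroup (Fin 5), (¬ p ∣ Nat.card N ∨ p = 3) →
        (Fintype.card F % 10 = 1 ∨ Fintype.card F % 10 = 9) ∧
        (Fintype.card F = p ∨ (Fintype.card F = p ^ 2 ∧ (p % 10 = 3 ∨ p % 10 = 7))) ∧
        Nonempty (M ≃* alternatingGroup (Fin 5)) := by
      intro e hp
      rcases A5_of_covBy p hM' hp e with ⟨h1, h2⟩ | ⟨h1, h2⟩
      · exact ⟨h1 ▸ h2, Or.inl h1, ⟨i.trans e⟩⟩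
      · refine ⟨Or.inr ?_, Or.inr ⟨h1, h2⟩, ⟨i.trans e⟩⟩
        rw [h1, Nat.pow_mod]
        rcases h2 with h | h <;> rw [h]
    rcases h with ⟨hp, ⟨⟨e⟩⟩ | ⟨⟨e⟩⟩ | ⟨⟨e⟩⟩⟩ | ⟨hp, ⟨e⟩⟩
    · obtain ⟨h1, h2, h3⟩ := A4_of_covBy p hM' hp e
      exact Or.inr (Or.inr (Or.inr (Or.inr (Or.inr (Or.inr (Or.inl ⟨h1, h2, h3, ⟨i.trans e⟩⟩))))))
    · have h1 := S4_of_covBy p le_rfl hM' hp e
      exact Or.inr (Or.inr (Or.inr (Or.inr (Or.inr (Or.inr (Or.inr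
        ⟨h1, h1 ▸ (S4_le_LL_iff' e).1 hM'.le, ⟨i.trans e⟩⟩))))))
    · exact Or.inr (Or.inr (Or.inr (Or.inr (Or.inr (Or.inl (key e (Or.inl hp)))))))
    · exact Or.inr (Or.inr (Or.inr (Or.inr (Or.inr (Or.inl (key e (Or.inr hp)))))))
  · have hK' : Odd (Fintype.card K) := (Nat.odd_pow_iff hr.ne_zero).1 (hq ▸ hodd)
    rcases hr.eq_two_or_odd' with rfl | hro
    · rw [inf_eq_right.2 ((PK_le_LL_iff_even f hq hK').2 even_two)] at i
      exact Or.inr (Or.inr (Or.inr (Or.inl ⟨K, inferInstance, inferInstance, hq,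
        ⟨i.trans ((cjgEquiv _ _).symm.trans (pkEquiv f).symm)⟩⟩)))
    · rw [inf_comm, PK_inf_LL f hq hK' hro] at i
      exact Or.inr (Or.inr (Or.inr (Or.inr (Or.inl ⟨K, inferInstance, inferInstance, r, hr, hro, hq,
        ⟨i.trans ((cjgEquiv _ _).symm.trans (lkEquiv f).symm)⟩⟩))))

end Cfsg.Agent.S5892
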