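import Cfsg.Statements.S5893
import Cfsg.Agent.H4.Dick7

set_option autoImplicit false
open Cfsg

namespace Cfsg.Agent.S5893

/-- Let F be a finite field of even order q ≥ 4 and let M be a maximal subgroup of PSL₂(F) (= SL₂(F) = PGL₂(F)). Then one of the following holds: |M| = q(q − 1) (the stabiliser of a point of the projective line, elementary abelian of order q extended by a cyclic group of order q − 1); M is dihedral of order 2(q − 1); M is dihedral of order 2(q + 1); or q = q₀^r for a prime r with q₀ ≠ 2 and M ≅ PSL₂(F₀) with |F₀| = q₀. -/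
theorem result {F : Type*} [Field F] [Fintype F]
    (heven : Even (Fintype.card F)) (h4 : 4 ≤ Fintype.card F) (M : Subgroup (Matrix.ProjectiveSpecialLinearGroup (Fin 2) F)) (hM : IsCoatom M) :
    Nat.card M = Fintype.card F * (Fintype.card F - 1) ∨
    Nonempty (M ≃* DihedralGroup (Fintype.card F - 1)) ∨
    Nonempty (M ≃* DihedralGroup (Fintype.card F + 1)) ∨
    (∃ (F₀ : Type) (_ : Field F₀) (_ : Fintype F₀) (r : ℕ), r.Prime ∧ Fintype.card F₀ ≠ 2 ∧
        Fintype.card F = Fintype.card F₀ ^ r ∧ Nonempty (M ≃* Matrix.ProjectiveSpecialLinearGroup (Fin 2) F₀)) := by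
  open Cfsg.Agent.H4 in
  haveI : CharP F 2 := (CharP.charP_iff_prime_eq_zero Nat.prime_two).2 (by exact_mod_cast even_card_iff.1 heven)
  have hM' := (isCoatom_iff_im M).1 hM
  have i := imEquiv M
  rw [← card_im]
  generalize im M = N at hM' i
  have hi : (LL F).index = 1 := by rw [LL_eq_top_of_even heven, Subgroup.index_top]
  rcases covBy_cases 2 le_rfl (by omega) hM' hM'.lt.not_ge with ⟨x, hx, rfl⟩ | ⟨x, y, h, rfl⟩ | h | ⟨K, _, _, f, r, g, hr, hq, hK, rfl⟩
  · left
    rw [← card_St_rat le_rfl hx, hi, one_mul]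
  · obtain ⟨e⟩ := h.equiv_dihedral (p := 2) (le_refl (LL F))
    by_cases hx : Rat x
    · have h1 := h.card_rat le_rfl hx
      rw [hi, one_mul] at h1
      exact Or.inr (Or.inl ⟨h1 ▸ i.trans e⟩)
    · have h1 := h.card_qd le_rfl hx
      rw [hi, one_mul] at h1
      exact Or.inr (Or.inr (Or.inl ⟨h1 ▸ i.trans e⟩))
  · exact absurd rfl h.ne_two
  · have hK' : Even (Fintype.card K) := (Nat.even_pow.1 (hq ▸ heven)).1
    have h2 : PK f = LK f := by rw [LK, LL_eq_top_of_even hK', PK, MonoidHom.range_eq_map]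
    rw [h2, inf_eq_right.2 (LK_le_LL f)] at i
    exact Or.inr (Or.inr (Or.inr ⟨K, inferInstance, inferInstance, r, hr, hK.ne', hq,
      ⟨i.trans ((cjgEquiv _ _).symm.trans (lkEquiv f).symm)⟩⟩))

end Cfsg.Agent.S5893
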