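import Cfsg.Statements.S5895
import Mathlib

set_option autoImplicit false
open Cfsg

namespace Cfsg.Agent.S5895

theorem aux {V : Type} [CommGroup V] [Finite V] (M : Subgroup (MulAut V))
    (hirr : ∀ W : Subgroup V, (∀ m ∈ M, ∀ w ∈ W, m w ∈ W) → W = ⊥ ∨ W = ⊤) (H : Subgroup M)
    (hH : IsCoatom H) (W : Subgroup V) (hW : ∀ m ∈ H, ∀ w ∈ W, (m : MulAut V) w ∈ W)
    (h0 : W ≠ ⊥) (h1 : W ≠ ⊤) :
    ∃ (G : Type) (_ : Group G) (_ : Finite G) (M H K : Subgroup G), IsCoatom M ∧
      M.index = Nat.card V ∧ H ≤ M ∧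
      IsCoatom (H.subgroupOf M) ∧ IsCoatom K ∧ H ≤ K ∧ ¬ IsCoatom (H.subgroupOf K) := by
  haveI : Finite (V ⋊[M.subtype] M) := Finite.of_equiv _ SemidirectProduct.equivProd.symm
  let MM : Subgroup (V ⋊[M.subtype] M) := SemidirectProduct.inr.range
  let KK : Subgroup (V ⋊[M.subtype] M) := H.comap SemidirectProduct.rightHom
  have hMM : ∀ g : V ⋊[M.subtype] M, g ∈ MM ↔ g.left = 1 := by
    intro g
    constructor
    · rintro ⟨m, rfl⟩; rfl
    · intro h; exact ⟨g.right, by ext <;> simp [h]⟩
  obtain ⟨⟨w, hw⟩, hw1⟩ := Subgroup.ne_bot_iff_exists_ne_one.1 h0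
  have hw1' : w ≠ 1 := fun h => hw1 (Subtype.ext h)
  refine ⟨V ⋊[M.subtype] M, inferInstance, inferInstance, MM, MM ⊓ KK, KK, ⟨?_, ?_⟩, ?_,
    inf_le_left, ?_, Subgroup.isCoatom_comap_of_surjective SemidirectProduct.rightHom_surjective hH,
    inf_le_right, ?_⟩
  · intro h
    exact hw1' ((hMM (SemidirectProduct.inl w)).1 (h ▸ Subgroup.mem_top _))
  · intro X hX
    obtain ⟨g, hg1, hg2⟩ := SetLike.exists_of_lt hX
    have hl : ∀ g ∈ X, SemidirectProduct.inl g.left ∈ X := fun g hg => by
      have : SemidirectProduct.inl g.left = g * (SemidirectProduct.inr g.right)⁻¹ := by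
        rw [eq_mul_inv_iff_mul_eq, SemidirectProduct.inl_left_mul_inr_right]
      rw [this]; exact X.mul_mem hg (X.inv_mem (hX.le ⟨_, rfl⟩))
    rcases hirr (X.comap SemidirectProduct.inl) (fun m hm v hv => by
      have := SemidirectProduct.inl_aut (φ := M.subtype) ⟨m, hm⟩ v
      rw [Subgroup.mem_comap]
      erw [this]
      exact X.mul_mem (X.mul_mem (hX.le ⟨_, rfl⟩) hv) (hX.le ⟨_, rfl⟩)) with h | h
    · have : g.left ∈ X.comap SemidirectProduct.inl := hl g hg1
      rw [h] at this
      exact absurd ((hMM g).2 this) hg2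
    · rw [eq_top_iff]
      intro y _
      rw [← SemidirectProduct.inl_left_mul_inr_right y]
      exact X.mul_mem (show y.left ∈ X.comap SemidirectProduct.inl from h ▸ Subgroup.mem_top _)
        (hX.le ⟨_, rfl⟩)
  · have h2 := Subgroup.card_mul_index MM
    have h3 : Nat.card MM = Nat.card M :=
      (Nat.card_congr (MonoidHom.ofInjective SemidirectProduct.inr_injective).toEquiv).symm
    rw [h3, Nat.card_congr SemidirectProduct.equivProd, Nat.card_prod, mul_comm (Nat.card V)] at h2
    exact Nat.eq_of_mul_eq_mul_left Nat.card_pos h2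
  · rw [Subgroup.inf_subgroupOf_left]
    exact Subgroup.isCoatom_comap_of_surjective
      (φ := SemidirectProduct.rightHom.comp MM.subtype) (fun m => ⟨⟨_, m, rfl⟩, by simp⟩) hH
  · intro hc
    let X : Subgroup KK :=
      { carrier := {g | (g : V ⋊[M.subtype] M).left ∈ W}
        mul_mem' := fun {a b} ha hb => W.mul_mem ha (hW _ a.2 _ hb)
        one_mem' := W.one_mem
        inv_mem' := fun {a} ha => hW _ (H.inv_mem a.2) _ (W.inv_mem ha) }
    have hin : ∀ v : V, SemidirectProduct.inl v ∈ KK := fun v => by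
      simp [KK, Subgroup.mem_comap]
    have hlt : (MM ⊓ KK).subgroupOf KK < X := by
      refine lt_of_le_of_ne (fun g hg => ?_) fun h => ?_
      · have : (g : V ⋊[M.subtype] M).left = 1 := (hMM _).1 hg.1
        show (g : V ⋊[M.subtype] M).left ∈ W
        rw [this]; exact W.one_mem
      · have : (⟨_, hin w⟩ : KK) ∈ X := hw
        rw [← h] at this
        exact hw1' ((hMM _).1 this.1)
    apply h1
    rw [eq_top_iff]
    intro v _
    exact (hc.2 X hlt ▸ Subgroup.mem_top _ : (⟨_, hin v⟩ : KK) ∈ X)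

/-- For every prime p and every d ≥ 2 there is a finite group G with a maximal subgroup M of index p^d and a maximal subgroup H of M that is not second maximal in G: some maximal subgroup K of G contains H without H being maximal in K. (One may take G the affine group V ⋊ GL(V) of V = 𝔽_p^d, M = GL(V), H the stabiliser in M of a line W of V, and K = V ⋊ H, with H < W ⋊ H < K.) So the prime-index hypothesis in the second-maximality criterion cannot be relaxed to prime-power index. -/
theorem result (p d : ℕ) (hp : p.Prime)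
    (hd : 2 ≤ d) :
    ∃ (G : Type) (_ : Group G) (_ : Finite G) (M H K : Subgroup G), IsCoatom M ∧ M.index = p ^ d ∧ H ≤ M ∧
      IsCoatom (H.subgroupOf M) ∧ IsCoatom K ∧ H ≤ K ∧ ¬ IsCoatom (H.subgroupOf K) := by
  haveI : Fact p.Prime := ⟨hp⟩
  let F := GaloisField p d
  let V := Multiplicative F
  have hV : Nat.card V = p ^ d := GaloisField.card p d (by omega)
  let P : Subgroup (MulAut V) → Prop := fun M =>
    ∀ W : Subgroup V, (∀ m ∈ M, ∀ w ∈ W, m w ∈ W) → W = ⊥ ∨ W = ⊤
  have hT : P ⊤ := by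
    intro W hW
    rw [or_iff_not_imp_left]
    intro h0
    obtain ⟨⟨w, hw⟩, hw1⟩ := Subgroup.ne_bot_iff_exists_ne_one.1 h0
    have hw1' : Multiplicative.toAdd w ≠ 0 := fun h => hw1 (Subtype.ext h)
    rw [eq_top_iff]
    intro v _
    by_cases hv : Multiplicative.toAdd v = 0
    · have : v = 1 := hv
      rw [this]; exact W.one_mem
    have := hW (AddEquiv.toMultiplicative (AddAut.mulLeft (Units.mk0 _ (div_ne_zero hv hw1'))))
      trivial w hw
    convert this
    show Multiplicative.toAdd v = Multiplicative.toAdd v / Multiplicative.toAdd w *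
      Multiplicative.toAdd w
    rw [div_mul_cancel₀ _ hw1']
  obtain ⟨M, -, hM, hmin⟩ := Finite.exists_le_minimal (p := P) hT
  have hM0 : M ≠ ⊥ := by
    rintro rfl
    obtain ⟨W, hW⟩ := Sylow.exists_subgroup_card_pow_prime (G := V) p (n := 1)
      (by rw [hV]; exact pow_dvd_pow p (by omega))
    rcases hM W (fun m hm w hw => by rw [Subgroup.mem_bot.1 hm]; exact hw) with rfl | rfl
    · simp at hW; exact hp.one_lt.ne hW
    · rw [Subgroup.card_top, hV] at hW
      have := Nat.pow_right_injective hp.two_le hW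
      omega
  haveI : Nontrivial M := (Subgroup.nontrivial_iff_ne_bot M).2 hM0
  obtain ⟨H, hH, -⟩ := (eq_top_or_exists_le_coatom (⊥ : Subgroup M)).resolve_left bot_ne_top
  have hn : ¬ P (H.map M.subtype) := fun h => hH.1 (by
    have := hmin h (Subgroup.map_subtype_le H)
    rw [eq_top_iff]
    intro x _
    obtain ⟨y, hy, e⟩ := this x.2
    rwa [← Subtype.ext e])
  simp only [P] at hn
  push Not at hn
  obtain ⟨W, h1, h2, h3⟩ := hn
  rw [← hV]
  exact aux M hM H hH W (fun m hm => h1 m ⟨m, hm, rfl⟩) h2 h3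

end Cfsg.Agent.S5895
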