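import Cfsg.Statements.S5896
import Mathlib
import Cfsg.Agent.H3.Mackey

set_option autoImplicit false
open Cfsg

namespace Cfsg.Agent.S5896

open scoped commutatorElement
open RegularWreathProduct

theorem ne_bot_of_inj {A B : Type*} [Group A] [Group B] (f : A →* B) (hf : Function.Injective f)
    {d : ℕ} (h : derivedSeries A d ≠ ⊥) : derivedSeries B d ≠ ⊥ := fun e =>
  h ((Subgroup.map_eq_bot_iff_of_injective _ hf).1
    (le_bot_iff.1 (e ▸ map_derivedSeries_le_derivedSeries f d)))

def ev {D Q : Type*} [Group D] [Group Q] (N : Subgroup (D ≀ᵣ Q)) (q : Q) :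
    ↥(N ⊓ (rightHom : D ≀ᵣ Q →* Q).ker) →* D where
  toFun x := x.1.left q
  map_one' := rfl
  map_mul' x y := by
    have : x.1.right = 1 := x.2.2
    simp [this]

theorem key {D Q : Type*} [Group D] [Group Q] (N : Subgroup (D ≀ᵣ Q)) (a : D ≀ᵣ Q)
    (ha : a.right ≠ 1) (hN : ∀ b : D ≀ᵣ Q, ⁅b, a⁆ ∈ N) {d : ℕ} (h : derivedSeries D d ≠ ⊥) :
    derivedSeries ↥(N ⊓ (rightHom : D ≀ᵣ Q →* Q).ker) d ≠ ⊥ := by
  classical
  intro e
  apply h
  rw [← map_derivedSeries_eq (f := ev N 1), e, Subgroup.map_bot]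
  intro s
  refine ⟨⟨⁅(⟨Pi.mulSingle 1 s, 1⟩ : D ≀ᵣ Q), a⁆, hN _, ?_⟩, ?_⟩
  · show _ = 1
    simp [commutatorElement_def]
  · simp [ev, commutatorElement_def, ha]

theorem solv_ker {D Q : Type*} [Group D] [Group Q] [h : Group.IsSolvable D] (N : Subgroup (D ≀ᵣ Q)) :
    Group.IsSolvable ↥(N ⊓ (rightHom : D ≀ᵣ Q →* Q).ker) := by
  obtain ⟨n, hn⟩ := h
  refine ⟨n, eq_bot_iff.2 fun x hx => ?_⟩
  have h1 : ∀ q, ev N q x = 1 := fun q => by
    have := map_derivedSeries_le_derivedSeries (ev N q) n ⟨x, hx, rfl⟩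
    rw [hn] at this; exact this
  refine Subtype.ext (RegularWreathProduct.ext (funext h1) x.2.2)

theorem map_der {G : Type*} [Group G] (d : ℕ) :
    (derivedSeries (commutator G) d).map (commutator G).subtype = derivedSeries G (d + 1) := by
  induction d with
  | zero => rw [derivedSeries_zero, ← MonoidHom.range_eq_map, Subgroup.range_subtype]; rfl
  | succ d ih => rw [derivedSeries_succ, Subgroup.map_commutator, ih]; rfl

theorem exists_solv (d : ℕ) : ∃ (S : Type) (_ : Group S) (_ : Finite S), Group.IsSolvable S ∧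
    derivedSeries S d ≠ ⊥ := by
  induction d with
  | zero => exact ⟨Multiplicative (ZMod 2), inferInstance, inferInstance, inferInstance, top_ne_bot⟩
  | succ d ih =>
    obtain ⟨S, _, _, hS, h⟩ := ih
    refine ⟨S ≀ᵣ Multiplicative (ZMod 2), inferInstance, inferInstance, ?_, ?_⟩
    · haveI := solv_ker (D := S) (Q := Multiplicative (ZMod 2)) ⊤
      exact solvable_of_ker_le_range (⊤ ⊓ (rightHom : S ≀ᵣ Multiplicative (ZMod 2) →* _).ker).subtype
        rightHom (by simp)
    · have h1 := ne_bot_of_inj (Subgroup.inclusion inf_le_left) (Subgroup.inclusion_injective _)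
        (key (commutator (S ≀ᵣ Multiplicative (ZMod 2))) (inl (Multiplicative.ofAdd 1)) (by rw [right_inl]; decide)
          (fun b => Subgroup.commutator_mem_commutator trivial trivial) h)
      rw [← map_der]
      exact fun e => h1 ((Subgroup.map_eq_bot_iff_of_injective _ (Subgroup.subtype_injective _)).1 e)

theorem solv_A5 (M : Subgroup (alternatingGroup (Fin 5))) (hM : M ≠ ⊤) : Group.IsSolvable M := by
  have hc : Nat.card (alternatingGroup (Fin 5)) = 60 := by
    rw [nat_card_alternatingGroup]; simp [Nat.factorial]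
  have h1 := Subgroup.card_mul_index M
  rw [hc] at h1
  have hd : ∀ r : ℕ, r.Prime → r ∣ Nat.card M → r = 2 ∨ r = 3 ∨ r = 5 := by
    intro r hr h
    have h2 : r ∣ 2 * 2 * 3 * 5 := h.trans ⟨_, h1.symm⟩
    simp only [hr.dvd_mul, Nat.prime_dvd_prime_iff_eq hr, Nat.prime_two, Nat.prime_three,
      Nat.prime_five] at h2
    tauto
  by_cases h2 : 2 ∣ Nat.card M
  swap
  · exact H3.burnside_pq Nat.prime_three Nat.prime_five fun r hr h => by
      rcases hd r hr h with rfl | h | h <;> tauto
  by_cases h3 : 3 ∣ Nat.card M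
  swap
  · exact H3.burnside_pq Nat.prime_two Nat.prime_five fun r hr h => by
      rcases hd r hr h with h | rfl | h <;> tauto
  by_cases h5 : 5 ∣ Nat.card M
  swap
  · exact H3.burnside_pq Nat.prime_two Nat.prime_three fun r hr h => by
      rcases hd r hr h with h | h | rfl <;> tauto
  exfalso
  have h6 : M.index ≠ 1 := fun e => hM (Subgroup.index_eq_one.1 e)
  obtain ⟨k, hk⟩ : 30 ∣ Nat.card M := by omega
  have h7 : k * M.index = 2 := by rw [hk] at h1; linarith
  have h8 : M.index = 2 := ((Nat.dvd_prime Nat.prime_two).1 ⟨k, by linarith⟩).resolve_left h6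
  rcases (Subgroup.normal_of_index_eq_two h8).eq_bot_or_eq_top with h | h
  · rw [h, Subgroup.index_bot] at h8; omega
  · exact hM h

/-- Finite perfect groups have solvable maximal subgroups of unbounded derived length: for every d there is a finite perfect group G (equal to its commutator subgroup) with a solvable maximal subgroup H whose derived length exceeds d, i.e. the d-th term of the derived series of H is non-trivial. (Take the derived subgroup of a wreath product S ≀ A₅ with S solvable of large derived length, and H the preimage of a maximal subgroup of A₅.) -/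
theorem result (d : ℕ) :
    ∃ (G : Type) (_ : Group G) (_ : Finite G) (H : Subgroup G), commutator G = ⊤ ∧ IsCoatom H ∧ Group.IsSolvable H ∧
      derivedSeries H d ≠ ⊥ := by
  obtain ⟨S, _, _, hS, h⟩ := exists_solv d
  let Q := alternatingGroup (Fin 5)
  have hQ : commutator Q = ⊤ := commutator_alternatingGroup_eq_top (by simp)
  have hsurj : Function.Surjective (rightHom : S ≀ᵣ Q →* Q) := fun q => ⟨inl q, rfl⟩
  obtain ⟨N, -, ⟨hN, hN2⟩, hmin⟩ := Finite.exists_le_minimal
    (p := fun N : Subgroup (S ≀ᵣ Q) => N.Normal ∧ N.map rightHom = ⊤) (a := ⊤)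
    ⟨inferInstance, Subgroup.map_top_of_surjective _ hsurj⟩
  have hp : N ≤ ⁅N, N⁆ := hmin ⟨inferInstance, by rw [Subgroup.map_commutator, hN2]; exact hQ⟩
    (Subgroup.commutator_le_left _ _)
  obtain ⟨M, hM, -⟩ := (eq_top_or_exists_le_coatom (⊥ : Subgroup Q)).resolve_left bot_ne_top
  let φ : N →* Q := rightHom.comp N.subtype
  have hφ : Function.Surjective φ := fun q => by
    obtain ⟨x, hx, e⟩ : q ∈ N.map rightHom := hN2 ▸ Subgroup.mem_top q
    exact ⟨⟨x, hx⟩, e⟩
  let i : ↥(N ⊓ (rightHom : S ≀ᵣ Q →* Q).ker) →* M.comap φ :=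
    (Subgroup.inclusion inf_le_left).codRestrict _ fun x => by
      have : φ (Subgroup.inclusion inf_le_left x) = 1 := x.2.2
      rw [Subgroup.mem_comap, this]; exact M.one_mem
  refine ⟨N, inferInstance, inferInstance, M.comap φ, ?_,
    Subgroup.isCoatom_comap_of_surjective hφ hM, ?_, ?_⟩
  · apply Subgroup.map_injective N.subtype_injective
    rw [Subgroup.map_subtype_commutator, ← MonoidHom.range_eq_map, Subgroup.range_subtype]
    exact le_antisymm (Subgroup.commutator_le_left _ _) hp
  · haveI := solv_A5 M hM.1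
    haveI := solv_ker N
    refine solvable_of_ker_le_range i (φ.subgroupComap M) fun x hx => ?_
    exact ⟨⟨x.1.1, x.1.2, congrArg Subtype.val (MonoidHom.mem_ker.1 hx)⟩, rfl⟩
  · obtain ⟨q, hq⟩ := exists_ne (1 : Q)
    obtain ⟨a, rfl⟩ := hφ q
    refine ne_bot_of_inj i (fun x y e => Subtype.ext (congrArg (fun z => z.1.1) e))
      (key N a hq (fun b => ?_) h)
    exact N.mul_mem (hN.conj_mem _ a.2 b) (N.inv_mem a.2)

end Cfsg.Agent.S5896
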