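import Cfsg.Statements.S5903
import Cfsg.Agent.S5902

set_option autoImplicit false
open Cfsg

namespace Cfsg.Agent.S5903

/-- Let G be a finite simple group, X a subgroup lying in exactly one maximal subgroup M of G, and N a subgroup of prime order with N ≤ X that is central in M. If the subgroup lattice of X/N is complemented, then the subgroup lattice of G is complemented. -/
theorem result {G : Type*} [Group G] [Finite G] [IsSimpleGroup G] (X M N : Subgroup G)
    (hM : IsCoatom M) (hXM : X ≤ M) (huniq : ∀ M' : Subgroup G, IsCoatom M' → X ≤ M' → M' = M)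
    (hNX : N ≤ X) (hN : (Nat.card N).Prime) (hcen : ∀ n ∈ N, ∀ m ∈ M, m * n = n * m)
    [(N.subgroupOf X).Normal] (hK : ComplementedLattice (Subgroup (X ⧸ N.subgroupOf X))) :
    ComplementedLattice (Subgroup G) := by
  refine ⟨fun H => ?_⟩
  by_cases e : H = ⊥
  · exact ⟨⊤, e ▸ isCompl_bot_top⟩
  by_cases e' : H = ⊤
  · exact ⟨⊥, e' ▸ isCompl_top_bot⟩
  haveI := Fact.mk hN
  obtain ⟨g, h1, h2⟩ : ∃ g : G, ¬ H.map (MulAut.conj g).toMonoidHom ≤ M ∧
      H.map (MulAut.conj g).toMonoidHom ⊓ N = ⊥ := by
    by_contra! h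
    have : N ≤ (Subgroup.normalizer (H : Set G)).normalCore := fun n hn g => by
      by_cases a : H.map (MulAut.conj g⁻¹).toMonoidHom ≤ M
      · refine Subgroup.centralizer_le_normalizer _ fun x hx => ?_
        have := hcen n hn _ (a ⟨x, hx, rfl⟩)
        simp only [MulEquiv.toMonoidHom_eq_coe, MonoidHom.coe_coe, MulAut.conj_apply, inv_inv] at this
        calc x * (g * n * g⁻¹) = g * (g⁻¹ * x * g * n) * g⁻¹ := by group
          _ = _ := by rw [this]; group
      rcases ((H.map (MulAut.conj g⁻¹).toMonoidHom).subgroupOf N).eq_bot_or_eq_top_of_prime_card with b | b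
      · exact absurd (by rwa [Subgroup.subgroupOf_eq_bot, disjoint_iff] at b) (h _ a)
      · obtain ⟨x, hx, rfl⟩ := Subgroup.subgroupOf_eq_top.1 b hn
        exact Subgroup.le_normalizer (by simpa [mul_assoc] using hx)
    rcases (Subgroup.normalizer (H : Set G)).normalCore_normal.eq_bot_or_eq_top with a | a
    · rw [a, le_bot_iff] at this
      simp [this, Nat.not_prime_one] at hN
    · exact (Subgroup.normalizer_eq_top_iff.1 (top_unique (a.ge.trans (Subgroup.normalCore_le _)))).eq_bot_or_eq_top.elim e e'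
  obtain ⟨C, a, b⟩ := S5902.conj_back H g (S5901.result N X M hNX (fun e => hM.1 (top_unique (e.ge.trans hXM)))
    (fun Y h3 hY => by
      have hs := QuotientGroup.mk'_surjective (N.subgroupOf X)
      obtain ⟨C, hC⟩ := exists_isCompl ((Y.subgroupOf X).map (QuotientGroup.mk' (N.subgroupOf X)))
      have e1 : Y.subgroupOf X = ((Y.subgroupOf X).map (QuotientGroup.mk' (N.subgroupOf X))).comap
        (QuotientGroup.mk' _) := (Subgroup.comap_map_eq_self (by
          rw [QuotientGroup.ker_mk']; exact Subgroup.subgroupOf_mono _ h3)).symm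
      refine ⟨(C.comap (QuotientGroup.mk' _)).map X.subtype, fun n hn => ⟨⟨n, hNX hn⟩, ?_, rfl⟩,
        Subgroup.map_subtype_le _, ?_, ?_⟩
      · exact Subgroup.ker_le_comap _ _ (by rwa [QuotientGroup.ker_mk'])
      · rw [← Subgroup.map_subgroupOf_eq_of_le hY, ← Subgroup.map_sup, e1, Subgroup.comap_sup_eq _ _ _ hs,
          hC.sup_eq_top, Subgroup.comap_top, ← MonoidHom.range_eq_map, Subgroup.range_subtype]
      · rw [← Subgroup.map_subgroupOf_eq_of_le hY, ← Subgroup.map_inf _ _ _ X.subtype_injective, e1,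
          ← Subgroup.comap_inf, hC.inf_eq_bot, MonoidHom.comap_bot, QuotientGroup.ker_mk',
          Subgroup.map_subgroupOf_eq_of_le hNX]) hM hXM huniq _ h1 h2)
  exact ⟨C, disjoint_iff.2 b, codisjoint_iff.2 a⟩

end Cfsg.Agent.S5903
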