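import Cfsg.Statements.S5908
import Mathlib
import Cfsg.Agent.H7.U32
import Cfsg.Agent.H6.Mat2

set_option autoImplicit false
open Cfsg

namespace Cfsg.Agent.S5908

open Cfsg.Agent.H7 Subgroup

/-- The subgroup lattice of PSU₃(2) (the solvable group of order 72, realised over the field with 4 elements) is not complemented: some subgroup H has no subgroup X with H ⊔ X = ⊤ and H ⊓ X = ⊥. -/
theorem result {F : Type*} [Field F] [Fintype F] (hF : Fintype.card F = 4) :
    ¬ ComplementedLattice (Subgroup (Cfsg.PSU 3 F 2)) := by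
  haveI : CharP F 2 := charP_of_card_eq_prime_pow (p := 2) (f := 2) hF
  obtain ⟨N, hn, -, -, ⟨e⟩, -⟩ := psu32 hF
  let φ := e.toMonoidHom.comp (QuotientGroup.mk' N)
  have hφ : Function.Surjective φ := e.surjective.comp (QuotientGroup.mk'_surjective N)
  intro h
  obtain ⟨X, hX⟩ := h.exists_isCompl ((zpowers (QuaternionGroup.a 2 : QuaternionGroup 2)).comap φ)
  have hd : ∀ x ∈ X, φ x ∈ zpowers (QuaternionGroup.a 2 : QuaternionGroup 2) → x = 1 := fun x hx h1 =>
    disjoint_def.1 hX.1 h1 hx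
  have hb : X = ⊥ := by
    rw [eq_bot_iff]
    intro x hx
    have : ∀ q : QuaternionGroup 2, q = 1 ∨ q = .a 2 ∨ q ^ 2 = .a 2 := by decide
    rcases this (φ x) with h1 | h1 | h1
    · exact hd x hx (h1 ▸ one_mem _)
    · exact hd x hx (h1 ▸ mem_zpowers _)
    · have h2 := hd _ (pow_mem hx 2) (by rw [map_pow, h1]; exact mem_zpowers _)
      rw [← map_pow, h2, map_one] at h1
      exact absurd h1 (by decide)
  have ht := hX.sup_eq_top
  rw [hb, sup_bot_eq] at ht
  obtain ⟨x, hx⟩ := hφ (.a 1)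
  have h1 : x ∈ (zpowers (QuaternionGroup.a 2 : QuaternionGroup 2)).comap φ := ht ▸ mem_top x
  rw [mem_comap, hx] at h1
  have h2 := orderOf_dvd_of_mem_zpowers h1
  rw [QuaternionGroup.orderOf_a_one, orderOf_eq_prime (p := 2) (by decide) (by decide)] at h2
  omega

end Cfsg.Agent.S5908
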