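import Cfsg.Statements.S5913
import Mathlib

set_option autoImplicit false
open Cfsg

namespace Cfsg.Agent.S5913

theorem all_of_single {S : Type*} [Group S] [IsSimpleGroup S] {n : ℕ} (N : Subgroup (Fin n → S)) [hN : N.Normal]
    {i : Fin n} {s : S} (hs : s ≠ 1) (h : Pi.mulSingle i s ∈ N) (t : S) : Pi.mulSingle i t ∈ N :=
  ((hN.comap (MonoidHom.mulSingle (fun _ => S) i)).eq_bot_or_eq_top.resolve_left fun e =>
    hs (e.le h)).ge (Subgroup.mem_top t)

theorem single_mem {S : Type*} [Group S] [IsSimpleGroup S] (hS : ¬ IsMulCommutative S) {n : ℕ}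
    (N : Subgroup (Fin n → S)) [hN : N.Normal] {x : Fin n → S} (hx : x ∈ N) {i : Fin n} (h : x i ≠ 1) (t : S) :
    Pi.mulSingle i t ∈ N := by
  obtain ⟨s, hs⟩ : ∃ s, s * x i ≠ x i * s := by
    by_contra! e
    rcases (Subgroup.center S).normal_of_characteristic.eq_bot_or_eq_top with e' | e'
    · exact h (e'.le (Subgroup.mem_center_iff.2 e))
    · exact hS ⟨⟨fun a b => Subgroup.mem_center_iff.1 (e'.ge (Subgroup.mem_top b)) a⟩⟩
  refine all_of_single N (s := s * x i * s⁻¹ * (x i)⁻¹) (by rwa [Ne, mul_inv_eq_one, mul_inv_eq_iff_eq_mul]) ?_ t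
  convert mul_mem (hN.conj_mem x hx (Pi.mulSingle i s)) (inv_mem hx) using 1
  ext j
  by_cases e : j = i
  · subst e; simp
  · simp [e]

theorem mem_of_single {S : Type*} [Group S] {n : ℕ} (N : Subgroup (Fin n → S)) {x : Fin n → S}
    (h : ∀ i, Pi.mulSingle i (x i) ∈ N) : x ∈ N := Subgroup.pi_mem_of_mulSingle_mem x h

/-- Let S be a non-abelian simple group and n a natural number. Every normal subgroup N of the direct power S^n (functions Fin n → S) is a subproduct: there is a set T of coordinates such that N consists exactly of the elements whose coordinates outside T are trivial. In particular the minimal normal subgroups of S^n are its n factors. -/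
theorem result {S : Type*} [Group S] [IsSimpleGroup S] (hS : ¬ IsMulCommutative S) (n : ℕ)
    (N : Subgroup (Fin n → S)) [N.Normal] :
    ∃ T : Finset (Fin n), ∀ x : Fin n → S, x ∈ N ↔ ∀ i, i ∉ T → x i = 1 := by
  classical
  refine ⟨Finset.univ.filter fun i => ∃ x ∈ N, x i ≠ 1, fun x => ⟨fun hx i hi => by_contra fun e =>
    hi (by simpa using ⟨x, hx, e⟩), fun h => mem_of_single N fun i => ?_⟩⟩
  by_cases e : ∃ x ∈ N, x i ≠ 1
  · obtain ⟨y, hy, e⟩ := e; exact single_mem hS N hy e _
  · rw [h i (by simpa using e)]; simp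

end Cfsg.Agent.S5913
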