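import Cfsg.Statements.S5914
import Cfsg.Agent.S5913
import Cfsg.Agent.S0721

set_option autoImplicit false
open Cfsg

namespace Cfsg.Agent.S5914

/-- A non-trivial finite group G is characteristically simple (its only characteristic subgroups are 1 and G) if and only if G is isomorphic to a direct power S^n (n ≥ 1) of some simple group S (possibly cyclic of prime order). -/
theorem result {G : Type*} [Group G] [Finite G] [Nontrivial G] :
    (∀ H : Subgroup G, H.Characteristic → H = ⊥ ∨ H = ⊤) ↔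
    ∃ (S : Type) (_ : Group S) (_ : IsSimpleGroup S) (n : ℕ), 1 ≤ n ∧ Nonempty (G ≃* (Fin n → S)) := by
  open S5913 in
  refine ⟨fun h => ?_, fun ⟨S, _, _, n, hn, ⟨e⟩⟩ H hH => or_iff_not_imp_left.2 fun h0 => ?_⟩
  · let N := (SemidirectProduct.rightHom (N := G) (φ := MonoidHom.id (MulAut G))).ker
    have hN : N = (SemidirectProduct.inl (φ := MonoidHom.id (MulAut G))).range :=
      SemidirectProduct.range_inl_eq_ker_rightHom.symm
    haveI : Finite (G ⋊[MonoidHom.id (MulAut G)] MulAut G) :=
      Finite.of_equiv _ SemidirectProduct.equivProd.symm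
    obtain ⟨T, _, m, hT, hm, ⟨e⟩⟩ := S0721.result N (fun e => by
      obtain ⟨x, hx⟩ := exists_ne (1 : G)
      exact hx (SemidirectProduct.inl_injective ((e.le (hN.ge ⟨x, rfl⟩)).trans (map_one _).symm))) fun M hM hle => by
      rcases h (M.comap SemidirectProduct.inl) (Subgroup.characteristic_iff_le_comap.2 fun φ x hx => by
        have := hM.conj_mem _ hx (SemidirectProduct.inr φ)
        rwa [← map_inv, ← SemidirectProduct.inl_aut] at this) with e | e
      · refine .inl (eq_bot_iff.2 fun y hy => ?_)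
        obtain ⟨x, rfl⟩ := hN.le (hle hy)
        rw [show x = 1 from e.le hy, map_one]; exact one_mem _
      · refine .inr (hle.antisymm fun y hy => ?_)
        obtain ⟨x, rfl⟩ := hN.le hy
        exact e.ge (Subgroup.mem_top x)
    exact ⟨T, _, hT, m, hm, ⟨((MonoidHom.ofInjective SemidirectProduct.inl_injective).trans
      (MulEquiv.subgroupCongr hN.symm)).trans e⟩⟩
  have hc : ∀ (φ : (Fin n → S) ≃* (Fin n → S)), ∀ x ∈ H.map e.toMonoidHom, φ x ∈ H.map e.toMonoidHom := by
    rintro φ _ ⟨x, hx, rfl⟩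
    exact ⟨_, Subgroup.characteristic_iff_le_comap.1 hH ((e.trans φ).trans e.symm) hx, by simp⟩
  haveI : (H.map e.toMonoidHom).Normal := (H.normal_of_characteristic).map e.toMonoidHom e.surjective
  obtain ⟨⟨x, hx⟩, x0⟩ := (Subgroup.ne_bot_iff_exists_ne_one).1 h0
  obtain ⟨i, hi⟩ : ∃ i, e x i ≠ 1 := by
    by_contra! a; exact x0 (Subtype.ext (e.injective ((funext a).trans (map_one e).symm)))
  obtain ⟨j, hj⟩ : ∃ j, ∀ t, Pi.mulSingle j t ∈ H.map e.toMonoidHom := by
    by_cases hS : IsMulCommutative S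
    swap
    · exact ⟨i, single_mem hS _ (Subgroup.mem_map_of_mem _ hx) hi⟩
    by_cases a : ∃ j, j ≠ i
    · obtain ⟨j, hj⟩ := a
      have cm : ∀ a b : S, a * b = b * a := hS.1.1
      refine ⟨j, all_of_single _ hi ?_⟩
      rw [← inv_mul_cancel_left (e x) (Pi.mulSingle j (e x i))]
      exact mul_mem (inv_mem (show e x ∈ H.map e.toMonoidHom from ⟨x, hx, rfl⟩)) (hc
        ⟨⟨fun y => y * Pi.mulSingle j (y i), fun y => y * Pi.mulSingle j (y i)⁻¹,
          fun y => by simp [hj.symm, mul_assoc, ← Pi.mulSingle_mul], fun y => by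
            simp [hj.symm, mul_assoc, ← Pi.mulSingle_mul]⟩, fun y z => by
          ext k; simp only [Pi.mul_apply, Pi.mulSingle_mul, mul_assoc]; rw [← mul_assoc (z k), cm (z k), mul_assoc]⟩
        _ ⟨x, hx, rfl⟩)
    · refine ⟨i, all_of_single _ hi ?_⟩
      push Not at a
      convert (show e x ∈ H.map e.toMonoidHom from ⟨x, hx, rfl⟩)
      ext k; rw [a k]; simp
  refine eq_top_iff.2 fun y _ => ?_
  obtain ⟨z, hz, e'⟩ := mem_of_single (H.map e.toMonoidHom) (x := e y) fun k => by
    convert hc (MulEquiv.arrowCongr (Equiv.swap j k) (MulEquiv.refl S)) _ (hj (e y k))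
    ext l
    simp [Pi.mulSingle_apply, Equiv.swap_apply_eq_iff]
  rwa [← e.injective e']

end Cfsg.Agent.S5914
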