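import Cfsg.Statements.S5939
import Cfsg.Agent.H4.Dick7

set_option autoImplicit false
open Cfsg

namespace Cfsg.Agent.S5939

/-- Let p be a prime and F a finite field of characteristic p such that either F has p elements and p ≡ ±1 (mod 10), or F has p² elements and p ≡ ±3 (mod 10). Then PSL_2(F) has a maximal subgroup isomorphic to the alternating group A_5. -/
theorem result {F : Type*} [Field F] [Fintype F] (p : ℕ) [Fact p.Prime] [CharP F p] (h : (Fintype.card F = p ∧ (p % 10 = 1 ∨ p % 10 = 9)) ∨ (Fintype.card F = p ^ 2 ∧ (p % 10 = 3 ∨ p % 10 = 7))) : ∃ H : Subgroup (Matrix.ProjectiveSpecialLinearGroup (Fin 2) F), IsCoatom H ∧ Nonempty (H ≃* alternatingGroup (Fin 5)) := by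
  open Cfsg.Agent.H4 in
  have h1 := (Fact.out : p.Prime).two_le
  have h4 : p ^ 2 % 5 = (p % 5) ^ 2 % 5 := Nat.pow_mod _ _ _
  have h5 : 1 ≤ p ^ 2 := Nat.one_le_pow _ _ (by omega)
  rcases h with ⟨hF, h⟩ | ⟨hF, h⟩
  · obtain ⟨H, -, ⟨e⟩⟩ := exists_A5_LL (F := F) (Dvd.dvd.mul_left (by
      rw [hF]
      rcases h with h | h
      · rw [show p % 5 = 1 by omega] at h4; omega
      · rw [show p % 5 = 4 by omega] at h4; omega) _)
    exact exists_psl_max (A5_covBy p (by omega) (Or.inl hF) e) e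
  · have h6 : p ^ 2 % 5 = 4 := by
      rcases h with h | h
      · rw [show p % 5 = 3 by omega] at h4; omega
      · rw [show p % 5 = 2 by omega] at h4; omega
    obtain ⟨H, -, ⟨e⟩⟩ := exists_A5_LL (F := F) (Dvd.dvd.mul_left (by
      have : (p ^ 2) ^ 2 % 5 = 1 := by rw [Nat.pow_mod, h6]
      rw [hF]; omega) _)
    refine exists_psl_max (A5_covBy p (by rw [hF]; nlinarith [show 3 ≤ p by omega]) (Or.inr ⟨hF, fun h7 => ?_⟩) e) e
    rcases (Nat.Prime.dvd_mul Nat.prime_five).1 h7 with h8 | h8 <;> omega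

end Cfsg.Agent.S5939
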