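import Cfsg.Statements.S5947
import Cfsg.Agent.S5946
import Cfsg.Agent.GS.Zsig

set_option autoImplicit false
open Cfsg

namespace Cfsg.Agent.S5947

theorem aux {p f a : ℕ} (hp : 1 < p) (hf : 1 < f) (h : p ^ f + 1 = 2 ^ a) : False := by
  have h0 : p < p ^ f := by simpa using Nat.pow_lt_pow_right hp hf
  have h4 : 2 ^ 2 ≤ p ^ f := (Nat.pow_le_pow_left hp 2).trans (Nat.pow_le_pow_right hp.le hf)
  obtain ⟨b, rfl⟩ : ∃ b, a = b + 2 := Nat.exists_eq_add_of_le' ((Nat.pow_le_pow_iff_right one_lt_two).1 (by omega))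
  obtain ⟨t, rfl⟩ : Odd p := Nat.not_even_iff_odd.1 fun e => by
    have := (Nat.even_pow' (n := f) (by omega)).2 e
    rw [pow_add] at h; grind
  have h1 : (2 * t + 1) ^ 2 ≡ 1 [MOD 4 * (t + 1)] := ((Nat.modEq_iff_dvd' (by nlinarith)).2 ⟨t, by
    rw [Nat.sub_eq_iff_eq_add (by nlinarith)]; ring⟩).symm
  obtain ⟨k, rfl | rfl⟩ := Nat.even_or_odd' f
  · have := (h1.pow k).of_mul_right
    rw [← pow_mul, one_pow, Nat.ModEq] at this
    rw [pow_add] at h; omega
  · have := (h1.pow k).mul_right (2 * t + 1)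
    rw [← pow_mul, ← pow_succ, one_pow, one_mul] at this
    obtain ⟨j, hj⟩ := (Nat.modEq_iff_dvd' h0.le).1 this.symm
    have e : 2 ^ (b + 2) = (2 * j + 1) * (2 * t + 2) := by
      rw [← h, (Nat.sub_eq_iff_eq_add h0.le).1 hj]; ring
    have := (Nat.Coprime.pow_right (b + 2) (Nat.coprime_two_right.2 ⟨j, rfl⟩)).eq_one_of_dvd ⟨_, e⟩
    rw [this] at e; omega

theorem fix {F V : Type*} [Field F] [Fintype F] [AddCommGroup V] [Module F V] [Finite V] {r n : ℕ} (hr : r.Prime)
    (h : ∀ k : ℕ, 0 < k → k < n → ¬ r ∣ Fintype.card F ^ k - 1) (h' : r ∣ Fintype.card F ^ n - 1) (hn : 0 < n)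
    {x : Module.End F V} (hx : x ^ r = 1) (h1 : x ≠ 1) :
    Module.finrank F (LinearMap.ker (x - 1)) + n ≤ Module.finrank F V := by
  classical
  haveI := Fintype.ofFinite V
  haveI := Fact.mk hr
  have h2 := Equiv.Perm.card_fixedPoints_modEq (f := (x : V → V)) (p := r) (n := 1) (by
    funext v; rw [pow_one]; exact (congrFun (Module.End.coe_pow x r) v).symm.trans (by rw [hx]; rfl))
  rw [Fintype.card_congr (show Function.fixedPoints (x : V → V) ≃ LinearMap.ker (x - 1) from
    Equiv.setCongr (Set.ext fun v => by simp [sub_eq_zero, Function.IsFixedPt])),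
    Module.card_eq_pow_finrank (K := F) (V := V), Module.card_eq_pow_finrank (K := F) (V := LinearMap.ker _)] at h2
  have h3 := Submodule.finrank_lt (s := LinearMap.ker (x - 1)) (by simpa [sub_eq_zero])
  obtain ⟨k, hk⟩ := Nat.exists_eq_add_of_le h3.le
  have hq := Fintype.one_lt_card (α := F)
  have : r.Coprime (Fintype.card F) := hr.coprime_iff_not_dvd.2 fun e => hr.one_lt.ne' (Nat.dvd_one.1 (by
    simpa [Nat.sub_sub_self (Nat.one_le_pow n _ hq.le)] using Nat.dvd_sub (e.trans (dvd_pow_self _ hn.ne')) h'))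
  rw [hk, pow_add, ← mul_one (_ ^ Module.finrank F (LinearMap.ker (x - 1))), mul_assoc, one_mul] at h2
  by_contra e
  exact h k (by omega) (by omega) ((Nat.modEq_iff_dvd' (Nat.one_le_pow _ _ hq.le)).1
    (h2.cancel_left_of_coprime (this.pow_right _)).symm)

/-- Let F ⊆ K be finite fields with |F| = q and [K : F] = n ≥ 2, regard K as an n-dimensional F-vector space, and let M ≤ GL_F(K) be the Singer group of multiplications by non-zero elements of K (cyclic of order q^n − 1). Assume (n, q) ≠ (6, 2), and that it is not the case that n = 2 with q a prime such that q + 1 is a power of 2. Then every abelian subgroup of GL_F(K) of order q^n − 1 is conjugate to M. -/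
theorem result {F K : Type*} [Field F] [Fintype F] [Field K] [Fintype K] [Algebra F K] (n : ℕ) (hn : 2 ≤ n) (hdim : Module.finrank F K = n)
    (hex1 : ¬ (n = 6 ∧ Fintype.card F = 2))
    (hex2 : ¬ (n = 2 ∧ (Fintype.card F).Prime ∧ ∃ a : ℕ, Fintype.card F + 1 = 2 ^ a))
    (U : Subgroup (Module.End F K)ˣ) (hU : IsMulCommutative U) (hcard : Nat.card U = Fintype.card K - 1) :
    ∃ g : (Module.End F K)ˣ, U.map (MulAut.conj g).toMonoidHom = (Units.map ((Algebra.lmul F K : K →ₐ[F] Module.End F K) : K →* Module.End F K)).range := by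
  have hq := Fintype.one_lt_card (α := F)
  have hK : Fintype.card K = Fintype.card F ^ n := hdim ▸ Module.card_eq_pow_finrank
  haveI : Finite (Module.End F K) := .of_injective _ (DFunLike.coe_injective (F := Module.End F K))
  obtain ⟨r, hr, r1, r2⟩ : ∃ r : ℕ, r.Prime ∧ r ∣ Fintype.card F ^ n - 1 ∧
      ∀ k : ℕ, 0 < k → k < n → ¬ r ∣ Fintype.card F ^ k - 1 := by
    refine GS.zsigmondy hq hn (fun h => hex1 h.symm) fun ⟨h, a, ha⟩ => hex2 ⟨h, ?_, a, ha⟩
    obtain ⟨p, _, f, hp, hf⟩ := FiniteField.card' F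
    rw [hf] at ha hq ⊢
    rcases (Nat.succ_le_of_lt f.pos).eq_or_lt with e | e
    · rwa [← e, pow_one]
    exact (aux hp.one_lt e ha).elim
  haveI := Fact.mk hr
  obtain ⟨x, hx⟩ := exists_prime_orderOf_dvd_card' (G := U) r (by rwa [hcard, hK])
  have x1 : x.1.1 ^ r = 1 := by simpa [hx] using congr(($(pow_orderOf_eq_one x)).1.1)
  have x2 : x.1.1 ≠ 1 := fun e => hr.one_lt.ne (by rw [← hx, show x = 1 from Subtype.ext (Units.ext e), orderOf_one])
  have x3 : LinearMap.ker (x.1.1 - 1) = ⊥ := Submodule.finrank_eq_zero.1 (by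
    have := fix hr r2 r1 (by omega) x1 x2; omega)
  let A := Algebra.adjoin F (Units.val '' (U : Set (Module.End F K)ˣ))
  have hA : IsMulCommutative A := Algebra.isMulCommutative_adjoin F (by
    rintro _ ⟨a, ha, rfl⟩ _ ⟨b, hb, rfl⟩; exact congr(($(hU.1.1 ⟨a, ha⟩ ⟨b, hb⟩)).1.1))
  have mem : ∀ u : U, u.1.1 ∈ A := fun u => Algebra.subset_adjoin ⟨_, u.2, rfl⟩
  have inj : ∀ a : A, ∀ v, a.1 v = 0 → a = 0 ∨ v = 0 := fun a v h => or_iff_not_imp_right.2 fun v0 => by
    have hi : ∀ y ∈ LinearMap.ker a.1, x.1.1 y ∈ LinearMap.ker a.1 := fun y hy => by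
      have := congr(($(hA.1.1 a ⟨_, mem x⟩)).1 y)
      simpa [show a.1 y = 0 from hy] using this
    have := fix hr r2 r1 (by omega) (x := x.1.1.restrict hi) (by rw [Module.End.pow_restrict]; ext; simp [x1])
      fun e => v0 (x3.le (by simpa [sub_eq_zero] using congr(($e ⟨v, h⟩).1)))
    have := Submodule.eq_top_of_finrank_eq (S := LinearMap.ker a.1) ((Submodule.finrank_le _).antisymm (by omega))
    exact Subtype.ext (LinearMap.ker_eq_top.1 this)
  letI : CommRing A := { (inferInstance : Ring A) with mul_comm := hA.1.1 }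
  haveI : NoZeroDivisors A := ⟨fun {a b} h => (inj a (b.1 1) congr(($h).1 1)).imp_right fun e =>
    (inj b 1 e).resolve_right one_ne_zero⟩
  haveI : IsDomain A := NoZeroDivisors.to_isDomain A
  letI := (Finite.isField_of_domain A).toField
  let ev : A →ₗ[F] K := LinearMap.applyₗ 1 ∘ₗ A.val.toLinearMap
  have evi : Function.Injective ev := (injective_iff_map_eq_zero _).2 fun a h => (inj a 1 h).resolve_right one_ne_zero
  have hc : Nat.card K ≤ Nat.card A := by
    have := Nat.card_le_card_of_injective (fun o : Option U => o.elim (0 : A) fun u => ⟨_, mem u⟩) (by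
      rintro (_ | a) (_ | b) h
      · rfl
      · exact absurd congr(($h).1).symm b.1.ne_zero
      · exact absurd congr(($h).1) a.1.ne_zero
      · exact congrArg _ (Subtype.ext (Units.ext congr(($h).1))))
    rwa [Finite.card_option, hcard, Nat.sub_add_cancel Fintype.card_pos, ← Nat.card_eq_fintype_card] at this
  let e := LinearEquiv.ofBijective ev ((Nat.bijective_iff_injective_and_card _).2
    ⟨evi, (Nat.card_le_card_of_injective _ evi).antisymm hc⟩)
  obtain ⟨φ⟩ := FiniteField.nonempty_algHom_of_finrank_dvd (F := F) (K := A) (L := K) e.finrank_eq.dvd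
  let ψ := LinearEquiv.ofBijective φ.toLinearMap ((Nat.bijective_iff_injective_and_card _).2
    ⟨φ.injective, Nat.card_congr e.toEquiv⟩)
  refine ⟨⟨(e.symm.trans ψ).toLinearMap, (e.symm.trans ψ).symm.toLinearMap, by ext; simp, by ext; simp⟩,
    Subgroup.eq_of_le_of_card_ge ?_ ?_⟩
  · rintro _ ⟨u, hu, rfl⟩
    refine S5946.mem_iff.2 ⟨φ ⟨_, mem ⟨u, hu⟩⟩, fun y => ?_⟩
    obtain ⟨y, rfl⟩ := ψ.surjective y
    change ψ (e.symm (u.1 (e (ψ.symm (ψ y))))) = _
    rw [ψ.symm_apply_apply, show u.1 (e y) = e (⟨_, mem ⟨u, hu⟩⟩ * y) from rfl, e.symm_apply_apply]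
    exact map_mul φ _ _
  · rw [Subgroup.card_map_of_injective (MulAut.conj _).injective, hcard, ← Nat.card_eq_fintype_card, ← Nat.card_units]
    exact Nat.le_of_dvd Nat.card_pos (Subgroup.card_range_dvd _)

end Cfsg.Agent.S5947
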